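import Cfsg.Statements.S0601
import Cfsg.Agent.Helper16.SylowCenter

set_option autoImplicit false
open Cfsg

namespace Cfsg.Agent.S0601

/-- When O_p(G) contains its centralizer, the normal closure of Ω₁(Z(S)) is elementary abelian and G has no nontrivial normal p-subgroup modulo its centralizer. -/
theorem result {G : Type*} [Group G] [Finite G] {p : ℕ} [Fact p.Prime] (hc : Subgroup.centralizer (Cfsg.pCore p G : Set G) ≤ Cfsg.pCore p G) : (⨆ S : Sylow p G, Cfsg.omegaOne p (((S : Subgroup G)) ⊓ Subgroup.centralizer ((S : Subgroup G) : Set G))).Normal ∧ Cfsg.IsElementaryAbelian p (⨆ S : Sylow p G, Cfsg.omegaOne p (((S : Subgroup G)) ⊓ Subgroup.centralizer ((S : Subgroup G) : Set G))) ∧ ∀ D : Subgroup G, D.Normal → Subgroup.centralizer ((⨆ S : Sylow p G, Cfsg.omegaOne p (((S : Subgroup G)) ⊓ Subgroup.centralizer ((S : Subgroup G) : Set G)) : Subgroup G) : Set G) ≤ D → (∃ k : ℕ, (Subgroup.centralizer ((⨆ S : Sylow p G, Cfsg.omegaOne p (((S : Subgroup G)) ⊓ Subgroup.centralizer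 ((S : Subgroup G) : Set G)) : Subgroup G) : Set G)).relIndex D = p ^ k) → D = Subgroup.centralizer ((⨆ S : Sylow p G, Cfsg.omegaOne p (((S : Subgroup G)) ⊓ Subgroup.centralizer ((S : Subgroup G) : Set G)) : Subgroup G) : Set G) := by
  have hred := Cfsg.Agent.Helper16.zSyl_isPReducedNormal (p := p) (G := G) hc
  rw [Cfsg.Agent.Helper16.isPReducedNormal_iff] at hred
  obtain ⟨hn, he, hD⟩ := hred
  refine ⟨hn, he, ?_⟩
  intro D hDn hCD ⟨k, hk⟩
  apply le_antisymm _ hCD
  apply hD D hDn
  intro x hx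
  refine ⟨k, ?_⟩
  haveI : (Subgroup.centralizer ((Cfsg.Agent.Helper16.zSyl p G : Subgroup G) : Set G)).Normal := by
    haveI := hn
    exact Subgroup.normal_centralizer
  haveI : ((Subgroup.centralizer ((Cfsg.Agent.Helper16.zSyl p G : Subgroup G) : Set G)).subgroupOf D).Normal :=
    Subgroup.Normal.subgroupOf inferInstance D
  have h1 := Subgroup.pow_index_mem
    ((Subgroup.centralizer ((Cfsg.Agent.Helper16.zSyl p G : Subgroup G) : Set G)).subgroupOf D) (⟨x, hx⟩ : ↥D)
  have h2 : ((Subgroup.centralizer ((Cfsg.Agent.Helper16.zSyl p G : Subgroup G) : Set G)).subgroupOf D).index = p ^ k := hk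
  rw [h2, Subgroup.mem_subgroupOf] at h1
  simpa using h1

end Cfsg.Agent.S0601
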