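import Cfsg.Statements.S0602
import Cfsg.Agent.Helper4.ElemAb

set_option autoImplicit false
open Cfsg

namespace Cfsg.Agent.S0602

/-- The Thompson subgroup is characteristic, and nontrivial as soon as p divides the group order. -/
theorem result {G : Type*} [Group G] [Finite G] {p : ℕ} [Fact p.Prime] : (Cfsg.thompsonSubgroup p G).Characteristic ∧ (p ∣ Nat.card G → Cfsg.thompsonSubgroup p G ≠ ⊥) := by
  constructor
  · rw [Subgroup.characteristic_iff_map_le]
    intro ϕ
    unfold Cfsg.thompsonSubgroup
    rw [Subgroup.map_le_iff_le_comap]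
    apply sSup_le
    intro A hA
    rw [← Subgroup.map_le_iff_le_comap]
    exact le_sSup (Cfsg.Agent.Helper4.maxEA_map_equiv ϕ hA)
  · intro hdvd hbot
    obtain ⟨x, hx⟩ := exists_prime_orderOf_dvd_card' p hdvd
    obtain ⟨A, hA⟩ := Cfsg.Agent.Helper4.maxEA_nonempty (G := G) p
    have h1 : A ≤ Cfsg.thompsonSubgroup p G := Cfsg.Agent.Helper4.maxEA_le_thompson hA
    rw [hbot, le_bot_iff] at h1
    have h2 := hA.2 (Subgroup.zpowers x) (Cfsg.Agent.Helper4.isElementaryAbelian_zpowers x
      (by rw [← hx]; exact pow_orderOf_eq_one x))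
    rw [h1, Nat.card_zpowers, hx, Subgroup.card_bot] at h2
    have := (Fact.out : p.Prime).two_le
    omega

end Cfsg.Agent.S0602
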