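import Cfsg.Statements.S0606
import Cfsg.Agent.Helper4.ElemAb
import Cfsg.Agent.Helper4.CardMul

set_option autoImplicit false
open Cfsg

namespace Cfsg.Agent.S0606

/-- Elementary abelian p-subgroups of maximal order are best offenders on any normal elementary abelian p-subgroup. -/
theorem result {G : Type*} [Group G] [Finite G] {p : ℕ} [Fact p.Prime] (V : Subgroup G) [V.Normal] (hV : Cfsg.IsElementaryAbelian p V) (A : Subgroup G) (hA : A ∈ Cfsg.maxElementaryAbelianSubgroups p G) : Cfsg.IsBestOffenderOn p V A := by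
  have hAc : A ≤ Subgroup.centralizer (A : Set G) :=
    Subgroup.le_centralizer_iff_isMulCommutative.mpr hA.1.1
  refine ⟨?_, ?_, ?_⟩
  · intro B hBA
    have hB : Cfsg.IsElementaryAbelian p B := Cfsg.Agent.Helper4.isElementaryAbelian_of_le hA.1 hBA
    have hCEA : Cfsg.IsElementaryAbelian p (V ⊓ Subgroup.centralizer (B : Set G)) :=
      Cfsg.Agent.Helper4.isElementaryAbelian_of_le hV inf_le_left
    have hCB : V ⊓ Subgroup.centralizer (B : Set G) ≤ Subgroup.centralizer (B : Set G) :=
      inf_le_right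
    have hEA := Cfsg.Agent.Helper4.isElementaryAbelian_sup hB hCEA hCB
    have h1 : Nat.card (B ⊔ (V ⊓ Subgroup.centralizer (B : Set G)) : Subgroup G) ≤ Nat.card A :=
      hA.2 _ hEA
    have hBC : B ≤ Subgroup.centralizer ((V ⊓ Subgroup.centralizer (B : Set G) : Subgroup G) : Set G) :=
      Subgroup.le_centralizer_iff.mp hCB
    have h2 := Cfsg.Agent.Helper4.card_sup_mul_card_inf B (V ⊓ Subgroup.centralizer (B : Set G))
      (hBC.trans (Subgroup.centralizer_le_normalizer _))
    have h3 : B ⊓ (V ⊓ Subgroup.centralizer (B : Set G)) ≤ V ⊓ Subgroup.centralizer (A : Set G) := by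
      intro x hx
      rw [Subgroup.mem_inf] at hx
      exact Subgroup.mem_inf.mpr ⟨(Subgroup.mem_inf.mp hx.2).1, hAc (hBA hx.1)⟩
    have h4 : Nat.card (B ⊓ (V ⊓ Subgroup.centralizer (B : Set G)) : Subgroup G)
        ≤ Nat.card (V ⊓ Subgroup.centralizer (A : Set G) : Subgroup G) :=
      Subgroup.card_le_of_le h3
    rw [← h2]
    exact Nat.mul_le_mul h1 h4
  · rw [Subgroup.commutator_eq_bot_iff_le_centralizer.mpr hAc]
    exact bot_le
  · intro a ha
    rw [hA.1.2 a ha]
    exact Subgroup.one_mem _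

end Cfsg.Agent.S0606
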