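import Cfsg.Statements.S0609
-- import your own Cfsg.Agent.* helpers here
import Cfsg.Agent.Helper11.StableNC
import Cfsg.Agent.Helper11.PPrime
import Cfsg.Agent.Helper17.PPrimeCore

set_option autoImplicit false
open Cfsg

namespace Cfsg.Agent.S0609

theorem comm_aux {H : Type*} [Group H] {a b : H} (hab : b * a = a * b) :
    a⁻¹ * b * a * b⁻¹ = 1 := by
  calc a⁻¹ * b * a * b⁻¹ = a⁻¹ * (b * a) * b⁻¹ := by group
    _ = a⁻¹ * (a * b) * b⁻¹ := by rw [hab]
    _ = 1 := by group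

/-- Coprime lifting: a `p`-group `U`, a normal `p'`-subgroup `K`, an element `g` and a
homomorphism `α` on `U` agreeing with conjugation by `g` modulo `K`: some element of `g K`
induces `α` exactly. -/
theorem lift_conj_aux {G : Type*} [Group G] [Finite G] {p : ℕ} [Fact p.Prime]
    (K : Subgroup G) [hK : K.Normal] (hKp : ¬ p ∣ Nat.card K) (U : Subgroup G)
    (hU : IsPGroup p U) (g : G) (α : ↥U →* G)
    (hα : ∀ u : ↥U, g⁻¹ * α u * g * (u : G)⁻¹ ∈ K) :
    ∃ k ∈ K, ∀ u : ↥U, (g * k) * (u : G) * (g * k)⁻¹ = α u := by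
  classical
  have hmem : ∀ (u : ↥U) (k : ↥K), g⁻¹ * α u * g * (k : G) * (u : G)⁻¹ ∈ K := by
    intro u k
    have h1 : g⁻¹ * α u * g * (k : G) * (u : G)⁻¹
        = (g⁻¹ * α u * g * (u : G)⁻¹) * ((u : G) * (k : G) * (u : G)⁻¹) := by group
    rw [h1]
    exact K.mul_mem (hα u) (hK.conj_mem _ k.2 _)
  letI act : MulAction ↥U ↥K :=
    { smul := fun u k => ⟨g⁻¹ * α u * g * (k : G) * (u : G)⁻¹, hmem u k⟩
      one_smul := by
        intro k
        apply Subtype.ext
        show g⁻¹ * α 1 * g * (k : G) * (1 : G)⁻¹ = (k : G)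
        rw [map_one]
        group
      mul_smul := by
        intro u v k
        apply Subtype.ext
        show g⁻¹ * α (u * v) * g * (k : G) * ((u : G) * (v : G))⁻¹
          = g⁻¹ * α u * g * (g⁻¹ * α v * g * (k : G) * (v : G)⁻¹) * (u : G)⁻¹
        rw [map_mul]
        group }
  obtain ⟨k, hk⟩ := hU.nonempty_fixed_point_of_prime_not_dvd_card ↥K hKp
  refine ⟨k, k.2, ?_⟩
  intro u
  have h1 : u • k = k := hk u
  have h2 : g⁻¹ * α u * g * (k : G) * (u : G)⁻¹ = (k : G) := congrArg Subtype.val h1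
  have h3 : g * (k : G) * (u : G) = α u * (g * (k : G)) := by
    calc g * (k : G) * (u : G) = g * (g⁻¹ * α u * g * (k : G) * (u : G)⁻¹) * (u : G) := by
          rw [h2]
      _ = α u * (g * (k : G)) := by group
  rw [h3, mul_inv_cancel_right]

theorem mem_normalizer_of_conj_mem {G : Type*} [Group G] (H : Subgroup G) [Finite H] (r : G)
    (hconj : ∀ b ∈ H, r * b * r⁻¹ ∈ H) : r ∈ Subgroup.normalizer (H : Set G) := by
  have hinj : Function.Injective (fun b : H => (⟨r * b.1 * r⁻¹, hconj b.1 b.2⟩ : H)) := by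
    intro a b hab
    have h5 : r * a.1 * r⁻¹ = r * b.1 * r⁻¹ := congrArg Subtype.val hab
    exact Subtype.ext (mul_left_cancel (mul_right_cancel h5))
  have hsurj := Finite.surjective_of_injective hinj
  rw [Subgroup.mem_normalizer_iff]
  intro h
  constructor
  · exact hconj h
  · intro hh
    obtain ⟨b, hb⟩ := hsurj ⟨r * h * r⁻¹, hh⟩
    have h5 : r * b.1 * r⁻¹ = r * h * r⁻¹ := congrArg Subtype.val hb
    have h6 : b.1 = h := mul_left_cancel (mul_right_cancel h5)
    rw [← h6]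
    exact b.2

theorem pPrimeCore_quot_eq_bot {G : Type*} [Group G] [Finite G] (p : ℕ) :
    Cfsg.pPrimeCore p (G ⧸ Cfsg.pPrimeCore p G) = ⊥ := by
  have hn : (Cfsg.pPrimeCore p (G ⧸ Cfsg.pPrimeCore p G)).Normal :=
    Helper17.pPrimeCore_normal' p _
  have hc : (Nat.card (Cfsg.pPrimeCore p (G ⧸ Cfsg.pPrimeCore p G))).Coprime p :=
    Helper17.pPrimeCore_card_coprime p
  have hcard : (Nat.card ↥((Cfsg.pPrimeCore p (G ⧸ Cfsg.pPrimeCore p G)).comap
      (QuotientGroup.mk' (Cfsg.pPrimeCore p G)))).Coprime p := by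
    rw [Helper11.card_comap_mk]
    exact Nat.Coprime.mul_left hc (Helper17.pPrimeCore_card_coprime p)
  have hle := Helper17.le_pPrimeCore'
    (Subgroup.Normal.comap hn (QuotientGroup.mk' (Cfsg.pPrimeCore p G))) hcard
  rw [eq_bot_iff]
  intro x hx
  obtain ⟨y, rfl⟩ := QuotientGroup.mk'_surjective (Cfsg.pPrimeCore p G) x
  have hy : y ∈ (Cfsg.pPrimeCore p (G ⧸ Cfsg.pPrimeCore p G)).comap
      (QuotientGroup.mk' (Cfsg.pPrimeCore p G)) := hx
  rw [Subgroup.mem_bot]
  exact (QuotientGroup.eq_one_iff y).2 (hle hy)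

theorem eq_one_of_mem_pgroup_of_mem_coprime {G : Type*} [Group G] [Finite G] {p : ℕ}
    [Fact p.Prime] (S K : Subgroup G) (hS : IsPGroup p S) (hK : (Nat.card K).Coprime p) {x : G}
    (hxS : x ∈ S) (hxK : x ∈ K) : x = 1 := by
  have h4 : S ⊓ K = ⊥ := by
    obtain ⟨k, hk⟩ := IsPGroup.iff_card.1 hS
    apply Subgroup.inf_eq_bot_of_coprime
    rw [hk]
    exact Nat.Coprime.pow_left k hK.symm
  have h5 : x ∈ S ⊓ K := Subgroup.mem_inf.2 ⟨hxS, hxK⟩
  rw [h4, Subgroup.mem_bot] at h5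
  exact h5

theorem omega_center_map_quot {G : Type*} [Group G] [Finite G] {p : ℕ} [Fact p.Prime]
    (K : Subgroup G) [K.Normal] (hK : (Nat.card K).Coprime p) (S : Subgroup G)
    (hS : IsPGroup p S) :
    Cfsg.omegaOne p (S.map (QuotientGroup.mk' K) ⊓
        Subgroup.centralizer ((S.map (QuotientGroup.mk' K) : Subgroup (G ⧸ K)) : Set (G ⧸ K)))
      = (Cfsg.omegaOne p (S ⊓ Subgroup.centralizer (S : Set G))).map (QuotientGroup.mk' K) := by
  unfold Cfsg.omegaOne
  rw [MonoidHom.map_closure]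
  congr 1
  ext y
  constructor
  · rintro ⟨hy, hyp⟩
    obtain ⟨hyS, hyC⟩ := Subgroup.mem_inf.1 hy
    obtain ⟨x, hxS, rfl⟩ := Subgroup.mem_map.1 hyS
    refine ⟨x, ⟨Subgroup.mem_inf.2 ⟨hxS, ?_⟩, ?_⟩, rfl⟩
    · rw [Subgroup.mem_centralizer_iff]
      intro s hs
      have h1 : QuotientGroup.mk' K s * QuotientGroup.mk' K x
          = QuotientGroup.mk' K x * QuotientGroup.mk' K s :=
        Subgroup.mem_centralizer_iff.1 hyC _ (Subgroup.mem_map_of_mem _ hs)
      have h2 : s * x * s⁻¹ * x⁻¹ ∈ K := by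
        apply (QuotientGroup.eq_one_iff _).1
        show QuotientGroup.mk' K (s * x * s⁻¹ * x⁻¹) = 1
        simp only [map_mul, map_inv]
        rw [h1]
        group
      have h3 : s * x * s⁻¹ * x⁻¹ ∈ S :=
        S.mul_mem (S.mul_mem (S.mul_mem hs hxS) (S.inv_mem hs)) (S.inv_mem hxS)
      have h4 := eq_one_of_mem_pgroup_of_mem_coprime S K hS hK h3 h2
      calc s * x = (s * x * s⁻¹ * x⁻¹) * (x * s) := by group
        _ = x * s := by rw [h4, one_mul]
    · have h2 : x ^ p ∈ K := by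
        apply (QuotientGroup.eq_one_iff _).1
        show QuotientGroup.mk' K (x ^ p) = 1
        rw [map_pow]
        exact hyp
      exact eq_one_of_mem_pgroup_of_mem_coprime S K hS hK (S.pow_mem hxS p) h2
  · rintro ⟨x, ⟨hx, hxp⟩, rfl⟩
    obtain ⟨hxS, hxC⟩ := Subgroup.mem_inf.1 hx
    refine ⟨Subgroup.mem_inf.2 ⟨Subgroup.mem_map_of_mem _ hxS, ?_⟩, ?_⟩
    · rw [Subgroup.mem_centralizer_iff]
      intro t ht
      obtain ⟨s, hs, rfl⟩ := Subgroup.mem_map.1 ht
      rw [← map_mul, ← map_mul, Subgroup.mem_centralizer_iff.1 hxC s hs]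
    · show (QuotientGroup.mk' K x) ^ p = 1
      rw [← map_pow, hxp, map_one]

theorem thompsonOf_map_quot {G : Type*} [Group G] [Finite G] {p : ℕ} [Fact p.Prime]
    (K : Subgroup G) [K.Normal] (hK : (Nat.card K).Coprime p) (S : Subgroup G)
    (hS : IsPGroup p S) :
    Cfsg.thompsonSubgroupOf p (S.map (QuotientGroup.mk' K))
      = (Cfsg.thompsonSubgroupOf p S).map (QuotientGroup.mk' K) := by
  have hinj : Function.Injective ((QuotientGroup.mk' K).subgroupMap S) := by
    rw [injective_iff_map_eq_one]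
    intro x hx
    have h1 : QuotientGroup.mk' K (x : G) = 1 := congrArg Subtype.val hx
    have h2 : (x : G) ∈ K := (QuotientGroup.eq_one_iff _).1 h1
    exact Subtype.ext (eq_one_of_mem_pgroup_of_mem_coprime S K hS hK x.2 h2)
  obtain ⟨η, hη⟩ : ∃ η : ↥S ≃* ↥(S.map (QuotientGroup.mk' K)),
      ∀ x : ↥S, ((η x : ↥(S.map (QuotientGroup.mk' K))) : G ⧸ K)
        = QuotientGroup.mk' K (x : G) :=
    ⟨MulEquiv.ofBijective ((QuotientGroup.mk' K).subgroupMap S)
      ⟨hinj, (QuotientGroup.mk' K).subgroupMap_surjective S⟩, fun x => rfl⟩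
  unfold Cfsg.thompsonSubgroupOf
  rw [← Helper11.thompson_map_equiv η, Subgroup.map_map, Subgroup.map_map]
  congr 1
  ext x
  exact hη x

theorem tf_transfer {G : Type*} [Group G] [Finite G] {p : ℕ} [hp : Fact p.Prime]
    (K : Subgroup G) [hKn : K.Normal] (hKc : (Nat.card K).Coprime p) (S : Subgroup G)
    (hS : IsPGroup p S) (g : G) :
    (∃ x ∈ K, ∃ c ∈ Subgroup.centralizer
        (Cfsg.omegaOne p (S ⊓ Subgroup.centralizer (S : Set G)) : Set G),
        ∃ n ∈ Subgroup.normalizer (Cfsg.thompsonSubgroupOf p S : Set G), g = x * c * n) ↔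
    (∃ c' ∈ Subgroup.centralizer (Cfsg.omegaOne p (S.map (QuotientGroup.mk' K) ⊓
        Subgroup.centralizer ((S.map (QuotientGroup.mk' K) : Subgroup (G ⧸ K)) : Set (G ⧸ K)))
          : Set (G ⧸ K)),
      ∃ n' ∈ Subgroup.normalizer
        (Cfsg.thompsonSubgroupOf p (S.map (QuotientGroup.mk' K)) : Set (G ⧸ K)),
        QuotientGroup.mk' K g = c' * n') := by
  have hKp : ¬ p ∣ Nat.card K := (Nat.Prime.coprime_iff_not_dvd hp.out).1 hKc.symm
  rw [omega_center_map_quot K hKc S hS, thompsonOf_map_quot K hKc S hS]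
  obtain ⟨U, hUdef⟩ : ∃ U : Subgroup G,
      U = Cfsg.omegaOne p (S ⊓ Subgroup.centralizer (S : Set G)) := ⟨_, rfl⟩
  obtain ⟨J, hJdef⟩ : ∃ J : Subgroup G, J = Cfsg.thompsonSubgroupOf p S := ⟨_, rfl⟩
  rw [← hUdef, ← hJdef]
  have hUS : U ≤ S := by
    rw [hUdef]
    unfold Cfsg.omegaOne
    rw [Subgroup.closure_le]
    intro x hx
    exact (Subgroup.mem_inf.1 hx.1).1
  have hJS : J ≤ S := by
    rw [hJdef]
    unfold Cfsg.thompsonSubgroupOf
    exact Subgroup.map_subtype_le _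
  have hUp : IsPGroup p U := hS.to_le hUS
  have hJp : IsPGroup p J := hS.to_le hJS
  constructor
  · rintro ⟨x, hx, c, hc, n, hn, hg⟩
    refine ⟨QuotientGroup.mk' K c, ?_, QuotientGroup.mk' K n, ?_, ?_⟩
    · rw [Subgroup.mem_centralizer_iff]
      intro t ht
      obtain ⟨u, hu, rfl⟩ := Subgroup.mem_map.1 ht
      rw [← map_mul, ← map_mul, Subgroup.mem_centralizer_iff.1 hc u hu]
    · exact Subgroup.le_normalizer_map (QuotientGroup.mk' K) (Subgroup.mem_map_of_mem _ hn)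
    · have hx1 : QuotientGroup.mk' K x = 1 := (QuotientGroup.eq_one_iff x).2 hx
      rw [hg, map_mul, map_mul, hx1, one_mul]
  · rintro ⟨c', hc', n', hn', hg⟩
    obtain ⟨c₀, rfl⟩ := QuotientGroup.mk'_surjective K c'
    obtain ⟨n₀, rfl⟩ := QuotientGroup.mk'_surjective K n'
    -- lift the centralizing element
    obtain ⟨k₁, hk₁, hc₁⟩ := lift_conj_aux K hKp U hUp c₀ U.subtype (by
      intro u
      apply (QuotientGroup.eq_one_iff _).1
      show QuotientGroup.mk' K (c₀⁻¹ * (u : G) * c₀ * (u : G)⁻¹) = 1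
      have h1 : QuotientGroup.mk' K (u : G) * QuotientGroup.mk' K c₀
          = QuotientGroup.mk' K c₀ * QuotientGroup.mk' K (u : G) :=
        Subgroup.mem_centralizer_iff.1 hc' _ (Subgroup.mem_map_of_mem _ u.2)
      simp only [map_mul, map_inv]
      exact comm_aux h1)
    have hcC : c₀ * k₁ ∈ Subgroup.centralizer (U : Set G) := by
      rw [Subgroup.mem_centralizer_iff]
      intro u hu
      have h1 : (c₀ * k₁) * u * (c₀ * k₁)⁻¹ = u := hc₁ ⟨u, hu⟩
      calc u * (c₀ * k₁) = ((c₀ * k₁) * u * (c₀ * k₁)⁻¹) * (c₀ * k₁) := by rw [h1]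
        _ = (c₀ * k₁) * u := by group
    -- lift the normalizing element
    have hJinj : ∀ a b : ↥J, QuotientGroup.mk' K (a : G) = QuotientGroup.mk' K (b : G) →
        a = b := by
      intro a b hab
      have h1 : (a : G)⁻¹ * (b : G) ∈ K := by
        apply (QuotientGroup.eq_one_iff _).1
        show QuotientGroup.mk' K ((a : G)⁻¹ * (b : G)) = 1
        rw [map_mul, map_inv, hab, inv_mul_cancel]
      have h2 : (a : G)⁻¹ * (b : G) ∈ S := S.mul_mem (S.inv_mem (hJS a.2)) (hJS b.2)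
      have h3 := eq_one_of_mem_pgroup_of_mem_coprime S K hS hKc h2 h1
      apply Subtype.ext
      calc (a : G) = (a : G) * ((a : G)⁻¹ * (b : G)) := by rw [h3, mul_one]
        _ = (b : G) := by group
    have hex : ∀ u : ↥J, ∃ u' : ↥J, QuotientGroup.mk' K (u' : G)
        = QuotientGroup.mk' K n₀ * QuotientGroup.mk' K (u : G) * (QuotientGroup.mk' K n₀)⁻¹ := by
      intro u
      have h1 := (Subgroup.mem_normalizer_iff.1 hn' (QuotientGroup.mk' K (u : G))).1
        (Subgroup.mem_map_of_mem _ u.2)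
      obtain ⟨u', hu', hu'e⟩ := Subgroup.mem_map.1 h1
      exact ⟨⟨u', hu'⟩, hu'e⟩
    choose β hβ using hex
    have hβmul : ∀ a b : ↥J, β (a * b) = β a * β b := by
      intro a b
      apply hJinj
      rw [hβ (a * b)]
      show _ = QuotientGroup.mk' K ((β a : G) * (β b : G))
      rw [map_mul, hβ a, hβ b]
      show QuotientGroup.mk' K n₀ * QuotientGroup.mk' K ((a : G) * (b : G))
        * (QuotientGroup.mk' K n₀)⁻¹ = _
      rw [map_mul]
      group
    obtain ⟨k₂, hk₂, hn₂⟩ := lift_conj_aux K hKp J hJp n₀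
      (J.subtype.comp (MonoidHom.mk' β hβmul)) (by
      intro u
      apply (QuotientGroup.eq_one_iff _).1
      show QuotientGroup.mk' K (n₀⁻¹ * ((β u : ↥J) : G) * n₀ * (u : G)⁻¹) = 1
      simp only [map_mul, map_inv]
      rw [hβ u]
      group)
    have hnN : n₀ * k₂ ∈ Subgroup.normalizer (J : Set G) := by
      apply mem_normalizer_of_conj_mem
      intro b hb
      have h1 : (n₀ * k₂) * b * (n₀ * k₂)⁻¹ = ((β ⟨b, hb⟩ : ↥J) : G) := hn₂ ⟨b, hb⟩
      rw [h1]
      exact (β ⟨b, hb⟩).2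
    refine ⟨g * ((c₀ * k₁) * (n₀ * k₂))⁻¹, ?_, c₀ * k₁, hcC, n₀ * k₂, hnN, by group⟩
    apply (QuotientGroup.eq_one_iff _).1
    show QuotientGroup.mk' K (g * ((c₀ * k₁) * (n₀ * k₂))⁻¹) = 1
    have hk1 : QuotientGroup.mk' K k₁ = 1 := (QuotientGroup.eq_one_iff k₁).2 hk₁
    have hk2 : QuotientGroup.mk' K k₂ = 1 := (QuotientGroup.eq_one_iff k₂).2 hk₂
    rw [map_mul, map_inv, map_mul, map_mul, map_mul, hg, hk1, hk2]
    group

/-- Thompson factorizability passes to and from the quotient by the largest normal subgroup of order prime to p. -/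
theorem result {G : Type*} [Group G] [Finite G] {p : ℕ} [Fact p.Prime] : Cfsg.IsThompsonFactorizable p G ↔ Cfsg.IsThompsonFactorizable p (G ⧸ Cfsg.pPrimeCore p G) := by
  have hKc : (Nat.card (Cfsg.pPrimeCore p G)).Coprime p := Helper17.pPrimeCore_card_coprime p
  have hπ : Function.Surjective (QuotientGroup.mk' (Cfsg.pPrimeCore p G)) :=
    QuotientGroup.mk'_surjective _
  have hbot := pPrimeCore_quot_eq_bot (G := G) p
  unfold Cfsg.IsThompsonFactorizable
  constructor
  · intro h Sbar gbar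
    obtain ⟨S, rfl⟩ := Sylow.mapSurjective_surjective hπ p Sbar
    obtain ⟨g, rfl⟩ := hπ gbar
    obtain ⟨c', hc', n', hn', hg⟩ :=
      (tf_transfer (Cfsg.pPrimeCore p G) hKc (S : Subgroup G) S.isPGroup' g).1 (h S g)
    exact ⟨1, Subgroup.one_mem _, c', hc', n', hn', by rw [one_mul]; exact hg⟩
  · intro h S g
    obtain ⟨xb, hxb, cb, hcb, nb, hnb, hg⟩ :=
      h (S.mapSurjective hπ) (QuotientGroup.mk' _ g)
    rw [hbot, Subgroup.mem_bot] at hxb
    rw [hxb, one_mul] at hg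
    exact (tf_transfer (Cfsg.pPrimeCore p G) hKc (S : Subgroup G) S.isPGroup' g).2
      ⟨cb, hcb, nb, hnb, hg⟩

end Cfsg.Agent.S0609
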