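import Cfsg.Statements.S1492
import Cfsg.Agent.Helper6.Kernel
import Cfsg.Agent.Helper24.ClassSum
import Cfsg.Agent.Helper24.CharInv
import Cfsg.Agent.Helper24.CharBasic
import Cfsg.Agent.Helper2.CharNat
import Cfsg.Agent.Helper2.CharComplete
-- import your own Cfsg.Agent.* helpers here

set_option autoImplicit false
open Cfsg

namespace Cfsg.Agent.S1492

open scoped ComplexConjugate

/-- An irreducible character whose kernel contains `B`, where `D / B` is central, has absolute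
value equal to its degree on `D`; hence its degree squared is at most `|C| / |D|`. -/
theorem degree_sq_le {C : Type*} [Group C] [Fintype C] {φ : C → ℂ} (hφ : IsIrrCharacter C φ)
    (B D : Subgroup C) (hker : ∀ b ∈ B, φ b = φ 1)
    (hcent : ∀ d ∈ D, ∀ c : C, d * c * d⁻¹ * c⁻¹ ∈ B) :
    ‖φ 1‖ ^ 2 * (Nat.card D : ℝ) ≤ (Nat.card C : ℝ) := by
  classical
  have hφc := Helper24.isCharacter_of_irr hφ
  have h10 := Helper24.irr_one_ne_zero hφ
  have hC0 : (Nat.card C : ℂ) ≠ 0 := by exact_mod_cast Nat.card_pos.ne'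
  have hval : ∀ d ∈ D, ‖φ d‖ ^ 2 = ‖φ 1‖ ^ 2 := by
    intro d hd
    have h1 := Helper24.irr_class_sum_formula hφ d d⁻¹
    have h2 : ∑ t : C, φ (d * (t * d⁻¹ * t⁻¹)) = (Nat.card C : ℂ) * φ 1 := by
      have e : ∀ t ∈ (Finset.univ : Finset C), φ (d * (t * d⁻¹ * t⁻¹)) = φ 1 := by
        intro t _
        have e1 : d * (t * d⁻¹ * t⁻¹) = d * t * d⁻¹ * t⁻¹ := by group
        rw [e1]
        exact hker _ (hcent d hd t)
      rw [Finset.sum_congr rfl e, Finset.sum_const, Finset.card_univ, nsmul_eq_mul,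
        Nat.card_eq_fintype_card]
    rw [h2, Helper24.char_inv hφc d] at h1
    have h3 : φ d * conj (φ d) = φ 1 * φ 1 := by
      have h4 : (Nat.card C : ℂ) * (φ d * conj (φ d)) = (Nat.card C : ℂ) * (φ 1 * φ 1) := by
        linear_combination -h1
      exact mul_left_cancel₀ hC0 h4
    have h5 : φ 1 * conj (φ 1) = φ 1 * φ 1 := by
      have := Helper24.char_inv hφc 1
      rw [inv_one] at this
      rw [← this]
    rw [Complex.mul_conj, Complex.normSq_eq_norm_sq] at h3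
    rw [← h3, Complex.mul_conj, Complex.normSq_eq_norm_sq] at h5
    exact_mod_cast h5.symm
  have hsum := Helper24.irr_norm_sum hφ
  have hle : ∑ d ∈ Finset.univ.filter (fun d : C => d ∈ D), ‖φ d‖ ^ 2 ≤ ∑ g : C, ‖φ g‖ ^ 2 :=
    Finset.sum_le_sum_of_subset_of_nonneg (Finset.subset_univ _) (fun _ _ _ => sq_nonneg _)
  have hD : ∑ d ∈ Finset.univ.filter (fun d : C => d ∈ D), ‖φ d‖ ^ 2 =
      (Nat.card D : ℝ) * ‖φ 1‖ ^ 2 := by
    have e : ∀ d ∈ Finset.univ.filter (fun d : C => d ∈ D), ‖φ d‖ ^ 2 = ‖φ 1‖ ^ 2 := by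
      intro d hd
      exact hval d (Finset.mem_filter.1 hd).2
    rw [Finset.sum_congr rfl e, Finset.sum_const, nsmul_eq_mul, Nat.card_eq_fintype_card,
      Fintype.card_subtype]
  rw [hD, hsum] at hle
  linarith


/-- Let ψ be an irreducible character of the finite group G and B ≤ D ≤ C subgroups with B normal in C, every commutator of an element of D with an element of C lying in B (so D/B is central in C/B), and ψ constant equal to ψ 1 on B. Then ψ(1) ^ 2 * |C| * |D| ≤ |G| ^ 2. -/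
theorem result {G : Type*} [Group G] [Finite G] (ψ : G → ℂ) (hψ : Cfsg.IsIrrCharacter G ψ) (B C D : Subgroup G) (hBD : B ≤ D) (hDC : D ≤ C) (hBn : ∀ c ∈ C, ∀ b ∈ B, c * b * c⁻¹ ∈ B) (hcent : ∀ d ∈ D, ∀ c ∈ C, d * c * d⁻¹ * c⁻¹ ∈ B) (hker : ∀ b ∈ B, ψ b = ψ 1) : ‖ψ 1‖ ^ 2 * (Nat.card C : ℝ) * (Nat.card D : ℝ) ≤ (Nat.card G : ℝ) ^ 2 := by
  classical
  have := Fintype.ofFinite G
  have := Fintype.ofFinite C
  have := Helper24.finite_irrCharacter (G := C)
  have := Fintype.ofFinite (IrrCharacter C)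
  have hψc := Helper24.isCharacter_of_irr hψ
  obtain ⟨χ, hχdef⟩ : ∃ χ : C → ℂ, χ = fun c : C => ψ c := ⟨_, rfl⟩
  have hχc : IsCharacter C χ := by
    rw [hχdef]
    exact Helper24.isCharacter_restrict C hψc
  have hexp := Helper2.class_fn_expansion (Helper2.IsCharacter.isClassFunction hχc)
  have hmex : ∀ φ : IrrCharacter C, ∃ m : ℕ, classInner χ (φ : C → ℂ) = (m : ℂ) := fun φ =>
    Helper2.classInner_char_nat hχc (Helper24.isCharacter_of_irr φ.2)
  choose m hm using hmex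
  -- the subgroups of `C`
  obtain ⟨N, hN⟩ : ∃ N : Subgroup C, N = B.subgroupOf C := ⟨_, rfl⟩
  obtain ⟨D', hD'⟩ : ∃ D' : Subgroup C, D' = D.subgroupOf C := ⟨_, rfl⟩
  have hmemN : ∀ c : C, c ∈ N ↔ (c : G) ∈ B := by
    intro c
    rw [hN]
    exact Subgroup.mem_subgroupOf
  have hNn : N.Normal := by
    refine ⟨fun n hn g => ?_⟩
    rw [hN, Subgroup.mem_subgroupOf] at hn ⊢
    exact hBn g g.2 n hn
  have := Fintype.ofFinite N
  have hcardD : Nat.card D' = Nat.card D := by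
    rw [hD']
    exact Nat.card_congr (Subgroup.subgroupOfEquivOfLe hDC).toEquiv
  -- constituents have `B` in the kernel
  have hkerφ : ∀ φ : IrrCharacter C, m φ ≠ 0 → ∀ b ∈ N, (φ : C → ℂ) b = (φ : C → ℂ) 1 := by
    intro φ hmφ
    by_contra hcon
    push Not at hcon
    apply hmφ
    have h0 := Helper6.classInner_eq_zero_of_not_ker N χ (φ : C → ℂ) (by
      intro n g
      rw [hχdef]
      show ψ ((n : C) * (g : G)) = ψ g
      have hnB : ((n : C) : G) ∈ B := (hmemN n).1 n.2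
      exact Helper6.char_mul_of_eq_degree hψc (hker _ hnB) g) φ.2 hcon
    rw [hm φ] at h0
    exact_mod_cast h0
  have hdeg : ∀ φ : IrrCharacter C, m φ ≠ 0 →
      ‖(φ : C → ℂ) 1‖ ^ 2 * (Nat.card D : ℝ) ≤ (Nat.card C : ℝ) := by
    intro φ hmφ
    rw [← hcardD]
    refine degree_sq_le φ.2 N D' (hkerφ φ hmφ) ?_
    intro d hd c
    rw [hD', Subgroup.mem_subgroupOf] at hd
    rw [hN, Subgroup.mem_subgroupOf]
    exact hcent d hd c c.2
  have hC0 : (0 : ℝ) < Nat.card C := by exact_mod_cast Nat.card_pos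
  have hD0 : (0 : ℝ) < Nat.card D := by exact_mod_cast Nat.card_pos
  have hG0 : (0 : ℝ) < Nat.card G := by exact_mod_cast Nat.card_pos
  obtain ⟨r, hr⟩ : ∃ r : ℝ, r = Real.sqrt ((Nat.card C : ℝ) / (Nat.card D : ℝ)) := ⟨_, rfl⟩
  have hr0 : 0 ≤ r := by rw [hr]; exact Real.sqrt_nonneg _
  have hr2 : r ^ 2 = (Nat.card C : ℝ) / (Nat.card D : ℝ) := by
    rw [hr]
    exact Real.sq_sqrt (div_nonneg hC0.le hD0.le)
  have hdeg' : ∀ φ : IrrCharacter C, m φ ≠ 0 → ‖(φ : C → ℂ) 1‖ ≤ r := by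
    intro φ hmφ
    rw [hr]
    apply Real.le_sqrt_of_sq_le
    rw [le_div_iff₀ hD0]
    exact hdeg φ hmφ
  -- the degree of ψ
  have hψ1 : ψ 1 = ∑ φ : IrrCharacter C, (m φ : ℂ) * (φ : C → ℂ) 1 := by
    have h1 := congrFun hexp 1
    rw [Finset.sum_apply] at h1
    have h2 : χ 1 = ψ 1 := by rw [hχdef]; rfl
    rw [← h2, h1]
    refine Finset.sum_congr rfl fun φ _ => ?_
    rw [Pi.smul_apply, smul_eq_mul, hm φ]
  have hnorm : ‖ψ 1‖ ≤ (∑ φ : IrrCharacter C, (m φ : ℝ)) * r := by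
    rw [hψ1, Finset.sum_mul]
    refine le_trans (norm_sum_le _ _) (Finset.sum_le_sum fun φ _ => ?_)
    rw [norm_mul, Complex.norm_natCast]
    by_cases hmφ : m φ = 0
    · rw [hmφ]
      simp
    · exact mul_le_mul_of_nonneg_left (hdeg' φ hmφ) (Nat.cast_nonneg _)
  -- the multiplicities
  have hpars : classInner χ χ = ∑ φ : IrrCharacter C, ((m φ : ℂ)) ^ 2 := by
    have h1 : classInner χ χ =
        classInner (∑ φ : IrrCharacter C, classInner χ (φ : C → ℂ) • (φ : C → ℂ)) χ := by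
      rw [← hexp]
    rw [h1, Helper2.classInner_sum_left]
    refine Finset.sum_congr rfl fun φ _ => ?_
    rw [Helper2.classInner_smul_left, ← Helper2.classInner_conj_symm χ (φ : C → ℂ), hm φ,
      Complex.conj_natCast]
    ring
  have hχχ : classInner χ χ = (((Nat.card C : ℝ)⁻¹ * ∑ c : C, ‖ψ c‖ ^ 2 : ℝ) : ℂ) := by
    unfold classInner
    rw [hχdef]
    push_cast
    congr 1
    refine Finset.sum_congr rfl fun c _ => ?_
    rw [Complex.mul_conj, Complex.normSq_eq_norm_sq]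
    push_cast
    rfl
  have hsumC : ∑ c : C, ‖ψ c‖ ^ 2 ≤ (Nat.card G : ℝ) := by
    rw [← Helper24.irr_norm_sum hψ]
    have h1 : ∑ c : C, ‖ψ c‖ ^ 2 = ∑ g ∈ Finset.univ.filter (fun g : G => g ∈ C), ‖ψ g‖ ^ 2 := by
      rw [Finset.sum_subtype (Finset.univ.filter (fun g : G => g ∈ C))
        (p := fun g => g ∈ C) (by intro x; simp) (fun g => ‖ψ g‖ ^ 2)]
    rw [h1]
    exact Finset.sum_le_sum_of_subset_of_nonneg (Finset.subset_univ _) (fun _ _ _ => sq_nonneg _)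
  have hs : (∑ φ : IrrCharacter C, (m φ : ℝ)) ≤ (Nat.card G : ℝ) / (Nat.card C : ℝ) := by
    have h1 : (∑ φ : IrrCharacter C, (m φ : ℝ)) ≤ ∑ φ : IrrCharacter C, (m φ : ℝ) ^ 2 := by
      refine Finset.sum_le_sum fun φ _ => ?_
      have h2 : m φ ≤ m φ ^ 2 := Nat.le_self_pow (by norm_num) _
      exact_mod_cast h2
    have h3 : ∑ φ : IrrCharacter C, (m φ : ℝ) ^ 2 = (Nat.card C : ℝ)⁻¹ * ∑ c : C, ‖ψ c‖ ^ 2 := by
      have h4 := hpars
      rw [hχχ] at h4
      have h5 : ((∑ φ : IrrCharacter C, (m φ : ℝ) ^ 2 : ℝ) : ℂ) =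
          (((Nat.card C : ℝ)⁻¹ * ∑ c : C, ‖ψ c‖ ^ 2 : ℝ) : ℂ) := by
        rw [h4]
        push_cast
        rfl
      exact_mod_cast h5
    rw [h3] at h1
    refine le_trans h1 ?_
    rw [inv_mul_eq_div]
    exact div_le_div_of_nonneg_right hsumC hC0.le
  -- conclusion
  have hs0 : 0 ≤ ∑ φ : IrrCharacter C, (m φ : ℝ) :=
    Finset.sum_nonneg fun φ _ => Nat.cast_nonneg _
  have h1 : ‖ψ 1‖ ^ 2 ≤ ((Nat.card G : ℝ) / (Nat.card C : ℝ)) ^ 2 * r ^ 2 := by
    have h2 : ‖ψ 1‖ ≤ (Nat.card G : ℝ) / (Nat.card C : ℝ) * r :=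
      le_trans hnorm (mul_le_mul_of_nonneg_right hs hr0)
    have h3 := pow_le_pow_left₀ (norm_nonneg _) h2 2
    rw [mul_pow] at h3
    exact h3
  rw [hr2] at h1
  have h4 : ‖ψ 1‖ ^ 2 * (Nat.card C : ℝ) * (Nat.card D : ℝ) ≤
      ((Nat.card G : ℝ) / (Nat.card C : ℝ)) ^ 2 * ((Nat.card C : ℝ) / (Nat.card D : ℝ)) *
        (Nat.card C : ℝ) * (Nat.card D : ℝ) := by
    have h5 := mul_le_mul_of_nonneg_right h1 hC0.le
    exact mul_le_mul_of_nonneg_right h5 hD0.le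
  refine le_trans h4 (le_of_eq ?_)
  field_simp

end Cfsg.Agent.S1492
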