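import Cfsg.Statements.S1487
import Cfsg.Agent.Helper10.CharConj
import Cfsg.Agent.Helper2.CharBound

set_option autoImplicit false
open Cfsg

namespace Cfsg.Agent.S1487

open scoped ComplexConjugate

theorem char_norm_le {G : Type*} [Group G] [Finite G] {χ : G → ℂ} (hχ : IsCharacter G χ) (g : G) :
    ‖χ g‖ ≤ (χ 1).re := by
  obtain ⟨n, ρ, rfl⟩ := hχ
  have h := Helper2.character_norm_le ρ g
  rw [Representation.char_one]
  simpa using h

theorem eq_of_norm_le_of_re_eq {z : ℂ} {d : ℝ} (h1 : ‖z‖ ≤ d) (h2 : z.re = d) : z = (d : ℂ) := by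
  have h3 : ‖z‖ ^ 2 = z.re ^ 2 + z.im ^ 2 := by
    rw [Complex.sq_norm, Complex.normSq_apply]; ring
  have h4 : ‖z‖ ^ 2 ≤ d ^ 2 := by
    have := norm_nonneg z
    nlinarith
  have h5 : z.im = 0 := by
    rw [h2] at h3
    have : z.im ^ 2 ≤ 0 := by linarith
    have h6 : z.im ^ 2 = 0 := le_antisymm this (sq_nonneg _)
    exact pow_eq_zero_iff (two_ne_zero) |>.1 h6
  apply Complex.ext
  · simpa using h2
  · simpa using h5

theorem result {G : Type*} [Group G] [Fintype G] (A H : Subgroup G) [A.Normal] [H.Normal] (hAH : A ≤ H) (θ : H → ℂ) (hθ : Cfsg.IsIrrCharacter H θ) : (∀ a : H, (a : G) ∈ A → θ a = θ 1) ↔ (∀ a : G, a ∈ A → Cfsg.indFun H θ a = Cfsg.indFun H θ 1) := by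
  classical
  have hA : A.Normal := inferInstance
  have hcard : (Nat.card H : ℂ)⁻¹ ≠ 0 := by
    apply inv_ne_zero
    exact_mod_cast Nat.card_pos.ne'
  have hone : ∀ x : G, extendByZero H θ (x⁻¹ * 1 * x) = θ 1 := by
    intro x
    have : x⁻¹ * 1 * x = ((1 : H) : G) := by simp
    rw [this, Helper2.extendByZero_apply_coe]
  have hmemA : ∀ a ∈ A, ∀ x : G, x⁻¹ * a * x ∈ A := by
    intro a ha x
    have := hA.conj_mem a ha x⁻¹
    simpa using this
  constructor
  · intro h a ha
    rw [Helper2.indFun_apply, Helper2.indFun_apply]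
    congr 1
    refine Finset.sum_congr rfl fun x _ => ?_
    rw [hone x, Helper2.extendByZero_apply_mem H θ (hAH (hmemA a ha x))]
    exact h _ (hmemA a ha x)
  · intro h a ha
    have hχ := Helper24.isCharacter_of_irr hθ
    have h1 := h a ha
    rw [Helper2.indFun_apply, Helper2.indFun_apply] at h1
    have h2 := mul_left_cancel₀ hcard h1
    have hd : θ 1 = (((θ 1).re : ℝ) : ℂ) := by
      have := Helper24.charDegree_spec hχ
      rw [this]
      simp
    have hle : ∀ x ∈ (Finset.univ : Finset G),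
        (extendByZero H θ (x⁻¹ * (a : G) * x)).re ≤ (θ 1).re := by
      intro x _
      rw [Helper2.extendByZero_apply_mem H θ (hAH (hmemA a ha x))]
      exact (Complex.re_le_norm _).trans (char_norm_le hχ _)
    have hsum : ∑ x : G, (extendByZero H θ (x⁻¹ * (a : G) * x)).re = ∑ x : G, (θ 1).re := by
      have := congrArg Complex.re h2
      rw [Complex.re_sum, Complex.re_sum] at this
      rw [this]
      exact Finset.sum_congr rfl fun x _ => by rw [hone x]
    have hterm := (Finset.sum_eq_sum_iff_of_le hle).1 hsum 1 (Finset.mem_univ 1)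
    have ha1 : (1 : G)⁻¹ * (a : G) * 1 = (a : G) := by simp
    rw [ha1, Helper2.extendByZero_apply_coe] at hterm
    rw [hd]
    exact eq_of_norm_le_of_re_eq (char_norm_le hχ a) hterm

end Cfsg.Agent.S1487
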