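import Cfsg.Statements.S2167
-- import your own Cfsg.Agent.* helpers here

set_option autoImplicit false
open Cfsg

namespace Cfsg.Agent.S2167

/-- An alternating bilinear form has even rank: `dim V - dim rad` is even. Stated for matrices. -/
theorem even_rank_of_alt {ι K : Type*} [Fintype ι] [DecidableEq ι] [Field K] (M : Matrix ι ι K)
    (h : ∀ v : ι → K, v ⬝ᵥ (M.mulVec v) = 0) : Even M.rank := by
  classical
  obtain ⟨B, hB⟩ : ∃ B : LinearMap.BilinForm K (ι → K), ∀ u v, B u v = u ⬝ᵥ (M.mulVec v) :=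
    ⟨Matrix.toBilin' M, fun u v => Matrix.toBilin'_apply' M u v⟩
  have halt : B.IsAlt := fun v => by rw [hB]; exact h v
  have hrefl : B.IsRefl := halt.isRefl
  -- maximal totally isotropic subspace
  obtain ⟨L, hL, hmax⟩ := (wellFounded_gt : WellFounded (α := Submodule K (ι → K)) (· > ·)).has_min
    {L : Submodule K (ι → K) | L ≤ B.orthogonal L} ⟨⊥, by simp⟩
  have hL' : B.orthogonal L ≤ L := by
    intro x hx
    have hx' : ∀ n ∈ L, B n x = 0 := fun n hn => hx n hn
    have hLL : ∀ n ∈ L, ∀ l ∈ L, B n l = 0 := fun n hn l hl => hL hl n hn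
    have hmem : L ⊔ Submodule.span K {x} ∈ {L : Submodule K (ι → K) | L ≤ B.orthogonal L} := by
      intro a ha
      rw [LinearMap.BilinForm.mem_orthogonal_iff]
      intro b hb
      rw [Submodule.mem_sup] at ha hb
      obtain ⟨l, hl, y, hy, rfl⟩ := ha
      obtain ⟨l', hl', y', hy', rfl⟩ := hb
      rw [Submodule.mem_span_singleton] at hy hy'
      obtain ⟨c, rfl⟩ := hy
      obtain ⟨c', rfl⟩ := hy'
      change B (l' + c' • x) (l + c • x) = 0
      have h1 : B x l = 0 := (halt.eq_iff).mp (hx' l hl)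
      simp [hLL l' hl' l hl, hx' l' hl', h1, halt x]
    have hle : L ≤ L ⊔ Submodule.span K {x} := le_sup_left
    have hnot := hmax _ hmem
    have heq : L = L ⊔ Submodule.span K {x} := by
      by_contra hne
      exact hnot (lt_of_le_of_ne hle hne)
    rw [heq]
    exact Submodule.mem_sup_right (Submodule.mem_span_singleton_self x)
  have hLeq : B.orthogonal L = L := le_antisymm hL' hL
  have hker : B.orthogonal ⊤ = LinearMap.ker M.mulVecLin := by
    ext x
    rw [LinearMap.BilinForm.mem_orthogonal_iff, LinearMap.mem_ker]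
    constructor
    · intro hx
      have : ∀ n : ι → K, n ⬝ᵥ (M.mulVec x) = 0 := fun n => by
        rw [← hB]; exact hx n Submodule.mem_top
      exact dotProduct_eq_zero_iff.mp (fun n => by rw [dotProduct_comm]; exact this n)
    · intro hx n _
      change B n x = 0
      rw [hB]
      have : M.mulVec x = 0 := hx
      rw [this, dotProduct_zero]
  have hdim := LinearMap.BilinForm.finrank_add_finrank_orthogonal hrefl L
  have hinf : L ⊓ B.orthogonal ⊤ = B.orthogonal ⊤ := by
    apply inf_eq_right.mpr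
    calc B.orthogonal ⊤ ≤ B.orthogonal L := LinearMap.BilinForm.orthogonal_le le_top
      _ = L := hLeq
  rw [hLeq, hinf, hker] at hdim
  have hrk := LinearMap.finrank_range_add_finrank_ker M.mulVecLin
  have hrank : M.rank = Module.finrank K (LinearMap.range M.mulVecLin) := rfl
  refine ⟨Module.finrank K L - Module.finrank K (LinearMap.ker M.mulVecLin), ?_⟩
  omega

theorem sqrt_exists {F : Type*} [Field F] [Fintype F] [CharP F 2] (x : F) : ∃ y : F, y ^ 2 = x := by
  obtain ⟨y, hy⟩ := surjective_frobenius F 2 x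
  exact ⟨y, hy⟩

theorem symp_self {F : Type*} [Field F] {m : ℕ} (v : Fin m ⊕ Fin m → F) :
    v ⬝ᵥ ((Matrix.J (Fin m) F).mulVec v) = 0 := by
  simp [Matrix.J, dotProduct, Matrix.mulVec, Fintype.sum_sum_type, Matrix.one_apply, Matrix.neg_apply]
  rw [neg_add_eq_zero]
  apply Finset.sum_congr rfl
  intro i _
  ring

/-- For an involution t of the symplectic group Sp_{2m}(F), m ≥ 2, F a finite field of characteristic two (matrices A with A J Aᵀ = J acting on column vectors, alternating form f(u, v) = u ⬝ (J v)): the set V(t) of vectors v with f(v, t v) = 0 has either q^{2m} or q^{2m−1} elements, q the order of F (it is a subspace of codimension at most 1), and if it is the whole space then t − 1 has even rank. -/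
theorem result {F : Type*} [Field F] [Fintype F] [CharP F 2] {m : ℕ} (hm : 2 ≤ m) (a : ↥(Matrix.symplecticGroup (Fin m) F)) (ha : orderOf a = 2) :
    (Nat.card {v : Fin m ⊕ Fin m → F // Cfsg.sympForm m F v (Matrix.mulVec ((a : ↥(Matrix.symplecticGroup (Fin m) F)) : Matrix (Fin m ⊕ Fin m) (Fin m ⊕ Fin m) F) v) = 0} = Fintype.card F ^ (2 * m) ∨ Nat.card {v : Fin m ⊕ Fin m → F // Cfsg.sympForm m F v (Matrix.mulVec ((a : ↥(Matrix.symplecticGroup (Fin m) F)) : Matrix (Fin m ⊕ Fin m) (Fin m ⊕ Fin m) F) v) = 0} * Fintype.card F = Fintype.card F ^ (2 * m)) ∧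
    ((∀ v : Fin m ⊕ Fin m → F, Cfsg.sympForm m F v (Matrix.mulVec ((a : ↥(Matrix.symplecticGroup (Fin m) F)) : Matrix (Fin m ⊕ Fin m) (Fin m ⊕ Fin m) F) v) = 0) → Even (((a : ↥(Matrix.symplecticGroup (Fin m) F)) : Matrix (Fin m ⊕ Fin m) (Fin m ⊕ Fin m) F) - 1).rank) := by
  classical
  obtain ⟨A, hA⟩ : ∃ A : Matrix (Fin m ⊕ Fin m) (Fin m ⊕ Fin m) F,
      A = ((a : ↥(Matrix.symplecticGroup (Fin m) F)) : Matrix (Fin m ⊕ Fin m) (Fin m ⊕ Fin m) F) := ⟨_, rfl⟩
  have hAmem : A ∈ Matrix.symplecticGroup (Fin m) F := hA ▸ a.2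
  have hAA : A * A = 1 := by
    have h1 : a ^ 2 = 1 := by
      have := pow_orderOf_eq_one a
      rwa [ha] at this
    rw [sq] at h1
    have := congrArg (fun x : ↥(Matrix.symplecticGroup (Fin m) F) => (x : Matrix (Fin m ⊕ Fin m) (Fin m ⊕ Fin m) F)) h1
    simpa [hA] using this
  have hsym : A.transpose * Matrix.J (Fin m) F * A = Matrix.J (Fin m) F := SymplecticGroup.mem_iff'.mp hAmem
  obtain ⟨S, hS⟩ : ∃ S, S = Matrix.J (Fin m) F * A := ⟨_, rfl⟩
  have hST : S.transpose = -S := by
    have h1 : A.transpose * Matrix.J (Fin m) F = Matrix.J (Fin m) F * A := by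
      calc A.transpose * Matrix.J (Fin m) F = A.transpose * Matrix.J (Fin m) F * (A * A) := by rw [hAA, Matrix.mul_one]
        _ = (A.transpose * Matrix.J (Fin m) F * A) * A := by rw [← Matrix.mul_assoc]
        _ = Matrix.J (Fin m) F * A := by rw [hsym]
    rw [hS, Matrix.transpose_mul, Matrix.J_transpose, Matrix.mul_neg, h1]
  have hQ : ∀ v, Cfsg.sympForm m F v (A.mulVec v) = v ⬝ᵥ S.mulVec v := by
    intro v
    unfold Cfsg.sympForm
    rw [hS, Matrix.mulVec_mulVec]
  have hcross : ∀ u v : Fin m ⊕ Fin m → F, v ⬝ᵥ S.mulVec u = -(u ⬝ᵥ S.mulVec v) := by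
    intro u v
    rw [dotProduct_comm, ← Matrix.vecMul_transpose, ← Matrix.dotProduct_mulVec, hST, Matrix.neg_mulVec,
      dotProduct_neg]
  have hadd : ∀ u v : Fin m ⊕ Fin m → F,
      (u + v) ⬝ᵥ S.mulVec (u + v) = u ⬝ᵥ S.mulVec u + v ⬝ᵥ S.mulVec v := by
    intro u v
    rw [Matrix.mulVec_add, add_dotProduct, dotProduct_add, dotProduct_add, hcross u v]
    ring
  have hsmul : ∀ (c : F) (v : Fin m ⊕ Fin m → F),
      (c • v) ⬝ᵥ S.mulVec (c • v) = c ^ 2 * (v ⬝ᵥ S.mulVec v) := by
    intro c v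
    rw [Matrix.mulVec_smul, smul_dotProduct, dotProduct_smul, smul_eq_mul, smul_eq_mul]
    ring
  rw [← hA]
  simp only [hQ]
  have hcardV : Nat.card (Fin m ⊕ Fin m → F) = Fintype.card F ^ (2 * m) := by
    rw [Nat.card_eq_fintype_card, Fintype.card_fun, Fintype.card_sum, Fintype.card_fin, two_mul]
  constructor
  · by_cases hzero : ∀ v : Fin m ⊕ Fin m → F, v ⬝ᵥ S.mulVec v = 0
    · left
      rw [Nat.card_congr (Equiv.subtypeUnivEquiv hzero), hcardV]
    · right
      simp only [not_forall] at hzero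
      obtain ⟨v₀, hv₀⟩ := hzero
      obtain ⟨Q', hQ'⟩ : ∃ Q' : (Fin m ⊕ Fin m → F) →+ F, ∀ v, Q' v = v ⬝ᵥ S.mulVec v :=
        ⟨AddMonoidHom.mk' (fun v => v ⬝ᵥ S.mulVec v) hadd, fun v => rfl⟩
      have hsurj : Function.Surjective Q' := by
        intro y
        obtain ⟨s, hs⟩ := sqrt_exists (y / (v₀ ⬝ᵥ S.mulVec v₀))
        refine ⟨s • v₀, ?_⟩
        rw [hQ', hsmul, hs]
        field_simp
      have h1 := AddSubgroup.card_mul_index Q'.ker
      rw [AddSubgroup.index_ker, AddMonoidHom.range_eq_top.mpr hsurj, AddSubgroup.card_top, hcardV,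
        Nat.card_eq_fintype_card (α := F)] at h1
      rw [← h1]
      congr 1
      apply Nat.card_congr
      exact Equiv.subtypeEquivRight (fun v => by rw [AddMonoidHom.mem_ker, hQ'])
  · intro hall
    have hev := even_rank_of_alt (Matrix.J (Fin m) F * (A - 1)) (fun v => by
      rw [Matrix.mul_sub, Matrix.mul_one, ← hS, Matrix.sub_mulVec, dotProduct_sub, hall v, symp_self, sub_zero])
    rwa [Matrix.rank_mul_eq_right_of_isUnit_det _ _ (Matrix.isUnit_det_J (Fin m) F)] at hev

end Cfsg.Agent.S2167
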