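import Cfsg.Statements.S0765
-- import your own Cfsg.Agent.* helpers here
import Mathlib
import Cfsg.Agent.Helper5.SympGen

set_option autoImplicit false
open Cfsg

namespace Cfsg.Agent.S0765

/-- Generation of the symplectic group by symplectic transvections: the subgroup of Sp_2m(F) generated by all matrices of maps x ↦ x + c f(x, w) w is the whole group. -/
theorem result {F : Type*} [Field F] (m : ℕ) : Subgroup.closure {A : Matrix.symplecticGroup (Fin m) F | ∃ (w : Fin m ⊕ Fin m → F) (c : F), (A : Matrix (Fin m ⊕ Fin m) (Fin m ⊕ Fin m) F) = Cfsg.sympTransvection m w c} = ⊤ := by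
  rw [eq_top_iff]
  intro A _
  obtain ⟨g, ⟨A', hA', hA'g⟩, hg⟩ := Cfsg.Agent.Helper5.sp_gen (Cfsg.Agent.Helper5.sB m)
    (Cfsg.Agent.Helper5.sB_nondeg m) (Cfsg.Agent.Helper5.sB_alt m) (Cfsg.Agent.Helper5.IT m)
    (Cfsg.Agent.Helper5.IT_refl m) (Cfsg.Agent.Helper5.IT_trans m)
    (Cfsg.Agent.Helper5.IT_transv m) (Cfsg.Agent.Helper5.IT_iso m)
    (Matrix.toLin' (A : Matrix (Fin m ⊕ Fin m) (Fin m ⊕ Fin m) F)) (fun u v => by
      rw [Matrix.toLin'_apply, Matrix.toLin'_apply]
      exact Cfsg.Agent.Helper5.sp_preserves m A.1 A.2 u v)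
  have hAA : A' = A := by
    apply Subtype.ext
    apply Matrix.mulVec_injective
    funext x
    rw [hA'g x, hg x, Matrix.toLin'_apply]
  rw [← hAA]
  exact hA'

end Cfsg.Agent.S0765
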