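import Cfsg.Statements.S3056
import Cfsg.Agent.Helper17.Basic
import Cfsg.Agent.Helper17.StronglyEmb
import Mathlib

set_option autoImplicit false
open Cfsg

namespace Cfsg.Agent.S3056

open Cfsg.Agent.Helper17

variable {G : Type*} [Group G]

/-- The edge relation of the Sylow graph. -/
def SylE (p : ℕ) (S T : Sylow p G) : Prop :=
  S ≠ T ∧ (S : Subgroup G) ⊓ (T : Subgroup G) ≠ ⊥

theorem sylE_symm {p : ℕ} {S T : Sylow p G} (h : SylE p S T) : SylE p T S :=
  ⟨h.1.symm, by rw [inf_comm]; exact h.2⟩

theorem sylE_smul {p : ℕ} (g : G) {S T : Sylow p G} (h : SylE p S T) : SylE p (g • S) (g • T) := by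
  refine ⟨fun he => h.1 (smul_left_cancel g he), ?_⟩
  rw [sylow_smul_coe, sylow_smul_coe, ← Subgroup.map_inf_eq _ _ _ (MulAut.conj g).injective]
  intro hb
  rw [Subgroup.map_eq_bot_iff_of_injective _ (MulAut.conj g).injective] at hb
  exact h.2 hb

theorem reach_symm {p : ℕ} {S T : Sylow p G} (h : Relation.ReflTransGen (SylE p) S T) :
    Relation.ReflTransGen (SylE p) T S := by
  induction h with
  | refl => exact Relation.ReflTransGen.refl
  | tail _ hbc ih => exact Relation.ReflTransGen.head (sylE_symm hbc) ih

theorem reach_smul {p : ℕ} (g : G) {S T : Sylow p G} (h : Relation.ReflTransGen (SylE p) S T) :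
    Relation.ReflTransGen (SylE p) (g • S) (g • T) := by
  induction h with
  | refl => exact Relation.ReflTransGen.refl
  | tail _ hbc ih => exact Relation.ReflTransGen.tail ih (sylE_smul g hbc)

theorem chain_of_reach {p : ℕ} {S T : Sylow p G} (h : Relation.ReflTransGen (SylE p) S T) :
    ∃ (n : ℕ) (c : Fin (n + 1) → Sylow p G), c 0 = S ∧ c (Fin.last n) = T ∧
      ∀ i : Fin n, SylE p (c i.castSucc) (c i.succ) := by
  induction h using Relation.ReflTransGen.head_induction_on with
  | refl => exact ⟨0, fun _ => T, rfl, rfl, fun i => i.elim0⟩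
  | @head a b h' _ ih =>
    obtain ⟨n, c, h0, hl, hc⟩ := ih
    refine ⟨n + 1, Fin.cons a c, ?_, ?_, ?_⟩
    · rfl
    · rw [← Fin.succ_last, Fin.cons_succ]
      exact hl
    · intro i
      refine Fin.cases ?_ ?_ i
      · rw [Fin.castSucc_zero, Fin.cons_zero, Fin.cons_succ, h0]
        exact h'
      · intro j
        rw [← Fin.succ_castSucc, Fin.cons_succ, Fin.cons_succ]
        exact hc j

/-- A `p`-element of `H` is `H`-conjugate into a Sylow `p`-subgroup of `G` contained in `H`. -/
theorem exists_conj_mem_sylow_of_le {p : ℕ} [Fact p.Prime] [Finite G] (P : Sylow p G)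
    (H : Subgroup G) (hPH : (P : Subgroup G) ≤ H) (x : G) (hxH : x ∈ H) (k : ℕ)
    (hx : orderOf x = p ^ k) : ∃ h ∈ H, h * x * h⁻¹ ∈ (P : Subgroup G) := by
  have hx' : orderOf (⟨x, hxH⟩ : H) = p ^ k := by
    rw [← hx, ← Subgroup.orderOf_coe]
  obtain ⟨g, hg⟩ := exists_conj_mem_sylow (P.subtype hPH) ⟨x, hxH⟩ k hx'
  refine ⟨g, g.2, ?_⟩
  rw [Sylow.coe_subtype, Subgroup.mem_subgroupOf] at hg
  simpa using hg

theorem mem_sylow_smul {p : ℕ} (P : Sylow p G) (g x : G) :
    x ∈ ((g • P : Sylow p G) : Subgroup G) ↔ g⁻¹ * x * g ∈ (P : Subgroup G) := by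
  rw [sylow_smul_coe, mem_map_conj]

/-- Let G be a finite group and p a prime. Join two Sylow p-subgroups when they are distinct and meet nontrivially. This graph on the Sylow p-subgroups is disconnected (the Sylow p-subgroups are not chain-connected through nontrivial intersections) if and only if G has a strongly p-embedded subgroup in the classical sense: a proper subgroup H of order divisible by p such that H ∩ gHg⁻¹ has order prime to p for every g outside H. -/
theorem result {G : Type*} [Group G] [Finite G]
    (p : ℕ) [Fact p.Prime] :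
    ¬ Cfsg.IsSylowChainConnected p G ↔
      ∃ H : Subgroup G, H ≠ ⊤ ∧ p ∣ Nat.card H ∧
        ∀ g : G, g ∉ H → ¬ p ∣ Nat.card ↥(H ⊓ H.map (MulAut.conj g).toMonoidHom) := by
  constructor
  · intro hnc
    unfold Cfsg.IsSylowChainConnected at hnc
    push Not at hnc
    obtain ⟨S, T, hST⟩ := hnc
    -- S ∩ T is trivial and S, T are not joined
    have hSTne : S ≠ T := by
      intro h
      obtain ⟨i, hi⟩ := hST 0 (fun _ => S) rfl h (fun _ => inf_le_left)
      exact i.elim0
    have hSTbot : (S : Subgroup G) ⊓ (T : Subgroup G) = ⊥ := by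
      by_contra hne
      obtain ⟨i, hi⟩ := hST 1 (Fin.cons S (fun _ => T)) rfl rfl (by
        intro i
        refine Fin.cases ?_ ?_ i
        · exact inf_le_left
        · intro j
          exact inf_le_right)
      have hi0 : i = 0 := Subsingleton.elim _ _
      subst hi0
      exact hne (hi hSTne)
    have hnreach : ¬ Relation.ReflTransGen (SylE p) S T := by
      intro h
      obtain ⟨n, c, h0, hl, hc⟩ := chain_of_reach h
      obtain ⟨i, hi⟩ := hST n c h0 hl (by intro i; rw [hSTbot]; exact bot_le)
      exact (hc i).2 (hi (hc i).1)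
    -- the stabilizer of the component
    let H : Subgroup G :=
      { carrier := {g | Relation.ReflTransGen (SylE p) S (g • S)}
        one_mem' := by
          show Relation.ReflTransGen (SylE p) S ((1 : G) • S)
          rw [one_smul]
        mul_mem' := by
          intro a b ha hb
          show Relation.ReflTransGen (SylE p) S ((a * b) • S)
          rw [mul_smul]
          exact Relation.ReflTransGen.trans ha (reach_smul a hb)
        inv_mem' := by
          intro a ha
          show Relation.ReflTransGen (SylE p) S (a⁻¹ • S)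
          have h1 := reach_smul a⁻¹ ha
          rw [inv_smul_smul] at h1
          exact reach_symm h1 }
    have hHmem : ∀ g : G, g ∈ H ↔ Relation.ReflTransGen (SylE p) S (g • S) := fun g => Iff.rfl
    have hSH : (S : Subgroup G) ≤ H := by
      intro x hx
      rw [hHmem]
      have : x • S = S := Sylow.smul_eq_iff_mem_normalizer.mpr (Subgroup.le_normalizer hx)
      rw [this]
    obtain ⟨g₀, hg₀⟩ := MulAction.exists_smul_eq G S T
    have hS1 : (S : Subgroup G) ≠ ⊥ := by
      intro h
      apply hSTne
      apply Sylow.ext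
      rw [← hg₀, sylow_smul_coe, h, Subgroup.map_bot]
    refine ⟨H, ?_, ?_, ?_⟩
    · intro htop
      apply hnreach
      rw [← hg₀, ← hHmem, htop]
      trivial
    · have h1 : p ∣ Nat.card (S : Subgroup G) := by
        rcases S.2.card_eq_or_dvd with h | h
        · exact absurd (Subgroup.card_eq_one.mp h) hS1
        · exact h
      exact h1.trans (Subgroup.card_dvd_of_le hSH)
    · intro g hg hdvd
      apply hg
      obtain ⟨x, hx⟩ := exists_prime_orderOf_dvd_card' p hdvd
      have hx' : orderOf (x : G) = p ^ 1 := by rw [Subgroup.orderOf_coe, hx, pow_one]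
      have hxmem := x.2
      rw [Subgroup.mem_inf, mem_map_conj] at hxmem
      obtain ⟨hxH, hxHg⟩ := hxmem
      have hx1 : (x : G) ≠ 1 := by
        intro h
        rw [h, orderOf_one, pow_one] at hx'
        exact (Fact.out : p.Prime).one_lt.ne hx'
      obtain ⟨h, hh, hhx⟩ := exists_conj_mem_sylow_of_le S H hSH (x : G) hxH 1 hx'
      have hx'' : orderOf (g⁻¹ * (x : G) * g) = p ^ 1 := by
        have := orderOf_conj_eq g⁻¹ (x : G)
        rw [inv_inv] at this
        rw [this, hx']
      obtain ⟨h', hh', hhx'⟩ := exists_conj_mem_sylow_of_le S H hSH (g⁻¹ * (x : G) * g) hxHg 1 hx''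
      have hm1 : (x : G) ∈ ((h⁻¹ • S : Sylow p G) : Subgroup G) := by
        rw [mem_sylow_smul, inv_inv]
        exact hhx
      have hm2 : (x : G) ∈ (((g * h'⁻¹) • S : Sylow p G) : Subgroup G) := by
        rw [mem_sylow_smul]
        have e : (g * h'⁻¹)⁻¹ * (x : G) * (g * h'⁻¹) = h' * (g⁻¹ * (x : G) * g) * h'⁻¹ := by group
        rw [e]
        exact hhx'
      have hr1 : Relation.ReflTransGen (SylE p) S (h⁻¹ • S) := (hHmem _).mp (H.inv_mem hh)
      have hr2 : Relation.ReflTransGen (SylE p) (h⁻¹ • S) ((g * h'⁻¹) • S) := by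
        by_cases heq : h⁻¹ • S = (g * h'⁻¹) • S
        · rw [heq]
        · apply Relation.ReflTransGen.single
          refine ⟨heq, ?_⟩
          intro hbot
          have : (x : G) ∈ (⊥ : Subgroup G) := by
            rw [← hbot]
            exact Subgroup.mem_inf.mpr ⟨hm1, hm2⟩
          exact hx1 (Subgroup.mem_bot.mp this)
      have hr3 : g * h'⁻¹ ∈ H := (hHmem _).mpr (hr1.trans hr2)
      have := H.mul_mem hr3 hh'
      simpa using this
  · rintro ⟨H, hHtop, hpH, hse⟩ hconn
    have hse' : ClassSE p H := hse
    obtain ⟨P, hPH⟩ := classSE_exists_sylow_le hse' hpH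
    obtain ⟨g, hg⟩ : ∃ g : G, g ∉ H := by
      by_contra hcon
      push Not at hcon
      exact hHtop (eq_top_iff.mpr (fun x _ => hcon x))
    obtain ⟨n, c, h0, hl, -, hstep⟩ := hconn P (g • P)
    have hall : ∀ i : Fin (n + 1), (c i : Subgroup G) ≤ H := by
      intro i
      induction i using Fin.induction with
      | zero => rw [h0]; exact hPH
      | succ i ih =>
        obtain ⟨x, hx⟩ := MulAction.exists_smul_eq G P (c i.succ)
        have hle : (c i.succ : Subgroup G) ≤ H.map (MulAut.conj x).toMonoidHom := by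
          rw [← hx, sylow_smul_coe]
          exact Subgroup.map_mono hPH
        have hxH : x ∈ H :=
          classSE_mem_of_le hse' ((c i.castSucc : Subgroup G) ⊓ (c i.succ : Subgroup G))
            ((c i.succ).2.to_le inf_le_right) (hstep i).2 (inf_le_left.trans ih) x
            (inf_le_right.trans hle)
        rw [← hx]
        intro y hy
        rw [mem_sylow_smul] at hy
        have := H.mul_mem (H.mul_mem hxH (hPH hy)) (H.inv_mem hxH)
        simpa [mul_assoc] using this
    have hT := hall (Fin.last n)
    rw [hl] at hT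
    have hP1 : (P : Subgroup G) ≠ ⊥ := P.ne_bot_of_dvd_card (hpH.trans (Subgroup.card_subgroup_dvd_card H))
    have hT1 : ((g • P : Sylow p G) : Subgroup G) ≠ ⊥ := by
      rw [sylow_smul_coe]
      intro h
      rw [Subgroup.map_eq_bot_iff_of_injective _ (MulAut.conj g).injective] at h
      exact hP1 h
    have hTle : ((g • P : Sylow p G) : Subgroup G) ≤ H.map (MulAut.conj g).toMonoidHom := by
      rw [sylow_smul_coe]
      exact Subgroup.map_mono hPH
    exact hg (classSE_mem_of_le hse' _ (g • P).2 hT1 hT g hTle)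

end Cfsg.Agent.S3056
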