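import Cfsg.Statements.S3058
import Cfsg.Agent.S3056
import Cfsg.Agent.Helper17.Basic
import Cfsg.Agent.Helper17.StronglyEmb
import Cfsg.Agent.Helper17.NonCyclic
import Cfsg.Agent.Helper1.GenCent

set_option autoImplicit false
open Cfsg

namespace Cfsg.Agent.S3058

open Cfsg.Agent.Helper17

/-- Let p be a prime and G a finite group whose Sylow p-subgroups are not chain-connected through nontrivial intersections (so G has a strongly p-embedded subgroup). If N and M are normal subgroups of G whose orders are both divisible by p, then the order of N ∩ M is divisible by p. Consequently, among the normal subgroups of G whose order is divisible by p there is a smallest one (the intersection of all of them). -/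
theorem result {G : Type*} [Group G] [Finite G]
    (p : ℕ) [Fact p.Prime] (hG : ¬ Cfsg.IsSylowChainConnected p G)
    (N M : Subgroup G) [N.Normal] [M.Normal] (hN : p ∣ Nat.card N) (hM : p ∣ Nat.card M) :
    p ∣ Nat.card ↥(N ⊓ M) := by
  classical
  by_contra hD
  obtain ⟨H, hHtop, hpH, hse⟩ := (Cfsg.Agent.S3056.result p).mp hG
  have hse' : ClassSE p H := hse
  obtain ⟨P, hPH⟩ := classSE_exists_sylow_le hse' hpH
  have key : ∀ K : Subgroup G, K.Normal → p ∣ Nat.card K →
      ∃ a ∈ K, a ∈ (P : Subgroup G) ∧ orderOf a = p := by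
    intro K hK hpK
    obtain ⟨a₀, ha₀⟩ := exists_prime_orderOf_dvd_card' p hpK
    obtain ⟨g, hg⟩ := exists_conj_mem_sylow P (a₀ : G) 1
      (by rw [Subgroup.orderOf_coe, ha₀, pow_one])
    exact ⟨g * a₀ * g⁻¹, hK.conj_mem _ a₀.2 g, hg, by
      rw [orderOf_conj_eq, Subgroup.orderOf_coe, ha₀]⟩
  obtain ⟨a, haN, haP, hao⟩ := key N inferInstance hN
  obtain ⟨b, hbM, hbP, hbo⟩ := key M inferInstance hM
  have hNn : N.Normal := inferInstance
  have hMn : M.Normal := inferInstance
  have hpp : p.Prime := Fact.out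
  have hcopD : (Nat.card ↥(N ⊓ M)).Coprime p := ((Nat.Prime.coprime_iff_not_dvd hpp).mpr hD).symm
  have htriv : ∀ y ∈ (P : Subgroup G), y ∈ N ⊓ M → y = 1 := by
    intro y hyP hyD
    obtain ⟨k, hk⟩ := (IsPGroup.iff_orderOf.mp P.isPGroup') ⟨y, hyP⟩
    rw [Subgroup.orderOf_mk] at hk
    have h1 : orderOf y ∣ Nat.card ↥(N ⊓ M) := by
      have h := orderOf_dvd_natCard (⟨y, hyD⟩ : ↥(N ⊓ M))
      rwa [Subgroup.orderOf_mk] at h
    have h2 : (orderOf y).Coprime (orderOf y) :=
      Nat.Coprime.coprime_dvd_left h1 (by rw [hk]; exact Nat.Coprime.pow_right k hcopD)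
    exact orderOf_eq_one_iff.mp ((Nat.coprime_self _).mp h2)
  have hab : a * b = b * a := by
    have h1 : a * b * a⁻¹ * b⁻¹ = 1 := by
      apply htriv
      · exact Subgroup.mul_mem _ (Subgroup.mul_mem _ (Subgroup.mul_mem _ haP hbP)
          (Subgroup.inv_mem _ haP)) (Subgroup.inv_mem _ hbP)
      · constructor
        · have e : a * b * a⁻¹ * b⁻¹ = a * (b * a⁻¹ * b⁻¹) := by group
          rw [e]; exact N.mul_mem haN (hNn.conj_mem _ (N.inv_mem haN) b)
        · exact M.mul_mem (hMn.conj_mem _ hbM a) (M.inv_mem hbM)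
    calc a * b = (a * b * a⁻¹ * b⁻¹) * (b * a) := by group
      _ = b * a := by rw [h1, one_mul]
  have hb1 : b ≠ 1 := by
    intro h
    rw [h, orderOf_one] at hbo
    exact hpp.one_lt.ne hbo
  have hbna : b ∉ Subgroup.zpowers a := by
    intro h
    apply hb1
    apply htriv b hbP
    exact ⟨(Subgroup.zpowers_le.mpr haN) h, hbM⟩
  have haE : a ∈ Subgroup.closure ({a, b} : Set G) := Subgroup.subset_closure (by simp)
  have hbE : b ∈ Subgroup.closure ({a, b} : Set G) := Subgroup.subset_closure (by simp)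
  have hEP : Subgroup.closure ({a, b} : Set G) ≤ (P : Subgroup G) := by
    rw [Subgroup.closure_le]
    rintro x (rfl | rfl)
    · exact haP
    · exact hbP
  have hnc : ¬ IsCyclic ↥(Subgroup.closure ({a, b} : Set G)) := by
    apply not_isCyclic_of_two hpp.pos (⟨a, haE⟩ : ↥(Subgroup.closure ({a, b} : Set G))) ⟨b, hbE⟩
    · rw [Subgroup.orderOf_mk]; exact hao
    · apply Subtype.ext
      rw [Subgroup.coe_pow, Subgroup.coe_one, ← hbo]
      exact pow_orderOf_eq_one b
    · intro h
      obtain ⟨k, hk⟩ := Subgroup.mem_zpowers_iff.mp h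
      apply hbna
      rw [Subgroup.mem_zpowers_iff]
      refine ⟨k, ?_⟩
      have h2 := congrArg Subtype.val hk
      rw [Subgroup.coe_zpow] at h2
      exact h2
  have hcop : (Nat.card ↥(Subgroup.closure ({a, b} : Set G))).Coprime (Nat.card ↥(N ⊓ M)) := by
    obtain ⟨k, hk⟩ := IsPGroup.iff_card.mp (IsPGroup.to_le P.isPGroup' hEP)
    rw [hk]
    exact Nat.Coprime.pow_left k hcopD.symm
  have hDH : N ⊓ M ≤ H := by
    refine (Cfsg.Agent.Helper1.centGen_aux _ G (Subgroup.closure ({a, b} : Set G)) (N ⊓ M) rfl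
      (closure_pair_comm hab) hnc
      (by rw [Subgroup.normalizer_eq_top]; exact le_top) hcop).trans ?_
    unfold Cfsg.Agent.Helper1.centGen
    refine iSup₂_le ?_
    rintro e ⟨heE, he1⟩
    intro g hg
    have hgc : g ∈ Subgroup.centralizer ({e} : Set G) := hg.2
    have hge : e * g = g * e := Subgroup.mem_centralizer_iff.mp hgc e rfl
    have heH : e ∈ H := hPH (hEP heE)
    apply classSE_mem_of_le hse' (Subgroup.zpowers e)
      (IsPGroup.to_le P.isPGroup' (Subgroup.zpowers_le.mpr (hEP heE)))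
      (by rw [Ne, Subgroup.zpowers_eq_bot]; exact he1) (Subgroup.zpowers_le.mpr heH) g
    rw [Subgroup.zpowers_le, mem_map_conj]
    have e1 : g⁻¹ * e * g = e := by rw [mul_assoc, hge, inv_mul_cancel_left]
    rw [e1]; exact heH
  have haH : a ∈ H := hPH haP
  have ha1 : a ≠ 1 := by
    intro h
    rw [h, orderOf_one] at hao
    exact hpp.one_lt.ne hao
  have hMH : M ≤ H := by
    intro m hm
    apply classSE_mem_of_le hse' (Subgroup.zpowers a)
      (IsPGroup.to_le P.isPGroup' (Subgroup.zpowers_le.mpr haP))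
      (by rw [Ne, Subgroup.zpowers_eq_bot]; exact ha1) (Subgroup.zpowers_le.mpr haH) m
    rw [Subgroup.zpowers_le, mem_map_conj]
    have e1 : m⁻¹ * a * m = (m⁻¹ * a * m * a⁻¹) * a := by group
    rw [e1]
    apply H.mul_mem _ haH
    apply hDH
    constructor
    · have h1 := hNn.conj_mem a haN m⁻¹
      rw [inv_inv] at h1
      exact N.mul_mem h1 (N.inv_mem haN)
    · have e2 : m⁻¹ * a * m * a⁻¹ = m⁻¹ * (a * m * a⁻¹) := by group
      rw [e2]
      exact M.mul_mem (M.inv_mem hm) (hMn.conj_mem m hm a)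
  have htop := classSE_sup_normal_eq_top hse' hpH M hM
  rw [sup_eq_left.mpr hMH] at htop
  exact hHtop htop

end Cfsg.Agent.S3058
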