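import Cfsg.Statements.S3031
import Cfsg.Agent.Helper17.Npc4

set_option autoImplicit false
open Cfsg

namespace Cfsg.Agent.S3031

/-- Let G be a finite group, p the smallest prime dividing |G| and P a Sylow p-subgroup. Suppose that P is cyclic, or that P has a subgroup D with 1 < |D| < |P| such that every subgroup E of P of order |D|, and also every subgroup E of P of order 4 when |D| = 2, satisfies g E g⁻¹ ∩ N_G(E) ≤ E for all g ∈ G (E is strongly closed in its normalizer with respect to G). Then G has a normal p-complement. -/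
theorem result {G : Type*} [Group G] [Finite G] {p : ℕ} [Fact p.Prime] (hdiv : p ∣ Nat.card G)
    (hmin : ∀ q : ℕ, q.Prime → q ∣ Nat.card G → p ≤ q) (P : Sylow p G)
    (h : IsCyclic ↥(P : Subgroup G) ∨ ∃ D : Subgroup G, D ≤ (P : Subgroup G) ∧ 1 < Nat.card D ∧ Nat.card D < Nat.card (P : Subgroup G) ∧
      ∀ E : Subgroup G, E ≤ (P : Subgroup G) → (Nat.card E = Nat.card D ∨ (Nat.card D = 2 ∧ Nat.card E = 4)) →
        ∀ g : G, E.map (MulAut.conj g).toMonoidHom ⊓ Subgroup.normalizer (E : Set G) ≤ E) :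
    Cfsg.HasNormalPComplement p G := by
  rcases h with hcyc | ⟨D, hDP, hD1, hDlt, hE⟩
  · haveI := hcyc
    exact Helper17.npc_of_cyclic hmin P
  · obtain ⟨n, hn⟩ := IsPGroup.iff_card.mp P.isPGroup'
    obtain ⟨k, hk⟩ := IsPGroup.iff_card.mp (P.isPGroup'.to_le hDP)
    have hp : p.Prime := Fact.out
    have hk1 : 1 ≤ k := by
      rcases Nat.eq_zero_or_pos k with h0 | h0
      · rw [hk, h0, pow_zero] at hD1
        omega
      · exact h0
    have hkn : k < n := by
      rw [hk, hn] at hDlt
      exact (Nat.pow_lt_pow_iff_right hp.one_lt).mp hDlt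
    apply Helper17.npc_of_fusion_inv P
    intro M hMP hMn hMi
    have hMk : p ^ k ∣ Nat.card M := by
      have h1 := Helper17.npc_card_eq hMP
      rw [hn, hMi] at h1
      obtain ⟨m, rfl⟩ : ∃ m, n = m + 1 := ⟨n - 1, by omega⟩
      rw [pow_succ] at h1
      have h2 : Nat.card M = p ^ m := (Nat.eq_of_mul_eq_mul_right hp.pos h1).symm
      rw [h2]
      exact pow_dvd_pow p (by omega)
    exact Helper17.npc_fusion_inv hmin P k hk1
      (fun E hEP hEc => Helper17.npc_sc_of_hyp (P : Subgroup G) E P.isPGroup' hEP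
        (hE E hEP (Or.inl (by rw [hEc, hk]))))
      (fun hp2 hk1' E hEP hE4 => Helper17.npc_sc_of_hyp (P : Subgroup G) E P.isPGroup' hEP
        (hE E hEP (Or.inr ⟨by rw [hk, hp2, hk1']; norm_num, hE4⟩)))
      M hMP hMn hMi hMk

end Cfsg.Agent.S3031
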