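import Mathlib
import Cfsg.Statements.S3202
import Cfsg.Agent.Helper18.QuatLift
import Cfsg.Agent.Helper1.Quat
-- import your own Cfsg.Agent.* helpers here

set_option autoImplicit false
open Cfsg

namespace Cfsg.Agent.S3202

open Cfsg.Agent.Helper18
open scoped commutatorElement

/-- A non-commutative finite 2-group with a unique involution is generated by two elements, one
inverting the other. -/
theorem quat_gens.{u} {Q : Type u} [Group Q] [Finite Q] (hQ : IsPGroup 2 Q)
    (hnc : ¬ IsMulCommutative Q) (hz : ∃! x : Q, orderOf x = 2) :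
    ∃ (m : ℕ) (a x : Q), 2 ≤ m ∧ orderOf a = 2 ^ m ∧ Nat.card Q = 2 ^ (m + 1) ∧
      x ∉ Subgroup.zpowers a ∧ x * a * x⁻¹ = a⁻¹ ∧ x ^ 2 = a ^ (2 ^ (m - 1)) ∧
      Subgroup.closure ({a, x} : Set Q) = ⊤ := by
  obtain ⟨z, hz, hzu⟩ := hz
  have hf2 : Fact (Nat.Prime 2) := ⟨Nat.prime_two⟩
  have hsub : ∀ H : Subgroup Q, Nat.card H = 2 → H = Subgroup.zpowers z := by
    intro H hH
    have hnt : Nontrivial H := by
      rw [← Finite.one_lt_card_iff_nontrivial]; omega
    obtain ⟨⟨h, hh⟩, hne⟩ := exists_ne (1 : H)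
    have hh1 : h ≠ 1 := fun e => hne (Subtype.ext e)
    have ho : orderOf h = 2 := by
      have h1 : orderOf h ∣ 2 := hH ▸ Subgroup.orderOf_dvd_natCard H hh
      rcases (Nat.dvd_prime Nat.prime_two).mp h1 with h2 | h2
      · exact absurd (orderOf_eq_one_iff.mp h2) hh1
      · exact h2
    have hhz : h = z := hzu h ho
    symm
    apply Subgroup.eq_of_le_of_card_ge
    · rw [Subgroup.zpowers_le, ← hhz]; exact hh
    · rw [Nat.card_zpowers, hz, hH]
  have huniq : ∀ H K : Subgroup Q, Nat.card H = 2 → Nat.card K = 2 → H = K := by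
    intro H K hH hK
    rw [hsub H hH, hsub K hK]
  have hncyc : ¬ IsCyclic Q := fun h => hnc h.isMulCommutative
  obtain ⟨m, a, x, hm, hoa, hcard, hx, hxa, hx2⟩ := Helper1.quat_structure hQ huniq hncyc
  refine ⟨m, a, x, hm, hoa, hcard, hx, hxa, hx2, ?_⟩
  obtain ⟨T, hT⟩ : ∃ T : Subgroup Q, T = Subgroup.closure ({a, x} : Set Q) := ⟨_, rfl⟩
  rw [← hT]
  have haT : a ∈ T := by rw [hT]; exact Subgroup.subset_closure (by simp)
  have hxT : x ∈ T := by rw [hT]; exact Subgroup.subset_closure (by simp)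
  have hle : Subgroup.zpowers a ≤ T := by rw [Subgroup.zpowers_le]; exact haT
  have hlt : 2 ^ m < Nat.card T := by
    by_contra hcon
    push Not at hcon
    have h1 : Subgroup.zpowers a = T :=
      Subgroup.eq_of_le_of_card_ge hle (by rw [Nat.card_zpowers, hoa]; exact hcon)
    exact hx (h1 ▸ hxT)
  have hdvd : Nat.card T ∣ 2 ^ (m + 1) := hcard ▸ Subgroup.card_subgroup_dvd_card T
  obtain ⟨j, hj, hTj⟩ := (Nat.dvd_prime_pow Nat.prime_two).mp hdvd
  rw [hTj] at hlt
  have hmj : m < j := (Nat.pow_lt_pow_iff_right (by norm_num)).mp hlt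
  have hj' : j = m + 1 := by omega
  apply (Subgroup.card_eq_iff_eq_top T).mp
  rw [hTj, hj', hcard]

/-- Let S be a finite 2-group of 2-rank exactly 2 and D a maximal subgroup of the centre of S such that S/D is a non-abelian group with exactly one involution (a generalized quaternion group). Then S has a nontrivial cyclic characteristic subgroup. -/
theorem result {S : Type*} [Group S]
    [Finite S] (hS : IsPGroup 2 S) (hr2 : Cfsg.PRankLE 2 2 S) (hr1 : ¬ Cfsg.PRankLE 2 1 S)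
    (D : Subgroup ↥(Subgroup.center S)) (hD : IsCoatom D)
    (hq : ∃ (_ : (D.map (Subgroup.center S).subtype).Normal),
      ¬ IsMulCommutative (S ⧸ D.map (Subgroup.center S).subtype) ∧
      ∃! x : S ⧸ D.map (Subgroup.center S).subtype, orderOf x = 2) :
    ∃ C : Subgroup S, C ≠ ⊥ ∧ IsCyclic ↥C ∧ C.Characteristic := by
  obtain ⟨hn, hnc, hz⟩ := hq
  have hcent : ∀ d ∈ D.map (Subgroup.center S).subtype, ∀ g : S, g * d = d * g := by
    rintro _ ⟨d, -, rfl⟩ g
    exact (Subgroup.mem_center_iff.mp d.2 g)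
  generalize D.map (Subgroup.center S).subtype = D' at hn hnc hz hcent
  have hQ : IsPGroup 2 (S ⧸ D') := hS.to_quotient D'
  obtain ⟨m, a, x, hm, hoa, hcard, hx, hxa, hx2, hcl⟩ := quat_gens hQ hnc hz
  obtain ⟨α, rfl⟩ := QuotientGroup.mk_surjective a
  obtain ⟨ξ, rfl⟩ := QuotientGroup.mk_surjective x
  have hinv : ξ * α * ξ⁻¹ * α ∈ D' := by
    rw [← QuotientGroup.eq_one_iff]
    have h1 : ((ξ * α * ξ⁻¹ * α : S) : S ⧸ D') = (ξ : S ⧸ D') * (α : S ⧸ D') * (ξ : S ⧸ D')⁻¹ * (α : S ⧸ D') := rfl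
    rw [h1, hxa, inv_mul_cancel]
  have hgen : ∀ g : S, ∃ w ∈ Subgroup.closure ({α, ξ} : Set S), w⁻¹ * g ∈ D' := by
    intro g
    have h1 : (g : S ⧸ D') ∈ (Subgroup.closure ({α, ξ} : Set S)).map (QuotientGroup.mk' D') := by
      rw [MonoidHom.map_closure, Set.image_pair]
      have h2 : Subgroup.closure ({(QuotientGroup.mk' D') α, (QuotientGroup.mk' D') ξ} : Set (S ⧸ D')) = ⊤ := hcl
      rw [h2]; exact Subgroup.mem_top _
    obtain ⟨w, hw, hwg⟩ := h1
    exact ⟨w, hw, QuotientGroup.eq.mp hwg⟩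
  have hle := QuatLift.commutator_le_zpowers D' hcent α ξ hinv hgen
  refine ⟨commutator S, ?_, Subgroup.isCyclic_of_le hle, inferInstance⟩
  intro hbot
  apply hnc
  refine ⟨⟨fun p q => ?_⟩⟩
  obtain ⟨g, rfl⟩ := QuotientGroup.mk_surjective p
  obtain ⟨h, rfl⟩ := QuotientGroup.mk_surjective q
  have h1 : ⁅g, h⁆ ∈ commutator S := by
    rw [commutator_def]
    exact Subgroup.commutator_mem_commutator (Subgroup.mem_top g) (Subgroup.mem_top h)
  rw [hbot, Subgroup.mem_bot, commutatorElement_eq_one_iff_mul_comm] at h1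
  have h2 : ((g * h : S) : S ⧸ D') = ((h * g : S) : S ⧸ D') := by rw [h1]
  exact h2

end Cfsg.Agent.S3202
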