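import Cfsg.Statements.S1337
import Cfsg.Agent.S0519
import Cfsg.Agent.Helper24.NormalEA
import Cfsg.Agent.Helper17.CD

set_option autoImplicit false
open Cfsg

namespace Cfsg.Agent.S1337

open scoped Pointwise

theorem rk_cyc_two {P : Type*} [Group P] [Finite P] (c : P) (hc : 2 * orderOf c = Nat.card P)
    (E : Subgroup P) (hE : ∀ a ∈ E, a ^ 2 = 1) : Nat.card ↥E ≤ 4 := by
  have hC : Nat.card ↥(Subgroup.zpowers c) = orderOf c := Nat.card_zpowers c
  have hpos : 0 < orderOf c := orderOf_pos c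
  have hidx : (Subgroup.zpowers c).index = 2 := by
    have := Subgroup.card_mul_index (Subgroup.zpowers c)
    rw [hC, ← hc] at this
    have h2 : orderOf c * (Subgroup.zpowers c).index = orderOf c * 2 := by rw [this]; ring
    exact Nat.eq_of_mul_eq_mul_left hpos h2
  have hcyc : IsCyclic ↥(E ⊓ Subgroup.zpowers c) := Subgroup.isCyclic_of_le inf_le_right
  have h2 : Nat.card ↥(E ⊓ Subgroup.zpowers c) ∣ 2 := by
    rw [← IsCyclic.exponent_eq_card]
    refine Monoid.exponent_dvd_of_forall_pow_eq_one fun g => ?_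
    apply Subtype.ext
    simpa using hE g.1 g.2.1
  have h3 : (E ⊓ Subgroup.zpowers c).relIndex E ≤ 2 := by
    rw [Subgroup.inf_relIndex_left, ← hidx, ← Subgroup.relIndex_top_right]
    exact Subgroup.relIndex_le_of_le_right le_top
      (by rw [Subgroup.relIndex_top_right, hidx]; norm_num)
  have h4 : Nat.card ↥(E ⊓ Subgroup.zpowers c) * (E ⊓ Subgroup.zpowers c).relIndex E
      = Nat.card ↥E := by
    have := Subgroup.relIndex_mul_relIndex ⊥ (E ⊓ Subgroup.zpowers c) E bot_le inf_le_left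
    rwa [Subgroup.relIndex_bot_left, Subgroup.relIndex_bot_left] at this
  have h5 : Nat.card ↥(E ⊓ Subgroup.zpowers c) ≤ 2 := Nat.le_of_dvd (by norm_num) h2
  calc Nat.card ↥E
      = Nat.card ↥(E ⊓ Subgroup.zpowers c) * (E ⊓ Subgroup.zpowers c).relIndex E := h4.symm
    _ ≤ 2 * 2 := Nat.mul_le_mul h5 h3

theorem idx_centralizer_le {P : Type*} [Group P] [Finite P] (u : P) (T : Set P)
    (hT : ∀ g : P, g * u * g⁻¹ ∈ T) :
    (Subgroup.centralizer ({u} : Set P)).index ≤ T.ncard := by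
  classical
  let ψ : (P ⧸ Subgroup.centralizer ({u} : Set P)) → T :=
    fun q => ⟨q.out * u * q.out⁻¹, hT _⟩
  have hψ : Function.Injective ψ := by
    intro q q' h
    have h1 : q.out * u * q.out⁻¹ = q'.out * u * q'.out⁻¹ := congrArg Subtype.val h
    have h2 : (QuotientGroup.mk q.out : P ⧸ Subgroup.centralizer ({u} : Set P))
        = QuotientGroup.mk q'.out := by
      rw [QuotientGroup.eq, Subgroup.mem_centralizer_iff]
      intro s hs
      rw [Set.mem_singleton_iff] at hs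
      subst hs
      have h3 : q.out⁻¹ * (q'.out * s * q'.out⁻¹) * q'.out = s * (q.out⁻¹ * q'.out) := by
        rw [← h1]; group
      rw [← h3]; group
    have e1 := Quotient.out_eq' q
    have e2 := Quotient.out_eq' q'
    rw [← e1, ← e2]; exact h2
  have h := Nat.card_le_card_of_injective ψ hψ
  rw [Nat.card_coe_set_eq] at h
  exact h

theorem idx_centralizer_sq {P : Type*} [Group P] [Finite P] {p : ℕ} [Fact p.Prime]
    (hP : IsPGroup p P) (U : Subgroup P) [hUn : U.Normal] (hUe : ∀ a ∈ U, a ^ p = 1)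
    (hU : Nat.card ↥U = p ^ 2) :
    (Subgroup.centralizer (U : Set P)).index ≤ p := by
  classical
  have hpp : p.Prime := Fact.out
  obtain ⟨B, hBn, hBU, hBcard⟩ :=
    Cfsg.Agent.Helper24.exists_normal_le_card_pow hP U hUe 2 hU 1 (by norm_num)
  rw [pow_one] at hBcard
  have hpow : ∀ H : Subgroup P, ∃ j, H.index = p ^ j := by
    intro H
    obtain ⟨n, hn⟩ := IsPGroup.iff_card.mp hP
    have h1 := Subgroup.index_dvd_card H
    rw [hn] at h1
    obtain ⟨j, -, hj⟩ := (Nat.dvd_prime_pow hpp).1 h1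
    exact ⟨j, hj⟩
  have hBc : ∀ b ∈ B, ∀ g : P, g * b = b * g := by
    intro b hb g
    by_cases hb1 : b = 1
    · subst hb1; simp
    have h1 : (Subgroup.centralizer ({b} : Set P)).index ≤ ((B : Set P) \ {1}).ncard :=
      idx_centralizer_le b _ fun g => ⟨hBn.conj_mem b hb g, by
        simp only [Set.mem_singleton_iff]
        intro h
        apply hb1
        have h2 : b = g⁻¹ * (g * b * g⁻¹) * g := by group
        rw [h2, h]; group⟩
    have h2 : ((B : Set P) \ {1}).ncard = p - 1 := by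
      rw [Set.ncard_diff (by simpa using B.one_mem), Set.ncard_singleton, ← hBcard]
      rfl
    obtain ⟨j, hj⟩ := hpow (Subgroup.centralizer ({b} : Set P))
    have hj0 : j = 0 := by
      by_contra hj0
      have h3 : p ≤ p ^ j := Nat.le_self_pow hj0 p
      have h4 := hpp.pos
      omega
    rw [hj0, pow_zero, Subgroup.index_eq_one] at hj
    have hg : g ∈ Subgroup.centralizer ({b} : Set P) := hj ▸ Subgroup.mem_top g
    exact (Subgroup.mem_centralizer_iff.1 hg b rfl).symm
  obtain ⟨u, huU, huB⟩ : ∃ u ∈ U, u ∉ B := by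
    by_contra hcon
    push Not at hcon
    have h1 : Nat.card ↥U ≤ Nat.card ↥B := Subgroup.card_le_of_le hcon
    rw [hU, hBcard] at h1
    have h2 := hpp.one_lt
    nlinarith
  have h3 : (Subgroup.centralizer ({u} : Set P)).index ≤ ((U : Set P) \ (B : Set P)).ncard :=
    idx_centralizer_le u _ fun g => ⟨hUn.conj_mem u huU g, fun h => huB (by
      have h4 := hBn.conj_mem _ h g⁻¹
      have h5 : g⁻¹ * (g * u * g⁻¹) * g⁻¹⁻¹ = u := by group
      rwa [h5] at h4)⟩
  have h4 : ((U : Set P) \ (B : Set P)).ncard = p ^ 2 - p := by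
    rw [Set.ncard_diff (by exact_mod_cast hBU), ← hU, ← hBcard]
    rfl
  obtain ⟨j, hj⟩ := hpow (Subgroup.centralizer ({u} : Set P))
  have hj1 : j ≤ 1 := by
    by_contra hj1
    have h5 : p ^ 2 ≤ p ^ j := Nat.pow_le_pow_right hpp.pos (by omega)
    have h6 : 0 < p := hpp.pos
    have h7 : 0 < p ^ 2 := pow_pos hpp.pos 2
    omega
  have h5 : (Subgroup.centralizer ({u} : Set P)).index ≤ p := by
    rw [hj]
    calc p ^ j ≤ p ^ 1 := Nat.pow_le_pow_right hpp.pos hj1
      _ = p := pow_one p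
  have h6 : B ⊔ Subgroup.zpowers u = U := by
    have hle : B ⊔ Subgroup.zpowers u ≤ U :=
      sup_le hBU (by rw [Subgroup.zpowers_le]; exact huU)
    obtain ⟨j, hj⟩ := IsPGroup.iff_card.mp (hP.to_subgroup (B ⊔ Subgroup.zpowers u))
    have hlt : Nat.card ↥B < Nat.card ↥(B ⊔ Subgroup.zpowers u) := by
      refine lt_of_le_of_ne (Subgroup.card_le_of_le le_sup_left) fun h => ?_
      have h7 := Subgroup.eq_of_le_of_card_ge (le_sup_left : B ≤ B ⊔ Subgroup.zpowers u) h.ge
      exact huB (h7 ▸ Subgroup.mem_sup_right (Subgroup.mem_zpowers u))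
    rw [hBcard, hj] at hlt
    have hj2 : 2 ≤ j := by
      by_contra hj2
      have h8 : p ^ j ≤ p ^ 1 := Nat.pow_le_pow_right hpp.pos (by omega)
      rw [pow_one] at h8; omega
    refine Subgroup.eq_of_le_of_card_ge hle ?_
    rw [hU, hj]; exact Nat.pow_le_pow_right hpp.pos hj2
  have h7 : Subgroup.centralizer ({u} : Set P) ≤ Subgroup.centralizer (U : Set P) := by
    intro g hg
    have hgu : u * g = g * u := Subgroup.mem_centralizer_iff.1 hg u rfl
    have hU' : U ≤ Subgroup.centralizer ({g} : Set P) := by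
      rw [← h6]
      refine sup_le (fun b hb => ?_) ?_
      · exact Subgroup.mem_centralizer_iff.2 fun s hs => by
          rw [Set.mem_singleton_iff] at hs; subst hs; exact hBc b hb s
      · rw [Subgroup.zpowers_le]
        exact Subgroup.mem_centralizer_iff.2 fun s hs => by
          rw [Set.mem_singleton_iff] at hs; subst hs; exact hgu.symm
    refine Subgroup.mem_centralizer_iff.2 fun v hv => ?_
    exact (Subgroup.mem_centralizer_iff.1 (hU' hv) g rfl).symm
  exact (Subgroup.index_antitone h7).trans h5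

theorem ea_sup {P : Type*} [Group P] {p : ℕ} {X Y : Subgroup P}
    (hX : Cfsg.IsElementaryAbelian p X) (hY : Cfsg.IsElementaryAbelian p Y)
    (hXY : ∀ a ∈ X, ∀ b ∈ Y, a * b = b * a) : Cfsg.IsElementaryAbelian p (X ⊔ Y) := by
  have hXc : X ≤ Subgroup.centralizer (X : Set P) :=
    Subgroup.le_centralizer_iff_isMulCommutative.mpr hX.1
  have hYc : Y ≤ Subgroup.centralizer (Y : Set P) :=
    Subgroup.le_centralizer_iff_isMulCommutative.mpr hY.1
  have hXY' : X ≤ Subgroup.centralizer (Y : Set P) := fun a ha =>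
    Subgroup.mem_centralizer_iff.2 fun b hb => (hXY a ha b hb).symm
  have hYX' : Y ≤ Subgroup.centralizer (X : Set P) := fun b hb =>
    Subgroup.mem_centralizer_iff.2 fun a ha => hXY a ha b hb
  have hcomm : IsMulCommutative ↥(X ⊔ Y) := by
    refine Subgroup.le_centralizer_iff_isMulCommutative.mp ?_
    rw [Cfsg.Agent.Helper17.centralizer_sup_eq]
    exact sup_le (le_inf hXc hXY') (le_inf hYX' hYc)
  refine ⟨hcomm, ?_⟩
  have hc : ∀ a ∈ X ⊔ Y, ∀ b ∈ X ⊔ Y, a * b = b * a := fun a ha b hb =>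
    congrArg Subtype.val (hcomm.is_comm.comm ⟨a, ha⟩ ⟨b, hb⟩)
  have hcl : X ⊔ Y = Subgroup.closure ((X : Set P) ∪ (Y : Set P)) := by
    rw [Subgroup.closure_union, Subgroup.closure_eq, Subgroup.closure_eq]
  intro z hz
  rw [hcl] at hz
  induction hz using Subgroup.closure_induction with
  | mem x hx =>
    rcases hx with hx | hx
    · exact hX.2 x hx
    · exact hY.2 x hx
  | one => exact one_pow p
  | mul a b ha hb iha ihb =>
    rw [← hcl] at ha hb
    rw [Commute.mul_pow (hc a ha b hb), iha, ihb, one_mul]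
  | inv a ha iha => rw [inv_pow, iha, inv_one]

theorem ea_sq_of_noncyclic {R : Type*} [Group R] [Finite R] {p : ℕ} [Fact p.Prime]
    (hR : IsPGroup p R) (A₀ : Subgroup R) [hA₀n : A₀.Normal] (hA₀c : IsMulCommutative ↥A₀)
    (hcyc : ¬ IsCyclic ↥A₀) :
    ∃ B : Subgroup R, B.Normal ∧ Cfsg.IsElementaryAbelian p B ∧ Nat.card ↥B = p ^ 2 := by
  have hpp : p.Prime := Fact.out
  have hA₀comm : ∀ a ∈ A₀, ∀ b ∈ A₀, a * b = b * a := by
    intro a ha b hb
    have := hA₀c.is_comm.comm ⟨a, ha⟩ ⟨b, hb⟩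
    exact congrArg Subtype.val this
  let Ω : Subgroup R :=
    { carrier := {a | a ∈ A₀ ∧ a ^ p = 1}
      one_mem' := ⟨A₀.one_mem, one_pow p⟩
      mul_mem' := by
        rintro a b ⟨ha, hap⟩ ⟨hb, hbp⟩
        refine ⟨A₀.mul_mem ha hb, ?_⟩
        rw [Commute.mul_pow (hA₀comm a ha b hb), hap, hbp, one_mul]
      inv_mem' := by
        rintro a ⟨ha, hap⟩
        exact ⟨A₀.inv_mem ha, by rw [inv_pow, hap, inv_one]⟩ }
  have hΩmem : ∀ a, a ∈ Ω ↔ a ∈ A₀ ∧ a ^ p = 1 := fun a => Iff.rfl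
  have hΩn : Ω.Normal := by
    refine ⟨fun a ha g => ?_⟩
    rw [hΩmem] at ha ⊢
    exact ⟨hA₀n.conj_mem a ha.1 g, by rw [conj_pow, ha.2, mul_one, mul_inv_cancel]⟩
  haveI := hΩn
  have hΩA : Ω ≤ A₀ := fun a ha => ((hΩmem a).mp ha).1
  have hΩe : ∀ a ∈ Ω, a ^ p = 1 := fun a ha => ((hΩmem a).mp ha).2
  obtain ⟨k, hΩcard⟩ := IsPGroup.iff_card.mp (hR.to_subgroup Ω)
  have hk2 : 2 ≤ k := by
    by_contra hk
    apply hcyc
    apply Cfsg.Agent.Helper24.isCyclic_of_card_omega_le (hR.to_subgroup A₀)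
      (fun a b => Subtype.ext (hA₀comm a a.2 b b.2)) (Ω.subgroupOf A₀)
    · intro x
      rw [Subgroup.mem_subgroupOf, hΩmem]
      constructor
      · intro h
        apply Subtype.ext
        simpa using h.2
      · intro h
        refine ⟨x.2, ?_⟩
        have := congrArg Subtype.val h
        simpa using this
    · have h1 : Nat.card (Ω.subgroupOf A₀) = Nat.card Ω :=
        Nat.card_congr (Subgroup.subgroupOfEquivOfLe hΩA).toEquiv
      rw [h1, hΩcard]
      calc p ^ k ≤ p ^ 1 := Nat.pow_le_pow_right hpp.pos (by omega)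
        _ = p := pow_one p
  obtain ⟨B, hBn, hBΩ, hBcard⟩ :=
    Cfsg.Agent.Helper24.exists_normal_le_card_pow hR Ω hΩe k hΩcard 2 hk2
  exact ⟨B, hBn, ⟨IsPGroup.isMulCommutative_of_card_eq_prime_sq hBcard,
    fun a ha => hΩe a (hBΩ ha)⟩, hBcard⟩

/-- Let P be a finite p-group of p-rank greater than 2. Then P has a normal elementary abelian subgroup U of order p², and for every elementary abelian X ≤ P with |X| ≥ p²: X is joined to U by a chain of pairwise commuting elementary abelian subgroups of order ≥ p² if and only if C_P(X) has p-rank greater than 2. -/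
theorem result {P : Type*} [Group P] [Finite P] (p : ℕ) [Fact p.Prime] (hP : IsPGroup p P) (hrk : ¬ Cfsg.PRankLE p 2 P) : ∃ U : Subgroup P, U.Normal ∧ Cfsg.IsElementaryAbelian p U ∧ Nat.card ↥U = p ^ 2 ∧ ∀ X : Subgroup P, Cfsg.IsElementaryAbelian p X → p ^ 2 ≤ Nat.card ↥X → (Relation.ReflTransGen (fun A B : Subgroup P => Cfsg.IsElementaryAbelian p A ∧ p ^ 2 ≤ Nat.card ↥A ∧ Cfsg.IsElementaryAbelian p B ∧ p ^ 2 ≤ Nat.card ↥B ∧ ∀ a ∈ A, ∀ b ∈ B, a * b = b * a) X U ↔ ¬ Cfsg.PRankLE p 2 ↥(Subgroup.centralizer (X : Set P))) := by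
  classical
have hpp : p.Prime := Fact.out
have hE : ∃ E : Subgroup P, IsMulCommutative ↥E ∧ (∀ a ∈ E, a ^ p = 1) ∧ p ^ 2 < Nat.card ↥E := by
  unfold Cfsg.PRankLE at hrk
  push Not at hrk
  exact hrk
obtain ⟨E, hEc, hEe, hEcard⟩ := hE
have hcube : ∀ F : Subgroup P, p ^ 2 < Nat.card ↥F → p ^ 3 ≤ Nat.card ↥F := by
  intro F hF
  obtain ⟨j, hj⟩ := IsPGroup.iff_card.mp (hP.to_subgroup F)
  rw [hj] at hF ⊢
  have h3 : 3 ≤ j := by
    by_contra h
    have h4 : p ^ j ≤ p ^ 2 := Nat.pow_le_pow_right hpp.pos (by omega)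
    omega
  exact Nat.pow_le_pow_right hpp.pos h3
have hE3 : p ^ 3 ≤ Nat.card ↥E := hcube E hEcard
obtain ⟨U, hUn, hUea, hUcard⟩ : ∃ U : Subgroup P, U.Normal ∧ Cfsg.IsElementaryAbelian p U ∧
    Nat.card ↥U = p ^ 2 := by
  by_cases hn : ∀ A : Subgroup P, A.Normal → IsMulCommutative A → IsCyclic A
  · exfalso
    have hEnc : ¬ IsCyclic ↥E := by
      intro hcyc
      have h1 : Nat.card ↥E ∣ p := by
        rw [← IsCyclic.exponent_eq_card]
        refine Monoid.exponent_dvd_of_forall_pow_eq_one fun g => ?_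
        apply Subtype.ext
        simpa using hEe g.1 g.2
      have h2 := Nat.le_of_dvd hpp.pos h1
      have h3 : p ≤ p ^ 2 := Nat.le_self_pow (by norm_num) p
      omega
    obtain ⟨hp2, hcases⟩ := Cfsg.Agent.S0519.result p hP hn ⟨E, hEc, hEnc⟩
    subst hp2
    have key : ∀ c : P, 2 * orderOf c = Nat.card P → False := fun c hc => by
      have h1 := rk_cyc_two c hc E hEe
      omega
    rcases hcases with ⟨n, ⟨e⟩⟩ | ⟨n, -, ⟨e⟩⟩ | ⟨n, hn3, hcard, x, y, hx, hy, hxy⟩
    · have hc : orderOf (e.symm (QuaternionGroup.a 1)) = 2 * n := by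
        rw [MulEquiv.orderOf_eq, QuaternionGroup.orderOf_a_one]
      have hn0 : n ≠ 0 := by
        rintro rfl
        have h1 := orderOf_pos (e.symm (QuaternionGroup.a 1))
        omega
      haveI : NeZero n := ⟨hn0⟩
      refine key (e.symm (QuaternionGroup.a 1)) ?_
      rw [hc, Nat.card_congr e.toEquiv, Nat.card_eq_fintype_card, QuaternionGroup.card]
      ring
    · have hc : orderOf (e.symm (DihedralGroup.r 1)) = n := by
        rw [MulEquiv.orderOf_eq, DihedralGroup.orderOf_r_one]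
      refine key (e.symm (DihedralGroup.r 1)) ?_
      rw [hc, Nat.card_congr e.toEquiv, DihedralGroup.nat_card]
    · refine key x ?_
      rw [hx, hcard, pow_succ]
      ring
  · push Not at hn
    obtain ⟨A, hAn, hAc, hAnc⟩ := hn
    haveI := hAn
    exact ea_sq_of_noncyclic hP A hAc hAnc
haveI := hUn
refine ⟨U, hUn, hUea, hUcard, ?_⟩
have hidx := idx_centralizer_sq hP U hUea.2 hUcard
have hwit : ∀ X F : Subgroup P, F ≤ Subgroup.centralizer (X : Set P) →
    Cfsg.IsElementaryAbelian p F → p ^ 2 < Nat.card ↥F →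
    ¬ Cfsg.PRankLE p 2 ↥(Subgroup.centralizer (X : Set P)) := by
  intro X F hF hFea hFcard hrk'
  have h1 := hrk' (F.subgroupOf (Subgroup.centralizer (X : Set P)))
    ⟨⟨fun a b => by
      apply Subtype.ext; apply Subtype.ext
      show a.1.1 * b.1.1 = b.1.1 * a.1.1
      exact congrArg Subtype.val (hFea.1.is_comm.comm ⟨a.1.1, a.2⟩ ⟨b.1.1, b.2⟩)⟩⟩
    (by
      intro a ha
      apply Subtype.ext
      simpa using hFea.2 a.1 ha)
  rw [Nat.card_congr (Subgroup.subgroupOfEquivOfLe hF).toEquiv] at h1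
  omega
have hinter : ∀ E' : Subgroup P, p ^ 3 ≤ Nat.card ↥E' →
    p ^ 2 ≤ Nat.card ↥(E' ⊓ Subgroup.centralizer (U : Set P)) := by
  intro E' hE'
  have h3 : (E' ⊓ Subgroup.centralizer (U : Set P)).relIndex E' ≤ p := by
    rw [Subgroup.inf_relIndex_left]
    refine le_trans ?_ hidx
    rw [← Subgroup.relIndex_top_right]
    exact Subgroup.relIndex_le_of_le_right le_top
      (by rw [Subgroup.relIndex_top_right]; exact Subgroup.index_ne_zero_of_finite)
  have h4 := Subgroup.relIndex_mul_relIndex ⊥ (E' ⊓ Subgroup.centralizer (U : Set P)) E'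
    bot_le inf_le_left
  rw [Subgroup.relIndex_bot_left, Subgroup.relIndex_bot_left] at h4
  by_contra hlt
  push Not at hlt
  have h5 : Nat.card ↥E' < p ^ 2 * p := by
    rw [← h4]
    calc Nat.card ↥(E' ⊓ Subgroup.centralizer (U : Set P)) *
          (E' ⊓ Subgroup.centralizer (U : Set P)).relIndex E'
        ≤ Nat.card ↥(E' ⊓ Subgroup.centralizer (U : Set P)) * p := Nat.mul_le_mul_left _ h3
      _ < p ^ 2 * p := Nat.mul_lt_mul_of_pos_right hlt hpp.pos
  have h6 : p ^ 3 = p ^ 2 * p := by ring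
  omega
have hsub : ∀ (F G : Subgroup P), G ≤ F → Cfsg.IsElementaryAbelian p F →
    Cfsg.IsElementaryAbelian p G := by
  intro F G hGF hF
  refine ⟨⟨⟨fun a b => ?_⟩⟩, fun a ha => hF.2 a (hGF ha)⟩
  apply Subtype.ext
  show a.1 * b.1 = b.1 * a.1
  exact congrArg Subtype.val (hF.1.is_comm.comm ⟨a.1, hGF a.2⟩ ⟨b.1, hGF b.2⟩)
have hUc : U ≤ Subgroup.centralizer (U : Set P) :=
  Subgroup.le_centralizer_iff_isMulCommutative.mpr hUea.1
intro X hXea hXcard
constructor
· intro hchain
  refine Relation.ReflTransGen.head_induction_on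
    (motive := fun (a : Subgroup P) _ => ¬ Cfsg.PRankLE p 2 ↥(Subgroup.centralizer (a : Set P))) hchain ?_ ?_
  · -- base: X = U
    have hE1 := hinter E hE3
    have hE1ea : Cfsg.IsElementaryAbelian p (E ⊓ Subgroup.centralizer (U : Set P)) :=
      hsub E _ inf_le_left ⟨hEc, hEe⟩
    by_cases hle : E ⊓ Subgroup.centralizer (U : Set P) ≤ U
    · have heq : E ⊓ Subgroup.centralizer (U : Set P) = U :=
        Subgroup.eq_of_le_of_card_ge hle (by rw [hUcard]; exact hE1)
      have hUE : U ≤ E := heq ▸ inf_le_left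
      have hEC : E ≤ Subgroup.centralizer (U : Set P) := by
        intro e he
        refine Subgroup.mem_centralizer_iff.2 fun u hu => ?_
        exact congrArg Subtype.val (hEc.is_comm.comm ⟨u, hUE hu⟩ ⟨e, he⟩)
      exact hwit U E hEC ⟨hEc, hEe⟩ hEcard
    · have hFea : Cfsg.IsElementaryAbelian p (E ⊓ Subgroup.centralizer (U : Set P) ⊔ U) :=
        ea_sup hE1ea hUea fun a ha b hb =>
          (Subgroup.mem_centralizer_iff.1 ha.2 b hb).symm
      refine hwit U _ (sup_le inf_le_right hUc) hFea ?_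
      by_contra hcard
      push Not at hcard
      have heq : U = E ⊓ Subgroup.centralizer (U : Set P) ⊔ U :=
        Subgroup.eq_of_le_of_card_ge le_sup_right (by rw [hUcard]; exact hcard)
      exact hle (le_sup_left.trans heq.ge)
  · intro X' Y h' _ ih
    obtain ⟨hX'ea, hX'c, hYea, hYc, hcomm⟩ := h'
    by_cases hXY : X' = Y
    · subst hXY; exact ih
    · have hFea : Cfsg.IsElementaryAbelian p (X' ⊔ Y) := ea_sup hX'ea hYea hcomm
      have hX'cc : X' ≤ Subgroup.centralizer (X' : Set P) :=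
        Subgroup.le_centralizer_iff_isMulCommutative.mpr hX'ea.1
      have hYcc : Y ≤ Subgroup.centralizer (X' : Set P) := fun b hb =>
        Subgroup.mem_centralizer_iff.2 fun a ha => hcomm a ha b hb
      refine hwit X' _ (sup_le hX'cc hYcc) hFea ?_
      by_contra hcard
      push Not at hcard
      have h1 : X' = X' ⊔ Y := Subgroup.eq_of_le_of_card_ge le_sup_left (hcard.trans hX'c)
      have h2 : Y = X' ⊔ Y := Subgroup.eq_of_le_of_card_ge le_sup_right (hcard.trans hYc)
      exact hXY (h1.trans h2.symm)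
· intro hrkX
  unfold Cfsg.PRankLE at hrkX
  push Not at hrkX
  obtain ⟨F, hFc, hFe, hFcard⟩ := hrkX
  have hF'le : F.map (Subgroup.centralizer (X : Set P)).subtype ≤ Subgroup.centralizer (X : Set P) :=
    Subgroup.map_subtype_le F
  have hF'card : Nat.card ↥(F.map (Subgroup.centralizer (X : Set P)).subtype) = Nat.card ↥F :=
    Subgroup.card_map_of_injective (Subgroup.subtype_injective _)
  have hF'ea : Cfsg.IsElementaryAbelian p (F.map (Subgroup.centralizer (X : Set P)).subtype) := by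
    refine ⟨⟨⟨?_⟩⟩, ?_⟩
    · rintro ⟨a, ha⟩ ⟨b, hb⟩
      obtain ⟨a', ha', rfl⟩ := Subgroup.mem_map.1 ha
      obtain ⟨b', hb', rfl⟩ := Subgroup.mem_map.1 hb
      apply Subtype.ext
      have := hFc.is_comm.comm ⟨a', ha'⟩ ⟨b', hb'⟩
      exact congrArg (fun z : ↥F => ((z : ↥(Subgroup.centralizer (X : Set P))) : P)) this
    · intro a ha
      obtain ⟨a', ha', rfl⟩ := Subgroup.mem_map.1 ha
      have := hFe a' ha'
      exact congrArg Subtype.val this
  have hE'ea : Cfsg.IsElementaryAbelian p (X ⊔ F.map (Subgroup.centralizer (X : Set P)).subtype) :=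
    ea_sup hXea hF'ea fun a ha b hb => Subgroup.mem_centralizer_iff.1 (hF'le hb) a ha
  have hE'card : p ^ 2 < Nat.card ↥(X ⊔ F.map (Subgroup.centralizer (X : Set P)).subtype) := by
    have h1 : Nat.card ↥(F.map (Subgroup.centralizer (X : Set P)).subtype) ≤
        Nat.card ↥(X ⊔ F.map (Subgroup.centralizer (X : Set P)).subtype) :=
      Subgroup.card_le_of_le le_sup_right
    rw [hF'card] at h1
    omega
  have hE'3 := hcube _ hE'card
  have hE1 := hinter _ hE'3
  have hE1ea := hsub (X ⊔ F.map (Subgroup.centralizer (X : Set P)).subtype)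
    ((X ⊔ F.map (Subgroup.centralizer (X : Set P)).subtype) ⊓ Subgroup.centralizer (U : Set P))
    inf_le_left hE'ea
  have hUc2 : p ^ 2 ≤ Nat.card ↥U := hUcard.ge
  refine Relation.ReflTransGen.head ⟨hXea, hXcard, hE'ea, hE'card.le, fun a ha b hb => ?_⟩
    (Relation.ReflTransGen.head ⟨hE'ea, hE'card.le, hE1ea, hE1, fun a ha b hb => ?_⟩
      (Relation.ReflTransGen.single ⟨hE1ea, hE1, hUea, hUc2, fun a ha b hb => ?_⟩))
  · exact congrArg Subtype.val (hE'ea.1.is_comm.comm ⟨a, Subgroup.mem_sup_left ha⟩ ⟨b, hb⟩)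
  · exact congrArg Subtype.val (hE'ea.1.is_comm.comm ⟨a, ha⟩ ⟨b, hb.1⟩)
  · exact (Subgroup.mem_centralizer_iff.1 ha.2 b hb).symm

end Cfsg.Agent.S1337
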