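import Cfsg.Statements.S3380
import Cfsg.Agent.S1337
import Cfsg.Agent.S0016
import Cfsg.Agent.Helper24.PNormalCenter

set_option autoImplicit false
open Cfsg

namespace Cfsg.Agent.S3380


theorem ex_ea_sq {G : Type*} [Group G] [Finite G] (p : ℕ) [Fact p.Prime] (hG : IsPGroup p G)
    (hnc : ¬ IsCyclic G) (hnq : ∀ n : ℕ, ¬ Nonempty (G ≃* QuaternionGroup n))
    (hnd : ∀ n : ℕ, ¬ Nonempty (G ≃* DihedralGroup n)) (hnsd : ¬ Cfsg.IsQuasiDihedral G) :
    ∃ B : Subgroup G, B.Normal ∧ Cfsg.IsElementaryAbelian p B ∧ Nat.card ↥B = p ^ 2 := by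
  classical
  have hpp : p.Prime := Fact.out
  by_cases huniq : ∀ H K : Subgroup G, Nat.card H = p → Nat.card K = p → H = K
  · rcases Cfsg.Agent.S0016.result p hG huniq with h | ⟨-, n, hn⟩
    · exact absurd h hnc
    · exact absurd hn (hnq _)
  · push Not at huniq
    obtain ⟨H₁, K₁, hH₁, hK₁, hne⟩ := huniq
    haveI : Nontrivial G := by
      by_contra hnt
      rw [not_nontrivial_iff_subsingleton] at hnt
      exact hnc isCyclic_of_subsingleton
    have hcn : Nontrivial (Subgroup.center G) := hG.center_nontrivial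
    have hpc : p ∣ Nat.card (Subgroup.center G) := by
      obtain ⟨k, hk⟩ := IsPGroup.iff_card.mp (hG.to_subgroup (Subgroup.center G))
      rcases Nat.eq_zero_or_pos k with h0 | hpos
      · exfalso
        rw [h0, pow_zero] at hk
        have := (Finite.one_lt_card_iff_nontrivial).2 hcn
        omega
      · rw [hk]; exact dvd_pow_self p hpos.ne'
    obtain ⟨z', hz'⟩ := exists_prime_orderOf_dvd_card' p hpc
    obtain ⟨z, hzdef⟩ : ∃ z : G, z = (z' : G) := ⟨_, rfl⟩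
    have hzc : z ∈ Subgroup.center G := by rw [hzdef]; exact z'.2
    have hzo : orderOf z = p := by rw [hzdef, Subgroup.orderOf_coe]; exact hz'
    obtain ⟨Z₀, hZ₀⟩ : ∃ Z₀ : Subgroup G, Z₀ = Subgroup.zpowers z := ⟨_, rfl⟩
    have hZ₀card : Nat.card Z₀ = p := by rw [hZ₀, Nat.card_zpowers, hzo]
    obtain ⟨H₂, hH₂, hH₂ne⟩ : ∃ H₂ : Subgroup G, Nat.card H₂ = p ∧ H₂ ≠ Z₀ := by
      by_cases h : H₁ = Z₀
      · refine ⟨K₁, hK₁, ?_⟩
        intro h'
        exact hne (h.trans h'.symm)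
      · exact ⟨H₁, hH₁, h⟩
    have hea : ∀ X : Subgroup G, Nat.card X = p → Cfsg.IsElementaryAbelian p X := by
      intro X hX
      have hcyc : IsCyclic X := isCyclic_of_prime_card hX
      refine ⟨?_, ?_⟩
      · obtain ⟨g, hg⟩ := hcyc.exists_generator
        refine ⟨⟨fun a b => ?_⟩⟩
        obtain ⟨m, rfl⟩ := Subgroup.mem_zpowers_iff.1 (hg a)
        obtain ⟨n, rfl⟩ := Subgroup.mem_zpowers_iff.1 (hg b)
        rw [← zpow_add, ← zpow_add, add_comm]
      · intro a ha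
        have h1 : (⟨a, ha⟩ : X) ^ Nat.card X = 1 := pow_card_eq_one'
        rw [hX] at h1
        exact congrArg Subtype.val h1
    have hHe := hea H₂ hH₂
    have hZe := hea Z₀ hZ₀card
    have hcomm : ∀ a ∈ H₂, ∀ b ∈ Z₀, a * b = b * a := by
      intro a _ b hb
      rw [hZ₀] at hb
      obtain ⟨j, rfl⟩ := Subgroup.mem_zpowers_iff.1 hb
      exact Subgroup.mem_center_iff.1 (Subgroup.zpow_mem _ hzc j) a
    have hsup := Cfsg.Agent.S1337.ea_sup hHe hZe hcomm
    have hncyc : ¬ IsCyclic ↥(H₂ ⊔ Z₀) := by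
      intro hcyc
      have hexp : Monoid.exponent ↥(H₂ ⊔ Z₀) ∣ p := by
        apply Monoid.exponent_dvd_of_forall_pow_eq_one
        intro x
        apply Subtype.ext
        have := hsup.2 x x.2
        simpa using this
      have hcard : Nat.card ↥(H₂ ⊔ Z₀) ≤ p := by
        rw [← IsCyclic.exponent_eq_card]
        exact Nat.le_of_dvd hpp.pos hexp
      have h1 : H₂ = H₂ ⊔ Z₀ :=
        Subgroup.eq_of_le_of_card_ge le_sup_left (by rw [hH₂]; exact hcard)
      have h2 : Z₀ ≤ H₂ := le_of_le_of_eq le_sup_right h1.symm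
      exact hH₂ne (Subgroup.eq_of_le_of_card_ge h2 (by rw [hH₂, hZ₀card])).symm
    have hex : ∃ A₀ : Subgroup G, A₀.Normal ∧ IsMulCommutative ↥A₀ ∧ ¬ IsCyclic ↥A₀ := by
      by_contra hno
      push Not at hno
      have := Cfsg.Agent.S0519.result p hG (fun A hA hc => hno A hA hc) ⟨H₂ ⊔ Z₀, hsup.1, hncyc⟩
      rcases this with ⟨-, ⟨n, hn⟩ | ⟨n, -, hn⟩ | hqd⟩
      · exact hnq n hn
      · exact hnd n hn
      · exact hnsd hqd
    obtain ⟨A₀, hA₀n, hA₀c, hA₀nc⟩ := hex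
    haveI := hA₀n
    exact Cfsg.Agent.S1337.ea_sq_of_noncyclic hG A₀ hA₀c hA₀nc

theorem ex_az {G : Type*} [Group G] [Finite G] (p : ℕ) [Fact p.Prime] (hG : IsPGroup p G)
    (B : Subgroup G) (hBn : B.Normal) (hBe : Cfsg.IsElementaryAbelian p B)
    (hBc : Nat.card ↥B = p ^ 2) :
    ∃ a z : G, z ∈ Subgroup.center G ∧ z ≠ 1 ∧ z ^ p = 1 ∧ a ^ p = 1 ∧
      a ∉ Subgroup.zpowers z ∧ ∀ g : G, ∃ k : ℕ, g * a * g⁻¹ = a * z ^ k := by
  classical
  have hpp : p.Prime := Fact.out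
  haveI := hBn
  have hp2 : p < p ^ 2 := by
    calc p = p ^ 1 := (pow_one p).symm
      _ < p ^ 2 := Nat.pow_lt_pow_right hpp.one_lt (by norm_num)
  have hBne : B ≠ ⊥ := by
    intro h
    rw [h, Subgroup.card_bot] at hBc
    have := hpp.one_lt
    omega
  obtain ⟨z, hzB, hzc, hz1⟩ := Cfsg.Agent.Helper24.pgroup_normal_inf_center hG B hBne
  have hzp : z ^ p = 1 := hBe.2 z hzB
  have hzo : orderOf z = p := orderOf_eq_prime hzp hz1
  obtain ⟨U, hU⟩ : ∃ U : Subgroup G, U = Subgroup.zpowers z := ⟨_, rfl⟩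
  have hUn : U.Normal := by
    refine ⟨fun n hn g => ?_⟩
    rw [hU] at hn ⊢
    obtain ⟨j, rfl⟩ := Subgroup.mem_zpowers_iff.1 hn
    have h1 := Subgroup.mem_center_iff.1 (Subgroup.zpow_mem _ hzc j) g
    rw [h1, mul_inv_cancel_right]
    exact Subgroup.zpow_mem_zpowers z j
  haveI := hUn
  have hUcard : Nat.card U = p := by rw [hU, Nat.card_zpowers, hzo]
  have hNn : (B.map (QuotientGroup.mk' U)).Normal :=
    Subgroup.Normal.map hBn (QuotientGroup.mk' U) (QuotientGroup.mk'_surjective U)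
  have hNne : B.map (QuotientGroup.mk' U) ≠ ⊥ := by
    intro h
    have hBU : B ≤ U := by
      intro b hb
      have h1 : (QuotientGroup.mk' U) b ∈ B.map (QuotientGroup.mk' U) :=
        Subgroup.mem_map_of_mem _ hb
      rw [h, Subgroup.mem_bot] at h1
      exact (QuotientGroup.eq_one_iff b).1 h1
    have := Subgroup.card_le_of_le hBU
    rw [hBc, hUcard] at this
    omega
  haveI := hNn
  obtain ⟨c, hcN, hcc, hc1⟩ := Cfsg.Agent.Helper24.pgroup_normal_inf_center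
    (hG.to_quotient U) (B.map (QuotientGroup.mk' U)) hNne
  obtain ⟨a, haB, rfl⟩ := Subgroup.mem_map.1 hcN
  refine ⟨a, z, hzc, hz1, hzp, hBe.2 a haB, ?_, ?_⟩
  · intro ha
    rw [← hU] at ha
    exact hc1 ((QuotientGroup.eq_one_iff a).2 ha)
  · intro g
    have h1 : (QuotientGroup.mk' U) (g * a * g⁻¹ * a⁻¹) = 1 := by
      have h2 := Subgroup.mem_center_iff.1 hcc ((QuotientGroup.mk' U) g)
      rw [map_mul, map_mul, map_mul, map_inv, map_inv, h2]
      group
    have h3 : g * a * g⁻¹ * a⁻¹ ∈ U := (QuotientGroup.eq_one_iff _).1 h1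
    rw [hU] at h3
    have h4 : g * a * g⁻¹ * a⁻¹ ∈ Submonoid.powers z := mem_powers_iff_mem_zpowers.2 h3
    obtain ⟨k, hk⟩ := (Submonoid.mem_powers_iff _ _).1 h4
    refine ⟨k, ?_⟩
    have h5 : a * z ^ k = z ^ k * a :=
      Subgroup.mem_center_iff.1 (Subgroup.pow_mem _ hzc k) a
    rw [h5, hk]; group

/-- Let a finite p-group G act faithfully and irreducibly on a non-trivial finite vector space V over the field with q elements (q prime), and suppose G is not cyclic, generalized quaternion, dihedral or semidihedral. Then G has a subgroup H of index p and V is the direct sum of p subspaces, each invariant under H, on none of which H acts faithfully, and which every element of G outside H permutes in a single p-cycle. -/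
theorem result
    (q : ℕ) [Fact q.Prime] {V : Type*} [AddCommGroup V] [Module (ZMod q) V] [Finite V] [Nontrivial V]
    {G : Type*} [Group G] [Finite G] (p : ℕ) [Fact p.Prime] (hG : IsPGroup p G)
    (ρ : G →* (V ≃ₗ[ZMod q] V)) (hρ : Function.Injective ρ)
    (hirr : ∀ W : Submodule (ZMod q) V, (∀ g : G, ∀ w ∈ W, ρ g w ∈ W) → W = ⊥ ∨ W = ⊤)
    (hnc : ¬ IsCyclic G) (hnq : ∀ n : ℕ, ¬ Nonempty (G ≃* QuaternionGroup n))
    (hnd : ∀ n : ℕ, ¬ Nonempty (G ≃* DihedralGroup n)) (hnsd : ¬ Cfsg.IsQuasiDihedral G) :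
    ∃ (H : Subgroup G) (W : Fin p → Submodule (ZMod q) V), H.index = p ∧
      iSup W = ⊤ ∧ iSupIndep W ∧
      (∀ h ∈ H, ∀ i, ∀ w ∈ W i, ρ h w ∈ W i) ∧
      (∀ i, ∃ h ∈ H, h ≠ 1 ∧ ∀ w ∈ W i, ρ h w = w) ∧
      ∀ g : G, g ∉ H → ∃ σ : Equiv.Perm (Fin p), orderOf σ = p ∧ ∀ i, (W i).map (ρ g : V →ₗ[ZMod q] V) = W (σ i) := by
  classical
have hpp : p.Prime := Fact.out
have hqp : q.Prime := Fact.out
obtain ⟨B, hBn, hBe, hBc⟩ := ex_ea_sq p hG hnc hnq hnd hnsd
obtain ⟨a, z, hzc, hz1, hzp, hap, haU, hconj⟩ := ex_az p hG B hBn hBe hBc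
have hzo : orderOf z = p := orderOf_eq_prime hzp hz1
have hmul : ∀ (x y : G) (w : V), ρ (x * y) w = ρ x (ρ y w) := by
  intro x y w; rw [map_mul]; rfl
have hone : ∀ w : V, ρ 1 w = w := by
  intro w; rw [map_one]; rfl
have hzcomm : ∀ (k : ℕ) (g : G), g * z ^ k = z ^ k * g := fun k g =>
  Subgroup.mem_center_iff.1 (Subgroup.pow_mem _ hzc k) g
have hzip : ∀ i : ℕ, (z ^ i) ^ p = 1 := fun i => by
  rw [← pow_mul, mul_comm, pow_mul, hzp, one_pow]
-- p ≠ q
have hpq : p ≠ q := by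
  intro hpq
  letI act : MulAction G V :=
    { smul := fun g v => ρ g v
      one_smul := fun v => hone v
      mul_smul := fun g h v => hmul g h v }
  have hsm : ∀ (g : G) (v : V), g • v = ρ g v := fun g v => rfl
  have hmod := hG.card_modEq_card_fixedPoints V
  obtain ⟨v₀, hv₀⟩ := exists_ne (0 : V)
  have hqv : q • v₀ = 0 := by
    rw [← Nat.cast_smul_eq_nsmul (ZMod q), ZMod.natCast_self, zero_smul]
  have hqd : q ∣ Nat.card V := by
    have := addOrderOf_dvd_natCard v₀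
    rwa [addOrderOf_eq_prime hqv hv₀] at this
  have hpd : p ∣ Nat.card V := by rw [hpq]; exact hqd
  have hpF : p ∣ Nat.card (MulAction.fixedPoints G V) :=
    Nat.modEq_zero_iff_dvd.mp ((hmod.symm).trans (Nat.modEq_zero_iff_dvd.mpr hpd))
  obtain ⟨F, hFmem⟩ : ∃ F : Submodule (ZMod q) V, ∀ w, w ∈ F ↔ ∀ g : G, ρ g w = w :=
    ⟨{ carrier := {w | ∀ g : G, ρ g w = w}
       add_mem' := by
         intro x y hx hy g
         have hx' : ρ g x = x := hx g
         have hy' : ρ g y = y := hy g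
         rw [map_add, hx', hy']
       zero_mem' := by intro g; exact map_zero _
       smul_mem' := by
         intro c x hx g
         have hx' : ρ g x = x := hx g
         rw [map_smul, hx'] }, fun w => Iff.rfl⟩
  have hFinv : ∀ g : G, ∀ w ∈ F, ρ g w ∈ F := by
    intro g w hw
    rw [(hFmem w).1 hw g]; exact hw
  rcases hirr F hFinv with hF | hF
  · have h0 : (0 : V) ∈ MulAction.fixedPoints G V := fun g => by rw [hsm]; exact map_zero _
    have hall : ∀ x : MulAction.fixedPoints G V, x = ⟨0, h0⟩ := by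
      intro x
      apply Subtype.ext
      have hx : (x : V) ∈ F := by
        rw [hFmem]; intro g
        exact x.2 g
      rw [hF, Submodule.mem_bot] at hx
      exact hx
    have hc1 : Nat.card (MulAction.fixedPoints G V) = 1 :=
      Nat.card_eq_one_iff_exists.2 ⟨_, hall⟩
    rw [hc1] at hpF
    exact hpp.one_lt.ne' (Nat.dvd_one.1 hpF)
  · apply hnc
    haveI : Subsingleton G := by
      refine ⟨fun g h => hρ ?_⟩
      ext w
      have hw : w ∈ F := by rw [hF]; trivial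
      rw [(hFmem w).1 hw g, (hFmem w).1 hw h]
    exact isCyclic_of_subsingleton
have hpne : (p : ZMod q) ≠ 0 := by
  intro h
  rw [ZMod.natCast_eq_zero_iff] at h
  exact hpq ((Nat.prime_dvd_prime_iff_eq hqp hpp).1 h).symm
obtain ⟨fixSp, hfix⟩ : ∃ f : G → Submodule (ZMod q) V, ∀ u w, w ∈ f u ↔ ρ u w = w :=
  ⟨fun u => LinearMap.ker ((ρ u : V →ₗ[ZMod q] V) - LinearMap.id), fun u w => by
    rw [LinearMap.mem_ker, LinearMap.sub_apply, sub_eq_zero]; exact Iff.rfl⟩
obtain ⟨trL, htr⟩ : ∃ f : G → (V →ₗ[ZMod q] V),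
    ∀ u v, f u v = ∑ s ∈ Finset.range p, ρ (u ^ s) v :=
  ⟨fun u => ∑ s ∈ Finset.range p, ((ρ (u ^ s) : V ≃ₗ[ZMod q] V) : V →ₗ[ZMod q] V),
    fun u v => by rw [LinearMap.sum_apply]; rfl⟩
have hfixpow : ∀ (u : G) (w : V), ρ u w = w → ∀ s : ℕ, ρ (u ^ s) w = w := by
  intro u w hw s
  induction s with
  | zero => rw [pow_zero, hone]
  | succ s ih => rw [pow_succ, hmul, hw, ih]
have hcfix : ∀ u : G, u ∈ Subgroup.center G → u ≠ 1 → fixSp u = ⊥ := by
  intro u hu hu1
  have hinv : ∀ g : G, ∀ w ∈ fixSp u, ρ g w ∈ fixSp u := by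
    intro g w hw
    rw [hfix] at hw ⊢
    rw [← hmul, ← Subgroup.mem_center_iff.1 hu g, hmul, hw]
  rcases hirr (fixSp u) hinv with h | h
  · exact h
  · exfalso
    apply hu1
    apply hρ
    ext w
    have hw : w ∈ fixSp u := by rw [h]; trivial
    rw [(hfix u w).1 hw, hone]
have htrfix : ∀ u : G, u ^ p = 1 → ∀ v, trL u v ∈ fixSp u := by
  intro u hu v
  rw [hfix, htr, map_sum]
  have h1 : ∀ s, ρ u (ρ (u ^ s) v) = ρ (u ^ (s + 1)) v := by
    intro s; rw [← hmul, ← pow_succ']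
  simp only [h1]
  have h2 := Finset.sum_range_succ (fun s => ρ (u ^ s) v) p
  have h3 := Finset.sum_range_succ' (fun s => ρ (u ^ s) v) p
  beta_reduce at h2 h3
  rw [h2] at h3
  rw [hu, pow_zero] at h3
  exact (add_right_cancel h3).symm
have hcen1 : ∀ s : ℕ, 0 < s → s < p → ∀ v, trL (z ^ s) v = 0 := by
  intro s hs0 hsp v
  have hzs1 : z ^ s ≠ 1 := by
    intro h
    have := orderOf_dvd_of_pow_eq_one h
    rw [hzo] at this
    exact absurd (Nat.le_of_dvd hs0 this) (by omega)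
  have := htrfix (z ^ s) (hzip s) v
  rw [hcfix (z ^ s) (Subgroup.pow_mem _ hzc s) hzs1, Submodule.mem_bot] at this
  exact this
have hcomm_az : ∀ i s : ℕ, (a * z ^ i) ^ s = a ^ s * (z ^ s) ^ i := by
  intro i s
  have hc : Commute a (z ^ i) := hzcomm i a
  rw [hc.mul_pow, ← pow_mul, ← pow_mul, mul_comm i s]
have hkey : ∀ v : V, ∑ i ∈ Finset.range p, trL (a * z ^ i) v = (p : ZMod q) • v := by
  intro v
  simp only [htr, hcomm_az, hmul]
  rw [Finset.sum_comm]
  have h1 : ∀ s ∈ Finset.range p,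
      ∑ i ∈ Finset.range p, ρ (a ^ s) (ρ ((z ^ s) ^ i) v) = ρ (a ^ s) (trL (z ^ s) v) := by
    intro s _
    rw [htr, map_sum]
  rw [Finset.sum_congr rfl h1]
  rw [Finset.sum_eq_single 0]
  · rw [pow_zero, pow_zero, hone, htr]
    simp only [one_pow, hone]
    rw [Finset.sum_const, Finset.card_range, Nat.cast_smul_eq_nsmul]
  · intro s hs hs0
    rw [hcen1 s (Nat.pos_of_ne_zero hs0) (Finset.mem_range.1 hs) v, map_zero]
  · intro h
    exact absurd (Finset.mem_range.2 hpp.pos) h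
have hb1 : ∀ i : ℕ, a * z ^ i ≠ 1 := by
  intro i h
  apply haU
  have : a = (z ^ i)⁻¹ := eq_inv_of_mul_eq_one_left h
  rw [this]
  exact Subgroup.inv_mem _ (Subgroup.pow_mem _ (Subgroup.mem_zpowers z) i)
have hbp : ∀ i : ℕ, (a * z ^ i) ^ p = 1 := by
  intro i
  rw [hcomm_az, hap, hzp, one_pow, one_mul]
have hanc : a ∉ Subgroup.center G := by
  intro hac
  obtain ⟨v₀, hv₀⟩ := exists_ne (0 : V)
  have h := hkey v₀
  have h0 : ∀ i ∈ Finset.range p, trL (a * z ^ i) v₀ = 0 := by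
    intro i _
    have := htrfix (a * z ^ i) (hbp i) v₀
    rw [hcfix (a * z ^ i) (Subgroup.mul_mem _ hac (Subgroup.pow_mem _ hzc i)) (hb1 i),
      Submodule.mem_bot] at this
    exact this
  rw [Finset.sum_eq_zero h0] at h
  exact hv₀ ((smul_eq_zero.1 h.symm).resolve_left hpne)
obtain ⟨H, hH⟩ : ∃ H : Subgroup G, H = Subgroup.centralizer ({a} : Set G) := ⟨_, rfl⟩
have hHmem : ∀ g : G, g ∈ H ↔ a * g = g * a := by
  intro g
  rw [hH, Subgroup.mem_centralizer_iff]
  constructor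
  · intro h; exact h a rfl
  · intro h x hx
    rw [Set.mem_singleton_iff] at hx
    rw [hx]; exact h
have hHidx : H.index = p := by
  have h1 : H.index ≤ p := by
    have hT : ∀ g : G, g * a * g⁻¹ ∈ ((fun k : ℕ => a * z ^ k) '' (Finset.range p : Set ℕ)) := by
      intro g
      obtain ⟨k, hk⟩ := hconj g
      refine ⟨k % p, ?_, ?_⟩
      · exact Finset.mem_coe.2 (Finset.mem_range.2 (Nat.mod_lt _ hpp.pos))
      · show a * z ^ (k % p) = g * a * g⁻¹
        rw [hk, pow_eq_pow_mod k hzp]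
    have h2 := Cfsg.Agent.S1337.idx_centralizer_le a _ hT
    rw [← hH] at h2
    refine h2.trans ?_
    refine (Set.ncard_image_le (Finset.finite_toSet _)).trans ?_
    rw [Set.ncard_coe_finset, Finset.card_range]
  have h2 : H.index ≠ 1 := by
    intro h
    rw [Subgroup.index_eq_one] at h
    apply hanc
    rw [Subgroup.mem_center_iff]
    intro g
    have : g ∈ H := by rw [h]; trivial
    exact ((hHmem g).1 this).symm
  obtain ⟨n, hn⟩ := IsPGroup.iff_card.mp hG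
  have hdvd : H.index ∣ p ^ n := by rw [← hn]; exact Subgroup.index_dvd_card H
  obtain ⟨k, -, hk⟩ := (Nat.dvd_prime_pow hpp).1 hdvd
  rcases k with _ | _ | k
  · exact absurd (by rw [hk, pow_zero]) h2
  · rw [hk]; simp
  · exfalso
    rw [hk] at h1
    have h4 : p ^ 2 ≤ p ^ (k + 1 + 1) := Nat.pow_le_pow_right hpp.pos (by omega)
    have h3 : p < p ^ 2 := by
      calc p = p ^ 1 := (pow_one p).symm
        _ < p ^ 2 := Nat.pow_lt_pow_right hpp.one_lt (by norm_num)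
    omega
refine ⟨H, fun i => fixSp (a * z ^ (i : ℕ)), hHidx, ?_, ?_, ?_, ?_, ?_⟩
· rw [eq_top_iff]
  intro v _
  have h := hkey v
  have hmem : (p : ZMod q) • v ∈ ⨆ i : Fin p, fixSp (a * z ^ (i : ℕ)) := by
    rw [← h, ← Fin.sum_univ_eq_sum_range (fun i => trL (a * z ^ i) v) p]
    apply Submodule.sum_mem
    intro i _
    exact (le_iSup (fun i : Fin p => fixSp (a * z ^ (i : ℕ))) i) (htrfix _ (hbp i) v)
  have := Submodule.smul_mem _ ((p : ZMod q)⁻¹) hmem
  rwa [smul_smul, inv_mul_cancel₀ hpne, one_smul] at this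
· intro i
  rw [Submodule.disjoint_def]
  intro w hwi hwj
  have hwi' : ρ (a * z ^ (i : ℕ)) w = w := (hfix _ _).1 hwi
  have hker : (⨆ j, ⨆ (_ : j ≠ i), fixSp (a * z ^ (j : ℕ))) ≤
      LinearMap.ker (trL (a * z ^ (i : ℕ))) := by
    apply iSup₂_le
    intro j hji w' hw'
    have hw'' : ρ (a * z ^ (j : ℕ)) w' = w' := (hfix _ _).1 hw'
    rw [LinearMap.mem_ker, htr]
    obtain ⟨c, hcdef⟩ : ∃ c : G, c = z ^ (i : ℕ) * (z ^ (j : ℕ))⁻¹ := ⟨_, rfl⟩
    have hcc : c ∈ Subgroup.center G := by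
      rw [hcdef]
      exact Subgroup.mul_mem _ (Subgroup.pow_mem _ hzc _)
        (Subgroup.inv_mem _ (Subgroup.pow_mem _ hzc _))
    have hc1 : c ≠ 1 := by
      intro h
      rw [hcdef, mul_inv_eq_one] at h
      have h2 := pow_inj_mod.1 h
      rw [hzo, Nat.mod_eq_of_lt i.2, Nat.mod_eq_of_lt j.2] at h2
      exact hji (Fin.ext h2).symm
    have hcp : c ^ p = 1 := by
      have hc : Commute (z ^ (i : ℕ)) ((z ^ (j : ℕ))⁻¹) := (hzcomm (i : ℕ) _).symm
      rw [hcdef, hc.mul_pow, hzip, inv_pow, hzip, inv_one, mul_one]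
    have hceq : a * z ^ (i : ℕ) = c * (a * z ^ (j : ℕ)) := by
      have h5 : (z ^ (j : ℕ))⁻¹ * (a * z ^ (j : ℕ)) = a := by
        rw [hzcomm (j : ℕ) a, inv_mul_cancel_left]
      rw [hcdef, mul_assoc, h5, hzcomm (i : ℕ) a]
    have hcs : ∀ s : ℕ, ρ ((a * z ^ (i : ℕ)) ^ s) w' = ρ (c ^ s) w' := by
      intro s
      have hc : Commute c (a * z ^ (j : ℕ)) :=
        (Subgroup.mem_center_iff.1 hcc (a * z ^ (j : ℕ))).symm
      rw [hceq, hc.mul_pow, hmul, hfixpow _ _ hw'' s]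
    simp only [hcs]
    have h6 := htrfix c hcp w'
    rw [hcfix c hcc hc1, Submodule.mem_bot, htr] at h6
    exact h6
  have h1 : trL (a * z ^ (i : ℕ)) w = 0 := LinearMap.mem_ker.1 (hker hwj)
  have h2 : trL (a * z ^ (i : ℕ)) w = (p : ZMod q) • w := by
    rw [htr]
    simp only [hfixpow _ _ hwi']
    rw [Finset.sum_const, Finset.card_range, Nat.cast_smul_eq_nsmul]
  rw [h2] at h1
  exact (smul_eq_zero.1 h1).resolve_left hpne
· intro h hh i w hw
  have hw' : ρ (a * z ^ (i : ℕ)) w = w := (hfix _ _).1 hw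
  refine (hfix _ _).2 ?_
  have hcomm : a * z ^ (i : ℕ) * h = h * (a * z ^ (i : ℕ)) := by
    have h1 := (hHmem h).1 hh
    have h2 := hzcomm (i : ℕ) h
    calc a * z ^ (i : ℕ) * h = a * (z ^ (i : ℕ) * h) := mul_assoc _ _ _
      _ = a * (h * z ^ (i : ℕ)) := by rw [h2]
      _ = a * h * z ^ (i : ℕ) := (mul_assoc _ _ _).symm
      _ = h * a * z ^ (i : ℕ) := by rw [h1]
      _ = h * (a * z ^ (i : ℕ)) := mul_assoc _ _ _
  rw [← hmul, hcomm, hmul, hw']
· intro i
  refine ⟨a * z ^ (i : ℕ), ?_, hb1 _, fun w hw => (hfix _ _).1 hw⟩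
  rw [hHmem, mul_assoc a (z ^ (i : ℕ)) a, ← hzcomm (i : ℕ) a]
· intro g hg
  obtain ⟨k, hk⟩ := hconj g
  have hk0 : k % p ≠ 0 := by
    intro h0
    apply hg
    rw [hHmem]
    have h1 : z ^ k = 1 := by rw [pow_eq_pow_mod k hzp, h0, pow_zero]
    rw [h1, mul_one] at hk
    exact (mul_inv_eq_iff_eq_mul.1 hk).symm
  have hkp : k % p < p := Nat.mod_lt _ hpp.pos
  obtain ⟨σ, hσ⟩ : ∃ σ : Equiv.Perm (Fin p), ∀ i : Fin p, ((σ i : Fin p) : ℕ) = ((i : ℕ) + k % p) % p := by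
    refine ⟨{ toFun := fun i => ⟨((i : ℕ) + k % p) % p, Nat.mod_lt _ hpp.pos⟩
              invFun := fun i => ⟨((i : ℕ) + (p - k % p)) % p, Nat.mod_lt _ hpp.pos⟩
              left_inv := ?_
              right_inv := ?_ }, fun i => rfl⟩
    · intro i
      apply Fin.ext
      show (((i : ℕ) + k % p) % p + (p - k % p)) % p = i
      rw [Nat.mod_add_mod]
      have h1 : (i : ℕ) + k % p + (p - k % p) = i + p := by omega
      rw [h1, Nat.add_mod_right, Nat.mod_eq_of_lt i.2]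
    · intro i
      apply Fin.ext
      show (((i : ℕ) + (p - k % p)) % p + k % p) % p = i
      rw [Nat.mod_add_mod]
      have h1 : (i : ℕ) + (p - k % p) + k % p = i + p := by omega
      rw [h1, Nat.add_mod_right, Nat.mod_eq_of_lt i.2]
  have hσpow : ∀ (n : ℕ) (i : Fin p), (((σ ^ n) i : Fin p) : ℕ) = ((i : ℕ) + n * (k % p)) % p := by
    intro n
    induction n with
    | zero =>
      intro i
      rw [pow_zero, Equiv.Perm.one_apply, zero_mul, add_zero, Nat.mod_eq_of_lt i.2]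
    | succ n ih =>
      intro i
      rw [pow_succ', Equiv.Perm.mul_apply, hσ, ih, Nat.mod_add_mod]
      congr 1
      ring
  refine ⟨σ, ?_, ?_⟩
  · apply orderOf_eq_prime
    · apply Equiv.ext
      intro i
      apply Fin.ext
      rw [hσpow, Equiv.Perm.one_apply, Nat.add_mul_mod_self_left, Nat.mod_eq_of_lt i.2]
    · intro h
      have h0 := hσ ⟨0, hpp.pos⟩
      rw [h, Equiv.Perm.one_apply] at h0
      have h1 : (0 : ℕ) = (0 + k % p) % p := h0
      rw [zero_add, Nat.mod_mod] at h1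
      exact hk0 h1.symm
  · intro i
    have hconjb : g * (a * z ^ (i : ℕ)) * g⁻¹ = a * z ^ ((σ i : Fin p) : ℕ) := by
      have h1 : g * (a * z ^ (i : ℕ)) * g⁻¹ = g * a * g⁻¹ * z ^ (i : ℕ) := by
        calc g * (a * z ^ (i : ℕ)) * g⁻¹ = g * a * (z ^ (i : ℕ) * g⁻¹) := by
              simp only [mul_assoc]
          _ = g * a * (g⁻¹ * z ^ (i : ℕ)) := by rw [hzcomm (i : ℕ) g⁻¹]
          _ = g * a * g⁻¹ * z ^ (i : ℕ) := by simp only [mul_assoc]
      rw [h1, hk, mul_assoc, ← pow_add, pow_eq_pow_mod (k + (i : ℕ)) hzp, hσ, Nat.add_mod_mod,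
        add_comm (i : ℕ) k]
    ext w
    rw [Submodule.mem_map]
    show (∃ y, y ∈ fixSp (a * z ^ (i : ℕ)) ∧ (ρ g : V →ₗ[ZMod q] V) y = w) ↔
      w ∈ fixSp (a * z ^ ((σ i : Fin p) : ℕ))
    rw [← hconjb]
    constructor
    · rintro ⟨y, hy, rfl⟩
      have hy' : ρ (a * z ^ (i : ℕ)) y = y := (hfix _ _).1 hy
      refine (hfix _ _).2 ?_
      show ρ (g * (a * z ^ (i : ℕ)) * g⁻¹) (ρ g y) = ρ g y
      rw [← hmul, inv_mul_cancel_right, hmul, hy']
    · intro hw
      have hw' : ρ (g * (a * z ^ (i : ℕ)) * g⁻¹) w = w := (hfix _ _).1 hw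
      refine ⟨ρ g⁻¹ w, (hfix _ _).2 ?_, ?_⟩
      · rw [← hmul]
        have h7 : a * z ^ (i : ℕ) * g⁻¹ = g⁻¹ * (g * (a * z ^ (i : ℕ)) * g⁻¹) := by
          simp only [mul_assoc, inv_mul_cancel_left]
        rw [h7, hmul, hw']
      · show ρ g (ρ g⁻¹ w) = w
        rw [← hmul, mul_inv_cancel, hone]

end Cfsg.Agent.S3380
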