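import Cfsg.Statements.S0014
import Mathlib
import Cfsg.Agent.Helper1.Burnside

set_option autoImplicit false
open Cfsg

namespace Cfsg.Agent.S0014

/-- Burnside's basis Theorem: in a finite p-group whose Frattini quotient has order p ^ n, every generating set contains n elements that already generate, and no set with fewer than n elements generates. -/
theorem result {G : Type*} [Group G] [Finite G] (p n : ℕ) [Fact p.Prime]
    (hG : IsPGroup p G) (hn : (frattini G).index = p ^ n) :
    (∀ S : Finset G, Subgroup.closure (S : Set G) = ⊤ → ∃ T : Finset G, T ⊆ S ∧ T.card = n ∧ Subgroup.closure (T : Set G) = ⊤) ∧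
    (∀ T : Finset G, Subgroup.closure (T : Set G) = ⊤ → n ≤ T.card) := by
  have hp : p.Prime := Fact.out
  refine ⟨fun S hS => ?_, fun T hT => ?_⟩
  · obtain ⟨T, hTS, hTc, hTi⟩ := Cfsg.Agent.Helper1.burnside_upper p n hG hn S hS n le_rfl
    refine ⟨T, hTS, hTc, ?_⟩
    rw [Nat.sub_self, pow_zero, Subgroup.index_eq_one] at hTi
    exact frattini_nongenerating hTi
  · have h1 := Cfsg.Agent.Helper1.burnside_lower p n hG hn T
    rw [hT, top_sup_eq, Subgroup.index_top, one_mul] at h1
    exact (Nat.pow_le_pow_iff_right hp.one_lt).mp h1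

end Cfsg.Agent.S0014
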