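import Cfsg.Agent.Helper2.CharConstituent
import Cfsg.Agent.Helper6.InvariantDegree
import Cfsg.Agent.Helper6.Inertia
import Cfsg.Agent.S0854
import Cfsg.Statements.S0169
-- import your own Cfsg.Agent.* helpers here

set_option autoImplicit false
open Cfsg

namespace Cfsg.Agent.S0169

open Cfsg.Agent.Helper2 Cfsg.Agent

/-- Itô's Theorem on character degrees: the degree of an irreducible complex representation of a finite group divides the index of any abelian normal subgroup. -/
theorem result {G : Type*} [Group G] [Finite G] {V : Type*} [AddCommGroup V] [Module ℂ V] [FiniteDimensional ℂ V] (ρ : Representation ℂ G V) [ρ.IsIrreducible] (H : Subgroup G) [H.Normal] (hH : ∀ a ∈ H, ∀ b ∈ H, a * b = b * a) : Module.finrank ℂ V ∣ H.index := by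
  classical
  have := Fintype.ofFinite G
  have hχirr : IsIrrCharacter G ρ.character := isIrrCharacter_of_rep ρ
  have hχ := Helper24.isCharacter_of_irr hχirr
  have hres : IsCharacter H (fun n : H => ρ.character n) := Helper24.isCharacter_restrict H hχ
  have hdeg : ρ.character 1 = (Module.finrank ℂ V : ℂ) := Representation.char_one ρ
  have hdeg0 : ρ.character 1 ≠ 0 := Helper24.irr_one_ne_zero hχirr
  have hres0 : (fun n : H => ρ.character n) ≠ 0 := by
    intro h
    exact hdeg0 (congrFun h 1)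
  obtain ⟨ϑ, hϑ, hcon⟩ := exists_irr_constituent (IsCharacter.isClassFunction hres) hres0
  have hϑ1 : ϑ 1 = 1 := irr_abelian_linear (fun a b => Subtype.ext (hH a a.2 b b.2)) hϑ
  have hHT : H ≤ Helper6.inertia H ϑ := Helper6.le_inertia H (IsIrrCharacter.isClassFunction hϑ)
  obtain ⟨ψ, hψ, hind, hψcon⟩ := S0854.result H ϑ hϑ (Helper6.inertia H ϑ)
    (Helper6.mem_inertia H ϑ) hHT ρ.character hχirr hcon
  have hN' : (H.subgroupOf (Helper6.inertia H ϑ)).Normal := Subgroup.normal_subgroupOf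
  have hϑ'irr : IsIrrCharacter (H.subgroupOf (Helper6.inertia H ϑ))
      (ϑ ∘ (Subgroup.subgroupOfEquivOfLe hHT)) :=
    Helper6.isIrrCharacter_comp_mulEquiv (Subgroup.subgroupOfEquivOfLe hHT) hϑ
  have hinv' : ∀ (t : Helper6.inertia H ϑ) (n : H.subgroupOf (Helper6.inertia H ϑ)),
      (ϑ ∘ (Subgroup.subgroupOfEquivOfLe hHT)) ⟨t * n * t⁻¹, hN'.conj_mem (n : _) n.2 t⟩ =
        (ϑ ∘ (Subgroup.subgroupOfEquivOfLe hHT)) n := by
    intro t n
    have h1 := (Helper6.mem_inertia H ϑ (t : G)).mp t.2 (Subgroup.subgroupOfEquivOfLe hHT n)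
    rw [Function.comp_apply, Function.comp_apply, ← h1]
    congr 1
  have hcon' : classInner (fun n : H.subgroupOf (Helper6.inertia H ϑ) => ψ n)
      (ϑ ∘ (Subgroup.subgroupOfEquivOfLe hHT)) ≠ 0 := by
    have h1 : (fun n : H.subgroupOf (Helper6.inertia H ϑ) => ψ n) =
        (fun n : H => ψ ⟨n, hHT n.2⟩) ∘ (Subgroup.subgroupOfEquivOfLe hHT) := by
      funext n
      rfl
    rw [h1, Helper6.classInner_comp_mulEquiv, hψcon]
    exact hcon
  obtain ⟨b, hb1, hb2⟩ := Helper6.degree_ratio_dvd_index_of_invariant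
    (H.subgroupOf (Helper6.inertia H ϑ)) hϑ'irr hinv' hψ hcon'
  have hϑ'1 : charDegree (ϑ ∘ (Subgroup.subgroupOfEquivOfLe hHT)) = 1 := by
    have h1 := Helper24.charDegree_spec (Helper24.isCharacter_of_irr hϑ'irr)
    rw [Function.comp_apply, map_one, hϑ1] at h1
    exact_mod_cast h1.symm
  rw [hϑ'1, mul_one] at hb1
  have hψ1 : ψ 1 = (b : ℂ) := by
    rw [Helper24.charDegree_spec (Helper24.isCharacter_of_irr hψ), hb1]
  have h2 : ρ.character 1 = ((Helper6.inertia H ϑ).index : ℂ) * ψ 1 := by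
    rw [← hind, indFun_apply_one]
  rw [hdeg, hψ1] at h2
  have h3 : Module.finrank ℂ V = (Helper6.inertia H ϑ).index * b := by exact_mod_cast h2
  rw [h3, ← Subgroup.relIndex_mul_index hHT, mul_comm]
  exact Nat.mul_dvd_mul hb2 (dvd_refl _)

end Cfsg.Agent.S0169
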