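import Cfsg.Statements.S2582
import Cfsg.Agent.Helper15.JordSympMain
import Cfsg.Agent.Helper15.JordOrthRank
import Cfsg.Agent.Helper15.JordSympDarboux
import Cfsg.Agent.Helper15.JordSympPair
import Cfsg.Agent.Helper13.JordSymp
import Cfsg.Agent.Helper24.JordSymp
import Cfsg.Agent.Helper7.JordSymp
import Cfsg.Agent.Helper21.JordSymp

set_option autoImplicit false
open Cfsg

namespace Cfsg.Agent.S2582

/-- Which unipotent Jordan types occur in the finite symplectic group: over a finite field, a unipotent matrix with Jordan block sizes d_1, …, d_t (sum 2m, all at least 1) is similar to an element of Sp_2m(F) if and only if every odd block size occurs an even number of times. -/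
theorem result {F : Type*} [Field F] [Fintype F] {m t : ℕ} (d : Fin t → ℕ) (hd : ∀ k, 1 ≤ d k) (hsum : ∑ k, d k = 2 * m) : (∃ e : ((k : Fin t) × Fin (d k)) ≃ (Fin m ⊕ Fin m), ∃ A : Matrix.symplecticGroup (Fin m) F, IsConj (Matrix.reindex e e (Cfsg.jordanTypeMatrix d F)) (A : Matrix (Fin m ⊕ Fin m) (Fin m ⊕ Fin m) F)) ↔ ∀ j : ℕ, Odd j → Even (Finset.univ.filter (fun k : Fin t => d k = j)).card := by
  exact Helper15.jord_symp_iff d hd hsum (fun k => Helper15.jordanType_rank d k)
    (Helper15.J_alt m)
    (fun A P halt hdet hA k hk => Helper13.symp_rank_even A P halt hdet hA k hk)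
    (Helper24.count_even_of_rank_even_odd d)
    (fun hpar => Helper21.exists_of_blocks_alt _ hpar
      (fun m => Helper7.even_block_form_alt m) (fun d => Helper15.pair_block_form_alt d))
    (fun A M halt hdet hA => Helper15.alt_to_symp A M halt hdet hA)

end Cfsg.Agent.S2582
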