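import Cfsg.Statements.S4584
-- import your own Cfsg.Agent.* helpers here
import Cfsg.Agent.Helper24.PGroupBasic

set_option autoImplicit false
open Cfsg

namespace Cfsg.Agent.S4584

open Cfsg.Agent.Helper24

/-- Let p be a prime and P a group of order p^4. Then the derived subgroup P' has order p if and only if the centre Z(P) has index p^2 in P. -/
theorem result {P : Type*} [Group P] [Finite P] (p : ℕ) [Fact p.Prime] (hP : Nat.card P = p ^ 4) :
    Nat.card (commutator P) = p ↔ (Subgroup.center P).index = p ^ 2 := by
  classical
  have hp : p.Prime := Fact.out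
  have hZcard := Subgroup.card_mul_index (Subgroup.center P)
  rw [hP] at hZcard
  constructor
  · intro h
    obtain ⟨x, hx⟩ : ∃ x : P, x ∉ Subgroup.center P := by
      by_contra hcon
      push Not at hcon
      have hbot : commutator P = ⊥ := by
        rw [commutator_def, Subgroup.commutator_eq_bot_iff_le_centralizer]
        intro a _
        rw [Subgroup.mem_centralizer_iff]
        intro b _
        exact (Subgroup.mem_center_iff.mp (hcon a) b)
      rw [hbot, Subgroup.card_bot] at h
      exact hp.one_lt.ne h
    have hidx_le := index_centralizer_le_card_commutator x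
    rw [h] at hidx_le
    have hne_top : Subgroup.centralizer ({x} : Set P) ≠ ⊤ := by
      intro htop
      apply hx
      rw [Subgroup.mem_center_iff]
      intro g
      have hg : g ∈ Subgroup.centralizer ({x} : Set P) := htop ▸ Subgroup.mem_top g
      exact (Subgroup.mem_centralizer_iff.mp hg x rfl).symm
    have hcm := Subgroup.card_mul_index (Subgroup.centralizer ({x} : Set P))
    rw [hP] at hcm
    have hidx : (Subgroup.centralizer ({x} : Set P)).index = p := by
      have hdvd : (Subgroup.centralizer ({x} : Set P)).index ∣ p ^ 4 := Dvd.intro_left _ hcm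
      obtain ⟨k, hk, hk'⟩ := (Nat.dvd_prime_pow hp).mp hdvd
      have hk0 : k ≠ 0 := by
        rintro rfl
        rw [pow_zero] at hk'
        exact hne_top (Subgroup.index_eq_one.mp hk')
      have hk1 : k ≤ 1 := by
        by_contra hgt
        push Not at hgt
        have h1 : p ^ 2 ≤ p ^ k := Nat.pow_le_pow_right hp.pos hgt
        have h2 : p < p ^ 2 := by nlinarith [hp.one_lt]
        omega
      have hk1' : k = 1 := by omega
      rw [hk', hk1', pow_one]
    have hA3 : Nat.card (Subgroup.centralizer ({x} : Set P)) = p ^ 3 := by
      rw [hidx] at hcm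
      exact Nat.eq_of_mul_eq_mul_right hp.pos (by rw [hcm]; ring)
    have h3 := card_commutator_mul_card_center_p4 p hP x hx hA3
    rw [h] at h3
    have hZ2 : Nat.card (Subgroup.center P) = p ^ 2 :=
      Nat.eq_of_mul_eq_mul_left hp.pos (by rw [h3]; ring)
    rw [hZ2] at hZcard
    exact Nat.eq_of_mul_eq_mul_left (pow_pos hp.pos 2) (by rw [hZcard]; ring)
  · intro h
    rw [h] at hZcard
    have hZ2 : Nat.card (Subgroup.center P) = p ^ 2 :=
      Nat.eq_of_mul_eq_mul_right (pow_pos hp.pos 2) (by rw [hZcard]; ring)
    obtain ⟨x, hx⟩ : ∃ x : P, x ∉ Subgroup.center P := by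
      by_contra hcon
      push Not at hcon
      have htop : Subgroup.center P = ⊤ := by
        rw [eq_top_iff]; intro a _; exact hcon a
      rw [htop, Subgroup.index_top] at h
      have := Nat.one_lt_pow (n := 2) (by norm_num) hp.one_lt
      omega
    have hZA : Subgroup.center P ≤ Subgroup.centralizer ({x} : Set P) :=
      Subgroup.center_le_centralizer _
    have hxA : x ∈ Subgroup.centralizer ({x} : Set P) := by
      rw [Subgroup.mem_centralizer_iff]
      intro h' hh
      rw [Set.mem_singleton_iff.mp hh]
    have hcm := Subgroup.card_mul_index (Subgroup.centralizer ({x} : Set P))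
    rw [hP] at hcm
    have hA3 : Nat.card (Subgroup.centralizer ({x} : Set P)) = p ^ 3 := by
      have hdvd : Nat.card (Subgroup.centralizer ({x} : Set P)) ∣ p ^ 4 := Dvd.intro _ hcm
      obtain ⟨k, hk, hk'⟩ := (Nat.dvd_prime_pow hp).mp hdvd
      have hlt : Nat.card (Subgroup.center P)
          < Nat.card (Subgroup.centralizer ({x} : Set P)) := by
        by_contra hcon
        push Not at hcon
        have heq := Subgroup.eq_of_le_of_card_ge hZA hcon
        exact hx (heq ▸ hxA)
      have hk4 : k ≠ 4 := by
        rintro rfl
        have htop : Subgroup.centralizer ({x} : Set P) = ⊤ := by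
          rw [← Subgroup.card_eq_iff_eq_top, hk', hP]
        apply hx
        rw [Subgroup.mem_center_iff]
        intro g
        have hg : g ∈ Subgroup.centralizer ({x} : Set P) := htop ▸ Subgroup.mem_top g
        exact (Subgroup.mem_centralizer_iff.mp hg x rfl).symm
      rw [hZ2, hk'] at hlt
      have hk2 : 2 < k := (Nat.pow_lt_pow_iff_right hp.one_lt).mp hlt
      have hk3 : k = 3 := by omega
      rw [hk', hk3]
    have h3 := card_commutator_mul_card_center_p4 p hP x hx hA3
    rw [hZ2] at h3
    exact Nat.eq_of_mul_eq_mul_right (pow_pos hp.pos 2) (by rw [h3]; ring)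

end Cfsg.Agent.S4584
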