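import Cfsg.Statements.S0915
import Cfsg.Agent.Helper25.BlockQuot
import Cfsg.Agent.Helper25.BlockOrth2
import Cfsg.Agent.Helper4.HallHigman
import Cfsg.Agent.Helper16.PCore
open Cfsg.Agent.Helper25
open Cfsg.Agent

set_option autoImplicit false
open Cfsg

namespace Cfsg.Agent.S0915

/-- Let G be a finite p-solvable group with trivial largest normal subgroup of order prime to p. Then any two irreducible characters of G lie in the same block relative to every maximal ideal M of the algebraic integers containing p: G has a single p-block. -/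
theorem result {G : Type*} [Group G] [Finite G] (p : ℕ) [Fact p.Prime] (M : Ideal Cfsg.AlgInt) (hM : Cfsg.IsPModular p M) (hsolv : Cfsg.IsPSolvable p G) (hcore : Cfsg.pPrimeCore p G = ⊥) (χ ψ : Cfsg.IrrCharacter G) : Cfsg.SameBlock M (χ : G → ℂ) (ψ : G → ℂ) := by
  classical
  have : Fintype G := Fintype.ofFinite G
  have := Helper24.finite_irrCharacter (G := G)
  have : Fintype (IrrCharacter G) := Fintype.ofFinite _
  have hMp := hM.2.1.isPrime
  have hB : IsPBlock M (blockOf M (χ : G → ℂ)) := ⟨χ, rfl⟩
  have hPn : (pCore p G).Normal := Helper16.pCore_normal p G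
  have hPp : IsPGroup p (pCore p G) := Helper16.pCore_isPGroup p G
  have hHH := Helper4.centralizer_pCore_le_of_psolvable p hsolv hcore
  have hzero : ∀ g : G, g ≠ 1 → blockCoeff (blockOf M (χ : G → ℂ)) g = 0 := by
    intro g hg
    by_cases hp : p ∣ orderOf g
    · exact osima hM hB g hp
    by_contra hne
    have hgC : g ∈ Subgroup.centralizer ((pCore p G : Subgroup G) : Set G) := by
      by_contra hcon
      exact hne (blockCoeff_eq_zero_of_not_centralizer hM _ hPp hB g hcon)
    have hgP : g ∈ pCore p G := hHH hgC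
    obtain ⟨k, hk⟩ := hPp ⟨g, hgP⟩
    have hk' : g ^ p ^ k = 1 := by simpa using congrArg Subtype.val hk
    have hdvd : orderOf g ∣ p ^ k := orderOf_dvd_of_pow_eq_one hk'
    obtain ⟨j, _, hj⟩ := (Nat.dvd_prime_pow Fact.out).mp hdvd
    have hj0 : j = 0 := by
      by_contra hj0
      exact hp (hj ▸ dvd_pow_self p hj0)
    rw [hj0, pow_zero, orderOf_eq_one_iff] at hj
    exact hg hj
  have hspec := spec_eq_sum
    (fun χ' : IrrCharacter G => if χ' ∈ blockOf M (χ : G → ℂ) then (1 : ℂ) else 0)
  have hval : ∀ ψ' : IrrCharacter G,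
      (if ψ' ∈ blockOf M (χ : G → ℂ) then (1 : ℂ) else 0)
        = blockCoeff (blockOf M (χ : G → ℂ)) 1 := by
    intro ψ'
    rw [hspec ψ']
    refine (Finset.sum_eq_single 1 ?_ ?_).trans ?_
    · intro g _ hg
      rw [← blockCoeff_eq_coeffT, hzero g hg, zero_mul]
    · intro h
      exact absurd (Finset.mem_univ _) h
    · rw [← blockCoeff_eq_coeffT, div_self (irr_one_ne_zero ψ'.2), mul_one]
  have h1 := hval χ
  have h2 := hval ψ
  rw [if_pos (mem_blockOf_self hMp.ne_top χ)] at h1
  rw [← h1] at h2
  by_contra hcon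
  have h3 : ψ ∉ blockOf M (χ : G → ℂ) := fun h => hcon (mem_blockOf.mp h)
  rw [if_neg h3] at h2
  exact zero_ne_one h2

end Cfsg.Agent.S0915
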