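import Cfsg.Statements.S4657
import Cfsg.Agent.Helper25.FongDefect
open Cfsg.Agent.Helper25
open Cfsg.Agent

set_option autoImplicit false
open Cfsg

namespace Cfsg.Agent.S4657

/-- Fix a prime p and a maximal ideal M of the algebraic integers containing p. Every Brauer pair (P, e) of the finite group G is a Brauer pair of exactly one p-block B of G. -/
theorem result {G : Type*} [Group G] [Fintype G] (p : ℕ) [Fact p.Prime] (M : Ideal Cfsg.AlgInt) (hM : Cfsg.IsPModular p M) (P : Subgroup G) (e : Set (Cfsg.IrrCharacter (Subgroup.centralizer (P : Set G)))) (hPe : Cfsg.IsBrauerPair p M P e) : ∃! B : Set (Cfsg.IrrCharacter G), Cfsg.IsBrauerPairOf p M B P e := by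
  classical
  have := Helper24.finite_irrCharacter (G := G)
  have : Fintype (IrrCharacter G) := Fintype.ofFinite _
  have : Fintype (Subgroup.centralizer (P : Set G)) := Fintype.ofFinite _
  have := Helper24.finite_irrCharacter (G := Subgroup.centralizer (P : Set G))
  have : Fintype (IrrCharacter (Subgroup.centralizer (P : Set G))) := Fintype.ofFinite _
  have hMp := hM.2.1.isPrime
  obtain ⟨hP, he⟩ := hPe
  obtain ⟨ξ₀, hξ₀⟩ := block_nonempty hMp he
  have hCN : Subgroup.centralizer (P : Set G) ≤ Subgroup.normalizer (P : Set G) :=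
    Subgroup.centralizer_le_normalizer (P : Set G)
  have htr : ∀ (Φ : IrrCharacter G → ℂ) (ξ : IrrCharacter (Subgroup.centralizer (P : Set G))),
      trunc P (Subgroup.centralizer (P : Set G)) Φ ξ
        = ∑ x : Subgroup.centralizer (P : Set G), coeffT Φ (x : G) *
          ((ξ : Subgroup.centralizer (P : Set G) → ℂ) x /
            (ξ : Subgroup.centralizer (P : Set G) → ℂ) 1) := by
    intro Φ ξ
    unfold trunc
    exact Finset.sum_congr rfl fun x _ => by rw [if_pos x.2]
  have hbr : ∀ (B : Set (IrrCharacter G)) (ξ : IrrCharacter (Subgroup.centralizer (P : Set G))),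
      brauerOmega P (blockCoeff B) (ξ : Subgroup.centralizer (P : Set G) → ℂ)
        = trunc P (Subgroup.centralizer (P : Set G))
            (fun χ => if χ ∈ B then (1 : ℂ) else 0) ξ := by
    intro B ξ
    rw [htr]
    unfold brauerOmega
    rw [finsum_eq_sum_of_fintype]
    refine Finset.sum_congr rfl fun x _ => ?_
    rw [blockCoeff_eq_coeffT, mul_div_assoc]
  have hmul : ∀ Φ Ψ : IrrCharacter G → ℂ, Φ ∈ specRing G M hMp → Ψ ∈ specRing G M hMp →
      MemLocalIdeal M (trunc P (Subgroup.centralizer (P : Set G)) (Φ * Ψ) ξ₀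
        - trunc P (Subgroup.centralizer (P : Set G)) Φ ξ₀
          * trunc P (Subgroup.centralizer (P : Set G)) Ψ ξ₀) := by
    intro Φ Ψ hΦ hΨ
    rw [htr, htr, htr]
    exact brauer_mul hM P hP ξ₀ Φ Ψ hΦ hΨ
  have hring : ∀ Φ : IrrCharacter G → ℂ, Φ ∈ specRing G M hMp →
      MemLocalRing M (trunc P (Subgroup.centralizer (P : Set G)) Φ ξ₀) := fun Φ hΦ =>
    spec_value_mem hMp (trunc_mem_specRing hMp P _ hCN hΦ) ξ₀
  have hzero : trunc P (Subgroup.centralizer (P : Set G)) (0 : IrrCharacter G → ℂ) ξ₀ = 0 := by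
    rw [htr]
    refine Finset.sum_eq_zero fun x _ => ?_
    rw [coeffT_zero, zero_mul]
  have hone : trunc P (Subgroup.centralizer (P : Set G)) (1 : IrrCharacter G → ℂ) ξ₀ = 1 := by
    rw [htr, Finset.sum_eq_single (1 : Subgroup.centralizer (P : Set G))]
    · rw [coeffT_one, if_pos (by rfl), one_mul]
      exact div_self (irr_one_ne_zero' ξ₀)
    · intro x _ hx
      rw [coeffT_one, if_neg, zero_mul]
      intro h
      exact hx (Subtype.ext h)
    · intro h
      exact absurd (Finset.mem_univ _) h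
  have hidem : ∀ B : Set (IrrCharacter G), IsPBlock M B →
      MemLocalIdeal M (trunc P (Subgroup.centralizer (P : Set G))
        (fun χ => if χ ∈ B then (1 : ℂ) else 0) ξ₀) ∨
      MemLocalIdeal M (trunc P (Subgroup.centralizer (P : Set G))
        (fun χ => if χ ∈ B then (1 : ℂ) else 0) ξ₀ - 1) := by
    intro B hB
    have hm := block_indicator_mem hMp hB
    have h1 := hmul _ _ hm hm
    have e1 : (fun χ : IrrCharacter G => if χ ∈ B then (1 : ℂ) else 0)
        * (fun χ : IrrCharacter G => if χ ∈ B then (1 : ℂ) else 0)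
        = (fun χ : IrrCharacter G => if χ ∈ B then (1 : ℂ) else 0) := by
      funext χ
      simp only [Pi.mul_apply]
      split_ifs <;> simp
    rw [e1] at h1
    obtain ⟨t, ht⟩ : ∃ t, t = trunc P (Subgroup.centralizer (P : Set G))
        (fun χ => if χ ∈ B then (1 : ℂ) else 0) ξ₀ := ⟨_, rfl⟩
    rw [← ht] at h1 ⊢
    have h2 : MemLocalIdeal M (t * (t - 1)) := by
      have e2 : t * (t - 1) = -(t - t * t) := by ring
      rw [e2]
      exact MemLocalIdeal.neg h1
    exact MemLocalIdeal.of_mul hMp (ht ▸ hring _ hm) h2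
  have hfin : ∀ (B : Set (IrrCharacter G)), IsPBlock M B →
      MemLocalIdeal M (trunc P (Subgroup.centralizer (P : Set G))
        (fun χ => if χ ∈ B then (1 : ℂ) else 0) ξ₀ - 1) → IsBrauerPairOf p M B P e := by
    intro B hB h1
    refine ⟨⟨hP, he⟩, hB, fun ξ hξ => ?_⟩
    rw [hbr]
    have h2 := spec_sub_mem hMp (trunc_mem_specRing hMp P (Subgroup.centralizer (P : Set G)) hCN
      (block_indicator_mem hMp hB)) (sameBlock_of_mem_block hMp he hξ hξ₀)
    have h3 := MemLocalIdeal.add hMp h2 h1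
    have e3 : ∀ a b : ℂ, a - b + (b - 1) = a - 1 := fun a b => by ring
    rw [e3] at h3
    exact h3
  -- existence
  obtain ⟨S, hS⟩ : ∃ S : Finset (Set (IrrCharacter G)),
      S = Finset.univ.image (fun χ : IrrCharacter G => blockOf M (χ : G → ℂ)) := ⟨_, rfl⟩
  have hsum : (1 : IrrCharacter G → ℂ)
      = ∑ B ∈ S, (fun χ : IrrCharacter G => if χ ∈ B then (1 : ℂ) else 0) := by
    funext χ
    rw [Finset.sum_apply, Finset.sum_eq_single (blockOf M (χ : G → ℂ))]
    · rw [if_pos (mem_blockOf_self hMp.ne_top χ)]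
      rfl
    · intro B hB hne
      rw [hS] at hB
      obtain ⟨ψ, -, rfl⟩ := Finset.mem_image.1 hB
      rw [if_neg]
      intro hmem
      exact hne (blockOf_eq_of_mem hMp hmem)
    · intro h
      rw [hS] at h
      exact absurd (Finset.mem_image_of_mem _ (Finset.mem_univ χ)) h
  have hex : ∃ B ∈ S, ¬ MemLocalIdeal M (trunc P (Subgroup.centralizer (P : Set G))
        (fun χ => if χ ∈ B then (1 : ℂ) else 0) ξ₀) := by
    by_contra hcon
    have hcon' : ∀ B ∈ S, MemLocalIdeal M (trunc P (Subgroup.centralizer (P : Set G))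
        (fun χ => if χ ∈ B then (1 : ℂ) else 0) ξ₀) := by
      intro B hB
      by_contra h
      exact hcon ⟨B, hB, h⟩
    have h1 : trunc P (Subgroup.centralizer (P : Set G)) (1 : IrrCharacter G → ℂ) ξ₀
        = ∑ B ∈ S, trunc P (Subgroup.centralizer (P : Set G))
            (fun χ => if χ ∈ B then (1 : ℂ) else 0) ξ₀ := by
      rw [hsum, htr]
      simp only [coeffT_finset_sum, Finset.sum_mul]
      rw [Finset.sum_comm]
      refine Finset.sum_congr rfl fun B _ => ?_
      rw [htr]
    rw [hone] at h1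
    have h5 := memLocalIdeal_sum hMp S _ hcon'
    rw [← h1] at h5
    exact not_memLocalIdeal_one h5
  obtain ⟨B, hBS, hBn⟩ := hex
  have hB : IsPBlock M B := by
    rw [hS] at hBS
    obtain ⟨ψ, -, rfl⟩ := Finset.mem_image.1 hBS
    exact ⟨ψ, rfl⟩
  have hB1 := (hidem B hB).resolve_left hBn
  refine ⟨B, hfin B hB hB1, ?_⟩
  intro B' hB'
  obtain ⟨-, hB'b, hB'1⟩ := hB'
  have h1 := hB'1 ξ₀ hξ₀
  rw [hbr] at h1
  by_contra hne
  have e0 : (fun χ : IrrCharacter G => if χ ∈ B then (1 : ℂ) else 0)
      * (fun χ : IrrCharacter G => if χ ∈ B' then (1 : ℂ) else 0) = 0 := by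
    funext χ
    simp only [Pi.mul_apply, Pi.zero_apply]
    by_cases h : χ ∈ B
    · by_cases h' : χ ∈ B'
      · exfalso
        apply hne
        rw [block_eq_blockOf_of_mem hMp hB h, block_eq_blockOf_of_mem hMp hB'b h']
      · rw [if_neg h', mul_zero]
    · rw [if_neg h, zero_mul]
  have h2 := hmul _ _ (block_indicator_mem hMp hB) (block_indicator_mem hMp hB'b)
  rw [e0, hzero, zero_sub] at h2
  have h3 := MemLocalIdeal.neg h2
  rw [neg_neg] at h3
  have h4 : ∀ t : ℂ, MemLocalIdeal M (t - 1) → ¬ MemLocalIdeal M t := by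
    intro t ht ht'
    have := MemLocalIdeal.sub hMp ht' ht
    rw [sub_sub_cancel] at this
    exact not_memLocalIdeal_one this
  rcases MemLocalIdeal.of_mul hMp (hring _ (block_indicator_mem hMp hB)) h3 with h5 | h5
  · exact h4 _ hB1 h5
  · exact h4 _ h1 h5

end Cfsg.Agent.S4657
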