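import Cfsg.Statements.S4654
import Cfsg.Agent.Helper25.NormalP
import Cfsg.Agent.S4657
open Cfsg.Agent.Helper25
open Cfsg.Agent

set_option autoImplicit false
open Cfsg

namespace Cfsg.Agent.S4654

/-- Fix a prime p and a maximal ideal M of the algebraic integers containing p. Let P be a normal p-subgroup of the finite group G, B a p-block of G and e a p-block of C_G(P) such that (P, e) is a Brauer pair of B (as P is normal, this says that e occurs in the idempotent of B, which is supported on C_G(P)). Let T be the stabilizer of e in G under conjugation. Then the idempotent of e is a block idempotent of T: some block E of T has, at every element of T, the same idempotent coefficient as e (zero off C_G(P)); and the idempotent of B is the sum of the distinct G-conjugates of the idempotent of e: its coefficient at g is the sum over all x in G of the coefficient of e at x⁻¹ g x, divided by the order of T. -/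
theorem result {G : Type*} [Group G] [Fintype G] (p : ℕ) [Fact p.Prime] (M : Ideal Cfsg.AlgInt) (hM : Cfsg.IsPModular p M) (P : Subgroup G) [P.Normal] (hP : IsPGroup p P) (B : Set (Cfsg.IrrCharacter G)) (e : Set (Cfsg.IrrCharacter (Subgroup.centralizer (P : Set G)))) (hBe : Cfsg.IsBrauerPairOf p M B P e) (T : Subgroup G) (hT : ∀ x : G, x ∈ T ↔ Cfsg.StabilizesBlock (Subgroup.centralizer (P : Set G)) e x) : (∃ E : Set (Cfsg.IrrCharacter T), Cfsg.IsPBlock M E ∧ ∀ t : T, Cfsg.blockCoeff E t = Cfsg.subgroupBlockCoeff (Subgroup.centralizer (P : Set G)) e (t : G)) ∧ ∀ g : G, Cfsg.blockCoeff B g = (Nat.card T : ℂ)⁻¹ * ∑ x : G, Cfsg.subgroupBlockCoeff (Subgroup.centralizer (P : Set G)) e (x⁻¹ * g * x) := by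
  classical
  have hMp := hM.2.1.isPrime
  have : Fintype (Subgroup.centralizer (P : Set G)) := Fintype.ofFinite _
  have : Fintype T := Fintype.ofFinite _
  have hb := hBe.1.2
  have hCn : (Subgroup.centralizer (P : Set G)).Normal := inferInstance
  have hT' : ∀ g : G, g ∈ T ↔ ∀ θ ∈ e, conjIrr (Subgroup.centralizer (P : Set G)) g θ ∈ e := by
    intro g
    rw [hT g]
    obtain ⟨θ₁, hθ₁⟩ := block_nonempty hMp hb
    constructor
    · rintro ⟨-, h⟩ θ hθ
      have hinv : ∀ χ ∈ e, conjIrr (Subgroup.centralizer (P : Set G)) g⁻¹ χ ∈ e := by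
        intro χ hχ
        obtain ⟨χ', hχ', hconj⟩ := h χ hχ
        have h1 : conjIrr (Subgroup.centralizer (P : Set G)) g⁻¹ χ = χ' := by
          apply Subtype.ext
          funext n
          rw [conjIrr_coe, Helper6.conjFun_apply]
          refine (hconj _ n ?_).symm
          simp only
          group
        rw [h1]
        exact hχ'
      refine mem_of_conj_mem (Subgroup.centralizer (P : Set G)) e hMp hb (g := g⁻¹) hθ₁
        (hinv θ₁ hθ₁) ?_
      rw [conjIrr_mul, mul_inv_cancel, conjIrr_one]
      exact hθ
    · intro h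
      refine ⟨?_, fun χ hχ => ?_⟩
      · rw [Subgroup.normalizer_eq_top]
        exact Subgroup.mem_top g
      · have h2 : conjIrr (Subgroup.centralizer (P : Set G)) g⁻¹ χ ∈ e := by
          refine mem_of_conj_mem (Subgroup.centralizer (P : Set G)) e hMp hb (g := g) hθ₁
            (h θ₁ hθ₁) ?_
          rw [conjIrr_mul, inv_mul_cancel, conjIrr_one]
          exact hχ
        refine ⟨_, h2, ?_⟩
        intro k k' hk
        rw [conjIrr_coe, Helper6.conjFun_apply]
        have e1 : (⟨g⁻¹ * (k' : G) * g⁻¹⁻¹, hCn.conj_mem (k' : G) k'.2 g⁻¹⟩ :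
            Subgroup.centralizer (P : Set G)) = k := by
          apply Subtype.ext
          simp only
          rw [hk]
          group
        rw [e1]
  obtain ⟨hE, β, hβ, hβmem, hβcoef, hβone⟩ :=
    normalP_blocks (Subgroup.centralizer (P : Set G)) e T hM P hP rfl hb hT'
  refine ⟨hE, ?_⟩
  have hpair : IsBrauerPairOf p M β P e := by
    refine ⟨hBe.1, hβ, fun ξ hξ => ?_⟩
    have h1 : brauerOmega P (blockCoeff β) (ξ : Subgroup.centralizer (P : Set G) → ℂ) = 1 := by
      unfold brauerOmega
      rw [finsum_eq_sum_of_fintype, ← hβone ξ hξ]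
      refine Finset.sum_congr rfl fun x _ => ?_
      rw [mul_div_assoc]
    rw [h1, sub_self]
    exact MemLocalIdeal.zero hMp.ne_top
  have hBβ : B = β := by
    obtain ⟨B₀, -, huniq⟩ := Cfsg.Agent.S4657.result p M hM P e hBe.1
    rw [huniq B hBe, huniq β hpair]
  rw [hBβ]
  exact hβcoef

end Cfsg.Agent.S4654
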