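import Cfsg.Statements.S3909
-- import your own Cfsg.Agent.* helpers here

set_option autoImplicit false
open Cfsg

namespace Cfsg.Agent.S3909

/-- Let G be a finite group in which any two abelian subgroups of the same order are conjugate. Let M be a normal subgroup of G. If M contains an element of the same order as a ∈ G, then a ∈ M; and if M is elementary abelian of order p^t with p prime and t ≥ 2, then M is the unique Sylow p-subgroup of G. -/
theorem result {G : Type*} [Group G] [Finite G] (hB : ∀ A B : Subgroup G, IsMulCommutative ↥A → IsMulCommutative ↥B → Nat.card ↥A = Nat.card ↥B → ∃ g : G, B = A.map (MulAut.conj g).toMonoidHom) (M : Subgroup G) [M.Normal] :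
    (∀ a : G, (∃ m ∈ M, orderOf m = orderOf a) → a ∈ M) ∧
    ∀ (p t : ℕ) [Fact p.Prime], 2 ≤ t → Nat.card ↥M = p ^ t → Cfsg.IsElementaryAbelian p M → ∀ P : Sylow p G, (P : Subgroup G) = M := by
  have gen : ∀ A B : Subgroup G, IsMulCommutative ↥A → IsMulCommutative ↥B →
      Nat.card ↥A = Nat.card ↥B → A ≤ M → B ≤ M := by
    intro A B hA hB' hcard hAM
    obtain ⟨g, hg⟩ := hB A B hA hB' hcard
    rw [hg]
    rintro x ⟨y, hy, rfl⟩
    have h := ‹M.Normal›.conj_mem y (hAM hy) g
    simpa using h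
  have part1 : ∀ a : G, (∃ m ∈ M, orderOf m = orderOf a) → a ∈ M := by
    rintro a ⟨m, hm, hord⟩
    have hc : Nat.card ↥(Subgroup.zpowers m) = Nat.card ↥(Subgroup.zpowers a) := by
      rw [Nat.card_zpowers, Nat.card_zpowers, hord]
    exact gen _ _ inferInstance inferInstance hc ((Subgroup.zpowers_le).mpr hm)
      (Subgroup.mem_zpowers a)
  refine ⟨part1, ?_⟩
  intro p t hp ht hcard hel P
  obtain ⟨hcomm, hpow⟩ := hel
  have hp' : p.Prime := hp.out
  have hMp : IsPGroup p ↥M := IsPGroup.of_card hcard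
  have hMP : M ≤ (P : Subgroup G) := hMp.le_sylow_of_normal P
  by_contra hne
  have hlt : M < (P : Subgroup G) := lt_of_le_of_ne hMP (fun h => hne h.symm)
  obtain ⟨x, hxP, hxM⟩ := SetLike.exists_of_lt hlt
  obtain ⟨k, hk⟩ := P.isPGroup' ⟨x, hxP⟩
  have hxk : x ^ p ^ k = 1 := by
    have h := congrArg Subtype.val hk
    simpa using h
  obtain ⟨j, hjk, hj⟩ := (Nat.dvd_prime_pow hp').mp (orderOf_dvd_of_pow_eq_one hxk)
  have hpdvd : p ∣ Nat.card ↥M := by
    rw [hcard]; exact dvd_pow_self p (by omega)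
  obtain ⟨m, hm⟩ := exists_prime_orderOf_dvd_card' p hpdvd
  have hm' : orderOf (m : G) = p := by rw [Subgroup.orderOf_coe]; exact hm
  have hj2 : 2 ≤ j := by
    by_contra hlt2
    have h01 : j = 0 ∨ j = 1 := by omega
    rcases h01 with h0 | h1
    · rw [h0, pow_zero, orderOf_eq_one_iff] at hj
      exact hxM (by rw [hj]; exact M.one_mem)
    · rw [h1, pow_one] at hj
      exact hxM (part1 x ⟨m, m.2, by rw [hm', hj]⟩)
  have hxpos : orderOf x ≠ 0 := by rw [hj]; exact pow_ne_zero _ hp'.ne_zero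
  have hp2dvd : p ^ 2 ∣ orderOf x := by rw [hj]; exact pow_dvd_pow p hj2
  have hy : orderOf (x ^ (orderOf x / p ^ 2)) = p ^ 2 := orderOf_pow_orderOf_div hxpos hp2dvd
  have hp2M : p ^ 2 ∣ Nat.card ↥M := by rw [hcard]; exact pow_dvd_pow p ht
  obtain ⟨K, hK⟩ := Sylow.exists_subgroup_card_pow_prime p hp2M
  have hA : IsMulCommutative ↥(K.map M.subtype) :=
    IsMulCommutative.of_setLike_mul_comm fun a ha b hb =>
      setLike_mul_comm (s := M) (Subgroup.map_subtype_le K ha) (Subgroup.map_subtype_le K hb)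
  have hAc : Nat.card ↥(K.map M.subtype) =
      Nat.card ↥(Subgroup.zpowers (x ^ (orderOf x / p ^ 2))) := by
    rw [Subgroup.card_subtype, hK, Nat.card_zpowers, hy]
  have hyM : x ^ (orderOf x / p ^ 2) ∈ M :=
    gen _ _ hA inferInstance hAc (Subgroup.map_subtype_le K) (Subgroup.mem_zpowers _)
  have hyp := hpow _ hyM
  have hdvd : p ^ 2 ∣ p := by
    rw [← hy]; exact orderOf_dvd_of_pow_eq_one hyp
  have h3 : p * p ≤ p := by rw [← sq]; exact Nat.le_of_dvd hp'.pos hdvd
  nlinarith [hp'.two_le]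

end Cfsg.Agent.S3909
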