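import Cfsg.Statements.S4571
import Cfsg.Agent.Helper6.RankInfl

set_option autoImplicit false
open Cfsg

namespace Cfsg.Agent.S4571

open Cfsg.Agent Cfsg.Agent.Helper6 in
/-- Let Q be a normal p-subgroup of the finite group G with G = Q·C_G(Q), and M a maximal ideal of the algebraic integers containing p. Then the principal p-blocks of G and of G/Q have the same p-regular rank (the same number of irreducible Brauer characters). -/
theorem result {G : Type*} [Group G] [Finite G] (p : ℕ) [Fact p.Prime] (M : Ideal Cfsg.AlgInt) (hM : Cfsg.IsPModular p M) (Q : Subgroup G) [Q.Normal] (hQ : IsPGroup p Q) (hsup : Q ⊔ Subgroup.centralizer (Q : Set G) = ⊤) : Cfsg.blockRank p (Cfsg.principalBlock M G) = Cfsg.blockRank p (Cfsg.principalBlock M (G ⧸ Q)) := by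
  classical
  haveI : Fintype G := Fintype.ofFinite G
  have hp := hM.1
  have hC : ∃ k : ℕ, (Subgroup.centralizer (Q : Set G)).index = p ^ k := by
    have h1 : (Subgroup.centralizer (Q : Set G)).relIndex (Q ⊔ Subgroup.centralizer (Q : Set G))
        = (Subgroup.centralizer (Q : Set G)).relIndex Q := Subgroup.relIndex_sup_right _ _
    rw [hsup, Subgroup.relIndex_top_right] at h1
    obtain ⟨n, hn⟩ := IsPGroup.iff_card.1 hQ
    have h2 : (Subgroup.centralizer (Q : Set G)).relIndex Q ∣ Nat.card Q :=
      Subgroup.relIndex_dvd_card _ _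
    rw [← h1, hn] at h2
    obtain ⟨k, _, hk⟩ := (Nat.dvd_prime_pow hp).1 h2
    exact ⟨k, hk⟩
  have hB : IsPBlock M (principalBlock M G) := ⟨Helper25.oneIrr G, rfl⟩
  rw [blockRank_infl hM Q hQ hC hB]
  congr 1
  ext ψ
  constructor
  · intro h
    exact Helper25.sameBlock_deflate hM Q hQ hC (Helper25.oneIrr (G ⧸ Q)) ψ h
  · intro h
    exact Helper25.sameBlock_inflate hM.2.1.isPrime Q (Helper25.oneIrr (G ⧸ Q)) ψ h

end Cfsg.Agent.S4571
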