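import Cfsg.Statements.S0864
import Cfsg.Agent.Helper6.LinExt

set_option autoImplicit false
open Cfsg

namespace Cfsg.Agent.S0864

open Cfsg.Agent Cfsg.Agent.Helper6 in
/-- Let N be a normal subgroup of the finite group G and λ a character of N of degree 1 invariant under conjugation by G. Suppose that for every prime p dividing the order of λ (in the group of functions under pointwise multiplication) there is a subgroup H containing N, of index prime to p and with the index of N in H a power of p, together with a character of H of degree 1 restricting to λ. Then λ is the restriction of a character of G of degree 1. -/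
theorem result {G : Type*} [Group G] [Finite G] (N : Subgroup G) [hN : N.Normal] (lam : N → ℂ) (hlam : Cfsg.IsCharacter N lam ∧ lam 1 = 1) (hinv : ∀ (g : G) (n : N), lam ⟨g * n * g⁻¹, hN.conj_mem (n : G) n.2 g⟩ = lam n) (hsyl : ∀ p : ℕ, p.Prime → p ∣ orderOf lam → ∃ (H : Subgroup G) (hNH : N ≤ H) (ν : H → ℂ), Nat.Coprime H.index p ∧ (∃ k : ℕ, N.relIndex H = p ^ k) ∧ Cfsg.IsCharacter H ν ∧ ν 1 = 1 ∧ ∀ n : N, ν ⟨(n : G), hNH n.2⟩ = lam n) : ∃ μ : G → ℂ, Cfsg.IsCharacter G μ ∧ μ 1 = 1 ∧ ∀ n : N, μ n = lam n := by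
  classical
  have := Fintype.ofFinite G
  obtain ⟨hlamc, hlam1⟩ := hlam
  have hpowN : ∀ n : N, lam n ^ Nat.card N = 1 := fun n => by
    rw [← Helper24.linear_char_pow hlamc hlam1, pow_card_eq_one', hlam1]
  have hfin : lam ^ Nat.card N = 1 := funext fun n => by
    rw [Pi.pow_apply, hpowN, Pi.one_apply]
  have hmpos : 0 < orderOf lam :=
    orderOf_pos_iff.mpr (isOfFinOrder_iff_pow_eq_one.mpr ⟨Nat.card N, Nat.card_pos, hfin⟩)
  have hm1 : ∀ n : N, lam n ^ orderOf lam = 1 := fun n => by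
    have := congrFun (pow_orderOf_eq_one lam) n
    rwa [Pi.pow_apply, Pi.one_apply] at this
  let S : Set ℕ := {t | ∃ μ : G → ℂ, IsCharacter G μ ∧ μ 1 = 1 ∧ ∀ n : N, μ n = lam n ^ t}
  have h1S : 1 ∈ S := by
    apply one_mem_of_add_closed S (orderOf lam) hmpos
    · exact ⟨fun _ => 1, Helper24.isCharacter_of_irr Helper2.isIrrCharacter_one_fun, rfl,
        fun n => (hm1 n).symm⟩
    · rintro a b ⟨μ₁, ha1, ha2, ha3⟩ ⟨μ₂, hb1, hb2, hb3⟩
      refine ⟨μ₁ * μ₂, Helper2.IsCharacter.mul ha1 hb1, ?_, fun n => ?_⟩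
      · rw [Pi.mul_apply, ha2, hb2, mul_one]
      · rw [Pi.mul_apply, ha3, hb3, pow_add]
    · rintro t ⟨μ, h1, h2, h3⟩
      exact ⟨μ, h1, h2, fun n => by rw [h3, pow_add, hm1, mul_one]⟩
    · intro p hp hpm
      obtain ⟨H, hNH, ν, hcop, -, hνc, hν1, hνN⟩ := hsyl p hp hpm
      refine ⟨H.index, exists_linear_extension_pow N lam hlamc hlam1 hinv H hNH ν hνc hνN, ?_⟩
      intro hdvd
      exact hp.one_lt.ne' (Nat.Coprime.eq_one_of_dvd hcop.symm hdvd)
  obtain ⟨μ, h1, h2, h3⟩ := h1S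
  exact ⟨μ, h1, h2, fun n => by rw [h3, pow_one]⟩

end Cfsg.Agent.S0864
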