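import Cfsg.Statements.S0888
import Cfsg.Agent.Helper6.SylowExt
import Cfsg.Agent.S0864

set_option autoImplicit false
open Cfsg

namespace Cfsg.Agent.S0888

open Cfsg.Agent Cfsg.Agent.Helper6 in
/-- Let N be a normal subgroup of the finite group G and ϑ an irreducible character of N invariant under conjugation by G. Suppose that for every prime p there are a subgroup P containing N, of index prime to p and with the index of N in P a power of p, and an irreducible character of P restricting to ϑ. Then ϑ is the restriction of an irreducible character of G. -/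
theorem result {G : Type*} [Group G] [Finite G] (N : Subgroup G) [hN : N.Normal] (ϑ : N → ℂ) (hϑ : Cfsg.IsIrrCharacter N ϑ) (hinv : ∀ (g : G) (n : N), ϑ ⟨g * n * g⁻¹, hN.conj_mem (n : G) n.2 g⟩ = ϑ n) (hsyl : ∀ p : ℕ, p.Prime → ∃ (P : Subgroup G) (hNP : N ≤ P) (η : P → ℂ), Nat.Coprime P.index p ∧ (∃ k : ℕ, N.relIndex P = p ^ k) ∧ Cfsg.IsIrrCharacter P η ∧ ∀ n : N, η ⟨(n : G), hNP n.2⟩ = ϑ n) : ∃ χ : G → ℂ, Cfsg.IsIrrCharacter G χ ∧ ∀ n : N, χ n = ϑ n := by
  classical
  have := Fintype.ofFinite G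
  have hϑirr := hϑ
  obtain ⟨n, ρ, hρ, rfl⟩ := hϑ
  haveI := hρ
  have hinv' : ∀ g : G, Representation.character
      (ρ.comp (MulAut.conjNormal g : N ≃* N).toMonoidHom : Representation ℂ N (Fin n → ℂ)) =
        ρ.character := fun g => funext (hinv g)
  have hsurj := liftProj_surjective N ρ hinv'
  haveI : Finite (liftSubgroup N ρ) := lift_finite N ρ
  haveI : Fintype (liftSubgroup N ρ) := Fintype.ofFinite _
  haveI hM : (N.comap (liftProj N ρ)).Normal := inferInstance
  have hV : Nontrivial (Module.End ℂ (Fin n → ℂ)) := by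
    have h1 := Helper24.irr_one_ne_zero hϑirr
    rw [Representation.char_one] at h1
    have h2 : Module.finrank ℂ (Fin n → ℂ) ≠ 0 := by
      intro h0
      apply h1
      rw [h0, Nat.cast_zero]
    have : Nontrivial (Fin n → ℂ) :=
      Module.nontrivial_of_finrank_pos (R := ℂ) (Nat.pos_of_ne_zero h2)
    infer_instance
  have hne : ∀ γ : liftSubgroup N ρ, liftRep N ρ γ ≠ 0 := fun γ => (liftHom N ρ γ).ne_zero
  -- the linear character of the preimage of `N`
  obtain ⟨Λ, hΛc, hΛ1, hΛ⟩ := exists_scalar_char N ρ N (le_refl N) ρ (fun m => rfl)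
  have hΛinv : ∀ (g : liftSubgroup N ρ) (x : N.comap (liftProj N ρ)),
      Λ ⟨g * x * g⁻¹, hM.conj_mem (x : liftSubgroup N ρ) x.2 g⟩ = Λ x := by
    intro g x
    have h1 := hΛ ⟨g * x * g⁻¹, hM.conj_mem (x : liftSubgroup N ρ) x.2 g⟩
    have h2 := hΛ x
    have h3 : g.1 ∈ twistSubgroup N ρ := ((mem_liftSubgroup N ρ _).mp g.2).1
    have h4 : liftRep N ρ g * ρ ⟨liftProj N ρ x, x.2⟩ =
        ρ (MulAut.conjNormal (liftProj N ρ g) ⟨liftProj N ρ x, x.2⟩) * liftRep N ρ g :=
      h3 ⟨liftProj N ρ x, x.2⟩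
    have e1 : (⟨liftProj N ρ (g * x * g⁻¹), hM.conj_mem (x : liftSubgroup N ρ) x.2 g⟩ : N) =
        MulAut.conjNormal (liftProj N ρ g) ⟨liftProj N ρ x, x.2⟩ := by
      apply Subtype.ext
      rw [MulAut.conjNormal_apply]
      simp
    have e2 : liftRep N ρ (g * x * g⁻¹) = liftRep N ρ g * liftRep N ρ x * liftRep N ρ g⁻¹ := by
      rw [map_mul, map_mul]
    have e3 : liftRep N ρ g * liftRep N ρ g⁻¹ = 1 := by
      rw [← map_mul, mul_inv_cancel, map_one]
    have h5 : ρ (MulAut.conjNormal (liftProj N ρ g) ⟨liftProj N ρ x, x.2⟩) =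
        Λ x • liftRep N ρ (g * x * g⁻¹) := by
      calc ρ (MulAut.conjNormal (liftProj N ρ g) ⟨liftProj N ρ x, x.2⟩)
          = ρ (MulAut.conjNormal (liftProj N ρ g) ⟨liftProj N ρ x, x.2⟩) *
              (liftRep N ρ g * liftRep N ρ g⁻¹) := by rw [e3, mul_one]
        _ = liftRep N ρ g * ρ ⟨liftProj N ρ x, x.2⟩ * liftRep N ρ g⁻¹ := by
            rw [← mul_assoc, ← h4]
        _ = Λ x • liftRep N ρ (g * x * g⁻¹) := by
            rw [h2, e2, mul_smul_comm, smul_mul_assoc]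
    rw [e1, h5] at h1
    exact (smul_left_injective ℂ (hne _) h1).symm
  -- extend it using the Sylow hypotheses
  obtain ⟨μ, hμc, hμ1, hμM⟩ := Cfsg.Agent.S0864.result (N.comap (liftProj N ρ)) Λ ⟨hΛc, hΛ1⟩
    hΛinv (by
    intro p hp _
    obtain ⟨P, hNP, η, hcop, ⟨k, hk⟩, hηirr, hηN⟩ := hsyl p hp
    obtain ⟨τ, hτ⟩ := exists_rep_extension N ρ P hNP η (Helper24.isCharacter_of_irr hηirr) hηN
    obtain ⟨b, hbc, hb1, hb⟩ := exists_scalar_char N ρ P hNP τ hτ
    refine ⟨P.comap (liftProj N ρ), Subgroup.comap_mono hNP, b, ?_, ⟨k, ?_⟩, hbc, hb1, ?_⟩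
    · rw [Subgroup.index_comap_of_surjective _ hsurj]
      exact hcop
    · rw [Subgroup.relIndex_comap, Subgroup.map_comap_eq_self_of_surjective hsurj]
      exact hk
    · intro x
      have h1 := hb ⟨(x : liftSubgroup N ρ), Subgroup.comap_mono hNP x.2⟩
      have h2 := hΛ x
      have h3 := hτ ⟨liftProj N ρ x, x.2⟩
      have h4 : b ⟨(x : liftSubgroup N ρ), Subgroup.comap_mono hNP x.2⟩ •
          liftRep N ρ (x : liftSubgroup N ρ) = Λ x • liftRep N ρ (x : liftSubgroup N ρ) := by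
        rw [← h1, ← h2]
        exact h3
      exact smul_left_injective ℂ (hne _) h4)
  -- the product with the tautological character
  have hPirr : (liftRep N ρ).IsIrreducible :=
    isIrreducible_of_comp (liftRep N ρ) (liftIncl N ρ) (by
      have h1 : (liftRep N ρ).comp (liftIncl N ρ) = ρ := by
        ext m : 1
        rfl
      rw [h1]
      exact hρ)
  have hϑh : IsIrrCharacter (liftSubgroup N ρ) (liftRep N ρ).character :=
    ⟨n, liftRep N ρ, hPirr, rfl⟩
  have hχh : IsIrrCharacter (liftSubgroup N ρ) (μ * (liftRep N ρ).character) :=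
    isIrrCharacter_linear_mul hμc hμ1 hϑh
  have hker : ∀ γ z : liftSubgroup N ρ, z ∈ (liftProj N ρ).ker →
      (μ * (liftRep N ρ).character) (γ * z) = (μ * (liftRep N ρ).character) γ := by
    intro γ z hz
    have hzM : z ∈ N.comap (liftProj N ρ) := by
      rw [Subgroup.mem_comap, MonoidHom.mem_ker.mp hz]
      exact N.one_mem
    have h1 := hΛ ⟨z, hzM⟩
    have h2 : (⟨liftProj N ρ z, hzM⟩ : N) = 1 := Subtype.ext (MonoidHom.mem_ker.mp hz)
    have h1' : (1 : Module.End ℂ (Fin n → ℂ)) = Λ ⟨z, hzM⟩ • liftRep N ρ z := by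
      rw [← h1, h2, map_one]
    have h3 : μ z = Λ ⟨z, hzM⟩ := hμM ⟨z, hzM⟩
    rw [Pi.mul_apply, Pi.mul_apply, Helper24.linear_char_mul hμc hμ1]
    show μ γ * μ z * LinearMap.trace ℂ _ (liftRep N ρ (γ * z)) =
      μ γ * LinearMap.trace ℂ _ (liftRep N ρ γ)
    rw [map_mul, h3]
    have h4 : Λ ⟨z, hzM⟩ * LinearMap.trace ℂ _ (liftRep N ρ γ * liftRep N ρ z) =
        LinearMap.trace ℂ _ (liftRep N ρ γ) := by
      rw [← smul_eq_mul, ← map_smul, ← mul_smul_comm, ← h1', mul_one]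
    linear_combination (μ γ) * h4
  have hχπ : ((μ * (liftRep N ρ).character) ∘ Function.surjInv hsurj) ∘ (liftProj N ρ) =
      μ * (liftRep N ρ).character := by
    funext γ
    show (μ * (liftRep N ρ).character) (Function.surjInv hsurj (liftProj N ρ γ)) =
      (μ * (liftRep N ρ).character) γ
    have h1 : liftProj N ρ (Function.surjInv hsurj (liftProj N ρ γ)) = liftProj N ρ γ :=
      Function.surjInv_eq hsurj (liftProj N ρ γ)
    have h2 : γ⁻¹ * Function.surjInv hsurj (liftProj N ρ γ) ∈ (liftProj N ρ).ker := by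
      rw [MonoidHom.mem_ker, map_mul, map_inv, h1, inv_mul_cancel]
    have h3 := hker γ _ h2
    rw [mul_inv_cancel_left] at h3
    exact h3
  have hχ : IsIrrCharacter G ((μ * (liftRep N ρ).character) ∘ Function.surjInv hsurj) :=
    isIrrCharacter_of_comp_surjective (liftProj N ρ) hsurj (by rw [hχπ]; exact hχh)
  refine ⟨_, hχ, fun m => ?_⟩
  have h1 := congrFun hχπ (liftIncl N ρ m)
  have hιM : liftIncl N ρ m ∈ N.comap (liftProj N ρ) := by
    rw [Subgroup.mem_comap, liftProj_liftIncl]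
    exact m.2
  have h2 : μ (liftIncl N ρ m) = Λ ⟨liftIncl N ρ m, hιM⟩ := hμM ⟨liftIncl N ρ m, hιM⟩
  have h3 := hΛ ⟨liftIncl N ρ m, hιM⟩
  have h4 : Λ ⟨liftIncl N ρ m, hιM⟩ = 1 := by
    have e : (⟨liftProj N ρ (liftIncl N ρ m), hιM⟩ : N) = m := Subtype.ext rfl
    have h5 : (1 : ℂ) • liftRep N ρ (liftIncl N ρ m) =
        Λ ⟨liftIncl N ρ m, hιM⟩ • liftRep N ρ (liftIncl N ρ m) := by
      rw [one_smul, ← h3, e]
      rfl
    exact (smul_left_injective ℂ (hne _) h5).symm
  rw [Function.comp_apply, liftProj_liftIncl, Pi.mul_apply, h2, h4, one_mul] at h1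
  rw [h1]
  rfl

end Cfsg.Agent.S0888
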