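import Cfsg.Statements.S0862
import Cfsg.Agent.Helper6.DetExt

set_option autoImplicit false
open Cfsg

namespace Cfsg.Agent.S0862

open Cfsg.Agent Cfsg.Agent.Helper6 in
/-- Let N be a normal subgroup of the finite group G and ϑ an irreducible character of N of degree d coprime to the index of N, which is the restriction of some irreducible character of G. Let μ be a character of G of degree 1 whose restriction to N is the determinantal character of ϑ. Then there is exactly one irreducible character χ of G restricting to ϑ whose determinantal character is μ. -/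
theorem result {G : Type*} [Group G] [Finite G] (N : Subgroup G) [N.Normal] (ϑ : N → ℂ) (hϑ : Cfsg.IsIrrCharacter N ϑ) (d : ℕ) (hd : ϑ 1 = d) (hcop : Nat.Coprime N.index d) (hext : ∃ η : G → ℂ, Cfsg.IsIrrCharacter G η ∧ (∀ n : N, η n = ϑ n)) (μ : G → ℂ) (hμ : Cfsg.IsCharacter G μ ∧ μ 1 = 1) (hμN : ∀ n : N, μ n = Cfsg.detChar ϑ n) : ∃! χ : G → ℂ, Cfsg.IsIrrCharacter G χ ∧ (∀ n : N, χ n = ϑ n) ∧ Cfsg.detChar χ = μ := by
  classical
  have := Fintype.ofFinite G
  have hN : N.Normal := inferInstance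
  haveI : Fintype N := Fintype.ofFinite _
  obtain ⟨η, hη, hηN⟩ := hext
  obtain ⟨hμc, hμ1⟩ := hμ
  have hηc := Helper24.isCharacter_of_irr hη
  obtain ⟨hδc, hδ1⟩ := detChar_isLinear hηc
  have hδN : ∀ n : N, detChar η n = detChar ϑ n := by
    intro n
    have h1 := detChar_restrict N hηc
    have h2 : (fun n : N => η n) = ϑ := funext hηN
    rw [h2] at h1
    exact (congrFun h1 n).symm
  have hKpos : 0 < Nat.card G := Nat.card_pos
  set ν : G → ℂ := μ * (detChar η) ^ (Nat.card G - 1) with hν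
  have hνc : IsCharacter G ν := Helper2.IsCharacter.mul hμc (isCharacter_pow hδc _)
  have hν1 : ν 1 = 1 := by
    rw [hν, Pi.mul_apply, Pi.pow_apply, hμ1, hδ1, one_pow, mul_one]
  have hνδ : ∀ g, ν g * detChar η g = μ g := by
    intro g
    show μ g * (detChar η g) ^ (Nat.card G - 1) * detChar η g = μ g
    rw [mul_assoc, ← pow_succ, Nat.sub_add_cancel hKpos, linear_pow_card hδc hδ1, mul_one]
  have hνN : ∀ n : N, ν n = 1 := by
    intro n
    have h1 := hνδ n
    rw [hμN n, ← hδN n] at h1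
    exact mul_right_cancel₀ (linear_ne_zero hδc hδ1 _) (by rw [one_mul]; exact h1)
  have hνk : ∀ g, ν g ^ N.index = 1 := linear_pow_index N hνc hν1 hνN
  have hdeg : charDegree η = d := by
    have h1 := Helper24.charDegree_spec hηc
    have h2 := hηN 1
    rw [Subgroup.coe_one] at h2
    rw [h2, hd] at h1
    exact_mod_cast h1.symm
  obtain ⟨d', -, hd'⟩ := Nat.exists_mul_mod_eq_of_coprime 1 hcop.symm
    (Subgroup.index_ne_zero_of_finite (H := N))
  have hd'' : d * d' ≡ 1 [MOD N.index] := hd'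
  have hpowmod : ∀ g, ν g ^ (d * d') = ν g := by
    intro g
    rw [pow_eq_pow_mod (d * d') (hνk g), hd'', ← pow_eq_pow_mod 1 (hνk g), pow_one]
  set β : G → ℂ := ν ^ d' with hβ
  have hβc : IsCharacter G β := isCharacter_pow hνc d'
  have hβ1 : β 1 = 1 := by rw [hβ, Pi.pow_apply, hν1, one_pow]
  have hβN : ∀ n : N, β n = 1 := fun n => by rw [hβ, Pi.pow_apply, hνN n, one_pow]
  have hβd : ∀ g, β g ^ d = ν g := by
    intro g
    show (ν g ^ d') ^ d = ν g
    rw [← pow_mul, mul_comm d' d, hpowmod]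
  have hχirr : IsIrrCharacter G (β * η) := isIrrCharacter_linear_mul hβc hβ1 hη
  have hχN : ∀ n : N, (β * η) n = ϑ n := fun n => by rw [Pi.mul_apply, hβN, one_mul, hηN]
  have hχdet : detChar (β * η) = μ := by
    funext g
    rw [detChar_linear_mul hβc hβ1 hηc, hdeg, hβd, hνδ]
  refine ⟨β * η, ⟨hχirr, hχN, hχdet⟩, ?_⟩
  rintro χ' ⟨hχ', hχ'N, hχ'det⟩
  obtain ⟨β', hβ'c, hβ'1, hβ'N, rfl⟩ := exists_linear_of_extensions N hϑ hη hηN hχ' hχ'N
  have hββ : β' = β := by
    funext g
    have h1 := congrFun hχ'det g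
    rw [detChar_linear_mul hβ'c hβ'1 hηc, hdeg, ← hνδ g] at h1
    have h2 : β' g ^ d = ν g := mul_right_cancel₀ (linear_ne_zero hδc hδ1 g) h1
    have h4 : (β' g * (β g)⁻¹) ^ d = 1 := by
      rw [mul_pow, inv_pow, h2, hβd, mul_inv_cancel₀ (linear_ne_zero hνc hν1 g)]
    have h5 : (β' g * (β g)⁻¹) ^ N.index = 1 := by
      rw [mul_pow, inv_pow, linear_pow_index N hβ'c hβ'1 hβ'N, linear_pow_index N hβc hβ1 hβN,
        inv_one, mul_one]
    have h6 : (β' g * (β g)⁻¹) ^ (N.index.gcd d) = 1 := pow_gcd_eq_one.mpr ⟨h5, h4⟩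
    rw [Nat.Coprime.gcd_eq_one hcop, pow_one] at h6
    exact eq_of_mul_inv_eq_one h6
  rw [hββ]

end Cfsg.Agent.S0862
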