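import Cfsg.Statements.S0121
-- import your own Cfsg.Agent.* helpers here

set_option autoImplicit false
open Cfsg

namespace Cfsg.Agent.S0121

/-- A p'-automorphism of a p-group acting trivially on a critical subgroup is trivial. -/
theorem result {G : Type*} [Group G] [Finite G] {p : ℕ} [Fact p.Prime] (hG : IsPGroup p G) (H : Subgroup G) (hH : H.Characteristic) (h1 : (frattini H).map H.subtype ≤ Subgroup.centralizer (H : Set G)) (h2 : ⁅H, (⊤ : Subgroup G)⁆ ≤ H ⊓ Subgroup.centralizer (H : Set G)) (h3 : Subgroup.centralizer (H : Set G) ≤ H) (a : MulAut G) (ha : Nat.Coprime (orderOf a) p) (h : ∀ x ∈ H, a x = x) : a = 1 := by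
  have hHn : H.Normal := inferInstance
  ext g
  show a g = g
  have hmem : g⁻¹ * a g ∈ H := by
    apply h3
    rw [Subgroup.mem_centralizer_iff]
    intro x hx
    have h4 : a (g * x * g⁻¹) = g * x * g⁻¹ := h _ (hHn.conj_mem x hx g)
    rw [map_mul, map_mul, h x hx, map_inv] at h4
    calc x * (g⁻¹ * a g) = g⁻¹ * (g * x * g⁻¹) * a g := by group
      _ = g⁻¹ * (a g * x * (a g)⁻¹) * a g := by rw [h4]
      _ = g⁻¹ * a g * x := by group
  have hpow : ∀ k : ℕ, (a ^ k) g = g * (g⁻¹ * a g) ^ k := by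
    intro k
    induction k with
    | zero => simp
    | succ k ih =>
      rw [pow_succ', MulAut.mul_apply, ih, map_mul, map_pow, h _ hmem,
        pow_succ' (g⁻¹ * a g) k, ← mul_assoc g, mul_inv_cancel_left]
  have hn := hpow (orderOf a)
  rw [pow_orderOf_eq_one, MulAut.one_apply] at hn
  have hh : (g⁻¹ * a g) ^ orderOf a = 1 := by
    have h5 : g * 1 = g * (g⁻¹ * a g) ^ orderOf a := by rw [mul_one]; exact hn
    exact (mul_left_cancel h5).symm
  obtain ⟨k, hk⟩ := hG (g⁻¹ * a g)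
  have h5 : orderOf (g⁻¹ * a g) ∣ orderOf a := orderOf_dvd_of_pow_eq_one hh
  have h6 : orderOf (g⁻¹ * a g) ∣ p ^ k := orderOf_dvd_of_pow_eq_one hk
  have h7 : orderOf (g⁻¹ * a g) = 1 :=
    ((ha.pow_right k).coprime_dvd_left h5).eq_one_of_dvd h6
  have h8 : g⁻¹ * a g = 1 := orderOf_eq_one_iff.mp h7
  exact (inv_mul_eq_one.mp h8).symm

end Cfsg.Agent.S0121
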