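import Cfsg.Statements.S0028
import Cfsg.Agent.Helper1.Coprime
import Cfsg.Agent.S0027

set_option autoImplicit false
open Cfsg

namespace Cfsg.Agent.S0028

open Cfsg.Agent.Helper1

theorem commutator_ne_self_of_pgroup {G : Type*} [Group G] [Finite G] (p : ℕ) [Fact p.Prime]
    (W P : Subgroup G) (hW : IsPGroup p W) (hP : IsPGroup p P)
    (hPW : P ≤ Subgroup.normalizer (W : Set G)) (hne : W ≠ ⊥) : ⁅W, P⁆ ≠ W := by
  intro heq
  have hT : IsPGroup p (W ⊔ P : Subgroup G) := IsPGroup.to_sup_of_normal_left' hW hP hPW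
  have hTnil : Group.IsNilpotent (W ⊔ P : Subgroup G) := hT.isNilpotent
  obtain ⟨n, hn⟩ := (Subgroup.isNilpotent_iff_lowerCentralSeries (W ⊔ P)).mp hTnil
  have key : ∀ m, W ≤ (W ⊔ P).lowerCentralSeries m := by
    intro m
    induction m with
    | zero => exact le_sup_left
    | succ m ih =>
      rw [Subgroup.lowerCentralSeries_succ]
      calc W = ⁅W, P⁆ := heq.symm
        _ ≤ ⁅(W ⊔ P).lowerCentralSeries m, W ⊔ P⁆ := Subgroup.commutator_mono ih le_sup_right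
  exact hne (le_bot_iff.mp (hn ▸ key n))

theorem pq_aux {G : Type*} [Group G] [Finite G] (p : ℕ) [Fact p.Prime] (P Q : Subgroup G)
    (hP : IsPGroup p P) (hQ : (Nat.card Q).Coprime p)
    (hPQ : P ≤ Subgroup.centralizer (Q : Set G)) :
    ∀ n : ℕ, ∀ U : Subgroup G, Nat.card U = n → IsPGroup p U →
      P ≤ Subgroup.normalizer (U : Set G) → Q ≤ Subgroup.normalizer (U : Set G) →
      U ⊓ Subgroup.centralizer (P : Set G) ≤ Subgroup.centralizer (Q : Set G) → ⁅U, Q⁆ = ⊥ := by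
  intro n
  induction n using Nat.strong_induction_on with
  | _ n ih =>
  intro U hn hU hPU hQU hC
  by_contra hWne
  have hWU : ⁅U, Q⁆ ≤ U := commutator_le_of_le_normalizer U Q hQU
  have hcopQU : (Nat.card Q).Coprime (Nat.card U) := by
    obtain ⟨k, hk⟩ := hU.exists_card_eq
    rw [hk]
    exact Nat.Coprime.pow_right k hQ
  have hUsolv : Group.IsSolvable U := by
    have := hU.isNilpotent
    infer_instance
  have hWQ : ⁅⁅U, Q⁆, Q⁆ = ⁅U, Q⁆ := Cfsg.Agent.S0027.result Q U hQU hcopQU (Or.inr hUsolv)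
  have hQP : Q ≤ Subgroup.centralizer (P : Set G) := Subgroup.le_centralizer_iff.mp hPQ
  have hPnQ : P ≤ Subgroup.normalizer (Q : Set G) :=
    hPQ.trans (Subgroup.centralizer_le_normalizer _)
  have hQnP : Q ≤ Subgroup.normalizer (P : Set G) :=
    hQP.trans (Subgroup.centralizer_le_normalizer _)
  have hPW : P ≤ Subgroup.normalizer ((⁅U, Q⁆ : Subgroup G) : Set G) :=
    le_normalizer_commutator U Q P hPU hPnQ
  have hQW : Q ≤ Subgroup.normalizer ((⁅U, Q⁆ : Subgroup G) : Set G) :=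
    le_normalizer_commutator U Q Q hQU Subgroup.le_normalizer
  have hWp : IsPGroup p (⁅U, Q⁆ : Subgroup G) := hU.to_le hWU
  have hU₁W : ⁅⁅U, Q⁆, P⁆ ≤ ⁅U, Q⁆ := commutator_le_of_le_normalizer _ P hPW
  have hU₁ne : ⁅⁅U, Q⁆, P⁆ ≠ ⁅U, Q⁆ := commutator_ne_self_of_pgroup p _ P hWp hP hPW hWne
  have hlt : Nat.card (⁅⁅U, Q⁆, P⁆ : Subgroup G) < n := by
    have h1 : Nat.card (⁅⁅U, Q⁆, P⁆ : Subgroup G) < Nat.card (⁅U, Q⁆ : Subgroup G) := by
      by_contra hge
      exact hU₁ne (Subgroup.eq_of_le_of_card_ge hU₁W (not_lt.mp hge))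
    have h2 : Nat.card (⁅U, Q⁆ : Subgroup G) ≤ Nat.card U := Subgroup.card_le_of_le hWU
    omega
  have hIH := ih _ hlt ⁅⁅U, Q⁆, P⁆ rfl (hWp.to_le hU₁W)
    (le_normalizer_commutator _ P P hPW Subgroup.le_normalizer)
    (le_normalizer_commutator _ P Q hQW hQnP)
    ((inf_le_inf_right _ (hU₁W.trans hWU)).trans hC)
  have h2 : ⁅⁅P, Q⁆, ⁅U, Q⁆⁆ = ⊥ := by
    have : ⁅P, Q⁆ = ⊥ := Subgroup.commutator_eq_bot_iff_le_centralizer.mpr hPQ
    rw [this]
    exact Subgroup.commutator_bot_left _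
  have h3 : ⁅⁅Q, ⁅U, Q⁆⁆, P⁆ = ⊥ := Subgroup.commutator_commutator_eq_bot_of_rotate hIH h2
  rw [Subgroup.commutator_comm Q ⁅U, Q⁆, hWQ] at h3
  have h4 : ⁅U, Q⁆ ≤ Subgroup.centralizer (P : Set G) :=
    Subgroup.commutator_eq_bot_iff_le_centralizer.mp h3
  have h5 : ⁅U, Q⁆ ≤ Subgroup.centralizer (Q : Set G) := (le_inf hWU h4).trans hC
  have h6 : ⁅⁅U, Q⁆, Q⁆ = ⊥ := Subgroup.commutator_eq_bot_iff_le_centralizer.mpr h5
  rw [hWQ] at h6
  exact hWne h6

/-- Thompson's P × Q Lemma: let a p-subgroup P and a subgroup Q of order prime to p centralise each other and normalise a p-subgroup U; if every element of U fixed by P is fixed by Q, then Q centralises U. -/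
theorem result {G : Type*} [Group G] [Finite G] (p : ℕ) [Fact p.Prime]
    (P Q U : Subgroup G) (hP : IsPGroup p P) (hQ : (Nat.card Q).Coprime p) (hU : IsPGroup p U)
    (hPQ : P ≤ Subgroup.centralizer (Q : Set G))
    (hPU : P ≤ Subgroup.normalizer (U : Set G)) (hQU : Q ≤ Subgroup.normalizer (U : Set G))
    (hC : U ⊓ Subgroup.centralizer (P : Set G) ≤ Subgroup.centralizer (Q : Set G)) :
    Q ≤ Subgroup.centralizer (U : Set G) := by
  have h := pq_aux p P Q hP hQ hPQ _ U rfl hU hPU hQU hC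
  exact Subgroup.le_centralizer_iff.mp (Subgroup.commutator_eq_bot_iff_le_centralizer.mp h)

end Cfsg.Agent.S0028
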