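import Cfsg.Agent.Helper2.CharOrtho
import Cfsg.Statements.S0160
-- import your own Cfsg.Agent.* helpers here

set_option autoImplicit false
open Cfsg

namespace Cfsg.Agent.S0160

/-- A finite group has as many real-valued irreducible complex characters as conjugacy classes closed under taking inverses. -/
theorem result {G : Type*} [Group G] [Finite G] : Nat.card {χ : Cfsg.IrrCharacter G // ∀ g : G, ((χ : G → ℂ) g).im = 0} = Nat.card {C : ConjClasses G // ∀ g : G, ConjClasses.mk g = C → IsConj g g⁻¹} := by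
  classical
  have := Fintype.ofFinite G
  have := Helper24.finite_irrCharacter (G := G)
  have := Fintype.ofFinite (IrrCharacter G)
  have hinv : ∀ χ : G → ℂ, IsIrrCharacter G χ → χ ∘ (fun g : G => g⁻¹) = fun g => (starRingEnd ℂ) (χ g) := by
    intro χ hχ
    funext g
    exact Helper24.char_inv (Helper24.isCharacter_of_irr hχ) g
  have h1 := Helper2.brauer_perm (G := G) (fun g => g⁻¹)
    (fun χ hχ => by rw [hinv χ hχ]; exact Helper2.isIrrCharacter_conj hχ)
  have h2 := Helper2.sum_class_weight (G := G)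
    (fun C => ∀ g : G, ConjClasses.mk g = C → IsConj g g⁻¹)
  have e1 : Nat.card {χ : Cfsg.IrrCharacter G // ∀ g : G, ((χ : G → ℂ) g).im = 0} =
      Nat.card {χ : IrrCharacter G // (χ : G → ℂ) ∘ (fun g : G => g⁻¹) = (χ : G → ℂ)} := by
    refine Nat.card_congr (Equiv.subtypeEquivRight fun χ => ?_)
    rw [hinv χ χ.2]
    constructor
    · intro h
      funext g
      exact Complex.conj_eq_iff_im.2 (h g)
    · intro h g
      exact Complex.conj_eq_iff_im.1 (congrFun h g)
  have h3 : (Nat.card {χ : IrrCharacter G // (χ : G → ℂ) ∘ (fun g : G => g⁻¹) = (χ : G → ℂ)} : ℂ) =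
      (Nat.card {C : ConjClasses G // ∀ g : G, ConjClasses.mk g = C → IsConj g g⁻¹} : ℂ) := by
    rw [← h2, h1]
    refine Finset.sum_congr rfl fun g _ => ?_
    refine if_congr ?_ rfl rfl
    constructor
    · intro h g' hg'
      have hc : IsConj g' g := ConjClasses.mk_eq_mk_iff_isConj.1 hg'
      obtain ⟨c, hc'⟩ := isConj_iff.1 hc
      obtain ⟨d, hd⟩ := isConj_iff.1 h
      -- g' = c⁻¹ g c ; g'⁻¹ = c⁻¹ g⁻¹ c
      rw [isConj_iff]
      refine ⟨c⁻¹ * d⁻¹ * c, ?_⟩
      have hg : g = c * g' * c⁻¹ := hc'.symm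
      have hd' : g⁻¹ = d⁻¹ * g * d := by
        calc g⁻¹ = d⁻¹ * (d * g⁻¹ * d⁻¹) * d := by group
          _ = d⁻¹ * g * d := by rw [hd]
      have : g'⁻¹ = c⁻¹ * g⁻¹ * c := by rw [hg]; group
      rw [this, hd', hg]
      group
    · intro h
      exact (h g rfl).symm
  rw [e1]
  exact_mod_cast h3

end Cfsg.Agent.S0160
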