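import Cfsg.Agent.Helper2.PSLPerm
import Cfsg.Statements.S0252
-- import your own Cfsg.Agent.* helpers here

set_option autoImplicit false
open Cfsg

namespace Cfsg.Agent.S0252

open Cfsg.Agent.Helper2

/-- PSL_2(4) is isomorphic to A_5. -/
theorem result {F : Type*} [Field F] [Fintype F] (hF : Fintype.card F = 4) : Nonempty (Matrix.ProjectiveSpecialLinearGroup (Fin 2) F ≃* alternatingGroup (Fin 5)) := by
  apply psl2_equiv_alt 5 (by rw [hF])
  have h1 := card_SL2 F
  have h2 := card_PSL_mul F 2 (by norm_num)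
  rw [hF] at h1 h2
  have hg : Nat.gcd 2 (4 - 1) = 1 := by norm_num
  rw [hg] at h2
  have e1 : (4 ^ 2 - 1) * (4 ^ 2 - 4) = 180 := by norm_num
  have e2 : 4 - 1 = 3 := by norm_num
  rw [e1, e2] at h1
  have hf : Nat.factorial 5 = 120 := rfl
  rw [hf]
  omega

end Cfsg.Agent.S0252
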