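import Cfsg.Statements.S0339
import Cfsg.Agent.Helper6.ZassNormal2

set_option autoImplicit false
open Cfsg

namespace Cfsg.Agent.S0339

open Cfsg.Agent Cfsg.Agent.Helper6 in
/-- A non-trivial normal subgroup of a Zassenhaus group is itself a Zassenhaus group on the same set. -/
theorem result {G Ω : Type*} [Group G] [MulAction G Ω] [Finite Ω]
    (hZ : Cfsg.IsZassenhausGroup G Ω) (N : Subgroup G) [N.Normal] (hN : N ≠ ⊥) :
    Cfsg.IsZassenhausGroup N Ω := by
  classical
  haveI : Fintype Ω := Fintype.ofFinite Ω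
  haveI : Finite G := Zass.zass_finite hZ
  have h2 : Zass.TwoTrans G Ω := Zass.zass_twoTrans hZ
  have h3 := Zass.zass_noThree hZ
  have hn := Zass.zass_card_ge_three hZ
  refine ⟨?_, ?_, ?_, ?_, ?_⟩
  · haveI := hZ.1
    exact ⟨fun {m₁ m₂} h => Subtype.ext (FaithfulSMul.eq_of_smul_eq_smul (α := Ω) h)⟩
  · rw [MulAction.is_two_pretransitive_iff]
    intro a b c d hab hcd
    obtain ⟨g, hg, hga, hgb⟩ := Zass.normal_two_trans hZ N hN hab hcd
    exact ⟨⟨g, hg⟩, hga, hgb⟩
  · intro g a b c hab hbc hac hga hgb hgc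
    exact Subtype.ext (h3 (g : G) a b c hab hbc hac hga hgb hgc)
  · obtain ⟨m, hmN, hm1, a, c, hac, hma, hmc⟩ := Zass.normal_exists_two_fix hZ N hN
    exact ⟨⟨m, hmN⟩, fun h => hm1 (congrArg Subtype.val h), a, c, hac, hma, hmc⟩
  · intro R hRn hRtr
    by_contra hcon
    push Not at hcon
    obtain ⟨R', hR'⟩ : ∃ R' : Subgroup G, R' = R.map N.subtype := ⟨_, rfl⟩
    have hR'mem : ∀ x : G, x ∈ R' ↔ ∃ h : x ∈ N, (⟨x, h⟩ : N) ∈ R := by
      intro x
      rw [hR', Subgroup.mem_map]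
      constructor
      · rintro ⟨y, hy, rfl⟩
        exact ⟨y.2, hy⟩
      · rintro ⟨h, hy⟩
        exact ⟨⟨x, h⟩, hy, rfl⟩
    have hR'N : R' ≤ N := fun x hx => ((hR'mem x).mp hx).1
    have htr : ∀ p q : Ω, ∃ r ∈ R', r • p = q := by
      intro p q
      obtain ⟨r, hr⟩ := hRtr.exists_smul_eq p q
      exact ⟨((r : N) : G), (hR'mem _).mpr ⟨(r : N).2, r.2⟩, hr⟩
    have hfree : ∀ r ∈ R', ∀ p : Ω, r • p = p → r = 1 := by
      intro r hr p hrp
      obtain ⟨h, hrR⟩ := (hR'mem r).mp hr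
      have hmem : (⟨⟨r, h⟩, hrR⟩ : R) ∈ MulAction.stabilizer R p :=
        MulAction.mem_stabilizer_iff.mpr hrp
      rw [hcon p, Subgroup.mem_bot] at hmem
      exact congrArg (fun z : R => ((z : N) : G)) hmem
    have hnorm : ∀ n ∈ N, ∀ r ∈ R', n * r * n⁻¹ ∈ R' := by
      intro n hn r hr
      obtain ⟨h, hrR⟩ := (hR'mem r).mp hr
      rw [hR'mem]
      exact ⟨N.mul_mem (N.mul_mem hn h) (N.inv_mem hn), hRn.conj_mem ⟨r, h⟩ hrR ⟨n, hn⟩⟩
    have hthree : ∃ p q r : Ω, p ≠ q ∧ p ≠ r ∧ q ≠ r := Fintype.two_lt_card_iff.mp hn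
    have hR'normal : R'.Normal := by
      constructor
      intro r hr g
      obtain ⟨R₂, hR₂⟩ : ∃ R₂ : Subgroup G, R₂ = R'.map (MulAut.conj g).toMonoidHom := ⟨_, rfl⟩
      have hR₂mem : ∀ x : G, x ∈ R₂ ↔ g⁻¹ * x * g ∈ R' := by
        intro x
        rw [hR₂, Subgroup.mem_map]
        constructor
        · rintro ⟨y, hy, rfl⟩
          simp only [MulEquiv.coe_toMonoidHom, MulAut.conj_apply]
          have : g⁻¹ * (g * y * g⁻¹) * g = y := by group
          rw [this]
          exact hy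
        · intro h
          refine ⟨g⁻¹ * x * g, h, ?_⟩
          simp only [MulEquiv.coe_toMonoidHom, MulAut.conj_apply]
          group
      have hle : R₂ ≤ R' := by
        apply Zass.regular_normal_le N
          (fun hab hcd => Zass.normal_two_trans hZ N hN hab hcd) h3 hthree R₂ R' ?_ hR'N ?_ hnorm
          ?_ ?_ htr
        · intro x hx
          have := hR'N ((hR₂mem x).mp hx)
          have h' := ‹N.Normal›.conj_mem _ this g
          have e : g * (g⁻¹ * x * g) * g⁻¹ = x := by group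
          rwa [e] at h'
        · intro n hn x hx
          rw [hR₂mem] at hx ⊢
          have hn' : g⁻¹ * n * g ∈ N := by
            have := ‹N.Normal›.conj_mem n hn g⁻¹
            rwa [inv_inv] at this
          have := hnorm _ hn' _ hx
          have e : g⁻¹ * n * g * (g⁻¹ * x * g) * (g⁻¹ * n * g)⁻¹ = g⁻¹ * (n * x * n⁻¹) * g := by
            group
          rwa [e] at this
        · intro p q
          obtain ⟨r₁, hr₁, hr₁p⟩ := htr (g⁻¹ • p) (g⁻¹ • q)
          refine ⟨g * r₁ * g⁻¹, (hR₂mem _).mpr ?_, ?_⟩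
          · have e : g⁻¹ * (g * r₁ * g⁻¹) * g = r₁ := by group
            rw [e]
            exact hr₁
          · rw [mul_smul, mul_smul, hr₁p, smul_inv_smul]
        · intro x hx p hxp
          have h1 := (hR₂mem x).mp hx
          have h2' : (g⁻¹ * x * g) • (g⁻¹ • p) = g⁻¹ • p := by
            rw [mul_smul, mul_smul, smul_inv_smul, hxp]
          have h3' := hfree _ h1 _ h2'
          have : x = g * (g⁻¹ * x * g) * g⁻¹ := by group
          rw [this, h3']
          group
      apply hle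
      rw [hR₂mem]
      have e : g⁻¹ * (g * r * g⁻¹) * g = r := by group
      rw [e]
      exact hr
    haveI : MulAction.IsPretransitive R' Ω := ⟨fun p q => by
      obtain ⟨r, hr, hrp⟩ := htr p q
      exact ⟨⟨r, hr⟩, hrp⟩⟩
    obtain ⟨a, ha⟩ := hZ.2.2.2.2 R' hR'normal inferInstance
    obtain ⟨⟨k, hk⟩, hk1⟩ := Subgroup.ne_bot_iff_exists_ne_one.mp ha
    apply hk1
    apply Subtype.ext
    apply Subtype.ext
    exact hfree _ k.2 a (MulAction.mem_stabilizer_iff.mp hk)

end Cfsg.Agent.S0339
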