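import Cfsg.Statements.S0437
import Cfsg.Agent.Helper4.ThreeTranspBasic

set_option autoImplicit false
open Cfsg

namespace Cfsg.Agent.S0437

/-- For three distinct, pairwise commuting members a, b, c of a set of 3-transpositions E, a member e of E centralises a * b * c if and only if it centralises each of a, b and c. -/
theorem result {G : Type*} [Group G] {E : Set G} (hE : Cfsg.IsThreeTranspositionSet E) {a b c e : G} (ha : a ∈ E) (hb : b ∈ E) (hc : c ∈ E) (he : e ∈ E) (hab : a ≠ b) (hac : a ≠ c) (hbc : b ≠ c) (h₁ : Commute a b) (h₂ : Commute a c) (h₃ : Commute b c) : Commute e (a * b * c) ↔ (Commute e a ∧ Commute e b ∧ Commute e c) := by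
  constructor
  · intro hcm
    have ha2 := Cfsg.Agent.Helper4.TTB.tt_mul_self hE ha
    have hb2 := Cfsg.Agent.Helper4.TTB.tt_mul_self hE hb
    have hc2 := Cfsg.Agent.Helper4.TTB.tt_mul_self hE hc
    have he2 := Cfsg.Agent.Helper4.TTB.tt_mul_self hE he
    have hai := Cfsg.Agent.Helper4.TTB.tt_inv hE ha
    have hbi := Cfsg.Agent.Helper4.TTB.tt_inv hE hb
    have hci := Cfsg.Agent.Helper4.TTB.tt_inv hE hc
    have hei := Cfsg.Agent.Helper4.TTB.tt_inv hE he
    by_cases hca : Commute e a
    · have h5 : Commute e (a⁻¹ * (a * b * c)) := (hca.inv_right).mul_right hcm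
      have h6 : a⁻¹ * (a * b * c) = b * c := by group
      rw [h6] at h5
      have := (Cfsg.Agent.Helper4.TTB.tt_commute_mul_iff hE hb hc he hbc h₃).1 h5
      exact ⟨hca, this.1, this.2⟩
    · by_cases hcc : Commute e c
      · have h5 : Commute e (a * b * c * c⁻¹) := hcm.mul_right hcc.inv_right
        have h6 : a * b * c * c⁻¹ = a * b := by group
        rw [h6] at h5
        have := (Cfsg.Agent.Helper4.TTB.tt_commute_mul_iff hE ha hb he hab h₁).1 h5
        exact ⟨this.1, this.2, hcc⟩
      · by_cases hcb : Commute e b
        · have h5 : Commute e (b⁻¹ * (a * b * c)) := (hcb.inv_right).mul_right hcm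
          have h6 : b⁻¹ * (a * b * c) = a * c := by
            rw [h₁.eq]; group
          rw [h6] at h5
          have := (Cfsg.Agent.Helper4.TTB.tt_commute_mul_iff hE ha hc he hac h₂).1 h5
          exact ⟨this.1, hcb, this.2⟩
        · exfalso
          have h1 : e * a * e = a * e * a := Cfsg.Agent.Helper4.TTB.tt_braid hE he ha hca
          have h2 : e * b * e = b * e * b := Cfsg.Agent.Helper4.TTB.tt_braid hE he hb hcb
          have h3 : e * c * e = c * e * c := Cfsg.Agent.Helper4.TTB.tt_braid hE he hc hcc
          have k0 : b * (a * e * a) * b = c * e * c := by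
            have e1 : b * (a * e * a) * b = b * a * (e * (a * b * c)) * c⁻¹ := by group
            rw [e1, hcm.eq]
            have e2 : b * a * (a * b * c * e) * c⁻¹ = b * (a * a) * b * c * e * c⁻¹ := by group
            rw [e2, ha2, mul_one, hb2, one_mul, hci]
          have k1 : b * (e * a * e) * b = e * c * e := by rw [h1, k0, ← h3]
          have k2 : a = b * e * c * e * b := by
            calc a = (b * e)⁻¹ * (b * (e * a * e) * b) * (e * b)⁻¹ := by group
              _ = (b * e)⁻¹ * (e * c * e) * (e * b)⁻¹ := by rw [k1]
              _ = e * b * (e * c * e) * (b * e) := by rw [mul_inv_rev, mul_inv_rev, hei, hbi]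
              _ = (e * b * e) * c * (e * b * e) := by group
              _ = (b * e * b) * c * (b * e * b) := by rw [h2]
              _ = b * e * (b * c) * b * e * b := by group
              _ = b * e * (c * b) * b * e * b := by rw [h₃.eq]
              _ = b * e * c * (b * b) * e * b := by group
              _ = b * e * c * e * b := by rw [hb2, mul_one]
          have k3 : a = e * c * e := by
            calc a = (a * b) * b⁻¹ := by group
              _ = b * a * b := by rw [h₁.eq, hbi]
              _ = b * (b * e * c * e * b) * b := by rw [← k2]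
              _ = (b * b) * e * c * e * (b * b) := by group
              _ = e * c * e := by rw [hb2, one_mul, mul_one]
          have k4 : a = e := by
            calc a = (a * c) * c⁻¹ := by group
              _ = c * a * c := by rw [h₂.eq, hci]
              _ = c * (c * e * c) * c := by rw [← h3, ← k3]
              _ = (c * c) * e * (c * c) := by group
              _ = e := by rw [hc2, one_mul, mul_one]
          apply hca
          rw [k4]
  · rintro ⟨h1, h2, h3⟩
    exact (h1.mul_right h2).mul_right h3

end Cfsg.Agent.S0437
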