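import Cfsg.Statements.S0438
-- import your own Cfsg.Agent.* helpers here

set_option autoImplicit false
open Cfsg

namespace Cfsg.Agent.S0438

/-- Let E be a set of 3-transpositions closed under conjugation, and x an involutory automorphism of the group mapping E to itself. If some a in E fails to commute with its image x a, then x fixes an element of E. -/
theorem result {G : Type*} [Group G] {E : Set G} (hE : Cfsg.IsThreeTranspositionSet E) (hconj : ∀ g : G, ∀ d ∈ E, g * d * g⁻¹ ∈ E) (x : G ≃* G) (hx : ∀ g : G, x (x g) = g) (hxE : ∀ d ∈ E, x d ∈ E) {a : G} (ha : a ∈ E) (h : ¬ Commute a (x a)) : ∃ d ∈ E, x d = d := by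
  obtain ⟨hord, hprod⟩ := hE
  have hb : x a ∈ E := hxE a ha
  have ha2 : a * a = 1 := by
    have := hord a ha
    rw [← pow_two, ← this, pow_orderOf_eq_one]
  have hb2 : x a * x a = 1 := by
    rw [← map_mul, ha2, map_one]
  have hai : a⁻¹ = a := inv_eq_of_mul_eq_one_left ha2
  have hbi : (x a)⁻¹ = x a := inv_eq_of_mul_eq_one_left hb2
  have h3 : (a * x a) ^ 3 = 1 := by
    rcases hprod a ha (x a) hb with h2 | h3
    · exfalso
      apply h
      have h4 : a * x a * (a * x a) = 1 := by rw [← pow_two]; exact h2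
      have h5 : a * x a = (a * x a)⁻¹ := eq_inv_of_mul_eq_one_left h4
      rw [mul_inv_rev, hai, hbi] at h5
      exact h5
    · exact h3
  refine ⟨a * x a * a⁻¹, hconj a (x a) hb, ?_⟩
  rw [map_mul, map_mul, map_inv, hx, hai, hbi]
  have h6 : a * x a * a * (x a * a * x a) = 1 := by
    have : (a * x a) ^ 3 = a * x a * a * (x a * a * x a) := by
      simp [pow_succ, mul_assoc]
    rw [← this]; exact h3
  have h7 : x a * a * x a = (a * x a * a)⁻¹ := eq_inv_of_mul_eq_one_right h6
  rw [h7, mul_inv_rev, mul_inv_rev, hai, hbi, mul_assoc]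

end Cfsg.Agent.S0438
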