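import Mathlib
import Cfsg.Statements.S0556
import Cfsg.Agent.S4097
import Cfsg.Agent.Helper17.TransferM

set_option autoImplicit false
open Cfsg
open scoped Pointwise

namespace Cfsg.Agent.S0556

/-- If a finite group has a maximal subgroup that is abelian, then the third term of its derived series is trivial (so the group is solvable of derived length at most three). -/
theorem result {G : Type*} [Group G] [Finite G] (A : Subgroup G) (hA : IsCoatom A) [IsMulCommutative A] : derivedSeries G 3 = ⊥ := by
  have hAcomm : ∀ a ∈ A, ∀ b ∈ A, a * b = b * a := fun a ha b hb =>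
    congrArg Subtype.val (‹IsMulCommutative A›.is_comm.comm ⟨a, ha⟩ ⟨b, hb⟩)
  have hfinal : derivedSeries G 2 ≤ Subgroup.center G → derivedSeries G 3 = ⊥ := by
    intro h
    show derivedSeries G (2 + 1) = ⊥
    rw [derivedSeries_succ, eq_bot_iff, Subgroup.commutator_le]
    intro a ha b hb
    rw [Subgroup.mem_bot, commutatorElement_def]
    have h1 := Subgroup.mem_center_iff.1 (h hb) a
    rw [h1]; group
  by_cases hAn : A.Normal
  · apply hfinal
    have h1 : derivedSeries G 1 ≤ A := by
      show derivedSeries G (0 + 1) ≤ A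
      rw [derivedSeries_succ, derivedSeries_zero, Subgroup.commutator_le]
      intro a _ b _
      apply (QuotientGroup.eq_one_iff _).1
      rw [commutatorElement_def]
      have hc := Helper17.comm_of_coatom_normal A hA (a : G ⧸ A) (b : G ⧸ A)
      have e : ((a * b * a⁻¹ * b⁻¹ : G) : G ⧸ A) =
          (a : G ⧸ A) * (b : G ⧸ A) * (a : G ⧸ A)⁻¹ * (b : G ⧸ A)⁻¹ := rfl
      rw [e, hc]; group
    have h2 : derivedSeries G 2 = ⊥ := by
      show derivedSeries G (1 + 1) = ⊥
      rw [derivedSeries_succ, eq_bot_iff]
      refine (Subgroup.commutator_mono h1 h1).trans ?_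
      rw [Subgroup.commutator_le]
      intro a ha b hb
      rw [Subgroup.mem_bot, commutatorElement_def, hAcomm a ha b hb]; group
    rw [h2]; exact bot_le
  · have hAtop : A ≠ ⊤ := hA.1
    have hNA : Subgroup.normalizer (A : Set G) = A := by
      have h1 : A ≤ Subgroup.normalizer (A : Set G) := Subgroup.le_normalizer
      rcases hA.le_iff.1 h1 with h | h
      · exact absurd (Subgroup.normalizer_eq_top_iff.1 h) hAn
      · exact h
    have hZA : Subgroup.center G ≤ A := by
      intro z hz
      have hzn : z ∈ Subgroup.normalizer (A : Set G) := by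
        rw [Subgroup.mem_normalizer_iff]
        intro h
        have e : z * h * z⁻¹ = h := by
          rw [← Subgroup.mem_center_iff.1 hz h, mul_inv_cancel_right]
        rw [e]
      rw [hNA] at hzn
      exact hzn
    have hTI : ∀ g : G, g ∉ A → ∀ a ∈ A, g⁻¹ * a * g ∈ A → a ∈ Subgroup.center G := by
      intro g hg a ha hag
      obtain ⟨B, hB⟩ : ∃ B : Subgroup G, B = A.map (MulAut.conj g).toMonoidHom := ⟨_, rfl⟩
      have hBmem : ∀ b : G, b ∈ B ↔ g⁻¹ * b * g ∈ A := by
        intro b
        rw [hB]
        constructor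
        · rintro ⟨c, hc, rfl⟩
          have e : g⁻¹ * ((MulAut.conj g).toMonoidHom c) * g = c := by
            show g⁻¹ * (g * c * g⁻¹) * g = c
            group
          rw [e]; exact hc
        · intro h
          refine ⟨g⁻¹ * b * g, h, ?_⟩
          show g * (g⁻¹ * b * g) * g⁻¹ = b
          group
      have hBA : ¬ B ≤ A := by
        intro hle
        apply hg
        have h1 : g ∈ Subgroup.normalizer (A : Set G) := by
          apply Subgroup.mem_normalizer_fintype
          intro n hn
          apply hle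
          rw [hBmem]
          have e : g⁻¹ * (g * n * g⁻¹) * g = n := by group
          rw [e]; exact hn
        rw [hNA] at h1
        exact h1
      have hsup : A ⊔ B = ⊤ := by
        rcases hA.le_iff.1 (le_sup_left : A ≤ A ⊔ B) with h | h
        · exact h
        · exfalso; apply hBA; rw [← h]; exact le_sup_right
      have hcent : A ⊔ B ≤ Subgroup.centralizer ({a} : Set G) := by
        apply sup_le
        · intro c hc
          rw [Subgroup.mem_centralizer_singleton_iff]
          exact hAcomm c hc a ha
        · intro c hc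
          rw [Subgroup.mem_centralizer_singleton_iff]
          have h1 := hAcomm _ ((hBmem c).1 hc) _ hag
          calc c * a = g * ((g⁻¹ * c * g) * (g⁻¹ * a * g)) * g⁻¹ := by group
            _ = g * ((g⁻¹ * a * g) * (g⁻¹ * c * g)) * g⁻¹ := by rw [h1]
            _ = a * c := by group
      rw [hsup] at hcent
      rw [Subgroup.mem_center_iff]
      intro y
      have h2 := hcent (Subgroup.mem_top y)
      rw [Subgroup.mem_centralizer_singleton_iff] at h2
      exact h2
    obtain ⟨π, hπdef⟩ : ∃ π : G →* G ⧸ Subgroup.center G,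
        π = QuotientGroup.mk' (Subgroup.center G) := ⟨_, rfl⟩
    have hπ1 : ∀ x : G, π x = 1 ↔ x ∈ Subgroup.center G := by
      intro x; rw [hπdef]; exact QuotientGroup.eq_one_iff x
    have hπeq : ∀ x y : G, π x = π y → x⁻¹ * y ∈ Subgroup.center G := by
      intro x y h; rw [hπdef] at h; exact QuotientGroup.eq.mp h
    have hπsurj : Function.Surjective π := by
      rw [hπdef]; exact QuotientGroup.mk'_surjective _
    have hMbar : ∀ x : G, π x ∈ A.map π → x ∈ A := by
      rintro x ⟨m, hm, hmx⟩
      have h1 : m⁻¹ * x ∈ A := hZA (hπeq m x hmx)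
      have h2 : x = m * (m⁻¹ * x) := by group
      rw [h2]; exact A.mul_mem hm h1
    have hFrob : Cfsg.IsFrobeniusComplement (A.map π) := by
      refine ⟨?_, ?_, ?_⟩
      · intro h
        apply hAn
        have h1 : A = Subgroup.center G := by
          apply le_antisymm _ hZA
          intro a ha
          have h2 : π a ∈ A.map π := Subgroup.mem_map_of_mem π ha
          rw [h, Subgroup.mem_bot] at h2
          exact (hπ1 a).1 h2
        rw [h1]; infer_instance
      · intro h
        apply hAtop
        rw [eq_top_iff]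
        intro y _
        apply hMbar
        rw [h]; exact Subgroup.mem_top _
      · intro gb hgb
        obtain ⟨g, rfl⟩ := hπsurj gb
        have hg : g ∉ A := fun hg => hgb (Subgroup.mem_map_of_mem π hg)
        rw [eq_bot_iff]
        intro xb hxb
        obtain ⟨hx1, hx2⟩ := Subgroup.mem_inf.mp hxb
        rw [Subgroup.mem_bot]
        obtain ⟨m1, hm1, rfl⟩ := hx1
        have hx2' : (π g)⁻¹ * π m1 * π g ∈ A.map π := Cfsg.Agent.Helper1.mem_conj_smul.mp hx2
        have h3 : g⁻¹ * m1 * g ∈ A := by
          apply hMbar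
          have h4 : π (g⁻¹ * m1 * g) = (π g)⁻¹ * π m1 * π g := by
            simp only [map_mul, map_inv]
          rw [h4]; exact hx2'
        exact (hπ1 m1).mpr (hTI g hg m1 hm1 h3)
    obtain ⟨K, -, hKn, hKc, hKne, hfpf, -⟩ := Cfsg.Agent.Helper1.frob_data (A.map π) hFrob
    have hcop : (Nat.card (A.map π)).Coprime (Nat.card K) :=
      Cfsg.Agent.Helper1.fpf_coprime_sub K (A.map π) hfpf (A.map π) le_rfl
    have hAbK : A.map π ≤ Subgroup.normalizer (K : Set (G ⧸ Subgroup.center G)) := by
      rw [Subgroup.normalizer_eq_top]; exact le_top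
    have hAs : Group.IsSolvable ↥A :=
      Group.isSolvable_of_comm (fun a b => Subtype.ext (hAcomm a a.2 b b.2))
    have hAbsolv : Group.IsSolvable ↥(A.map π) :=
      Group.isSolvable_of_surjective (π.subgroupMap_surjective A)
    have hAbcomm : ∀ a ∈ A.map π, ∀ b ∈ A.map π, a * b = b * a := by
      rintro _ ⟨a, ha, rfl⟩ _ ⟨b, hb, rfl⟩
      rw [← map_mul, ← map_mul, hAcomm a ha b hb]
    have hK1 : Nat.card K ≠ 1 := fun h => hKne (Subgroup.card_eq_one.mp h)
    obtain ⟨q, hq, hqK⟩ := Nat.exists_prime_and_dvd hK1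
    have hqf : Fact q.Prime := ⟨hq⟩
    obtain ⟨Q, hQK, hQcard, hQA⟩ := Cfsg.Agent.Helper1.inv_sylow_exists (A.map π) K hAbK hcop
      (Or.inl hAbsolv) q
    have hQne : Q ≠ ⊥ := by
      intro h
      rw [h, Subgroup.card_bot] at hQcard
      have hpos : 0 < (Nat.card K).factorization q :=
        hq.factorization_pos_of_dvd Nat.card_pos.ne' hqK
      have h1 : 1 < q ^ (Nat.card K).factorization q := Nat.one_lt_pow hpos.ne' hq.one_lt
      omega
    have hQsolv : Group.IsSolvable ↥Q := by
      have hQp : IsPGroup q ↥Q := IsPGroup.of_card hQcard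
      have hnil := hQp.isNilpotent
      infer_instance
    have hS : Group.IsSolvable ↥(Q ⊔ A.map π) :=
      Cfsg.Agent.S4097.isSolvable_sup Q (A.map π) hQA hQsolv hAbsolv
    have hdisj : ∀ x : G ⧸ Subgroup.center G, x ∈ K → x ∈ A.map π → x = 1 := by
      intro x hx1 hx2
      exact Subgroup.disjoint_def.1 hKc.disjoint hx1 hx2
    have hcoat : ∀ L : Subgroup (G ⧸ Subgroup.center G), A.map π ≤ L → L ≠ A.map π → L = ⊤ := by
      intro L hle hne
      have h1 : A ≤ L.comap π := fun a ha =>
        Subgroup.mem_comap.2 (hle (Subgroup.mem_map_of_mem π ha))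
      rcases hA.le_iff.1 h1 with h | h
      · rw [eq_top_iff]
        intro y _
        obtain ⟨x, rfl⟩ := hπsurj y
        have h2 : x ∈ L.comap π := by rw [h]; trivial
        exact h2
      · exfalso
        apply hne
        rw [← h, Subgroup.map_comap_eq_self_of_surjective hπsurj]
    have hQtop : Q ⊔ A.map π = ⊤ := by
      apply hcoat _ le_sup_right
      intro h
      apply hQne
      rw [eq_bot_iff]
      intro x hx
      have hxA : x ∈ A.map π := by rw [← h]; exact Subgroup.mem_sup_left hx
      exact Subgroup.mem_bot.2 (hdisj x (hQK hx) hxA)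
    have hKsolv : Group.IsSolvable ↥K := by
      have hKle : K ≤ Q ⊔ A.map π := by rw [hQtop]; exact le_top
      exact Group.isSolvable_of_isSolvable_injective (f := Subgroup.inclusion hKle)
        (Subgroup.inclusion_injective hKle)
    have hmin : ∀ M : Subgroup (G ⧸ Subgroup.center G), M.Normal → M ≤ K → M ≠ ⊥ → K ≤ M := by
      intro M hMn hMK hM0
      have hMtop : M ⊔ A.map π = ⊤ := by
        apply hcoat _ le_sup_right
        intro h
        apply hM0
        rw [eq_bot_iff]
        intro x hx
        have hxA : x ∈ A.map π := by rw [← h]; exact Subgroup.mem_sup_left hx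
        exact Subgroup.mem_bot.2 (hdisj x (hMK hx) hxA)
      intro n hn
      have hn' : n ∈ M ⊔ A.map π := by rw [hMtop]; trivial
      rw [Subgroup.mem_sup_of_normal_left] at hn'
      obtain ⟨m, hm, a, ha, rfl⟩ := hn'
      have ha1 : a = 1 := by
        have h1 : a ∈ K := by
          have e : a = m⁻¹ * (m * a) := by group
          rw [e]; exact K.mul_mem (K.inv_mem (hMK hm)) hn
        exact hdisj a h1 ha
      rw [ha1, mul_one]; exact hm
    have hKab : ⁅K, K⁆ = ⊥ := by
      by_contra hne
      have h1 : K ≤ ⁅K, K⁆ := hmin ⁅K, K⁆ inferInstance (Subgroup.commutator_le_left K K) hne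
      have h2 : ⁅K, K⁆ = K := le_antisymm (Subgroup.commutator_le_left K K) h1
      have hnt : Nontrivial ↥K := (Subgroup.nontrivial_iff_ne_bot K).2 hKne
      have h3 := Group.IsSolvable.commutator_lt_top_of_nontrivial ↥K
      apply h3.ne
      apply Subgroup.map_injective K.subtype_injective
      rw [Subgroup.map_subtype_commutator, h2, ← MonoidHom.range_eq_map, Subgroup.range_subtype]
    have hD1 : derivedSeries (G ⧸ Subgroup.center G) 1 ≤ K := by
      show derivedSeries (G ⧸ Subgroup.center G) (0 + 1) ≤ K
      rw [derivedSeries_succ, derivedSeries_zero, Subgroup.commutator_le]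
      intro x _ y _
      obtain ⟨⟨⟨n, hn⟩, ⟨a, ha⟩⟩, hx⟩ := hKc.2 x
      obtain ⟨⟨⟨m, hm⟩, ⟨b, hb⟩⟩, hy⟩ := hKc.2 y
      have hx' : n * a = x := hx
      have hy' : m * b = y := hy
      have hab : a * b = b * a := hAbcomm a ha b hb
      rw [commutatorElement_def, ← hx', ← hy']
      have e : n * a * (m * b) * (n * a)⁻¹ * (m * b)⁻¹ =
          n * (a * m * a⁻¹) * (b * n⁻¹ * b⁻¹) * m⁻¹ := by
        calc n * a * (m * b) * (n * a)⁻¹ * (m * b)⁻¹
            = n * (a * m * a⁻¹) * (a * b) * a⁻¹ * n⁻¹ * b⁻¹ * m⁻¹ := by group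
          _ = n * (a * m * a⁻¹) * (b * a) * a⁻¹ * n⁻¹ * b⁻¹ * m⁻¹ := by rw [hab]
          _ = n * (a * m * a⁻¹) * (b * n⁻¹ * b⁻¹) * m⁻¹ := by group
      rw [e]
      exact K.mul_mem (K.mul_mem (K.mul_mem hn (hKn.conj_mem m hm a))
        (hKn.conj_mem _ (K.inv_mem hn) b)) (K.inv_mem hm)
    have hD2 : derivedSeries (G ⧸ Subgroup.center G) 2 = ⊥ := by
      show derivedSeries (G ⧸ Subgroup.center G) (1 + 1) = ⊥
      rw [derivedSeries_succ, eq_bot_iff, ← hKab]
      exact Subgroup.commutator_mono hD1 hD1
    apply hfinal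
    intro x hx
    have h1 : π x ∈ (derivedSeries G 2).map π := Subgroup.mem_map_of_mem π hx
    have h2 := map_derivedSeries_le_derivedSeries π 2 h1
    rw [hD2, Subgroup.mem_bot] at h2
    exact (hπ1 x).1 h2

end Cfsg.Agent.S0556
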