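import Mathlib
import Cfsg.Statements.S4145
import Cfsg.Agent.Lead.Transfer
import Cfsg.Agent.Helper1.Basic
import Cfsg.Agent.Helper12.Syl
import Cfsg.Agent.Helper16.SylowNormal
import Cfsg.Agent.Helper21.NPC

set_option autoImplicit false
open Cfsg

namespace Cfsg.Agent.S4145

theorem conj_pow_eq {G : Type*} [Group G] (y u : G) (r : ℕ) (h : y * u * y⁻¹ = u ^ r) (k : ℕ) :
    y ^ k * u * (y ^ k)⁻¹ = u ^ (r ^ k) := by
  induction k with
  | zero => simp
  | succ k ih =>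
    have e : y ^ (k + 1) * u * (y ^ (k + 1))⁻¹ = y * (y ^ k * u * (y ^ k)⁻¹) * y⁻¹ := by
      rw [pow_succ', mul_inv_rev]
      simp only [mul_assoc]
    rw [e, ih, ← conj_pow, h, ← pow_mul, pow_succ']

theorem commute_of_pow_coprime {G : Type*} [Group G] (y u : G) (a b : ℕ) (hab : a.Coprime b)
    (ha : Commute (y ^ a) u) (hb : Commute (y ^ b) u) : Commute y u := by
  have h1 : y = (y ^ a) ^ (Nat.gcdA a b) * (y ^ b) ^ (Nat.gcdB a b) := by
    calc y = y ^ (1 : ℤ) := (zpow_one y).symm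
      _ = y ^ ((a : ℤ) * Nat.gcdA a b + (b : ℤ) * Nat.gcdB a b) := by
          rw [← Nat.gcd_eq_gcd_ab, Nat.Coprime.gcd_eq_one hab]; simp
      _ = (y ^ a) ^ (Nat.gcdA a b) * (y ^ b) ^ (Nat.gcdB a b) := by
          rw [zpow_add, zpow_mul, zpow_mul, zpow_natCast, zpow_natCast]
  rw [h1]
  exact (ha.zpow_left _).mul_left (hb.zpow_left _)

theorem commute_of_modEq {G : Type*} [Group G] [Finite G] (p : ℕ) [hp : Fact p.Prime]
    (P : Sylow p G) (u : G) (hgen : ∀ z ∈ (P : Subgroup G), z ∈ Subgroup.zpowers u)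
    (huP : u ∈ (P : Subgroup G)) (y : G)
    (hy : y ∈ Subgroup.normalizer ((P : Subgroup G) : Set G)) (r : ℕ)
    (hr : y * u * y⁻¹ = u ^ r) (hmod : r ≡ 1 [MOD p]) : y * u = u * y := by
  obtain ⟨n, hn⟩ := P.2.exists_card_eq
  have hun : u ^ p ^ n = 1 := by
    have h0 : (⟨u, huP⟩ : (P : Subgroup G)) ^ Nat.card (P : Subgroup G) = 1 := pow_card_eq_one'
    rw [hn] at h0
    have h1 := congrArg Subtype.val h0
    simpa using h1
  have hord : orderOf u ∣ p ^ n := orderOf_dvd_of_pow_eq_one hun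
  have h1 : (p : ℤ) ∣ (r : ℤ) - 1 := by
    have h0 := (Nat.modEq_iff_dvd.mp hmod.symm)
    push_cast at h0
    exact h0
  have h2 : ((p : ℤ) ^ (n + 1)) ∣ (r : ℤ) ^ p ^ n - 1 ^ p ^ n := dvd_sub_pow_of_dvd_sub h1 n
  have h3 : 1 ≡ r ^ p ^ n [MOD p ^ n] := by
    refine Nat.modEq_iff_dvd.mpr ?_
    push_cast
    rw [one_pow] at h2
    exact Dvd.dvd.trans (pow_dvd_pow _ (Nat.le_succ n)) h2
  have h4 : u ^ (r ^ p ^ n) = u := by
    have h5 : u ^ (r ^ p ^ n) = u ^ 1 := pow_eq_pow_iff_modEq.mpr ((h3.of_dvd hord).symm)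
    rw [h5, pow_one]
  have hc1 : Commute (y ^ p ^ n) u := by
    have h5 := conj_pow_eq y u r hr (p ^ n)
    rw [h4] at h5
    show y ^ p ^ n * u = u * y ^ p ^ n
    calc y ^ p ^ n * u = (y ^ p ^ n * u * (y ^ p ^ n)⁻¹) * y ^ p ^ n := by group
      _ = u * y ^ p ^ n := by rw [h5]
  obtain ⟨a, m', hm', hym⟩ := Nat.exists_eq_pow_mul_and_not_dvd (orderOf_pos y).ne' p hp.out.ne_one
  have hc2 : Commute (y ^ m') u := by
    have h5 : (y ^ m') ^ p ^ a = 1 := by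
      rw [← pow_mul, mul_comm, ← hym, pow_orderOf_eq_one]
    have h6 : y ^ m' ∈ (P : Subgroup G) :=
      Cfsg.Agent.Lead.mem_sylow_of_mem_normalizer P (y ^ m') a h5 (pow_mem hy m')
    obtain ⟨j, hj⟩ := Subgroup.mem_zpowers_iff.mp (hgen _ h6)
    rw [← hj]
    exact (Commute.refl u).zpow_left j
  have hcop : (p ^ n).Coprime m' :=
    Nat.Coprime.pow_left n ((Nat.Prime.coprime_iff_not_dvd hp.out).mpr hm')
  exact (commute_of_pow_coprime y u (p ^ n) m' hcop hc1 hc2).eq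

theorem modEq_of_pow_mem {G : Type*} [Group G] {p : ℕ} [hp : Fact p.Prime] (K : Subgroup G)
    (u : G) (n r : ℕ) (hun : u ^ p ^ n = 1) (huK : u ∉ K) (h : u ^ r * u⁻¹ ∈ K) :
    r ≡ 1 [MOD p] := by
  by_contra hne
  apply huK
  have h1 : ¬ (p : ℤ) ∣ (r : ℤ) - 1 := by
    intro hd
    apply hne
    refine (Nat.modEq_iff_dvd.mpr ?_).symm
    push_cast
    exact hd
  have h2 : IsCoprime ((r : ℤ) - 1) ((p : ℤ) ^ n) := by
    refine IsCoprime.pow_right ?_
    exact ((Nat.prime_iff_prime_int.mp hp.out).irreducible.coprime_iff_not_dvd.mpr h1).symm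
  obtain ⟨a, b, hab⟩ := h2
  have h3 : u = (u ^ r * u⁻¹) ^ a := by
    have e1 : u ^ r * u⁻¹ = u ^ ((r : ℤ) - 1) := by
      rw [zpow_sub, zpow_natCast, zpow_one]
    have e2 : (u ^ ((p : ℤ) ^ n)) = 1 := by
      have e3 : ((p : ℤ) ^ n) = ((p ^ n : ℕ) : ℤ) := by push_cast; rfl
      rw [e3, zpow_natCast, hun]
    calc u = u ^ (1 : ℤ) := (zpow_one u).symm
      _ = u ^ (a * ((r : ℤ) - 1) + b * (p : ℤ) ^ n) := by rw [hab]
      _ = (u ^ ((r : ℤ) - 1)) ^ a * (u ^ ((p : ℤ) ^ n)) ^ b := by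
          rw [zpow_add, mul_comm a, mul_comm b, zpow_mul, zpow_mul]
      _ = (u ^ r * u⁻¹) ^ a := by rw [e2, one_zpow, mul_one, e1]
  rw [h3]
  exact K.zpow_mem h a

theorem npc_data {G : Type*} [Group G] [Finite G] {p : ℕ} [hp : Fact p.Prime]
    (A : Subgroup G) (PA : Sylow p A) (N : Subgroup A) [hN : N.Normal]
    (hc : N.IsComplement' (PA : Subgroup A)) :
    (N.map A.subtype) ≤ A ∧ (Nat.card (N.map A.subtype : Subgroup G)).Coprime p ∧
      (N.map A.subtype).relIndex A = Nat.card (PA : Subgroup A) ∧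
      (∀ a ∈ A, ∀ m : ℕ, m.Coprime p → a ^ m = 1 → a ∈ N.map A.subtype) ∧
      (∀ a ∈ A, ∃ k ∈ N.map A.subtype, ∃ x ∈ (PA : Subgroup A).map A.subtype, a = k * x) := by
  refine ⟨Subgroup.map_subtype_le _, ?_, ?_, ?_, ?_⟩
  · rw [Subgroup.card_subtype, ← hc.index_eq_card]
    exact ((Nat.Prime.coprime_iff_not_dvd hp.out).2 PA.not_dvd_index).symm
  · show ((N.map A.subtype).comap A.subtype).index = _
    rw [Subgroup.comap_map_eq_self_of_injective (Subgroup.subtype_injective A)]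
    exact hc.symm.index_eq_card
  · intro a ha m hm ham
    have h1 : (⟨a, ha⟩ : A) ∈ N :=
      Cfsg.Agent.Helper21.mem_of_pow_eq_one_of_complement N (PA : Subgroup A) PA.isPGroup' hc hm
        (Subtype.ext (by simpa using ham))
    exact ⟨⟨a, ha⟩, h1, rfl⟩
  · intro a ha
    obtain ⟨κ, hκ, ξ, hξ, hκξ⟩ := (Cfsg.Agent.Helper1.isComplement'_iff_elem.1 hc).2 ⟨a, ha⟩
    exact ⟨κ, ⟨κ, hκ, rfl⟩, ξ, ⟨ξ, hξ, rfl⟩, congrArg Subtype.val hκξ⟩

theorem normal_of_coprime_mem {G : Type*} [Group G] {p : ℕ} (A K : Subgroup G) [hA : A.Normal]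
    (hKA : K ≤ A) (hK : (Nat.card K).Coprime p)
    (h : ∀ a ∈ A, ∀ m : ℕ, m.Coprime p → a ^ m = 1 → a ∈ K) : K.Normal := by
  constructor
  intro k hk g
  refine h _ (hA.conj_mem k (hKA hk) g) (Nat.card K) hK ?_
  rw [conj_pow]
  have h1 : k ^ Nat.card K = 1 := by
    have h0 : (⟨k, hk⟩ : K) ^ Nat.card K = 1 := pow_card_eq_one'
    have h2 := congrArg Subtype.val h0
    exact h2
  rw [h1]; group

def centMod {G : Type*} [Group G] (H K : Subgroup G) [H.Normal] [hK : K.Normal] :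
    Subgroup G where
  carrier := {g | ∀ h ∈ H, g * h * g⁻¹ * h⁻¹ ∈ K}
  one_mem' := by
    intro h _
    have e : (1 : G) * h * 1⁻¹ * h⁻¹ = 1 := by group
    rw [e]; exact K.one_mem
  mul_mem' := by
    intro a b ha hb h hh
    have e : a * b * h * (a * b)⁻¹ * h⁻¹ =
        a * (b * h * b⁻¹ * h⁻¹) * a⁻¹ * (a * h * a⁻¹ * h⁻¹) := by group
    rw [e]
    exact K.mul_mem (hK.conj_mem _ (hb h hh) a) (ha h hh)
  inv_mem' := by
    intro a ha h hh
    have e : a⁻¹ * h * a⁻¹⁻¹ * h⁻¹ = a⁻¹ * (a * h * a⁻¹ * h⁻¹)⁻¹ * a⁻¹⁻¹ := by group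
    rw [e]
    exact hK.conj_mem _ (K.inv_mem (ha h hh)) a⁻¹

theorem centMod_normal {G : Type*} [Group G] (H K : Subgroup G) [hH : H.Normal] [hK : K.Normal] :
    (centMod H K).Normal := by
  constructor
  intro a ha g h hh
  have e : g * a * g⁻¹ * h * (g * a * g⁻¹)⁻¹ * h⁻¹ =
      g * (a * (g⁻¹ * h * g) * a⁻¹ * (g⁻¹ * h * g)⁻¹) * g⁻¹ := by group
  show g * a * g⁻¹ * h * (g * a * g⁻¹)⁻¹ * h⁻¹ ∈ K
  rw [e]
  exact hK.conj_mem _ (ha _ (hH.conj_mem' h hh g)) g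

theorem isPSolvable_of_chain {G : Type*} [Group G] (p : ℕ) (L C : Subgroup G) [hL : L.Normal]
    [hC : C.Normal] (hLC : L ≤ C) (h1 : (Nat.card L).Coprime p)
    (h2 : ∃ m : ℕ, L.relIndex C = p ^ m) (h3 : C.index.Coprime p) : Cfsg.IsPSolvable p G := by
  refine ⟨3, ![⊥, L, C, ⊤], rfl, rfl, ?_, ?_, ?_⟩
  · rw [Fin.monotone_iff_le_succ]
    intro i
    fin_cases i
    · exact bot_le
    · exact hLC
    · exact le_top
  · intro i
    fin_cases i
    · exact Subgroup.normal_bot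
    · exact hL
    · exact hC
    · exact Subgroup.normal_top
  · intro i
    fin_cases i
    · right
      show ((⊥ : Subgroup G).relIndex L).Coprime p
      rw [Subgroup.relIndex_bot_left]; exact h1
    · left
      exact h2
    · right
      show (C.relIndex ⊤).Coprime p
      rw [Subgroup.relIndex_top_right]; exact h3

theorem result {G : Type*} [Group G] [Finite G] (p : ℕ) [Fact p.Prime]
    (P : Sylow p G) (hP : IsCyclic (P : Subgroup G)) (H : Subgroup G) [H.Normal] (h1 : p ∣ Nat.card H) (h2 : p ∣ H.index) :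
    Cfsg.HasNormalPComplement p H ∧ Cfsg.IsPSolvable p G := by
  have hp : p.Prime := Fact.out
  have hHn : H.Normal := inferInstance
  have := hP
  obtain ⟨⟨u, huP⟩, hgen0⟩ := IsCyclic.exists_generator (α := (P : Subgroup G))
  have hgen : ∀ z ∈ (P : Subgroup G), z ∈ Subgroup.zpowers u := by
    intro z hz
    obtain ⟨k, hk⟩ := Subgroup.mem_zpowers_iff.mp (hgen0 ⟨z, hz⟩)
    refine Subgroup.mem_zpowers_iff.mpr ⟨k, ?_⟩
    have h0 := congrArg Subtype.val hk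
    simpa using h0
  have hcomm : ∀ a ∈ (P : Subgroup G), ∀ b ∈ (P : Subgroup G), a * b = b * a := by
    intro a ha b hb
    obtain ⟨i, rfl⟩ := Subgroup.mem_zpowers_iff.mp (hgen a ha)
    obtain ⟨j, rfl⟩ := Subgroup.mem_zpowers_iff.mp (hgen b hb)
    exact (Commute.zpow_zpow_self u i j).eq
  obtain ⟨n, hn⟩ := P.2.exists_card_eq
  have hun : u ^ p ^ n = 1 := by
    have h0 : (⟨u, huP⟩ : (P : Subgroup G)) ^ Nat.card (P : Subgroup G) = 1 := pow_card_eq_one'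
    rw [hn] at h0
    have h3 := congrArg Subtype.val h0
    simpa using h3
  have huH : u ∉ H := by
    intro hu
    have hPH : (P : Subgroup G) ≤ H := by
      intro z hz
      obtain ⟨k, rfl⟩ := Subgroup.mem_zpowers_iff.mp (hgen z hz)
      exact H.zpow_mem hu k
    exact P.not_dvd_index (dvd_trans h2 (Subgroup.index_dvd_of_le hPH))
  obtain ⟨Q', hQ'⟩ := Cfsg.Agent.Helper16.sylow_subgroupOf_normal P H
  have hQ'mem : ∀ z : H, z ∈ (Q' : Subgroup H) ↔ (z : G) ∈ (P : Subgroup G) := by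
    intro z; rw [hQ']; exact Subgroup.mem_subgroupOf
  obtain ⟨q₀, hq₀P, hq₀H, hq₀1⟩ : ∃ q₀ : G, q₀ ∈ (P : Subgroup G) ∧ q₀ ∈ H ∧ q₀ ≠ 1 := by
    have hne : (Q' : Subgroup H) ≠ ⊥ := Sylow.ne_bot_of_dvd_card Q' h1
    obtain ⟨⟨z, hz⟩, hz1⟩ := (Subgroup.ne_bot_iff_exists_ne_one).mp hne
    refine ⟨(z : G), (hQ'mem z).mp hz, z.2, ?_⟩
    intro h0
    exact hz1 (Subtype.ext (Subtype.ext h0))
  have key1 : ∀ x ∈ H, (∀ q ∈ (P : Subgroup G), q ∈ H → x * q * x⁻¹ ∈ (P : Subgroup G)) →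
      (∀ q ∈ (P : Subgroup G), q ∈ H → x⁻¹ * q * x ∈ (P : Subgroup G)) →
      ∀ q ∈ (P : Subgroup G), q ∈ H → x * q = q * x := by
    intro x hxH hx1 hx2
    have hc1H : x * u * x⁻¹ * u⁻¹ ∈ H := by
      have e : x * u * x⁻¹ * u⁻¹ = x * (u * x⁻¹ * u⁻¹) := by group
      rw [e]
      exact H.mul_mem hxH (hHn.conj_mem _ (H.inv_mem hxH) u)
    have hc1C : ∀ q ∈ (P : Subgroup G), q ∈ H →
        q * (x * u * x⁻¹ * u⁻¹) = (x * u * x⁻¹ * u⁻¹) * q := by
      intro q hqP hqH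
      have hq1 : u * q = q * u := hcomm u huP q hqP
      have hq2 : u * (x⁻¹ * q * x) = (x⁻¹ * q * x) * u := hcomm u huP _ (hx2 q hqP hqH)
      have e1 : u⁻¹ * q = q * u⁻¹ := (Commute.inv_left (show Commute u q from hq1)).eq
      symm
      calc x * u * x⁻¹ * u⁻¹ * q = x * u * x⁻¹ * (u⁻¹ * q) := by group
        _ = x * u * x⁻¹ * (q * u⁻¹) := by rw [e1]
        _ = x * (u * (x⁻¹ * q * x)) * x⁻¹ * u⁻¹ := by group
        _ = x * ((x⁻¹ * q * x) * u) * x⁻¹ * u⁻¹ := by rw [hq2]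
        _ = q * (x * u * x⁻¹ * u⁻¹) := by group
    obtain ⟨M, hM⟩ : ∃ M : Subgroup G, M = Subgroup.centralizer
        ((((P : Subgroup G) ⊓ H : Subgroup G)) : Set G) ⊓ (H ⊔ (P : Subgroup G)) := ⟨_, rfl⟩
    have hMmem : ∀ z, z ∈ M ↔ (∀ q ∈ (P : Subgroup G), q ∈ H → q * z = z * q) ∧
        z ∈ H ⊔ (P : Subgroup G) := by
      intro z
      rw [hM, Subgroup.mem_inf, Subgroup.mem_centralizer_iff]
      constructor
      · rintro ⟨ha, hb⟩
        exact ⟨fun q hqP hqH => ha q (SetLike.mem_coe.mpr (Subgroup.mem_inf.mpr ⟨hqP, hqH⟩)), hb⟩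
      · rintro ⟨ha, hb⟩
        exact ⟨fun q hq => ha q (Subgroup.mem_inf.mp (SetLike.mem_coe.mp hq)).1
          (Subgroup.mem_inf.mp (SetLike.mem_coe.mp hq)).2, hb⟩
    have hPM : (P : Subgroup G) ≤ M := by
      intro z hz
      exact (hMmem z).mpr ⟨fun q hqP _ => hcomm q hqP z hz, Subgroup.mem_sup_right hz⟩
    have hxuM : x * u * x⁻¹ ∈ M := by
      have e : x * u * x⁻¹ = (x * u * x⁻¹ * u⁻¹) * u := by group
      rw [e]
      exact M.mul_mem ((hMmem _).mpr ⟨hc1C, Subgroup.mem_sup_left hc1H⟩) (hPM huP)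
    have hxup : (x * u * x⁻¹) ^ p ^ n = 1 := by
      rw [conj_pow, hun]; group
    obtain ⟨m, hmM, hm⟩ := Cfsg.Agent.Helper12.exists_conj_mem_sylow_of_le P hPM
      (Cfsg.Agent.Helper12.isPGroup_zpowers_of_pow_eq_one hxup)
      ((Subgroup.zpowers_le).mpr hxuM)
    have hm' : m * (x * u * x⁻¹) * m⁻¹ ∈ (P : Subgroup G) := hm _ (Subgroup.mem_zpowers _)
    have hyu : (m * x) * u * (m * x)⁻¹ ∈ (P : Subgroup G) := by
      have e : (m * x) * u * (m * x)⁻¹ = m * (x * u * x⁻¹) * m⁻¹ := by group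
      rw [e]; exact hm'
    have hyN : m * x ∈ Subgroup.normalizer ((P : Subgroup G) : Set G) := by
      apply Subgroup.mem_normalizer_fintype
      intro z hz
      obtain ⟨k, rfl⟩ := Subgroup.mem_zpowers_iff.mp (hgen z hz)
      have e : (m * x) * u ^ k * (m * x)⁻¹ = ((m * x) * u * (m * x)⁻¹) ^ k := by
        rw [conj_zpow]
      rw [e]
      exact Subgroup.zpow_mem _ hyu k
    obtain ⟨hmC, hmHP⟩ := (hMmem m).mp hmM
    have hmHP' : m ∈ ((H ⊔ (P : Subgroup G) : Subgroup G) : Set G) := hmHP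
    rw [Subgroup.normal_mul] at hmHP'
    obtain ⟨h, hhH, p₀, hp₀, hmeq⟩ := Set.mem_mul.mp hmHP'
    have hp₀u : p₀ * u * p₀⁻¹ = u := by
      rw [hcomm p₀ hp₀ u huP]; group
    have haH : h * (p₀ * x * p₀⁻¹) ∈ H := H.mul_mem hhH (hHn.conj_mem x hxH p₀)
    have hyconj : (m * x) * u * (m * x)⁻¹ =
        (h * (p₀ * x * p₀⁻¹)) * u * (h * (p₀ * x * p₀⁻¹))⁻¹ := by
      have e : (m * x) * u * (m * x)⁻¹ =
          (h * (p₀ * x * p₀⁻¹)) * (p₀ * u * p₀⁻¹) * (h * (p₀ * x * p₀⁻¹))⁻¹ := by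
        rw [← hmeq]; group
      rw [e, hp₀u]
    obtain ⟨r, hr⟩ : ∃ r : ℕ, u ^ r = (m * x) * u * (m * x)⁻¹ := by
      have h3 := hgen _ hyu
      exact (mem_powers_iff_mem_zpowers.mpr h3)
    have hcommH : u ^ r * u⁻¹ ∈ H := by
      rw [hr, hyconj]
      have e : (h * (p₀ * x * p₀⁻¹)) * u * (h * (p₀ * x * p₀⁻¹))⁻¹ * u⁻¹ =
          (h * (p₀ * x * p₀⁻¹)) * (u * (h * (p₀ * x * p₀⁻¹))⁻¹ * u⁻¹) := by group
      rw [e]
      exact H.mul_mem haH (hHn.conj_mem _ (H.inv_mem haH) u)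
    have hmod : r ≡ 1 [MOD p] := modEq_of_pow_mem H u n r hun huH hcommH
    have hyc : (m * x) * u = u * (m * x) :=
      commute_of_modEq p P u hgen huP (m * x) hyN r hr.symm hmod
    intro q hqP hqH
    have e1 : q * m = m * q := hmC q hqP hqH
    have e2 : (m * x) * q = q * (m * x) := by
      obtain ⟨k, rfl⟩ := Subgroup.mem_zpowers_iff.mp (hgen q hqP)
      exact ((show Commute (m * x) u from hyc).zpow_right k).eq
    calc x * q = m⁻¹ * ((m * x) * q) := by group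
      _ = m⁻¹ * (q * (m * x)) := by rw [e2]
      _ = m⁻¹ * (q * m) * x := by group
      _ = m⁻¹ * (m * q) * x := by rw [e1]
      _ = q * x := by group
  have hNC : Subgroup.normalizer ((Q' : Subgroup H) : Set H) ≤
      Subgroup.centralizer ((Q' : Subgroup H) : Set H) := by
    intro x hx
    rw [Subgroup.mem_centralizer_iff]
    intro z hz
    have hz' : (z : G) ∈ (P : Subgroup G) := (hQ'mem z).mp hz
    have hxinv : x⁻¹ ∈ Subgroup.normalizer ((Q' : Subgroup H) : Set H) := inv_mem hx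
    have k1 := key1 (x : G) x.2 ?_ ?_ (z : G) hz' z.2
    · exact Subtype.ext k1.symm
    · intro q hqP hqH
      have h3 := (Subgroup.mem_normalizer_iff.mp hx ⟨q, hqH⟩).mp ((hQ'mem _).mpr hqP)
      exact (hQ'mem _).mp h3
    · intro q hqP hqH
      have h3 := (Subgroup.mem_normalizer_iff.mp hxinv ⟨q, hqH⟩).mp ((hQ'mem _).mpr hqP)
      rw [inv_inv] at h3
      exact (hQ'mem _).mp h3
  obtain ⟨N, hNn, hNc⟩ : ∃ N : Subgroup H, N.Normal ∧ N.IsComplement' (Q' : Subgroup H) :=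
    ⟨(MonoidHom.transferSylow Q' hNC).ker, inferInstance,
      MonoidHom.ker_transferSylow_isComplement' Q' hNC⟩
  refine ⟨⟨Q', N, hNn, hNc⟩, ?_⟩
  have := hNn
  obtain ⟨hKH, hKcop, -, hKmem, hKdec⟩ := npc_data H Q' N hNc
  obtain ⟨K, hKdef⟩ : ∃ K : Subgroup G, K = N.map H.subtype := ⟨_, rfl⟩
  rw [← hKdef] at hKH hKcop hKmem hKdec
  have hKn : K.Normal := normal_of_coprime_mem H K hKH hKcop hKmem
  have hKdec' : ∀ a ∈ H, ∃ k ∈ K, ∃ x ∈ (P : Subgroup G), x ∈ H ∧ a = k * x := by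
    intro a ha
    obtain ⟨k, hk, x, hx, hax⟩ := hKdec a ha
    obtain ⟨x', hx', rfl⟩ := hx
    exact ⟨k, hk, _, (hQ'mem x').mp hx', x'.2, hax⟩
  have := hKn
  obtain ⟨C, hCdef⟩ : ∃ C : Subgroup G, C = centMod H K := ⟨_, rfl⟩
  have hCmem : ∀ g, g ∈ C ↔ ∀ h ∈ H, g * h * g⁻¹ * h⁻¹ ∈ K := by
    intro g; rw [hCdef]; exact Iff.rfl
  have hCn : C.Normal := by rw [hCdef]; exact centMod_normal H K
  have hPC : (P : Subgroup G) ≤ C := by
    intro z hz
    rw [hCmem]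
    intro a ha
    obtain ⟨k, hk, x, hxP, hxH, rfl⟩ := hKdec' a ha
    have e1 : z * x = x * z := hcomm z hz x hxP
    have e2 : x * z⁻¹ = z⁻¹ * x := (Commute.inv_right (show Commute x z from e1.symm)).eq
    have e : z * (k * x) * z⁻¹ * (k * x)⁻¹ = (z * k * z⁻¹) * k⁻¹ := by
      calc z * (k * x) * z⁻¹ * (k * x)⁻¹ = z * k * (x * z⁻¹) * x⁻¹ * k⁻¹ := by group
        _ = z * k * (z⁻¹ * x) * x⁻¹ * k⁻¹ := by rw [e2]
        _ = (z * k * z⁻¹) * k⁻¹ := by group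
    rw [e]
    exact K.mul_mem (hKn.conj_mem k hk z) (K.inv_mem hk)
  have hP'mem : ∀ z : C, z ∈ ((P.subtype hPC : Sylow p C) : Subgroup C) ↔
      (z : G) ∈ (P : Subgroup G) := by
    intro z; rw [Sylow.coe_subtype]; exact Subgroup.mem_subgroupOf
  have hNC2 : Subgroup.normalizer (((P.subtype hPC : Sylow p C) : Subgroup C) : Set C) ≤
      Subgroup.centralizer (((P.subtype hPC : Sylow p C) : Subgroup C) : Set C) := by
    intro y hy
    rw [Subgroup.mem_centralizer_iff]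
    intro z hz
    have hz' : (z : G) ∈ (P : Subgroup G) := (hP'mem z).mp hz
    have hyN : (y : G) ∈ Subgroup.normalizer ((P : Subgroup G) : Set G) := by
      apply Subgroup.mem_normalizer_fintype
      intro w hw
      have h3 := (Subgroup.mem_normalizer_iff.mp hy ⟨w, hPC hw⟩).mp ((hP'mem _).mpr hw)
      exact (hP'mem _).mp h3
    have hyq : (y : G) * q₀ = q₀ * (y : G) := by
      have h3 : (y : G) * q₀ * (y : G)⁻¹ * q₀⁻¹ ∈ K := (hCmem _).mp y.2 q₀ hq₀H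
      have h4 : (y : G) * q₀ * (y : G)⁻¹ * q₀⁻¹ ∈ (P : Subgroup G) :=
        (P : Subgroup G).mul_mem ((Subgroup.mem_normalizer_iff.mp hyN q₀).mp hq₀P)
          ((P : Subgroup G).inv_mem hq₀P)
      have h5 := Cfsg.Agent.Helper21.eq_one_of_mem_pgroup_of_mem_coprime P.2 hKcop h4 h3
      calc (y : G) * q₀ = ((y : G) * q₀ * (y : G)⁻¹ * q₀⁻¹) * (q₀ * (y : G)) := by group
        _ = q₀ * (y : G) := by rw [h5, one_mul]
    obtain ⟨r, hr⟩ : ∃ r : ℕ, u ^ r = (y : G) * u * (y : G)⁻¹ := by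
      have h3 := hgen _ ((Subgroup.mem_normalizer_iff.mp hyN u).mp huP)
      exact (mem_powers_iff_mem_zpowers.mpr h3)
    have hmod : r ≡ 1 [MOD p] := by
      obtain ⟨j, hj⟩ := Subgroup.mem_zpowers_iff.mp (hgen q₀ hq₀P)
      have h3 : q₀ ^ r = q₀ ^ 1 := by
        rw [pow_one]
        calc q₀ ^ r = (u ^ j) ^ r := by rw [hj]
          _ = (u ^ r) ^ j := by
              rw [← zpow_natCast (u ^ j) r, ← zpow_mul, mul_comm, zpow_mul, zpow_natCast]
          _ = ((y : G) * u * (y : G)⁻¹) ^ j := by rw [hr]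
          _ = (y : G) * u ^ j * (y : G)⁻¹ := by rw [conj_zpow]
          _ = (y : G) * q₀ * (y : G)⁻¹ := by rw [hj]
          _ = q₀ := by rw [hyq]; group
      have h4 : r ≡ 1 [MOD orderOf q₀] := pow_eq_pow_iff_modEq.mp h3
      have h5 : p ∣ orderOf q₀ := by
        have h6 : orderOf q₀ ∣ p ^ n := by
          have h0 : (⟨q₀, hq₀P⟩ : (P : Subgroup G)) ^ Nat.card (P : Subgroup G) = 1 :=
            pow_card_eq_one'
          rw [hn] at h0
          apply orderOf_dvd_of_pow_eq_one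
          have h7 := congrArg Subtype.val h0
          simpa using h7
        obtain ⟨i, hi, hi'⟩ := (Nat.dvd_prime_pow hp).mp h6
        have hi0 : i ≠ 0 := by
          rintro rfl
          rw [pow_zero, orderOf_eq_one_iff] at hi'
          exact hq₀1 hi'
        rw [hi']
        exact dvd_pow_self p hi0
      exact h4.of_dvd h5
    have hyu := commute_of_modEq p P u hgen huP (y : G) hyN r hr.symm hmod
    obtain ⟨k, hk⟩ := Subgroup.mem_zpowers_iff.mp (hgen _ hz')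
    have h6 : (y : G) * (z : G) = (z : G) * (y : G) := by
      rw [← hk]
      exact ((show Commute (y : G) u from hyu).zpow_right k).eq
    exact Subtype.ext h6.symm
  obtain ⟨L₀, hL₀n, hL₀c⟩ : ∃ L₀ : Subgroup C, L₀.Normal ∧
      L₀.IsComplement' ((P.subtype hPC : Sylow p C) : Subgroup C) :=
    ⟨(MonoidHom.transferSylow (P.subtype hPC) hNC2).ker, inferInstance,
      MonoidHom.ker_transferSylow_isComplement' _ hNC2⟩
  have := hL₀n
  obtain ⟨hLC, hLcop, hLrel, hLmem, -⟩ := npc_data C (P.subtype hPC) L₀ hL₀c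
  obtain ⟨L, hLdef⟩ : ∃ L : Subgroup G, L = L₀.map C.subtype := ⟨_, rfl⟩
  rw [← hLdef] at hLC hLcop hLrel hLmem
  have := hCn
  have hLn : L.Normal := normal_of_coprime_mem C L hLC hLcop hLmem
  have := hLn
  refine isPSolvable_of_chain p L C hLC hLcop ?_ ?_
  · obtain ⟨m, hm⟩ := (P.subtype hPC).2.exists_card_eq
    exact ⟨m, by rw [hLrel, hm]⟩
  · have h3 : C.index ∣ (P : Subgroup G).index := Subgroup.index_dvd_of_le hPC
    exact Nat.Coprime.coprime_dvd_left h3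
      ((Nat.Prime.coprime_iff_not_dvd hp).mpr P.not_dvd_index).symm

end Cfsg.Agent.S4145
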