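import Cfsg.Statements.S0594
import Cfsg.Agent.S0596
import Cfsg.Agent.S4145
import Cfsg.Agent.Helper21.NPC
-- import your own Cfsg.Agent.* helpers here

set_option autoImplicit false
open Cfsg

namespace Cfsg.Agent.S0594

open scoped commutatorElement

/-- A quadratically acting element on a group of exponent `p`: its `p`-th power centralizes. -/
theorem quad_pow_mem_centralizer {G : Type*} [Group G] (p : ℕ) (V : Subgroup G)
    (hV : ∀ v ∈ V, v ^ p = 1) (a : G) (haV : a ∈ Subgroup.normalizer (V : Set G))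
    (hq : ∀ u ∈ V, a * (a * u * a⁻¹ * u⁻¹) * a⁻¹ = a * u * a⁻¹ * u⁻¹) :
    a ^ p ∈ Subgroup.centralizer (V : Set G) := by
  rw [Subgroup.mem_centralizer_iff]
  intro u hu
  obtain ⟨c, hc⟩ : ∃ c : G, c = a * u * a⁻¹ * u⁻¹ := ⟨_, rfl⟩
  have hac : a * c * a⁻¹ = c := by rw [hc]; exact hq u hu
  have hau : a * u * a⁻¹ = c * u := by rw [hc]; group
  have hcV : c ∈ V := by
    rw [hc]
    exact V.mul_mem ((Subgroup.mem_normalizer_iff.1 haV u).1 hu) (V.inv_mem hu)
  have key : ∀ k : ℕ, a ^ k * u * (a ^ k)⁻¹ = c ^ k * u := by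
    intro k
    induction k with
    | zero => simp
    | succ k ih =>
      have e1 : a * c ^ k * a⁻¹ = c ^ k := by rw [← conj_pow, hac]
      calc a ^ (k + 1) * u * (a ^ (k + 1))⁻¹ = a * (a ^ k * u * (a ^ k)⁻¹) * a⁻¹ := by
            rw [pow_succ']; group
        _ = a * (c ^ k * u) * a⁻¹ := by rw [ih]
        _ = (a * c ^ k * a⁻¹) * (a * u * a⁻¹) := by group
        _ = c ^ k * (c * u) := by rw [e1, hau]
        _ = c ^ (k + 1) * u := by rw [pow_succ, mul_assoc]
  have h1 := key p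
  rw [hV c hcV, one_mul] at h1
  exact (mul_inv_eq_iff_eq_mul.1 h1).symm


/-- For odd p, two quadratic generators of a faithful group that is not a p-group, one of which acts nontrivially on a normal subgroup of order prime to p, force p = 3 and a section isomorphic to SL(2,3). -/
theorem result {G : Type*} [Group G] [Finite G] {p : ℕ} [Fact p.Prime] (hp : p ≠ 2) (V H : Subgroup G) (hV : Cfsg.IsElementaryAbelian p V) (hHV : H ≤ Subgroup.normalizer (V : Set G)) (hf : H ⊓ Subgroup.centralizer (V : Set G) = ⊥) (a b : G) (hab : H = Subgroup.closure {a, b}) (ha : ⁅⁅V, Subgroup.zpowers a⁆, Subgroup.zpowers a⁆ = ⊥) (hb : ⁅⁅V, Subgroup.zpowers b⁆, Subgroup.zpowers b⁆ = ⊥) (hnp : ¬ IsPGroup p H) (Q : Subgroup G) (hQH : Q ≤ H) (hQn : H ≤ Subgroup.normalizer (Q : Set G)) (hQ : (Nat.card Q).Coprime p) (hQa : ⁅Q, Subgroup.zpowers a⁆ ≠ ⊥) : p = 3 ∧ ∃ (K L : Subgroup G) (hL : (L.subgroupOf K).Normal), K ≤ H ∧ Nonempty ((K ⧸ L.subgroupOf K) ≃* Matrix.SpecialLinearGroup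 (Fin 2) (ZMod 3)) := by
  classical
  have hpp : p.Prime := Fact.out
  have haH : a ∈ H := by rw [hab]; exact Subgroup.subset_closure (by simp)
  have hqa := Cfsg.Agent.Helper10.quad_of_commutator V (Subgroup.zpowers a) ha a
    (Subgroup.mem_zpowers a)
  have hap : a ^ p = 1 := by
    have h1 : a ^ p ∈ H ⊓ Subgroup.centralizer (V : Set G) :=
      ⟨H.pow_mem haH _, quad_pow_mem_centralizer p V hV.2 a (hHV haH) hqa⟩
    rw [hf] at h1
    exact Subgroup.mem_bot.1 h1
  obtain ⟨K, hK⟩ : ∃ K : Subgroup G, K = Q ⊔ Subgroup.zpowers a := ⟨_, rfl⟩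
  have hQK : Q ≤ K := by rw [hK]; exact le_sup_left
  have hZK : Subgroup.zpowers a ≤ K := by rw [hK]; exact le_sup_right
  have haK : a ∈ K := hZK (Subgroup.mem_zpowers a)
  have hZH : Subgroup.zpowers a ≤ H := (Subgroup.zpowers_le).2 haH
  have hKH : K ≤ H := by rw [hK]; exact sup_le hQH hZH
  have hLn : (Q.subgroupOf K).Normal :=
    (Subgroup.normal_subgroupOf_iff_le_normalizer hQK).2 (hKH.trans hQn)
  have hZp : IsPGroup p (Subgroup.zpowers a) := by
    intro z
    refine ⟨1, ?_⟩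
    obtain ⟨k, hk⟩ := Subgroup.mem_zpowers_iff.1 z.2
    apply Subtype.ext
    have h1 : (z : G) ^ p = 1 := by
      rw [← hk, ← zpow_natCast, ← zpow_mul, mul_comm, zpow_mul, zpow_natCast, hap, one_zpow]
    simpa using h1
  have hsep : Cfsg.IsPSolvable p K := by
    haveI := hLn
    apply Cfsg.Agent.S4145.isPSolvable_of_chain p (Q.subgroupOf K) ⊤ le_top
    · rw [Nat.card_congr (Subgroup.subgroupOfEquivOfLe hQK).toEquiv]; exact hQ
    · rw [Subgroup.relIndex_top_right]
      have hquot : IsPGroup p (K ⧸ Q.subgroupOf K) := by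
        have htop : (⊤ : Subgroup K) =
            Q.subgroupOf K ⊔ (Subgroup.zpowers a).subgroupOf K := by
          rw [← Subgroup.subgroupOf_sup hQK hZK, ← hK, Subgroup.subgroupOf_self]
        have h1 : (⊤ : Subgroup (K ⧸ Q.subgroupOf K)) =
            ((Subgroup.zpowers a).subgroupOf K).map (QuotientGroup.mk' (Q.subgroupOf K)) := by
          rw [← Subgroup.map_top_of_surjective (QuotientGroup.mk' (Q.subgroupOf K))
            (QuotientGroup.mk'_surjective _), htop, Subgroup.map_sup, QuotientGroup.map_mk'_self,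
            bot_sup_eq]
        have h2 : IsPGroup p (⊤ : Subgroup (K ⧸ Q.subgroupOf K)) := by
          rw [h1]; exact (hZp.comap_subtype).map _
        intro x
        obtain ⟨k, hk⟩ := h2 ⟨x, trivial⟩
        exact ⟨k, by simpa [Subtype.ext_iff] using hk⟩
      exact hquot.exists_card_eq
    · rw [Subgroup.index_top]; exact Nat.coprime_one_left p
  have hna : a ∉ (Cfsg.pCore p K).map K.subtype := by
    intro hmem
    apply hQa
    rw [eq_bot_iff, Subgroup.commutator_le]
    intro x hx z hz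
    rw [Subgroup.mem_bot]
    obtain ⟨P, hP⟩ : ∃ P : Subgroup G, P = (Cfsg.pCore p K).map K.subtype := ⟨_, rfl⟩
    have hPp : IsPGroup p P := by
      rw [hP]; exact (Cfsg.Agent.Helper27.pCore_isPGroup p K).map _
    have hPn : ∀ g ∈ K, ∀ y ∈ P, g * y * g⁻¹ ∈ P := by
      intro g hg y hy
      rw [hP] at hy ⊢
      obtain ⟨y', hy', rfl⟩ := hy
      exact ⟨⟨g, hg⟩ * y' * ⟨g, hg⟩⁻¹, (Cfsg.pCore_normal p K).conj_mem y' hy' _, rfl⟩
    have haP : a ∈ P := by rw [hP]; exact hmem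
    have hzP : z ∈ P := (Subgroup.zpowers_le.2 haP) hz
    have hzH : z ∈ H := hZH hz
    have h1 : ⁅x, z⁆ ∈ P := by
      rw [commutatorElement_def]
      exact P.mul_mem (hPn x (hQK hx) z hzP) (P.inv_mem hzP)
    have h2 : ⁅x, z⁆ ∈ Q := by
      rw [commutatorElement_def]
      have h3 : z * x⁻¹ * z⁻¹ ∈ Q :=
        (Subgroup.mem_normalizer_iff.1 (hQn hzH) x⁻¹).1 (Q.inv_mem hx)
      have e : x * z * x⁻¹ * z⁻¹ = x * (z * x⁻¹ * z⁻¹) := by group
      rw [e]; exact Q.mul_mem hx h3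
    exact Cfsg.Agent.Helper21.eq_one_of_mem_pgroup_of_mem_coprime hPp hQ h1 h2
  have hres := Cfsg.Agent.S0596.result hp V K hV (hKH.trans hHV)
    (by rw [eq_bot_iff, ← hf]; exact inf_le_inf_right _ hKH) hsep a haK ha hna
  obtain ⟨h3, K', L, hL, hK'K, hiso⟩ := hres
  exact ⟨h3, K', L, hL, hK'K.trans hKH, hiso⟩

end Cfsg.Agent.S0594
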