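import Mathlib
import Cfsg.Statements.S0802
import Cfsg.Agent.Helper14.A4Sub

set_option autoImplicit false
open Cfsg

namespace Cfsg.Agent.S0802

open Cfsg.Agent.Helper14.Mat2 Cfsg.Agent.Helper14.SL2Odd Cfsg.Agent.Helper14.PSL2
  Cfsg.Agent.Helper14.SL2Conj Cfsg.Agent.Helper14.Torus Cfsg.Agent.Helper14.TorusB
  Cfsg.Agent.Helper14.TorusC Cfsg.Agent.Helper14.TorusD Cfsg.Agent.Helper14.TorusE
  Cfsg.Agent.Helper14.A4Sub

set_option maxRecDepth 100000 in
theorem a4_elts : ∃ v c : ↥(alternatingGroup (Fin 4)), v ≠ 1 ∧ v * v = 1 ∧ c ^ 3 = 1 ∧ c ≠ 1 ∧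
    (c * v * c⁻¹) * v = v * (c * v * c⁻¹) := by
  decide

/-- PSL_2(p^n) has a subgroup isomorphic to A_4 if and only if it is not the case that p = 2 and n is odd. -/
theorem result {F : Type*} [Field F] [Fintype F] (p n : ℕ) [Fact p.Prime] [CharP F p] (hF : Fintype.card F = p ^ n) : (∃ H : Subgroup (Matrix.ProjectiveSpecialLinearGroup (Fin 2) F), Nonempty (H ≃* alternatingGroup (Fin 4))) ↔ ¬ (p = 2 ∧ Odd n) := by
  classical
  have hpp : p.Prime := Fact.out
  have hψ1 : ∀ z : Matrix.SpecialLinearGroup (Fin 2) F,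
      QuotientGroup.mk' (Subgroup.center (Matrix.SpecialLinearGroup (Fin 2) F)) z = 1 ↔
        z ∈ Subgroup.center (Matrix.SpecialLinearGroup (Fin 2) F) := by
    intro z
    exact QuotientGroup.eq_one_iff z
  constructor
  · rintro ⟨H, ⟨e⟩⟩ ⟨rfl, hn⟩
    have h2 : (2 : F) = 0 := by exact_mod_cast CharP.cast_eq_zero F 2
    obtain ⟨v0, c0, hv01, hv0v0, hc03, hc01, hcomm0⟩ := a4_elts
    have hφinj : Function.Injective (H.subtype.comp e.symm.toMonoidHom) :=
      (Subgroup.subtype_injective H).comp e.symm.injective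
    have hvb1 : (H.subtype.comp e.symm.toMonoidHom) v0 ≠ 1 := (map_ne_one_iff _ hφinj).mpr hv01
    have hcb1 : (H.subtype.comp e.symm.toMonoidHom) c0 ≠ 1 := (map_ne_one_iff _ hφinj).mpr hc01
    have hvb2 : (H.subtype.comp e.symm.toMonoidHom) v0 * (H.subtype.comp e.symm.toMonoidHom) v0
        = 1 := by
      rw [← map_mul, hv0v0, map_one]
    have hcb3 : (H.subtype.comp e.symm.toMonoidHom) c0 ^ 3 = 1 := by
      rw [← map_pow, hc03, map_one]
    have hcommb : ((H.subtype.comp e.symm.toMonoidHom) c0 * (H.subtype.comp e.symm.toMonoidHom) v0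
        * ((H.subtype.comp e.symm.toMonoidHom) c0)⁻¹) * (H.subtype.comp e.symm.toMonoidHom) v0
        = (H.subtype.comp e.symm.toMonoidHom) v0 * ((H.subtype.comp e.symm.toMonoidHom) c0 *
          (H.subtype.comp e.symm.toMonoidHom) v0 * ((H.subtype.comp e.symm.toMonoidHom) c0)⁻¹) := by
      simp only [← map_mul, ← map_inv]
      rw [hcomm0]
    obtain ⟨v, hv⟩ := QuotientGroup.mk'_surjective
      (Subgroup.center (Matrix.SpecialLinearGroup (Fin 2) F))
      ((H.subtype.comp e.symm.toMonoidHom) v0)
    obtain ⟨c, hc⟩ := QuotientGroup.mk'_surjective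
      (Subgroup.center (Matrix.SpecialLinearGroup (Fin 2) F))
      ((H.subtype.comp e.symm.toMonoidHom) c0)
    have hinj : Function.Injective
        (QuotientGroup.mk' (Subgroup.center (Matrix.SpecialLinearGroup (Fin 2) F))) := by
      rw [injective_iff_map_eq_one]
      intro z hz
      exact center_eq_one_char_two h2 z ((hψ1 z).mp hz)
    apply no_A4_char_two h2 n hF hn v c
    · intro h
      rw [h, map_one] at hv
      exact hvb1 hv.symm
    · apply hinj
      rw [map_mul, hv, map_one]
      exact hvb2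
    · apply hinj
      rw [map_pow, hc, map_one]
      exact hcb3
    · intro h
      rw [h, map_one] at hc
      exact hcb1 hc.symm
    · apply hinj
      simp only [map_mul, map_inv, hv, hc]
      exact hcommb
  · intro hnot
    by_cases hp2 : p = 2
    · subst hp2
      have h2 : (2 : F) = 0 := by exact_mod_cast CharP.cast_eq_zero F 2
      have hev : Even n := by
        by_contra h
        exact hnot ⟨rfl, Nat.not_even_iff_odd.mp h⟩
      obtain ⟨k, hk⟩ := hev
      have h3 : 3 ∣ Fintype.card F - 1 := by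
        rw [hF, hk, ← two_mul, pow_mul]
        have h4 : (2 ^ 2) ^ k % 3 = 1 := by
          rw [Nat.pow_mod]
          norm_num
        have hpos : 0 < (2 ^ 2) ^ k := by positivity
        omega
      obtain ⟨x, y, g, hxx, hyy, hxy, hgx, hgy, hg3, hx01⟩ := exists_triple_char_two h2 h3
      apply exists_A4
        (QuotientGroup.mk' (Subgroup.center (Matrix.SpecialLinearGroup (Fin 2) F)) x)
        (QuotientGroup.mk' (Subgroup.center (Matrix.SpecialLinearGroup (Fin 2) F)) y)
        (QuotientGroup.mk' (Subgroup.center (Matrix.SpecialLinearGroup (Fin 2) F)) g)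
      · rw [← map_mul, hxx, map_one]
      · rw [← map_mul, hyy, map_one]
      · rw [← map_mul, ← map_mul, hxy]
      · rw [← map_inv, ← map_mul, ← map_mul, hgx]
      · rw [← map_inv, ← map_mul, ← map_mul, ← map_mul, hgy]
      · rw [← map_pow, hg3, map_one]
      · intro h
        exact hx01 (center_entry01 x ((hψ1 x).mp h))
    · have hodd : Odd (Fintype.card F) := by
        rw [hF]
        exact (hpp.odd_of_ne_two hp2).pow
      have h2' := two_ne_zero_of_odd hodd
      obtain ⟨x, y, hxx, hyy, hyx⟩ := exists_quat_pair hodd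
      obtain ⟨g, hg1, hg2⟩ := quat_conj h2' x y hxx hyy hyx
      have hg3 := cube_central h2' x y g hxx hyy hyx hg1 hg2
      have hneg : QuotientGroup.mk' (Subgroup.center (Matrix.SpecialLinearGroup (Fin 2) F))
          (negOne : Matrix.SpecialLinearGroup (Fin 2) F) = 1 := (hψ1 _).mpr negOne_mem_center
      have hyx' : y * x = negOne * x * y := by
        have e : y * x = (y * x * y⁻¹) * y := by group
        rw [e, hyx, inv_of_sq x hxx]
      apply exists_A4
        (QuotientGroup.mk' (Subgroup.center (Matrix.SpecialLinearGroup (Fin 2) F)) x)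
        (QuotientGroup.mk' (Subgroup.center (Matrix.SpecialLinearGroup (Fin 2) F)) y)
        (QuotientGroup.mk' (Subgroup.center (Matrix.SpecialLinearGroup (Fin 2) F)) g)
      · rw [← map_mul, hxx, hneg]
      · rw [← map_mul, hyy, hneg]
      · have e := congrArg
          (QuotientGroup.mk' (Subgroup.center (Matrix.SpecialLinearGroup (Fin 2) F))) hyx'
        rw [map_mul, map_mul, map_mul, hneg, one_mul] at e
        exact e.symm
      · rw [← map_inv, ← map_mul, ← map_mul, hg1]
      · rw [← map_inv, ← map_mul, ← map_mul, ← map_mul, hg2]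
      · rw [← map_pow]
        rcases hg3 with h | h
        · rw [h, map_one]
        · rw [h, hneg]
      · intro h
        have h5 := center_sq2 x ((hψ1 x).mp h)
        rw [hxx] at h5
        exact negOne_ne_one h2' h5

end Cfsg.Agent.S0802
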