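import Cfsg.Statements.S1012
import Mathlib

set_option autoImplicit false
open Cfsg

namespace Cfsg.Agent.S1012

theorem sylow3_card {G : Type*} [Group G] [Finite G] [Fact (Nat.Prime 3)]
    (h : Nat.card G = 24) (P : Sylow 3 G) :
    Nat.card (P : Subgroup G) = 3 := by
  obtain ⟨k, hk⟩ := IsPGroup.iff_card.1 P.isPGroup'
  have h1 := Subgroup.card_mul_index (P : Subgroup G)
  have h2 : ¬ 3 ∣ (P : Subgroup G).index := P.not_dvd_index
  rw [h, hk] at h1
  rcases k with _ | _ | k
  · exfalso
    apply h2
    rw [pow_zero, one_mul] at h1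
    rw [h1]
    norm_num
  · rw [hk]; norm_num
  · exfalso
    have : 9 ∣ 24 := ⟨3 ^ k * (P : Subgroup G).index, by rw [← h1]; ring⟩
    omega

/-- A group of order 24 containing no element of order 6 is isomorphic to the symmetric group of degree 4. -/
theorem result {G : Type*} [Group G] [Finite G] (h : Nat.card G = 24) (h6 : ∀ g : G, orderOf g ≠ 6) : Nonempty (G ≃* Equiv.Perm (Fin 4)) := by
  classical
  haveI : Fact (Nat.Prime 3) := ⟨by norm_num⟩
  haveI : Fact (Nat.Prime 2) := ⟨by norm_num⟩
  obtain ⟨x, hx⟩ := exists_prime_orderOf_dvd_card' (G := G) 3 (by rw [h]; norm_num)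
  have hx3 : x ^ 3 = 1 := by rw [← hx]; exact pow_orderOf_eq_one x
  have hno : ∀ t : G, orderOf t = 2 → ∀ y : G, orderOf y = 3 → Commute t y → False := by
    intro t ht y hy hc
    have h1 := hc.orderOf_mul_eq_mul_orderOf_of_coprime (by rw [ht, hy]; norm_num)
    rw [ht, hy] at h1
    exact h6 (t * y) h1
  obtain ⟨P0⟩ : Nonempty (Sylow 3 G) := inferInstance
  have hPcard : ∀ P : Sylow 3 G, Nat.card (P : Subgroup G) = 3 := fun P => sylow3_card h P
  have hmod : Nat.card (Sylow 3 G) ≡ 1 [MOD 3] := card_sylow_modEq_one 3 G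
  have hdvd : Nat.card (Sylow 3 G) ∣ 8 := by
    have h1 := Sylow.card_dvd_index P0
    have h2 := Subgroup.card_mul_index (P0 : Subgroup G)
    rw [hPcard P0, h] at h2
    have h3 : (P0 : Subgroup G).index = 8 := by omega
    rwa [h3] at h1
  have hn : Nat.card (Sylow 3 G) = 1 ∨ Nat.card (Sylow 3 G) = 4 := by
    obtain ⟨n, hn⟩ : ∃ n, n = Nat.card (Sylow 3 G) := ⟨_, rfl⟩
    rw [← hn] at hmod hdvd ⊢
    have hle : n ≤ 8 := Nat.le_of_dvd (by norm_num) hdvd
    have hmod' : n % 3 = 1 := hmod
    interval_cases n <;> omega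
  rcases hn with hn1 | hn4
  · exfalso
    have hnorm : Subgroup.normalizer ((P0 : Subgroup G) : Set G) = ⊤ := by
      have h1 := Sylow.card_eq_index_normalizer P0
      rw [hn1] at h1
      exact Subgroup.index_eq_one.1 h1.symm
    have hxP : Subgroup.zpowers x = (P0 : Subgroup G) := by
      have hpg : IsPGroup 3 (Subgroup.zpowers x) :=
        IsPGroup.of_card (n := 1) (by rw [Nat.card_zpowers, hx]; norm_num)
      obtain ⟨Q, hQ⟩ := hpg.exists_le_sylow
      have hQP : Q = P0 := by
        haveI : Subsingleton (Sylow 3 G) :=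
          (Finite.card_le_one_iff_subsingleton).1 (by rw [hn1])
        exact Subsingleton.elim _ _
      rw [hQP] at hQ
      apply Subgroup.eq_of_le_of_card_ge hQ
      rw [hPcard P0, Nat.card_zpowers, hx]
    have hconj : ∀ g : G, g * x * g⁻¹ = x ∨ g * x * g⁻¹ = x⁻¹ := by
      intro g
      have hg : g ∈ Subgroup.normalizer ((P0 : Subgroup G) : Set G) := by
        rw [hnorm]; exact Subgroup.mem_top g
      have h1 : g * x * g⁻¹ ∈ (P0 : Subgroup G) := by
        have hx0 : x ∈ (P0 : Subgroup G) := by rw [← hxP]; exact Subgroup.mem_zpowers x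
        exact (Subgroup.mem_normalizer_iff.1 hg x).1 hx0
      rw [← hxP, ← mem_powers_iff_mem_zpowers] at h1
      obtain ⟨n, hn⟩ := (Submonoid.mem_powers_iff _ _).1 h1
      have h2 : x ^ n = x ^ (n % 3) := by rw [← hx, pow_mod_orderOf]
      have h3 : n % 3 < 3 := Nat.mod_lt _ (by norm_num)
      rw [h2] at hn
      obtain ⟨m, hm⟩ : ∃ m, m = n % 3 := ⟨_, rfl⟩
      rw [← hm] at hn h3
      interval_cases m
      · exfalso
        rw [pow_zero] at hn
        have h5 : x = 1 := conj_eq_one_iff.1 hn.symm
        rw [h5, orderOf_one] at hx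
        norm_num at hx
      · left; rw [← hn, pow_one]
      · right
        rw [← hn]
        apply eq_inv_of_mul_eq_one_left
        show x ^ 2 * x = 1
        rw [← pow_succ]
        exact hx3
    have hmem : ∀ b : G, b ∈ Subgroup.centralizer ({x} : Set G) ↔ b * x * b⁻¹ = x := by
      intro b
      rw [Subgroup.mem_centralizer_singleton_iff, mul_inv_eq_iff_eq_mul]
    have hK : (Subgroup.centralizer ({x} : Set G)).index = 1 ∨
        (Subgroup.centralizer ({x} : Set G)).index = 2 := by
      by_cases htop : Subgroup.centralizer ({x} : Set G) = ⊤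
      · left; rw [htop]; exact Subgroup.index_top
      · right
        obtain ⟨g, hg⟩ : ∃ g : G, g ∉ Subgroup.centralizer ({x} : Set G) := by
          by_contra hcon
          push Not at hcon
          exact htop (eq_top_iff.2 fun g _ => hcon g)
        rw [Subgroup.index_eq_two_iff]
        refine ⟨g, fun b => ?_⟩
        have hgx : g * x * g⁻¹ = x⁻¹ := by
          rcases hconj g with h1 | h1
          · exact absurd ((hmem g).2 h1) hg
          · exact h1
        by_cases hb : b ∈ Subgroup.centralizer ({x} : Set G)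
        · right
          refine ⟨hb, fun h' => hg ?_⟩
          have h7 := Subgroup.mul_mem _ (Subgroup.inv_mem _ hb) h'
          simpa using h7
        · left
          refine ⟨?_, hb⟩
          have hbx : b * x * b⁻¹ = x⁻¹ := by
            rcases hconj b with h1 | h1
            · exact absurd ((hmem b).2 h1) hb
            · exact h1
          rw [hmem]
          have e : b * g * x * (b * g)⁻¹ = b * (g * x * g⁻¹) * b⁻¹ := by group
          rw [e, hgx]
          have e2 : b * x⁻¹ * b⁻¹ = (b * x * b⁻¹)⁻¹ := by group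
          rw [e2, hbx, inv_inv]
    have h2K : 2 ∣ Nat.card (Subgroup.centralizer ({x} : Set G)) := by
      have h1 := Subgroup.card_mul_index (Subgroup.centralizer ({x} : Set G))
      rw [h] at h1
      rcases hK with h2 | h2 <;> rw [h2] at h1 <;> omega
    obtain ⟨t, ht⟩ := exists_prime_orderOf_dvd_card'
      (G := ↥(Subgroup.centralizer ({x} : Set G))) 2 h2K
    have htG : orderOf (t : G) = 2 := by rw [Subgroup.orderOf_coe]; exact ht
    apply hno (t : G) htG x hx
    have h8 := t.2
    rw [Subgroup.mem_centralizer_singleton_iff] at h8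
    exact h8
  · have hNcard : ∀ P : Sylow 3 G,
        Nat.card (Subgroup.normalizer ((P : Subgroup G) : Set G)) = 6 := by
      intro P
      have h1 : Nat.card (Sylow 3 G) = (Subgroup.normalizer ((P : Subgroup G) : Set G)).index :=
        Sylow.card_eq_index_normalizer P
      rw [hn4] at h1
      have h2 := Subgroup.card_mul_index (Subgroup.normalizer ((P : Subgroup G) : Set G))
      rw [← h1, h] at h2
      omega
    have hord23 : ∀ k : G, (∀ P : Sylow 3 G, k ∈ Subgroup.normalizer ((P : Subgroup G) : Set G))
        → k ≠ 1 → orderOf k = 2 ∨ orderOf k = 3 := by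
      intro k hk hk1
      have hord : orderOf k ∣ 6 := by
        have h1 := orderOf_dvd_natCard
          (⟨k, hk P0⟩ : Subgroup.normalizer ((P0 : Subgroup G) : Set G))
        rw [hNcard P0, ← Subgroup.orderOf_coe] at h1
        exact h1
      have hpos : 0 < orderOf k := orderOf_pos k
      have hle : orderOf k ≤ 6 := Nat.le_of_dvd (by norm_num) hord
      have hne1 : orderOf k ≠ 1 := fun h1 => hk1 (orderOf_eq_one_iff.1 h1)
      have hne6 := h6 k
      obtain ⟨m, hm⟩ : ∃ m, m = orderOf k := ⟨_, rfl⟩
      rw [← hm] at hord hpos hle hne1 hne6 ⊢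
      interval_cases m <;> omega
    have hno3 : ∀ k : G, (∀ P : Sylow 3 G, k ∈ Subgroup.normalizer ((P : Subgroup G) : Set G))
        → orderOf k ≠ 3 := by
      intro k hk h3
      have hkP : ∀ P : Sylow 3 G, k ∈ (P : Subgroup G) := by
        intro P
        have hpg : IsPGroup 3 (Subgroup.zpowers k) :=
          IsPGroup.of_card (n := 1) (by rw [Nat.card_zpowers, h3]; norm_num)
        have hle : Subgroup.zpowers k ≤ Subgroup.normalizer ((P : Subgroup G) : Set G) := by
          rw [Subgroup.zpowers_le]; exact hk P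
        have hsup : IsPGroup 3 ((Subgroup.zpowers k ⊔ (P : Subgroup G) : Subgroup G)) :=
          hpg.to_sup_of_normal_right' P.isPGroup' hle
        have h5 := P.is_maximal' hsup le_sup_right
        have hk' : k ∈ Subgroup.zpowers k ⊔ (P : Subgroup G) :=
          (le_sup_left : Subgroup.zpowers k ≤ _) (Subgroup.mem_zpowers k)
        rw [h5] at hk'
        exact hk'
      haveI : Nontrivial (Sylow 3 G) :=
        Finite.one_lt_card_iff_nontrivial.1 (by rw [hn4]; norm_num)
      obtain ⟨P, hP⟩ := exists_ne P0
      apply hP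
      have e1 : Subgroup.zpowers k = (P : Subgroup G) := by
        apply Subgroup.eq_of_le_of_card_ge
        · rw [Subgroup.zpowers_le]; exact hkP P
        · rw [hPcard P, Nat.card_zpowers, h3]
      have e2 : Subgroup.zpowers k = (P0 : Subgroup G) := by
        apply Subgroup.eq_of_le_of_card_ge
        · rw [Subgroup.zpowers_le]; exact hkP P0
        · rw [hPcard P0, Nat.card_zpowers, h3]
      exact Sylow.ext (e1.symm.trans e2)
    have horder : ∀ k : G,
        (∀ P : Sylow 3 G, k ∈ Subgroup.normalizer ((P : Subgroup G) : Set G))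
        → k ≠ 1 → orderOf k = 2 :=
      fun k hk hk1 => (hord23 k hk hk1).resolve_right (hno3 k hk)
    obtain ⟨φ, hφ⟩ : ∃ φ : G →* Equiv.Perm (Sylow 3 G), φ = MulAction.toPermHom G (Sylow 3 G) :=
      ⟨_, rfl⟩
    have hmemK : ∀ k : G, k ∈ φ.ker ↔
        ∀ P : Sylow 3 G, k ∈ Subgroup.normalizer ((P : Subgroup G) : Set G) := by
      intro k
      rw [MonoidHom.mem_ker, hφ]
      constructor
      · intro hk P
        have h1 := congrArg (fun σ : Equiv.Perm (Sylow 3 G) => σ P) hk
        simp only [MulAction.toPermHom_apply, MulAction.toPerm_apply, Equiv.Perm.coe_one,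
          id_eq] at h1
        exact Sylow.smul_eq_iff_mem_normalizer.1 h1
      · intro hk
        ext P
        simp only [MulAction.toPermHom_apply, MulAction.toPerm_apply, Equiv.Perm.coe_one,
          id_eq]
        rw [Sylow.smul_eq_iff_mem_normalizer.2 (hk P)]
    have hkerbot : φ.ker = ⊥ := by
      rw [eq_bot_iff]
      intro k hkK
      rw [Subgroup.mem_bot]
      by_contra hk1
      have hk := (hmemK k).1 hkK
      have h2 := horder k hk hk1
      have h2grp : IsPGroup 2 ↥φ.ker := by
        intro g
        by_cases hg1 : (g : G) = 1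
        · exact ⟨0, by apply Subtype.ext; simpa using hg1⟩
        · refine ⟨1, ?_⟩
          have h3 := horder (g : G) ((hmemK _).1 g.2) hg1
          apply Subtype.ext
          have h4 : (g : G) ^ 2 = 1 := by rw [← h3]; exact pow_orderOf_eq_one _
          simpa using h4
      obtain ⟨j, hj⟩ := IsPGroup.iff_card.1 h2grp
      have hdiv : Nat.card ↥φ.ker ∣ 6 := by
        rw [← hNcard P0]
        exact Subgroup.card_dvd_of_le (fun g hg => (hmemK g).1 hg P0)
      have hle2 : Nat.card ↥φ.ker ≤ 2 := by
        rw [hj] at hdiv ⊢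
        rcases j with _ | _ | j
        · norm_num
        · norm_num
        · exfalso
          have h4 : 4 ∣ 6 := Dvd.dvd.trans ⟨2 ^ j, by ring⟩ hdiv
          omega
      have hzk : Subgroup.zpowers k = φ.ker := by
        apply Subgroup.eq_of_le_of_card_ge
        · rw [Subgroup.zpowers_le]; exact hkK
        · rw [Nat.card_zpowers, h2]; exact hle2
      have hconj : x * k * x⁻¹ ∈ Subgroup.zpowers k := by
        rw [hzk]; exact (inferInstance : φ.ker.Normal).conj_mem k hkK x
      rw [← mem_powers_iff_mem_zpowers] at hconj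
      obtain ⟨n, hn⟩ := (Submonoid.mem_powers_iff _ _).1 hconj
      have e : k ^ n = k ^ (n % 2) := by rw [← h2, pow_mod_orderOf]
      rw [e] at hn
      have hlt : n % 2 < 2 := Nat.mod_lt _ (by norm_num)
      obtain ⟨m, hm⟩ : ∃ m, m = n % 2 := ⟨_, rfl⟩
      rw [← hm] at hn hlt
      interval_cases m
      · rw [pow_zero] at hn
        exact hk1 (conj_eq_one_iff.1 hn.symm)
      · rw [pow_one] at hn
        apply hno k h2 x hx
        have h9 : x * k = k * x := by
          have h10 := hn.symm
          rwa [mul_inv_eq_iff_eq_mul] at h10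
        exact h9.symm
    have hinj : Function.Injective φ := (MonoidHom.ker_eq_bot_iff φ).1 hkerbot
    have hbij : Function.Bijective φ := by
      rw [Nat.bijective_iff_injective_and_card]
      refine ⟨hinj, ?_⟩
      rw [Nat.card_perm, hn4, h]
      rfl
    exact ⟨(MulEquiv.ofBijective φ hbij).trans
      (Finite.equivFinOfCardEq hn4).permCongrHom⟩

end Cfsg.Agent.S1012
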