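import Cfsg.Statements.S0803
import Mathlib
import Cfsg.Agent.S1012
import Cfsg.Agent.Helper18.PSLKleinB
import Cfsg.Agent.Helper14.A4Sub

set_option autoImplicit false
set_option linter.unusedSimpArgs false
open Cfsg

namespace Cfsg.Agent.S0803

open Cfsg.Agent.Helper18.KleinCount Cfsg.Agent.Helper18.KleinClass Cfsg.Agent.Helper18.PSLKlein
  Cfsg.Agent.Helper18.PSLKleinB

theorem exists_pair {H : Type*} [Group H] [Finite H] (V : Subgroup H) (hV : IsKleinFour V) :
    ∃ x y : H, x ∈ V ∧ y ∈ V ∧ x ≠ 1 ∧ y ≠ 1 ∧ x ≠ y := by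
  classical
  have : Fintype V := Fintype.ofFinite _
  have h3 : 2 < Fintype.card V := by
    rw [← Nat.card_eq_fintype_card, hV.card_four]
    norm_num
  obtain ⟨a, b, c, hab, hac, hbc⟩ := Fintype.two_lt_card_iff.mp h3
  have key : ∃ x y : V, x ≠ 1 ∧ y ≠ 1 ∧ x ≠ y := by
    by_cases ha : a = 1
    · exact ⟨b, c, fun h => hab (ha.trans h.symm), fun h => hac (ha.trans h.symm), hbc⟩
    · by_cases hb : b = 1
      · exact ⟨a, c, ha, fun h => hbc (hb.trans h.symm), hac⟩
      · exact ⟨a, b, ha, hb, hab⟩
  obtain ⟨x, y, hx, hy, hxy⟩ := key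
  exact ⟨x, y, x.2, y.2, fun h => hx (Subtype.ext h), fun h => hy (Subtype.ext h),
    fun h => hxy (Subtype.ext h)⟩

theorem pow_of_normalizer {H : Type*} [Group H] [Finite H] (V : Subgroup H) (hV : IsKleinFour V)
    (hC : Subgroup.centralizer (V : Set H) ≤ V) (h : H)
    (hh : h ∈ Subgroup.normalizer (V : Set H)) : h ^ 4 = 1 ∨ h ^ 3 = 1 := by
  obtain ⟨x, y, hxV, hyV, hx1, hy1, hxy⟩ := exists_pair V hV
  have hmem := kc_kf_mem V hV x y hxV hyV hx1 hy1 hxy
  have hxx := kc_kf_sq V hV x hxV
  have hyy := kc_kf_sq V hV y hyV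
  have hc := kc_kf_comm V hV x y hxV hyV
  have hyx : y * x = x * y := hc.symm
  have hnorm := Subgroup.mem_set_normalizer_iff.mp hh
  have hxx' : ∀ z : H, x * (x * z) = z := fun z => by rw [← mul_assoc, hxx, one_mul]
  have hyy' : ∀ z : H, y * (y * z) = z := fun z => by rw [← mul_assoc, hyy, one_mul]
  have hyx' : ∀ z : H, y * (x * z) = x * (y * z) := fun z => by
    rw [← mul_assoc, hyx, mul_assoc]
  have hcentV : ∀ t : H, t * x = x * t → t * y = y * t → t ∈ V := by
    intro t h1 h2
    apply hC
    rw [Subgroup.mem_centralizer_iff]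
    intro v hv
    rcases (hmem v).mp hv with rfl | rfl | rfl | rfl
    · simp
    · exact h1.symm
    · exact h2.symm
    · rw [mul_assoc, ← h2, ← mul_assoc, ← h1, mul_assoc]
  have hne1 : ∀ v : H, v ≠ 1 → h * v * h⁻¹ ≠ 1 := by
    intro v hv e
    apply hv
    have e2 : v = h⁻¹ * (h * v * h⁻¹) * h := by group
    rw [e2, e]
    group
  have hX : h * x = x * h ∨ h * x = y * h ∨ h * x = x * y * h := by
    rcases (hmem _).mp ((hnorm x).mp hxV) with e | e | e | e
    · exact absurd e (hne1 x hx1)
    · left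
      have e0 : h * x = (h * x * h⁻¹) * h := by group
      rw [e0, e]
    · right; left
      have e0 : h * x = (h * x * h⁻¹) * h := by group
      rw [e0, e]
    · right; right
      have e0 : h * x = (h * x * h⁻¹) * h := by group
      rw [e0, e]
  have hY : h * y = x * h ∨ h * y = y * h ∨ h * y = x * y * h := by
    rcases (hmem _).mp ((hnorm y).mp hyV) with e | e | e | e
    · exact absurd e (hne1 y hy1)
    · left
      have e0 : h * y = (h * y * h⁻¹) * h := by group
      rw [e0, e]
    · right; left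
      have e0 : h * y = (h * y * h⁻¹) * h := by group
      rw [e0, e]
    · right; right
      have e0 : h * y = (h * y * h⁻¹) * h := by group
      rw [e0, e]
  have h4 : h ^ 4 = (h * h) * (h * h) := by
    rw [show (4 : ℕ) = 2 + 2 from rfl, pow_add, pow_two]
  have h3 : h ^ 3 = h * h * h := by
    rw [pow_succ, pow_two]
  -- the square centralizes
  have sqcase : (h * h) * x = x * (h * h) → (h * h) * y = y * (h * h) → h ^ 4 = 1 ∨ h ^ 3 = 1 := by
    intro e1 e2
    left
    rw [h4]
    exact kc_kf_sq V hV _ (hcentV _ e1 e2)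
  -- the cube centralizes and no fixed point
  have cubecase : (h * h * h) * x = x * (h * h * h) → (h * h * h) * y = y * (h * h * h) →
      h * x ≠ x * h → h * y ≠ y * h → h * (x * y) ≠ x * y * h → h ^ 4 = 1 ∨ h ^ 3 = 1 := by
    intro e1 e2 n1 n2 n3
    right
    rw [h3]
    have hcomm : h * (h * h * h) = (h * h * h) * h := by simp only [mul_assoc]
    rcases (hmem _).mp (hcentV _ e1 e2) with e | e | e | e
    · exact e
    · rw [e] at hcomm
      exact absurd hcomm n1
    · rw [e] at hcomm
      exact absurd hcomm n2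
    · rw [e] at hcomm
      exact absurd hcomm n3
  rcases hX with e1 | e1 | e1 <;> rcases hY with e2 | e2 | e2
  · -- x ↦ x, y ↦ x : impossible
    exfalso
    apply hxy
    have e3 : h * x = h * y := by rw [e1, e2]
    exact mul_left_cancel e3
  · -- x ↦ x, y ↦ y
    have hV' := hcentV h e1 e2
    left
    rw [h4, kc_kf_sq V hV h hV', one_mul]
  · -- x ↦ x, y ↦ xy
    have e1' : ∀ z : H, h * (x * z) = x * (h * z) := fun z => by
      rw [← mul_assoc, e1, mul_assoc]
    have e2' : ∀ z : H, h * (y * z) = x * (y * (h * z)) := fun z => by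
      rw [← mul_assoc, e2]
      simp only [mul_assoc]
    apply sqcase
    · simp only [mul_assoc, e1, e1', e2, e2', hxx, hxx', hyy, hyy', hyx, hyx', mul_one, one_mul]
    · simp only [mul_assoc, e1, e1', e2, e2', hxx, hxx', hyy, hyy', hyx, hyx', mul_one, one_mul]
  · -- x ↦ y, y ↦ x
    have e1' : ∀ z : H, h * (x * z) = y * (h * z) := fun z => by
      rw [← mul_assoc, e1, mul_assoc]
    have e2' : ∀ z : H, h * (y * z) = x * (h * z) := fun z => by
      rw [← mul_assoc, e2, mul_assoc]
    apply sqcase
    · simp only [mul_assoc, e1, e1', e2, e2', hxx, hxx', hyy, hyy', hyx, hyx', mul_one, one_mul]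
    · simp only [mul_assoc, e1, e1', e2, e2', hxx, hxx', hyy, hyy', hyx, hyx', mul_one, one_mul]
  · -- x ↦ y, y ↦ y : impossible
    exfalso
    apply hxy
    have e3 : h * x = h * y := by rw [e1, e2]
    exact mul_left_cancel e3
  · -- x ↦ y, y ↦ xy : three-cycle
    have e1' : ∀ z : H, h * (x * z) = y * (h * z) := fun z => by
      rw [← mul_assoc, e1, mul_assoc]
    have e2' : ∀ z : H, h * (y * z) = x * (y * (h * z)) := fun z => by
      rw [← mul_assoc, e2]
      simp only [mul_assoc]
    apply cubecase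
    · simp only [mul_assoc, e1, e1', e2, e2', hxx, hxx', hyy, hyy', hyx, hyx', mul_one, one_mul]
    · simp only [mul_assoc, e1, e1', e2, e2', hxx, hxx', hyy, hyy', hyx, hyx', mul_one, one_mul]
    · intro e
      rw [e1] at e
      exact hxy (mul_right_cancel e).symm
    · intro e
      rw [e2] at e
      apply hx1
      have e3 := mul_right_cancel e
      calc x = x * y * y := by rw [mul_assoc, hyy, mul_one]
        _ = y * y := by rw [e3]
        _ = 1 := hyy
    · have e3 : h * (x * y) = x * h := by
        rw [← mul_assoc, e1, mul_assoc, e2]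
        simp only [mul_assoc, hyx', hyy']
      intro e
      rw [e3] at e
      exact hy1 (mul_left_cancel (a := x) (by rw [mul_one]; exact (mul_right_cancel e).symm))
  · -- x ↦ xy, y ↦ x : three-cycle
    have e1' : ∀ z : H, h * (x * z) = x * (y * (h * z)) := fun z => by
      rw [← mul_assoc, e1]
      simp only [mul_assoc]
    have e2' : ∀ z : H, h * (y * z) = x * (h * z) := fun z => by
      rw [← mul_assoc, e2, mul_assoc]
    apply cubecase
    · simp only [mul_assoc, e1, e1', e2, e2', hxx, hxx', hyy, hyy', hyx, hyx', mul_one, one_mul]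
    · simp only [mul_assoc, e1, e1', e2, e2', hxx, hxx', hyy, hyy', hyx, hyx', mul_one, one_mul]
    · intro e
      rw [e1] at e
      exact hy1 (mul_left_cancel (a := x) (by rw [mul_one]; exact mul_right_cancel e))
    · intro e
      rw [e2] at e
      exact hxy (mul_right_cancel e)
    · have e3 : h * (x * y) = y * h := by
        rw [← mul_assoc, e1, mul_assoc, e2]
        simp only [mul_assoc, hyx', hxx']
      intro e
      rw [e3] at e
      exact hx1 (mul_right_cancel (b := y) (by rw [one_mul]; exact (mul_right_cancel e).symm))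
  · -- x ↦ xy, y ↦ y
    have e1' : ∀ z : H, h * (x * z) = x * (y * (h * z)) := fun z => by
      rw [← mul_assoc, e1]
      simp only [mul_assoc]
    have e2' : ∀ z : H, h * (y * z) = y * (h * z) := fun z => by
      rw [← mul_assoc, e2, mul_assoc]
    apply sqcase
    · simp only [mul_assoc, e1, e1', e2, e2', hxx, hxx', hyy, hyy', hyx, hyx', mul_one, one_mul]
    · simp only [mul_assoc, e1, e1', e2, e2', hxx, hxx', hyy, hyy', hyx, hyx', mul_one, one_mul]
  · -- x ↦ xy, y ↦ xy : impossible
    exfalso
    apply hxy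
    have e3 : h * x = h * y := by rw [e1, e2]
    exact mul_left_cancel e3

theorem exists_normalizer {F : Type*} [Field F] [Fintype F]
    (hq : Fintype.card F % 8 = 1 ∨ Fintype.card F % 8 = 7) :
    ∃ V : Subgroup (Matrix.ProjectiveSpecialLinearGroup (Fin 2) F), IsKleinFour V ∧
      Subgroup.centralizer (V : Set (Matrix.ProjectiveSpecialLinearGroup (Fin 2) F)) ≤ V ∧
      Nat.card (Subgroup.normalizer (V : Set (Matrix.ProjectiveSpecialLinearGroup (Fin 2) F)))
        = 24 := by
  classical
  have hodd : Odd (Fintype.card F) := by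
    rw [Nat.odd_iff]
    omega
  obtain ⟨V₁, V₂, hV₁, hV₂, hnc, -⟩ := pkb_two_classes hq
  refine ⟨V₁, hV₁, pkb_centralizer hodd V₁ hV₁, ?_⟩
  have hcount := pk_count hodd
  have o1 := kk_orbit V₁
  have o2 := kk_orbit V₂
  have n1 := kk_normalizer_le V₁ hV₁ (pkb_centralizer hodd V₁ hV₁)
  have n2 := kk_normalizer_le V₂ hV₂ (pkb_centralizer hodd V₂ hV₂)
  have hn : Nat.card {V : Subgroup (Matrix.ProjectiveSpecialLinearGroup (Fin 2) F) //
      IsKleinFour V}
      = ({V : Subgroup (Matrix.ProjectiveSpecialLinearGroup (Fin 2) F) | IsKleinFour V}).ncard :=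
    Nat.card_coe_set_eq _
  rw [hn] at hcount
  have hdisj : Disjoint
      {W : Subgroup (Matrix.ProjectiveSpecialLinearGroup (Fin 2) F) |
        ∃ g, W = V₁.map (MulAut.conj g).toMonoidHom}
      {W : Subgroup (Matrix.ProjectiveSpecialLinearGroup (Fin 2) F) |
        ∃ g, W = V₂.map (MulAut.conj g).toMonoidHom} := by
    rw [Set.disjoint_left]
    rintro W ⟨g, rfl⟩ ⟨h, hh⟩
    apply hnc
    refine ⟨h⁻¹ * g, ?_⟩
    rw [← kk_map_map, hh, kk_map_map, inv_mul_cancel, kk_map_one]
  have hunion := Set.ncard_union_eq hdisj (Set.toFinite _) (Set.toFinite _)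
  have hsub : {W : Subgroup (Matrix.ProjectiveSpecialLinearGroup (Fin 2) F) |
        ∃ g, W = V₁.map (MulAut.conj g).toMonoidHom} ∪
      {W : Subgroup (Matrix.ProjectiveSpecialLinearGroup (Fin 2) F) |
        ∃ g, W = V₂.map (MulAut.conj g).toMonoidHom} ⊆
      {V : Subgroup (Matrix.ProjectiveSpecialLinearGroup (Fin 2) F) | IsKleinFour V} := by
    apply Set.union_subset
    · rintro W ⟨g, rfl⟩
      exact kk_conj_kf V₁ hV₁ g
    · rintro W ⟨g, rfl⟩
      exact kk_conj_kf V₂ hV₂ g
  have hle := Set.ncard_le_ncard hsub (Set.toFinite _)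
  rw [hunion] at hle
  have hpos : 0 < Nat.card (Matrix.ProjectiveSpecialLinearGroup (Fin 2) F) := Nat.card_pos
  by_contra hne
  have h23 : Nat.card (Subgroup.normalizer
      (V₁ : Set (Matrix.ProjectiveSpecialLinearGroup (Fin 2) F))) ≤ 23 := by omega
  have b1 := Nat.mul_le_mul_left
    ({W : Subgroup (Matrix.ProjectiveSpecialLinearGroup (Fin 2) F) |
        ∃ g, W = V₁.map (MulAut.conj g).toMonoidHom}).ncard h23
  have b2 := Nat.mul_le_mul_left
    ({W : Subgroup (Matrix.ProjectiveSpecialLinearGroup (Fin 2) F) |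
        ∃ g, W = V₂.map (MulAut.conj g).toMonoidHom}).ncard n2
  rw [o1] at b1
  rw [o2] at b2
  have o1pos : 0 < ({W : Subgroup (Matrix.ProjectiveSpecialLinearGroup (Fin 2) F) |
        ∃ g, W = V₁.map (MulAut.conj g).toMonoidHom}).ncard := by
    rcases Nat.eq_zero_or_pos ({W : Subgroup (Matrix.ProjectiveSpecialLinearGroup (Fin 2) F) |
        ∃ g, W = V₁.map (MulAut.conj g).toMonoidHom}).ncard with h0 | h0
    · rw [h0, zero_mul] at o1
      omega
    · exact h0
  omega

set_option maxRecDepth 100000 in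
theorem s4_elt : ∃ h : Equiv.Perm (Fin 4), (h * h) * (h * h) = 1 ∧ h * h ≠ 1 := by
  decide

set_option maxRecDepth 100000 in
theorem arith16 : ∀ a < 16, ∀ b < 16, a % 2 = 1 → a * b % 16 = 0 →
    a * a % 16 = (b + 1) % 16 → a * a % 16 = 1 := by
  decide

/-- PSL_2(q) has a subgroup isomorphic to S_4 iff q² ≡ 1 (mod 16). -/
theorem result {F : Type*} [Field F] [Fintype F] {q : ℕ} (hF : Fintype.card F = q) : (∃ H : Subgroup (Matrix.ProjectiveSpecialLinearGroup (Fin 2) F), Nonempty (H ≃* Equiv.Perm (Fin 4))) ↔ q ^ 2 % 16 = 1 := by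
  classical
  constructor
  · rintro ⟨H, ⟨e⟩⟩
    by_cases hev : q % 2 = 0
    · exfalso
      have hch : ringChar F = 2 := FiniteField.even_card_iff_char_two.mpr (by rw [hF]; exact hev)
      have : CharP F 2 := by
        rw [← hch]
        exact ringChar.charP F
      have h2 : (2 : F) = 0 := by exact_mod_cast CharP.cast_eq_zero F 2
      obtain ⟨h0, h04, h02⟩ := s4_elt
      have hφinj : Function.Injective (H.subtype.comp e.symm.toMonoidHom) :=
        (Subgroup.subtype_injective H).comp e.symm.injective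
      obtain ⟨t, ht⟩ := QuotientGroup.mk'_surjective
        (Subgroup.center (Matrix.SpecialLinearGroup (Fin 2) F))
        ((H.subtype.comp e.symm.toMonoidHom) h0)
      have hinj : Function.Injective
          (QuotientGroup.mk' (Subgroup.center (Matrix.SpecialLinearGroup (Fin 2) F))) := by
        rw [injective_iff_map_eq_one]
        intro z hz
        exact Cfsg.Agent.Helper14.A4Sub.center_eq_one_char_two h2 z
          ((QuotientGroup.eq_one_iff z).mp hz)
      have hu1 : t * t ≠ 1 := by
        intro h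
        apply h02
        apply hφinj
        rw [map_mul, ← ht, ← map_mul, h, map_one, map_one]
      have huu : (t * t) * (t * t) = 1 := by
        apply hinj
        rw [map_mul, map_mul, ht, ← map_mul, ← map_mul, h04, map_one, map_one]
      exact hu1 (Cfsg.Agent.Helper14.A4Sub.sq_one_of_commute_char_two h2 (t * t) t hu1 huu
        (by simp only [mul_assoc]))
    · have hodd : Odd (Fintype.card F) := by
        rw [hF, Nat.odd_iff]
        omega
      have hcard : Nat.card H = 24 := by
        rw [Nat.card_congr e.toEquiv, Nat.card_perm, Nat.card_eq_fintype_card, Fintype.card_fin]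
        rfl
      have hdvd : 24 ∣ Nat.card (Matrix.ProjectiveSpecialLinearGroup (Fin 2) F) := by
        rw [← hcard]
        exact Subgroup.card_subgroup_dvd_card H
      have h := Cfsg.Agent.Helper13.card_PSL2_mul_two hodd
      rw [hF] at h
      obtain ⟨c, hc⟩ := hdvd
      rw [hc] at h
      have hqpos : 0 < q ^ 2 := by
        rcases Nat.eq_zero_or_pos q with h0 | h0
        · omega
        · positivity
      have h1 : q ^ 2 = (q ^ 2 - 1) + 1 := by omega
      have h5 : q * (q ^ 2 - 1) % 16 = 0 := by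
        rw [← h]
        omega
      have h6 := arith16 (q % 16) (Nat.mod_lt _ (by norm_num)) ((q ^ 2 - 1) % 16)
        (Nat.mod_lt _ (by norm_num)) (by omega) (by rw [← Nat.mul_mod]; exact h5)
        (by rw [← Nat.mul_mod, Nat.mod_add_mod, ← pow_two, ← h1])
      rw [← Nat.mul_mod, ← pow_two] at h6
      exact h6
  · intro hq
    have hq8 : Fintype.card F % 8 = 1 ∨ Fintype.card F % 8 = 7 := by
      rw [hF]
      have h1 : q ^ 2 % 16 = (q % 16) * (q % 16) % 16 := by
        rw [pow_two, Nat.mul_mod]
      have h2 : q % 16 < 16 := Nat.mod_lt _ (by norm_num)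
      rw [h1] at hq
      have h3 : q % 8 = (q % 16) % 8 := by omega
      rw [h3]
      generalize q % 16 = r at hq h2
      interval_cases r <;> simp_all
    obtain ⟨V, hV, hC, hcard⟩ := exists_normalizer hq8
    refine ⟨Subgroup.normalizer (V : Set (Matrix.ProjectiveSpecialLinearGroup (Fin 2) F)), ?_⟩
    apply Cfsg.Agent.S1012.result hcard
    intro g h6
    have hg : (g : Matrix.ProjectiveSpecialLinearGroup (Fin 2) F) ∈ Subgroup.normalizer
        (V : Set (Matrix.ProjectiveSpecialLinearGroup (Fin 2) F)) := g.2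
    have h6' : orderOf (g : Matrix.ProjectiveSpecialLinearGroup (Fin 2) F) = 6 := by
      rw [Subgroup.orderOf_coe]
      exact h6
    rcases pow_of_normalizer V hV hC _ hg with h | h
    · have := orderOf_dvd_of_pow_eq_one h
      rw [h6'] at this
      norm_num at this
    · have := orderOf_dvd_of_pow_eq_one h
      rw [h6'] at this
      norm_num at this

end Cfsg.Agent.S0803
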