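import Cfsg.Statements.S0876
import Cfsg.Agent.Helper6.PRegular

set_option autoImplicit false
open Cfsg

namespace Cfsg.Agent.S0876

open Cfsg.Agent Cfsg.Agent.Helper6 in
/-- Let G be a finite group, p a prime and M a maximal ideal of the ring of algebraic integers containing p. Let x, y be elements with p-parts a and b (so a⁻¹ * x and b⁻¹ * y are their p-regular parts). Then a⁻¹ * x and b⁻¹ * y are conjugate in G if and only if, for every irreducible character χ, the difference χ x - χ y lies in the local ideal at M. -/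
theorem result {G : Type*} [Group G] [Finite G] (p : ℕ) (M : Ideal Cfsg.AlgInt) (hM : Cfsg.IsPModular p M) (x y a b : G) (ha : Cfsg.IsPPart p x a) (hb : Cfsg.IsPPart p y b) : IsConj (a⁻¹ * x) (b⁻¹ * y) ↔ ∀ χ : Cfsg.IrrCharacter G, Cfsg.MemLocalIdeal M ((χ : G → ℂ) x - (χ : G → ℂ) y) := by
  classical
  cases nonempty_fintype G
  have hMp := Helper25.IsPModular.isPrime hM
  have hp := hM.1
  obtain ⟨x', hx, hcx, ⟨kx, hkx⟩, hpx⟩ := ha
  obtain ⟨y', hy, hcy, ⟨ky, hky⟩, hpy⟩ := hb
  have hx' : a⁻¹ * x = x' := by rw [← hx, inv_mul_cancel_left]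
  have hy' : b⁻¹ * y = y' := by rw [← hy, inv_mul_cancel_left]
  rw [hx', hy']
  constructor
  · intro hconj χ
    have hχc := Helper24.isCharacter_of_irr χ.2
    have h1 := PRegular.char_ppart_congr hM hχc a x' hcx kx hkx
    have h2 := PRegular.char_ppart_congr hM hχc b y' hcy ky hky
    have h3 : (χ : G → ℂ) x' = (χ : G → ℂ) y' := by
      obtain ⟨c, hc⟩ := isConj_iff.mp hconj
      rw [← hc]
      exact (Helper2.IsCharacter.isClassFunction hχc x' c).symm
    rw [hx] at h1
    rw [hy] at h2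
    have h4 : (χ : G → ℂ) x - (χ : G → ℂ) y =
        ((χ : G → ℂ) x - (χ : G → ℂ) x') - ((χ : G → ℂ) y - (χ : G → ℂ) y') := by
      rw [h3]
      ring
    rw [h4]
    exact Helper25.MemLocalIdeal.sub hMp h1 h2
  · intro hall
    by_contra hncj
    obtain ⟨e, n, hpn, hcard⟩ :=
      Nat.exists_eq_pow_mul_and_not_dvd (Nat.card_pos (α := G)).ne' p hp.ne_one
    have hcpn : Nat.Coprime p n := (Nat.Prime.coprime_iff_not_dvd hp).mpr hpn
    have hcop : Nat.Coprime (p ^ e) n := Nat.Coprime.pow_left e hcpn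
    have hgx : Nat.Coprime (orderOf x') (p ^ e) :=
      Nat.Coprime.pow_right e (((Nat.Prime.coprime_iff_not_dvd hp).mpr hpx).symm)
    obtain ⟨Q, hQdef⟩ : ∃ Q : G → Prop, Q = fun z => ∃ v : G, IsConj v x' ∧
        (∃ u : G, z = u * v ∧ Commute u v ∧ Nat.Coprime (orderOf u) n ∧
          Nat.Coprime (orderOf v) (p ^ e)) := ⟨_, rfl⟩
    obtain ⟨ϑ, hϑdef⟩ : ∃ ϑ : G → ℂ, ϑ = fun z => if Q z then (n : ℂ) else 0 := ⟨_, rfl⟩
    have hϑpos : ∀ z, Q z → ϑ z = n := fun z hz => by rw [hϑdef]; exact if_pos hz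
    have hϑneg : ∀ z, ¬ Q z → ϑ z = 0 := fun z hz => by rw [hϑdef]; exact if_neg hz
    obtain ⟨hcl, hint⟩ := PiSection.pi_section (p ^ e) n hcard hcop x' hgx ϑ
      (fun z hz => hϑpos z (by rw [hQdef]; exact hz))
      (fun z hz => hϑneg z (by rw [hQdef]; exact hz))
    have hQx : Q x := by
      rw [hQdef]
      refine ⟨x', IsConj.refl x', a, hx.symm, hcx, ?_, hgx⟩
      rw [hkx]
      exact Nat.Coprime.pow_left kx hcpn
    have hQy : ¬ Q y := by
      rw [hQdef]
      rintro ⟨v, hv, u, hyuv, hcuv, hu, hvv⟩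
      apply hncj
      obtain ⟨N, hN0, hN1⟩ : ∃ N : ℕ, p ^ e ∣ N ∧ N ≡ 1 [MOD n] :=
        ⟨(Nat.chineseRemainder hcop 0 1 : ℕ),
          Nat.modEq_zero_iff_dvd.mp (Nat.chineseRemainder hcop 0 1).2.1,
          (Nat.chineseRemainder hcop 0 1).2.2⟩
      have hord : ∀ z : G, z ^ (p ^ e * n) = 1 := fun z => by
        rw [← hcard]
        exact pow_card_eq_one'
      have hum : orderOf u ∣ p ^ e :=
        hu.dvd_of_dvd_mul_right (orderOf_dvd_of_pow_eq_one (hord u))
      have hvn : orderOf v ∣ n := hvv.dvd_of_dvd_mul_left (orderOf_dvd_of_pow_eq_one (hord v))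
      have hbm : orderOf b ∣ p ^ e := by
        have h1 : Nat.Coprime (orderOf b) n := by
          rw [hky]
          exact Nat.Coprime.pow_left ky hcpn
        exact h1.dvd_of_dvd_mul_right (orderOf_dvd_of_pow_eq_one (hord b))
      have hyn : orderOf y' ∣ n := by
        have h1 : Nat.Coprime (orderOf y') (p ^ e) :=
          Nat.Coprime.pow_right e (((Nat.Prime.coprime_iff_not_dvd hp).mpr hpy).symm)
        exact h1.dvd_of_dvd_mul_left (orderOf_dvd_of_pow_eq_one (hord y'))
      have e1 : y ^ N = v := by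
        rw [hyuv, hcuv.mul_pow,
          PiSection.pw_zero (p ^ e) N hN0 u (orderOf_dvd_iff_pow_eq_one.mp hum), one_mul,
          PiSection.pw_one n N hN1 v (orderOf_dvd_iff_pow_eq_one.mp hvn)]
      have e2 : y ^ N = y' := by
        rw [← hy, hcy.mul_pow,
          PiSection.pw_zero (p ^ e) N hN0 b (orderOf_dvd_iff_pow_eq_one.mp hbm), one_mul,
          PiSection.pw_one n N hN1 y' (orderOf_dvd_iff_pow_eq_one.mp hyn)]
      have e3 : v = y' := e1.symm.trans e2
      rw [e3] at hv
      exact hv.symm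
    have hϑx : ϑ x = n := hϑpos x hQx
    have hϑy : ϑ y = 0 := hϑneg y hQy
    have := Helper24.finite_irrCharacter (G := G)
    have := Fintype.ofFinite (IrrCharacter G)
    have hexp := Helper2.class_fn_expansion hcl
    have h1 : ϑ x - ϑ y = ∑ χ : IrrCharacter G,
        classInner ϑ (χ : G → ℂ) * ((χ : G → ℂ) x - (χ : G → ℂ) y) := by
      have hx1 := congrFun hexp x
      have hy1 := congrFun hexp y
      rw [Finset.sum_apply] at hx1 hy1
      simp only [Pi.smul_apply, smul_eq_mul] at hx1 hy1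
      rw [hx1, hy1, ← Finset.sum_sub_distrib]
      apply Finset.sum_congr rfl
      intro χ _
      ring
    have h2 : MemLocalIdeal M (ϑ x - ϑ y) := by
      rw [h1]
      apply Helper25.memLocalIdeal_sum hMp
      intro χ _
      exact Helper25.MemLocalIdeal.mul_left hMp
        (Helper25.memLocalRing_of_isIntegral hMp.ne_top
          (hint χ (Helper24.isCharacter_of_irr χ.2))) (hall χ)
    rw [hϑx, hϑy, sub_zero] at h2
    exact hpn ((Helper25.memLocalIdeal_natCast_iff hM n).mp h2)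

end Cfsg.Agent.S0876
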