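import Cfsg.Statements.S0951
import Cfsg.Agent.Helper6.QuatSeven

set_option autoImplicit false
open Cfsg

namespace Cfsg.Agent.S0951

open Cfsg.Agent Cfsg.Agent.Helper6 in
/-- Let S be a Sylow 2-subgroup of the finite group G isomorphic to the quaternion group of order 8. Suppose G has no nontrivial normal subgroup of odd order and G ≠ S. Then, relative to any maximal ideal M of the algebraic integers containing 2, the principal block of G consists of exactly 7 irreducible characters. -/
theorem result {G : Type*} [Group G] [Finite G] (M : Ideal Cfsg.AlgInt) (hM : Cfsg.IsPModular 2 M) (S : Sylow 2 G) (e : (S : Subgroup G) ≃* QuaternionGroup 2) (hO : ∀ N : Subgroup G, N.Normal → Odd (Nat.card N) → N = ⊥) (hG : (S : Subgroup G) ≠ ⊤) : Nat.card (Cfsg.principalBlock M G) = 7 := by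
  classical
  haveI : Fact (Nat.Prime 2) := ⟨Nat.prime_two⟩
  haveI : Fintype G := Fintype.ofFinite G
  have := Helper24.finite_irrCharacter (G := G)
  haveI : Fintype (IrrCharacter G) := Fintype.ofFinite _
  obtain ⟨N, hN, hNodd, hNz⟩ := Helper8.bsq_main S e
  have hNbot := hO N hN hNodd
  have hzc : Helper8.bsqZ e ∈ Subgroup.center G := by
    rw [Subgroup.mem_center_iff]
    intro g
    have h1 := hNz g
    rw [hNbot, Subgroup.mem_bot] at h1
    calc g * Helper8.bsqZ e
        = (Helper8.bsqZ e * g * (Helper8.bsqZ e)⁻¹ * g⁻¹)⁻¹ * (Helper8.bsqZ e * g) := by group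
      _ = Helper8.bsqZ e * g := by rw [h1]; group
  rcases Helper8.bsq_fusion S e with ⟨N', hN', hc⟩ | ⟨a, ha, ha2, hfus⟩
  · exfalso
    have hodd' : Odd (Nat.card N') := (Helper8.bsq_of_complement S e N' hN' hc).1
    have hbot := hO N' hN' hodd'
    rw [hbot] at hc
    exact hG (Subgroup.isComplement'_bot_left.1 hc)
  have hza : a ^ 2 = Helper8.bsqZ e := Helper8.bsq_sq_ne e ha ha2
  have hao : orderOf a = 4 := Helper8.bsq_orderOf_four e ha ha2
  have hz : orderOf (Helper8.bsqZ e) = 2 := Helper8.bsqZ_order e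
  obtain ⟨hidx, hC4⟩ := Helper8.bsq_index_core S e a ha ha2
  have hsq1 : ∀ s ∈ (S : Subgroup G), s ^ 2 = 1 → s = 1 ∨ s = Helper8.bsqZ e :=
    fun s hs h => Helper8.bsq_sq_eq_one e hs h
  have hS8 : Nat.card S = 8 := by
    have h1 : Nat.card (S : Subgroup G) = Nat.card (QuaternionGroup 2) := Nat.card_congr e.toEquiv
    rw [Helper8.bsq_q8_card] at h1
    exact h1
  have hrank := q7_rank hM S (Helper8.bsqZ e) a hS8 hz hzc hza hsq1 hfus
  haveI : Fintype (Subgroup.centralizer ({a} : Set G)) := Fintype.ofFinite _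
  have hodd := q7_odd S e a ha ha2
  have hsec : ∀ w : G, (∃ k : ℕ, orderOf w = 2 ^ k) →
      w = 1 ∨ w = Helper8.bsqZ e ∨ IsConj w a := by
    intro w hw
    rcases q7_two_elt S (Helper8.bsqZ e) a hzc hsq1 hfus w hw with h | h | ⟨h, hh⟩
    · exact Or.inl h
    · exact Or.inr (Or.inl h)
    · exact Or.inr (Or.inr (isConj_iff.2 ⟨h, hh⟩).symm)
  have hcount := q7_count hM (Helper8.bsqZ e) a hz hzc hao hza hsec hidx hC4 hodd
  rw [hcount, hrank]

end Cfsg.Agent.S0951
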