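import Mathlib
import Cfsg.Statements.S0988
import Cfsg.Agent.S0144
import Cfsg.Agent.Helper23.SmallSimple

set_option autoImplicit false
open Cfsg

namespace Cfsg.Agent.S0988

theorem not_solvable {G : Type*} [Group G] [Finite G] [IsSimpleGroup G] (p m : ℕ) (hp : p.Prime)
    (hG : Nat.card G = p ^ 2 * m) : ¬ Group.IsSolvable G := by
  intro hs
  have hcomm : ∀ a b : G, a * b = b * a := IsSimpleGroup.comm_iff_isSolvable.mpr hs
  have hprime : (Nat.card G).Prime := @IsSimpleGroup.prime_card G (CommGroup.mk hcomm) _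
  rw [hG] at hprime
  rcases (Nat.dvd_prime hprime).mp (show p ∣ p ^ 2 * m from ⟨p * m, by ring⟩) with h | h
  · exact hp.ne_one h
  · have h2 : p * (p * m) = p * 1 := by
      rw [mul_one, ← mul_assoc, ← sq]; exact h.symm
    have h3 := Nat.eq_of_mul_eq_mul_left hp.pos h2
    exact hp.ne_one (Nat.dvd_one.mp ⟨m, h3.symm⟩)

theorem minFac_ne {G : Type*} [Group G] [Finite G] [IsSimpleGroup G] (s m : ℕ)
    [hs : Fact s.Prime] (hG : Nat.card G = s ^ 1 * m) (hm : ¬ s ∣ m) (hm1 : m ≠ 1) :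
    (Nat.card G).minFac ≠ s := by
  intro hmin
  obtain ⟨P⟩ : Nonempty (Sylow s G) := inferInstance
  have hc := Cfsg.Agent.Helper23.card_sylow_of_card s 1 m hG hm P
  rw [pow_one] at hc
  have hcyc : IsCyclic ↥(P : Subgroup G) := isCyclic_of_prime_card hc
  have hNC := IsCyclic.normalizer_le_centralizer hmin (P := P) hcyc
  refine Cfsg.Agent.Helper23.not_normalizer_le_centralizer_of_simple s P ?_ ?_ hNC
  · rw [hc]; exact hs.out.ne_one
  · rw [hc, hG, pow_one]
    intro h
    have h' : s * 1 = s * m := by rw [mul_one]; exact h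
    exact hm1 (Nat.eq_of_mul_eq_mul_left hs.out.pos h').symm

theorem aut_prime_order {P : Type*} [Group P] [Finite P] (p ℓ : ℕ) (hp : p.Prime)
    [hℓ : Fact ℓ.Prime] (hP : Nat.card P = p ^ 2) (φ : MulAut P) (hφ : orderOf φ = ℓ) :
    ℓ ∣ p ^ 2 - 1 ∨ ℓ ∣ p ^ 2 - p := by
  let F : Subgroup P :=
    { carrier := {x | φ x = x}
      mul_mem' := fun {a b} ha hb => by
        have ha' : φ a = a := ha
        have hb' : φ b = b := hb
        show φ (a * b) = a * b
        rw [map_mul, ha', hb']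
      one_mem' := map_one φ
      inv_mem' := fun {a} ha => by
        have ha' : φ a = a := ha
        show φ a⁻¹ = a⁻¹
        rw [map_inv, ha'] }
  have hZ : IsPGroup ℓ (Subgroup.zpowers φ) :=
    IsPGroup.of_card (n := 1) (by rw [Nat.card_zpowers, hφ, pow_one])
  have hfix : (MulAction.fixedPoints (Subgroup.zpowers φ) P) = (F : Set P) := by
    ext x
    rw [MulAction.mem_fixedPoints]
    constructor
    · intro h
      exact h ⟨φ, Subgroup.mem_zpowers φ⟩
    · intro hx z
      have hstab : φ ∈ MulAction.stabilizer (MulAut P) x := hx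
      exact (Subgroup.zpowers_le.mpr hstab) z.2
  have hmod : Nat.card P ≡ Nat.card F [MOD ℓ] := by
    have h := hZ.card_modEq_card_fixedPoints P
    rw [hfix] at h
    exact h
  have hFdvd : Nat.card F ∣ p ^ 2 := by
    rw [← hP]; exact Subgroup.card_subgroup_dvd_card F
  obtain ⟨j, hj, hFj⟩ := (Nat.dvd_prime_pow hp).mp hFdvd
  rw [hP, hFj] at hmod
  interval_cases j
  · left
    rw [pow_zero] at hmod
    exact (Nat.modEq_iff_dvd' (Nat.one_le_pow _ _ hp.pos)).mp hmod.symm
  · right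
    rw [pow_one] at hmod
    exact (Nat.modEq_iff_dvd' (Nat.le_self_pow (by norm_num) p)).mp hmod.symm
  · exfalso
    have hFtop : F = ⊤ := (Subgroup.card_eq_iff_eq_top F).mp (hFj.trans hP.symm)
    have hφ1 : φ = 1 := by
      ext x
      have hx : x ∈ F := by rw [hFtop]; exact Subgroup.mem_top x
      exact hx
    rw [hφ1, orderOf_one] at hφ
    exact hℓ.out.ne_one hφ.symm

theorem arith {p ℓ : ℕ} (hp : p.Prime) (hℓ : ℓ.Prime) (hlt : p < ℓ)
    (h : ℓ ∣ p ^ 2 - 1 ∨ ℓ ∣ p ^ 2 - p) : p = 2 ∧ ℓ = 3 := by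
  have hp2 := hp.two_le
  have h1 : ¬ ℓ ∣ p - 1 := fun h => by
    have := Nat.le_of_dvd (by omega) h
    omega
  have h2 : ¬ ℓ ∣ p := fun h => by
    have := Nat.le_of_dvd hp.pos h
    omega
  have e1 : p ^ 2 - 1 = (p - 1) * (p + 1) := by
    obtain ⟨k, rfl⟩ : ∃ k, p = k + 1 := ⟨p - 1, by omega⟩
    rw [Nat.add_sub_cancel]
    exact Nat.sub_eq_of_eq_add (by ring)
  have e2 : p ^ 2 - p = p * (p - 1) := by
    obtain ⟨k, rfl⟩ : ∃ k, p = k + 1 := ⟨p - 1, by omega⟩
    rw [Nat.add_sub_cancel]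
    exact Nat.sub_eq_of_eq_add (by ring)
  rcases h with h | h
  · rw [e1] at h
    rcases (Nat.Prime.dvd_mul hℓ).mp h with h | h
    · exact absurd h h1
    · have hle := Nat.le_of_dvd (by omega) h
      have hℓeq : ℓ = p + 1 := by omega
      rcases Nat.even_or_odd p with hev | hodd
      · have : p = 2 := (Nat.Prime.even_iff hp).mp hev
        omega
      · exfalso
        have hev : Even ℓ := by rw [hℓeq]; exact hodd.add_one
        have : ℓ = 2 := (Nat.Prime.even_iff hℓ).mp hev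
        omega
  · rw [e2] at h
    rcases (Nat.Prime.dvd_mul hℓ).mp h with h | h
    · exact absurd h h2
    · exact absurd h h1

theorem exists_aut {G : Type*} [Group G] [Finite G] [IsSimpleGroup G] (p m : ℕ)
    [hp : Fact p.Prime] (hG : Nat.card G = p ^ 2 * m) (hm : ¬ p ∣ m) (hm1 : m ≠ 1)
    (P : Sylow p G) :
    ∃ ℓ : ℕ, ℓ.Prime ∧ ℓ ∣ m ∧ ∃ φ : MulAut ↥(P : Subgroup G), orderOf φ = ℓ := by
  have hPc : Nat.card (P : Subgroup G) = p ^ 2 :=
    Cfsg.Agent.Helper23.card_sylow_of_card p 2 m hG hm P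
  have hP1 : Nat.card (P : Subgroup G) ≠ 1 := by
    rw [hPc]; exact (Nat.one_lt_pow (by norm_num) hp.out.one_lt).ne'
  have hP2 : Nat.card (P : Subgroup G) ≠ Nat.card G := by
    rw [hPc, hG]
    intro h
    have h' : p ^ 2 * 1 = p ^ 2 * m := by rw [mul_one]; exact h
    exact hm1 (Nat.eq_of_mul_eq_mul_left (pow_pos hp.out.pos 2) h').symm
  have hcomm : ∀ a b : ↥(P : Subgroup G), a * b = b * a :=
    (IsPGroup.isMulCommutative_of_card_eq_prime_sq hPc).is_comm.comm
  have hPC : (P : Subgroup G) ≤ Subgroup.centralizer ((P : Subgroup G) : Set G) := by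
    intro a ha
    rw [Subgroup.mem_centralizer_iff]
    intro b hb
    exact congrArg Subtype.val (hcomm ⟨b, hb⟩ ⟨a, ha⟩)
  have he1 : (Subgroup.centralizer ((P : Subgroup G) : Set G)).relIndex
      (Subgroup.normalizer ((P : Subgroup G) : Set G)) ≠ 1 := by
    intro h1
    exact Cfsg.Agent.Helper23.not_normalizer_le_centralizer_of_simple p P hP1 hP2
      (Subgroup.relIndex_eq_one.mp h1)
  have he_dvd : (Subgroup.centralizer ((P : Subgroup G) : Set G)).relIndex
      (Subgroup.normalizer ((P : Subgroup G) : Set G)) ∣ m := by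
    have ha : (Subgroup.centralizer ((P : Subgroup G) : Set G)).relIndex
        (Subgroup.normalizer ((P : Subgroup G) : Set G)) ∣
        (P : Subgroup G).relIndex (Subgroup.normalizer ((P : Subgroup G) : Set G)) :=
      Subgroup.relIndex_dvd_of_le_left _ hPC
    have hb : (P : Subgroup G).relIndex (Subgroup.normalizer ((P : Subgroup G) : Set G)) ∣
        (P : Subgroup G).index :=
      Subgroup.relIndex_dvd_index_of_le Subgroup.le_normalizer
    rw [Cfsg.Agent.Helper23.index_sylow_of_card p 2 m hG hm P] at hb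
    exact ha.trans hb
  have he_aut := Cfsg.Agent.Helper23.relIndex_centralizer_normalizer_dvd (P : Subgroup G)
  generalize (Subgroup.centralizer ((P : Subgroup G) : Set G)).relIndex
      (Subgroup.normalizer ((P : Subgroup G) : Set G)) = e at he1 he_dvd he_aut
  have hℓp : e.minFac.Prime := Nat.minFac_prime he1
  have := Fact.mk hℓp
  obtain ⟨φ, hφ⟩ := exists_prime_orderOf_dvd_card' (G := MulAut ↥(P : Subgroup G)) e.minFac
    ((Nat.minFac_dvd e).trans he_aut)
  exact ⟨e.minFac, hℓp, (Nat.minFac_dvd e).trans he_dvd, φ, hφ⟩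

theorem card_twelve {G : Type*} [Group G] [Finite G] [IsSimpleGroup G] (r : ℕ)
    [hr : Fact r.Prime] (h2 : r ≠ 2) (h3 : r ≠ 3) (hG : Nat.card G = 12 * r) :
    Nat.card G = 60 := by
  have hrp : r.Prime := hr.out
  have hr5 : 5 ≤ r := by
    by_contra hlt
    have h2le := hrp.two_le
    have h4 : r = 4 := by omega
    rw [h4] at hrp
    exact absurd hrp (by norm_num)
  have hG' : Nat.card G = r ^ 1 * 12 := by rw [hG, pow_one, mul_comm]
  have hnd : ¬ r ∣ 12 := by
    intro h
    have h' : r ∣ 2 * (2 * 3) := h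
    rcases (Nat.Prime.dvd_mul hrp).mp h' with h | h
    · exact h2 ((Nat.prime_dvd_prime_iff_eq hrp Nat.prime_two).mp h)
    · rcases (Nat.Prime.dvd_mul hrp).mp h with h | h
      · exact h2 ((Nat.prime_dvd_prime_iff_eq hrp Nat.prime_two).mp h)
      · exact h3 ((Nat.prime_dvd_prime_iff_eq hrp Nat.prime_three).mp h)
  obtain ⟨P⟩ : Nonempty (Sylow r G) := inferInstance
  have hPc : Nat.card (P : Subgroup G) = r := by
    have := Cfsg.Agent.Helper23.card_sylow_of_card r 1 12 hG' hnd P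
    rw [pow_one] at this
    exact this
  have hP1 : Nat.card (P : Subgroup G) ≠ 1 := by rw [hPc]; omega
  have hP2 : Nat.card (P : Subgroup G) ≠ Nat.card G := by rw [hPc, hG]; omega
  have hn : Nat.card (Sylow r G) ∣ 12 := Cfsg.Agent.Helper23.card_sylow_dvd_of_card r 1 12 hG' hnd
  have hmod : Nat.card (Sylow r G) ≡ 1 [MOD r] := card_sylow_modEq_one r G
  have hn1 : Nat.card (Sylow r G) ≠ 1 :=
    Cfsg.Agent.Helper23.card_sylow_ne_one_of_simple r P hP1 hP2
  have hn12 : Nat.card (Sylow r G) ≠ 12 := by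
    intro h12
    have hN := Cfsg.Agent.Helper23.card_normalizer_sylow P
    rw [h12, hG] at hN
    have hNr : Nat.card (Subgroup.normalizer ((P : Subgroup G) : Set G)) = r := by omega
    have hNP : (P : Subgroup G) = Subgroup.normalizer ((P : Subgroup G) : Set G) :=
      Subgroup.eq_of_le_of_card_ge Subgroup.le_normalizer (by rw [hNr, hPc])
    have hcyc : IsCyclic ↥(P : Subgroup G) := isCyclic_of_prime_card hPc
    apply Cfsg.Agent.Helper23.not_normalizer_le_centralizer_of_simple r P hP1 hP2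
    rw [← hNP]
    exact Cfsg.Agent.Helper23.le_centralizer_of_isCyclic (P : Subgroup G)
  have hnpos : 0 < Nat.card (Sylow r G) := Nat.card_pos
  generalize Nat.card (Sylow r G) = n at hn hmod hn1 hn12 hnpos
  have hdvd : r ∣ n - 1 := (Nat.modEq_iff_dvd' (by omega)).mp hmod.symm
  have hle : r ≤ n - 1 := Nat.le_of_dvd (by omega) hdvd
  have hn_le : n ≤ 12 := Nat.le_of_dvd (by norm_num) hn
  have h6 : 6 ≤ n := by omega
  have hr_eq : r = 5 := by
    interval_cases n <;> omega
  omega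

theorem aux {G : Type*} [Group G] [Finite G] [IsSimpleGroup G] (p q r : ℕ) (hp : p.Prime)
    (hq : q.Prime) (hr : r.Prime) (hpq : p ≠ q) (hpr : p ≠ r) (hqr : q ≠ r)
    (hG : Nat.card G = p ^ 2 * q * r) : Nat.card G = 60 := by
  have := Fact.mk hp
  have := Fact.mk hq
  have := Fact.mk hr
  have hp2 := hp.two_le
  have hq2 := hq.two_le
  have hr2 := hr.two_le
  have h4 : 4 ≤ p ^ 2 := by nlinarith
  have hq_ndvd : ¬ q ∣ p ^ 2 * r := by
    intro h
    rcases (Nat.Prime.dvd_mul hq).mp h with h | h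
    · exact hpq ((Nat.prime_dvd_prime_iff_eq hq hp).mp (hq.dvd_of_dvd_pow h)).symm
    · exact hqr ((Nat.prime_dvd_prime_iff_eq hq hr).mp h)
  have hr_ndvd : ¬ r ∣ p ^ 2 * q := by
    intro h
    rcases (Nat.Prime.dvd_mul hr).mp h with h | h
    · exact hpr ((Nat.prime_dvd_prime_iff_eq hr hp).mp (hr.dvd_of_dvd_pow h)).symm
    · exact hqr ((Nat.prime_dvd_prime_iff_eq hr hq).mp h).symm
  have hp_ndvd : ¬ p ∣ q * r := by
    intro h
    rcases (Nat.Prime.dvd_mul hp).mp h with h | h
    · exact hpq ((Nat.prime_dvd_prime_iff_eq hp hq).mp h)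
    · exact hpr ((Nat.prime_dvd_prime_iff_eq hp hr).mp h)
  have hGq : Nat.card G = q ^ 1 * (p ^ 2 * r) := by rw [hG]; ring
  have hGr : Nat.card G = r ^ 1 * (p ^ 2 * q) := by rw [hG]; ring
  have hGp : Nat.card G = p ^ 2 * (q * r) := by rw [hG]; ring
  have hm1 : p ^ 2 * r ≠ 1 := by
    have : 8 ≤ p ^ 2 * r := by nlinarith
    omega
  have hm2 : p ^ 2 * q ≠ 1 := by
    have : 8 ≤ p ^ 2 * q := by nlinarith
    omega
  have hqr4 : 4 ≤ q * r := by nlinarith
  have hm3 : q * r ≠ 1 := by omega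
  have hcard_ne_one : Nat.card G ≠ 1 := by
    rw [hGp]
    have : 4 * 4 ≤ p ^ 2 * (q * r) := Nat.mul_le_mul h4 hqr4
    omega
  have hminprime : (Nat.card G).minFac.Prime := Nat.minFac_prime hcard_ne_one
  have hmindvd : (Nat.card G).minFac ∣ p ^ 2 * q * r := by
    rw [← hG]; exact Nat.minFac_dvd _
  have hminp : (Nat.card G).minFac = p := by
    rcases (Nat.Prime.dvd_mul hminprime).mp hmindvd with h | h
    · rcases (Nat.Prime.dvd_mul hminprime).mp h with h | h
      · exact (Nat.prime_dvd_prime_iff_eq hminprime hp).mp (hminprime.dvd_of_dvd_pow h)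
      · exfalso
        exact minFac_ne q (p ^ 2 * r) hGq hq_ndvd hm1
          ((Nat.prime_dvd_prime_iff_eq hminprime hq).mp h)
    · exfalso
      exact minFac_ne r (p ^ 2 * q) hGr hr_ndvd hm2
        ((Nat.prime_dvd_prime_iff_eq hminprime hr).mp h)
  have hpq_lt : p < q := by
    have hle : (Nat.card G).minFac ≤ q :=
      Nat.minFac_le_of_dvd hq.two_le (by rw [hG]; exact ⟨p ^ 2 * r, by ring⟩)
    rw [hminp] at hle
    exact lt_of_le_of_ne hle hpq
  have hpr_lt : p < r := by
    have hle : (Nat.card G).minFac ≤ r :=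
      Nat.minFac_le_of_dvd hr.two_le (by rw [hG]; exact ⟨p ^ 2 * q, by ring⟩)
    rw [hminp] at hle
    exact lt_of_le_of_ne hle hpr
  obtain ⟨P⟩ : Nonempty (Sylow p G) := inferInstance
  obtain ⟨ℓ, hℓp, hℓdvd, φ, hφ⟩ := exists_aut p (q * r) hGp hp_ndvd hm3 P
  have := Fact.mk hℓp
  have hPc := Cfsg.Agent.Helper23.card_sylow_of_card p 2 (q * r) hGp hp_ndvd P
  have hC := aut_prime_order p ℓ hp hPc φ hφ
  have hℓqr : ℓ = q ∨ ℓ = r := by
    rcases (Nat.Prime.dvd_mul hℓp).mp hℓdvd with h | h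
    · left; exact (Nat.prime_dvd_prime_iff_eq hℓp hq).mp h
    · right; exact (Nat.prime_dvd_prime_iff_eq hℓp hr).mp h
  have hplt : p < ℓ := by
    rcases hℓqr with h | h
    · rw [h]; exact hpq_lt
    · rw [h]; exact hpr_lt
  obtain ⟨hp2eq, hℓ3⟩ := arith hp hℓp hplt hC
  rcases hℓqr with h | h
  · have hq3 : q = 3 := by omega
    have hr2' : r ≠ 2 := by omega
    have hr3 : r ≠ 3 := by omega
    exact card_twelve r hr2' hr3 (by rw [hG, hp2eq, hq3]; ring)
  · have hr3 : r = 3 := by omega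
    have hq2' : q ≠ 2 := by omega
    have hq3 : q ≠ 3 := by omega
    exact card_twelve q hq2' hq3 (by rw [hG, hp2eq, hr3]; ring)

/-- If a finite simple group has order p^2 * q * r with p, q and r prime, then its order is 60. -/
theorem result {G : Type*} [Group G] [Finite G] [IsSimpleGroup G] (p q r : ℕ) (hp : p.Prime) (hq : q.Prime) (hr : r.Prime) (hG : Nat.card G = p ^ 2 * q * r) : Nat.card G = 60 := by
  have hns : ¬ Group.IsSolvable G := not_solvable p (q * r) hp (by rw [hG, mul_assoc])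
  have hpq : p ≠ q := by
    rintro rfl
    exact hns (Cfsg.Agent.S0144.result p r 3 1 hp hr (by rw [hG]; ring))
  have hpr : p ≠ r := by
    rintro rfl
    exact hns (Cfsg.Agent.S0144.result p q 3 1 hp hq (by rw [hG]; ring))
  have hqr : q ≠ r := by
    rintro rfl
    exact hns (Cfsg.Agent.S0144.result p q 2 2 hp hq (by rw [hG]; ring))
  exact aux p q r hp hq hr hpq hpr hqr hG

end Cfsg.Agent.S0988
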