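import Mathlib
import Cfsg.Statements.S4343
import Cfsg.Agent.S4342
-- import your own Cfsg.Agent.* helpers here

set_option autoImplicit false
open Cfsg

namespace Cfsg.Agent.S4343

open Pointwise in
theorem mem_smul_sylow {S : Type*} [Group S] {p : ℕ} (g : S) (P : Sylow p S) (x : S) :
    x ∈ g • P ↔ g⁻¹ * x * g ∈ P := by
  have h1 : x ∈ g • P ↔ x ∈ (MulAut.conj g • (P : Subgroup S)) := by
    rw [← Sylow.coe_subgroup_smul]; rfl
  rw [h1, Subgroup.mem_pointwise_smul_iff_inv_smul_mem]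
  rfl

/-- With fewer than `p²` Sylow `p`-subgroups, two distinct ones meet in a subgroup of index `p`. -/
theorem relIndex_eq_prime {S : Type*} [Group S] [Finite S] (p : ℕ) [Fact p.Prime]
    (hn : Nat.card (Sylow p S) < p ^ 2) (Q R : Sylow p S) (hQR : Q ≠ R) :
    (R : Subgroup S).relIndex (Q : Subgroup S) = p := by
  have hpp : p.Prime := Fact.out
  have h1 : (MulAction.stabilizer (↥(Q : Subgroup S)) R).index =
      (MulAction.orbit (↥(Q : Subgroup S)) R).ncard := MulAction.index_stabilizer _ _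
  have h2 : MulAction.stabilizer (↥(Q : Subgroup S)) R =
      (R : Subgroup S).subgroupOf (Q : Subgroup S) := by
    have e : MulAction.stabilizer (↥(Q : Subgroup S)) R =
        (MulAction.stabilizer S R).subgroupOf (Q : Subgroup S) := by
      ext x
      rw [MulAction.mem_stabilizer_iff, Subgroup.mem_subgroupOf, MulAction.mem_stabilizer_iff]
      rfl
    rw [e, Sylow.stabilizer_eq_normalizer, ← Subgroup.inf_subgroupOf_right, inf_comm,
      Q.2.inf_normalizer_sylow R, inf_comm, Subgroup.inf_subgroupOf_right]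
  rw [h2] at h1
  have h3 : (R : Subgroup S).relIndex (Q : Subgroup S) < p ^ 2 := by
    have h4 := Set.ncard_le_card (MulAction.orbit (↥(Q : Subgroup S)) R)
    rw [← h1] at h4
    exact lt_of_le_of_lt h4 hn
  obtain ⟨k, hk⟩ := IsPGroup.index Q.2 ((R : Subgroup S).subgroupOf (Q : Subgroup S))
  have hk' : (R : Subgroup S).relIndex (Q : Subgroup S) = p ^ k := hk
  have hk0 : k ≠ 0 := by
    rintro rfl
    rw [pow_zero, Subgroup.relIndex_eq_one] at hk'
    exact hQR (Sylow.ext (Q.3 R.2 hk').symm)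
  have hk2 : k < 2 := by
    rw [hk'] at h3
    exact (Nat.pow_lt_pow_iff_right hpp.one_lt).1 h3
  have hk1 : k = 1 := by omega
  rw [hk', hk1, pow_one]

theorem card_inf {S : Type*} [Group S] [Finite S] (p : ℕ) [Fact p.Prime]
    (hn : Nat.card (Sylow p S) < p ^ 2) (Q R : Sylow p S) (hQR : Q ≠ R) :
    p * Nat.card ↥((R : Subgroup S) ⊓ (Q : Subgroup S)) = p ^ (Nat.card S).factorization p := by
  have h := Cfsg.Agent.S4342.relIndex_mul_card_inf (R : Subgroup S) (Q : Subgroup S)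
  rw [relIndex_eq_prime p hn Q R hQR] at h
  rw [h]
  exact Q.card_eq_multiplicity

theorem conj_mem_inf {S : Type*} [Group S] [Finite S] (p : ℕ) [Fact p.Prime]
    (hn : Nat.card (Sylow p S) < p ^ 2) (Q R : Sylow p S) (hQR : Q ≠ R)
    (d : S) (hd : d ∈ (Q : Subgroup S)) (e : S) (he : e ∈ (R : Subgroup S) ⊓ (Q : Subgroup S)) :
    d * e * d⁻¹ ∈ (R : Subgroup S) ⊓ (Q : Subgroup S) := by
  have hpp : p.Prime := Fact.out
  have hidx : ((R : Subgroup S).subgroupOf (Q : Subgroup S)).index = p :=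
    relIndex_eq_prime p hn Q R hQR
  have hcard := Cfsg.Agent.S4342.relIndex_mul_card_inf (R : Subgroup S) (Q : Subgroup S)
  rw [relIndex_eq_prime p hn Q R hQR] at hcard
  obtain ⟨m, hm⟩ := IsPGroup.iff_card.1 Q.2
  have hm0 : m ≠ 0 := by
    rintro rfl
    rw [pow_zero] at hm
    rw [hm] at hcard
    have : p ∣ 1 := Dvd.intro _ hcard
    exact hpp.one_lt.ne' (Nat.dvd_one.1 this)
  have hmin : (Nat.card (Q : Subgroup S)).minFac = p := by
    rw [hm]; exact hpp.pow_minFac hm0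
  have hnormal : ((R : Subgroup S).subgroupOf (Q : Subgroup S)).Normal :=
    Subgroup.normal_of_index_eq_minFac_card (hidx.trans hmin.symm)
  have hle := Subgroup.normal_subgroupOf_iff_le_normalizer_inf.1 hnormal
  exact (Subgroup.mem_normalizer_iff.1 (hle hd) e).1 he

theorem inf_const {S : Type*} [Group S] [Finite S] (p : ℕ) [Fact p.Prime]
    (hn : Nat.card (Sylow p S) < p ^ 2) (P Q₁ Q₂ : Sylow p S) (h1 : Q₁ ≠ P) (h2 : Q₂ ≠ P) :
    (Q₁ : Subgroup S) ⊓ (P : Subgroup S) = (Q₂ : Subgroup S) ⊓ (P : Subgroup S) := by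
  have hpp : p.Prime := Fact.out
  by_contra hne
  have h12 : Q₁ ≠ Q₂ := by
    rintro rfl; exact hne rfl
  have cD1 := card_inf p hn P Q₁ (Ne.symm h1)
  have cD2 := card_inf p hn P Q₂ (Ne.symm h2)
  have cE := card_inf p hn Q₁ Q₂ h12
  have hnle : ¬ ((Q₁ : Subgroup S) ⊓ (P : Subgroup S) ≤ (Q₂ : Subgroup S)) := by
    intro hle
    apply hne
    have hle' : (Q₁ : Subgroup S) ⊓ (P : Subgroup S) ≤ (Q₂ : Subgroup S) ⊓ (P : Subgroup S) :=
      le_inf hle inf_le_right
    exact Subgroup.eq_of_le_of_card_ge hle'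
      (le_of_eq (Nat.eq_of_mul_eq_mul_left hpp.pos (cD2.trans cD1.symm)))
  obtain ⟨d, hd, hdQ2⟩ := SetLike.not_le_iff_exists.1 hnle
  have hdQ1 : d ∈ (Q₁ : Subgroup S) := hd.1
  have hdP : d ∈ (P : Subgroup S) := hd.2
  have hTne : d • Q₂ ≠ Q₂ := by
    intro h
    have hmem := (P.2.inf_normalizer_sylow Q₂).le
      (Subgroup.mem_inf.2 ⟨hdP, Sylow.smul_eq_iff_mem_normalizer.1 h⟩)
    exact hdQ2 hmem.2
  have hD2T : (Q₂ : Subgroup S) ⊓ (P : Subgroup S) ≤ ((d • Q₂ : Sylow p S) : Subgroup S) := by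
    intro e he
    have h := conj_mem_inf p hn P Q₂ (Ne.symm h2) d⁻¹ (inv_mem hdP) e he
    rw [inv_inv] at h
    exact (mem_smul_sylow d Q₂ e).2 h.1
  have hET : (Q₂ : Subgroup S) ⊓ (Q₁ : Subgroup S) ≤ ((d • Q₂ : Sylow p S) : Subgroup S) := by
    intro e he
    have h := conj_mem_inf p hn Q₁ Q₂ h12 d⁻¹ (inv_mem hdQ1) e he
    rw [inv_inv] at h
    exact (mem_smul_sylow d Q₂ e).2 h.1
  have cT := card_inf p hn Q₂ (d • Q₂) (Ne.symm hTne)
  have e1 : (Q₂ : Subgroup S) ⊓ (P : Subgroup S) =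
      ((d • Q₂ : Sylow p S) : Subgroup S) ⊓ (Q₂ : Subgroup S) :=
    Subgroup.eq_of_le_of_card_ge (le_inf hD2T inf_le_left)
      (le_of_eq (Nat.eq_of_mul_eq_mul_left hpp.pos (cT.trans cD2.symm)))
  have e2 : (Q₂ : Subgroup S) ⊓ (Q₁ : Subgroup S) =
      ((d • Q₂ : Sylow p S) : Subgroup S) ⊓ (Q₂ : Subgroup S) :=
    Subgroup.eq_of_le_of_card_ge (le_inf hET inf_le_left)
      (le_of_eq (Nat.eq_of_mul_eq_mul_left hpp.pos (cT.trans cE.symm)))
  have e3 : (Q₂ : Subgroup S) ⊓ (Q₁ : Subgroup S) = (Q₂ : Subgroup S) ⊓ (P : Subgroup S) :=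
    e2.trans e1.symm
  have hle : (Q₂ : Subgroup S) ⊓ (Q₁ : Subgroup S) ≤ (Q₁ : Subgroup S) ⊓ (P : Subgroup S) :=
    le_inf inf_le_right (e3.le.trans inf_le_right)
  have e4 : (Q₂ : Subgroup S) ⊓ (Q₁ : Subgroup S) = (Q₁ : Subgroup S) ⊓ (P : Subgroup S) :=
    Subgroup.eq_of_le_of_card_ge hle
      (le_of_eq (Nat.eq_of_mul_eq_mul_left hpp.pos (cD1.trans cE.symm)))
  exact hne (e4.symm.trans e3)

/-- Let S be a finite non-abelian simple group and p a prime dividing its order. If S has fewer than p² Sylow p-subgroups, then its Sylow p-subgroups have order p. -/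
theorem result {S : Type*} [Group S] [Finite S]
    [IsSimpleGroup S] (hS : ¬ IsMulCommutative S) (p : ℕ) [Fact p.Prime] (hp : p ∣ Nat.card S)
    (hn : Nat.card (Sylow p S) < p ^ 2) (P : Sylow p S) : Nat.card P = p := by
  have hpp : p.Prime := Fact.out
  have hex : ∃ Q : Sylow p S, Q ≠ P := by
    by_contra hall
    push Not at hall
    have hsub : Subsingleton (Sylow p S) := ⟨fun a b => (hall a).trans (hall b).symm⟩
    have hPn : (P : Subgroup S).Normal := Sylow.normal_of_subsingleton P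
    rcases hPn.eq_bot_or_eq_top with hbot | htop
    · exact P.ne_bot_of_dvd_card hp hbot
    · have hSp : IsPGroup p S := by
        intro g
        obtain ⟨k, hk⟩ := P.2 ⟨g, htop ▸ Subgroup.mem_top g⟩
        exact ⟨k, by simpa using congrArg Subtype.val hk⟩
      have hcn := hSp.center_nontrivial
      have hcne : Subgroup.center S ≠ ⊥ := (Subgroup.nontrivial_iff_ne_bot _).1 hcn
      have hctop : Subgroup.center S = ⊤ :=
        ((inferInstance : (Subgroup.center S).Normal).eq_bot_or_eq_top).resolve_left hcne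
      apply hS
      refine ⟨⟨fun a b => ?_⟩⟩
      have hb : b ∈ Subgroup.center S := hctop ▸ Subgroup.mem_top b
      exact (Subgroup.mem_center_iff.1 hb a)
  obtain ⟨Q, hQ⟩ := hex
  have hDcore : (Q : Subgroup S) ⊓ (P : Subgroup S) ≤ (P : Subgroup S).normalCore := by
    intro e he b
    have hle : (Q : Subgroup S) ⊓ (P : Subgroup S) ≤ ((b⁻¹ • P : Sylow p S) : Subgroup S) := by
      by_cases hR : b⁻¹ • P = P
      · rw [hR]; exact inf_le_right
      · rw [inf_const p hn P Q (b⁻¹ • P) hQ hR]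
        exact inf_le_left
    have := (mem_smul_sylow b⁻¹ P e).1 (hle he)
    rwa [inv_inv] at this
  have hcore : (P : Subgroup S).normalCore = ⊥ := by
    rcases (inferInstance : ((P : Subgroup S).normalCore).Normal).eq_bot_or_eq_top with h | h
    · exact h
    · exfalso
      have hPtop : (P : Subgroup S) = ⊤ := top_le_iff.1 (h ▸ Subgroup.normalCore_le _)
      apply hQ
      have hQP : (Q : Subgroup S) ≤ (P : Subgroup S) := hPtop ▸ le_top
      exact Sylow.ext (Q.3 P.2 hQP).symm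
  have hD : (Q : Subgroup S) ⊓ (P : Subgroup S) = ⊥ := by
    rw [hcore] at hDcore
    exact le_bot_iff.1 hDcore
  have h := Cfsg.Agent.S4342.relIndex_mul_card_inf (Q : Subgroup S) (P : Subgroup S)
  rw [relIndex_eq_prime p hn P Q (Ne.symm hQ), hD, Subgroup.card_bot, mul_one] at h
  exact h.symm

end Cfsg.Agent.S4343
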