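import Mathlib
import Cfsg.Statements.S4341
import Cfsg.Agent.S4345
import Cfsg.Agent.Helper4.CardMul
-- import your own Cfsg.Agent.* helpers here

set_option autoImplicit false
open Cfsg

namespace Cfsg.Agent.S4341

/-- `[H A : H] = [A : A ∩ H]` when `H` normalizes `A`. -/
theorem relIndex_sup_of_le_normalizer {G : Type*} [Group G] [Finite G] (H A : Subgroup G)
    (h : H ≤ Subgroup.normalizer (A : Set G)) : H.relIndex (H ⊔ A) = H.relIndex A := by
  have h1 := Cfsg.Agent.S4342.relIndex_mul_card_inf H A
  have h2 := Cfsg.Agent.S4342.relIndex_mul_card_inf H (H ⊔ A)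
  rw [inf_of_le_left (le_sup_left : H ≤ H ⊔ A)] at h2
  have h3 := Cfsg.Agent.Helper4.card_sup_mul_card_inf H A h
  have hH : 0 < Nat.card H := Nat.card_pos
  have hI : 0 < Nat.card (H ⊓ A : Subgroup G) := Nat.card_pos
  have h4 : H.relIndex (H ⊔ A) * (Nat.card H * Nat.card (H ⊓ A : Subgroup G)) =
      H.relIndex A * (Nat.card H * Nat.card (H ⊓ A : Subgroup G)) := by
    calc H.relIndex (H ⊔ A) * (Nat.card H * Nat.card (H ⊓ A : Subgroup G))
        = (H.relIndex (H ⊔ A) * Nat.card H) * Nat.card (H ⊓ A : Subgroup G) := by ring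
      _ = Nat.card (H ⊔ A : Subgroup G) * Nat.card (H ⊓ A : Subgroup G) := by rw [h2]
      _ = Nat.card H * Nat.card A := h3
      _ = Nat.card H * (H.relIndex A * Nat.card (H ⊓ A : Subgroup G)) := by rw [h1]
      _ = H.relIndex A * (Nat.card H * Nat.card (H ⊓ A : Subgroup G)) := by ring
  exact Nat.eq_of_mul_eq_mul_right (Nat.mul_pos hH hI) h4

/-- The number of Sylow subgroups of a subgroup `H` containing the Sylow subgroup `P` of `G`. -/
theorem card_sylow_subgroup {G : Type*} [Group G] [Finite G] (p : ℕ) [Fact p.Prime]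
    (H : Subgroup G) (P : Sylow p G) (hPH : (P : Subgroup G) ≤ H) :
    Nat.card (Sylow p H) = (Subgroup.normalizer ((P : Subgroup G) : Set G)).relIndex H := by
  rw [Sylow.card_eq_index_normalizer (P.subtype hPH)]
  show (Subgroup.normalizer ((((P : Subgroup G).subgroupOf H : Subgroup H)) : Set H)).index = _
  rw [← Subgroup.subgroupOf_normalizer_eq hPH]
  rfl

/-- Passing to the quotient by a normal `p`-subgroup does not change the number of Sylow
`p`-subgroups. -/
theorem card_sylow_quot_pgroup {M : Type*} [Group M] [Finite M] (p : ℕ) [Fact p.Prime]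
    (D : Subgroup M) [D.Normal] (hD : IsPGroup p D) :
    Nat.card (Sylow p (M ⧸ D)) = Nat.card (Sylow p M) := by
  obtain ⟨P⟩ : Nonempty (Sylow p M) := inferInstance
  have h := Cfsg.Agent.S4345.card_sylow_eq_mul p D P
  have hsup : IsPGroup p ((P : Subgroup M) ⊔ D : Subgroup M) := P.2.to_sup_of_normal_right hD
  have heq : (P : Subgroup M) ⊔ D = (P : Subgroup M) := P.3 hsup le_sup_left
  have hDP : D ≤ (P : Subgroup M) := heq ▸ le_sup_right
  have h1 : (Subgroup.normalizer ((P : Subgroup M) : Set M)).relIndex D = 1 :=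
    Subgroup.relIndex_eq_one.2 (hDP.trans Subgroup.le_normalizer)
  rw [h, h1, mul_one]

/-- The number of Sylow subgroups of a normal subgroup `K`, via the Sylow subgroup `P ⊓ K`. -/
theorem card_sylow_normal {G : Type*} [Group G] [Finite G] (p : ℕ) [Fact p.Prime]
    (K : Subgroup G) [K.Normal] (P : Sylow p G) :
    Nat.card (Sylow p K) =
      (Subgroup.normalizer (((P : Subgroup G) ⊓ K : Subgroup G) : Set G)).relIndex K := by
  have hpg : IsPGroup p (((P : Subgroup G) ⊓ K).subgroupOf K) :=
    (P.2.to_le inf_le_left).comap_subtype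
  have hidx : ¬ p ∣ (((P : Subgroup G) ⊓ K).subgroupOf K).index := by
    intro hdvd
    have h1 : (((P : Subgroup G) ⊓ K).subgroupOf K).index = (P : Subgroup G).relIndex K := by
      rw [Subgroup.inf_subgroupOf_right]; rfl
    rw [h1] at hdvd
    have h2 : (P : Subgroup G).relIndex K ∣ (P : Subgroup G).index := by
      rw [← Cfsg.Agent.S4342.relIndex_sup_of_normal_right (P : Subgroup G) K]
      exact Dvd.intro _ (Subgroup.relIndex_mul_index le_sup_left)
    exact P.not_dvd_index (hdvd.trans h2)
  rw [Sylow.card_eq_index_normalizer (hpg.toSylow hidx)]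
  show (Subgroup.normalizer ((((P : Subgroup G) ⊓ K).subgroupOf K : Subgroup K) : Set K)).index = _
  rw [← Subgroup.subgroupOf_normalizer_eq inf_le_right]
  rfl

/-- Let K be a normal subgroup of a finite group G, p a prime and P a Sylow p-subgroup of G; let N be the normalizer of P ∩ K inside the subgroup PK. Then the number of Sylow p-subgroups of G equals the product of the numbers of Sylow p-subgroups of G/K, of K, and of N/(P ∩ K). (The normality of P ∩ K in N, which always holds, is assumed as a hypothesis so that the quotient can be formed.) -/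
theorem result {G : Type*} [Group G] [Finite G]
    (p : ℕ) [Fact p.Prime] (K : Subgroup G) [K.Normal] (P : Sylow p G) (N : Subgroup G)
    (hN : N = ((P : Subgroup G) ⊔ K) ⊓ Subgroup.normalizer (((P : Subgroup G) ⊓ K : Subgroup G) : Set G))
    [hn : (((P : Subgroup G) ⊓ K).subgroupOf N).Normal] :
    Nat.card (Sylow p G) =
      Nat.card (Sylow p (G ⧸ K)) * Nat.card (Sylow p K) * Nat.card (Sylow p (N ⧸ ((P : Subgroup G) ⊓ K).subgroupOf N)) := by
  have hNPD : Subgroup.normalizer ((P : Subgroup G) : Set G) ≤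
      Subgroup.normalizer (((P : Subgroup G) ⊓ K : Subgroup G) : Set G) := by
    intro g hg
    apply Subgroup.inf_normalizer_le_normalizer_inf
    refine ⟨hg, ?_⟩
    rw [Subgroup.normalizer_eq_top]
    exact Subgroup.mem_top _
  have hPND : (P : Subgroup G) ≤
      Subgroup.normalizer (((P : Subgroup G) ⊓ K : Subgroup G) : Set G) :=
    Subgroup.le_normalizer.trans hNPD
  have hPN : (P : Subgroup G) ≤ N := by
    rw [hN]; exact le_inf le_sup_left hPND
  have ha := Cfsg.Agent.S4345.card_sylow_eq_mul p K P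
  have hb := card_sylow_normal p K P
  have hc1 := card_sylow_quot_pgroup (M := ↥N) p (((P : Subgroup G) ⊓ K).subgroupOf N)
    ((P.2.to_le inf_le_left).comap_subtype)
  have hc2 := card_sylow_subgroup p N P hPN
  rw [ha, hb, hc1, hc2, mul_assoc]
  congr 1
  -- the index identity
  have hK1N : Subgroup.normalizer (((P : Subgroup G) ⊓ K : Subgroup G) : Set G) ⊓ K ≤ N := by
    rw [hN]; exact le_inf (inf_le_right.trans le_sup_right) inf_le_left
  have hnorm : Subgroup.normalizer ((P : Subgroup G) : Set G) ⊓ N ≤ Subgroup.normalizer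
      ((Subgroup.normalizer (((P : Subgroup G) ⊓ K : Subgroup G) : Set G) ⊓ K : Subgroup G) : Set G) := by
    intro g hg
    apply Subgroup.inf_normalizer_le_normalizer_inf
    refine ⟨Subgroup.le_normalizer (hNPD hg.1), ?_⟩
    rw [Subgroup.normalizer_eq_top]
    exact Subgroup.mem_top _
  have hsup : (Subgroup.normalizer ((P : Subgroup G) : Set G) ⊓ N) ⊔
      (Subgroup.normalizer (((P : Subgroup G) ⊓ K : Subgroup G) : Set G) ⊓ K) = N := by
    apply le_antisymm (sup_le inf_le_right hK1N)
    intro n hn'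
    have hn2 : n ∈ ((P : Subgroup G) ⊔ K) ⊓
        Subgroup.normalizer (((P : Subgroup G) ⊓ K : Subgroup G) : Set G) := hN ▸ hn'
    obtain ⟨u, hu, k, hk, huk⟩ := Subgroup.mem_sup_of_normal_right.1 hn2.1
    have hkND : k ∈ Subgroup.normalizer (((P : Subgroup G) ⊓ K : Subgroup G) : Set G) := by
      have h1 := Subgroup.mul_mem _ (Subgroup.inv_mem _ (hPND hu)) hn2.2
      rw [← huk] at h1
      simpa using h1
    rw [← huk]
    exact Subgroup.mul_mem _ (Subgroup.mem_sup_left ⟨Subgroup.le_normalizer hu, hPN hu⟩)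
      (Subgroup.mem_sup_right ⟨hkND, hk⟩)
  have e1 := relIndex_sup_of_le_normalizer _ _ hnorm
  rw [hsup, Subgroup.inf_relIndex_right] at e1
  have e2 : (Subgroup.normalizer ((P : Subgroup G) : Set G) ⊓ N).relIndex
      (Subgroup.normalizer (((P : Subgroup G) ⊓ K : Subgroup G) : Set G) ⊓ K) =
      (Subgroup.normalizer ((P : Subgroup G) : Set G) ⊓ K).relIndex
      (Subgroup.normalizer (((P : Subgroup G) ⊓ K : Subgroup G) : Set G) ⊓ K) := by
    rw [← Subgroup.inf_relIndex_right (Subgroup.normalizer ((P : Subgroup G) : Set G) ⊓ N),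
      ← Subgroup.inf_relIndex_right (Subgroup.normalizer ((P : Subgroup G) : Set G) ⊓ K),
      inf_assoc, inf_assoc, inf_of_le_right hK1N, inf_of_le_right inf_le_right]
  have e3 := Subgroup.relIndex_mul_relIndex
    (Subgroup.normalizer ((P : Subgroup G) : Set G) ⊓ K)
    (Subgroup.normalizer (((P : Subgroup G) ⊓ K : Subgroup G) : Set G) ⊓ K) K
    (le_inf (inf_le_left.trans hNPD) inf_le_right) inf_le_right
  rw [Subgroup.inf_relIndex_right, Subgroup.inf_relIndex_right, ← e2, ← e1] at e3
  rw [← e3, mul_comm]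

end Cfsg.Agent.S4341
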