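import Mathlib
import Cfsg.Statements.S4303
import Cfsg.Agent.S4341
import Cfsg.Agent.S0023
import Cfsg.Agent.S0024
import Cfsg.Agent.S0025

set_option autoImplicit false
universe u
open Cfsg

namespace Cfsg.Agent.S4303

/-- The property to be proved about a number `n`. -/
def HallProp (p n : ℕ) : Prop :=
  ∃ l : List ℕ, l.prod = n ∧
    ∀ m ∈ l, (IsPrimePow m ∧ m % p = 1) ∨
      ∃ (S : Type u) (_ : Group S) (_ : Finite S), IsSimpleGroup S ∧ m = Nat.card (Sylow p S)

theorem HallProp.one (p : ℕ) : HallProp.{u} p 1 :=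
  ⟨[], rfl, fun m hm => by simp at hm⟩

theorem HallProp.mul {p a b : ℕ} (ha : HallProp.{u} p a) (hb : HallProp.{u} p b) :
    HallProp.{u} p (a * b) := by
  obtain ⟨l₁, h₁, h₁'⟩ := ha
  obtain ⟨l₂, h₂, h₂'⟩ := hb
  refine ⟨l₁ ++ l₂, by rw [List.prod_append, h₁, h₂], ?_⟩
  intro m hm
  rcases List.mem_append.1 hm with h | h
  · exact h₁' m h
  · exact h₂' m h

theorem HallProp.simple (p : ℕ) (S : Type u) [Group S] [Finite S] [IsSimpleGroup S] :
    HallProp.{u} p (Nat.card (Sylow p S)) :=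
  ⟨[Nat.card (Sylow p S)], List.prod_singleton, fun m hm =>
    Or.inr ⟨S, ‹Group S›, ‹Finite S›, ‹IsSimpleGroup S›, List.mem_singleton.1 hm⟩⟩

theorem HallProp.of_primePowers (p : ℕ) (hp : 1 < p) (r : ℕ) (hr : r ≠ 0)
    (h : ∀ q : ℕ, q.Prime → q ^ r.factorization q ≡ 1 [MOD p]) : HallProp.{u} p r := by
  refine ⟨r.primeFactors.toList.map (fun q => q ^ r.factorization q), ?_, ?_⟩
  · rw [Finset.prod_map_toList]
    exact (Nat.prod_primeFactors_pow_factorization hr).symm
  · intro m hm
    obtain ⟨q, hq, rfl⟩ := List.mem_map.1 hm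
    have hq' := Nat.mem_primeFactors.1 (Finset.mem_toList.1 hq)
    left
    refine ⟨(hq'.1.isPrimePow).pow (Nat.Prime.factorization_pos_of_dvd hq'.1 hr hq'.2.1).ne', ?_⟩
    have h2 : q ^ r.factorization q % p = 1 % p := h q hq'.1
    rw [Nat.mod_eq_of_lt hp] at h2
    exact h2

theorem inf_ne_bot_of_dvd {G : Type*} [Group G] [Finite G] (p : ℕ) [Fact p.Prime]
    (K : Subgroup G) [K.Normal] (P : Sylow p G) (hpK : p ∣ Nat.card K) :
    (P : Subgroup G) ⊓ K ≠ ⊥ := by
  intro hbot
  have h1 := Cfsg.Agent.S4342.relIndex_mul_card_inf (P : Subgroup G) K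
  rw [hbot, Subgroup.card_bot, mul_one] at h1
  have h2 : (P : Subgroup G).relIndex K ∣ (P : Subgroup G).index := by
    rw [← Cfsg.Agent.S4342.relIndex_sup_of_normal_right (P : Subgroup G) K]
    exact Dvd.intro _ (Subgroup.relIndex_mul_index le_sup_left)
  rw [← h1] at hpK
  exact P.not_dvd_index (hpK.trans h2)

/-- If `K` is a normal `p'`-subgroup and `P` a Sylow `p`-subgroup, then for every prime `q` the
`q`-part of `[K : N_K(P)]` is congruent to `1` modulo `p`. -/
theorem qpart_modEq_one {G : Type*} [Group G] [Finite G] (p : ℕ) [hp : Fact p.Prime]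
    (K : Subgroup G) [hKn : K.Normal] (hpK : ¬ p ∣ Nat.card K) (P : Sylow p G)
    (q : ℕ) [hq : Fact q.Prime] :
    q ^ ((Subgroup.normalizer ((P : Subgroup G) : Set G)).relIndex K).factorization q
      ≡ 1 [MOD p] := by
  obtain ⟨NP, hNP⟩ : ∃ NP : Subgroup G, NP = Subgroup.normalizer ((P : Subgroup G) : Set G) :=
    ⟨_, rfl⟩
  rw [← hNP]
  have hNPmem : ∀ g ∈ NP, ∀ a, a ∈ (P : Subgroup G) ↔ g * a * g⁻¹ ∈ (P : Subgroup G) := by
    intro g hg
    rw [hNP] at hg
    exact Subgroup.mem_normalizer_iff.1 hg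
  have hPNP : (P : Subgroup G) ≤ NP := by rw [hNP]; exact Subgroup.le_normalizer
  have hAK : (P : Subgroup G) ≤ Subgroup.normalizer (K : Set G) := by
    rw [Subgroup.normalizer_eq_top]; exact le_top
  have hcop : (Nat.card (P : Subgroup G)).Coprime (Nat.card K) := by
    obtain ⟨n, hn⟩ := IsPGroup.iff_card.1 P.2
    rw [hn]
    exact Nat.Coprime.pow_left n ((Nat.Prime.coprime_iff_not_dvd hp.out).2 hpK)
  have hnil : Group.IsNilpotent (P : Subgroup G) := P.2.isNilpotent
  have hsolv : Group.IsSolvable (P : Subgroup G) ∨ Group.IsSolvable K := Or.inl inferInstance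
  have hPK : (P : Subgroup G) ⊓ K = ⊥ := (Subgroup.disjoint_of_coprime_natCard hcop).eq_bot
  obtain ⟨C, hC⟩ : ∃ C : Subgroup G, C = NP ⊓ K := ⟨_, rfl⟩
  have hCK : C ≤ K := by rw [hC]; exact inf_le_right
  have hCNP : C ≤ NP := by rw [hC]; exact inf_le_left
  have hcommC : ∀ a ∈ (P : Subgroup G), ∀ c ∈ C, a * c = c * a := by
    intro a ha c hc
    have h1 : a * c * a⁻¹ * c⁻¹ ∈ (P : Subgroup G) ⊓ K := by
      refine ⟨?_, ?_⟩
      · have h2 : c * a⁻¹ * c⁻¹ ∈ (P : Subgroup G) :=
          (hNPmem c (hCNP hc) a⁻¹).1 (Subgroup.inv_mem _ ha)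
        have h3 := Subgroup.mul_mem _ ha h2
        have h4 : a * (c * a⁻¹ * c⁻¹) = a * c * a⁻¹ * c⁻¹ := by group
        rw [h4] at h3; exact h3
      · have h2 : a * c * a⁻¹ ∈ K := hKn.conj_mem c (hCK hc) a
        exact Subgroup.mul_mem _ h2 (Subgroup.inv_mem _ (hCK hc))
    rw [hPK, Subgroup.mem_bot] at h1
    calc a * c = (a * c * a⁻¹ * c⁻¹) * (c * a) := by group
      _ = c * a := by rw [h1, one_mul]
  -- invariant Sylow `q`-subgroup of `K`
  obtain ⟨Q, hQ⟩ := Cfsg.Agent.S0023.result (P : Subgroup G) K hAK hcop hsolv q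
  obtain ⟨Q', hQ'⟩ : ∃ Q' : Subgroup G, Q' = (Q : Subgroup K).map K.subtype := ⟨_, rfl⟩
  rw [← hQ'] at hQ
  have hQ'pg : IsPGroup q Q' := by rw [hQ']; exact Q.2.map K.subtype
  have hQ'K : Q' ≤ K := by rw [hQ']; exact Subgroup.map_subtype_le _
  have hQ'card : Nat.card Q' = q ^ (Nat.card K).factorization q := by
    rw [hQ', Subgroup.card_map_of_injective K.subtype_injective]
    exact Sylow.card_eq_multiplicity Q
  -- Sylow `q`-subgroup of `C`
  obtain ⟨R₀⟩ : Nonempty (Sylow q C) := inferInstance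
  obtain ⟨R, hR⟩ : ∃ R : Subgroup G, R = (R₀ : Subgroup C).map C.subtype := ⟨_, rfl⟩
  have hRC : R ≤ C := by rw [hR]; exact Subgroup.map_subtype_le _
  have hRcard : Nat.card R = q ^ (Nat.card C).factorization q := by
    rw [hR, Subgroup.card_map_of_injective C.subtype_injective]
    exact Sylow.card_eq_multiplicity R₀
  have hRpg : IsPGroup q R := by rw [hR]; exact R₀.2.map C.subtype
  have hAR : (P : Subgroup G) ≤ Subgroup.normalizer (R : Set G) := by
    intro a ha
    rw [Subgroup.mem_normalizer_iff]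
    intro n
    constructor
    · intro hn
      have hn' : n ∈ R := hn
      have h1 := hcommC a ha n (hRC hn')
      have h2 : a * n * a⁻¹ = n := by rw [h1]; group
      rw [h2]; exact hn
    · intro hn
      have hn' : a * n * a⁻¹ ∈ R := hn
      have h1 := hcommC a ha (a * n * a⁻¹) (hRC hn')
      have h2 : a * n * a⁻¹ = n := by
        have h3 : a * (a * n * a⁻¹) = a * n := by rw [h1]; group
        exact mul_left_cancel h3
      rw [h2] at hn; exact hn
  obtain ⟨Q₂, hRQ₂, hQ₂⟩ := Cfsg.Agent.S0025.result (P : Subgroup G) K hAK hcop hsolv q R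
    (hRC.trans hCK) hRpg hAR
  obtain ⟨c, hc, hcQ⟩ := Cfsg.Agent.S0024.result (P : Subgroup G) K hAK hcop hsolv q Q Q₂
    (by rw [← hQ']; exact hQ) hQ₂
  have hcNP : (c : G) ∈ NP := by
    rw [hNP]; exact Subgroup.centralizer_le_normalizer _ hc
  have hconj : ∀ r ∈ R, (c : G)⁻¹ * r * (c : G) ∈ NP ⊓ Q' := by
    intro r hr
    refine ⟨?_, ?_⟩
    · exact NP.mul_mem (NP.mul_mem (NP.inv_mem hcNP) (hCNP (hRC hr))) hcNP
    · obtain ⟨y, hy, hyr⟩ := Subgroup.mem_map.1 (hRQ₂ hr)
      rw [← hcQ] at hy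
      have hy1 : y ∈ ((MulAut.conj c • Q : Sylow q K) : Subgroup K) := hy
      rw [Sylow.pointwise_smul_def] at hy1
      have hy' : c⁻¹ * y * c ∈ (Q : Subgroup K) := Cfsg.Agent.Helper1.mem_conj_smul.1 hy1
      have h2 := Subgroup.mem_map_of_mem K.subtype hy'
      rw [hQ']
      have h3 : K.subtype (c⁻¹ * y * c) = (c : G)⁻¹ * r * (c : G) := by
        rw [← hyr]; rfl
      rw [← h3]; exact h2
  have hle : Nat.card R ≤ Nat.card (NP ⊓ Q' : Subgroup G) := by
    let f : R → (NP ⊓ Q' : Subgroup G) := fun r => ⟨(c : G)⁻¹ * r * (c : G), hconj r r.2⟩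
    have hf : Function.Injective f := by
      intro r₁ r₂ h
      have h1 : (c : G)⁻¹ * r₁ * (c : G) = (c : G)⁻¹ * r₂ * (c : G) := congrArg Subtype.val h
      exact Subtype.ext (mul_left_cancel (mul_right_cancel h1))
    exact Nat.card_le_card_of_injective f hf
  have hI : (NP ⊓ Q' : Subgroup G) ≤ C := by rw [hC]; exact inf_le_inf_left NP hQ'K
  obtain ⟨k, hk⟩ := IsPGroup.iff_card.1 (hQ'pg.to_le (inf_le_right : NP ⊓ Q' ≤ Q'))
  have hkdvd : q ^ k ∣ Nat.card C := by rw [← hk]; exact Subgroup.card_dvd_of_le hI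
  have hCpos : Nat.card C ≠ 0 := (Nat.card_pos (α := C)).ne'
  have hkle : k ≤ (Nat.card C).factorization q :=
    (hq.out.pow_dvd_iff_le_factorization hCpos).1 hkdvd
  have hIcard : Nat.card (NP ⊓ Q' : Subgroup G) = q ^ (Nat.card C).factorization q := by
    apply le_antisymm
    · rw [hk]; exact Nat.pow_le_pow_right hq.out.pos hkle
    · rw [← hRcard]; exact hle
  have e1 := Cfsg.Agent.S4342.relIndex_mul_card_inf NP Q'
  have e2 := Cfsg.Agent.S4342.relIndex_mul_card_inf NP K
  rw [hIcard, hQ'card] at e1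
  rw [← hC] at e2
  have hr0 : NP.relIndex K ≠ 0 := by
    intro h0
    rw [h0, zero_mul] at e2
    exact (Nat.card_pos (α := K)).ne' e2.symm
  have e3 : (Nat.card K).factorization q =
      (NP.relIndex K).factorization q + (Nat.card C).factorization q := by
    rw [← e2, Nat.factorization_mul hr0 hCpos]; rfl
  rw [e3, pow_add] at e1
  have hm : NP.relIndex Q' = q ^ (NP.relIndex K).factorization q :=
    Nat.eq_of_mul_eq_mul_right (pow_pos hq.out.pos _) e1
  -- count the Sylow `p`-subgroups of `P ⊔ Q'`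
  obtain ⟨T, hT⟩ : ∃ T : Subgroup G, T = (P : Subgroup G) ⊔ Q' := ⟨_, rfl⟩
  have hPT : (P : Subgroup G) ≤ T := by rw [hT]; exact le_sup_left
  have hQT : Q' ≤ T := by rw [hT]; exact le_sup_right
  have hTn : T ≤ Subgroup.normalizer (Q' : Set G) := by
    rw [hT]; exact sup_le hQ Subgroup.le_normalizer
  have c1 := Cfsg.Agent.S4341.card_sylow_subgroup p T P hPT
  rw [← hNP] at c1
  have c2 := Cfsg.Agent.S4341.relIndex_sup_of_le_normalizer (NP ⊓ T) Q' (inf_le_right.trans hTn)
  have hsup : (NP ⊓ T) ⊔ Q' = T := by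
    apply le_antisymm (sup_le inf_le_right hQT)
    exact hT.le.trans (sup_le (le_sup_of_le_left (le_inf hPNP hPT)) le_sup_right)
  rw [hsup, Subgroup.inf_relIndex_right] at c2
  have c3 : (NP ⊓ T).relIndex Q' = NP.relIndex Q' := by
    rw [← Subgroup.inf_relIndex_right (NP ⊓ T) Q', inf_assoc, inf_of_le_right hQT,
      Subgroup.inf_relIndex_right]
  have c4 : Nat.card (Sylow p T) ≡ 1 [MOD p] := card_sylow_modEq_one p T
  rw [c1, c2, c3, hm] at c4
  exact c4

theorem main (p : ℕ) [hp : Fact p.Prime] : ∀ (n : ℕ) (G : Type u) [Group G] [Finite G],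
    Nat.card G = n → HallProp.{u} p (Nat.card (Sylow p G)) := by
  intro n
  induction n using Nat.strong_induction_on with
  | _ n ih =>
    intro G _ _ hn
    by_cases hs : IsSimpleGroup G
    · exact HallProp.simple p G
    obtain ⟨P⟩ : Nonempty (Sylow p G) := inferInstance
    by_cases htriv : Subsingleton G
    · have h1 : Nat.card G = 1 := Nat.card_eq_one_iff_unique.2 ⟨htriv, inferInstance⟩
      have h2 : Nat.card (Sylow p G) ∣ 1 := by
        rw [← h1]
        exact (P.card_dvd_index).trans (Subgroup.index_dvd_card _)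
      rw [Nat.dvd_one.1 h2]
      exact HallProp.one p
    have hex : ∃ K : Subgroup G, K.Normal ∧ K ≠ ⊥ ∧ K ≠ ⊤ := by
      by_contra hcon
      push Not at hcon
      have hnt : Nontrivial G := not_subsingleton_iff_nontrivial.1 htriv
      exact hs ⟨fun H hH => by
        by_cases hb : H = ⊥
        · exact Or.inl hb
        · exact Or.inr (hcon H hH hb)⟩
    obtain ⟨K, hKn, hKbot, hKtop⟩ := hex
    have hcardK : 1 < Nat.card K := (Subgroup.one_lt_card_iff_ne_bot K).2 hKbot
    have hGK : Nat.card (G ⧸ K) < n := by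
      rw [← hn, Subgroup.card_eq_card_quotient_mul_card_subgroup K]
      have hpos : 0 < Nat.card (G ⧸ K) := Nat.card_pos
      nlinarith
    have ihGK : HallProp.{u} p (Nat.card (Sylow p (G ⧸ K))) := ih _ hGK (G ⧸ K) rfl
    by_cases hpK : p ∣ Nat.card K
    · have hD := inf_ne_bot_of_dvd p K P hpK
      obtain ⟨N, hN⟩ : ∃ N : Subgroup G, N = ((P : Subgroup G) ⊔ K) ⊓
          Subgroup.normalizer (((P : Subgroup G) ⊓ K : Subgroup G) : Set G) := ⟨_, rfl⟩
      have hDN : (P : Subgroup G) ⊓ K ≤ N := by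
        rw [hN]; exact le_inf (inf_le_left.trans le_sup_left) Subgroup.le_normalizer
      have hnorm : (((P : Subgroup G) ⊓ K).subgroupOf N).Normal :=
        (Subgroup.normal_subgroupOf_iff_le_normalizer hDN).2 (by rw [hN]; exact inf_le_right)
      have key := Cfsg.Agent.S4341.result p K P N hN
      rw [key]
      have hKlt : Nat.card K < n := by
        rw [← hn, ← Subgroup.card_mul_index K]
        have h1 : 1 < K.index := Subgroup.one_lt_index_of_ne_top hKtop
        have hpos : 0 < Nat.card K := Nat.card_pos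
        nlinarith
      have ihK : HallProp.{u} p (Nat.card (Sylow p K)) := ih _ hKlt K rfl
      have hNlt : Nat.card (N ⧸ ((P : Subgroup G) ⊓ K).subgroupOf N) < n := by
        have h1 := Subgroup.card_eq_card_quotient_mul_card_subgroup
          (((P : Subgroup G) ⊓ K).subgroupOf N)
        have h2 : Nat.card (((P : Subgroup G) ⊓ K).subgroupOf N) =
            Nat.card ((P : Subgroup G) ⊓ K : Subgroup G) :=
          Nat.card_congr (Subgroup.subgroupOfEquivOfLe hDN).toEquiv
        have h3 : 1 < Nat.card ((P : Subgroup G) ⊓ K : Subgroup G) :=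
          (Subgroup.one_lt_card_iff_ne_bot _).2 hD
        have h4 : Nat.card N ≤ Nat.card G :=
          Nat.le_of_dvd Nat.card_pos (Subgroup.card_subgroup_dvd_card N)
        have hpos : 0 < Nat.card (N ⧸ ((P : Subgroup G) ⊓ K).subgroupOf N) := Nat.card_pos
        rw [h2] at h1
        rw [← hn]
        nlinarith
      have ihN : HallProp.{u} p
          (Nat.card (Sylow p (N ⧸ ((P : Subgroup G) ⊓ K).subgroupOf N))) :=
        ih _ hNlt _ rfl
      exact (ihGK.mul ihK).mul ihN
    · rw [Cfsg.Agent.S4345.card_sylow_eq_mul p K P]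
      refine ihGK.mul (HallProp.of_primePowers p hp.out.one_lt _ ?_ ?_)
      · intro h0
        have e2 := Cfsg.Agent.S4342.relIndex_mul_card_inf
          (Subgroup.normalizer ((P : Subgroup G) : Set G)) K
        rw [h0, zero_mul] at e2
        exact (Nat.card_pos (α := K)).ne' e2.symm
      · intro q hq
        have : Fact q.Prime := ⟨hq⟩
        exact qpart_modEq_one p K hpK P q

/-- For a finite group `G` and a prime `p`, the number of Sylow `p`-subgroups of `G` is a product of natural numbers each of which is either a prime power congruent to 1 modulo `p` or the number of Sylow `p`-subgroups of some finite simple group. -/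
theorem result {G : Type u} [Group G] [Finite G]
    (p : ℕ) [Fact p.Prime] :
    ∃ l : List ℕ, l.prod = Nat.card (Sylow p G) ∧
      ∀ m ∈ l, (IsPrimePow m ∧ m % p = 1) ∨
        ∃ (S : Type u) (_ : Group S) (_ : Finite S), IsSimpleGroup S ∧ m = Nat.card (Sylow p S) := by
  exact main p (Nat.card G) G rfl

end Cfsg.Agent.S4303
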