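import Mathlib
import Cfsg.Statements.S4496
import Cfsg.Agent.S4303

set_option autoImplicit false
open Cfsg
open scoped commutatorElement

namespace Cfsg.Agent.S4496

theorem zpowers_eq_of_mem {G : Type*} [Group G] [Finite G] {p : ℕ} (hp : p.Prime) {x y : G}
    (hx : orderOf x = p) (hy : y ∈ Subgroup.zpowers x) (hy1 : y ≠ 1) :
    Subgroup.zpowers y = Subgroup.zpowers x := by
  have hle : Subgroup.zpowers y ≤ Subgroup.zpowers x := Subgroup.zpowers_le.2 hy
  apply Subgroup.eq_of_le_of_card_ge hle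
  have h1 : orderOf y ∣ p := by
    have h2 := Subgroup.card_dvd_of_le hle
    rw [Nat.card_zpowers, Nat.card_zpowers, hx] at h2
    exact h2
  rw [Nat.card_zpowers, Nat.card_zpowers, hx]
  rcases (Nat.dvd_prime hp).1 h1 with h | h
  · exact absurd (orderOf_eq_one_iff.1 h) hy1
  · exact h.ge

theorem mem_zpowers_of_mem {G : Type*} [Group G] [Finite G] {p : ℕ} (hp : p.Prime) {x y : G}
    (hx : orderOf x = p) (hy : y ∈ Subgroup.zpowers x) (hy1 : y ≠ 1) :
    x ∈ Subgroup.zpowers y := by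
  rw [zpowers_eq_of_mem hp hx hy hy1]; exact Subgroup.mem_zpowers x

theorem orderOf_eq_of_mem {G : Type*} [Group G] [Finite G] {p : ℕ} (hp : p.Prime) {x y : G}
    (hx : orderOf x = p) (hy : y ∈ Subgroup.zpowers x) (hy1 : y ≠ 1) : orderOf y = p := by
  rw [← Nat.card_zpowers, zpowers_eq_of_mem hp hx hy hy1, Nat.card_zpowers, hx]

/-- The centralizer of a nontrivial power of `x`. -/
theorem centralizer_eq_of_mem {G : Type*} [Group G] [Finite G] {p : ℕ} (hp : p.Prime) {x y : G}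
    (hx : orderOf x = p) (hC : Subgroup.centralizer ({x} : Set G) = Subgroup.zpowers x)
    (hy : y ∈ Subgroup.zpowers x) (hy1 : y ≠ 1) :
    Subgroup.centralizer ({y} : Set G) = Subgroup.zpowers x := by
  obtain ⟨k, hk⟩ := Subgroup.mem_zpowers_iff.1 (mem_zpowers_of_mem hp hx hy hy1)
  obtain ⟨j, hj⟩ := Subgroup.mem_zpowers_iff.1 hy
  apply le_antisymm
  · intro g hg
    rw [← hC, Subgroup.mem_centralizer_iff]
    intro h hh
    rw [Set.mem_singleton_iff.1 hh]
    have h1 : Commute y g := Subgroup.mem_centralizer_iff.1 hg y (Set.mem_singleton y)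
    rw [← hk]
    exact (h1.zpow_left k).eq
  · intro g hg
    rw [← hC] at hg
    rw [Subgroup.mem_centralizer_iff]
    intro h hh
    rw [Set.mem_singleton_iff.1 hh]
    have h1 : Commute x g := Subgroup.mem_centralizer_iff.1 hg x (Set.mem_singleton x)
    rw [← hj]
    exact (h1.zpow_left j).eq

/-- `⟨x⟩` is a Sylow `p`-subgroup. -/
theorem exists_sylow_eq_zpowers {G : Type*} [Group G] [Finite G] (p : ℕ) [hp : Fact p.Prime]
    (x : G) (hx : orderOf x = p)
    (hC : Subgroup.centralizer ({x} : Set G) = Subgroup.zpowers x) :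
    ∃ P : Sylow p G, (P : Subgroup G) = Subgroup.zpowers x := by
  have hXp : IsPGroup p (Subgroup.zpowers x) :=
    IsPGroup.of_card (n := 1) (by rw [Nat.card_zpowers, hx, pow_one])
  obtain ⟨P, hP⟩ := hXp.exists_le_sylow
  refine ⟨P, le_antisymm ?_ hP⟩
  have hxP : x ∈ (P : Subgroup G) := hP (Subgroup.mem_zpowers x)
  have hx1 : x ≠ 1 := by
    intro h
    rw [h, orderOf_one] at hx
    exact hp.out.one_lt.ne hx
  have hnt : Nontrivial (P : Subgroup G) :=
    ⟨⟨⟨x, hxP⟩, 1, fun h => hx1 (congrArg Subtype.val h)⟩⟩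
  have hcn : Nontrivial (Subgroup.center (P : Subgroup G)) := P.2.center_nontrivial
  obtain ⟨z, hz, hz1⟩ := (Subgroup.nontrivial_iff_exists_ne_one _).1 hcn
  have hzx : (z : G) ∈ Subgroup.zpowers x := by
    rw [← hC, Subgroup.mem_centralizer_iff]
    intro h hh
    rw [Set.mem_singleton_iff.1 hh]
    exact congrArg Subtype.val (Subgroup.mem_center_iff.1 hz ⟨x, hxP⟩)
  have hz1' : (z : G) ≠ 1 := fun h => hz1 (Subtype.ext h)
  obtain ⟨k, hk⟩ := Subgroup.mem_zpowers_iff.1 (mem_zpowers_of_mem hp.out hx hzx hz1')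
  intro g hg
  rw [← hC, Subgroup.mem_centralizer_iff]
  intro h hh
  rw [Set.mem_singleton_iff.1 hh]
  have h1 : (⟨g, hg⟩ : (P : Subgroup G)) * z = z * ⟨g, hg⟩ :=
    Subgroup.mem_center_iff.1 hz ⟨g, hg⟩
  have h2 : Commute (z : G) g := (congrArg Subtype.val h1).symm
  rw [← hk]
  exact (h2.zpow_left k).eq

theorem conj_comm {G : Type*} [Group G] (x a b : G)
    (ha : a ∈ Subgroup.normalizer ((Subgroup.zpowers x : Subgroup G) : Set G))
    (hb : b ∈ Subgroup.normalizer ((Subgroup.zpowers x : Subgroup G) : Set G)) :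
    a * b * x * b⁻¹ * a⁻¹ = b * a * x * a⁻¹ * b⁻¹ := by
  have ha' : a * x * a⁻¹ ∈ Subgroup.zpowers x :=
    (Subgroup.mem_normalizer_iff.1 ha x).1 (Subgroup.mem_zpowers x)
  have hb' : b * x * b⁻¹ ∈ Subgroup.zpowers x :=
    (Subgroup.mem_normalizer_iff.1 hb x).1 (Subgroup.mem_zpowers x)
  obtain ⟨i, hi⟩ := Subgroup.mem_zpowers_iff.1 ha'
  obtain ⟨j, hj⟩ := Subgroup.mem_zpowers_iff.1 hb'
  calc a * b * x * b⁻¹ * a⁻¹ = a * (b * x * b⁻¹) * a⁻¹ := by group
    _ = a * x ^ j * a⁻¹ := by rw [hj]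
    _ = (a * x * a⁻¹) ^ j := conj_zpow.symm
    _ = (x ^ i) ^ j := by rw [hi]
    _ = (x ^ j) ^ i := by rw [← zpow_mul, ← zpow_mul, mul_comm]
    _ = (b * x * b⁻¹) ^ i := by rw [hj]
    _ = b * x ^ i * b⁻¹ := conj_zpow
    _ = b * (a * x * a⁻¹) * b⁻¹ := by rw [hi]
    _ = b * a * x * a⁻¹ * b⁻¹ := by group

theorem commutator_mem_centralizer {G : Type*} [Group G] (x a b : G)
    (ha : a ∈ Subgroup.normalizer ((Subgroup.zpowers x : Subgroup G) : Set G))
    (hb : b ∈ Subgroup.normalizer ((Subgroup.zpowers x : Subgroup G) : Set G)) :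
    ⁅a, b⁆ ∈ Subgroup.centralizer ({x} : Set G) := by
  have h := conj_comm x a⁻¹ b⁻¹ (Subgroup.inv_mem _ ha) (Subgroup.inv_mem _ hb)
  simp only [inv_inv] at h
  rw [Subgroup.mem_centralizer_iff]
  intro y hy
  rw [Set.mem_singleton_iff.1 hy, commutatorElement_def]
  calc x * (a * b * a⁻¹ * b⁻¹) = a * b * (b⁻¹ * a⁻¹ * x * a * b) * a⁻¹ * b⁻¹ := by group
    _ = a * b * (a⁻¹ * b⁻¹ * x * b * a) * a⁻¹ * b⁻¹ := by rw [h]
    _ = a * b * a⁻¹ * b⁻¹ * x := by group

/-- A normal subgroup of order divisible by `p` contains `x`. -/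
theorem mem_of_dvd_card {G : Type*} [Group G] [Finite G] (p : ℕ) [hp : Fact p.Prime] (x : G)
    (hx : orderOf x = p) (hC : Subgroup.centralizer ({x} : Set G) = Subgroup.zpowers x)
    (S : Subgroup G) [S.Normal] (hdvd : p ∣ Nat.card S) : x ∈ S := by
  obtain ⟨P, hP⟩ := exists_sylow_eq_zpowers p x hx hC
  have hne := Cfsg.Agent.S4303.inf_ne_bot_of_dvd p S P hdvd
  rw [hP] at hne
  by_contra hxS
  apply hne
  rw [Subgroup.eq_bot_iff_forall]
  intro y hy
  by_contra hy1
  exact hxS (Subgroup.zpowers_le.2 hy.2 (mem_zpowers_of_mem hp.out hx hy.1 hy1))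

/-- Frattini: `G = N_G(⟨x⟩) S` for a normal subgroup `S` containing `x`. -/
theorem frattini {G : Type*} [Group G] [Finite G] (p : ℕ) [hp : Fact p.Prime] (x : G)
    (hx : orderOf x = p) (hC : Subgroup.centralizer ({x} : Set G) = Subgroup.zpowers x)
    (S : Subgroup G) [S.Normal] (hxS : x ∈ S) (g : G) :
    ∃ n ∈ Subgroup.normalizer ((Subgroup.zpowers x : Subgroup G) : Set G),
      ∃ s ∈ S, n * s = g := by
  obtain ⟨P, hP⟩ := exists_sylow_eq_zpowers p x hx hC
  have hPS : (P : Subgroup G) ≤ S := by rw [hP]; exact Subgroup.zpowers_le.2 hxS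
  have hfr := Cfsg.Agent.S4345.frattini_aux p S P hPS
  have hNS : Subgroup.normalizer (S : Set G) = ⊤ := Subgroup.normalizer_eq_top S
  rw [hNS, hP] at hfr
  exact Subgroup.mem_sup_of_normal_right.1 (hfr (Subgroup.mem_top g))

theorem commutator_le_of_dvd {G : Type*} [Group G] [Finite G] (p : ℕ) [hp : Fact p.Prime]
    (x : G) (hx : orderOf x = p)
    (hC : Subgroup.centralizer ({x} : Set G) = Subgroup.zpowers x)
    (S : Subgroup G) [S.Normal] (hdvd : p ∣ Nat.card S) : commutator G ≤ S := by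
  have hxS := mem_of_dvd_card p x hx hC S hdvd
  have hπ : ∀ s ∈ S, (QuotientGroup.mk' S) s = 1 :=
    fun s hs => (QuotientGroup.eq_one_iff s).2 hs
  rw [_root_.commutator_def, Subgroup.commutator_le]
  intro g₁ _ g₂ _
  obtain ⟨n₁, hn₁, s₁, hs₁, rfl⟩ := frattini p x hx hC S hxS g₁
  obtain ⟨n₂, hn₂, s₂, hs₂, rfl⟩ := frattini p x hx hC S hxS g₂
  have hc : ⁅n₁, n₂⁆ ∈ S := by
    have h1 := commutator_mem_centralizer x n₁ n₂ hn₁ hn₂
    rw [hC] at h1
    exact Subgroup.zpowers_le.2 hxS h1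
  have hmem : (QuotientGroup.mk' S) ⁅n₁ * s₁, n₂ * s₂⁆ = 1 := by
    rw [map_commutatorElement, map_mul, map_mul, hπ s₁ hs₁, hπ s₂ hs₂, mul_one, mul_one,
      ← map_commutatorElement]
    exact hπ _ hc
  exact (QuotientGroup.eq_one_iff _).1 hmem

theorem zpowers_inf_eq_bot {G : Type*} [Group G] [Finite G] (p : ℕ) (hp : p.Prime) (x : G)
    (hx : orderOf x = p) (S : Subgroup G) (hndvd : ¬ p ∣ Nat.card S) :
    Subgroup.zpowers x ⊓ S = ⊥ := by
  refine (Subgroup.disjoint_of_coprime_natCard ?_).eq_bot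
  rw [Nat.card_zpowers, hx]
  exact (Nat.Prime.coprime_iff_not_dvd hp).2 hndvd

/-- An element normalizing `⟨x⟩` whose commutator with `x` lies in the `p'`-subgroup `S` is a
power of `x`. -/
theorem mem_zpowers_of_comm_mem {G : Type*} [Group G] [Finite G] (p : ℕ) (hp : p.Prime) (x : G)
    (hx : orderOf x = p) (hC : Subgroup.centralizer ({x} : Set G) = Subgroup.zpowers x)
    (S : Subgroup G) (hndvd : ¬ p ∣ Nat.card S) (n : G)
    (hn : n ∈ Subgroup.normalizer ((Subgroup.zpowers x : Subgroup G) : Set G))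
    (hnS : n * x * n⁻¹ * x⁻¹ ∈ S) : n ∈ Subgroup.zpowers x := by
  have hXS := zpowers_inf_eq_bot p hp x hx S hndvd
  have h1 : n * x * n⁻¹ * x⁻¹ ∈ Subgroup.zpowers x ⊓ S := by
    refine ⟨?_, hnS⟩
    have h2 : n * x * n⁻¹ ∈ Subgroup.zpowers x :=
      (Subgroup.mem_normalizer_iff.1 hn x).1 (Subgroup.mem_zpowers x)
    exact Subgroup.mul_mem _ h2 (Subgroup.inv_mem _ (Subgroup.mem_zpowers x))
  rw [hXS, Subgroup.mem_bot] at h1
  rw [← hC, Subgroup.mem_centralizer_iff]
  intro h hh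
  rw [Set.mem_singleton_iff.1 hh]
  calc x * n = (n * x * n⁻¹ * x⁻¹)⁻¹ * (n * x) := by group
    _ = n * x := by rw [h1, inv_one, one_mul]

theorem normalizer_inf_eq_bot {G : Type*} [Group G] [Finite G] (p : ℕ) (hp : p.Prime) (x : G)
    (hx : orderOf x = p) (hC : Subgroup.centralizer ({x} : Set G) = Subgroup.zpowers x)
    (S : Subgroup G) [hS : S.Normal] (hndvd : ¬ p ∣ Nat.card S) :
    Subgroup.normalizer ((Subgroup.zpowers x : Subgroup G) : Set G) ⊓ S = ⊥ := by
  have hXS := zpowers_inf_eq_bot p hp x hx S hndvd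
  rw [Subgroup.eq_bot_iff_forall]
  intro s hs
  have h1 : s ∈ Subgroup.zpowers x := by
    apply mem_zpowers_of_comm_mem p hp x hx hC S hndvd s hs.1
    have h2 : x * s⁻¹ * x⁻¹ ∈ S := hS.conj_mem _ (S.inv_mem hs.2) x
    have h3 := S.mul_mem hs.2 h2
    have h4 : s * (x * s⁻¹ * x⁻¹) = s * x * s⁻¹ * x⁻¹ := by group
    rw [h4] at h3; exact h3
  have h5 : s ∈ Subgroup.zpowers x ⊓ S := ⟨h1, hs.2⟩
  rw [hXS, Subgroup.mem_bot] at h5
  exact h5

/-- A normal subgroup of order prime to `p` consists of commutators. -/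
theorem le_commutator_of_not_dvd {G : Type*} [Group G] [Finite G] (p : ℕ) (hp : p.Prime)
    (x : G) (hx : orderOf x = p)
    (hC : Subgroup.centralizer ({x} : Set G) = Subgroup.zpowers x)
    (S : Subgroup G) [hS : S.Normal] (hndvd : ¬ p ∣ Nat.card S) : S ≤ commutator G := by
  have hXS := zpowers_inf_eq_bot p hp x hx S hndvd
  let f : S → S := fun s => ⟨(s : G)⁻¹ * x * s * x⁻¹, by
    have h2 : x * (s : G) * x⁻¹ ∈ S := hS.conj_mem _ s.2 x
    have h3 := S.mul_mem (S.inv_mem s.2) h2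
    have h4 : (s : G)⁻¹ * (x * s * x⁻¹) = (s : G)⁻¹ * x * s * x⁻¹ := by group
    rw [h4] at h3; exact h3⟩
  have hf : Function.Injective f := by
    intro s₁ s₂ h
    have h1 : (s₁ : G)⁻¹ * x * s₁ * x⁻¹ = (s₂ : G)⁻¹ * x * s₂ * x⁻¹ := congrArg Subtype.val h
    have h2 : (s₂ : G) * (s₁ : G)⁻¹ ∈ Subgroup.zpowers x := by
      rw [← hC, Subgroup.mem_centralizer_iff]
      intro y hy
      rw [Set.mem_singleton_iff.1 hy]
      have h3 : (s₁ : G)⁻¹ * x * s₁ = (s₂ : G)⁻¹ * x * s₂ := mul_right_cancel h1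
      calc x * ((s₂ : G) * (s₁ : G)⁻¹) = s₂ * ((s₂ : G)⁻¹ * x * s₂) * (s₁ : G)⁻¹ := by group
        _ = s₂ * ((s₁ : G)⁻¹ * x * s₁) * (s₁ : G)⁻¹ := by rw [h3]
        _ = (s₂ : G) * (s₁ : G)⁻¹ * x := by group
    have h4 : (s₂ : G) * (s₁ : G)⁻¹ ∈ Subgroup.zpowers x ⊓ S :=
      ⟨h2, S.mul_mem s₂.2 (S.inv_mem s₁.2)⟩
    rw [hXS, Subgroup.mem_bot] at h4
    exact Subtype.ext (mul_inv_eq_one.1 h4).symm
  have hsurj : Function.Surjective f := Finite.injective_iff_surjective.1 hf
  intro u hu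
  obtain ⟨s, hs⟩ := hsurj ⟨u, hu⟩
  have h1 : (s : G)⁻¹ * x * s * x⁻¹ = u := congrArg Subtype.val hs
  have h2 : ⁅(s : G)⁻¹, x⁆ = u := by rw [commutatorElement_def, inv_inv]; exact h1
  rw [← h2, _root_.commutator_def]
  exact Subgroup.commutator_mem_commutator (Subgroup.mem_top _) (Subgroup.mem_top _)

theorem card_subgroups_eq {G : Type*} [Group G] [Finite G] (p : ℕ) [hp : Fact p.Prime] (x : G)
    (hx : orderOf x = p) (hC : Subgroup.centralizer ({x} : Set G) = Subgroup.zpowers x) :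
    Nat.card {H : Subgroup G // Nat.card H = p} = Nat.card (Sylow p G) := by
  obtain ⟨P, hP⟩ := exists_sylow_eq_zpowers p x hx hC
  have hk : (Nat.card G).factorization p = 1 := by
    have h1 := Sylow.card_eq_multiplicity P
    have h2 : Nat.card (P : Subgroup G) = p := by rw [hP, Nat.card_zpowers, hx]
    have h3 : p ^ 1 = p ^ (Nat.card G).factorization p := by
      rw [pow_one]; exact h2.symm.trans h1
    exact (Nat.pow_right_injective hp.out.two_le h3).symm
  refine Nat.card_congr ⟨fun H => Sylow.ofCard H.1 (by rw [H.2, hk, pow_one]),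
    fun Q => ⟨(Q : Subgroup G), (Sylow.card_eq_multiplicity Q).trans (by rw [hk, pow_one])⟩,
    ?_, ?_⟩
  · intro H; exact Subtype.ext rfl
  · intro Q; exact Sylow.ext rfl

theorem mem_normalizer_comap_zpowers {G H : Type*} [Group G] [Group H] (f : G →* H) (x g : G)
    (hg : f x * f g = f g * f x) :
    g ∈ Subgroup.normalizer (((Subgroup.zpowers (f x)).comap f : Subgroup G) : Set G) := by
  have hcomm : ∀ z ∈ Subgroup.zpowers (f x), f g * z = z * f g := by
    intro z hz
    obtain ⟨k, rfl⟩ := Subgroup.mem_zpowers_iff.1 hz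
    have h1 : Commute (f g) (f x) := hg.symm
    exact (h1.zpow_right k).eq
  rw [Subgroup.mem_normalizer_iff]
  intro h
  rw [Subgroup.mem_comap, Subgroup.mem_comap, map_mul, map_mul, map_inv]
  constructor
  · intro hh
    rw [hcomm _ hh, mul_inv_cancel_right]
    exact hh
  · intro hh
    have h2 := hcomm _ hh
    have h3 : f g * f h * (f g)⁻¹ = f h := by
      have h4 : f g * (f g * f h * (f g)⁻¹) = f g * f h := by
        rw [h2]; group
      exact mul_left_cancel h4
    rw [h3] at hh; exact hh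

theorem part_b {G : Type*} [Group G] [Finite G] (p : ℕ) [hp : Fact p.Prime] (x : G)
    (hx : orderOf x = p) (hC : Subgroup.centralizer ({x} : Set G) = Subgroup.zpowers x)
    (S : Subgroup G) [hS : S.Normal] (hndvd : ¬ p ∣ Nat.card S) :
    Nat.card S ∣ Nat.card {H : Subgroup G // Nat.card H = p} ∧ Nat.card S % p = 1 ∧
      orderOf (QuotientGroup.mk x : G ⧸ S) = p ∧
      Subgroup.centralizer ({(QuotientGroup.mk x : G ⧸ S)} : Set (G ⧸ S)) =
        Subgroup.zpowers (QuotientGroup.mk x : G ⧸ S) := by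
  obtain ⟨P, hP⟩ := exists_sylow_eq_zpowers p x hx hC
  have hXS := zpowers_inf_eq_bot p hp.out x hx S hndvd
  have hNS := normalizer_inf_eq_bot p hp.out x hx hC S hndvd
  have hmul := Cfsg.Agent.S4345.card_sylow_eq_mul p S P
  have hrel := Cfsg.Agent.S4342.relIndex_mul_card_inf
    (Subgroup.normalizer ((P : Subgroup G) : Set G)) S
  rw [hP, hNS, Subgroup.card_bot, mul_one] at hrel
  rw [hP, hrel] at hmul
  have m1 : Nat.card (Sylow p G) ≡ 1 [MOD p] := card_sylow_modEq_one p G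
  have m2 : Nat.card (Sylow p (G ⧸ S)) ≡ 1 [MOD p] := card_sylow_modEq_one p (G ⧸ S)
  have m3 : Nat.card S ≡ 1 [MOD p] := by
    have h1 : 1 * Nat.card S ≡ Nat.card (Sylow p (G ⧸ S)) * Nat.card S [MOD p] :=
      m2.symm.mul_right _
    rw [one_mul, ← hmul] at h1
    exact h1.trans m1
  have hxS : x ∉ S := by
    intro hxS
    have h5 : x ∈ Subgroup.zpowers x ⊓ S := ⟨Subgroup.mem_zpowers x, hxS⟩
    rw [hXS, Subgroup.mem_bot] at h5
    rw [h5, orderOf_one] at hx
    exact hp.out.one_lt.ne hx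
  refine ⟨?_, ?_, ?_, ?_⟩
  · rw [card_subgroups_eq p x hx hC, hmul]
    exact Dvd.intro_left _ rfl
  · have h1 : Nat.card S % p = 1 % p := m3
    rw [Nat.mod_eq_of_lt hp.out.one_lt] at h1
    exact h1
  · have h1 : orderOf ((QuotientGroup.mk' S) x) ∣ orderOf x := orderOf_map_dvd _ x
    rw [hx] at h1
    rcases (Nat.dvd_prime hp.out).1 h1 with h | h
    · exact absurd ((QuotientGroup.eq_one_iff x).1 (orderOf_eq_one_iff.1 h)) hxS
    · exact h
  · apply le_antisymm
    · intro y hy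
      obtain ⟨g, rfl⟩ := QuotientGroup.mk_surjective y
      have h0 : (QuotientGroup.mk' S) x * (QuotientGroup.mk' S) g =
          (QuotientGroup.mk' S) g * (QuotientGroup.mk' S) x :=
        Subgroup.mem_centralizer_iff.1 hy _ (Set.mem_singleton _)
      obtain ⟨T, hT⟩ : ∃ T : Subgroup G, T =
          (Subgroup.zpowers ((QuotientGroup.mk' S) x)).comap (QuotientGroup.mk' S) := ⟨_, rfl⟩
      have hxT : x ∈ T := by
        rw [hT]; exact Subgroup.mem_comap.2 (Subgroup.mem_zpowers _)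
      have hPT : (P : Subgroup G) ≤ T := by rw [hP]; exact Subgroup.zpowers_le.2 hxT
      have hfr := Cfsg.Agent.S4345.frattini_aux p T P hPT
      have hTle : T ≤ Subgroup.normalizer ((P : Subgroup G) : Set G) ⊔ S := by
        intro t ht
        rw [hT, Subgroup.mem_comap] at ht
        obtain ⟨k, hk⟩ := Subgroup.mem_zpowers_iff.1 ht
        have h1 : (x ^ k)⁻¹ * t ∈ S :=
          QuotientGroup.eq.1 ((map_zpow (QuotientGroup.mk' S) x k).trans hk)
        have h2 : t = x ^ k * ((x ^ k)⁻¹ * t) := by group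
        have hxk : x ^ k ∈ (P : Subgroup G) := by
          rw [hP]; exact Subgroup.zpow_mem _ (Subgroup.mem_zpowers x) k
        rw [h2]
        exact Subgroup.mul_mem _ (Subgroup.mem_sup_left (Subgroup.le_normalizer hxk))
          (Subgroup.mem_sup_right h1)
      have hgN : g ∈ Subgroup.normalizer (T : Set G) := by
        rw [hT]; exact mem_normalizer_comap_zpowers (QuotientGroup.mk' S) x g h0
      have hg' : g ∈ Subgroup.normalizer ((P : Subgroup G) : Set G) ⊔ S :=
        (sup_le le_sup_left hTle) (hfr hgN)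
      obtain ⟨n, hn, s, hs, rfl⟩ := Subgroup.mem_sup_of_normal_right.1 hg'
      rw [hP] at hn
      have hπs : (QuotientGroup.mk' S) s = 1 := (QuotientGroup.eq_one_iff s).2 hs
      rw [map_mul, hπs, mul_one] at h0
      have h1 : n * x * n⁻¹ * x⁻¹ ∈ S := by
        apply (QuotientGroup.eq_one_iff _).1
        show (QuotientGroup.mk' S) (n * x * n⁻¹ * x⁻¹) = 1
        rw [map_mul, map_mul, map_mul, map_inv, map_inv, ← h0]
        group
      have hnX := mem_zpowers_of_comm_mem p hp.out x hx hC S hndvd n hn h1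
      obtain ⟨k, hk⟩ := Subgroup.mem_zpowers_iff.1 hnX
      rw [Subgroup.mem_zpowers_iff]
      refine ⟨k, ?_⟩
      show ((QuotientGroup.mk' S) x) ^ k = (QuotientGroup.mk' S) (n * s)
      rw [map_mul, hπs, mul_one, ← hk, map_zpow]
    · apply Subgroup.zpowers_le.2
      rw [Subgroup.mem_centralizer_iff]
      intro h hh
      rw [Set.mem_singleton_iff.1 hh]

/-- Let the finite group G contain an element x of prime order p with C_G(x) = ⟨x⟩. Then: (a) every normal subgroup of order divisible by p contains the commutator subgroup; (b) every normal subgroup S of order prime to p has order dividing the number of subgroups of order p of G and congruent to 1 modulo p, and in G/S the image of x again has prime order p and commutes only with its own powers. -/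
theorem result {G : Type*} [Group G] [Finite G] (p : ℕ) (hp : p.Prime) (x : G) (hx : orderOf x = p) (hC : Subgroup.centralizer ({x} : Set G) = Subgroup.zpowers x) (S : Subgroup G) [S.Normal] : (p ∣ Nat.card S → commutator G ≤ S) ∧ (¬ p ∣ Nat.card S → Nat.card S ∣ Nat.card {H : Subgroup G // Nat.card H = p} ∧ Nat.card S % p = 1 ∧ orderOf (QuotientGroup.mk x : G ⧸ S) = p ∧ Subgroup.centralizer ({(QuotientGroup.mk x : G ⧸ S)} : Set (G ⧸ S)) = Subgroup.zpowers (QuotientGroup.mk x : G ⧸ S)) := by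
  have : Fact p.Prime := ⟨hp⟩
  exact ⟨commutator_le_of_dvd p x hx hC S, part_b p x hx hC S⟩

end Cfsg.Agent.S4496
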