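import Mathlib
import Cfsg.Statements.S4495
import Cfsg.Agent.S4496
import Cfsg.Agent.S4343

set_option autoImplicit false
open Cfsg
open scoped commutatorElement

namespace Cfsg.Agent.S4495

theorem card_eq_mul_of_fibers {α β : Type*} [Finite α] [Finite β] (f : α → β) (k : ℕ)
    (h : ∀ b : β, Nat.card {a : α // f a = b} = k) : Nat.card α = Nat.card β * k := by
  have := Fintype.ofFinite β
  rw [Nat.card_congr (Equiv.sigmaFiberEquiv f).symm, Nat.card_sigma]
  simp only [h, Finset.sum_const, Finset.card_univ, smul_eq_mul, Nat.card_eq_fintype_card]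

theorem ncard_eq_mul_of_fibers {α β : Type*} [Finite α] [Finite β] (s : Set α) (t : Set β)
    (f : α → β) (hf : ∀ a ∈ s, f a ∈ t) (k : ℕ)
    (hk : ∀ b ∈ t, {a | a ∈ s ∧ f a = b}.ncard = k) : s.ncard = t.ncard * k := by
  rw [← Nat.card_coe_set_eq s, ← Nat.card_coe_set_eq t]
  apply card_eq_mul_of_fibers (fun a : s => (⟨f a.1, hf a.1 a.2⟩ : t)) k
  intro b
  rw [← hk b.1 b.2, ← Nat.card_coe_set_eq]
  exact Nat.card_congr ⟨fun a => ⟨a.1.1, a.1.2, congrArg Subtype.val a.2⟩,
    fun a => ⟨⟨a.1, a.2.1⟩, Subtype.ext a.2.2⟩, fun _ => rfl, fun _ => rfl⟩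

theorem mem_normalizer_of_conj {G : Type*} [Group G] [Finite G] {p : ℕ} (hp : p.Prime) {x : G}
    (hx : orderOf x = p) {y₀ y a : G} (hy₀ : y₀ ∈ Subgroup.zpowers x) (hy₀1 : y₀ ≠ 1)
    (hy : y ∈ Subgroup.zpowers x) (hy1 : y ≠ 1) (ha : a * y₀ * a⁻¹ = y) :
    a ∈ Subgroup.normalizer ((Subgroup.zpowers x : Subgroup G) : Set G) := by
  have e0 := Cfsg.Agent.S4496.zpowers_eq_of_mem hp hx hy₀ hy₀1
  have e1 := Cfsg.Agent.S4496.zpowers_eq_of_mem hp hx hy hy1
  rw [Subgroup.mem_normalizer_iff]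
  intro h
  constructor
  · intro hh
    rw [← e0] at hh
    obtain ⟨k, rfl⟩ := Subgroup.mem_zpowers_iff.1 hh
    rw [← e1, ← conj_zpow, ha]
    exact Subgroup.zpow_mem _ (Subgroup.mem_zpowers y) k
  · intro hh
    rw [← e1] at hh
    obtain ⟨k, hk⟩ := Subgroup.mem_zpowers_iff.1 hh
    rw [← ha, conj_zpow] at hk
    have h2 : y₀ ^ k = h := mul_left_cancel (mul_right_cancel hk)
    rw [← e0, ← h2]
    exact Subgroup.zpow_mem _ (Subgroup.mem_zpowers y₀) k

theorem card_normalizer {G : Type*} [Group G] [Finite G] {p : ℕ} (hp : p.Prime) {x : G}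
    (hx : orderOf x = p) (hC : Subgroup.centralizer ({x} : Set G) = Subgroup.zpowers x)
    {y₀ : G} (hy₀ : y₀ ∈ Subgroup.zpowers x) (hy₀1 : y₀ ≠ 1) :
    Nat.card (Subgroup.normalizer ((Subgroup.zpowers x : Subgroup G) : Set G)) =
      {y | ∃ n ∈ Subgroup.normalizer ((Subgroup.zpowers x : Subgroup G) : Set G),
        n * y₀ * n⁻¹ = y}.ncard * p := by
  have hCy := Cfsg.Agent.S4496.centralizer_eq_of_mem hp hx hC hy₀ hy₀1
  have hf : ∀ n ∈ ((Subgroup.normalizer ((Subgroup.zpowers x : Subgroup G) : Set G) :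
      Subgroup G) : Set G), n * y₀ * n⁻¹ ∈
      {y | ∃ n ∈ Subgroup.normalizer ((Subgroup.zpowers x : Subgroup G) : Set G),
        n * y₀ * n⁻¹ = y} := fun n hn => ⟨n, hn, rfl⟩
  have key := ncard_eq_mul_of_fibers _ _ (fun n => n * y₀ * n⁻¹) hf p (by
    rintro b ⟨m, hm, rfl⟩
    have hset : {a | a ∈ ((Subgroup.normalizer ((Subgroup.zpowers x : Subgroup G) : Set G) :
        Subgroup G) : Set G) ∧ a * y₀ * a⁻¹ = m * y₀ * m⁻¹} =
        (fun u => m * u) '' ((Subgroup.zpowers x : Subgroup G) : Set G) := by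
      ext n
      constructor
      · rintro ⟨hn, h⟩
        refine ⟨m⁻¹ * n, ?_, mul_inv_cancel_left m n⟩
        show m⁻¹ * n ∈ Subgroup.zpowers x
        rw [← hCy, Subgroup.mem_centralizer_iff]
        intro z hz
        rw [Set.mem_singleton_iff.1 hz]
        calc y₀ * (m⁻¹ * n) = m⁻¹ * (m * y₀ * m⁻¹) * n := by group
          _ = m⁻¹ * (n * y₀ * n⁻¹) * n := by rw [h]
          _ = m⁻¹ * n * y₀ := by group
      · rintro ⟨u, hu, rfl⟩
        have hu' : u ∈ Subgroup.zpowers x := hu
        refine ⟨Subgroup.mul_mem _ hm (Subgroup.le_normalizer hu'), ?_⟩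
        have h1 : y₀ * u = u * y₀ := by
          rw [← hCy] at hu'
          exact Subgroup.mem_centralizer_iff.1 hu' y₀ (Set.mem_singleton y₀)
        show m * u * y₀ * (m * u)⁻¹ = m * y₀ * m⁻¹
        calc m * u * y₀ * (m * u)⁻¹ = m * (u * y₀) * u⁻¹ * m⁻¹ := by group
          _ = m * (y₀ * u) * u⁻¹ * m⁻¹ := by rw [h1]
          _ = m * y₀ * m⁻¹ := by group
    have hfib : {a | a ∈ ((Subgroup.normalizer ((Subgroup.zpowers x : Subgroup G) : Set G) :
        Subgroup G) : Set G) ∧ a * y₀ * a⁻¹ = m * y₀ * m⁻¹}.ncard = p := by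
      rw [hset, Set.ncard_image_of_injective _ (mul_right_injective m), ← Nat.card_coe_set_eq]
      exact (Nat.card_zpowers x).trans hx
    exact hfib)
  rw [← Nat.card_coe_set_eq] at key
  exact key

/-- The number of classes of elements of order `p` times `[N_G(⟨x⟩) : ⟨x⟩]` is `p - 1`. -/
theorem card_classes_mul {G : Type*} [Group G] [Finite G] (p : ℕ) [hp : Fact p.Prime] (x : G)
    (hx : orderOf x = p) (hC : Subgroup.centralizer ({x} : Set G) = Subgroup.zpowers x) :
    Nat.card {C : ConjClasses G // ∃ g ∈ C.carrier, orderOf g = p} *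
      (Subgroup.zpowers x).relIndex
        (Subgroup.normalizer ((Subgroup.zpowers x : Subgroup G) : Set G)) = p - 1 := by
  obtain ⟨P, hP⟩ := Cfsg.Agent.S4496.exists_sylow_eq_zpowers p x hx hC
  have he := Cfsg.Agent.S4342.relIndex_mul_card_inf (Subgroup.zpowers x)
    (Subgroup.normalizer ((Subgroup.zpowers x : Subgroup G) : Set G))
  rw [inf_of_le_left Subgroup.le_normalizer, Nat.card_zpowers, hx] at he
  have hY : {y : G | y ∈ Subgroup.zpowers x ∧ y ≠ 1}.ncard = p - 1 := by
    have h1 : {y : G | y ∈ Subgroup.zpowers x ∧ y ≠ 1} =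
        ((Subgroup.zpowers x : Subgroup G) : Set G) \ {1} := by
      ext y; simp
    rw [h1, Set.ncard_sdiff_singleton_of_mem (Subgroup.one_mem _), ← Nat.card_coe_set_eq]
    congr 1
    exact (Nat.card_zpowers x).trans hx
  have hT : Nat.card {C : ConjClasses G // ∃ g ∈ C.carrier, orderOf g = p} =
      {C : ConjClasses G | ∃ g ∈ C.carrier, orderOf g = p}.ncard :=
    Nat.card_coe_set_eq {C : ConjClasses G | ∃ g ∈ C.carrier, orderOf g = p}
  rw [hT, ← hY]
  symm
  have hf : ∀ y ∈ {y : G | y ∈ Subgroup.zpowers x ∧ y ≠ 1},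
      ConjClasses.mk y ∈ {C : ConjClasses G | ∃ g ∈ C.carrier, orderOf g = p} := by
    intro y hy
    exact ⟨y, ConjClasses.mem_carrier_mk,
      Cfsg.Agent.S4496.orderOf_eq_of_mem hp.out hx hy.1 hy.2⟩
  apply ncard_eq_mul_of_fibers _ _ ConjClasses.mk hf
  rintro c ⟨g, hg, hgo⟩
  have hg1 : g ≠ 1 := by
    intro h
    rw [h, orderOf_one] at hgo
    exact hp.out.one_lt.ne hgo
  have hgp : IsPGroup p (Subgroup.zpowers g) :=
    IsPGroup.of_card (n := 1) (by rw [Nat.card_zpowers, hgo, pow_one])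
  obtain ⟨Q, hQ⟩ := hgp.exists_le_sylow
  obtain ⟨h, hh⟩ := MulAction.exists_smul_eq G P Q
  have hgQ : g ∈ h • P := by rw [hh]; exact hQ (Subgroup.mem_zpowers g)
  have hy₀ : h⁻¹ * g * h ∈ Subgroup.zpowers x := by
    rw [← hP]; exact (Cfsg.Agent.S4343.mem_smul_sylow h P g).1 hgQ
  have hy₀1 : h⁻¹ * g * h ≠ 1 := by
    intro h1
    apply hg1
    calc g = h * (h⁻¹ * g * h) * h⁻¹ := by group
      _ = 1 := by rw [h1]; group
  have hcg : ConjClasses.mk g = c := ConjClasses.mem_carrier_iff_mk_eq.1 hg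
  have hcy : ConjClasses.mk (h⁻¹ * g * h) = c := by
    rw [← hcg, ConjClasses.mk_eq_mk_iff_isConj, isConj_iff]
    exact ⟨h, by group⟩
  have hA := card_normalizer hp.out hx hC hy₀ hy₀1
  rw [← he] at hA
  have hset : {a | a ∈ {y : G | y ∈ Subgroup.zpowers x ∧ y ≠ 1} ∧ ConjClasses.mk a = c} =
      {y | ∃ n ∈ Subgroup.normalizer ((Subgroup.zpowers x : Subgroup G) : Set G),
        n * (h⁻¹ * g * h) * n⁻¹ = y} := by
    ext y
    constructor
    · rintro ⟨⟨hy, hy1⟩, hyc⟩
      rw [← hcy, ConjClasses.mk_eq_mk_iff_isConj, isConj_comm, isConj_iff] at hyc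
      obtain ⟨a, ha⟩ := hyc
      exact ⟨a, mem_normalizer_of_conj hp.out hx hy₀ hy₀1 hy hy1 ha, ha⟩
    · rintro ⟨n, hn, rfl⟩
      have h1 : n * (h⁻¹ * g * h) * n⁻¹ ∈ Subgroup.zpowers x :=
        (Subgroup.mem_normalizer_iff.1 hn _).1 hy₀
      refine ⟨⟨h1, ?_⟩, ?_⟩
      · intro h2
        apply hy₀1
        calc h⁻¹ * g * h = n⁻¹ * (n * (h⁻¹ * g * h) * n⁻¹) * n := by group
          _ = 1 := by rw [h2]; group
      · rw [← hcy, ConjClasses.mk_eq_mk_iff_isConj, isConj_comm, isConj_iff]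
        exact ⟨n, rfl⟩
  have hfib : {a | a ∈ {y : G | y ∈ Subgroup.zpowers x ∧ y ≠ 1} ∧
      ConjClasses.mk a = c}.ncard = (Subgroup.zpowers x).relIndex
        (Subgroup.normalizer ((Subgroup.zpowers x : Subgroup G) : Set G)) := by
    rw [hset]
    exact (Nat.eq_of_mul_eq_mul_right hp.out.pos hA).symm
  exact hfib

theorem mem_commutator_of_ne {G : Type*} [Group G] [Finite G] (p : ℕ) (hp : p.Prime) (x : G)
    (hx : orderOf x = p) (hC : Subgroup.centralizer ({x} : Set G) = Subgroup.zpowers x)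
    (hne : (Subgroup.zpowers x).relIndex
      (Subgroup.normalizer ((Subgroup.zpowers x : Subgroup G) : Set G)) ≠ 1) :
    x ∈ commutator G := by
  have hlt : Subgroup.zpowers x <
      Subgroup.normalizer ((Subgroup.zpowers x : Subgroup G) : Set G) := by
    refine lt_of_le_of_ne Subgroup.le_normalizer ?_
    intro h
    apply hne
    rw [← h]
    exact Subgroup.relIndex_self _
  obtain ⟨n, hn, hnX⟩ := SetLike.exists_of_lt hlt
  have hc : n * x * n⁻¹ * x⁻¹ ∈ Subgroup.zpowers x :=
    Subgroup.mul_mem _ ((Subgroup.mem_normalizer_iff.1 hn x).1 (Subgroup.mem_zpowers x))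
      (Subgroup.inv_mem _ (Subgroup.mem_zpowers x))
  have hc1 : n * x * n⁻¹ * x⁻¹ ≠ 1 := by
    intro h1
    apply hnX
    rw [← hC, Subgroup.mem_centralizer_iff]
    intro y hy
    rw [Set.mem_singleton_iff.1 hy]
    calc x * n = (n * x * n⁻¹ * x⁻¹)⁻¹ * (n * x) := by group
      _ = n * x := by rw [h1, inv_one, one_mul]
  have hcG : n * x * n⁻¹ * x⁻¹ ∈ commutator G := by
    rw [_root_.commutator_def]
    exact Subgroup.commutator_mem_commutator (Subgroup.mem_top n) (Subgroup.mem_top x)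
  exact Subgroup.zpowers_le.2 hcG (Cfsg.Agent.S4496.mem_zpowers_of_mem hp hx hc hc1)

theorem index_commutator_dvd {G : Type*} [Group G] [Finite G] (p : ℕ) [hp : Fact p.Prime]
    (x : G) (hx : orderOf x = p)
    (hC : Subgroup.centralizer ({x} : Set G) = Subgroup.zpowers x)
    (hxG : x ∈ commutator G) :
    (commutator G).index ∣ (Subgroup.zpowers x).relIndex
      (Subgroup.normalizer ((Subgroup.zpowers x : Subgroup G) : Set G)) := by
  have htop : Subgroup.normalizer ((Subgroup.zpowers x : Subgroup G) : Set G) ⊔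
      commutator G = ⊤ := by
    rw [eq_top_iff]
    intro g _
    obtain ⟨n, hn, s, hs, rfl⟩ := Cfsg.Agent.S4496.frattini p x hx hC (commutator G) hxG g
    exact Subgroup.mul_mem _ (Subgroup.mem_sup_left hn) (Subgroup.mem_sup_right hs)
  have h1 : (commutator G).index = (commutator G).relIndex
      (Subgroup.normalizer ((Subgroup.zpowers x : Subgroup G) : Set G)) := by
    rw [← Subgroup.relIndex_top_right, ← htop, Subgroup.relIndex_sup_right]
  have hXle : Subgroup.zpowers x ≤ commutator G ⊓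
      Subgroup.normalizer ((Subgroup.zpowers x : Subgroup G) : Set G) :=
    le_inf (Subgroup.zpowers_le.2 hxG) Subgroup.le_normalizer
  have h2 := Subgroup.relIndex_mul_relIndex (Subgroup.zpowers x)
    (commutator G ⊓ Subgroup.normalizer ((Subgroup.zpowers x : Subgroup G) : Set G))
    (Subgroup.normalizer ((Subgroup.zpowers x : Subgroup G) : Set G)) hXle inf_le_right
  rw [Subgroup.inf_relIndex_right] at h2
  rw [h1, ← h2]
  exact Dvd.intro_left _ rfl

theorem exists_complement {G : Type*} [Group G] [Finite G] (p : ℕ) [hp : Fact p.Prime] (x : G)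
    (hx : orderOf x = p) (hC : Subgroup.centralizer ({x} : Set G) = Subgroup.zpowers x)
    (he : (Subgroup.zpowers x).relIndex
      (Subgroup.normalizer ((Subgroup.zpowers x : Subgroup G) : Set G)) = 1) :
    ∃ (P : Sylow p G) (K : Subgroup G), K.Normal ∧ K.IsComplement' (P : Subgroup G) ∧
      commutator G = K ∧ Nat.card (P : Subgroup G) = p := by
  obtain ⟨P, hP⟩ := Cfsg.Agent.S4496.exists_sylow_eq_zpowers p x hx hC
  have hNX : Subgroup.normalizer ((Subgroup.zpowers x : Subgroup G) : Set G) ≤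
      Subgroup.zpowers x := Subgroup.relIndex_eq_one.1 he
  have hNC : Subgroup.normalizer ((P : Subgroup G) : Set G) ≤
      Subgroup.centralizer ((P : Subgroup G) : Set G) := by
    rw [hP]
    intro n hn
    have hn' := hNX hn
    rw [Subgroup.mem_centralizer_iff]
    intro u hu
    have hu' : u ∈ Subgroup.zpowers x := hu
    obtain ⟨i, rfl⟩ := Subgroup.mem_zpowers_iff.1 hn'
    obtain ⟨j, rfl⟩ := Subgroup.mem_zpowers_iff.1 hu'
    rw [← zpow_add, ← zpow_add, add_comm]
  have hcompl := MonoidHom.ker_transferSylow_isComplement' P hNC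
  have hnd := MonoidHom.not_dvd_card_ker_transferSylow P hNC
  have hPc : Nat.card (P : Subgroup G) = p := by rw [hP, Nat.card_zpowers, hx]
  refine ⟨P, (MonoidHom.transferSylow P hNC).ker, inferInstance, hcompl, ?_, hPc⟩
  apply le_antisymm
  · have hcomm : ∀ u v : P, u * v = v * u := by
      intro u v
      apply Subtype.ext
      have hu : (u : G) ∈ Subgroup.zpowers x := by rw [← hP]; exact u.2
      have hv : (v : G) ∈ Subgroup.zpowers x := by rw [← hP]; exact v.2
      obtain ⟨i, hi⟩ := Subgroup.mem_zpowers_iff.1 hu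
      obtain ⟨j, hj⟩ := Subgroup.mem_zpowers_iff.1 hv
      show (u : G) * (v : G) = (v : G) * (u : G)
      rw [← hi, ← hj, ← zpow_add, ← zpow_add, add_comm]
    rw [_root_.commutator_def, Subgroup.commutator_le]
    intro a _ b _
    rw [MonoidHom.mem_ker, map_commutatorElement, commutatorElement_def,
      hcomm ((MonoidHom.transferSylow P hNC) a) ((MonoidHom.transferSylow P hNC) b)]
    group
  · exact Cfsg.Agent.S4496.le_commutator_of_not_dvd p hp.out x hx hC _ hnd

theorem relIndex_ne_one {G : Type*} [Group G] [Finite G] (p : ℕ) [hp : Fact p.Prime] (x : G)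
    (hx : orderOf x = p) (hC : Subgroup.centralizer ({x} : Set G) = Subgroup.zpowers x) (t : ℕ)
    (ht : Nat.card {C : ConjClasses G // ∃ g ∈ C.carrier, orderOf g = p} = t)
    (hne : t ≠ p - 1) :
    (Subgroup.zpowers x).relIndex
      (Subgroup.normalizer ((Subgroup.zpowers x : Subgroup G) : Set G)) ≠ 1 := by
  have hte := card_classes_mul p x hx hC
  rw [ht] at hte
  intro h1
  rw [h1, mul_one] at hte
  exact hne hte

theorem relIndex_eq_one {G : Type*} [Group G] [Finite G] (p : ℕ) [hp : Fact p.Prime] (x : G)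
    (hx : orderOf x = p) (hC : Subgroup.centralizer ({x} : Set G) = Subgroup.zpowers x) (t : ℕ)
    (ht : Nat.card {C : ConjClasses G // ∃ g ∈ C.carrier, orderOf g = p} = t)
    (heq : t = p - 1) :
    (Subgroup.zpowers x).relIndex
      (Subgroup.normalizer ((Subgroup.zpowers x : Subgroup G) : Set G)) = 1 := by
  have hte := card_classes_mul p x hx hC
  rw [ht, heq] at hte
  have hp1 : 0 < p - 1 := Nat.sub_pos_of_lt hp.out.one_lt
  exact Nat.eq_of_mul_eq_mul_left hp1 (hte.trans (mul_one _).symm)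

/-- Let the finite group G contain an element x of prime order p with C_G(x) = ⟨x⟩, and let t be the number of conjugacy classes of elements of order p. If t ≠ p − 1 then the commutator subgroup has index at most (p − 1)/t; if t = p − 1 it has index exactly p. -/
theorem result {G : Type*} [Group G] [Finite G] (p : ℕ) (hp : p.Prime) (x : G) (hx : orderOf x = p) (hC : Subgroup.centralizer ({x} : Set G) = Subgroup.zpowers x) (t : ℕ) (ht : Nat.card {C : ConjClasses G // ∃ g ∈ C.carrier, orderOf g = p} = t) : (t ≠ p - 1 → (commutator G).index * t ≤ p - 1) ∧ (t = p - 1 → (commutator G).index = p) := by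
  have : Fact p.Prime := ⟨hp⟩
  have hte := card_classes_mul p x hx hC
  rw [ht] at hte
  have hp1 : 0 < p - 1 := Nat.sub_pos_of_lt hp.one_lt
  constructor
  · intro hne
    have he1 := relIndex_ne_one p x hx hC t ht hne
    have hxG := mem_commutator_of_ne p hp x hx hC he1
    have hdvd := index_commutator_dvd p x hx hC hxG
    have h2 : (commutator G).index * t ∣ p - 1 := by
      rw [← hte, mul_comm (commutator G).index t]
      exact Nat.mul_dvd_mul_left t hdvd
    exact Nat.le_of_dvd hp1 h2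
  · intro heq
    have he1 := relIndex_eq_one p x hx hC t ht heq
    obtain ⟨P, K, hKn, hcompl, hGK, hPc⟩ := exists_complement p x hx hC he1
    rw [hGK, hcompl.symm.index_eq_card, hPc]

end Cfsg.Agent.S4495
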