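import Mathlib
import Cfsg.Statements.S0989
import Cfsg.Agent.S4495

set_option autoImplicit false
open Cfsg

namespace Cfsg.Agent.S0989

theorem cycleType_of_orderOf {α : Type*} [Fintype α] [DecidableEq α] (p : ℕ) (hp : p.Prime)
    (hα : Fintype.card α ≤ p + 1) (g : Equiv.Perm α) (hg : orderOf g = p) :
    g.cycleType = {p} := by
  obtain ⟨n, hn⟩ := Equiv.Perm.cycleType_prime_order (σ := g) (by rw [hg]; exact hp)
  rw [hg] at hn
  have hsum := Equiv.Perm.sum_cycleType_le g
  rw [hn, Multiset.sum_replicate, smul_eq_mul] at hsum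
  have hp2 := hp.two_le
  have hn0 : n = 0 := by
    by_contra hne
    have : 2 * p ≤ (n + 1) * p := Nat.mul_le_mul_right p (by omega)
    omega
  rw [hn, hn0, zero_add, Multiset.replicate_one]

/-- In the symmetric group on p or p + 1 letters, p a prime, the normalizer of a Sylow p-subgroup has order p * (p - 1). -/
theorem result {α : Type*} [Fintype α] [DecidableEq α] (p : ℕ) [Fact p.Prime] (hα : Fintype.card α = p ∨ Fintype.card α = p + 1) (P : Sylow p (Equiv.Perm α)) : Nat.card ↥(Subgroup.normalizer ((P : Subgroup (Equiv.Perm α)) : Set (Equiv.Perm α))) = p * (p - 1) := by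
  have hp : p.Prime := Fact.out
  have hp2 := hp.two_le
  have hle : Fintype.card α ≤ p + 1 := by omega
  have hge : p ≤ Fintype.card α := by omega
  have hdvd : p ∣ Nat.card (Equiv.Perm α) := by
    rw [Nat.card_eq_fintype_card, Fintype.card_perm]
    exact hp.dvd_factorial.mpr hge
  have hdvdP : p ∣ Nat.card (P : Subgroup (Equiv.Perm α)) := P.dvd_card_of_dvd_card hdvd
  obtain ⟨x', hx'⟩ := exists_prime_orderOf_dvd_card' (G := ↥(P : Subgroup (Equiv.Perm α))) p hdvdP
  obtain ⟨x, hxdef⟩ : ∃ x : Equiv.Perm α, x = (x' : Equiv.Perm α) := ⟨_, rfl⟩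
  have hx : orderOf x = p := by rw [hxdef, Subgroup.orderOf_coe]; exact hx'
  have hxP : x ∈ (P : Subgroup (Equiv.Perm α)) := by rw [hxdef]; exact x'.2
  have hct : x.cycleType = {p} := cycleType_of_orderOf p hp hle x hx
  have hcardC : Nat.card (Subgroup.centralizer ({x} : Set (Equiv.Perm α))) = p := by
    rw [Equiv.Perm.nat_card_centralizer, hct]
    have h1 : (Fintype.card α - p).factorial = 1 := by
      rcases hα with h | h
      · rw [h, Nat.sub_self, Nat.factorial_zero]
      · rw [h, Nat.add_sub_cancel_left, Nat.factorial_one]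
    simp [h1]
  have hC : Subgroup.centralizer ({x} : Set (Equiv.Perm α)) = Subgroup.zpowers x := by
    symm
    apply Subgroup.eq_of_le_of_card_ge
    · rw [Subgroup.zpowers_le]
      exact Subgroup.mem_centralizer_iff.mpr (fun h hh => by rw [Set.mem_singleton_iff.mp hh])
    · rw [hcardC, Nat.card_zpowers, hx]
  have ht : Nat.card {C : ConjClasses (Equiv.Perm α) // ∃ g ∈ C.carrier, orderOf g = p} = 1 := by
    rw [Nat.card_eq_one_iff_unique]
    refine ⟨⟨fun a b => ?_⟩, ⟨⟨ConjClasses.mk x, x, ConjClasses.mem_carrier_mk, hx⟩⟩⟩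
    obtain ⟨C, g, hgC, hg⟩ := a
    obtain ⟨D, h, hhD, hh⟩ := b
    rw [ConjClasses.mem_carrier_iff_mk_eq] at hgC hhD
    apply Subtype.ext
    show C = D
    rw [← hgC, ← hhD, ConjClasses.mk_eq_mk_iff_isConj, Equiv.Perm.isConj_iff_cycleType_eq,
      cycleType_of_orderOf p hp hle g hg, cycleType_of_orderOf p hp hle h hh]
  have hmul := Cfsg.Agent.S4495.card_classes_mul p x hx hC
  rw [ht, one_mul] at hmul
  obtain ⟨P', hP'⟩ := Cfsg.Agent.S4496.exists_sylow_eq_zpowers p x hx hC
  have hcP : Nat.card (P : Subgroup (Equiv.Perm α)) = Nat.card (P' : Subgroup (Equiv.Perm α)) :=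
    (Sylow.card_eq_multiplicity P).trans (Sylow.card_eq_multiplicity P').symm
  have hPeq : (P : Subgroup (Equiv.Perm α)) = Subgroup.zpowers x := by
    symm
    apply Subgroup.eq_of_le_of_card_ge
    · rw [Subgroup.zpowers_le]; exact hxP
    · rw [hcP, hP']
  rw [hPeq]
  have he := Cfsg.Agent.S4342.relIndex_mul_card_inf (Subgroup.zpowers x)
    (Subgroup.normalizer ((Subgroup.zpowers x : Subgroup (Equiv.Perm α)) : Set (Equiv.Perm α)))
  rw [inf_of_le_left Subgroup.le_normalizer, Nat.card_zpowers, hx, hmul] at he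
  rw [← he, mul_comm]

end Cfsg.Agent.S0989
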