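import Mathlib
import Cfsg.Statements.S0990
import Cfsg.Agent.S4345

set_option autoImplicit false
open Cfsg

namespace Cfsg.Agent.S0990

/-- Let p be an odd prime and P a Sylow p-subgroup of the symmetric group on a finite set with at least two elements. Then P is contained in the alternating group, and twice the order of the normalizer of P inside the alternating group equals the order of the normalizer of P in the symmetric group. -/
theorem result {α : Type*} [Fintype α] [DecidableEq α] (hα : 2 ≤ Fintype.card α) (p : ℕ) [Fact p.Prime] (hp : p ≠ 2) (P : Sylow p (Equiv.Perm α)) : (P : Subgroup (Equiv.Perm α)) ≤ alternatingGroup α ∧ 2 * Nat.card ↥(Subgroup.normalizer ((((P : Subgroup (Equiv.Perm α)).subgroupOf (alternatingGroup α) : Subgroup ↥(alternatingGroup α)) : Set ↥(alternatingGroup α)))) = Nat.card ↥(Subgroup.normalizer ((P : Subgroup (Equiv.Perm α)) : Set (Equiv.Perm α))) := by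
  have hp' : p.Prime := Fact.out
  have hnt : Nontrivial α := Fintype.one_lt_card_iff_nontrivial.1 (by omega)
  have hPA : (P : Subgroup (Equiv.Perm α)) ≤ alternatingGroup α := by
    intro σ hσ
    rw [Equiv.Perm.mem_alternatingGroup]
    obtain ⟨k, hk⟩ := P.2 ⟨σ, hσ⟩
    have hk' : σ ^ p ^ k = 1 := by
      have h0 := congrArg Subtype.val hk
      simpa using h0
    rcases Int.units_eq_one_or (Equiv.Perm.sign σ) with h | h
    · exact h
    · exfalso
      have h1 : (Equiv.Perm.sign σ) ^ p ^ k = 1 := by rw [← map_pow, hk', map_one]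
      rw [h, Odd.neg_one_pow ((hp'.odd_of_ne_two hp).pow)] at h1
      exact absurd h1 (by decide)
  refine ⟨hPA, ?_⟩
  have hfr := Cfsg.Agent.S4345.frattini_aux p (alternatingGroup α) P hPA
  have hNA : Subgroup.normalizer ((alternatingGroup α : Subgroup (Equiv.Perm α)) :
      Set (Equiv.Perm α)) = ⊤ := Subgroup.normalizer_eq_top _
  rw [hNA] at hfr
  have htop : Subgroup.normalizer ((P : Subgroup (Equiv.Perm α)) : Set (Equiv.Perm α)) ⊔
      alternatingGroup α = ⊤ := top_le_iff.1 hfr
  have h1 : (alternatingGroup α).relIndex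
      (Subgroup.normalizer ((P : Subgroup (Equiv.Perm α)) : Set (Equiv.Perm α))) = 2 := by
    rw [← Subgroup.relIndex_sup_right, htop, Subgroup.relIndex_top_right,
      alternatingGroup.index_eq_two]
  have h2 := Cfsg.Agent.S4342.relIndex_mul_card_inf (alternatingGroup α)
    (Subgroup.normalizer ((P : Subgroup (Equiv.Perm α)) : Set (Equiv.Perm α)))
  rw [h1] at h2
  have e1 : Nat.card ((Subgroup.normalizer ((P : Subgroup (Equiv.Perm α)) :
      Set (Equiv.Perm α))).subgroupOf (alternatingGroup α)) =
      Nat.card (alternatingGroup α ⊓ Subgroup.normalizer ((P : Subgroup (Equiv.Perm α)) :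
        Set (Equiv.Perm α)) : Subgroup (Equiv.Perm α)) := by
    rw [← Subgroup.inf_subgroupOf_right, inf_comm]
    exact Nat.card_congr (Subgroup.subgroupOfEquivOfLe inf_le_left).toEquiv
  rw [← h2, ← e1, Subgroup.subgroupOf_normalizer_eq hPA]

end Cfsg.Agent.S0990
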