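import Mathlib
import Cfsg.Statements.S0992
import Cfsg.Agent.Helper23.SmallSimple

set_option autoImplicit false
open Cfsg

namespace Cfsg.Agent.S0992

/-- Let G be a non-abelian finite simple group of even order not divisible by 8, and T a Sylow 2-subgroup. Then T is a Klein four-group and the centralizer of T has index 3 in the normalizer of T. -/
theorem result {G : Type*} [Group G] [Finite G] [IsSimpleGroup G] (hG : ¬ IsMulCommutative G) (h2 : Even (Nat.card G)) (h8 : ¬ 8 ∣ Nat.card G) (T : Sylow 2 G) : IsKleinFour ↥(T : Subgroup G) ∧ (Subgroup.centralizer ((T : Subgroup G) : Set G)).relIndex (Subgroup.normalizer ((T : Subgroup G) : Set G)) = 3 := by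
  have hp2 : Fact (Nat.Prime 2) := ⟨Nat.prime_two⟩
  have hdvd2 : 2 ∣ Nat.card G := even_iff_two_dvd.1 h2
  have hcard0 : Nat.card G ≠ 0 := Nat.card_pos.ne'
  obtain ⟨k, hk⟩ : ∃ k, k = (Nat.card G).factorization 2 := ⟨_, rfl⟩
  have hTc : Nat.card (T : Subgroup G) = 2 ^ k := by
    rw [hk]; exact Sylow.card_eq_multiplicity T
  have hk1 : 1 ≤ k := by
    rw [hk]; exact Nat.Prime.factorization_pos_of_dvd Nat.prime_two hcard0 hdvd2
  have hk2 : k ≤ 2 := by
    by_contra hcon
    push Not at hcon
    apply h8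
    have h3 : 2 ^ 3 ∣ 2 ^ k := pow_dvd_pow 2 hcon
    have h4 : 2 ^ k ∣ Nat.card G := by
      rw [← hTc]; exact Subgroup.card_subgroup_dvd_card _
    exact h3.trans h4
  have hTcomm : ∀ a b : (T : Subgroup G), a * b = b * a := by
    rcases Nat.lt_or_ge k 2 with h | h
    · have hk' : k = 1 := by omega
      have hc : Nat.card (T : Subgroup G) = 2 := by rw [hTc, hk', pow_one]
      have hcyc : IsCyclic (T : Subgroup G) := isCyclic_of_prime_card hc
      intro a b
      obtain ⟨g, hg⟩ := IsCyclic.exists_generator (α := (T : Subgroup G))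
      obtain ⟨i, rfl⟩ := Subgroup.mem_zpowers_iff.1 (hg a)
      obtain ⟨j, rfl⟩ := Subgroup.mem_zpowers_iff.1 (hg b)
      rw [← zpow_add, ← zpow_add, add_comm]
    · have hk' : k = 2 := by omega
      exact (IsPGroup.isMulCommutative_of_card_eq_prime_sq (p := 2)
        (by rw [hTc, hk'])).is_comm.comm
  have hTle : (T : Subgroup G) ≤ Subgroup.centralizer ((T : Subgroup G) : Set G) := by
    intro a ha
    rw [Subgroup.mem_centralizer_iff]
    intro b hb
    exact congrArg Subtype.val (hTcomm ⟨b, hb⟩ ⟨a, ha⟩)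
  have hT1 : Nat.card (T : Subgroup G) ≠ 1 := by
    rw [hTc]
    have h3 : 2 ^ 1 ≤ 2 ^ k := Nat.pow_le_pow_right (by norm_num) hk1
    omega
  have hT2 : Nat.card (T : Subgroup G) ≠ Nat.card G := by
    intro h
    have htop : (T : Subgroup G) = ⊤ := (Subgroup.card_eq_iff_eq_top _).1 h
    apply hG
    refine ⟨⟨fun a b => ?_⟩⟩
    have ha : a ∈ (T : Subgroup G) := by rw [htop]; exact Subgroup.mem_top a
    have hb : b ∈ (T : Subgroup G) := by rw [htop]; exact Subgroup.mem_top b
    exact congrArg Subtype.val (hTcomm ⟨a, ha⟩ ⟨b, hb⟩)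
  have hNC := Cfsg.Agent.Helper23.not_normalizer_le_centralizer_of_simple 2 T hT1 hT2
  have hncyc : ¬ IsCyclic (T : Subgroup G) := by
    intro hcyc
    have hmin : (Nat.card G).minFac = 2 := (Nat.minFac_eq_two_iff _).2 hdvd2
    exact hNC (IsCyclic.normalizer_le_centralizer hmin (P := T) hcyc)
  have hk' : k = 2 := by
    by_contra hne
    have hk1' : k = 1 := by omega
    exact hncyc (isCyclic_of_prime_card (p := 2) (by rw [hTc, hk1', pow_one]))
  have hT4 : Nat.card (T : Subgroup G) = 4 := by rw [hTc, hk']; norm_num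
  have hexp : Monoid.exponent (T : Subgroup G) = 2 := by
    have h1 : Monoid.exponent (T : Subgroup G) ∣ 2 := by
      apply Monoid.exponent_dvd_of_forall_pow_eq_one
      intro g
      have h3 : orderOf g ∣ 4 := by rw [← hT4]; exact orderOf_dvd_natCard g
      have h4 : orderOf g ≠ 4 := by
        intro h5
        exact hncyc (isCyclic_of_orderOf_eq_card g (by rw [h5, hT4]))
      have key2 : ∀ n ∈ Nat.divisors 4, n ≠ 4 → n ∣ 2 := by decide
      exact orderOf_dvd_iff_pow_eq_one.1 (key2 _ (Nat.mem_divisors.2 ⟨h3, by norm_num⟩) h4)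
    rcases (Nat.dvd_prime Nat.prime_two).1 h1 with h | h
    · exfalso
      have hsub : Subsingleton (T : Subgroup G) := Monoid.exp_eq_one_iff.1 h
      exact hT1 (Nat.card_of_subsingleton (1 : (T : Subgroup G)))
    · exact h
  refine ⟨⟨hT4, hexp⟩, ?_⟩
  have hd24 : (Subgroup.centralizer ((T : Subgroup G) : Set G)).relIndex
      (Subgroup.normalizer ((T : Subgroup G) : Set G)) ∣ 24 := by
    have h1 := Cfsg.Agent.Helper23.relIndex_centralizer_normalizer_dvd (T : Subgroup G)
    have h3 : Nat.card (MulAut (T : Subgroup G)) ∣ Nat.card (Equiv.Perm (T : Subgroup G)) :=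
      Subgroup.card_dvd_of_injective (MulAut.toPerm _)
        (fun f g h => MulEquiv.ext (fun x => Equiv.congr_fun h x))
    have h24 : Nat.factorial 4 = 24 := by decide
    rw [Nat.card_perm, hT4, h24] at h3
    exact h1.trans h3
  have hodd : ¬ 2 ∣ (Subgroup.centralizer ((T : Subgroup G) : Set G)).relIndex
      (Subgroup.normalizer ((T : Subgroup G) : Set G)) := by
    intro h
    have h1 : (Subgroup.centralizer ((T : Subgroup G) : Set G)).relIndex
        (Subgroup.normalizer ((T : Subgroup G) : Set G)) ∣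
        (T : Subgroup G).relIndex (Subgroup.normalizer ((T : Subgroup G) : Set G)) :=
      Subgroup.relIndex_dvd_of_le_left _ hTle
    have h3 : (T : Subgroup G).relIndex (Subgroup.normalizer ((T : Subgroup G) : Set G)) ∣
        (T : Subgroup G).index := Subgroup.relIndex_dvd_index_of_le Subgroup.le_normalizer
    exact T.not_dvd_index (h.trans (h1.trans h3))
  have hne1 : (Subgroup.centralizer ((T : Subgroup G) : Set G)).relIndex
      (Subgroup.normalizer ((T : Subgroup G) : Set G)) ≠ 1 :=
    fun h => hNC (Subgroup.relIndex_eq_one.1 h)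
  have key : ∀ n ∈ Nat.divisors 24, ¬ 2 ∣ n → n ≠ 1 → n = 3 := by decide
  exact key _ (Nat.mem_divisors.2 ⟨hd24, by norm_num⟩) hodd hne1

end Cfsg.Agent.S0992
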