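import Mathlib
import Cfsg.Statements.S0995
import Cfsg.Agent.S4495

set_option autoImplicit false
open Cfsg

namespace Cfsg.Agent.S0995

/-- Let G be a finite perfect group containing an element z of prime order p whose centralizer is the cyclic group it generates. Let t be the number of conjugacy classes of elements of order p. Then t divides p - 1, the number of Sylow p-subgroups has the form 1 + n * p, and |G| * t = (p - 1) * p * (1 + n * p). -/
theorem result {G : Type*} [Group G] [Finite G] (hperf : commutator G = ⊤) (p : ℕ) [Fact p.Prime] (z : G) (hz : orderOf z = p) (hC : Subgroup.centralizer ({z} : Set G) = Subgroup.zpowers z) : ∃ n t : ℕ, t = Nat.card {c : ConjClasses G // ∃ g : G, ConjClasses.mk g = c ∧ orderOf g = p} ∧ t ∣ p - 1 ∧ Nat.card (Sylow p G) = 1 + n * p ∧ Nat.card G * t = (p - 1) * p * (1 + n * p) := by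
  have hp : p.Prime := Fact.out
  obtain ⟨P, hP⟩ := Cfsg.Agent.S4496.exists_sylow_eq_zpowers p z hz hC
  have hte := Cfsg.Agent.S4495.card_classes_mul p z hz hC
  have he := Cfsg.Agent.S4342.relIndex_mul_card_inf (Subgroup.zpowers z)
    (Subgroup.normalizer ((Subgroup.zpowers z : Subgroup G) : Set G))
  rw [inf_of_le_left Subgroup.le_normalizer, Nat.card_zpowers, hz] at he
  have h1 : Nat.card (Sylow p G) = (Subgroup.normalizer ((P : Subgroup G) : Set G)).index :=
    Sylow.card_eq_index_normalizer P
  rw [hP] at h1
  have h2 := Subgroup.card_mul_index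
    (Subgroup.normalizer ((Subgroup.zpowers z : Subgroup G) : Set G))
  have hmod : Nat.card (Sylow p G) % p = 1 := by
    have h3 : Nat.card (Sylow p G) % p = 1 % p := card_sylow_modEq_one p G
    rw [Nat.mod_eq_of_lt hp.one_lt] at h3
    exact h3
  have hdm := Nat.div_add_mod (Nat.card (Sylow p G)) p
  rw [hmod] at hdm
  have htt : Nat.card {c : ConjClasses G // ∃ g : G, ConjClasses.mk g = c ∧ orderOf g = p} =
      Nat.card {C : ConjClasses G // ∃ g ∈ C.carrier, orderOf g = p} :=
    Nat.card_congr (Equiv.subtypeEquivRight (fun c =>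
      exists_congr (fun g => and_congr ConjClasses.mem_carrier_iff_mk_eq.symm Iff.rfl)))
  have h5 : Nat.card (Sylow p G) = 1 + Nat.card (Sylow p G) / p * p :=
    calc Nat.card (Sylow p G) = p * (Nat.card (Sylow p G) / p) + 1 := hdm.symm
      _ = 1 + Nat.card (Sylow p G) / p * p := by ring
  refine ⟨Nat.card (Sylow p G) / p, _, rfl, ?_, h5, ?_⟩
  · rw [htt]; exact Dvd.intro _ hte
  · rw [← h5, htt]
    have key : ∀ (cG cN idx e t' np pm : ℕ), t' * e = pm → e * p = cN → np = idx →
        cN * idx = cG → cG * t' = pm * p * np := by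
      intro cG cN idx e t' np pm e1 e2 e3 e4
      subst e1 e2 e3 e4
      ring
    exact key _ _ _ _ _ _ _ hte he h1 h2

end Cfsg.Agent.S0995
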