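import Cfsg.Statements.S1002
-- import your own Cfsg.Agent.* helpers here
import Cfsg.Agent.Helper13.ExcSimple

set_option autoImplicit false
open Cfsg

namespace Cfsg.Agent.S1002

/-- No finite simple group has order 1004913 = 3^3 * 7 * 13 * 409. -/
theorem result {G : Type*} [Group G] [Finite G] [IsSimpleGroup G] : Nat.card G ≠ 1004913 := by
  intro hG
  haveI hpf : Fact (Nat.Prime 409) := ⟨by norm_num⟩
  obtain ⟨P⟩ : Nonempty (Sylow 409 G) := inferInstance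
  have hG' : Nat.card G = 409 ^ 1 * 2457 := by rw [hG]; norm_num
  have hPc : Nat.card (P : Subgroup G) = 409 := by
    have h := Cfsg.Agent.Helper23.card_sylow_of_card 409 1 2457 hG' (by norm_num) P
    rw [pow_one] at h
    exact h
  have hP1 : Nat.card (P : Subgroup G) ≠ 1 := by rw [hPc]; norm_num
  have hP2 : Nat.card (P : Subgroup G) ≠ Nat.card G := by rw [hPc, hG]; norm_num
  have hn_dvd : Nat.card (Sylow 409 G) ∣ 2457 :=
    Cfsg.Agent.Helper23.card_sylow_dvd_of_card 409 1 2457 hG' (by norm_num)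
  have hn_mod : Nat.card (Sylow 409 G) % 409 = 1 % 409 := card_sylow_modEq_one 409 G
  have hn_ne := Cfsg.Agent.Helper23.card_sylow_ne_one_of_simple 409 P hP1 hP2
  have hn : Nat.card (Sylow 409 G) = 819 := by
    have hle : Nat.card (Sylow 409 G) ≤ 2457 := Nat.le_of_dvd (by norm_num) hn_dvd
    obtain ⟨n, hnn⟩ : ∃ n : ℕ, n = Nat.card (Sylow 409 G) := ⟨_, rfl⟩
    rw [← hnn] at hn_dvd hn_mod hn_ne hle ⊢
    have hc : n = 1 ∨ n = 410 ∨ n = 819 ∨ n = 1228 ∨ n = 1637 ∨ n = 2046 ∨ n = 2455 := by omega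
    rcases hc with h | h | h | h | h | h | h <;> rw [h] at hn_dvd <;> omega
  obtain ⟨d₂, d₃, a₂, a₃, d, hd, ha₂, ha₃, hd₂1, hd₃1, hcong₂, hcong₃, hd₂dvd, hd₃dvd, hsq, hsum⟩ :=
    Cfsg.Agent.Helper13.exc_simple_three (G := G) 409 2457 (by rw [hG]) (by norm_num)
      (by rw [hn]) (by norm_num)
  rw [hG] at hd₂dvd hd₃dvd hsq hd
  have hle₂ : d₂ ≤ 1002 := by
    by_contra hcon
    have h74 : 1003 ≤ d₂ := by omega
    nlinarith
  have hle₃ : d₃ ≤ 1002 := by
    by_contra hcon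
    have h74 : 1003 ≤ d₃ := by omega
    nlinarith
  have hpos₂ : 0 < d₂ := Nat.pos_of_dvd_of_pos hd₂dvd (by norm_num)
  have hpos₃ : 0 < d₃ := Nat.pos_of_dvd_of_pos hd₃dvd (by norm_num)
  have h819₂ : d₂ = 819 := by
    have hc : d₂ = 1 ∨ d₂ = 410 ∨ d₂ = 819 ∨ d₂ = 408 ∨ d₂ = 817 := by omega
    rcases hc with h | h | h | h | h <;> rw [h] at hd₂dvd <;> omega
  have h819₃ : d₃ = 819 := by
    have hc : d₃ = 1 ∨ d₃ = 410 ∨ d₃ = 819 ∨ d₃ = 408 ∨ d₃ = 817 := by omega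
    rcases hc with h | h | h | h | h <;> rw [h] at hd₃dvd <;> omega
  rw [h819₂, h819₃] at hsq
  norm_num at hsq

end Cfsg.Agent.S1002
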