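import Cfsg.Statements.S1229
import Cfsg.Agent.Helper8.ElemCent2

set_option autoImplicit false
open Cfsg

namespace Cfsg.Agent.S1229

open Cfsg.Agent.Helper8 in
/-- Let G be a finite group with a Sylow 2-subgroup T that is neither cyclic nor normal, such that the centralizer of every involution is an elementary abelian 2-group; put H = N_G(T) and X = G/H. Then G is triply transitive on X, an element fixing three distinct points of X is the identity, and T acts regularly on X minus the point H. -/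
theorem result {G : Type*} [Group G] [Finite G] (T : Sylow 2 G) (hnc : ¬ IsCyclic (T : Subgroup G)) (hnn : ¬ (T : Subgroup G).Normal) (hC : ∀ t : G, orderOf t = 2 → IsMulCommutative (Subgroup.centralizer ({t} : Set G)) ∧ ∀ c ∈ Subgroup.centralizer ({t} : Set G), c ^ 2 = 1) : (∀ x₁ x₂ x₃ y₁ y₂ y₃ : G ⧸ Subgroup.normalizer ((T : Subgroup G) : Set G), x₁ ≠ x₂ → x₁ ≠ x₃ → x₂ ≠ x₃ → y₁ ≠ y₂ → y₁ ≠ y₃ → y₂ ≠ y₃ → ∃ g : G, g • x₁ = y₁ ∧ g • x₂ = y₂ ∧ g • x₃ = y₃) ∧ (∀ g : G, ∀ x₁ x₂ x₃ : G ⧸ Subgroup.normalizer ((T : Subgroup G) : Set G), x₁ ≠ x₂ → x₁ ≠ x₃ → x₂ ≠ x₃ → g • x₁ = x₁ → g • x₂ = x₂ → g • x₃ = x₃ → g = 1) ∧ (∀ x y : G ⧸ Subgroup.normalizer ((T : Subgroup G) : Set G), x ≠ QuotientGroup.mk 1 → y ≠ QuotientGroup.mk 1 → ∃! t : G, t ∈ T ∧ t • x = y) := by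
  obtain ⟨u, hu2, huH⟩ := ec_exists_u T hnc hnn hC
  have huf := ec_uf T hnc hnn hC
  have hxy := ec_x_ne_y T huH
  have hnorm : ∀ a b : G ⧸ ecH T, a ≠ b → ∃ g : G, g • a = QuotientGroup.mk 1 ∧
      g • b = u • (QuotientGroup.mk 1 : G ⧸ ecH T) := by
    intro a b hab
    obtain ⟨g₁, rfl⟩ := QuotientGroup.mk_surjective a
    have h1 : g₁⁻¹ • (QuotientGroup.mk g₁ : G ⧸ ecH T) = QuotientGroup.mk 1 := by
      rw [← smul_mk_one (ecH T) g₁, inv_smul_smul]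
    have h2 : g₁⁻¹ • b ≠ QuotientGroup.mk 1 := by
      intro h
      apply hab
      rw [← h] at h1
      exact smul_left_cancel _ h1
    obtain ⟨t, ht, htq⟩ := ec_T_trans T hnc hnn hC hu2 huH h2
    refine ⟨t⁻¹ * g₁⁻¹, ?_, ?_⟩
    · rw [mul_smul, h1]
      exact (smul_mk_one_eq_iff _ _).mpr (Subgroup.inv_mem _ (Subgroup.le_normalizer ht))
    · rw [mul_smul, ← htq, inv_smul_smul]
  refine ⟨?_, ?_, ?_⟩
  · intro x₁ x₂ x₃ y₁ y₂ y₃ h12 h13 h23 k12 k13 k23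
    obtain ⟨g, hg1, hg2⟩ := hnorm x₁ x₂ h12
    obtain ⟨k, hk1, hk2⟩ := hnorm y₁ y₂ k12
    have hg3a : g • x₃ ≠ QuotientGroup.mk 1 := by
      intro h; apply h13; rw [← hg1] at h; exact (smul_left_cancel _ h).symm
    have hg3b : g • x₃ ≠ u • (QuotientGroup.mk 1 : G ⧸ ecH T) := by
      intro h; apply h23; rw [← hg2] at h; exact (smul_left_cancel _ h).symm
    have hk3a : k • y₃ ≠ QuotientGroup.mk 1 := by
      intro h; apply k13; rw [← hk1] at h; exact (smul_left_cancel _ h).symm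
    have hk3b : k • y₃ ≠ u • (QuotientGroup.mk 1 : G ⧸ ecH T) := by
      intro h; apply k23; rw [← hk2] at h; exact (smul_left_cancel _ h).symm
    obtain ⟨d, hd, hd3⟩ := ec_D_trans T hnc hnn hC hu2 huH hg3a hg3b hk3a hk3b
    have hdx := ((mem_ecD_iff T u d).mp hd).1
    have hdy := ((mem_ecD_iff T u d).mp hd).2
    refine ⟨k⁻¹ * d * g, ?_, ?_, ?_⟩
    · rw [mul_smul, mul_smul, hg1, hdx, ← hk1, inv_smul_smul]
    · rw [mul_smul, mul_smul, hg2, hdy, ← hk2, inv_smul_smul]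
    · rw [mul_smul, mul_smul, hd3, inv_smul_smul]
  · intro g x₁ x₂ x₃ h12 h13 h23 f1 f2 f3
    obtain ⟨k, hk1, hk2⟩ := hnorm x₁ x₂ h12
    by_contra hg1
    have hkk : k * g * k⁻¹ * k = k * g := by group
    have hmem : k * g * k⁻¹ ∈ ecD T u := by
      rw [mem_ecD_iff]
      constructor
      · rw [← hk1, ← mul_smul, hkk, mul_smul, f1]
      · rw [← hk2, ← mul_smul, hkk, mul_smul, f2]
    have hne : k * g * k⁻¹ ≠ 1 := by
      intro h
      apply hg1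
      calc g = k⁻¹ * (k * g * k⁻¹) * k := by group
        _ = 1 := by rw [h]; group
    have hfix : (k * g * k⁻¹) • (k • x₃) = k • x₃ := by
      rw [← mul_smul, hkk, mul_smul, f3]
    rcases ec_fix_one T hnc hnn hC hu2 huH hmem hne hfix with h | h
    · apply h13; rw [← hk1] at h; exact (smul_left_cancel _ h).symm
    · apply h23; rw [← hk2] at h; exact (smul_left_cancel _ h).symm
  · intro x y hx hy
    obtain ⟨t₁, ht₁, rfl⟩ := ec_T_trans T hnc hnn hC hu2 huH hx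
    obtain ⟨t₂, ht₂, rfl⟩ := ec_T_trans T hnc hnn hC hu2 huH hy
    have hmem0 : t₂ * t₁⁻¹ ∈ (T : Subgroup G) := Subgroup.mul_mem _ ht₂ (Subgroup.inv_mem _ ht₁)
    refine ⟨t₂ * t₁⁻¹, ⟨hmem0, ?_⟩, ?_⟩
    · rw [mul_smul, inv_smul_smul]
    · rintro t ⟨ht, hteq⟩
      by_contra hne
      have hmem : (t₂ * t₁⁻¹)⁻¹ * t ∈ (T : Subgroup G) :=
        Subgroup.mul_mem _ (Subgroup.inv_mem _ hmem0) ht
      have hne1 : (t₂ * t₁⁻¹)⁻¹ * t ≠ 1 := by
        intro h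
        apply hne
        calc t = (t₂ * t₁⁻¹) * ((t₂ * t₁⁻¹)⁻¹ * t) := by group
          _ = t₂ * t₁⁻¹ := by rw [h, mul_one]
      have hinv := (ec_invFix_iff T hnc hnn hC _).mpr ⟨hne1, hmem⟩
      have hfix : ((t₂ * t₁⁻¹)⁻¹ * t) • (t₁ • (u • (QuotientGroup.mk 1 : G ⧸ ecH T))) =
          t₁ • (u • (QuotientGroup.mk 1 : G ⧸ ecH T)) := by
        rw [mul_smul, hteq, ← mul_smul]
        have : (t₂ * t₁⁻¹)⁻¹ * t₂ = t₁ := by group
        rw [this]
      exact hx (uf_eq huf hinv.1 hinv.2.1 hfix hinv.2.2)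

end Cfsg.Agent.S1229
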