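import Cfsg.Statements.S3752
-- import your own Cfsg.Agent.* helpers here
import Cfsg.Agent.Helper9.Bender

set_option autoImplicit false
open Cfsg

namespace Cfsg.Agent.S3752

open Cfsg.Agent.Helper9

/-- Bender's Theorem on primitive pairs. Two distinct subgroups M₁, M₂ of G form a primitive pair when, for {i, j} = {1, 2}, every non-trivial normal subgroup A of M_i contained in M₁ ∩ M₂ satisfies N_{M_j}(A) = M₁ ∩ M₂; the pair has characteristic p when moreover C_{M_i}(O_p(M_i)) ≤ O_p(M_i) for both i and O_p(M₁)O_p(M₂) ≤ M₁ ∩ M₂. If (M₁, M₂) is a primitive pair of the finite group G with F*(M₁) ≤ M₂ and F*(M₂) ≤ M₁, then for some prime p the pair has characteristic p. -/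
theorem result {G : Type*} [Group G] [Finite G] (M₁ M₂ : Subgroup G) (hne : M₁ ≠ M₂) (hP : ∀ A : Subgroup G, A ≠ ⊥ → A ≤ M₁ ⊓ M₂ → (M₁ ≤ Subgroup.normalizer (A : Set G) → M₂ ⊓ Subgroup.normalizer (A : Set G) = M₁ ⊓ M₂) ∧ (M₂ ≤ Subgroup.normalizer (A : Set G) → M₁ ⊓ Subgroup.normalizer (A : Set G) = M₁ ⊓ M₂)) (h₁ : (Cfsg.generalizedFittingSubgroup ↥M₁).map M₁.subtype ≤ M₂) (h₂ : (Cfsg.generalizedFittingSubgroup ↥M₂).map M₂.subtype ≤ M₁) : ∃ p : ℕ, p.Prime ∧ Subgroup.centralizer (Cfsg.pCore p ↥M₁ : Set ↥M₁) ≤ Cfsg.pCore p ↥M₁ ∧ Subgroup.centralizer (Cfsg.pCore p ↥M₂ : Set ↥M₂) ≤ Cfsg.pCore p ↥M₂ ∧ (Cfsg.pCore p ↥M₁).map M₁.subtype ⊔ (Cfsg.pCore p ↥M₂).map M₂.subtype ≤ M₁ ⊓ M₂ := by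
  classical
  have hP₁ : ∀ A : Subgroup G, A ≠ ⊥ → A ≤ M₁ → A ≤ M₂ → M₁ ≤ Subgroup.normalizer (A : Set G) →
      M₂ ⊓ Subgroup.normalizer (A : Set G) ≤ M₁ := by
    intro A hA h1 h2 hn
    rw [(hP A hA (le_inf h1 h2)).1 hn]
    exact inf_le_left
  have hP₂ : ∀ A : Subgroup G, A ≠ ⊥ → A ≤ M₁ → A ≤ M₂ → M₂ ≤ Subgroup.normalizer (A : Set G) →
      M₁ ⊓ Subgroup.normalizer (A : Set G) ≤ M₂ := by
    intro A hA h1 h2 hn
    rw [(hP A hA (le_inf h1 h2)).2 hn]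
    exact inf_le_right
  have hfin : ∀ p : ℕ, p.Prime →
      Subgroup.centralizer (Cfsg.pCore p ↥M₁ : Set ↥M₁) ≤ Cfsg.pCore p ↥M₁ →
      Subgroup.centralizer (Cfsg.pCore p ↥M₂ : Set ↥M₂) ≤ Cfsg.pCore p ↥M₂ →
      ∃ p : ℕ, p.Prime ∧ Subgroup.centralizer (Cfsg.pCore p ↥M₁ : Set ↥M₁) ≤ Cfsg.pCore p ↥M₁ ∧
        Subgroup.centralizer (Cfsg.pCore p ↥M₂ : Set ↥M₂) ≤ Cfsg.pCore p ↥M₂ ∧
        (Cfsg.pCore p ↥M₁).map M₁.subtype ⊔ (Cfsg.pCore p ↥M₂).map M₂.subtype ≤ M₁ ⊓ M₂ := by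
    intro p hp hc1 hc2
    haveI := Fact.mk hp
    refine ⟨p, hp, hc1, hc2, ?_⟩
    apply sup_le
    · exact le_inf (Subgroup.map_subtype_le _)
        ((Subgroup.map_mono ((pCore_le_fitting p).trans fitting_le_genFitting)).trans h₁)
    · exact le_inf
        ((Subgroup.map_mono ((pCore_le_fitting p).trans fitting_le_genFitting)).trans h₂)
        (Subgroup.map_subtype_le _)
  by_cases hc : ∃ p : Nat.Primes, Cfsg.pCore (p : ℕ) ↥M₁ ≠ ⊥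
  · obtain ⟨p, hp⟩ := hc
    haveI := Fact.mk p.2
    obtain ⟨hc1, hc2⟩ := bender_pair_char_p (p : ℕ) M₁ M₂ hne hP₁ hP₂ h₁ h₂ hp
    exact hfin p p.2 hc1 hc2
  · by_cases hc' : ∃ p : Nat.Primes, Cfsg.pCore (p : ℕ) ↥M₂ ≠ ⊥
    · obtain ⟨p, hp⟩ := hc'
      haveI := Fact.mk p.2
      obtain ⟨hc2, hc1⟩ := bender_pair_char_p (p : ℕ) M₂ M₁ hne.symm
        (fun A hA hA₂ hA₁ hn => hP₂ A hA hA₁ hA₂ hn)
        (fun A hA hA₂ hA₁ hn => hP₁ A hA hA₁ hA₂ hn) h₂ h₁ hp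
      exact hfin p p.2 hc1 hc2
    · exfalso
      push Not at hc hc'
      have hF₁ : Cfsg.fittingSubgroup ↥M₁ = ⊥ := by
        rw [fitting_eq_iSup_pCore, eq_bot_iff]
        apply iSup_le
        intro p
        rw [hc p]
      have hF₂ : Cfsg.fittingSubgroup ↥M₂ = ⊥ := by
        rw [fitting_eq_iSup_pCore, eq_bot_iff]
        apply iSup_le
        intro p
        rw [hc' p]
      exact hne (bender_pair_no_fitting M₁ M₂ hP₁ hP₂ h₁ h₂ hF₁ hF₂)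

end Cfsg.Agent.S3752
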