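import Cfsg.Statements.S1312
import Cfsg.Agent.Helper8.MaxSub
import Cfsg.Agent.S3752

set_option autoImplicit false
open Cfsg

namespace Cfsg.Agent.S1312

open Cfsg.Agent.Helper8 Cfsg.Agent.Helper9 in
theorem genFitting_pgroup_of_cent {Y : Type*} [Group Y] [Finite Y] (p : ℕ) [Fact p.Prime]
    (h : Subgroup.centralizer (Cfsg.pCore p Y : Set Y) ≤ Cfsg.pCore p Y) :
    IsPGroup p ↥(Cfsg.generalizedFittingSubgroup Y) := by
  have hle : Cfsg.generalizedFittingSubgroup Y ≤ Cfsg.pCore p Y := by
    unfold Cfsg.generalizedFittingSubgroup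
    apply sup_le
    · intro e he
      apply h
      refine Subgroup.mem_centralizer_iff.mpr ?_
      intro y hy
      exact (fitting_inf_layer_central (pCore_le_fitting p hy) e he).symm
    · rw [fitting_eq_iSup_pCore]
      apply iSup_le
      intro r
      have : Fact (r : ℕ).Prime := ⟨r.2⟩
      by_cases hrp : (r : ℕ) = p
      · exact le_of_eq (by rw [hrp])
      · intro w hw
        apply h
        refine Subgroup.mem_centralizer_iff.mpr ?_
        intro y hy
        exact (msub_pCore_comm (r : ℕ) p hrp w hw y hy).symm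
  exact (pCore_isPGroup p).to_le hle


/-- Let G be a non-abelian finite simple group and M ≠ N maximal subgroups of G with F*(M) ≤ N and F*(N) ≤ M. Then there is a prime p such that F*(M) and F*(N) are both p-groups. -/
theorem result {G : Type*} [Group G] [Finite G] [IsSimpleGroup G] (hna : ¬ IsMulCommutative G) (M N : Subgroup G) (hM : IsCoatom M) (hN : IsCoatom N) (hMN : M ≠ N) (h1 : (Cfsg.generalizedFittingSubgroup ↥M).map M.subtype ≤ N) (h2 : (Cfsg.generalizedFittingSubgroup ↥N).map N.subtype ≤ M) : ∃ p : ℕ, p.Prime ∧ IsPGroup p ↥(Cfsg.generalizedFittingSubgroup ↥M) ∧ IsPGroup p ↥(Cfsg.generalizedFittingSubgroup ↥N) := by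
  classical
  have hprim : ∀ (M N : Subgroup G), IsCoatom M → ∀ A : Subgroup G, A ≠ ⊥ → A ≤ M ⊓ N →
      M ≤ Subgroup.normalizer (A : Set G) → N ⊓ Subgroup.normalizer (A : Set G) = M ⊓ N := by
    intro M N hM A hA hAle hMA
    rcases hM.le_iff.mp hMA with h | h
    · exfalso
      have hAn : A.Normal := Subgroup.normalizer_eq_top_iff.mp h
      rcases hAn.eq_bot_or_eq_top with h' | h'
      · exact hA h'
      · exact hM.1 (top_le_iff.mp (h' ▸ (hAle.trans inf_le_left)))
    · rw [h, inf_comm]
  obtain ⟨p, hp, hc1, hc2, -⟩ := Cfsg.Agent.S3752.result M N hMN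
    (fun A hA hAle => ⟨hprim M N hM A hA hAle, fun hNA => by
      have := hprim N M hN A hA (by rwa [inf_comm]) hNA
      rw [this, inf_comm]⟩) h1 h2
  have : Fact p.Prime := ⟨hp⟩
  exact ⟨p, hp, genFitting_pgroup_of_cent p hc1, genFitting_pgroup_of_cent p hc2⟩

end Cfsg.Agent.S1312
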