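import Cfsg.Statements.S1313
-- import your own Cfsg.Agent.* helpers here
import Cfsg.Agent.Helper9.Layer2

set_option autoImplicit false
open Cfsg

namespace Cfsg.Agent.S1313

/-- For a finite group H, |H| ≤ |F*(H)|!. -/
theorem result {H : Type*} [Group H] [Finite H] : Nat.card H ≤ Nat.factorial (Nat.card ↥(Cfsg.generalizedFittingSubgroup H)) := by
  have hn : (Cfsg.generalizedFittingSubgroup H).Normal := Cfsg.Agent.Helper9.genFitting_normal
  exact Cfsg.Agent.Helper9.card_le_factorial_of_centralizer_le _
    Cfsg.Agent.Helper9.centralizer_genFitting_le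

end Cfsg.Agent.S1313
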