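import Cfsg.Statements.S1336
import Cfsg.Agent.S3056
import Mathlib

set_option autoImplicit false
open Cfsg

namespace Cfsg.Agent.S1336

theorem zpowers_elemAb {G : Type*} [Group G] (p : ℕ) (z : G) (hz : orderOf z = p) :
    IsElementaryAbelian p (Subgroup.zpowers z) ∧ p ^ 1 ≤ Nat.card ↥(Subgroup.zpowers z) := by
  refine ⟨⟨inferInstance, ?_⟩, ?_⟩
  · intro a ha
    obtain ⟨k, rfl⟩ := Subgroup.mem_zpowers_iff.mp ha
    rw [← zpow_natCast, ← zpow_mul, mul_comm, zpow_mul, zpow_natCast, ← hz, pow_orderOf_eq_one,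
      one_zpow]
  · rw [pow_one, Nat.card_zpowers, hz]

theorem elemAb_isPGroup {G : Type*} [Group G] (p : ℕ) (A : Subgroup G)
    (hA : IsElementaryAbelian p A) : IsPGroup p ↥A := fun a =>
  ⟨1, Subtype.ext (by rw [pow_one]; exact hA.2 a.1 a.2)⟩

theorem ne_bot_of_le_card {G : Type*} [Group G] (p : ℕ) [Fact p.Prime] (A : Subgroup G)
    (hA : p ^ 1 ≤ Nat.card ↥A) : A ≠ ⊥ := by
  intro h
  have h1 := Subgroup.card_eq_one.mpr h
  have h2 := (Fact.out : p.Prime).two_le
  rw [pow_one] at hA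
  omega

theorem kreach_of_sylow_chain {G : Type*} [Group G] [Finite G] (p : ℕ) [Fact p.Prime]
    (R : Subgroup G → Subgroup G → Prop)
    (hR : ∀ A B : Subgroup G, IsElementaryAbelian p A → p ^ 1 ≤ Nat.card ↥A →
      IsElementaryAbelian p B → p ^ 1 ≤ Nat.card ↥B → (∀ a ∈ A, ∀ b ∈ B, a * b = b * a) → R A B)
    (hconn : Cfsg.IsSylowChainConnected p G) (E E' : Subgroup G)
    (hE : IsElementaryAbelian p E) (hEc : p ^ 1 ≤ Nat.card ↥E)
    (hE' : IsElementaryAbelian p E') (hE'c : p ^ 1 ≤ Nat.card ↥E') :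
    Relation.ReflTransGen R E E' := by
  have hp : p.Prime := Fact.out
  have hcz : ∀ u v : G, u * v = v * u → ∀ a ∈ Subgroup.zpowers u, ∀ b ∈ Subgroup.zpowers v,
      a * b = b * a := by
    intro u v h a ha b hb
    obtain ⟨k, rfl⟩ := Subgroup.mem_zpowers_iff.mp ha
    obtain ⟨m, rfl⟩ := Subgroup.mem_zpowers_iff.mp hb
    exact (Commute.zpow_zpow (show Commute u v from h) k m).eq
  have hZ : ∀ P : Sylow p G, (P : Subgroup G) ≠ ⊥ → ∃ z : G, z ∈ (P : Subgroup G) ∧
      orderOf z = p ∧ ∀ y ∈ (P : Subgroup G), z * y = y * z := by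
    intro P hP
    have : Nontrivial ↥(P : Subgroup G) := (Subgroup.nontrivial_iff_ne_bot _).mpr hP
    have := P.2.center_nontrivial
    have hc : IsPGroup p ↥(Subgroup.center ↥(P : Subgroup G)) := P.2.to_subgroup _
    have hdvd : p ∣ Nat.card ↥(Subgroup.center ↥(P : Subgroup G)) := by
      rcases hc.card_eq_or_dvd with h | h
      · exact absurd h (Finite.one_lt_card_iff_nontrivial.mpr inferInstance).ne'
      · exact h
    obtain ⟨x, hx⟩ := exists_prime_orderOf_dvd_card' p hdvd
    refine ⟨((x : ↥(P : Subgroup G)) : G), (x : ↥(P : Subgroup G)).2, ?_, ?_⟩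
    · rw [Subgroup.orderOf_coe, Subgroup.orderOf_coe, hx]
    · intro y hy
      have := Subgroup.mem_center_iff.mp x.2 ⟨y, hy⟩
      exact (congrArg Subtype.val this).symm
  obtain ⟨S, hES⟩ := (elemAb_isPGroup p E hE).exists_le_sylow
  obtain ⟨T, hET⟩ := (elemAb_isPGroup p E' hE').exists_le_sylow
  obtain ⟨n, c, h0, hl, -, hstep⟩ := hconn S T
  have hS : (S : Subgroup G) ≠ ⊥ := fun h => ne_bot_of_le_card p E hEc (le_bot_iff.mp (h ▸ hES))
  have key : ∀ i : Fin (n + 1), ∃ z : G, z ∈ (c i : Subgroup G) ∧ orderOf z = p ∧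
      (∀ y ∈ (c i : Subgroup G), z * y = y * z) ∧
      Relation.ReflTransGen R E (Subgroup.zpowers z) := by
    intro i
    induction i using Fin.induction with
    | zero =>
      obtain ⟨z, hz, hzo, hzc⟩ := hZ (c 0) (by rw [h0]; exact hS)
      refine ⟨z, hz, hzo, hzc, Relation.ReflTransGen.single ?_⟩
      refine hR E _ hE hEc (zpowers_elemAb p z hzo).1 (zpowers_elemAb p z hzo).2 ?_
      intro a ha b hb
      obtain ⟨k, rfl⟩ := Subgroup.mem_zpowers_iff.mp hb
      have hcomm : Commute a z := (hzc a (by rw [h0]; exact hES ha)).symm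
      exact (hcomm.zpow_right k).eq
    | succ i ih =>
      obtain ⟨z, hz, hzo, hzc, hreach⟩ := ih
      have hI : IsPGroup p ↥((c i.castSucc : Subgroup G) ⊓ (c i.succ : Subgroup G)) :=
        (c i.succ).2.to_le inf_le_right
      have hdvd : p ∣ Nat.card ↥((c i.castSucc : Subgroup G) ⊓ (c i.succ : Subgroup G)) := by
        rcases hI.card_eq_or_dvd with h | h
        · exact absurd (Subgroup.card_eq_one.mp h) (hstep i).2
        · exact h
      obtain ⟨x, hx⟩ := exists_prime_orderOf_dvd_card' p hdvd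
      have hxo : orderOf (x : G) = p := by rw [Subgroup.orderOf_coe, hx]
      have hx1 : (x : G) ∈ (c i.castSucc : Subgroup G) := (Subgroup.mem_inf.mp x.2).1
      have hx2 : (x : G) ∈ (c i.succ : Subgroup G) := (Subgroup.mem_inf.mp x.2).2
      have hne' : (c i.succ : Subgroup G) ≠ ⊥ := by
        intro h
        have hle : (c i.succ : Subgroup G) ≤ ⊥ := le_of_eq h
        have hx3 : (x : G) = 1 := Subgroup.mem_bot.mp (hle hx2)
        rw [hx3, orderOf_one] at hxo
        exact hp.one_lt.ne hxo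
      obtain ⟨z', hz', hzo', hzc'⟩ := hZ (c i.succ) hne'
      refine ⟨z', hz', hzo', hzc', ?_⟩
      have r1 : R (Subgroup.zpowers z) (Subgroup.zpowers (x : G)) :=
        hR _ _ (zpowers_elemAb p z hzo).1 (zpowers_elemAb p z hzo).2 (zpowers_elemAb p _ hxo).1
          (zpowers_elemAb p _ hxo).2 (hcz z _ (hzc _ hx1))
      have r2 : R (Subgroup.zpowers (x : G)) (Subgroup.zpowers z') :=
        hR _ _ (zpowers_elemAb p _ hxo).1 (zpowers_elemAb p _ hxo).2 (zpowers_elemAb p z' hzo').1
          (zpowers_elemAb p z' hzo').2 (hcz _ z' (hzc' _ hx2).symm)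
      exact (hreach.tail r1).tail r2
  obtain ⟨z, hz, hzo, hzc, hreach⟩ := key (Fin.last n)
  refine hreach.tail (hR _ _ (zpowers_elemAb p z hzo).1 (zpowers_elemAb p z hzo).2 hE' hE'c ?_)
  intro a ha b hb
  obtain ⟨k, rfl⟩ := Subgroup.mem_zpowers_iff.mp ha
  have hcomm : Commute z b := hzc b (by rw [hl]; exact hET hb)
  exact (hcomm.zpow_left k).eq

theorem sylow_reach_of_kreach {G : Type*} [Group G] [Finite G] (p : ℕ) [Fact p.Prime]
    (R : Subgroup G → Subgroup G → Prop)
    (hR : ∀ A B : Subgroup G, R A B → IsElementaryAbelian p A ∧ p ^ 1 ≤ Nat.card ↥A ∧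
      IsElementaryAbelian p B ∧ p ^ 1 ≤ Nat.card ↥B ∧ ∀ a ∈ A, ∀ b ∈ B, a * b = b * a)
    (A B : Subgroup G) (hAB : Relation.ReflTransGen R A B) :
    A ≠ ⊥ → ∀ S T : Sylow p G, A ≤ (S : Subgroup G) → B ≤ (T : Subgroup G) →
      Relation.ReflTransGen (Cfsg.Agent.S3056.SylE p) S T := by
  have hmeet : ∀ (C : Subgroup G) (S T : Sylow p G), C ≠ ⊥ → C ≤ (S : Subgroup G) →
      C ≤ (T : Subgroup G) → Relation.ReflTransGen (Cfsg.Agent.S3056.SylE p) S T := by
    intro C S T hC hS hT
    by_cases h : S = T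
    · rw [h]
    · exact Relation.ReflTransGen.single ⟨h, fun hb => hC (le_bot_iff.mp (hb ▸ le_inf hS hT))⟩
  induction hAB using Relation.ReflTransGen.head_induction_on with
  | refl => exact fun hA S T hS hT => hmeet B S T hA hS hT
  | @head A' B' h' _ ih =>
    intro hA S T hS hT
    obtain ⟨hA1, hA2, hB1, hB2, hcomm⟩ := hR A' B' h'
    have hB'ne : B' ≠ ⊥ := ne_bot_of_le_card p B' hB2
    have hpA : IsPGroup p ↥A' := elemAb_isPGroup p A' hA1
    have hpB : IsPGroup p ↥B' := elemAb_isPGroup p B' hB1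
    have hnorm : A' ≤ Subgroup.normalizer (B' : Set G) := by
      refine le_trans ?_ (Subgroup.centralizer_le_normalizer _)
      intro a ha
      rw [Subgroup.mem_centralizer_iff]
      intro b hb
      exact (hcomm a ha b hb).symm
    have hsup : IsPGroup p ↥(A' ⊔ B') := IsPGroup.to_sup_of_normal_right' hpA hpB hnorm
    obtain ⟨U, hU⟩ := hsup.exists_le_sylow
    exact (hmeet A' S U hA hS (le_sup_left.trans hU)).trans
      (ih hB'ne U T (le_sup_right.trans hU) hT)

/-- Let G be finite and p prime. Then G has a proper subgroup H with p ∣ |H| and p ∤ |H ∩ gHg⁻¹| for every g ∉ H (a strongly p-embedded subgroup) if and only if G is not 1-connected for p. -/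
theorem result {G : Type*} [Group G] [Finite G] (p : ℕ) [Fact p.Prime] : (∃ H : Subgroup G, H ≠ ⊤ ∧ p ∣ Nat.card ↥H ∧ ∀ g : G, g ∉ H → ¬ p ∣ Nat.card ↥(H ⊓ H.map (MulAut.conj g).toMonoidHom)) ↔ ¬ Cfsg.IsKConnected p 1 G := by
  refine (Cfsg.Agent.S3056.result p).symm.trans (not_congr ?_)
  have hp : p.Prime := Fact.out
  constructor
  · intro hconn E E' hE hEc hE' hE'c
    exact kreach_of_sylow_chain p _ (fun A B h1 h2 h3 h4 h5 => ⟨h1, h2, h3, h4, h5⟩) hconn E E'
      hE hEc hE' hE'c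
  · intro hk S T
    by_cases hST : S = T
    · exact ⟨0, fun _ => S, rfl, hST, fun _ => inf_le_left, fun i => i.elim0⟩
    by_cases hb : (S : Subgroup G) ⊓ (T : Subgroup G) = ⊥
    · have hdvd : ∀ P : Sylow p G, (P : Subgroup G) ≠ ⊥ →
          ∃ x : G, x ∈ (P : Subgroup G) ∧ orderOf x = p := by
        intro P hP
        have h1 : p ∣ Nat.card ↥(P : Subgroup G) := by
          rcases P.2.card_eq_or_dvd with h | h
          · exact absurd (Subgroup.card_eq_one.mp h) hP
          · exact h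
        obtain ⟨x, hx⟩ := exists_prime_orderOf_dvd_card' p h1
        exact ⟨x, x.2, by rw [Subgroup.orderOf_coe, hx]⟩
      obtain ⟨g, hg⟩ := MulAction.exists_smul_eq G S T
      have hSne : (S : Subgroup G) ≠ ⊥ := by
        intro h
        apply hST
        apply Sylow.ext
        rw [← hg, Cfsg.Agent.Helper17.sylow_smul_coe, h, Subgroup.map_bot]
      have hTne : (T : Subgroup G) ≠ ⊥ := by
        intro h
        rw [← hg, Cfsg.Agent.Helper17.sylow_smul_coe,
          Subgroup.map_eq_bot_iff_of_injective _ (MulAut.conj g).injective] at h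
        exact hSne h
      obtain ⟨x, hxS, hxo⟩ := hdvd S hSne
      obtain ⟨y, hyT, hyo⟩ := hdvd T hTne
      have hr := hk (Subgroup.zpowers x) (Subgroup.zpowers y) (zpowers_elemAb p x hxo).1
        (zpowers_elemAb p x hxo).2 (zpowers_elemAb p y hyo).1 (zpowers_elemAb p y hyo).2
      have hxne : Subgroup.zpowers x ≠ ⊥ := ne_bot_of_le_card p _ (zpowers_elemAb p x hxo).2
      have hreach := sylow_reach_of_kreach p _ (fun A B h => h) _ _ hr hxne S T
        (by rw [Subgroup.zpowers_le]; exact hxS) (by rw [Subgroup.zpowers_le]; exact hyT)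
      obtain ⟨n, c, h0, hl, hc⟩ := Cfsg.Agent.S3056.chain_of_reach hreach
      exact ⟨n, c, h0, hl, fun i => by rw [hb]; exact bot_le, hc⟩
    · refine ⟨1, Fin.cons S (fun _ => T), rfl, rfl, ?_, ?_⟩
      · intro i
        refine Fin.cases ?_ ?_ i
        · exact inf_le_left
        · intro j
          exact inf_le_right
      · intro i
        have hi0 : i = 0 := Subsingleton.elim _ _
        subst hi0
        exact ⟨hST, hb⟩

end Cfsg.Agent.S1336
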