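import Cfsg.Statements.S1349
import Cfsg.Agent.Helper29.DihLemma
import Cfsg.Agent.Helper9.Layer
import Cfsg.Agent.Helper9.Fitting
import Cfsg.Agent.S1264

set_option autoImplicit false
open Cfsg

namespace Cfsg.Agent.S1349

/-- Let G be finite, L ≤ G solvable of odd order, and A an elementary abelian 2-subgroup of order 2^d (d ≥ 1) normalizing L with C_A(L) = 1. Then there are subgroups A_1, …, A_d of A of order 2 generating A and subgroups L_1, …, L_d of L such that each A_i ⊔ L_i is dihedral of order 2 n_i with n_i odd and at least 3, and A_i ⊔ L_i commutes elementwise with A_j ⊔ L_j for i ≠ j. -/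
theorem result {G : Type*} [Group G] [Finite G] (L A : Subgroup G) (hLs : Group.IsSolvable ↥L) (hLodd : Odd (Nat.card ↥L)) (hA : Cfsg.IsElementaryAbelian 2 A) (d : ℕ) (hd : 1 ≤ d) (hAd : Nat.card ↥A = 2 ^ d) (hAL : A ≤ Subgroup.normalizer (L : Set G)) (hfaith : A ⊓ Subgroup.centralizer (L : Set G) = ⊥) : ∃ (Ai : Fin d → Subgroup G) (Li : Fin d → Subgroup G) (n : Fin d → ℕ), (∀ i, Ai i ≤ A ∧ Nat.card ↥(Ai i) = 2 ∧ Li i ≤ L ∧ Odd (n i) ∧ 3 ≤ n i ∧ Nonempty (↥(Ai i ⊔ Li i) ≃* DihedralGroup (n i))) ∧ (⨆ i, Ai i) = A ∧ ∀ i j, i ≠ j → ∀ x ∈ Ai i ⊔ Li i, ∀ y ∈ Ai j ⊔ Li j, x * y = y * x := by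
  classical
obtain ⟨hAcomm, hAsq⟩ := hA
have hA2 : ∀ a ∈ A, a * a = 1 := fun a ha => by rw [← pow_two]; exact hAsq a ha
have hAc : ∀ a ∈ A, ∀ b ∈ A, a * b = b * a := by
  intro a ha b hb
  have := hAcomm.is_comm.comm (⟨a, ha⟩ : A) ⟨b, hb⟩
  exact congrArg Subtype.val this
have hAL' : ∀ a ∈ A, ∀ x ∈ L, a * x * a⁻¹ ∈ L := fun a ha x hx =>
  (Subgroup.mem_normalizer_iff.1 (hAL ha) x).1 hx
have := hLs
obtain ⟨F, hF⟩ : ∃ F : Subgroup G, F = (Cfsg.fittingSubgroup ↥L).map L.subtype := ⟨_, rfl⟩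
have hFL : F ≤ L := by rw [hF]; exact Subgroup.map_subtype_le _
have hFnil : Group.IsNilpotent ↥F := by
  rw [hF]
  have := Cfsg.Agent.Helper9.fitting_nilpotent (G := ↥L)
  exact Group.nilpotent_of_mulEquiv
    (Subgroup.equivMapOfInjective (Cfsg.fittingSubgroup ↥L) L.subtype L.subtype_injective)
have hFodd : Odd (Nat.card F) := Odd.of_dvd_nat hLodd (Subgroup.card_dvd_of_le hFL)
have hAF : ∀ a ∈ A, ∀ f ∈ F, a * f * a⁻¹ ∈ F := by
  intro a ha f hf
  have h1 := Cfsg.Agent.Helper9.char_map_normalizer L (Cfsg.fittingSubgroup ↥L) (hAL ha)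
  rw [← hF] at h1
  exact (Subgroup.mem_normalizer_iff.1 h1 f).1 hf
have hFnL : ∀ x ∈ L, ∀ f ∈ F, x * f * x⁻¹ ∈ F := by
  intro x hx f hf
  rw [hF] at hf ⊢
  obtain ⟨f', hf', rfl⟩ := hf
  exact ⟨⟨x, hx⟩ * f' * ⟨x, hx⟩⁻¹,
    (Cfsg.Agent.Helper9.fitting_normal (G := ↥L)).conj_mem f' hf' ⟨x, hx⟩, rfl⟩
have hCF : ∀ x ∈ L, (∀ f ∈ F, x * f = f * x) → x ∈ F := by
  intro x hx hxc
  have h1 := Cfsg.Agent.S1264.result (G := ↥L)
    (Subgroup.centralizer (Cfsg.fittingSubgroup ↥L : Set ↥L)) le_rfl Subgroup.le_normalizer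
    inferInstance
  have h2 : (⟨x, hx⟩ : ↥L) ∈ Subgroup.centralizer (Cfsg.fittingSubgroup ↥L : Set ↥L) := by
    rw [Subgroup.mem_centralizer_iff]
    intro f hf
    apply Subtype.ext
    have := hxc (f : G) (by rw [hF]; exact ⟨f, hf, rfl⟩)
    exact this.symm
  have h3 := (h1.trans (Subgroup.map_subtype_le _)) h2
  rw [hF]; exact ⟨⟨x, hx⟩, h3, rfl⟩
have hLodd' : ∀ x ∈ L, x * x = 1 → x = 1 := by
  intro x hx hxx
  have := Cfsg.Agent.Helper29.dih_odd_of_card L ⊥ hLodd x hx (by rw [hxx]; exact one_mem _)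
  rwa [Subgroup.mem_bot] at this
obtain ⟨M, hMF, hMab, hMnF, hMnA, hMC⟩ :=
  Cfsg.Agent.Helper29.dih_max_abelian F A hFnil hFodd hA2 hAc hAF
have hModd : Odd (Nat.card M) := Odd.of_dvd_nat hFodd (Subgroup.card_dvd_of_le hMF)
have hfaithM : ∀ a ∈ A, (∀ m ∈ M, a * m * a⁻¹ = m) → a = 1 := by
  intro a ha hcent
  have h1 : ∀ f ∈ F, a * f * a⁻¹ = f :=
    Cfsg.Agent.Helper29.dih_centralize F M hMnF hMC (fun f hf => hLodd' f (hFL hf)) a (hA2 a ha)
      (hAF a ha) hcent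
  have h2 : ∀ x ∈ L, a * x * a⁻¹ = x :=
    Cfsg.Agent.Helper29.dih_centralize L F hFnL hCF hLodd' a (hA2 a ha) (hAL' a ha) h1
  have h3 : a ∈ A ⊓ Subgroup.centralizer (L : Set G) := by
    refine Subgroup.mem_inf.2 ⟨ha, Subgroup.mem_centralizer_iff.2 ?_⟩
    intro x hx
    exact (mul_inv_eq_iff_eq_mul.1 (h2 x hx)).symm
  rw [hfaith, Subgroup.mem_bot] at h3
  exact h3
obtain ⟨y, hy, hind⟩ :=
  Cfsg.Agent.Helper29.dih_indep M A hMab hModd hA2 hAc hMnA hfaithM d A le_rfl hAd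
have hyL : ∀ i, y i ∈ L := fun i => hFL (hMF (hy i).1)
have hyinv : ∀ i, (y i)⁻¹ ≠ y i := by
  intro i h
  apply (hy i).2.1
  apply hLodd' _ (hyL i)
  calc y i * y i = (y i)⁻¹ * y i := by rw [h]
    _ = 1 := inv_mul_cancel _
obtain ⟨a, ha, hgen⟩ :=
  Cfsg.Agent.Helper29.dih_dual A d hAd hA2 y (fun i => (hy i).2.2) hyinv hind
have hyodd : ∀ i, Odd (orderOf (y i)) := by
  intro i
  have h1 : orderOf (y i) ∣ Nat.card L := by
    have := orderOf_dvd_natCard (⟨y i, hyL i⟩ : L)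
    rwa [Subgroup.orderOf_mk] at this
  exact Odd.of_dvd_nat hLodd h1
refine ⟨fun i => Subgroup.zpowers (a i), fun i => Subgroup.zpowers (y i),
  fun i => orderOf (y i), ?_, hgen, ?_⟩
· intro i
  have hai1 : a i ≠ 1 := by
    intro h
    have := (ha i).2.1
    rw [h] at this
    apply hyinv i
    rw [← this]; group
  refine ⟨by rw [Subgroup.zpowers_le]; exact (ha i).1, ?_,
    by rw [Subgroup.zpowers_le]; exact hyL i, hyodd i, ?_, ?_⟩
  · rw [Nat.card_zpowers]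
    exact orderOf_eq_prime (by rw [pow_two]; exact hA2 _ (ha i).1) hai1
  · have hne1 : orderOf (y i) ≠ 1 := by rw [Ne, orderOf_eq_one_iff]; exact (hy i).2.1
    obtain ⟨k, hk⟩ := hyodd i
    show 3 ≤ orderOf (y i)
    omega
  · exact Cfsg.Agent.Helper29.dih_iso (a i) (y i) (hA2 _ (ha i).1) (hy i).2.1 (hyinv i) (ha i).2.1
· intro i j hij x hx z hz
  have h1 : a i * a j = a j * a i := hAc _ (ha i).1 _ (ha j).1
  have h2 : a i * y j = y j * a i := mul_inv_eq_iff_eq_mul.1 ((ha i).2.2 j (Ne.symm hij))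
  have h3 : a j * y i = y i * a j := mul_inv_eq_iff_eq_mul.1 ((ha j).2.2 i hij)
  have h4 : y i * y j = y j * y i := hMab _ (hy i).1 _ (hy j).1
  have hS1 : ∀ g : G, a i * g = g * a i → y i * g = g * y i →
      Subgroup.zpowers (a i) ⊔ Subgroup.zpowers (y i) ≤ Subgroup.centralizer ({g} : Set G) := by
    intro g hg1 hg2
    refine sup_le ?_ ?_
    · rw [Subgroup.zpowers_le, Subgroup.mem_centralizer_iff]
      intro h hh
      rw [Set.mem_singleton_iff] at hh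
      rw [hh]; exact hg1.symm
    · rw [Subgroup.zpowers_le, Subgroup.mem_centralizer_iff]
      intro h hh
      rw [Set.mem_singleton_iff] at hh
      rw [hh]; exact hg2.symm
  have hxa : a j * x = x * a j :=
    Subgroup.mem_centralizer_iff.1 (hS1 (a j) h1 h3.symm hx) (a j) rfl
  have hxy : y j * x = x * y j :=
    Subgroup.mem_centralizer_iff.1 (hS1 (y j) h2 h4 hx) (y j) rfl
  have hS2 : Subgroup.zpowers (a j) ⊔ Subgroup.zpowers (y j) ≤
      Subgroup.centralizer ({x} : Set G) := by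
    refine sup_le ?_ ?_
    · rw [Subgroup.zpowers_le, Subgroup.mem_centralizer_iff]
      intro h hh
      rw [Set.mem_singleton_iff] at hh
      rw [hh]; exact hxa.symm
    · rw [Subgroup.zpowers_le, Subgroup.mem_centralizer_iff]
      intro h hh
      rw [Set.mem_singleton_iff] at hh
      rw [hh]; exact hxy.symm
  exact Subgroup.mem_centralizer_iff.1 (hS2 hz) x rfl

end Cfsg.Agent.S1349
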