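import Cfsg.Statements.S1892
import Cfsg.Agent.Helper20.HallHigman

set_option autoImplicit false
open Cfsg

namespace Cfsg.Agent.S1892

open scoped commutatorElement

/-- `g` normalizes `W` and acts trivially on `P` modulo `W`. -/
def TrivMod {S : Type*} [Group S] (P W : Subgroup S) (g : S) : Prop :=
  (∀ w ∈ W, g * w * g⁻¹ ∈ W) ∧ ∀ x ∈ P, g * x * g⁻¹ * x⁻¹ ∈ W

theorem TrivMod.mul {S : Type*} [Group S] {P W : Subgroup S} {g h : S}
    (hg : TrivMod P W g) (hh : TrivMod P W h) : TrivMod P W (g * h) := by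
  refine ⟨fun w hw => ?_, fun x hx => ?_⟩
  · have e : g * h * w * (g * h)⁻¹ = g * (h * w * h⁻¹) * g⁻¹ := by group
    rw [e]; exact hg.1 _ (hh.1 w hw)
  · have e : g * h * x * (g * h)⁻¹ * x⁻¹
        = g * (h * x * h⁻¹ * x⁻¹) * g⁻¹ * (g * x * g⁻¹ * x⁻¹) := by group
    rw [e]; exact W.mul_mem (hg.1 _ (hh.2 x hx)) (hg.2 x hx)

/-- The elements which, together with their inverses, act trivially modulo `W`. -/
def trivModSubgroup {S : Type*} [Group S] (P W : Subgroup S) : Subgroup S where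
  carrier := {g | TrivMod P W g ∧ TrivMod P W g⁻¹}
  mul_mem' := by
    intro g h hg hh
    refine ⟨hg.1.mul hh.1, ?_⟩
    rw [mul_inv_rev]
    exact hh.2.mul hg.2
  one_mem' := by
    have h1 : TrivMod P W (1 : S) := by
      refine ⟨fun w hw => ?_, fun x hx => ?_⟩
      · simpa using hw
      · simp
    refine ⟨h1, ?_⟩
    rw [inv_one]; exact h1
  inv_mem' := by
    intro g hg
    refine ⟨hg.2, ?_⟩
    rw [inv_inv]; exact hg.1

theorem mem_trivModSubgroup {S : Type*} [Group S] {P W : Subgroup S} {g : S} :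
    g ∈ trivModSubgroup P W ↔ TrivMod P W g ∧ TrivMod P W g⁻¹ := Iff.rfl


/-- Let S be a finite p-solvable group with no nontrivial normal subgroup of order prime to p, A a p-subgroup of S, and Q a nontrivial A-invariant subgroup of order prime to p with [A, Q] = Q. Then the commutator [O_p(S), A, Q] is nontrivial. -/
theorem result {S : Type*} [Group S] [Finite S] {p : ℕ} [Fact p.Prime]
    (hS : Cfsg.IsPSolvable p S) (hred : Cfsg.pPrimeCore p S = ⊥)
    (A Q : Subgroup S) (hA : IsPGroup p A) (hQ : ¬ p ∣ Nat.card Q) (hQ1 : Q ≠ ⊥)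
    (hinv : ∀ a ∈ A, ∀ x ∈ Q, a * x * a⁻¹ ∈ Q) (hAQ : ⁅A, Q⁆ = Q) :
    ⁅⁅Cfsg.pCore p S, A⁆, Q⁆ ≠ ⊥ := by
  intro hbot
  have hp : p.Prime := Fact.out
  obtain ⟨P, hP⟩ : ∃ P : Subgroup S, P = Cfsg.pCore p S := ⟨_, rfl⟩
  rw [← hP] at hbot
  have hPn : P.Normal := by rw [hP]; infer_instance
  have hPp : IsPGroup p P := by
    rw [hP]
    exact Sylow.sSup_of_normal _ (fun _ hH => hH.2) (fun _ hH => hH.1)
  have hcen : Subgroup.centralizer (P : Set S) ≤ P := by
    rw [hP]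
    exact Cfsg.Agent.Helper20.PLen.centralizer_pCore_le_of_psolvable p hS hred
  obtain ⟨W, hW⟩ : ∃ W : Subgroup S, W = ⁅P, A⁆ := ⟨_, rfl⟩
  rw [← hW] at hbot
  have hWP : W ≤ P := by rw [hW]; exact Subgroup.commutator_le_left P A
  have hcopQ : Nat.Coprime (Nat.card Q) p := ((Nat.Prime.coprime_iff_not_dvd hp).mpr hQ).symm
  have hWQ : ∀ w ∈ W, ∀ q ∈ Q, q * w = w * q := by
    intro w hw q hq
    have h1 : ⁅w, q⁆ ∈ ⁅W, Q⁆ := Subgroup.commutator_mem_commutator hw hq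
    rw [hbot, Subgroup.mem_bot, commutatorElement_def] at h1
    have h2 : w * q = q * w := by
      calc w * q = (w * q * w⁻¹ * q⁻¹) * (q * w) := by group
        _ = q * w := by rw [h1, one_mul]
    exact h2.symm
  have hWA : ∀ a ∈ A, ∀ w ∈ W, a * w * a⁻¹ ∈ W := by
    intro a ha w hw
    have h1 : (MulAut.conj a).toMonoidHom w ∈ W.map (MulAut.conj a).toMonoidHom :=
      Subgroup.mem_map_of_mem _ hw
    have h2 : W.map (MulAut.conj a).toMonoidHom ≤ W := by
      rw [hW, Subgroup.map_commutator]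
      apply Subgroup.commutator_mono
      · rintro _ ⟨x, hx, rfl⟩
        exact hPn.conj_mem x hx a
      · rintro _ ⟨x, hx, rfl⟩
        exact A.mul_mem (A.mul_mem ha hx) (A.inv_mem ha)
    exact h2 h1
  have hT_A : ∀ a ∈ A, TrivMod P W a := by
    intro a ha
    refine ⟨hWA a ha, fun x hx => ?_⟩
    have h1 : ⁅a, x⁆ ∈ ⁅A, P⁆ := Subgroup.commutator_mem_commutator ha hx
    rw [Subgroup.commutator_comm, ← hW, commutatorElement_def] at h1
    exact h1
  have hconjQ : ∀ w ∈ W, ∀ q ∈ Q, q * w * q⁻¹ = w := by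
    intro w hw q hq
    rw [hWQ w hw q hq, mul_inv_cancel_right]
  have hT_QA : ∀ q ∈ Q, ∀ a ∈ A, TrivMod P W (q * a * q⁻¹) := by
    intro q hq a ha
    have hTa := hT_A a ha
    have hqi : q⁻¹ ∈ Q := Q.inv_mem hq
    refine ⟨fun w hw => ?_, fun x hx => ?_⟩
    · have e : q * a * q⁻¹ * w * (q * a * q⁻¹)⁻¹
          = q * (a * (q⁻¹ * w * q⁻¹⁻¹) * a⁻¹) * q⁻¹ := by group
      rw [e, hconjQ w hw q⁻¹ hqi, hconjQ _ (hTa.1 w hw) q hq]
      exact hTa.1 w hw
    · have hy : q⁻¹ * x * q ∈ P := by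
        have := hPn.conj_mem x hx q⁻¹
        rwa [inv_inv] at this
      have e : q * a * q⁻¹ * x * (q * a * q⁻¹)⁻¹ * x⁻¹
          = q * (a * (q⁻¹ * x * q) * a⁻¹ * (q⁻¹ * x * q)⁻¹) * q⁻¹ := by group
      rw [e, hconjQ _ (hTa.2 _ hy) q hq]
      exact hTa.2 _ hy
  have hQC : Q ≤ trivModSubgroup P W := by
    rw [← hAQ, Subgroup.commutator_le]
    intro a ha q hq
    have e : ⁅a, q⁆ = a * (q * a⁻¹ * q⁻¹) := by rw [commutatorElement_def]; group
    rw [e]
    have hA_mem : a ∈ trivModSubgroup P W :=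
      mem_trivModSubgroup.mpr ⟨hT_A a ha, hT_A a⁻¹ (A.inv_mem ha)⟩
    have hQA_mem : q * a⁻¹ * q⁻¹ ∈ trivModSubgroup P W := by
      refine mem_trivModSubgroup.mpr ⟨hT_QA q hq a⁻¹ (A.inv_mem ha), ?_⟩
      have e2 : (q * a⁻¹ * q⁻¹)⁻¹ = q * a * q⁻¹ := by group
      rw [e2]; exact hT_QA q hq a ha
    exact (trivModSubgroup P W).mul_mem hA_mem hQA_mem
  have hQP : ∀ q ∈ Q, ∀ x ∈ P, q * x = x * q := by
    intro q hq x hx
    obtain ⟨u, hu⟩ : ∃ u, u = q * x * q⁻¹ * x⁻¹ := ⟨_, rfl⟩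
    have huW : u ∈ W := by
      rw [hu]; exact (mem_trivModSubgroup.mp (hQC hq)).1.2 x hx
    have hpow : ∀ k : ℕ, q ^ k * x * (q ^ k)⁻¹ * x⁻¹ = u ^ k := by
      intro k
      induction k with
      | zero => simp
      | succ k ih =>
        have h1 : q ^ k * u * (q ^ k)⁻¹ = u := hconjQ u huW (q ^ k) (Q.pow_mem hq k)
        have h2 : q ^ (k + 1) = q ^ k * q := pow_succ q k
        rw [h2]
        generalize q ^ k = r at ih h1 ⊢
        calc r * q * x * (r * q)⁻¹ * x⁻¹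
            = (r * (q * x * q⁻¹ * x⁻¹) * r⁻¹) * (r * x * r⁻¹ * x⁻¹) := by group
          _ = u * u ^ k := by rw [← hu, h1, ih]
          _ = u ^ (k + 1) := by rw [pow_succ']
    have h3 : u ^ orderOf q = 1 := by
      rw [← hpow, pow_orderOf_eq_one]; simp
    obtain ⟨k, hk⟩ := (hPp.to_le hWP) ⟨u, huW⟩
    have hk' : u ^ p ^ k = 1 := by
      simpa only [Subgroup.coe_pow, Subgroup.coe_one] using congrArg Subtype.val hk
    have hcop : Nat.Coprime (orderOf q) (p ^ k) :=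
      Nat.Coprime.pow_right k
        (Nat.Coprime.coprime_dvd_left (Subgroup.orderOf_dvd_natCard Q hq) hcopQ)
    have hu1 : u = 1 := by
      have h4 : orderOf u ∣ orderOf q := orderOf_dvd_of_pow_eq_one h3
      have h5 : orderOf u ∣ p ^ k := orderOf_dvd_of_pow_eq_one hk'
      exact orderOf_eq_one_iff.mp (Nat.eq_one_of_dvd_coprimes hcop h4 h5)
    rw [hu1] at hu
    calc q * x = (q * x * q⁻¹ * x⁻¹) * (x * q) := by group
      _ = x * q := by rw [← hu, one_mul]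
  have hQcen : Q ≤ Subgroup.centralizer (P : Set S) := by
    intro q hq
    rw [Subgroup.mem_centralizer_iff]
    intro x hx
    exact (hQP q hq x hx).symm
  have hQle : Q ≤ P := hQcen.trans hcen
  apply hQ1
  rw [eq_bot_iff]
  intro q hq
  rw [Subgroup.mem_bot]
  obtain ⟨k, hk⟩ := hPp ⟨q, hQle hq⟩
  have hk' : q ^ p ^ k = 1 := by
    simpa only [Subgroup.coe_pow, Subgroup.coe_one] using congrArg Subtype.val hk
  have h5 : orderOf q ∣ p ^ k := orderOf_dvd_of_pow_eq_one hk'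
  have hdvd : orderOf q ∣ Nat.card Q := Subgroup.orderOf_dvd_natCard Q hq
  have hcop : Nat.Coprime (Nat.card Q) (p ^ k) := Nat.Coprime.pow_right k hcopQ
  exact orderOf_eq_one_iff.mp (Nat.eq_one_of_dvd_coprimes hcop hdvd h5)

end Cfsg.Agent.S1892
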