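import Cfsg.Statements.S1894
-- import your own Cfsg.Agent.* helpers here
import Cfsg.Agent.Helper24.PNormalCenter

set_option autoImplicit false
open Cfsg

namespace Cfsg.Agent.S1894

open Cfsg.Agent.Helper24

/-- Let P be a finite p-group, A a normal subgroup of P and B an abelian subgroup of A that is normal in P. Then some subgroup C of A containing B is normal in P and is self-centralizing and normal in A (C ∈ SCN(A)). -/
theorem result {P : Type*} [Group P] [Finite P] {p : ℕ} [Fact p.Prime] (hP : IsPGroup p P)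
    (A : Subgroup P) [A.Normal] (B : Subgroup P) [B.Normal] (hBA : B ≤ A) (hB : IsMulCommutative B) :
    ∃ C : Subgroup P, C.Normal ∧ B ≤ C ∧ Cfsg.IsSCN A C := by
  classical
  obtain ⟨good, hgood⟩ : ∃ good : Subgroup P → Prop, ∀ C, good C ↔
      (C.Normal ∧ B ≤ C ∧ C ≤ A ∧ ∀ x ∈ C, ∀ y ∈ C, x * y = y * x) := ⟨_, fun _ => Iff.rfl⟩
  have hBgood : good B := (hgood B).mpr ⟨inferInstance, le_rfl, hBA, fun x hx y hy =>
    congrArg Subtype.val (hB.is_comm.comm (⟨x, hx⟩ : ↥B) ⟨y, hy⟩)⟩
  haveI : Fintype (Subgroup P) := Fintype.ofFinite _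
  obtain ⟨C, hCmem, hCmax⟩ := Finset.exists_max_image (Finset.univ.filter good)
    (fun C : Subgroup P => Nat.card C) ⟨B, Finset.mem_filter.mpr ⟨Finset.mem_univ _, hBgood⟩⟩
  obtain ⟨hCn, hBC, hCA, hCab⟩ := (hgood C).mp (Finset.mem_filter.mp hCmem).2
  haveI := hCn
  refine ⟨C, hCn, hBC, hCA, ?_, ?_⟩
  · intro a _
    rw [Subgroup.mem_normalizer_iff]
    intro h
    refine ⟨fun hh => hCn.conj_mem h hh a, fun hh => ?_⟩
    have h1 := hCn.conj_mem _ hh a⁻¹
    have h2 : a⁻¹ * (a * h * a⁻¹) * a⁻¹⁻¹ = h := by group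
    rw [h2] at h1
    exact h1
  · apply le_antisymm
    · by_contra hnot
      obtain ⟨D, hDdef⟩ : ∃ D, D = A ⊓ Subgroup.centralizer (C : Set P) := ⟨_, rfl⟩
      haveI hDn : D.Normal := by rw [hDdef]; infer_instance
      obtain ⟨Dbar, hDbar_def⟩ : ∃ Dbar : Subgroup (P ⧸ C), Dbar = D.map (QuotientGroup.mk' C) :=
        ⟨_, rfl⟩
      haveI : Dbar.Normal := by
        rw [hDbar_def]; exact Subgroup.Normal.map hDn _ (QuotientGroup.mk'_surjective C)
      have hDbar : Dbar ≠ ⊥ := by
        intro h0
        apply hnot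
        intro d hd
        have h1 : QuotientGroup.mk' C d ∈ Dbar := by
          rw [hDbar_def]; exact Subgroup.mem_map_of_mem _ (by rw [hDdef]; exact hd)
        rw [h0, Subgroup.mem_bot, QuotientGroup.mk'_apply] at h1
        exact (QuotientGroup.eq_one_iff d).mp h1
      have hQ : IsPGroup p (P ⧸ C) := hP.to_quotient C
      obtain ⟨z, hzD, hzc, hz1⟩ := pgroup_normal_inf_center hQ Dbar hDbar
      rw [hDbar_def] at hzD
      obtain ⟨x, hxD, rfl⟩ := Subgroup.mem_map.mp hzD
      rw [hDdef] at hxD
      have hxA : x ∈ A := hxD.1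
      have hxcent : ∀ c ∈ C, c * x = x * c := fun c hc =>
        (Subgroup.mem_centralizer_iff.mp hxD.2) c hc
      have hxC : x ∉ C := fun h => hz1 (by
        rw [QuotientGroup.mk'_apply]; exact (QuotientGroup.eq_one_iff x).mpr h)
      obtain ⟨C', hC'def⟩ : ∃ C' : Subgroup P,
          C' = (Subgroup.zpowers (QuotientGroup.mk' C x)).comap (QuotientGroup.mk' C) := ⟨_, rfl⟩
      have hzn : (Subgroup.zpowers (QuotientGroup.mk' C x)).Normal := by
        constructor
        intro n hn g
        have hnc : n ∈ Subgroup.center (P ⧸ C) := (Subgroup.zpowers_le.mpr hzc) hn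
        have h1 : g * n * g⁻¹ = n := by
          rw [Subgroup.mem_center_iff] at hnc
          rw [hnc g]; simp
        rw [h1]; exact hn
      have hC'n : C'.Normal := by rw [hC'def]; exact hzn.comap _
      have hC'mem : ∀ y ∈ C', ∃ k : ℤ, ∃ c ∈ C, y = x ^ k * c := by
        intro y hy
        rw [hC'def] at hy
        obtain ⟨k, hk⟩ := Subgroup.mem_zpowers_iff.mp (Subgroup.mem_comap.mp hy)
        refine ⟨k, (x ^ k)⁻¹ * y, ?_, by group⟩
        have h1 : QuotientGroup.mk' C ((x ^ k)⁻¹ * y) = 1 := by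
          rw [map_mul, map_inv, map_zpow, hk]; simp
        rw [QuotientGroup.mk'_apply] at h1
        exact (QuotientGroup.eq_one_iff _).mp h1
      have hCC' : C ≤ C' := by
        intro c hc
        rw [hC'def]
        show QuotientGroup.mk' C c ∈ Subgroup.zpowers (QuotientGroup.mk' C x)
        have h1 : QuotientGroup.mk' C c = 1 := by
          rw [QuotientGroup.mk'_apply]; exact (QuotientGroup.eq_one_iff c).mpr hc
        rw [h1]
        exact Subgroup.one_mem _
      have hxC' : x ∈ C' := by
        rw [hC'def]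
        show QuotientGroup.mk' C x ∈ Subgroup.zpowers (QuotientGroup.mk' C x)
        exact Subgroup.mem_zpowers _
      have hC'good : good C' := by
        refine (hgood C').mpr ⟨hC'n, hBC.trans hCC', ?_, ?_⟩
        · intro y hy
          obtain ⟨k, c, hc, rfl⟩ := hC'mem y hy
          exact A.mul_mem (A.zpow_mem hxA k) (hCA hc)
        · intro y1 hy1 y2 hy2
          obtain ⟨k, c, hc, rfl⟩ := hC'mem y1 hy1
          obtain ⟨l, d, hd, rfl⟩ := hC'mem y2 hy2
          have h1 : c * x ^ l = x ^ l * c :=
            ((show Commute c x from hxcent c hc).zpow_right l).eq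
          have h2 : d * x ^ k = x ^ k * d :=
            ((show Commute d x from hxcent d hd).zpow_right k).eq
          have h3 : c * d = d * c := hCab c hc d hd
          have h4 : x ^ k * x ^ l = x ^ l * x ^ k := (Commute.zpow_zpow_self x k l).eq
          calc x ^ k * c * (x ^ l * d) = x ^ k * (c * x ^ l) * d := by group
            _ = x ^ k * (x ^ l * c) * d := by rw [h1]
            _ = (x ^ k * x ^ l) * (c * d) := by group
            _ = (x ^ l * x ^ k) * (d * c) := by rw [h4, h3]
            _ = x ^ l * (x ^ k * d) * c := by group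
            _ = x ^ l * (d * x ^ k) * c := by rw [h2]
            _ = x ^ l * d * (x ^ k * c) := by group
      have hle : Nat.card C' ≤ Nat.card C :=
        hCmax C' (Finset.mem_filter.mpr ⟨Finset.mem_univ _, hC'good⟩)
      have hEq : C = C' := Subgroup.eq_of_le_of_card_ge hCC' hle
      exact hxC (hEq ▸ hxC')
    · intro c hc
      refine Subgroup.mem_inf.mpr ⟨hCA hc, ?_⟩
      rw [Subgroup.mem_centralizer_iff]
      intro y hy
      exact hCab y hy c hc

end Cfsg.Agent.S1894
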