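import Cfsg.Statements.S1898
-- import your own Cfsg.Agent.* helpers here

set_option autoImplicit false
open Cfsg

namespace Cfsg.Agent.S1898

open scoped commutatorElement

/-- Let X be a finite 2-group whose derived subgroup is elementary abelian and central. Then the subgroup generated by the elements of order dividing 4 has exponent dividing 4, and every automorphism of X fixing each element of order dividing 4 has 2-power order. -/
theorem result {X : Type*} [Group X] [Finite X] (hX : IsPGroup 2 X)
    (hel : Cfsg.IsElementaryAbelian 2 (commutator X)) (hcen : commutator X ≤ Subgroup.center X) :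
    (∀ x ∈ Subgroup.closure {g : X | g ^ 4 = 1}, x ^ 4 = 1) ∧
      ∀ φ : MulAut X, (∀ g : X, g ^ 4 = 1 → φ g = g) → ∃ k : ℕ, φ ^ (2 ^ k) = 1 := by
  classical
  obtain ⟨_, hsq⟩ := hel
  have hc : ∀ x y : X, ⁅x, y⁆ ∈ Subgroup.center X := fun x y =>
    hcen (Subgroup.commutator_mem_commutator (Subgroup.mem_top x) (Subgroup.mem_top y))
  have hc2 : ∀ x y : X, ⁅x, y⁆ ^ 2 = 1 := fun x y =>
    hsq _ (Subgroup.commutator_mem_commutator (Subgroup.mem_top x) (Subgroup.mem_top y))
  have hyx : ∀ x y : X, y * x = ⁅y, x⁆ * (x * y) := by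
    intro x y
    rw [commutatorElement_def]; group
  have hcomm : ∀ (x y z : X), Commute ⁅x, y⁆ z := by
    intro x y z
    exact (Subgroup.mem_center_iff.1 (hc x y) z).symm
  have hx2 : ∀ x y : X, Commute (x ^ 2) y := by
    intro x y
    have h1 : y * x = ⁅y, x⁆ * (x * y) := hyx x y
    have h2 : y * (x * x) = ⁅y, x⁆ ^ 2 * (x * x * y) := by
      calc y * (x * x) = (y * x) * x := by rw [mul_assoc]
        _ = ⁅y, x⁆ * (x * y) * x := by rw [h1]
        _ = ⁅y, x⁆ * (x * (y * x)) := by simp only [mul_assoc]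
        _ = ⁅y, x⁆ * (x * (⁅y, x⁆ * (x * y))) := by rw [h1]
        _ = ⁅y, x⁆ * ((x * ⁅y, x⁆) * (x * y)) := by simp only [mul_assoc]
        _ = ⁅y, x⁆ * ((⁅y, x⁆ * x) * (x * y)) := by rw [(hcomm y x x).eq]
        _ = ⁅y, x⁆ ^ 2 * (x * x * y) := by rw [pow_two]; simp only [mul_assoc]
    rw [hc2, one_mul] at h2
    show x ^ 2 * y = y * x ^ 2
    rw [pow_two]; exact h2.symm
  have hsq2 : ∀ x y : X, (x * y) ^ 2 = ⁅y, x⁆ * (x ^ 2 * y ^ 2) := by
    intro x y
    calc (x * y) ^ 2 = x * (y * x) * y := by rw [pow_two]; simp only [mul_assoc]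
      _ = x * (⁅y, x⁆ * (x * y)) * y := by rw [hyx x y]
      _ = (x * ⁅y, x⁆) * (x * y) * y := by simp only [mul_assoc]
      _ = (⁅y, x⁆ * x) * (x * y) * y := by rw [(hcomm y x x).eq]
      _ = ⁅y, x⁆ * (x ^ 2 * y ^ 2) := by rw [pow_two, pow_two]; simp only [mul_assoc]
  have h4 : ∀ x y : X, (x * y) ^ 4 = x ^ 4 * y ^ 4 := by
    intro x y
    have e4 : ∀ z : X, z ^ 4 = (z ^ 2) ^ 2 := by
      intro z; rw [← pow_mul]
    rw [e4, e4 x, e4 y, hsq2 x y, (hcomm y x (x ^ 2 * y ^ 2)).mul_pow, hc2, one_mul,
      (hx2 x (y ^ 2)).mul_pow]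
  let σ : X →* X :=
    { toFun := fun x => x ^ 4
      map_one' := one_pow 4
      map_mul' := h4 }
  have hker : ∀ x : X, x ∈ σ.ker ↔ x ^ 4 = 1 := fun x => MonoidHom.mem_ker
  refine ⟨?_, ?_⟩
  · intro x hx
    have : Subgroup.closure {g : X | g ^ 4 = 1} ≤ σ.ker := by
      rw [Subgroup.closure_le]
      intro g hg
      exact (hker g).2 hg
    exact (hker x).1 (this hx)
  · intro φ hφ
    have hpowfix : ∀ (j : ℕ) (g : X), g ^ 4 = 1 → (φ ^ j) g = g := by
      intro j
      induction j with
      | zero => intro g _; rfl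
      | succ j ih =>
        intro g hg
        rw [pow_succ, MulAut.mul_apply, hφ g hg, ih g hg]
    have key : ∀ e : ℕ, ∀ x : X, x ^ (2 ^ e) = 1 → ∃ k : ℕ, (φ ^ (2 ^ k)) x = x := by
      intro e
      induction e using Nat.strong_induction_on with
      | _ e ih =>
        intro x hx
        by_cases he : e ≤ 2
        · refine ⟨0, ?_⟩
          have hx4 : x ^ 4 = 1 := by
            have h42 : (4 : ℕ) = 2 ^ e * 2 ^ (2 - e) := by
              rw [← pow_add]
              have : e + (2 - e) = 2 := by omega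
              rw [this]; norm_num
            rw [h42, pow_mul, hx, one_pow]
          simpa using hφ x hx4
        · have he2 : 2 < e := by omega
          have hx' : (x ^ 4) ^ (2 ^ (e - 2)) = 1 := by
            rw [← pow_mul]
            have : 4 * 2 ^ (e - 2) = 2 ^ e := by
              have : (4 : ℕ) = 2 ^ 2 := by norm_num
              rw [this, ← pow_add]; congr 1; omega
            rw [this, hx]
          obtain ⟨k, hk⟩ := ih (e - 2) (by omega) (x ^ 4) hx'
          set ψ : MulAut X := φ ^ (2 ^ k) with hψ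
          set z : X := x⁻¹ * ψ x with hz
          have hz4 : z ^ 4 = 1 := by
            have : σ z = 1 := by
              rw [hz, map_mul, map_inv]
              change (x ^ 4)⁻¹ * (ψ x) ^ 4 = 1
              rw [← map_pow, hk, inv_mul_cancel]
            exact this
          have hψz : ψ z = z := hpowfix _ z hz4
          have hψx : ψ x = x * z := by rw [hz, mul_inv_cancel_left]
          have hψj : ∀ j : ℕ, (ψ ^ j) x = x * z ^ j := by
            intro j
            induction j with
            | zero => simp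
            | succ j ihj =>
              rw [pow_succ', MulAut.mul_apply, ihj, map_mul, map_pow, hψz, hψx, mul_assoc, ← pow_succ']
          refine ⟨k + 2, ?_⟩
          have : φ ^ (2 ^ (k + 2)) = ψ ^ 4 := by
            rw [hψ, ← pow_mul]; congr 1; rw [pow_add]; norm_num
          rw [this, hψj 4, hz4, mul_one]
    have hex : ∀ x : X, ∃ k : ℕ, (φ ^ (2 ^ k)) x = x := by
      intro x
      obtain ⟨e, he⟩ := hX x
      exact key e x he
    choose kf hkf using hex
    have : Fintype X := Fintype.ofFinite X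
    refine ⟨Finset.univ.sup kf, ?_⟩
    ext x
    have hle : kf x ≤ Finset.univ.sup kf := Finset.le_sup (Finset.mem_univ x)
    obtain ⟨m, hm⟩ := Nat.exists_eq_add_of_le hle
    have hfix : ∀ j : ℕ, ((φ ^ (2 ^ kf x)) ^ j) x = x := by
      intro j
      induction j with
      | zero => rfl
      | succ j ih => rw [pow_succ, MulAut.mul_apply, hkf x, ih]
    rw [hm, pow_add, pow_mul]
    exact hfix _

end Cfsg.Agent.S1898
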