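import Cfsg.Statements.S1899
-- import your own Cfsg.Agent.* helpers here

set_option autoImplicit false
open Cfsg

namespace Cfsg.Agent.S1899

/-- Let a dihedral group of order 2n, n odd and n > 1, act on a finite abelian 2-group A through automorphisms d and t with d^n = 1, t² = 1 and t d t⁻¹ = d⁻¹, and suppose that d fixes only the identity. Then A is the internal direct product of C_A(t) and its image under d. -/
theorem result {A : Type*} [CommGroup A] [Finite A] (hA : IsPGroup 2 A)
    {n : ℕ} (hn : Odd n) (hn1 : 1 < n) (d t : MulAut A) (hd : d ^ n = 1) (ht : t ^ 2 = 1) (hdt : t * d * t⁻¹ = d⁻¹)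
    (hfix : ∀ a : A, d a = a → a = 1) :
    (MulEquiv.toMonoidHom t).eqLocus (MonoidHom.id A) ⊓ ((MulEquiv.toMonoidHom t).eqLocus (MonoidHom.id A)).map d.toMonoidHom = ⊥ ∧
      (MulEquiv.toMonoidHom t).eqLocus (MonoidHom.id A) ⊔ ((MulEquiv.toMonoidHom t).eqLocus (MonoidHom.id A)).map d.toMonoidHom = ⊤ := by
  have htt : ∀ x : A, t (t x) = x := by
    intro x
    have := congrArg (fun f : MulAut A => f x) ht
    simpa [pow_two, MulAut.mul_apply] using this
  have htd : ∀ x : A, t (d x) = d⁻¹ (t x) := by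
    intro x
    have h1 : t * d = d⁻¹ * t := by
      have := congrArg (fun f : MulAut A => f * t) hdt
      simpa [mul_assoc] using this
    have := congrArg (fun f : MulAut A => f x) h1
    simpa [MulAut.mul_apply] using this
  have hdn : ∀ x : A, (d ^ n) x = x := by
    intro x; rw [hd]; rfl
  have hd2 : ∀ b : A, d (d b) = b → b = 1 := by
    intro b hb
    apply hfix
    obtain ⟨k, hk⟩ := hn
    have h2 : ∀ j : ℕ, ((d * d) ^ j) b = b := by
      intro j
      induction j with
      | zero => rfl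
      | succ j ih =>
        rw [pow_succ, MulAut.mul_apply]
        have : (d * d) b = b := by rw [MulAut.mul_apply]; exact hb
        rw [this, ih]
    have h3 : d ^ (n + 1) = d := by rw [pow_succ, hd, one_mul]
    have h4 : d ^ (n + 1) = (d * d) ^ (k + 1) := by
      rw [hk, ← pow_two, ← pow_mul]; congr 1
    have : (d ^ (n + 1)) b = b := by rw [h4]; exact h2 _
    rw [h3] at this
    exact this
  have hmem : ∀ x : A, x ∈ (MulEquiv.toMonoidHom t).eqLocus (MonoidHom.id A) ↔ t x = x := by
    intro x; rfl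
  have hmem2 : ∀ x : A, x ∈ ((MulEquiv.toMonoidHom t).eqLocus (MonoidHom.id A)).map d.toMonoidHom ↔
      ∃ b : A, t b = b ∧ d b = x := by
    intro x
    rw [Subgroup.mem_map]
    constructor
    · rintro ⟨b, hb, rfl⟩; exact ⟨b, (hmem b).1 hb, rfl⟩
    · rintro ⟨b, hb, rfl⟩; exact ⟨b, (hmem b).2 hb, rfl⟩
  constructor
  · rw [eq_bot_iff]
    intro x hx
    rw [Subgroup.mem_inf] at hx
    obtain ⟨hx1, hx2⟩ := hx
    rw [hmem] at hx1
    rw [hmem2] at hx2
    obtain ⟨b, hb, rfl⟩ := hx2
    rw [htd, hb] at hx1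
    have : d (d b) = b := by
      have := congrArg d hx1
      simpa using this.symm
    have hb1 := hd2 b this
    rw [Subgroup.mem_bot, hb1, map_one]
  · rw [eq_top_iff]
    intro a _
    -- u = d⁻¹ ∘ d⁻¹ is fixed point free
    let f : A →* A :=
      { toFun := fun b => d⁻¹ (d⁻¹ b) * b⁻¹
        map_one' := by simp
        map_mul' := by
          intro x y
          simp only [map_mul, mul_inv_rev]
          ac_rfl }
    have hf : Function.Injective f := by
      rw [injective_iff_map_eq_one]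
      intro b hb
      have hb' : d⁻¹ (d⁻¹ b) = b := by
        have : d⁻¹ (d⁻¹ b) * b⁻¹ = 1 := hb
        exact mul_inv_eq_one.1 this
      apply hd2
      have h1 := congrArg d hb'
      have h2 := congrArg d h1
      simp only [MulAut.apply_inv_self] at h1 h2
      exact h2.symm
    have hsurj : Function.Surjective f := Finite.surjective_of_injective hf
    obtain ⟨b, hb⟩ := hsurj a
    have hb' : d⁻¹ (d⁻¹ b) * b⁻¹ = a := hb
    -- s = d t d⁻¹
    set sb : A := d (t (d⁻¹ b)) with hsb
    have hts : t sb = d⁻¹ (d⁻¹ b) := by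
      rw [hsb, htd, htt]
    rw [Subgroup.mem_sup]
    refine ⟨t sb * sb, ?_, (sb * b)⁻¹, ?_, ?_⟩
    · rw [hmem, map_mul, htt, mul_comm]
    · apply Subgroup.inv_mem
      rw [hmem2]
      refine ⟨t (d⁻¹ b) * d⁻¹ b, ?_, ?_⟩
      · rw [map_mul, htt, mul_comm]
      · rw [map_mul, MulAut.apply_inv_self]
    · rw [hts, ← hb', mul_inv_rev]
      rw [mul_comm b⁻¹ sb⁻¹, ← mul_assoc, mul_assoc (d⁻¹ (d⁻¹ b)) sb sb⁻¹, mul_inv_cancel, mul_one]

end Cfsg.Agent.S1899
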