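import Cfsg.Statements.S1900
import Cfsg.Agent.Helper1.GenCent
import Cfsg.Agent.Helper1.Coprime

set_option autoImplicit false
open Cfsg

namespace Cfsg.Agent.S1900

universe u

theorem qelt_trivial {S : Type*} [Group S] {p q : ℕ} [hp : Fact p.Prime] [hq : Fact q.Prime] (hpq : p ≠ q)
    (K : Subgroup S) (hK : IsPGroup p K) (z : S) (hz : z ∈ K) (hzq : z ^ q = 1) : z = 1 := by
  obtain ⟨k, hk⟩ := hK ⟨z, hz⟩
  have hk' : z ^ p ^ k = 1 := by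
    have := congrArg Subtype.val hk
    simpa using this
  have h1 : orderOf z ∣ p ^ k := orderOf_dvd_of_pow_eq_one hk'
  have h2 : orderOf z ∣ q := orderOf_dvd_of_pow_eq_one hzq
  have h3 : Nat.Coprime (p ^ k) q := Nat.Coprime.pow_left k ((Nat.coprime_primes hp.out hq.out).mpr hpq)
  have h5 := Nat.dvd_gcd h1 h2
  rw [Nat.Coprime.gcd_eq_one h3] at h5
  exact orderOf_eq_one_iff.mp (Nat.dvd_one.mp h5)

theorem le_normalizer_of_conj {S : Type*} [Group S] (A K : Subgroup S)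
    (h : ∀ a ∈ A, ∀ n ∈ K, a * n * a⁻¹ ∈ K) : A ≤ Subgroup.normalizer (K : Set S) := by
  intro a ha
  rw [Subgroup.mem_normalizer_iff]
  intro n
  refine ⟨fun hn => h a ha n hn, fun hn => ?_⟩
  have h1 := h a⁻¹ (A.inv_mem ha) _ hn
  have h2 : a⁻¹ * (a * n * a⁻¹) * a⁻¹⁻¹ = n := by group
  rwa [h2] at h1

theorem inf_cent_normal {S : Type*} [Group S] (Pₛ Q X Z : Subgroup S) [Pₛ.Normal] [hZn : Z.Normal]
    (hsup : Pₛ ⊔ Q = ⊤) (hcomm : ∀ a ∈ Q, ∀ b ∈ Q, a * b = b * a) (hX : X ≤ Q)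
    (hZc : ∀ z ∈ Z, ∀ g ∈ Pₛ, z * g = g * z) :
    (Z ⊓ Subgroup.centralizer (X : Set S)).Normal := by
  constructor
  intro w hw g
  have hg : g ∈ Pₛ ⊔ Q := by rw [hsup]; exact Subgroup.mem_top g
  obtain ⟨a, ha, b, hb, rfl⟩ := Subgroup.mem_sup_of_normal_left.mp hg
  have hbw : b * w * b⁻¹ ∈ Z ⊓ Subgroup.centralizer (X : Set S) := by
    refine Subgroup.mem_inf.mpr ⟨hZn.conj_mem w hw.1 b, ?_⟩
    rw [Subgroup.mem_centralizer_iff]
    intro x hx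
    have e1 : Commute x b := hcomm x (hX hx) b hb
    have e2 : Commute x w := Subgroup.mem_centralizer_iff.mp hw.2 x hx
    exact ((e1.mul_right e2).mul_right e1.inv_right).eq
  have e : a * b * w * (a * b)⁻¹ = a * (b * w * b⁻¹) * a⁻¹ := by group
  rw [e]
  have e' : a * (b * w * b⁻¹) * a⁻¹ = b * w * b⁻¹ := by
    have h1 := hZc _ hbw.1 a ha
    rw [← h1, mul_inv_cancel_right]
  rw [e']; exact hbw

theorem gen_le {S : Type u} [Group S] [Finite S] (p q : ℕ) [Fact p.Prime] [Fact q.Prime] (hpq : p ≠ q)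
    (Pₛ Q X₁ X₂ K : Subgroup S) (hP : IsPGroup p Pₛ) (hKP : K ≤ Pₛ) (hKn : K.Normal)
    (hcomm : ∀ a ∈ Q, ∀ b ∈ Q, a * b = b * a) (hexp : ∀ a ∈ Q, a ^ q = 1) (hncyc : ¬ IsCyclic Q)
    (hfree : ∀ y ∈ Q, y ∉ X₁ → y ∉ X₂ → ∀ g ∈ Pₛ, g * y = y * g → g = 1)
    (hc₁ : ∀ a ∈ X₁, a ≠ 1 → ∀ g ∈ Pₛ, g * a = a * g → g ∈ Subgroup.centralizer (X₁ : Set S))
    (hc₂ : ∀ a ∈ X₂, a ≠ 1 → ∀ g ∈ Pₛ, g * a = a * g → g ∈ Subgroup.centralizer (X₂ : Set S)) :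
    K ≤ (K ⊓ Subgroup.centralizer (X₁ : Set S)) ⊔ (K ⊓ Subgroup.centralizer (X₂ : Set S)) := by
  have hQq : IsPGroup q Q := fun g => ⟨1, Subtype.ext (by simpa using hexp g g.2)⟩
  have hKp : IsPGroup p K := hP.to_le hKP
  have hcop : (Nat.card Q).Coprime (Nat.card K) :=
    IsPGroup.coprime_card_of_ne q p (Ne.symm hpq) Q K hQq hKp
  have hgen := Helper1.centGen_aux (Nat.card K) S Q K rfl hcomm hncyc
    (le_normalizer_of_conj Q K (fun a _ n hn => hKn.conj_mem n hn a)) hcop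
  refine hgen.trans ?_
  unfold Helper1.centGen
  refine iSup₂_le ?_
  intro a ha
  obtain ⟨haQ, ha1⟩ := ha
  by_cases ha₁ : a ∈ X₁
  · refine le_trans ?_ le_sup_left
    intro g hg
    exact ⟨hg.1, hc₁ a ha₁ ha1 g (hKP hg.1)
      (Subgroup.mem_centralizer_iff.mp hg.2 a (Set.mem_singleton a)).symm⟩
  · by_cases ha₂ : a ∈ X₂
    · refine le_trans ?_ le_sup_right
      intro g hg
      exact ⟨hg.1, hc₂ a ha₂ ha1 g (hKP hg.1)
        (Subgroup.mem_centralizer_iff.mp hg.2 a (Set.mem_singleton a)).symm⟩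
    · intro g hg
      have h1 : g = 1 := hfree a haQ ha₁ ha₂ g (hKP hg.1)
        (Subgroup.mem_centralizer_iff.mp hg.2 a (Set.mem_singleton a)).symm
      rw [h1]; exact Subgroup.one_mem _

theorem key_step {S : Type u} [Group S] [Finite S] (p q : ℕ) [Fact p.Prime] [Fact q.Prime] (hpq : p ≠ q)
    (Pₛ Q X₁ X₂ Z : Subgroup S) [hPn : Pₛ.Normal] (hP : IsPGroup p Pₛ)
    (hcomm : ∀ a ∈ Q, ∀ b ∈ Q, a * b = b * a) (hexp : ∀ a ∈ Q, a ^ q = 1)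
    (h₁ : X₁ ≤ Q) (h₂ : X₂ ≤ Q)
    (hZc : ∀ z ∈ Z, ∀ g ∈ Pₛ, z * g = g * z)
    (hXZ : ∀ x ∈ X₁, ∀ z ∈ Z, x * z = z * x)
    (hH2 : ∀ g ∈ Pₛ, g ∈ Subgroup.centralizer (X₁ : Set S) → g ∈ Subgroup.centralizer (X₂ : Set S) → g = 1)
    (u : S) (hu : u ∈ Pₛ) (hu₁ : u ∈ Subgroup.centralizer (X₁ : Set S))
    (hθ : ∀ v ∈ Pₛ, v ∈ Subgroup.centralizer (X₂ : Set S) → u * v * u⁻¹ * v⁻¹ ∈ Z) :
    ∀ v ∈ Pₛ, v ∈ Subgroup.centralizer (X₂ : Set S) → u * v = v * u := by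
  classical
  intro v hv hv₂
  obtain ⟨P₂, hP₂⟩ : ∃ P₂ : Subgroup S, P₂ = Pₛ ⊓ Subgroup.centralizer (X₂ : Set S) := ⟨_, rfl⟩
  have hP₂mem : ∀ w, w ∈ P₂ ↔ w ∈ Pₛ ∧ w ∈ Subgroup.centralizer (X₂ : Set S) := by
    intro w; rw [hP₂]; exact Subgroup.mem_inf
  obtain ⟨D, hD⟩ : ∃ D : Subgroup S, D = P₂ ⊓ Subgroup.centralizer ({u} : Set S) := ⟨_, rfl⟩
  have hDmem : ∀ w, w ∈ D ↔ w ∈ P₂ ∧ u * w = w * u := by
    intro w
    rw [hD, Subgroup.mem_inf, Subgroup.mem_centralizer_iff]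
    constructor
    · rintro ⟨h1, h2⟩
      exact ⟨h1, h2 u (Set.mem_singleton u)⟩
    · rintro ⟨h1, h2⟩
      refine ⟨h1, fun y hy => ?_⟩
      rw [Set.mem_singleton_iff.mp hy]; exact h2
  have hvP₂ : v ∈ P₂ := (hP₂mem v).mpr ⟨hv, hv₂⟩
  have hmul : ∀ a ∈ P₂, ∀ b ∈ P₂,
      u * (a * b) * u⁻¹ * (a * b)⁻¹ = (u * a * u⁻¹ * a⁻¹) * (u * b * u⁻¹ * b⁻¹) := by
    intro a ha b hb
    have ha' := (hP₂mem a).mp ha
    have hb' := (hP₂mem b).mp hb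
    have hcZ := hθ b hb'.1 hb'.2
    have hc : (u * b * u⁻¹ * b⁻¹) * a⁻¹ = a⁻¹ * (u * b * u⁻¹ * b⁻¹) :=
      hZc _ hcZ a⁻¹ (Pₛ.inv_mem ha'.1)
    calc u * (a * b) * u⁻¹ * (a * b)⁻¹ = u * a * u⁻¹ * ((u * b * u⁻¹ * b⁻¹) * a⁻¹) := by group
      _ = u * a * u⁻¹ * (a⁻¹ * (u * b * u⁻¹ * b⁻¹)) := by rw [hc]
      _ = (u * a * u⁻¹ * a⁻¹) * (u * b * u⁻¹ * b⁻¹) := by group
  have hconjP₂ : ∀ x ∈ X₁, ∀ b ∈ P₂, x * b * x⁻¹ ∈ P₂ := by
    intro x hx b hb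
    have hb' := (hP₂mem b).mp hb
    refine (hP₂mem _).mpr ⟨hPn.conj_mem b hb'.1 x, ?_⟩
    rw [Subgroup.mem_centralizer_iff]
    intro y hy
    have e1 : Commute y x := hcomm y (h₂ hy) x (h₁ hx)
    have e2 : Commute y b := Subgroup.mem_centralizer_iff.mp hb'.2 y hy
    exact ((e1.mul_right e2).mul_right e1.inv_right).eq
  have hinv : ∀ x ∈ X₁, ∀ b ∈ P₂,
      u * (x * b * x⁻¹) * u⁻¹ * (x * b * x⁻¹)⁻¹ = u * b * u⁻¹ * b⁻¹ := by
    intro x hx b hb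
    have hb' := (hP₂mem b).mp hb
    have e1 : Commute x u := Subgroup.mem_centralizer_iff.mp hu₁ x hx
    have e2 : Commute x (u * b * u⁻¹ * b⁻¹) := hXZ x hx _ (hθ b hb'.1 hb'.2)
    have e3 : u * x = x * u := e1.eq.symm
    have e4 : x⁻¹ * u⁻¹ = u⁻¹ * x⁻¹ := (e1.inv_left.inv_right).eq
    calc u * (x * b * x⁻¹) * u⁻¹ * (x * b * x⁻¹)⁻¹
        = (u * x) * b * (x⁻¹ * u⁻¹) * x * b⁻¹ * x⁻¹ := by group
      _ = (x * u) * b * (u⁻¹ * x⁻¹) * x * b⁻¹ * x⁻¹ := by rw [e3, e4]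
      _ = x * (u * b * u⁻¹ * b⁻¹) * x⁻¹ := by group
      _ = u * b * u⁻¹ * b⁻¹ := by rw [e2.eq, mul_inv_cancel_right]
  have hconjD : ∀ x ∈ X₁, ∀ b ∈ D, x * b * x⁻¹ ∈ D := by
    intro x hx b hb
    have hb' := (hDmem b).mp hb
    refine (hDmem _).mpr ⟨hconjP₂ x hx b hb'.1, ?_⟩
    have e1 : Commute u x := (Subgroup.mem_centralizer_iff.mp hu₁ x hx).symm
    have e2 : Commute u b := hb'.2
    exact ((e1.mul_right e2).mul_right e1.inv_right).eq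
  have hθone : ∀ w : S, u * w * u⁻¹ * w⁻¹ = 1 → u * w = w * u := by
    intro w h
    have h1 : u * w * u⁻¹ = w := mul_inv_eq_one.mp h
    calc u * w = (u * w * u⁻¹) * u := by group
      _ = w * u := by rw [h1]
  have hmemD : ∀ a ∈ X₁, v⁻¹ * a * v * a⁻¹ ∈ D := by
    intro a ha
    have hvi : v⁻¹ ∈ P₂ := P₂.inv_mem hvP₂
    have hc := hconjP₂ a ha v hvP₂
    have e : v⁻¹ * a * v * a⁻¹ = v⁻¹ * (a * v * a⁻¹) := by group
    rw [e]
    refine (hDmem _).mpr ⟨P₂.mul_mem hvi hc, ?_⟩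
    apply hθone
    rw [hmul _ hvi _ hc, hinv a ha v hvP₂, ← hmul _ hvi _ hvP₂]
    group
  have hX₁q : IsPGroup q X₁ := fun g => ⟨1, Subtype.ext (by simpa using hexp g (h₁ g.2))⟩
  have hP₂p : IsPGroup p P₂ := hP.to_le (by rw [hP₂]; exact inf_le_left)
  have hcop : (Nat.card X₁).Coprime (Nat.card P₂) :=
    IsPGroup.coprime_card_of_ne q p (Ne.symm hpq) X₁ P₂ hX₁q hP₂p
  have hsolv : Group.IsSolvable X₁ :=
    Group.isSolvable_of_comm (fun x y => Subtype.ext (hcomm x (h₁ x.2) y (h₁ y.2)))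
  obtain ⟨d, hd, hvd⟩ := Helper1.coprime_coset_fixed X₁ P₂ D (le_normalizer_of_conj X₁ P₂ hconjP₂)
    (le_normalizer_of_conj X₁ D hconjD) (by rw [hD]; exact inf_le_left) hcop (Or.inl hsolv) v hvP₂ hmemD
  have hd' := (hDmem d).mp hd
  have hd'' := (hP₂mem d).mp hd'.1
  have hvd1 : v * d = 1 :=
    hH2 (v * d) (Pₛ.mul_mem hv hd''.1) hvd (Subgroup.mul_mem _ hv₂ hd''.2)
  have hvd2 : v = d⁻¹ := eq_inv_of_mul_eq_one_left hvd1
  have e2 : Commute u d := hd'.2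
  rw [hvd2]
  exact e2.inv_right.eq

theorem comm_aux : ∀ (n : ℕ) (S : Type u) [Group S] [Finite S] (p q : ℕ) [Fact p.Prime] [Fact q.Prime]
    (Pₛ Q X₁ X₂ : Subgroup S), Nat.card S = n → p ≠ q → Pₛ.Normal → IsPGroup p Pₛ →
    (∀ a ∈ Q, ∀ b ∈ Q, a * b = b * a) → (∀ a ∈ Q, a ^ q = 1) → ¬ IsCyclic Q → Pₛ ⊔ Q = ⊤ →
    X₁ ≤ Q → X₂ ≤ Q →
    (∀ y ∈ Q, y ∉ X₁ → y ∉ X₂ → ∀ g ∈ Pₛ, g * y = y * g → g = 1) →
    (∃ x₁ ∈ X₁, ∃ x₂ ∈ X₂, x₁ * x₂ ∉ X₁ ∧ x₁ * x₂ ∉ X₂) →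
    (∀ a ∈ X₁, a ≠ 1 → ∀ g ∈ Pₛ, g * a = a * g → g ∈ Subgroup.centralizer (X₁ : Set S)) →
    (∀ a ∈ X₂, a ≠ 1 → ∀ g ∈ Pₛ, g * a = a * g → g ∈ Subgroup.centralizer (X₂ : Set S)) →
    ∀ u ∈ Pₛ, u ∈ Subgroup.centralizer (X₁ : Set S) → ∀ v ∈ Pₛ, v ∈ Subgroup.centralizer (X₂ : Set S) →
      u * v = v * u := by
  intro n
  induction n using Nat.strong_induction_on with
  | _ n ih =>
  intro S _ _ p q _ _ Pₛ Q X₁ X₂ hn hpq hPn hP hcomm hexp hncyc hsup h₁ h₂ hfree hex hc₁ hc₂ u hu hu₁ v hv hv₂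
  classical
  haveI := hPn
  have hH2 : ∀ g ∈ Pₛ, g ∈ Subgroup.centralizer (X₁ : Set S) →
      g ∈ Subgroup.centralizer (X₂ : Set S) → g = 1 := by
    intro g hg hg₁ hg₂
    obtain ⟨x₁, hx₁, x₂, hx₂, hn₁, hn₂⟩ := hex
    refine hfree (x₁ * x₂) (Q.mul_mem (h₁ hx₁) (h₂ hx₂)) hn₁ hn₂ g hg ?_
    have e1 : Commute x₁ g := Subgroup.mem_centralizer_iff.mp hg₁ x₁ hx₁
    have e2 : Commute x₂ g := Subgroup.mem_centralizer_iff.mp hg₂ x₂ hx₂
    exact (e1.mul_left e2).eq.symm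
  by_cases hbot : Pₛ = ⊥
  · rw [hbot] at hu
    rw [Subgroup.mem_bot.mp hu]; simp
  have hQq : IsPGroup q Q := fun g => ⟨1, Subtype.ext (by simpa using hexp g g.2)⟩
  obtain ⟨𝓩, h𝓩⟩ : ∃ 𝓩 : Set (Subgroup S), 𝓩 = {Z | Z.Normal ∧ Z ≠ ⊥ ∧ Z ≤ Pₛ ∧ ∀ z ∈ Z, ∀ g ∈ Pₛ, z * g = g * z} :=
    ⟨_, rfl⟩
  have hne : 𝓩.Nonempty := by
    haveI : Nontrivial Pₛ := (Subgroup.nontrivial_iff_ne_bot Pₛ).mpr hbot
    haveI := hP.center_nontrivial
    obtain ⟨z, hz⟩ := exists_ne (1 : Subgroup.center Pₛ)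
    refine ⟨Pₛ ⊓ Subgroup.centralizer (Pₛ : Set S), ?_⟩
    rw [h𝓩]
    refine ⟨inferInstance, ?_, inf_le_left, ?_⟩
    · intro h
      have hzmem : ((z : Pₛ) : S) ∈ Pₛ ⊓ Subgroup.centralizer (Pₛ : Set S) := by
        refine Subgroup.mem_inf.mpr ⟨(z : Pₛ).2, ?_⟩
        rw [Subgroup.mem_centralizer_iff]
        intro g hg
        have h1 := Subgroup.mem_center_iff.mp z.2 ⟨g, hg⟩
        exact congrArg Subtype.val h1
      rw [h, Subgroup.mem_bot] at hzmem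
      apply hz
      exact Subtype.ext (Subtype.ext hzmem)
    · intro z hz g hg
      exact (Subgroup.mem_centralizer_iff.mp hz.2 g hg).symm
  obtain ⟨Z, hZmem, hZmin⟩ := Set.exists_min_image 𝓩 (fun Z => Nat.card Z) (Set.toFinite 𝓩) hne
  rw [h𝓩] at hZmem
  obtain ⟨hZn, hZbot, hZP, hZc⟩ := hZmem
  haveI := hZn
  have hZW := gen_le p q hpq Pₛ Q X₁ X₂ Z hP hZP hZn hcomm hexp hncyc hfree hc₁ hc₂
  have hW₁n : (Z ⊓ Subgroup.centralizer (X₁ : Set S)).Normal :=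
    inf_cent_normal Pₛ Q X₁ Z hsup hcomm h₁ hZc
  have hcase : Z ≤ Subgroup.centralizer (X₁ : Set S) ∨ Z ≤ Subgroup.centralizer (X₂ : Set S) := by
    by_cases hW : Z ⊓ Subgroup.centralizer (X₁ : Set S) = ⊥
    · right
      rw [hW, bot_sup_eq] at hZW
      exact hZW.trans inf_le_right
    · left
      have hmem : (Z ⊓ Subgroup.centralizer (X₁ : Set S)) ∈ 𝓩 := by
        rw [h𝓩]
        exact ⟨hW₁n, hW, inf_le_left.trans hZP, fun z hz g hg => hZc z hz.1 g hg⟩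
      have hle : Nat.card Z ≤ Nat.card ↥(Z ⊓ Subgroup.centralizer (X₁ : Set S)) := hZmin _ hmem
      have heq : Z ⊓ Subgroup.centralizer (X₁ : Set S) = Z :=
        Subgroup.eq_of_le_of_card_ge inf_le_left hle
      rw [← heq]; exact inf_le_right
  have hlt : Nat.card (S ⧸ Z) < n := by
    have h1 := Subgroup.card_eq_card_quotient_mul_card_subgroup Z
    have h2 : 1 < Nat.card Z := by
      have h4 : 0 < Nat.card Z := Nat.card_pos
      have h5 : Nat.card Z ≠ 1 := fun h => hZbot (Subgroup.card_eq_one.mp h)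
      omega
    have h3 : 0 < Nat.card (S ⧸ Z) := Nat.card_pos
    rw [← hn, h1]
    nlinarith
  obtain ⟨π, hπs, hπk⟩ : ∃ π : S →* S ⧸ Z, Function.Surjective π ∧ ∀ x, π x = 1 ↔ x ∈ Z :=
    ⟨QuotientGroup.mk' Z, QuotientGroup.mk'_surjective Z, fun x => QuotientGroup.eq_one_iff x⟩
  have hinj : ∀ y ∈ Q, π y = 1 → y = 1 := fun y hy h =>
    qelt_trivial hpq Pₛ hP y (hZP ((hπk y).mp h)) (hexp y hy)
  have hlift : ∀ X : Subgroup S, X ≤ Q → ∀ y ∈ Q, π y ∈ X.map π → y ∈ X := by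
    intro X hX y hy hmem
    obtain ⟨x, hx, hxy⟩ := Subgroup.mem_map.mp hmem
    have h1 : π (y * x⁻¹) = 1 := by rw [map_mul, map_inv, hxy, mul_inv_cancel]
    have h2 := hinj (y * x⁻¹) (Q.mul_mem hy (Q.inv_mem (hX hx))) h1
    rw [mul_inv_eq_one] at h2
    rw [h2]; exact hx
  have himg : ∀ (X : Subgroup S) (g : S), g ∈ Subgroup.centralizer (X : Set S) →
      π g ∈ Subgroup.centralizer ((X.map π : Subgroup (S ⧸ Z)) : Set (S ⧸ Z)) := by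
    intro X g hg
    rw [Subgroup.mem_centralizer_iff]
    intro h hh
    obtain ⟨x, hx, rfl⟩ := Subgroup.mem_map.mp hh
    rw [← map_mul, ← map_mul, Subgroup.mem_centralizer_iff.mp hg x hx]
  have hPsolv : Group.IsSolvable Pₛ := by
    haveI := hP.isNilpotent
    infer_instance
  have hCQ : ∀ y ∈ Q, ∀ g ∈ Pₛ, π g * π y = π y * π g →
      ∃ d ∈ Z, g * d ∈ Pₛ ∧ (g * d) * y = y * (g * d) ∧ π (g * d) = π g := by
    intro y hy g hg hc
    have hAq : IsPGroup q (Subgroup.zpowers y) :=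
      hQq.to_le (by rw [Subgroup.zpowers_le]; exact hy)
    have hcop : (Nat.card (Subgroup.zpowers y)).Coprime (Nat.card Pₛ) :=
      IsPGroup.coprime_card_of_ne q p (Ne.symm hpq) (Subgroup.zpowers y) Pₛ hAq hP
    have hh : ∀ a ∈ Subgroup.zpowers y, g⁻¹ * a * g * a⁻¹ ∈ Z := by
      intro a ha
      obtain ⟨k, rfl⟩ := Subgroup.mem_zpowers_iff.mp ha
      refine (hπk _).mp ?_
      have hck : π g * π (y ^ k) = π (y ^ k) * π g := by
        rw [map_zpow]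
        exact ((show Commute (π g) (π y) from hc).zpow_right k).eq
      rw [map_mul, map_mul, map_mul, map_inv, map_inv]
      calc (π g)⁻¹ * π (y ^ k) * π g * (π (y ^ k))⁻¹
          = (π g)⁻¹ * (π (y ^ k) * π g) * (π (y ^ k))⁻¹ := by group
        _ = (π g)⁻¹ * (π g * π (y ^ k)) * (π (y ^ k))⁻¹ := by rw [hck]
        _ = 1 := by group
    obtain ⟨d, hd, hgd⟩ := Helper1.coprime_coset_fixed (Subgroup.zpowers y) Pₛ Z
      (le_normalizer_of_conj _ Pₛ (fun a _ n hn => hPn.conj_mem n hn a))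
      (le_normalizer_of_conj _ Z (fun a _ n hn => hZn.conj_mem n hn a))
      hZP hcop (Or.inr hPsolv) g hg hh
    refine ⟨d, hd, Pₛ.mul_mem hg (hZP hd), ?_, ?_⟩
    · exact (Subgroup.mem_centralizer_iff.mp hgd y (Subgroup.mem_zpowers y)).symm
    · rw [map_mul, (hπk d).mpr hd, mul_one]
  have hIH := ih (Nat.card (S ⧸ Z)) hlt (S ⧸ Z) p q (Pₛ.map π) (Q.map π) (X₁.map π) (X₂.map π) rfl hpq
    (Subgroup.Normal.map hPn π hπs) (hP.map π)
    (by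
      intro a ha b hb
      obtain ⟨a', ha', rfl⟩ := Subgroup.mem_map.mp ha
      obtain ⟨b', hb', rfl⟩ := Subgroup.mem_map.mp hb
      rw [← map_mul, ← map_mul, hcomm a' ha' b' hb'])
    (by
      intro a ha
      obtain ⟨a', ha', rfl⟩ := Subgroup.mem_map.mp ha
      rw [← map_pow, hexp a' ha', map_one])
    (fun h => hncyc (Helper1.isCyclic_of_map_inj π Q hinj h))
    (by rw [← Subgroup.map_sup, hsup, Subgroup.map_top_of_surjective π hπs])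
    (Subgroup.map_mono h₁) (Subgroup.map_mono h₂)
    (by
      intro y' hy' hn₁ hn₂ g' hg' hc
      obtain ⟨y, hy, rfl⟩ := Subgroup.mem_map.mp hy'
      obtain ⟨g, hg, rfl⟩ := Subgroup.mem_map.mp hg'
      obtain ⟨d, hd, hgdP, hgdy, hgdπ⟩ := hCQ y hy g hg hc
      have h1 := hfree y hy (fun h => hn₁ (Subgroup.mem_map_of_mem π h))
        (fun h => hn₂ (Subgroup.mem_map_of_mem π h)) (g * d) hgdP hgdy
      rw [← hgdπ, h1, map_one])
    (by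
      obtain ⟨x₁, hx₁, x₂, hx₂, hn₁, hn₂⟩ := hex
      refine ⟨π x₁, Subgroup.mem_map_of_mem π hx₁, π x₂, Subgroup.mem_map_of_mem π hx₂, ?_, ?_⟩
      · intro h
        rw [← map_mul] at h
        exact hn₁ (hlift X₁ h₁ _ (Q.mul_mem (h₁ hx₁) (h₂ hx₂)) h)
      · intro h
        rw [← map_mul] at h
        exact hn₂ (hlift X₂ h₂ _ (Q.mul_mem (h₁ hx₁) (h₂ hx₂)) h))
    (by
      intro a' ha' ha'1 g' hg' hc
      obtain ⟨a, ha, rfl⟩ := Subgroup.mem_map.mp ha'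
      obtain ⟨g, hg, rfl⟩ := Subgroup.mem_map.mp hg'
      obtain ⟨d, hd, hgdP, hgda, hgdπ⟩ := hCQ a (h₁ ha) g hg hc
      have ha1 : a ≠ 1 := fun h => ha'1 (by rw [h, map_one])
      have h1 := hc₁ a ha ha1 (g * d) hgdP hgda
      rw [← hgdπ]
      exact himg X₁ _ h1)
    (by
      intro a' ha' ha'1 g' hg' hc
      obtain ⟨a, ha, rfl⟩ := Subgroup.mem_map.mp ha'
      obtain ⟨g, hg, rfl⟩ := Subgroup.mem_map.mp hg'
      obtain ⟨d, hd, hgdP, hgda, hgdπ⟩ := hCQ a (h₂ ha) g hg hc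
      have ha1 : a ≠ 1 := fun h => ha'1 (by rw [h, map_one])
      have h1 := hc₂ a ha ha1 (g * d) hgdP hgda
      rw [← hgdπ]
      exact himg X₂ _ h1)
  have hθ : ∀ u' ∈ Pₛ, u' ∈ Subgroup.centralizer (X₁ : Set S) →
      ∀ v' ∈ Pₛ, v' ∈ Subgroup.centralizer (X₂ : Set S) → u' * v' * u'⁻¹ * v'⁻¹ ∈ Z := by
    intro u' hu' hu'₁ v' hv' hv'₂
    have h1 := hIH (π u') (Subgroup.mem_map_of_mem π hu') (himg X₁ u' hu'₁) (π v')
      (Subgroup.mem_map_of_mem π hv') (himg X₂ v' hv'₂)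
    refine (hπk _).mp ?_
    rw [map_mul, map_mul, map_mul, map_inv, map_inv, h1]
    group
  rcases hcase with hZ₁ | hZ₂
  · exact key_step p q hpq Pₛ Q X₁ X₂ Z hP hcomm hexp h₁ h₂ hZc
      (fun x hx z hz => Subgroup.mem_centralizer_iff.mp (hZ₁ hz) x hx) hH2 u hu hu₁
      (fun v' hv' hv'₂ => hθ u hu hu₁ v' hv' hv'₂) v hv hv₂
  · have h3 := key_step p q hpq Pₛ Q X₂ X₁ Z hP hcomm hexp h₂ h₁ hZc
      (fun x hx z hz => Subgroup.mem_centralizer_iff.mp (hZ₂ hz) x hx)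
      (fun g hg hg₂ hg₁ => hH2 g hg hg₁ hg₂) v hv hv₂
      (fun u' hu' hu'₁ => by
        have h1 := hθ u' hu' hu'₁ v hv hv₂
        have h2 := Z.inv_mem h1
        have e : (u' * v * u'⁻¹ * v⁻¹)⁻¹ = v * u' * v⁻¹ * u'⁻¹ := by group
        rwa [e] at h2) u hu hu₁
    exact h3.symm


/-- Let S = PQ be a finite group with P a normal Sylow p-subgroup and Q elementary abelian of order q², q a prime different from p. If exactly two subgroups X₁, X₂ of order q in Q have a nontrivial centralizer in P, then P is the internal direct product of C_P(X₁) and C_P(X₂): they commute elementwise, meet trivially and generate P. -/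
theorem result {S : Type*} [Group S] [Finite S] {p q : ℕ} [Fact p.Prime] [Fact q.Prime] (hpq : p ≠ q)
    (P : Sylow p S) [(P : Subgroup S).Normal] (Q : Subgroup S) (hQ : Cfsg.IsElementaryAbelian q Q) (hQc : Nat.card Q = q ^ 2)
    (hS : (P : Subgroup S) ⊔ Q = ⊤)
    (X₁ X₂ : Subgroup S) (h₁ : X₁ ≤ Q) (h₂ : X₂ ≤ Q) (h₁₂ : X₁ ≠ X₂) (hc₁ : Nat.card X₁ = q) (hc₂ : Nat.card X₂ = q)
    (hf₁ : (P : Subgroup S) ⊓ Subgroup.centralizer (X₁ : Set S) ≠ ⊥)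
    (hf₂ : (P : Subgroup S) ⊓ Subgroup.centralizer (X₂ : Set S) ≠ ⊥)
    (honly : ∀ X : Subgroup S, X ≤ Q → Nat.card X = q →
      (P : Subgroup S) ⊓ Subgroup.centralizer (X : Set S) ≠ ⊥ → X = X₁ ∨ X = X₂) :
    ⁅(P : Subgroup S) ⊓ Subgroup.centralizer (X₁ : Set S), (P : Subgroup S) ⊓ Subgroup.centralizer (X₂ : Set S)⁆ = ⊥ ∧
      ((P : Subgroup S) ⊓ Subgroup.centralizer (X₁ : Set S)) ⊓ ((P : Subgroup S) ⊓ Subgroup.centralizer (X₂ : Set S)) = ⊥ ∧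
      ((P : Subgroup S) ⊓ Subgroup.centralizer (X₁ : Set S)) ⊔ ((P : Subgroup S) ⊓ Subgroup.centralizer (X₂ : Set S)) = P := by
  classical
  have hq : q.Prime := Fact.out
  have hPn : (P : Subgroup S).Normal := inferInstance
  have hPp : IsPGroup p (P : Subgroup S) := P.isPGroup'
  have hcomm : ∀ a ∈ Q, ∀ b ∈ Q, a * b = b * a := fun a ha b hb =>
    congrArg Subtype.val (hQ.1.is_comm.comm ⟨a, ha⟩ ⟨b, hb⟩)
  have hexp : ∀ a ∈ Q, a ^ q = 1 := hQ.2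
  have hord : ∀ x ∈ Q, x ≠ 1 → Nat.card (Subgroup.zpowers x) = q := by
    intro x hx hx1
    rw [Nat.card_zpowers]
    exact orderOf_eq_prime (hexp x hx) hx1
  have hzp : ∀ X : Subgroup S, X ≤ Q → Nat.card X = q → ∀ x ∈ X, x ≠ 1 → X = Subgroup.zpowers x := by
    intro X hX hXc x hx hx1
    symm
    apply Subgroup.eq_of_le_of_card_ge
    · rw [Subgroup.zpowers_le]; exact hx
    · rw [hXc, hord x (hX hx) hx1]
  have hnt : ∀ X : Subgroup S, Nat.card X = q → ∃ x ∈ X, x ≠ 1 := by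
    intro X hXc
    have h1 : X ≠ ⊥ := by
      intro h
      rw [h, Subgroup.card_bot] at hXc
      exact hq.one_lt.ne hXc
    obtain ⟨a, ha⟩ := (Subgroup.ne_bot_iff_exists_ne_one).mp h1
    exact ⟨a, a.2, fun h => ha (Subtype.ext h)⟩
  obtain ⟨x₁, hx₁, hx₁1⟩ := hnt X₁ hc₁
  obtain ⟨x₂, hx₂, hx₂1⟩ := hnt X₂ hc₂
  have hcommon : ∀ y, y ≠ 1 → y ∈ X₁ → y ∈ X₂ → False := by
    intro y hy1 hy₁ hy₂
    exact h₁₂ ((hzp X₁ h₁ hc₁ y hy₁ hy1).trans (hzp X₂ h₂ hc₂ y hy₂ hy1).symm)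
  have hn₁ : x₁ * x₂ ∉ X₁ := by
    intro h
    have h' : x₂ ∈ X₁ := by
      have h'' := X₁.mul_mem (X₁.inv_mem hx₁) h
      rwa [inv_mul_cancel_left] at h''
    exact hcommon x₂ hx₂1 h' hx₂
  have hn₂ : x₁ * x₂ ∉ X₂ := by
    intro h
    have h' : x₁ ∈ X₂ := by
      have h'' := X₂.mul_mem h (X₂.inv_mem hx₂)
      rwa [mul_inv_cancel_right] at h''
    exact hcommon x₁ hx₁1 hx₁ h'
  have hfree : ∀ y ∈ Q, y ∉ X₁ → y ∉ X₂ → ∀ g ∈ (P : Subgroup S), g * y = y * g → g = 1 := by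
    intro y hy hy₁ hy₂ g hg hgy
    by_contra hg1
    have hy1 : y ≠ 1 := fun h => hy₁ (by rw [h]; exact X₁.one_mem)
    have hne : (P : Subgroup S) ⊓ Subgroup.centralizer ((Subgroup.zpowers y : Subgroup S) : Set S) ≠ ⊥ := by
      intro h
      have hmem : g ∈ (P : Subgroup S) ⊓ Subgroup.centralizer ((Subgroup.zpowers y : Subgroup S) : Set S) := by
        refine Subgroup.mem_inf.mpr ⟨hg, ?_⟩
        rw [Subgroup.mem_centralizer_iff]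
        intro z hz
        obtain ⟨k, rfl⟩ := Subgroup.mem_zpowers_iff.mp hz
        exact ((show Commute g y from hgy).zpow_right k).eq.symm
      rw [h, Subgroup.mem_bot] at hmem
      exact hg1 hmem
    rcases honly (Subgroup.zpowers y) (by rw [Subgroup.zpowers_le]; exact hy) (hord y hy hy1) hne with h | h
    · exact hy₁ (by rw [← h]; exact Subgroup.mem_zpowers y)
    · exact hy₂ (by rw [← h]; exact Subgroup.mem_zpowers y)
  have hcen : ∀ X : Subgroup S, X ≤ Q → Nat.card X = q → ∀ a ∈ X, a ≠ 1 → ∀ g ∈ (P : Subgroup S),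
      g * a = a * g → g ∈ Subgroup.centralizer (X : Set S) := by
    intro X hX hXc a ha ha1 g hg hga
    rw [Subgroup.mem_centralizer_iff]
    intro z hz
    have hz' : z ∈ Subgroup.zpowers a := by rw [← hzp X hX hXc a ha ha1]; exact hz
    obtain ⟨k, rfl⟩ := Subgroup.mem_zpowers_iff.mp hz'
    exact ((show Commute g a from hga).zpow_right k).eq.symm
  have hncyc : ¬ IsCyclic Q := by
    intro hcyc
    obtain ⟨g, hg⟩ := IsCyclic.exists_ofOrder_eq_natCard (α := Q)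
    have h1 : g ^ q = 1 := Subtype.ext (by simpa using hexp g g.2)
    have h2 : orderOf g ∣ q := orderOf_dvd_of_pow_eq_one h1
    rw [hg, hQc] at h2
    have h3 := Nat.le_of_dvd hq.pos h2
    have h4 : q < q ^ 2 := by nlinarith [hq.one_lt]
    exact absurd h3 (not_le.mpr h4)
  have hmain := comm_aux (Nat.card S) S p q (P : Subgroup S) Q X₁ X₂ rfl hpq hPn hPp hcomm hexp hncyc hS
    h₁ h₂ hfree ⟨x₁, hx₁, x₂, hx₂, hn₁, hn₂⟩ (hcen X₁ h₁ hc₁) (hcen X₂ h₂ hc₂)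
  refine ⟨?_, ?_, ?_⟩
  · rw [Subgroup.commutator_eq_bot_iff_le_centralizer]
    intro u hu
    rw [Subgroup.mem_centralizer_iff]
    intro v hv
    exact (hmain u hu.1 hu.2 v hv.1 hv.2).symm
  · rw [eq_bot_iff]
    intro g hg
    rw [Subgroup.mem_bot]
    refine hfree (x₁ * x₂) (Q.mul_mem (h₁ hx₁) (h₂ hx₂)) hn₁ hn₂ g hg.1.1 ?_
    have e1 : Commute x₁ g := Subgroup.mem_centralizer_iff.mp hg.1.2 x₁ hx₁
    have e2 : Commute x₂ g := Subgroup.mem_centralizer_iff.mp hg.2.2 x₂ hx₂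
    exact (e1.mul_left e2).eq.symm
  · apply le_antisymm
    · exact sup_le inf_le_left inf_le_left
    · have h := gen_le p q hpq (P : Subgroup S) Q X₁ X₂ (P : Subgroup S) hPp le_rfl hPn hcomm hexp hncyc
        hfree (hcen X₁ h₁ hc₁) (hcen X₂ h₂ hc₂)
      exact h

end Cfsg.Agent.S1900
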