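import Cfsg.Statements.S1901
-- import your own Cfsg.Agent.* helpers here
import Cfsg.Agent.Helper20.PSolvHall
import Cfsg.Agent.Helper1.Coprime

set_option autoImplicit false
open Cfsg

namespace Cfsg.Agent.S1901

universe u

private theorem card_eq_map_mul {G G' : Type*} [Group G] [Group G'] (f : G →* G')
    (K : Subgroup G) : Nat.card K = Nat.card (K.map f) * Nat.card ↥(f.ker ⊓ K) := by
  rw [← Subgroup.relIndex_ker, ← Subgroup.inf_relIndex_right,
    ← Subgroup.relIndex_bot_left (H := K), ← Subgroup.relIndex_bot_left (H := f.ker ⊓ K), mul_comm]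
  exact (Subgroup.relIndex_mul_relIndex _ _ _ bot_le inf_le_right).symm

private theorem keyB (p : ℕ) [Fact p.Prime] : ∀ (N₀ : ℕ) (G : Type u) [Group G] [Finite G],
    Cfsg.IsPSolvable p G → Nat.card G = N₀ → ∀ (P : Sylow p G) (Q T : Subgroup G),
    (Nat.card Q).Coprime p → Q ≤ Subgroup.normalizer ((P : Subgroup G) : Set G) →
    IsPGroup p T → T ≤ Subgroup.normalizer (Q : Set G) →
    Nat.card T ≤ Nat.card ↥((P : Subgroup G) ⊓ Subgroup.centralizer (Q : Set G)) := by
  intro N₀
  induction N₀ using Nat.strong_induction_on with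
  | _ N₀ ih =>
  intro G _ _ hG hcard P Q T hQ hQP hT hTQ
  by_cases htriv : Subsingleton G
  · have h1 : Nat.card T ≤ 1 := Finite.card_le_one_iff_subsingleton.mpr inferInstance
    have h2 : 0 < Nat.card ↥((P : Subgroup G) ⊓ Subgroup.centralizer (Q : Set G)) := Nat.card_pos
    omega
  rw [not_subsingleton_iff_nontrivial] at htriv
  obtain ⟨M, hMn, hMne, hM⟩ := Cfsg.Agent.Helper20.psolvable_setup p hG
  have hlt : Nat.card (G ⧸ M) < N₀ := by
    rw [← hcard, ← Subgroup.index_eq_card, ← Subgroup.index_mul_card M]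
    have h1 : 1 < Nat.card M := (Subgroup.one_lt_card_iff_ne_bot M).mpr hMne
    have h2 : 0 < M.index := Nat.pos_of_ne_zero (Subgroup.index_ne_zero_of_finite)
    nlinarith
  set π := QuotientGroup.mk' M with hπ
  have hπs : Function.Surjective π := QuotientGroup.mk'_surjective M
  have hker : π.ker = M := QuotientGroup.ker_mk' M
  have hQ' : (Nat.card (Q.map π)).Coprime p := hQ.coprime_dvd_left (Subgroup.card_map_dvd Q π)
  have hQP' : Q.map π ≤ Subgroup.normalizer
      (((P.mapSurjective hπs : Sylow p (G ⧸ M)) : Subgroup (G ⧸ M)) : Set (G ⧸ M)) := by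
    rw [Sylow.coe_mapSurjective]
    exact (Subgroup.map_mono hQP).trans (Subgroup.le_normalizer_map π)
  have hT' : IsPGroup p (T.map π) := hT.map π
  have hTQ' : T.map π ≤ Subgroup.normalizer ((Q.map π : Subgroup (G ⧸ M)) : Set (G ⧸ M)) :=
    (Subgroup.map_mono hTQ).trans (Subgroup.le_normalizer_map π)
  have hIH := ih _ hlt (G ⧸ M) (Cfsg.Agent.Helper20.isPSolvable_quotient p hG M) rfl
    (P.mapSurjective hπs) (Q.map π) (T.map π) hQ' hQP' hT' hTQ'
  rw [Sylow.coe_mapSurjective] at hIH
  have hMP : IsPGroup p M → M ≤ (P : Subgroup G) := fun hMp => hMp.le_sylow_of_normal P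
  have hQPc : (Nat.card Q).Coprime (Nat.card (P : Subgroup G)) := by
    obtain ⟨k, hk⟩ := IsPGroup.iff_card.mp P.2
    rw [hk]
    exact Nat.Coprime.pow_right _ hQ
  -- Claim A
  have hA : (P : Subgroup G).map π ⊓
      Subgroup.centralizer ((Q.map π : Subgroup (G ⧸ M)) : Set (G ⧸ M)) ≤
      ((P : Subgroup G) ⊓ Subgroup.centralizer (Q : Set G)).map π := by
    rintro _ ⟨⟨x, hx, rfl⟩, hxc⟩
    have h1 : ∀ q ∈ Q, x⁻¹ * q * x * q⁻¹ ∈ M := by
      intro q hq
      have h2 := Subgroup.mem_centralizer_iff.mp hxc (π q) (Subgroup.mem_map_of_mem π hq)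
      rw [← hker, MonoidHom.mem_ker]
      simp only [map_mul, map_inv]
      rw [mul_assoc (π x)⁻¹, h2]
      group
    rcases hM with hMp | hMp'
    · have hsolv : Group.IsSolvable ↥(P : Subgroup G) := by
        have : Group.IsNilpotent ↥(P : Subgroup G) := P.2.isNilpotent
        infer_instance
      obtain ⟨d, hd, hxd⟩ := Cfsg.Agent.Helper1.coprime_coset_fixed Q (P : Subgroup G) M hQP
        (fun q _ => by
          rw [Subgroup.normalizer_eq_top_iff.mpr hMn]; exact Subgroup.mem_top q)
        (hMP hMp) hQPc (Or.inr hsolv) x hx h1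
      refine ⟨x * d, ⟨(P : Subgroup G).mul_mem hx (hMP hMp hd), hxd⟩, ?_⟩
      rw [map_mul, (show π d = 1 from by rw [← MonoidHom.mem_ker, hker]; exact hd), mul_one]
    · refine ⟨x, ⟨hx, ?_⟩, rfl⟩
      show x ∈ Subgroup.centralizer (Q : Set G)
      rw [Subgroup.mem_centralizer_iff]
      intro q hq
      have h3 : x⁻¹ * q * x * q⁻¹ ∈ (P : Subgroup G) := by
        have := (Subgroup.mem_normalizer_iff.mp (hQP hq) x).mp hx
        have h4 := (P : Subgroup G).mul_mem ((P : Subgroup G).inv_mem hx) this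
        simpa [mul_assoc] using h4
      have h5 : x⁻¹ * q * x * q⁻¹ = 1 := by
        have hdisj : Disjoint (P : Subgroup G) M := by
          apply Subgroup.disjoint_of_coprime_natCard
          obtain ⟨k, hk⟩ := IsPGroup.iff_card.mp P.2
          rw [hk]
          exact (Nat.Coprime.pow_right _ hMp').symm
        exact Subgroup.disjoint_def.mp hdisj h3 (h1 q hq)
      calc q * x = x * (x⁻¹ * q * x * q⁻¹) * q := by group
        _ = x * q := by rw [h5, mul_one]
  -- Claim B
  have hB : π.ker ⊓ T ≤ π.ker ⊓ ((P : Subgroup G) ⊓ Subgroup.centralizer (Q : Set G)) := by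
    rw [hker]
    rcases hM with hMp | hMp'
    · intro t ⟨htM, htT⟩
      refine ⟨htM, hMP hMp htM, ?_⟩
      show t ∈ Subgroup.centralizer (Q : Set G)
      rw [Subgroup.mem_centralizer_iff]
      intro q hq
      have h3 : t * q * t⁻¹ * q⁻¹ ∈ Q :=
        Q.mul_mem ((Subgroup.mem_normalizer_iff.mp (hTQ htT) q).mp hq) (Q.inv_mem hq)
      have h4 : t * q * t⁻¹ * q⁻¹ ∈ M := by
        have := hMn.conj_mem t⁻¹ (M.inv_mem htM) q
        have h5 := M.mul_mem htM this
        simpa [mul_assoc] using h5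
      have hdisj : Disjoint Q M := by
        apply Subgroup.disjoint_of_coprime_natCard
        obtain ⟨k, hk⟩ := IsPGroup.iff_card.mp hMp
        rw [hk]
        exact Nat.Coprime.pow_right _ hQ
      have h5 : t * q * t⁻¹ * q⁻¹ = 1 := Subgroup.disjoint_def.mp hdisj h3 h4
      calc q * t = (t * q * t⁻¹ * q⁻¹)⁻¹ * t * q := by group
        _ = t * q := by rw [h5]; group
    · have hdisj : Disjoint M T := by
        apply Subgroup.disjoint_of_coprime_natCard
        obtain ⟨k, hk⟩ := IsPGroup.iff_card.mp hT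
        rw [hk]
        exact Nat.Coprime.pow_right _ hMp'
      rw [disjoint_iff.mp hdisj]
      exact bot_le
  calc Nat.card T = Nat.card (T.map π) * Nat.card ↥(π.ker ⊓ T) := card_eq_map_mul π T
    _ ≤ Nat.card ↥(((P : Subgroup G) ⊓ Subgroup.centralizer (Q : Set G)).map π) *
        Nat.card ↥(π.ker ⊓ ((P : Subgroup G) ⊓ Subgroup.centralizer (Q : Set G))) :=
        Nat.mul_le_mul (hIH.trans (Subgroup.card_le_of_le hA)) (Subgroup.card_le_of_le hB)
    _ = Nat.card ↥((P : Subgroup G) ⊓ Subgroup.centralizer (Q : Set G)) :=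
        (card_eq_map_mul π _).symm

/-- Let G be a finite p-solvable group and Q a subgroup of order prime to p such that p divides the index of C_G(Q) in N_G(Q). Then Q normalizes no Sylow p-subgroup of G. -/
theorem result {G : Type*} [Group G] [Finite G] {p : ℕ} [Fact p.Prime]
    (hG : Cfsg.IsPSolvable p G) (Q : Subgroup G) (hQ : ¬ p ∣ Nat.card Q)
    (hA : p ∣ (Subgroup.centralizer (Q : Set G)).relIndex (Subgroup.normalizer (Q : Set G)))
    (P : Sylow p G) : ¬ Q ≤ Subgroup.normalizer ((P : Subgroup G) : Set G) := by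
  classical
  intro hQN
  have hQc : (Nat.card Q).Coprime p := ((Nat.Prime.coprime_iff_not_dvd Fact.out).mpr hQ).symm
  obtain ⟨T₀⟩ : Nonempty (Sylow p ↥(Subgroup.normalizer (Q : Set G))) := inferInstance
  set T : Subgroup G := (T₀ : Subgroup _).map (Subgroup.normalizer (Q : Set G)).subtype with hTdef
  have hT : IsPGroup p T := T₀.2.map _
  have hTN : T ≤ Subgroup.normalizer (Q : Set G) := Subgroup.map_subtype_le _
  have hcardT : Nat.card T = p ^ (Nat.card ↥(Subgroup.normalizer (Q : Set G))).factorization p := by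
    rw [hTdef, Subgroup.card_map_of_injective (Subgroup.subtype_injective _)]
    exact T₀.card_eq_multiplicity
  have hB := keyB p _ G hG rfl P Q T hQc hQN hT hTN
  have hPC : IsPGroup p ↥((P : Subgroup G) ⊓ Subgroup.centralizer (Q : Set G)) :=
    P.2.to_le inf_le_left
  obtain ⟨k, hk⟩ := IsPGroup.iff_card.mp hPC
  have h1 : p ^ k ∣ Nat.card ↥(Subgroup.centralizer (Q : Set G)) :=
    hk ▸ Subgroup.card_dvd_of_le inf_le_right
  have h2 : Nat.card ↥(Subgroup.centralizer (Q : Set G)) *
      (Subgroup.centralizer (Q : Set G)).relIndex (Subgroup.normalizer (Q : Set G)) =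
      Nat.card ↥(Subgroup.normalizer (Q : Set G)) := by
    rw [← Subgroup.relIndex_bot_left, ← Subgroup.relIndex_bot_left]
    exact Subgroup.relIndex_mul_relIndex _ _ _ bot_le (Subgroup.centralizer_le_normalizer _)
  have h3 : p ^ (k + 1) ∣ Nat.card ↥(Subgroup.normalizer (Q : Set G)) := by
    rw [← h2, pow_succ]
    exact Nat.mul_dvd_mul h1 hA
  have h4 : k + 1 ≤ (Nat.card ↥(Subgroup.normalizer (Q : Set G))).factorization p :=
    (Nat.Prime.pow_dvd_iff_le_factorization Fact.out (Nat.card_pos.ne')).mp h3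
  have h5 : p ^ (k + 1) ≤ Nat.card T := by
    rw [hcardT]
    exact Nat.pow_le_pow_right (Fact.out : p.Prime).pos h4
  have h6 : p ^ k < p ^ (k + 1) :=
    Nat.pow_lt_pow_right (Fact.out : p.Prime).one_lt (Nat.lt_succ_self k)
  omega

end Cfsg.Agent.S1901
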