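import Cfsg.Statements.S1905
import Cfsg.Agent.Lead.Fusion

set_option autoImplicit false
open Cfsg

namespace Cfsg.Agent.S1905

theorem dihedral_aux {S : Type*} [Group S] [Finite S] (x y : S) (hx : orderOf x = 2)
    (hy : orderOf y = 2) :
    (∃ w : S, w * w = 1 ∧ w * y * w⁻¹ = x) ∨
      ∃ w : S, orderOf w = 2 ∧ w * x = x * w ∧ w * y = y * w := by
  have hx2 : x * x = 1 := by
    have := pow_orderOf_eq_one x
    rw [hx, pow_two] at this
    exact this
  have hy2 : y * y = 1 := by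
    have := pow_orderOf_eq_one y
    rw [hy, pow_two] at this
    exact this
  have hxinv : x⁻¹ = x := inv_eq_of_mul_eq_one_left hx2
  have hyinv : y⁻¹ = y := inv_eq_of_mul_eq_one_left hy2
  obtain ⟨r, hr⟩ : ∃ r, r = x * y := ⟨_, rfl⟩
  have hrinv : r⁻¹ = y * x := by
    rw [hr, mul_inv_rev, hxinv, hyinv]
  have hxr : x * r * x⁻¹ = r⁻¹ := by
    rw [hrinv, hr, hxinv, ← mul_assoc, hx2, one_mul]
  have hyr : y * r * y⁻¹ = r⁻¹ := by
    rw [hrinv, hr, hyinv, mul_assoc, mul_assoc, hy2, mul_one]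
  have hxpow : ∀ n : ℕ, x * r ^ n * x⁻¹ = (r ^ n)⁻¹ := by
    intro n
    rw [← conj_pow, hxr, inv_pow]
  have hypow : ∀ n : ℕ, y * r ^ n * y⁻¹ = (r ^ n)⁻¹ := by
    intro n
    rw [← conj_pow, hyr, inv_pow]
  rcases Nat.even_or_odd (orderOf r) with hev | hodd
  · right
    obtain ⟨t, ht⟩ := hev
    have hpos : 0 < orderOf r := orderOf_pos r
    have hw2 : r ^ t * r ^ t = 1 := by rw [← pow_add, ← ht, pow_orderOf_eq_one]
    have hwinv : (r ^ t)⁻¹ = r ^ t := inv_eq_of_mul_eq_one_left hw2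
    refine ⟨r ^ t, ?_, ?_, ?_⟩
    · haveI : Fact (Nat.Prime 2) := ⟨Nat.prime_two⟩
      refine orderOf_eq_prime ?_ ?_
      · rw [pow_two]; exact hw2
      · exact pow_ne_one_of_lt_orderOf (by omega) (by omega)
    · have h1 := hxpow t
      rw [hwinv, hxinv] at h1
      calc r ^ t * x = x * r ^ t * x * x := by rw [h1]
        _ = x * r ^ t := by rw [mul_assoc, hx2, mul_one]
    · have h1 := hypow t
      rw [hwinv, hyinv] at h1
      calc r ^ t * y = y * r ^ t * y * y := by rw [h1]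
        _ = y * r ^ t := by rw [mul_assoc, hy2, mul_one]
  · left
    obtain ⟨s, hs⟩ := hodd
    obtain ⟨w, hw⟩ : ∃ w, w = x * r ^ (s + 1) := ⟨_, rfl⟩
    have h1 := hxpow (s + 1)
    rw [hxinv] at h1
    have hww : w * w = 1 := by
      rw [hw]
      calc x * r ^ (s + 1) * (x * r ^ (s + 1)) = x * r ^ (s + 1) * x * r ^ (s + 1) := by
            simp only [mul_assoc]
        _ = 1 := by rw [h1, inv_mul_cancel]
    have hwinv : w⁻¹ = w := inv_eq_of_mul_eq_one_left hww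
    have hpw : r ^ (s + 1) * r⁻¹ * r ^ (s + 1) = 1 := by
      have e1 : r ^ (s + 1) * r⁻¹ = r ^ s := by rw [pow_succ, mul_inv_cancel_right]
      rw [e1, ← pow_add, show s + (s + 1) = orderOf r by omega, pow_orderOf_eq_one]
    refine ⟨w, hww, ?_⟩
    rw [hwinv, hw]
    calc x * r ^ (s + 1) * y * (x * r ^ (s + 1))
        = x * (r ^ (s + 1) * (y * x) * r ^ (s + 1)) := by simp only [mul_assoc]
      _ = x := by rw [← hrinv, hpw, mul_one]


/-- Let M be a subgroup of even order of a finite group S such that M contains the centralizer in S of each of its involutions and the normal core of M in S has odd order. Then all involutions of S are conjugate. If moreover N_S(X) ≤ M for a Sylow 2-subgroup X of M and I is an involution in the centre of X, then all involutions of M are conjugate in M and M = M₀ C_M(I) for some subgroup M₀ of M of odd order. -/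
theorem result {S : Type*} [Group S] [Finite S] (M : Subgroup S) (hM : Even (Nat.card M))
    (hC : ∀ i ∈ M, orderOf i = 2 → Subgroup.centralizer ({i} : Set S) ≤ M) (hcore : Odd (Nat.card M.normalCore)) :
    (∀ x y : S, orderOf x = 2 → orderOf y = 2 → IsConj x y) ∧
      ∀ (X : Sylow 2 M) (I : M), I ∈ (Subgroup.center ↥(X : Subgroup ↥M)).map (X : Subgroup ↥M).subtype → orderOf I = 2 →
        Subgroup.normalizer (((X : Subgroup M).map M.subtype : Subgroup S) : Set S) ≤ M →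
        (∀ x y : M, orderOf x = 2 → orderOf y = 2 → IsConj x y) ∧
          ∃ M₀ : Subgroup M, Odd (Nat.card M₀) ∧
            ∀ m : M, ∃ a ∈ M₀, ∃ c ∈ Subgroup.centralizer ({I} : Set M), m = a * c := by
  classical
  haveI : Fact (Nat.Prime 2) := ⟨Nat.prime_two⟩
  have hcent : ∀ a g : S, a * g = g * a → g ∈ Subgroup.centralizer ({a} : Set S) := by
    intro a g h
    rw [Subgroup.mem_centralizer_iff]
    intro b hb
    rw [Set.mem_singleton_iff] at hb
    rw [hb]; exact h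
  have hordconj : ∀ b a : S, orderOf (b * a * b⁻¹) = orderOf a := fun b a =>
    MulEquiv.orderOf_eq (MulAut.conj b) a
  have hK : ∀ i ∈ M, orderOf i = 2 → ∀ j : S, orderOf j = 2 →
      j ∈ M ∨ ∃ w : S, w * w = 1 ∧ w * j * w⁻¹ = i := by
    intro i hiM hi j hj
    rcases dihedral_aux i j hi hj with h | ⟨w, hw2, hwi, hwj⟩
    · exact Or.inr h
    · left
      have hwM : w ∈ M := hC i hiM hi (hcent i w hwi.symm)
      exact hC w hwM hw2 (hcent w j hwj)
  obtain ⟨i₀', hi₀'⟩ := exists_prime_orderOf_dvd_card' (G := M) 2 (even_iff_two_dvd.mp hM)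
  obtain ⟨i₀, hi₀⟩ : ∃ i₀ : S, i₀ = (i₀' : S) := ⟨_, rfl⟩
  have hi₀M : i₀ ∈ M := by rw [hi₀]; exact i₀'.2
  have hi₀2 : orderOf i₀ = 2 := by rw [hi₀, Subgroup.orderOf_coe]; exact hi₀'
  obtain ⟨j₀, hj₀2, hj₀M⟩ : ∃ j₀ : S, orderOf j₀ = 2 ∧ j₀ ∉ M := by
    by_contra hcon
    push_neg at hcon
    have hmem : i₀ ∈ M.normalCore := by
      show ∀ b : S, b * i₀ * b⁻¹ ∈ M
      intro b
      exact hcon _ (by rw [hordconj]; exact hi₀2)
    have hdvd : 2 ∣ Nat.card M.normalCore := by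
      rw [← hi₀2]
      exact Subgroup.orderOf_dvd_natCard _ hmem
    exact (Nat.not_even_iff_odd.mpr hcore) (even_iff_two_dvd.mpr hdvd)
  have hconj₀ : ∀ x : S, orderOf x = 2 → IsConj x j₀ := by
    have h0 : IsConj i₀ j₀ := by
      rcases hK i₀ hi₀M hi₀2 j₀ hj₀2 with h | ⟨w, -, hw⟩
      · exact absurd h hj₀M
      · exact (isConj_iff.mpr ⟨w, hw⟩).symm
    intro x hx
    by_cases hxM : x ∈ M
    · rcases hK x hxM hx j₀ hj₀2 with h | ⟨w, -, hw⟩
      · exact absurd h hj₀M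
      · exact (isConj_iff.mpr ⟨w, hw⟩).symm
    · rcases hK i₀ hi₀M hi₀2 x hx with h | ⟨w, -, hw⟩
      · exact absurd h hxM
      · exact (isConj_iff.mpr ⟨w, hw⟩).trans h0
  refine ⟨fun x y hx hy => (hconj₀ x hx).trans (hconj₀ y hy).symm, ?_⟩
  intro X I hI hI2 hN
  obtain ⟨XS, hXS⟩ : ∃ XS : Subgroup S, XS = (X : Subgroup M).map M.subtype := ⟨_, rfl⟩
  rw [← hXS] at hN
  obtain ⟨iS, hiS⟩ : ∃ iS : S, iS = (I : S) := ⟨_, rfl⟩
  have hiSM : iS ∈ M := by rw [hiS]; exact I.2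
  have hiS2 : orderOf iS = 2 := by rw [hiS, Subgroup.orderOf_coe]; exact hI2
  obtain ⟨z, hz, hzI⟩ := hI
  have hIc : ∀ x : M, x ∈ (X : Subgroup M) → (x : S) * iS = iS * (x : S) := by
    intro x hx
    have h1 := Subgroup.mem_center_iff.mp hz ⟨x, hx⟩
    have h2 : x * I = I * x := by
      rw [← hzI]
      exact congrArg Subtype.val h1
    rw [hiS]
    exact congrArg Subtype.val h2
  have hXSc : ∀ s ∈ XS, s * iS = iS * s := by
    intro s hs
    rw [hXS] at hs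
    obtain ⟨x, hx, rfl⟩ := Subgroup.mem_map.mp hs
    exact hIc x hx
  have hSyl : ∀ Q' : Subgroup M, IsPGroup 2 Q' →
      ∃ m : M, ∀ q ∈ Q', m⁻¹ * q * m ∈ (X : Subgroup M) := by
    intro Q' hQ'
    obtain ⟨Y, hY⟩ := hQ'.exists_le_sylow
    obtain ⟨m, hm⟩ := MulAction.exists_smul_eq M X Y
    refine ⟨m, fun q hq => ?_⟩
    have h1 : q ∈ ((m • X : Sylow 2 M) : Subgroup M) := by rw [hm]; exact hY hq
    exact (Cfsg.Agent.Lead.mem_smul_sylow X m q).mp h1
  have hS1 : ∀ i ∈ M, orderOf i = 2 → ∃ m ∈ M, m⁻¹ * i * m ∈ XS := by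
    intro i hiM hi
    have hp : IsPGroup 2 (Subgroup.zpowers (⟨i, hiM⟩ : M)) := by
      refine IsPGroup.of_card (n := 1) ?_
      rw [Nat.card_zpowers, pow_one, ← hi]
      exact Subgroup.orderOf_mk i hiM
    obtain ⟨m, hm⟩ := hSyl _ hp
    refine ⟨m, m.2, ?_⟩
    rw [hXS]
    exact Subgroup.mem_map.mpr ⟨_, hm _ (Subgroup.mem_zpowers _), rfl⟩
  have hF' : ∀ g : S, g * iS * g⁻¹ ∈ M → g ∈ M := by
    intro g hg
    obtain ⟨t, ht⟩ : ∃ t, t = g * iS * g⁻¹ := ⟨_, rfl⟩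
    rw [← ht] at hg
    have ht2 : orderOf t = 2 := by rw [ht, hordconj]; exact hiS2
    have hCt := hC t hg ht2
    have hQM : ∀ s ∈ XS, g * s * g⁻¹ ∈ M := by
      intro s hs
      apply hCt
      apply hcent
      have h1 := hXSc s hs
      calc t * (g * s * g⁻¹) = g * (iS * s) * g⁻¹ := by rw [ht]; group
        _ = g * (s * iS) * g⁻¹ := by rw [h1]
        _ = g * s * g⁻¹ * t := by rw [ht]; group
    obtain ⟨Q', hQ'⟩ : ∃ Q' : Subgroup M,
        Q' = (XS.map (MulAut.conj g).toMonoidHom).subgroupOf M := ⟨_, rfl⟩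
    have hQ'p : IsPGroup 2 Q' := by
      rw [hQ']
      have h1 : IsPGroup 2 XS := by rw [hXS]; exact X.isPGroup'.map _
      exact (h1.map _).comap_subtype
    obtain ⟨m, hm⟩ := hSyl Q' hQ'p
    have hn1 : ∀ s, s ∈ (XS : Set S) →
        (m : S)⁻¹ * g * s * ((m : S)⁻¹ * g)⁻¹ ∈ (XS : Set S) := by
      intro s hs
      have hs' : s ∈ XS := hs
      have hq : (⟨g * s * g⁻¹, hQM s hs'⟩ : M) ∈ Q' := by
        rw [hQ', Subgroup.mem_subgroupOf]
        exact Subgroup.mem_map.mpr ⟨s, hs', rfl⟩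
      have h2 := hm _ hq
      have h3 : (m : S)⁻¹ * (g * s * g⁻¹) * (m : S) ∈ XS := by
        rw [hXS]
        exact Subgroup.mem_map.mpr ⟨_, h2, rfl⟩
      have e : (m : S)⁻¹ * g * s * ((m : S)⁻¹ * g)⁻¹
          = (m : S)⁻¹ * (g * s * g⁻¹) * (m : S) := by group
      rw [e]; exact h3
    have hn : (m : S)⁻¹ * g ∈ Subgroup.normalizer (XS : Set S) :=
      Subgroup.mem_normalizer_fintype hn1
    have h4 : (m : S)⁻¹ * g ∈ M := hN hn
    have h5 : g = (m : S) * ((m : S)⁻¹ * g) := by group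
    rw [h5]
    exact M.mul_mem m.2 h4
  have hF : ∀ i ∈ M, orderOf i = 2 → ∀ g : S, g * i * g⁻¹ ∈ M → g ∈ M := by
    intro i hiM hi g hg
    obtain ⟨m, hmM, hm⟩ := hS1 i hiM hi
    have h1 := hXSc _ hm
    have ht2 : orderOf (g * i * g⁻¹) = 2 := by rw [hordconj]; exact hi
    have hCt := hC _ hg ht2
    have h2 : g * m * iS * (g * m)⁻¹ ∈ M := by
      apply hCt
      apply hcent
      calc g * i * g⁻¹ * (g * m * iS * (g * m)⁻¹)
          = g * m * (m⁻¹ * i * m * iS) * m⁻¹ * g⁻¹ := by group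
        _ = g * m * (iS * (m⁻¹ * i * m)) * m⁻¹ * g⁻¹ := by rw [h1]
        _ = g * m * iS * (g * m)⁻¹ * (g * i * g⁻¹) := by group
    have h3 := hF' _ h2
    have h4 : g = g * m * m⁻¹ := by group
    rw [h4]
    exact M.mul_mem h3 (M.inv_mem hmM)
  have hb1 : ∀ x y : M, orderOf x = 2 → orderOf y = 2 → IsConj x y := by
    intro x y hx hy
    have hx' : orderOf (x : S) = 2 := by rw [Subgroup.orderOf_coe]; exact hx
    have hy' : orderOf (y : S) = 2 := by rw [Subgroup.orderOf_coe]; exact hy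
    obtain ⟨c, hc⟩ := isConj_iff.mp ((hconj₀ _ hx').trans (hconj₀ _ hy').symm)
    have hcM : c ∈ M := hF _ x.2 hx' c (by rw [hc]; exact y.2)
    exact isConj_iff.mpr ⟨⟨c, hcM⟩, Subtype.ext hc⟩
  refine ⟨hb1, ?_⟩
  obtain ⟨x₀, hx₀⟩ : ∃ x₀, x₀ = j₀ * iS * j₀⁻¹ := ⟨_, rfl⟩
  have hx₀2 : orderOf x₀ = 2 := by rw [hx₀, hordconj]; exact hiS2
  have hx₀M : x₀ ∉ M := fun h => hj₀M (hF' j₀ (by rw [← hx₀]; exact h))
  have hkey : ∀ t ∈ M, orderOf t = 2 →
      ∃ y : S, y * y = 1 ∧ y * x₀ * y⁻¹ = t ∧ y * j₀ ∈ M := by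
    intro t htM ht
    rcases hK t htM ht x₀ hx₀2 with h | ⟨y, hyy, hy⟩
    · exact absurd h hx₀M
    · refine ⟨y, hyy, hy, ?_⟩
      apply hF'
      have e : y * j₀ * iS * (y * j₀)⁻¹ = y * (j₀ * iS * j₀⁻¹) * y⁻¹ := by group
      rw [e, ← hx₀, hy]
      exact htM
  obtain ⟨D, hD⟩ : ∃ D : Subgroup S, D = M ⊓ M.map (MulAut.conj j₀).toMonoidHom := ⟨_, rfl⟩
  have hDmem : ∀ d : S, d ∈ D ↔ d ∈ M ∧ j₀⁻¹ * d * j₀ ∈ M := by
    intro d
    rw [hD, Subgroup.mem_inf, Subgroup.mem_map_equiv, MulAut.conj_symm_apply]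
  refine ⟨D.subgroupOf M, ?_, ?_⟩
  · rw [← Nat.not_even_iff_odd]
    intro hev
    obtain ⟨d, hd⟩ := exists_prime_orderOf_dvd_card' (G := D.subgroupOf M) 2
      (even_iff_two_dvd.mp hev)
    have hd2 : orderOf ((d : M) : S) = 2 := by
      rw [Subgroup.orderOf_coe, Subgroup.orderOf_coe]; exact hd
    have hdD : ((d : M) : S) ∈ D := Subgroup.mem_subgroupOf.mp d.2
    obtain ⟨hdM, hdj⟩ := (hDmem _).mp hdD
    have h2 : orderOf (j₀⁻¹ * ((d : M) : S) * j₀) = 2 := by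
      have := hordconj j₀⁻¹ ((d : M) : S)
      rw [inv_inv] at this
      rw [this]; exact hd2
    apply hj₀M
    apply hF _ hdj h2 j₀
    have e : j₀ * (j₀⁻¹ * ((d : M) : S) * j₀) * j₀⁻¹ = ((d : M) : S) := by group
    rw [e]; exact hdM
  · intro m
    obtain ⟨y, hyy, hy, hyM⟩ := hkey iS hiSM hiS2
    have htM : (m : S) * iS * (m : S)⁻¹ ∈ M :=
      M.mul_mem (M.mul_mem m.2 hiSM) (M.inv_mem m.2)
    have ht2 : orderOf ((m : S) * iS * (m : S)⁻¹) = 2 := by rw [hordconj]; exact hiS2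
    obtain ⟨y', hyy', hy', hyM'⟩ := hkey _ htM ht2
    have hyinv : y⁻¹ = y := inv_eq_of_mul_eq_one_left hyy
    have hyinv' : y'⁻¹ = y' := inv_eq_of_mul_eq_one_left hyy'
    have hdM : y' * y ∈ M := by
      have e : y' * y = (y' * j₀) * (y * j₀)⁻¹ := by
        rw [mul_inv_rev, hyinv]
        group
      rw [e]; exact M.mul_mem hyM' (M.inv_mem hyM)
    have hdj : j₀⁻¹ * (y' * y) * j₀ ∈ M := by
      have e : j₀⁻¹ * (y' * y) * j₀ = (y' * j₀)⁻¹ * (y * j₀) := by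
        rw [mul_inv_rev, hyinv']
        group
      rw [e]; exact M.mul_mem (M.inv_mem hyM') hyM
    have hdconj : y' * y * iS * (y' * y)⁻¹ = (m : S) * iS * (m : S)⁻¹ := by
      have h1 : y * iS * y⁻¹ = x₀ := by
        rw [← hy, hyinv]
        calc y * (y * x₀ * y) * y = (y * y) * x₀ * (y * y) := by simp only [mul_assoc]
          _ = x₀ := by rw [hyy, one_mul, mul_one]
      calc y' * y * iS * (y' * y)⁻¹ = y' * (y * iS * y⁻¹) * y'⁻¹ := by group
        _ = (m : S) * iS * (m : S)⁻¹ := by rw [h1, hy']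
    obtain ⟨a, ha⟩ : ∃ a : M, (a : S) = y' * y := ⟨⟨y' * y, hdM⟩, rfl⟩
    have haD : a ∈ D.subgroupOf M := by
      rw [Subgroup.mem_subgroupOf, ha]
      exact (hDmem _).mpr ⟨hdM, hdj⟩
    have h : a * I * a⁻¹ = m * I * m⁻¹ := by
      apply Subtype.ext
      show (a : S) * (I : S) * (a : S)⁻¹ = (m : S) * (I : S) * (m : S)⁻¹
      rw [ha, ← hiS]
      exact hdconj
    refine ⟨a, haD, a⁻¹ * m, ?_, (mul_inv_cancel_left a m).symm⟩
    rw [Subgroup.mem_centralizer_iff]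
    intro b hb
    rw [Set.mem_singleton_iff] at hb
    rw [hb]
    calc I * (a⁻¹ * m) = a⁻¹ * (a * I * a⁻¹) * m := by group
      _ = a⁻¹ * (m * I * m⁻¹) * m := by rw [h]
      _ = a⁻¹ * m * I := by group

end Cfsg.Agent.S1905
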