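import Cfsg.Statements.S1924
-- import your own Cfsg.Agent.* helpers here
import Cfsg.Agent.Helper12.SignTransfer
import Cfsg.Agent.Helper12.Goldschmidt

set_option autoImplicit false
open Cfsg

namespace Cfsg.Agent.S1924

/-- A consequence of Thompson's transfer lemma. Let G be a finite group, L a subgroup with O²(L) = L, T a Sylow 2-subgroup of L and S a Sylow 2-subgroup of G containing T. Suppose D ≤ S is a dihedral subgroup of order at least 4 (the four-group counts) with D ∩ T = 1 and S = TD as a set of products (so |S| = |T|·|D|), and C ≤ D is cyclic of index 2 in D. If no involution of D outside C is G-conjugate to an involution of the subgroup generated by T and C, and the involution of C is not G-conjugate to any involution of T, then G has a normal subgroup K, containing every Sylow 2-subgroup of L as a Sylow 2-subgroup, with G = KD. -/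
theorem result {G : Type*} [Group G] [Finite G] (L T S D C : Subgroup G) (hL : Cfsg.pResidual 2 ↥L = ⊤)
    (hTL : T ≤ L) (hT2 : IsPGroup 2 T) (hTsyl : ¬ 2 ∣ T.relIndex L)
    (hS2 : IsPGroup 2 S) (hSsyl : ¬ 2 ∣ S.index) (hTS : T ≤ S)
    (hDS : D ≤ S) (hDih : ∃ n : ℕ, 2 ≤ n ∧ Nonempty (↥D ≃* DihedralGroup n)) (hDT : D ⊓ T = ⊥) (hTD : T ⊔ D = S) (hTDc : Nat.card T * Nat.card D = Nat.card S)
    (hCD : C ≤ D) (hC : IsCyclic ↥C) (hCi : C.relIndex D = 2)
    (h1 : ∀ x ∈ D, x ∉ C → orderOf x = 2 → ∀ g : G, g * x * g⁻¹ ∈ T ⊔ C → False)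
    (h2 : ∀ c ∈ C, orderOf c = 2 → ∀ g : G, g * c * g⁻¹ ∈ T → False) :
    ∃ K : Subgroup G, K.Normal ∧ K ⊔ D = ⊤ ∧
      ∀ T' : Subgroup G, T' ≤ L → IsPGroup 2 T' → ¬ 2 ∣ T'.relIndex L → T' ≤ K ∧ ¬ 2 ∣ T'.relIndex K := by
  open Cfsg.Agent.Helper12 in (
  classical
  haveI : Fact (Nat.Prime 2) := ⟨Nat.prime_two⟩
  obtain ⟨n, hn, ⟨e⟩⟩ := hDih
  have hinvol : ∀ x ∈ D, x ∉ C → orderOf x = 2 := fun x hxD hxC =>
    orderOf_eq_two_of_not_mem_cyclic D C hCD n hn e hC hCi x hxD hxC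
  have hLK : L ≤ Cfsg.pResidual 2 G := by
    have h1 : (Cfsg.pResidual 2 ↥L).map L.subtype = L := by
      rw [hL, ← MonoidHom.range_eq_map, Subgroup.range_subtype]
    rw [← h1]
    unfold Cfsg.pResidual
    rw [Subgroup.map_le_iff_le_comap, Subgroup.closure_le]
    intro g hg
    show (g : G) ∈ Subgroup.closure _
    apply Subgroup.subset_closure
    show Nat.Coprime (orderOf (g : G)) 2
    rw [Subgroup.orderOf_coe]; exact hg
  have hTK : T ≤ Cfsg.pResidual 2 G := hTL.trans hLK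
  have hmain : ¬ 2 ∣ T.relIndex (Cfsg.pResidual 2 G) :=
    transfer_chain T D C hTK hDT hC hCi hinvol h1 h2 (Nat.card D) ⊤ D rfl le_top le_rfl
      ⟨S, le_top, hTS, hDS, hS2, hTDc.symm, by rw [Subgroup.relIndex_top_right]; exact hSsyl⟩
  refine ⟨Cfsg.pResidual 2 G, pRes_normal 2 G, ?_, ?_⟩
  · have h1 : S ⊔ Cfsg.pResidual 2 G = ⊤ := sup_pRes_eq_top S hSsyl
    rw [eq_top_iff, ← h1]
    apply sup_le _ le_sup_left
    rw [← hTD]
    exact sup_le (hTK.trans le_sup_left) le_sup_right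
  · intro T' hT'L hT'2 hT'syl
    refine ⟨hT'L.trans hLK, ?_⟩
    obtain ⟨m, hm, rfl⟩ := exists_conj_eq_of_relIndex hT2 hTL hTsyl hT'2 hT'L hT'syl
    have h3 := relIndex_cjs m T (Cfsg.pResidual 2 G)
    rw [cjs_eq_of_normal (pRes_normal 2 G) m] at h3
    rw [h3]; exact hmain)

end Cfsg.Agent.S1924
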