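import Cfsg.Statements.S1939
-- import your own Cfsg.Agent.* helpers here
import Cfsg.Agent.Helper12.Syl

set_option autoImplicit false
open Cfsg

namespace Cfsg.Agent.S1939

/-- Let S be a Sylow p-subgroup of the finite group G and a an element of S that is the only G-conjugate of a lying in S. Then every power of a has the same property: for every n, the only G-conjugate of a^n lying in S is a^n. -/
theorem result {G : Type*} [Group G] [Finite G] {p : ℕ} [Fact p.Prime] (S : Sylow p G) (a : G)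
    (haS : a ∈ (S : Subgroup G)) (hwc : ∀ g : G, g * a * g⁻¹ ∈ (S : Subgroup G) → g * a * g⁻¹ = a) (n : ℕ) :
    ∀ g : G, g * a ^ n * g⁻¹ ∈ (S : Subgroup G) → g * a ^ n * g⁻¹ = a ^ n := by
  classical
  intro g hg
  -- a is central in S
  have hcen : ∀ s ∈ (S : Subgroup G), s * a = a * s := by
    intro s hs
    have h1 := hwc s ((S : Subgroup G).mul_mem ((S : Subgroup G).mul_mem hs haS)
      ((S : Subgroup G).inv_mem hs))
    calc s * a = s * a * s⁻¹ * s := by group
      _ = a * s := by rw [h1]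
  have hcenn : ∀ s ∈ (S : Subgroup G), s * a ^ n = a ^ n * s := by
    intro s hs
    exact ((Commute.pow_right (hcen s hs) n)).eq
  set c : G := g * a ^ n * g⁻¹ with hc
  -- T = g • S ≤ C(c)
  have hTH : ((g • S : Sylow p G) : Subgroup G) ≤ Subgroup.centralizer {c} := by
    intro x hx
    have hx' : g⁻¹ * x * g ∈ S := (Cfsg.Agent.Helper12.mem_sylow_smul_iff S g x).1 hx
    rw [Subgroup.mem_centralizer_iff]
    intro y hy
    rw [Set.mem_singleton_iff] at hy
    rw [hy, hc]
    have h1 := hcenn _ hx'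
    calc g * a ^ n * g⁻¹ * x = g * (a ^ n * (g⁻¹ * x * g)) * g⁻¹ := by group
      _ = g * ((g⁻¹ * x * g) * a ^ n) * g⁻¹ := by rw [h1]
      _ = x * (g * a ^ n * g⁻¹) := by group
  have hQp : IsPGroup p ↥((S : Subgroup G) ⊓ Subgroup.centralizer {c}) :=
    S.isPGroup'.to_le inf_le_left
  obtain ⟨h, hhH, hh⟩ := Cfsg.Agent.Helper12.exists_conj_mem_sylow_of_le (g • S) hTH hQp
    inf_le_right
  have haQ : a ∈ (S : Subgroup G) ⊓ Subgroup.centralizer {c} := by
    refine Subgroup.mem_inf.2 ⟨haS, ?_⟩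
    rw [Subgroup.mem_centralizer_iff]
    intro y hy
    rw [Set.mem_singleton_iff] at hy
    rw [hy]
    exact hcen c hg
  have h2 := hh a haQ
  have h3 : g⁻¹ * (h * a * h⁻¹) * g ∈ S := (Cfsg.Agent.Helper12.mem_sylow_smul_iff S g _).1 h2
  have h4 : (g⁻¹ * h) * a * (g⁻¹ * h)⁻¹ = a := by
    apply hwc
    have e : (g⁻¹ * h) * a * (g⁻¹ * h)⁻¹ = g⁻¹ * (h * a * h⁻¹) * g := by group
    rw [e]; exact h3
  have h5 : g * a * g⁻¹ = h * a * h⁻¹ := by
    calc g * a * g⁻¹ = g * ((g⁻¹ * h) * a * (g⁻¹ * h)⁻¹) * g⁻¹ := by rw [h4]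
      _ = h * a * h⁻¹ := by group
  have h6 : c = h * a ^ n * h⁻¹ := by
    rw [hc, ← conj_pow, h5, conj_pow]
  have h7 : c * h = h * c := (Subgroup.mem_centralizer_iff.1 hhH) c (Set.mem_singleton c)
  calc c = h⁻¹ * (h * c) := by group
    _ = h⁻¹ * (c * h) := by rw [h7]
    _ = h⁻¹ * (h * a ^ n * h⁻¹ * h) := by rw [← h6]
    _ = a ^ n := by group

end Cfsg.Agent.S1939
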