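import Cfsg.Statements.S1940
-- import your own Cfsg.Agent.* helpers here

set_option autoImplicit false
open Cfsg

namespace Cfsg.Agent.S1940

/-- Let the finite group L act by automorphisms on the finite abelian group M, and let N be an L-invariant subgroup of M such that M/N is a p-group on which L acts trivially (every l • m lies in the coset mN). If every element of M is a product of an element of N and an element fixed by a Sylow p-subgroup T of L, then every element of M is a product of an element of N and an element fixed by all of L. -/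
theorem result {L : Type*} [Group L] [Finite L] {M : Type*} [CommGroup M] [Finite M] [MulDistribMulAction L M]
    {p : ℕ} [Fact p.Prime] (N : Subgroup M) (hN : ∀ (l : L) (m : M), m ∈ N → l • m ∈ N)
    (hquot : IsPGroup p (M ⧸ N)) (htriv : ∀ (l : L) (m : M), (l • m) * m⁻¹ ∈ N) (T : Sylow p L)
    (hT : ∀ m : M, ∃ n ∈ N, ∃ c : M, (∀ t ∈ (T : Subgroup L), t • c = c) ∧ m = n * c) :
    ∀ m : M, ∃ n ∈ N, ∃ c : M, (∀ l : L, l • c = c) ∧ m = n * c := by
  classical
  intro m
  obtain ⟨n, hn, c, hc, rfl⟩ := hT m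
  haveI : Fintype (L ⧸ (T : Subgroup L)) := Fintype.ofFinite _
  let f : L ⧸ (T : Subgroup L) → M := fun q => Quotient.liftOn' q (fun l => l • c) (by
    intro a b hab
    have h1 : a⁻¹ * b ∈ (T : Subgroup L) := QuotientGroup.leftRel_apply.mp hab
    have h2 := hc _ h1
    show a • c = b • c
    calc a • c = a • ((a⁻¹ * b) • c) := by rw [h2]
      _ = b • c := by rw [smul_smul, mul_inv_cancel_left])
  have hf : ∀ l : L, f (l : L ⧸ (T : Subgroup L)) = l • c := fun l => rfl
  have hν : ∀ g : L, g • (∏ q, f q) = ∏ q, f q := by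
    intro g
    rw [Finset.smul_prod']
    refine Fintype.prod_equiv (MulAction.toPerm g) _ _ ?_
    intro q
    obtain ⟨l, rfl⟩ := QuotientGroup.mk_surjective q
    have h1 : MulAction.toPerm g ((l : L) : L ⧸ (T : Subgroup L)) = ((g * l : L) : L ⧸ (T : Subgroup L)) := rfl
    rw [h1, hf, hf, mul_smul]
  have hmk : ∀ l : L, (QuotientGroup.mk (l • c) : M ⧸ N) = QuotientGroup.mk c := by
    intro l
    rw [QuotientGroup.eq]
    have h1 := htriv l c
    have h2 : (l • c)⁻¹ * c = ((l • c) * c⁻¹)⁻¹ := by rw [mul_inv_rev, inv_inv, mul_comm]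
    rw [h2]
    exact N.inv_mem h1
  have hνq : (QuotientGroup.mk (∏ q, f q) : M ⧸ N) =
      (QuotientGroup.mk c : M ⧸ N) ^ Fintype.card (L ⧸ (T : Subgroup L)) := by
    have h1 : (QuotientGroup.mk (∏ q, f q) : M ⧸ N) = ∏ q, (QuotientGroup.mk (f q) : M ⧸ N) :=
      map_prod (QuotientGroup.mk' N) f Finset.univ
    rw [h1]
    have h2 : ∀ q : L ⧸ (T : Subgroup L), (QuotientGroup.mk (f q) : M ⧸ N) = QuotientGroup.mk c := by
      intro q
      obtain ⟨l, rfl⟩ := QuotientGroup.mk_surjective q
      rw [hf]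
      exact hmk l
    rw [Finset.prod_congr rfl (fun q _ => h2 q), Finset.prod_const, Finset.card_univ]
  have hk : ¬ p ∣ Fintype.card (L ⧸ (T : Subgroup L)) := by
    have h1 := Sylow.not_dvd_index T
    rwa [Subgroup.index_eq_card, Nat.card_eq_fintype_card] at h1
  obtain ⟨e, he⟩ := hquot (QuotientGroup.mk c : M ⧸ N)
  have hord : orderOf (QuotientGroup.mk c : M ⧸ N) ∣ p ^ e := orderOf_dvd_of_pow_eq_one he
  have hp : p.Prime := Fact.out
  have hcop : (Fintype.card (L ⧸ (T : Subgroup L))).Coprime (orderOf (QuotientGroup.mk c : M ⧸ N)) := by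
    refine Nat.Coprime.coprime_dvd_right hord ?_
    exact Nat.Coprime.pow_right e ((Nat.Prime.coprime_iff_not_dvd hp).mpr hk).symm
  obtain ⟨j, hj⟩ := exists_pow_eq_self_of_coprime hcop
  have hmem : ((∏ q, f q) ^ j)⁻¹ * c ∈ N := by
    rw [← QuotientGroup.eq]
    rw [QuotientGroup.mk_pow, hνq, hj]
  refine ⟨n * (((∏ q, f q) ^ j)⁻¹ * c), N.mul_mem hn hmem, (∏ q, f q) ^ j, ?_, ?_⟩
  · intro l
    rw [smul_pow', hν]
  · rw [mul_assoc, mul_assoc, mul_comm c, inv_mul_cancel_left]

end Cfsg.Agent.S1940
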