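import Cfsg.Statements.S1941
-- import your own Cfsg.Agent.* helpers here
import Cfsg.Agent.Helper9.PConstr

set_option autoImplicit false
open Cfsg

namespace Cfsg.Agent.S1941

open Subgroup in
private theorem key {G : Type*} [Group G] [Finite G] {p : ℕ} [Fact p.Prime]
    (T : Sylow p G) (α : MulAut G) (C : Subgroup G) [hCn : C.Normal]
    (hCab : ∀ a ∈ C, ∀ b ∈ C, a * b = b * a) (hCT : C ≤ (T : Subgroup G))
    (hfixT : ∀ x ∈ (T : Subgroup G), α x = x)
    (hd : ∀ g : G, α g * g⁻¹ ∈ C) : ∃ g : G, ∀ x : G, α x = g * x * g⁻¹ := by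
  classical
  letI : CommGroup ↥C :=
    { (inferInstance : Group ↥C) with
      mul_comm := fun a b => Subtype.ext (hCab a.1 a.2 b.1 b.2) }
  let _ : Fintype (G ⧸ (T : Subgroup G)) := Fintype.ofFinite _
  let d : G → ↥C := fun g => ⟨α g * g⁻¹, hd g⟩
  have hdT : ∀ t ∈ (T : Subgroup G), d t = 1 := by
    intro t ht
    apply Subtype.ext
    show α t * t⁻¹ = 1
    rw [hfixT t ht, mul_inv_cancel]
  have hdmul : ∀ h g : G, d (h * g) = d h * MulAut.conjNormal h (d g) := by
    intro h g
    apply Subtype.ext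
    show α (h * g) * (h * g)⁻¹ = α h * h⁻¹ * (h * (α g * g⁻¹) * h⁻¹)
    rw [map_mul]
    group
  let s : ↥C := ∏ q : G ⧸ (T : Subgroup G), d (Quotient.out q)
  set n := (T : Subgroup G).index with hn
  have hconj : ∀ h : G, MulAut.conjNormal h s = (d h)⁻¹ ^ n * s := by
    intro h
    show MulAut.conjNormal h (∏ q : G ⧸ (T : Subgroup G), d (Quotient.out q)) = _
    rw [map_prod]
    have h1 : ∀ q : G ⧸ (T : Subgroup G), MulAut.conjNormal h (d (Quotient.out q)) =
        (d h)⁻¹ * d (Quotient.out (h • q)) := by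
      intro q
      have e1 : h • q = QuotientGroup.mk (h * Quotient.out q) := by
        conv_lhs => rw [← QuotientGroup.out_eq' q]
        rfl
      obtain ⟨t, ht⟩ := QuotientGroup.mk_out_eq_mul (T : Subgroup G) (h * Quotient.out q)
      rw [e1, ht, hdmul (h * Quotient.out q) t.1, hdT t.1 t.2, map_one, mul_one, hdmul]
      simp
    rw [Finset.prod_congr rfl (fun q _ => h1 q), Finset.prod_mul_distrib, Finset.prod_const,
      Finset.card_univ, ← Nat.card_eq_fintype_card]
    congr 1
    exact Equiv.prod_comp (MulAction.toPerm h)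
      (fun q : G ⧸ (T : Subgroup G) => d (Quotient.out q))
  have hCp : IsPGroup p ↥C := T.2.to_le hCT
  have hco : (Nat.card ↥C).Coprime n := by
    obtain ⟨k, hk⟩ := IsPGroup.iff_card.mp hCp
    rw [hk]
    apply Nat.Coprime.pow_left
    exact (Nat.Prime.coprime_iff_not_dvd Fact.out).mpr T.not_dvd_index
  have hpow : ∀ x : ↥C, (x ^ n) ^ ((Nat.card ↥C).gcdB n) = x := by
    intro x
    have := (powCoprime hco).symm_apply_apply x
    rwa [powCoprime_symm_apply, powCoprime_apply] at this
  set m := (Nat.card ↥C).gcdB n with hm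
  refine ⟨((s ^ m : ↥C) : G), fun x => ?_⟩
  have h2 : d x ^ n = s * (MulAut.conjNormal x s)⁻¹ := by
    rw [hconj x, inv_pow]
    simp
  have h3 : d x = s ^ m * (MulAut.conjNormal x (s ^ m))⁻¹ := by
    rw [map_zpow, ← inv_zpow, ← mul_zpow, ← h2, hpow]
  have h4 := congrArg Subtype.val h3
  have h5 : α x * x⁻¹ = ((s ^ m : ↥C) : G) * (x * ((s ^ m : ↥C) : G) * x⁻¹)⁻¹ := h4
  calc α x = α x * x⁻¹ * x := by group
    _ = ((s ^ m : ↥C) : G) * (x * ((s ^ m : ↥C) : G) * x⁻¹)⁻¹ * x := by rw [h5]
    _ = ((s ^ m : ↥C) : G) * x * ((s ^ m : ↥C) : G)⁻¹ := by group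

/-- Let G be a finite group with no nontrivial normal subgroup of order prime to p, T a Sylow p-subgroup of G and E(G) the layer of G (the subgroup generated by its components). An automorphism of G of p-power order that fixes T and E(G) elementwise is inner. -/
theorem result {G : Type*} [Group G] [Finite G] {p : ℕ} [Fact p.Prime] (hcore : Cfsg.pPrimeCore p G = ⊥)
    (T : Sylow p G) (α : MulAut G) (hα : ∃ j : ℕ, orderOf α = p ^ j) (hfixT : ∀ x ∈ (T : Subgroup G), α x = x)
    (hfixE : ∀ x ∈ Cfsg.layer G, α x = x) : ∃ g : G, ∀ x : G, α x = g * x * g⁻¹ := by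
  classical
  open Subgroup Cfsg.Agent.Helper9 in (
  have hFn : (Cfsg.generalizedFittingSubgroup G).Normal := genFitting_normal
  have hpc : Cfsg.pCore p G ≤ (T : Subgroup G) := by
    have hn : (Cfsg.pCore p G).Normal := Subgroup.sSup_normal _ (fun _ hH => hH.1)
    exact (pCore_isPGroup p).le_sylow_of_normal T
  have hfitT : Cfsg.fittingSubgroup G ≤ (T : Subgroup G) :=
    (fitting_le_pCore_of_pPrimeCore_eq_bot p hcore).trans hpc
  -- fixed points of α
  have hfixF : ∀ x ∈ Cfsg.generalizedFittingSubgroup G, α x = x := by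
    have h1 : Cfsg.generalizedFittingSubgroup G ≤
        MonoidHom.eqLocus (α : G →* G) (MonoidHom.id G) := by
      apply sup_le
      · intro x hx
        exact hfixE x hx
      · intro x hx
        exact hfixT x (hfitT hx)
    intro x hx
    exact h1 hx
  have hCF : centralizer (Cfsg.generalizedFittingSubgroup G : Set G) ≤
      Cfsg.generalizedFittingSubgroup G := centralizer_genFitting_le
  have hCn : (centralizer (Cfsg.generalizedFittingSubgroup G : Set G)).Normal := inferInstance
  have hCab : ∀ a ∈ centralizer (Cfsg.generalizedFittingSubgroup G : Set G),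
      ∀ b ∈ centralizer (Cfsg.generalizedFittingSubgroup G : Set G), a * b = b * a := by
    intro a ha b hb
    exact mem_centralizer_iff.mp hb a (hCF ha)
  have hCT : centralizer (Cfsg.generalizedFittingSubgroup G : Set G) ≤ (T : Subgroup G) := by
    refine le_trans ?_ hfitT
    apply le_fitting hCn
    have : IsMulCommutative ↥(centralizer (Cfsg.generalizedFittingSubgroup G : Set G)) :=
      ⟨⟨fun a b => Subtype.ext (hCab a.1 a.2 b.1 b.2)⟩⟩
    let _ : CommGroup ↥(centralizer (Cfsg.generalizedFittingSubgroup G : Set G)) :=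
      { (inferInstance : Group ↥(centralizer (Cfsg.generalizedFittingSubgroup G : Set G))) with
        mul_comm := fun a b => Subtype.ext (hCab a.1 a.2 b.1 b.2) }
    exact CommGroup.isNilpotent
  have hd : ∀ g : G, α g * g⁻¹ ∈ centralizer (Cfsg.generalizedFittingSubgroup G : Set G) := by
    intro g
    rw [mem_centralizer_iff]
    intro x hx
    have hy : g⁻¹ * x * g ∈ Cfsg.generalizedFittingSubgroup G := by
      have := hFn.conj_mem x hx g⁻¹
      simpa using this
    have h1 := hfixF _ hy
    have h2 := hfixF x hx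
    rw [map_mul, map_mul, map_inv, h2] at h1
    -- h1 : (α g)⁻¹ * x * α g = g⁻¹ * x * g
    calc x * (α g * g⁻¹) = α g * ((α g)⁻¹ * x * α g) * g⁻¹ := by group
      _ = α g * (g⁻¹ * x * g) * g⁻¹ := by rw [h1]
      _ = α g * g⁻¹ * x := by group
  exact key T α _ hCab hCT hfixT hd)

end Cfsg.Agent.S1941
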