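import Cfsg.Statements.S1946
import Cfsg.Agent.Lead.MinimalPair

set_option autoImplicit false
open Cfsg

namespace Cfsg.Agent.S1946

/-- Let P be a Sylow p-subgroup of the finite group G. Then G has a normal p-complement if and only if P controls the fusion of its elements of order dividing p (dividing 4 when p = 2): whenever such an element a of P has a G-conjugate g a g⁻¹ in P, that conjugate is already x a x⁻¹ for some x in P. -/
theorem result {G : Type*} [Group G] [Finite G] {p : ℕ} [Fact p.Prime] (P : Sylow p G) :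
    Cfsg.HasNormalPComplement p G ↔
      ∀ a ∈ (P : Subgroup G), (a ^ p = 1 ∨ (p = 2 ∧ a ^ 4 = 1)) → ∀ g : G, g * a * g⁻¹ ∈ (P : Subgroup G) →
        ∃ x ∈ (P : Subgroup G), g * a * g⁻¹ = x * a * x⁻¹ := by
  constructor
  · intro hnpc
    obtain ⟨N, hN, hc⟩ := (Cfsg.Agent.Lead.hasNormalPComplement_iff P).mp hnpc
    intro a ha _ g hg
    obtain ⟨⟨⟨x, hx⟩, ⟨n, hn⟩⟩, hxn⟩ := hc.symm.2 g
    have hxn' : x * n = g := hxn
    have h1 : n * a * n⁻¹ ∈ (P : Subgroup G) := by
      have : n * a * n⁻¹ = x⁻¹ * (g * a * g⁻¹) * x := by rw [← hxn']; group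
      rw [this]
      exact mul_mem (mul_mem (inv_mem hx) hg) hx
    have h2 : n * a * n⁻¹ * a⁻¹ ∈ (P : Subgroup G) := mul_mem h1 (inv_mem ha)
    have h3 : n * a * n⁻¹ * a⁻¹ ∈ N := by
      have : n * a * n⁻¹ * a⁻¹ = n * (a * n⁻¹ * a⁻¹) := by group
      rw [this]
      exact mul_mem hn (hN.conj_mem _ (inv_mem hn) a)
    have h4 : n * a * n⁻¹ * a⁻¹ = 1 := Subgroup.disjoint_def.mp hc.disjoint h3 h2
    have h5 : n * a * n⁻¹ = a := by
      have := congrArg (· * a) h4
      simpa using this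
    refine ⟨x, hx, ?_⟩
    rw [← hxn']
    calc x * n * a * (x * n)⁻¹ = x * (n * a * n⁻¹) * x⁻¹ := by group
      _ = x * a * x⁻¹ := by rw [h5]
  · intro h
    by_contra hnpc
    have hF : ¬ Cfsg.Agent.Lead.FrobHyp p G := fun hF => hnpc (Cfsg.Agent.Lead.frobHyp_iff.mp hF)
    obtain ⟨X, g, hXP, hgN, hcop, hgC, hsmall⟩ := Cfsg.Agent.Lead.exists_small_exponent_pair P hF
    apply hgC
    apply Cfsg.Agent.Lead.centralizes_of_local_fusion P X hXP g hgN hcop
    intro x hx
    have hgx : g * x * g⁻¹ ∈ X := (Subgroup.mem_normalizer_iff.mp hgN x).mp hx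
    obtain ⟨u, hu, he⟩ := h x (hXP hx) (hsmall x hx) g (hXP hgx)
    exact ⟨u, hu, he.symm⟩

end Cfsg.Agent.S1946
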