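import Cfsg.Statements.S1947
import Cfsg.Agent.Lead.MinimalPair

set_option autoImplicit false
open Cfsg

namespace Cfsg.Agent.S1947

open scoped commutatorElement in


/-- Let G be a finite group and p a prime. If every element of G of order dividing p (dividing 4 when p = 2) lies in some fixed term Z_n(G) of the upper central series, then G has a normal p-complement. -/
theorem result {G : Type*} [Group G] [Finite G] {p : ℕ} [Fact p.Prime] (n : ℕ)
    (h : ∀ a : G, (a ^ p = 1 ∨ (p = 2 ∧ a ^ 4 = 1)) → a ∈ Subgroup.upperCentralSeries G n) : Cfsg.HasNormalPComplement p G := by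
  by_contra hnpc
  have hF : ¬ Cfsg.Agent.Lead.FrobHyp p G := fun hF => hnpc (Cfsg.Agent.Lead.frobHyp_iff.mp hF)
  obtain ⟨P⟩ : Nonempty (Sylow p G) := inferInstance
  obtain ⟨X, g, hXP, hgN, hcop, hgC, hsmall⟩ := Cfsg.Agent.Lead.exists_small_exponent_pair P hF
  have hgX : ∀ x ∈ X, g * x * g⁻¹ ∈ X := fun x hx => (Subgroup.mem_normalizer_iff.mp hgN x).mp hx
  have key : ∀ k : ℕ, ∀ x ∈ X, x ∈ Subgroup.upperCentralSeries G k → g * x * g⁻¹ = x := by
    intro k
    induction k with
    | zero =>
      intro x _ hx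
      rw [Subgroup.upperCentralSeries_zero, Subgroup.mem_bot] at hx
      rw [hx]; group
    | succ k ih =>
      intro x hxX hx
      have hz : x⁻¹ * (g * x * g⁻¹) ∈ Subgroup.upperCentralSeries G k := by
        have hx' : x⁻¹ ∈ Subgroup.upperCentralSeries G (k + 1) := inv_mem hx
        have := (Subgroup.mem_upperCentralSeries_succ_iff).mp hx' g
        have e : x⁻¹ * (g * x * g⁻¹) = ⁅x⁻¹, g⁆ := by rw [commutatorElement_def]; group
        rw [e]; exact this
      have hzX : x⁻¹ * (g * x * g⁻¹) ∈ X := mul_mem (inv_mem hxX) (hgX x hxX)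
      have hzfix := ih _ hzX hz
      obtain ⟨e, he⟩ := P.2 ⟨_, hXP hzX⟩
      have hze : (x⁻¹ * (g * x * g⁻¹)) ^ p ^ e = 1 := by simpa using congrArg Subtype.val he
      exact Cfsg.Agent.Lead.conj_eq_of_stabilizes g x hcop e hze hzfix
  apply hgC
  rw [Subgroup.mem_centralizer_iff]
  intro x hx
  have hfix := key n x hx (h x (hsmall x hx))
  calc x * g = (g * x * g⁻¹) * g := by rw [hfix]
    _ = g * x := by group

end Cfsg.Agent.S1947
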