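import Cfsg.Statements.S1952
-- import your own Cfsg.Agent.* helpers here
import Cfsg.Agent.Helper12.WreathSyl

set_option autoImplicit false
open Cfsg

namespace Cfsg.Agent.S1952

/-- Let P be a finite p-group with a normal elementary abelian subgroup A of index p, and let x ∈ A and y ∈ P with y outside A. If the product of the p conjugates y^(-i) x y^i (i = 0, …, p−1) is not the identity, then the wreath product Z_p ≀ Z_p, realised as a Sylow p-subgroup of the symmetric group of degree p², is a homomorphic image of P. -/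
theorem result {P : Type*} [Group P] [Finite P] {p : ℕ} [Fact p.Prime] (hP : IsPGroup p P) (A : Subgroup P) [A.Normal]
    (hA : Cfsg.IsElementaryAbelian p A) (hidx : A.index = p) (x y : P) (hx : x ∈ A) (hy : y ∉ A)
    (hprod : ((List.range p).map (fun i => (y ^ i)⁻¹ * x * y ^ i)).prod ≠ 1) :
    ∃ (Q : Sylow p (Equiv.Perm (Fin (p ^ 2)))) (f : P →* ↥(Q : Subgroup (Equiv.Perm (Fin (p ^ 2))))), Function.Surjective f := by
  open Cfsg.Agent.Helper12 in (
  classical
  have hp : p.Prime := Fact.out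
  have hab : ∀ a ∈ A, ∀ b ∈ A, a * b = b * a := by
    intro a ha b hb
    have h := hA.1.is_comm.comm (⟨a, ha⟩ : ↥A) ⟨b, hb⟩
    exact congrArg Subtype.val h
  have hyp : y ^ p ∈ A := by
    have h := Subgroup.pow_index_mem A y
    rwa [hidx] at h
  obtain ⟨H, hHA, hHrel, hHK⟩ := wreath_core A hab hA.2 y hyp x hx hprod
  have hHindex : H.index = p ^ 2 := by
    rw [← Subgroup.relIndex_mul_index hHA, hidx, hHrel]; ring
  let e : (P ⧸ H) ≃ Fin (p ^ 2) := Finite.equivFinOfCardEq hHindex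
  let φ : P →* Equiv.Perm (P ⧸ H) := MulAction.toPermHom P (P ⧸ H)
  let ψ : P →* Equiv.Perm (Fin (p ^ 2)) := (e.permCongrHom).toMonoidHom.comp φ
  have hker : ψ.ker ≤ H := by
    intro k hk
    have h1 : e.permCongrHom (φ k) = 1 := MonoidHom.mem_ker.mp hk
    have h2 : φ k = 1 := (MulEquiv.map_eq_one_iff _).mp h1
    have h3 : φ k ((1 : P) : P ⧸ H) = ((1 : P) : P ⧸ H) := by rw [h2]; rfl
    have h4 : φ k ((1 : P) : P ⧸ H) = ((k * 1 : P) : P ⧸ H) := rfl
    rw [h4, mul_one] at h3
    have h5 := QuotientGroup.eq.mp h3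
    rw [mul_one] at h5
    exact (inv_mem_iff (H := H)).mp h5
  have hrp : IsPGroup p ψ.range := hP.of_surjective ψ.rangeRestrict ψ.rangeRestrict_surjective
  obtain ⟨Q, hQ⟩ := hrp.exists_le_sylow
  have hcardQ : Nat.card ↥(Q : Subgroup (Equiv.Perm (Fin (p ^ 2)))) = p ^ (p + 1) := by
    have h0 : Nat.card ↥(Q : Subgroup (Equiv.Perm (Fin (p ^ 2)))) =
        p ^ (Nat.card (Equiv.Perm (Fin (p ^ 2)))).factorization p := Sylow.card_eq_multiplicity Q
    rw [h0, Nat.card_perm, Nat.card_eq_fintype_card, Fintype.card_fin]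
    congr 1
    have hlog : Nat.log p (p ^ 2) < 3 := by
      rw [Nat.log_pow hp.one_lt]; norm_num
    rw [Nat.factorization_factorial hp hlog]
    have hIco : Finset.Ico 1 3 = {1, 2} := by decide
    have e1 : p ^ 2 / p ^ 1 = p := by rw [pow_one, pow_two, Nat.mul_div_cancel _ hp.pos]
    have e2 : p ^ 2 / p ^ 2 = 1 := Nat.div_self (pow_pos hp.pos 2)
    rw [hIco, Finset.sum_pair (by norm_num), e1, e2]
  have hbound : p ^ (p + 1) ≤ Nat.card ψ.range := by
    have h1 := hHK ψ.ker (MonoidHom.normal_ker ψ) hker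
    have h2 := Subgroup.card_mul_index ψ.ker
    rw [Subgroup.index_ker] at h2
    have h3 := Subgroup.card_mul_index A
    rw [hidx] at h3
    have hkpos : 0 < Nat.card ψ.ker := Nat.card_pos
    have h4 : Nat.card ψ.ker * p ^ (p + 1) ≤ Nat.card ψ.ker * Nat.card ψ.range := by
      rw [h2, ← h3]
      calc Nat.card ψ.ker * p ^ (p + 1) = p ^ p * Nat.card ψ.ker * p := by ring
        _ ≤ Nat.card A * p := Nat.mul_le_mul_right _ h1
    exact Nat.le_of_mul_le_mul_left h4 hkpos
  have hrange : ψ.range = Q := Subgroup.eq_of_le_of_card_ge hQ (by rw [hcardQ]; exact hbound)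
  refine ⟨Q, ψ.codRestrict (Q : Subgroup _) (fun g => hQ ⟨g, rfl⟩), ?_⟩
  rintro ⟨q, hq⟩
  have hq' : q ∈ ψ.range := by rw [hrange]; exact hq
  obtain ⟨g, rfl⟩ := hq'
  exact ⟨g, Subtype.ext rfl⟩)

end Cfsg.Agent.S1952
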