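import Cfsg.Statements.S1954
-- import your own Cfsg.Agent.* helpers here
import Cfsg.Agent.Helper12.NormCtl
import Cfsg.Agent.Helper12.Conj

set_option autoImplicit false
open Cfsg

namespace Cfsg.Agent.S1954

/-- Let N be a normal subgroup of the finite group G, P a Sylow p-subgroup of G, and V a subgroup of P ∩ N normal in P ∩ N such that N_N(V) controls strong fusion in P ∩ N with respect to N (whenever a subgroup A of P ∩ N has n A n⁻¹ ≤ P ∩ N for some n in N, then n = h c with h in N_N(V) and c in C_N(A)). Let W be the subgroup generated by the conjugates of V under N_G(P ∩ N). Then N_G(W) controls strong fusion in P with respect to G. -/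
theorem result {G : Type*} [Group G] [Finite G] {p : ℕ} [Fact p.Prime] (N : Subgroup G) [N.Normal] (P : Sylow p G) (V : Subgroup G)
    (hV : V ≤ (P : Subgroup G) ⊓ N) (hVn : ∀ x ∈ (P : Subgroup G) ⊓ N, V.map (MulAut.conj x).toMonoidHom = V)
    (hctrl : ∀ A : Subgroup G, A ≤ (P : Subgroup G) ⊓ N → ∀ n ∈ N, A.map (MulAut.conj n).toMonoidHom ≤ (P : Subgroup G) ⊓ N →
      ∃ h ∈ N ⊓ Subgroup.normalizer (V : Set G), ∃ c ∈ N ⊓ Subgroup.centralizer (A : Set G), n = h * c)
    (W : Subgroup G) (hW : W = Subgroup.closure (⋃ x ∈ Subgroup.normalizer (((P : Subgroup G) ⊓ N : Subgroup G) : Set G),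
      ((V.map (MulAut.conj x).toMonoidHom : Subgroup G) : Set G))) :
    ∀ A : Subgroup G, A ≤ (P : Subgroup G) → ∀ g : G, A.map (MulAut.conj g).toMonoidHom ≤ (P : Subgroup G) →
        ∃ h ∈ Subgroup.normalizer (W : Set G), ∃ c ∈ Subgroup.centralizer (A : Set G), g = h * c := by
  open Cfsg.Agent.Helper12 in (
  classical
  have hN : N.Normal := inferInstance
  have hPp : IsPGroup p (P : Subgroup G) := P.isPGroup'
  have hctl : Ctl ((P : Subgroup G) ⊓ N) N V := by
    intro A hA n hn hnA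
    obtain ⟨h, hh, c, hc, hnhc⟩ := hctrl A hA n hn ((map_conj_le_iff A _ n).2 hnA)
    exact ⟨h, (Subgroup.mem_inf.1 hh).1, (Subgroup.mem_inf.1 hh).2, c, (Subgroup.mem_inf.1 hc).1,
      (Subgroup.mem_inf.1 hc).2, hnhc⟩
  obtain ⟨F, hFdef⟩ : ∃ F : ↥(Subgroup.normalizer ((((P : Subgroup G) ⊓ N : Subgroup G)) : Set G)) →
      Subgroup G, ∀ x, F x = V.map (MulAut.conj (x : G)).toMonoidHom :=
    ⟨fun x => V.map (MulAut.conj (x : G)).toMonoidHom, fun _ => rfl⟩
  have hFQ : ∀ x, F x ≤ (P : Subgroup G) ⊓ N := by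
    intro x
    rw [hFdef, map_conj_le_iff]
    intro v hv
    exact (Subgroup.mem_normalizer_iff.1 x.2 v).1 (hV hv)
  have hFctl : ∀ x, Ctl ((P : Subgroup G) ⊓ N) N (F x) := by
    intro x
    rw [hFdef, map_conj_eq_cjs]
    exact hctl.conj (inv_mem x.2)
  have hFW : ∀ x, F x ≤ W := by
    intro x g hg
    rw [hFdef] at hg
    rw [hW]
    exact Subgroup.subset_closure (Set.mem_iUnion₂.2 ⟨(x : G), x.2, hg⟩)
  have hWle : ∀ S : Subgroup G, (∀ x, F x ≤ S) → W ≤ S := by
    intro S hS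
    rw [hW, Subgroup.closure_le]
    intro g hg
    obtain ⟨x, hx, hgx⟩ := Set.mem_iUnion₂.1 hg
    have := hS ⟨x, hx⟩
    rw [hFdef] at this
    exact this hgx
  have hWQ : W ≤ (P : Subgroup G) ⊓ N := hWle _ hFQ
  have hconjW : ∀ x ∈ Subgroup.normalizer ((((P : Subgroup G) ⊓ N : Subgroup G)) : Set G),
      ∀ w ∈ W, x * w * x⁻¹ ∈ W := by
    intro x hx
    have : W ≤ cjs x W := by
      apply hWle
      intro y g hg
      rw [hFdef] at hg
      obtain ⟨v, hv, rfl⟩ := hg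
      rw [mem_cjs_iff]
      have h1 : x * (y : G) * v * (x * (y : G))⁻¹ ∈ F ⟨x * y, mul_mem hx y.2⟩ := by
        rw [hFdef]; exact conj_mem_map_conj V _ hv
      have e : x * (MulAut.conj (y : G)).toMonoidHom v * x⁻¹ =
          x * (y : G) * v * (x * (y : G))⁻¹ := by
        show x * ((y : G) * v * (y : G)⁻¹) * x⁻¹ = _
        group
      rw [e]
      exact hFW _ h1
    intro w hw
    exact mem_cjs_iff.1 (this hw)
  have hNQW : Subgroup.normalizer ((((P : Subgroup G) ⊓ N : Subgroup G)) : Set G) ≤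
      Subgroup.normalizer (W : Set G) := by
    intro x hx
    refine mem_normalizer_of_conj_mem_both (hconjW x hx) (fun w hw => ?_)
    have := hconjW x⁻¹ (inv_mem hx) w hw
    rwa [inv_inv] at this
  have hallW : ∀ h : G, (∀ x, h ∈ Subgroup.normalizer ((F x : Subgroup G) : Set G)) →
      h ∈ Subgroup.normalizer (W : Set G) := by
    have key : ∀ h : G, (∀ x, h ∈ Subgroup.normalizer ((F x : Subgroup G) : Set G)) →
        ∀ w ∈ W, h * w * h⁻¹ ∈ W := by
      intro h hh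
      have : W ≤ cjs h W := by
        apply hWle
        intro y g hg
        rw [mem_cjs_iff]
        exact hFW y ((Subgroup.mem_normalizer_iff.1 (hh y) g).1 hg)
      intro w hw
      exact mem_cjs_iff.1 (this hw)
    intro h hh
    refine mem_normalizer_of_conj_mem_both (key h hh) (fun w hw => ?_)
    have := key h⁻¹ (fun x => inv_mem (hh x)) w hw
    rwa [inv_inv] at this
  have hPQ : (P : Subgroup G) ≤
      Subgroup.normalizer ((((P : Subgroup G) ⊓ N : Subgroup G)) : Set G) := by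
    intro x hx
    refine mem_normalizer_of_conj_mem_both (fun q hq => ?_) (fun q hq => ?_)
    · exact Subgroup.mem_inf.2 ⟨mul_mem (mul_mem hx (Subgroup.mem_inf.1 hq).1) (inv_mem hx),
        hN.conj_mem q (Subgroup.mem_inf.1 hq).2 x⟩
    · refine Subgroup.mem_inf.2 ⟨mul_mem (mul_mem (inv_mem hx) (Subgroup.mem_inf.1 hq).1) hx, ?_⟩
      have := hN.conj_mem q (Subgroup.mem_inf.1 hq).2 x⁻¹
      rwa [inv_inv] at this
  have hQidx : ¬ p ∣ ((P : Subgroup G) ⊓ N).relIndex N := sylow_inf_normal_relIndex P N hN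
  have hD4 : ∀ A : Subgroup G, A ≤ (P : Subgroup G) ⊓ N → ∀ g : G,
      (∀ a ∈ A, g * a * g⁻¹ ∈ (P : Subgroup G) ⊓ N) →
      ∃ m ∈ Subgroup.normalizer (W : Set G), ∃ c ∈ Subgroup.centralizer (A : Set G),
        g = m * c := by
    intro A hA g hgA
    obtain ⟨l, hl, hgl⟩ := frattini_relIndex hN inf_le_right (hPp.to_le inf_le_left) hQidx g
    have hlA : ∀ a ∈ A, l⁻¹ * a * l⁻¹⁻¹ ∈ (P : Subgroup G) ⊓ N := by
      intro a ha
      have h1 := (Subgroup.mem_normalizer_iff.1 (inv_mem hgl) _).1 (hgA a ha)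
      have e : (g * l)⁻¹ * (g * a * g⁻¹) * (g * l)⁻¹⁻¹ = l⁻¹ * a * l⁻¹⁻¹ := by group
      rwa [e] at h1
    haveI : Fintype ↥(Subgroup.normalizer ((((P : Subgroup G) ⊓ N : Subgroup G)) : Set G)) :=
      Fintype.ofFinite _
    obtain ⟨h, hh, hnorm, c, hc, hcA, hlhc⟩ :=
      Ctl.all F hFQ hFctl Finset.univ A hA l⁻¹ (inv_mem hl) hlA
    refine ⟨g * l * h, mul_mem (hNQW hgl) (hallW h (fun x => hnorm x (Finset.mem_univ x))),
      c, hcA, ?_⟩
    calc g = g * l * l⁻¹ := by group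
      _ = g * l * (h * c) := by rw [hlhc]
      _ = g * l * h * c := by group
  have main : ∀ (A : Set G) (g : G), A ⊆ (P : Subgroup G) → cj g A ⊆ (P : Subgroup G) →
      NRel W A g := by
    apply alperin_induction_set P (NRel W) ?_ ?_ ?_ Set.univ
    · intro T hTS
      obtain ⟨x, hx1, hx2⟩ := exists_fully_normalized P (hPp.to_le hTS)
      exact ⟨cjs x T, Set.mem_univ _, hx1, ⟨x, rfl⟩, hx2⟩
    · intro U _ hUP hidx IH h hh
      exact base_step P hWQ (hPQ.trans hNQW) hD4 hUP hidx IH hh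
    · rintro A B g ⟨c, hc, h, hh, hg⟩ hBA
      exact ⟨c, Subgroup.centralizer_le hBA hc, h, hh, hg⟩
    · rintro A g g' ⟨c, hc, h, hh, rfl⟩ ⟨c', hc', h', hh', rfl⟩
      have hcj : cj (c * h) A = cj h A := by rw [cj_mul, cj_eq_of_mem_centralizer hc]
      rw [hcj] at hc'
      refine ⟨c * (h * c' * h⁻¹), mul_mem hc ?_, h * h', mul_mem hh hh', by group⟩
      rw [Subgroup.mem_centralizer_iff]
      intro a ha
      have h1 := (Subgroup.mem_centralizer_iff.1 hc') _ (conj_mem_cj (x := h) ha)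
      calc a * (h * c' * h⁻¹) = h * (h⁻¹ * a * h * c') * h⁻¹ := by group
        _ = h * (c' * (h⁻¹ * a * h)) * h⁻¹ := by rw [h1]
        _ = h * c' * h⁻¹ * a := by group
    · rintro A g ⟨c, hc, h, hh, rfl⟩
      have hcj : cj (c * h) A = cj h A := by rw [cj_mul, cj_eq_of_mem_centralizer hc]
      rw [hcj]
      refine ⟨h⁻¹ * c⁻¹ * h, ?_, h⁻¹, inv_mem hh, by group⟩
      rw [Subgroup.mem_centralizer_iff]
      rintro _ ⟨a, ha, rfl⟩
      have h1 := (Subgroup.mem_centralizer_iff.1 (inv_mem hc)) a ha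
      calc h⁻¹ * a * h * (h⁻¹ * c⁻¹ * h) = h⁻¹ * (a * c⁻¹) * h := by group
        _ = h⁻¹ * (c⁻¹ * a) * h := by rw [h1]
        _ = h⁻¹ * c⁻¹ * h * (h⁻¹ * a * h) := by group
  intro A hA g hg
  have hcj : cj g⁻¹ (A : Set G) ⊆ (P : Subgroup G) := by
    intro b hb
    rw [mem_cj_iff, inv_inv] at hb
    have := (map_conj_le_iff A _ g).1 hg _ hb
    have e : g * (g⁻¹ * b * g) * g⁻¹ = b := by group
    rwa [e] at this
  obtain ⟨c, hc, h, hh, hgch⟩ := main (A : Set G) g⁻¹ hA hcj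
  refine ⟨h⁻¹, inv_mem hh, c⁻¹, inv_mem hc, ?_⟩
  rw [← mul_inv_rev, ← hgch, inv_inv]
  )

end Cfsg.Agent.S1954
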