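import Cfsg.Statements.S1956
-- import your own Cfsg.Agent.* helpers here
import Cfsg.Agent.Helper12.Syl

set_option autoImplicit false
open Cfsg

namespace Cfsg.Agent.S1956

/-- Let P be a Sylow p-subgroup of the finite group G such that every element of P of order dividing p (dividing 4 when p = 2) is central in P. Then the fusion of these elements is controlled by N_G(P): if such an element a of P has g a g⁻¹ in P, then g = n c with n normalizing P and c commuting with a. -/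
theorem result {G : Type*} [Group G] [Finite G] {p : ℕ} [Fact p.Prime] (P : Sylow p G)
    (hcen : ∀ a ∈ (P : Subgroup G), (a ^ p = 1 ∨ (p = 2 ∧ a ^ 4 = 1)) → ∀ y ∈ (P : Subgroup G), a * y = y * a) :
    ∀ a ∈ (P : Subgroup G), (a ^ p = 1 ∨ (p = 2 ∧ a ^ 4 = 1)) → ∀ g : G, g * a * g⁻¹ ∈ (P : Subgroup G) →
      ∃ n ∈ Subgroup.normalizer ((P : Subgroup G) : Set G), ∃ c : G, c * a = a * c ∧ g = n * c := by
  classical
  intro a haP ha g hg
  set b : G := g * a * g⁻¹ with hb
  have hb' : b ^ p = 1 ∨ (p = 2 ∧ b ^ 4 = 1) := by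
    rcases ha with h | ⟨h2, h4⟩
    · left; rw [hb, conj_pow, h]; group
    · right; refine ⟨h2, ?_⟩; rw [hb, conj_pow, h4]; group
  -- P ≤ C(b)
  have hPH : (P : Subgroup G) ≤ Subgroup.centralizer {b} := by
    intro x hx
    rw [Subgroup.mem_centralizer_iff]
    intro y hy
    rw [Set.mem_singleton_iff] at hy
    rw [hy]
    exact hcen b hg hb' x hx
  -- g • P ≤ C(b)
  have hQH : ((g • P : Sylow p G) : Subgroup G) ≤ Subgroup.centralizer {b} := by
    intro x hx
    have hx' : g⁻¹ * x * g ∈ P := (Cfsg.Agent.Helper12.mem_sylow_smul_iff P g x).1 hx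
    rw [Subgroup.mem_centralizer_iff]
    intro y hy
    rw [Set.mem_singleton_iff] at hy
    rw [hy, hb]
    have h1 := hcen a haP ha _ hx'
    calc g * a * g⁻¹ * x = g * (a * (g⁻¹ * x * g)) * g⁻¹ := by group
      _ = g * ((g⁻¹ * x * g) * a) * g⁻¹ := by rw [h1]
      _ = x * (g * a * g⁻¹) := by group
  obtain ⟨h, hhH, hh⟩ := Cfsg.Agent.Helper12.exists_conj_mem_sylow_of_le P hPH
    (g • P : Sylow p G).isPGroup' hQH
  have hle : (((h * g) • P : Sylow p G) : Subgroup G) ≤ (P : Subgroup G) := by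
    intro x hx
    have hx' : (h * g)⁻¹ * x * (h * g) ∈ P :=
      (Cfsg.Agent.Helper12.mem_sylow_smul_iff P (h * g) x).1 hx
    have h1 : h⁻¹ * x * h ∈ g • P := by
      rw [Cfsg.Agent.Helper12.mem_sylow_smul_iff]
      have e : g⁻¹ * (h⁻¹ * x * h) * g = (h * g)⁻¹ * x * (h * g) := by group
      rw [e]; exact hx'
    have h2 := hh _ h1
    have e : h * (h⁻¹ * x * h) * h⁻¹ = x := by group
    rw [e] at h2
    exact h2
  have heq : (h * g) • P = P := by
    apply Sylow.ext
    exact (((h * g) • P : Sylow p G).is_maximal' P.isPGroup' hle).symm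
  have hn : h * g ∈ Subgroup.normalizer ((P : Subgroup G) : Set G) :=
    Sylow.smul_eq_iff_mem_normalizer.1 heq
  refine ⟨h * g, hn, g⁻¹ * h⁻¹ * g, ?_, by group⟩
  have h7 : b * h = h * b := (Subgroup.mem_centralizer_iff.1 hhH) b (Set.mem_singleton b)
  have h8 : h⁻¹ * b = b * h⁻¹ := by
    calc h⁻¹ * b = h⁻¹ * (b * h) * h⁻¹ := by group
      _ = h⁻¹ * (h * b) * h⁻¹ := by rw [h7]
      _ = b * h⁻¹ := by group
  calc g⁻¹ * h⁻¹ * g * a = g⁻¹ * (h⁻¹ * (g * a * g⁻¹)) * g := by group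
    _ = g⁻¹ * ((g * a * g⁻¹) * h⁻¹) * g := by rw [← hb, h8]
    _ = a * (g⁻¹ * h⁻¹ * g) := by group

end Cfsg.Agent.S1956
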