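import Cfsg.Statements.S1987
-- import your own Cfsg.Agent.* helpers here
import Cfsg.Agent.Helper12.KStable

set_option autoImplicit false
universe u
open Cfsg

namespace Cfsg.Agent.S1987

/-- Let p be an odd prime and G a finite group every section of which is p-stable in the normalizer form (in each section, an element of the normalizer of a p-subgroup Q acting quadratically on Q maps into O_p of N(Q)/C(Q)). Then for every Sylow p-subgroup S of G the lower K-infinity subgroup of S controls strong fusion in G. -/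
theorem result {G : Type u} [Group G] [Finite G] {p : ℕ} [Fact p.Prime] (hp : p ≠ 2) (hst : ∀ (K R : Subgroup G) [hR : (R.subgroupOf K).Normal], Cfsg.IsNormalizerPStable p (↥K ⧸ R.subgroupOf K)) (S : Sylow p G) : Cfsg.ControlsStrongFusion p (Cfsg.inducedFunctor Cfsg.kInfLower (S : Subgroup G)) := by
  open Cfsg.Agent.Helper12 in
  (
  have hW : Cfsg.IsCharPFunctor.{u} p Cfsg.kInfLower := kInfLower_charP p
  have h𝓦 : ∀ W' ∈ ({Cfsg.kInfLower} : Set (∀ (Q : Type u) [Group Q], Subgroup Q)),
      Cfsg.IsCharPFunctor.{u} p W' := by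
    rintro _ rfl; exact hW
  have hnps := nps_sections hst
  have h1 : ∀ (K R : Subgroup G) [(R.subgroupOf K).Normal],
      Subgroup.centralizer ((Cfsg.pCore p (↥K ⧸ R.subgroupOf K) :
        Subgroup (↥K ⧸ R.subgroupOf K)) : Set (↥K ⧸ R.subgroupOf K)) ≤
        Cfsg.pCore p (↥K ⧸ R.subgroupOf K) →
        sfCtl p ({Cfsg.kInfLower} : Set (∀ (Q : Type u) [Group Q], Subgroup Q))
          (↥K ⧸ R.subgroupOf K) := by
    intro K R _ hcen T A g hA hgA
    refine famRel_step hA hgA ⟨Cfsg.kInfLower, rfl, rfl⟩ ?_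
    have := (kInf_normal_of_stable hnps (↥K ⧸ R.subgroupOf K)
      ⟨K, QuotientGroup.mk' _, QuotientGroup.mk'_surjective _⟩ hcen T).1
    rw [Subgroup.normalizer_eq_top_iff.mpr this]
    exact Subgroup.mem_top _
  have h2 := sfCtl_sections_of_hloc h𝓦 h1
  have h3 := h2 G (isSectionOf_self G)
  refine ⟨S, cf_le (isConjugacyFunctor_induced hW) S.2, fun A hA => ⟨hA, fun g hgA => ?_⟩⟩
  have hcj : cj g⁻¹ A ⊆ (S : Subgroup G) := by
    rw [cj_inv_eq]; exact hgA
  obtain ⟨-, -, g', hch, hag⟩ := h3 S A g⁻¹ hA hcj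
  have hfin : cj g' A ⊆ (S : Subgroup G) := by
    rw [cj_congr hag]; exact hcj
  have hg'N : g' ∈ Subgroup.normalizer
      ((Cfsg.inducedFunctor Cfsg.kInfLower (S : Subgroup G) : Subgroup G) : Set G) := by
    refine FChain.rel_of_chain_const (fun _ x => x ∈ Subgroup.normalizer
      ((Cfsg.inducedFunctor Cfsg.kInfLower (S : Subgroup G) : Subgroup G) : Set G))
      ?_ ?_ ?_ hch hfin
    · intro _ _; exact one_mem _
    · rintro B t x ⟨_, ⟨W', rfl, rfl⟩, hx⟩ _ _
      exact (Subgroup.mem_inf.1 hx).2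
    · intro _ x y hx hy; exact mul_mem hx hy
  refine ⟨g'⁻¹, inv_mem hg'N, fun a ha => ?_⟩
  have := hag a ha
  rw [inv_inv] at this ⊢
  exact this.symm
  )

end Cfsg.Agent.S1987
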