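import Cfsg.Statements.S1990
import Mathlib
import Cfsg.Agent.Helper1.PStab

set_option autoImplicit false
universe u
open Cfsg

namespace Cfsg.Agent.S1990

open Cfsg.Agent.Helper1 in
theorem endgame_iso {p : ℕ} [Fact p.Prime] (hp2 : p ≠ 2)
    (W : ∀ (Q : Type u) [Group Q], Subgroup Q) (hW : Cfsg.IsCharPFunctor.{u} p W)
    {Q G : Type u} [Group Q] [Group G] [Finite Q] [Finite G] (e : Q ≃* G)
    (hctlQ : (∀ (K' R' : Subgroup Q) [hR' : (R'.subgroupOf K').Normal],
        Cfsg.IsNormalizerPStable p (↥K' ⧸ R'.subgroupOf K')) →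
      ∀ T : Sylow p Q, Cfsg.ControlsStrongFusion p (Cfsg.inducedFunctor (G := Q) W (T : Subgroup Q)))
    (hstr : PStr p G) (P : Sylow p G) (hP : FunLoc p W G (P : Subgroup G)) :
    HasNormalPComplement p G := by
  have hstrQ : PStr p Q := pStr_of_surjective e.symm.toMonoidHom e.symm.surjective hstr
  have hstab : ∀ (K' R' : Subgroup Q) [hR' : (R'.subgroupOf K').Normal],
      Cfsg.IsNormalizerPStable p (↥K' ⧸ R'.subgroupOf K') := by
    intro K' R' _
    exact normalizerPStable_of_pStr hp2 (pStr_of_surjective (QuotientGroup.mk' _)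
      (QuotientGroup.mk'_surjective _) (pStr_subgroup K' hstrQ))
  obtain ⟨T', hT'⟩ : ∃ T' : Sylow p Q,
      (T' : Subgroup Q) = (P : Subgroup G).map e.symm.toMonoidHom :=
    ⟨Sylow.mapSurjective (f := e.symm.toMonoidHom) e.symm.surjective P,
      Sylow.coe_mapSurjective _ P⟩
  have h2 : (T' : Subgroup Q).map e.toMonoidHom = (P : Subgroup G) := by
    rw [hT', Subgroup.map_map]
    have h3 : e.toMonoidHom.comp e.symm.toMonoidHom = MonoidHom.id G := by
      ext x; simp
    rw [h3, Subgroup.map_id]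
  have hNQ : HasNormalPComplement p (Subgroup.normalizer
      ((Cfsg.inducedFunctor W (T' : Subgroup Q) : Subgroup Q) : Set Q)) :=
    (funLoc_npcLoc W hW).inj Q G e.toMonoidHom e.injective (T' : Subgroup Q) T'.isPGroup'
      (by rw [h2]; exact hP)
  have hnpcQ : HasNormalPComplement p Q :=
    npc_of_controlsStrongFusion W hW T' hNQ (hctlQ hstab T')
  exact npc_of_surjective e.toMonoidHom e.surjective hnpcQ

/-- Let p be an odd prime, G a finite group with Sylow p-subgroup S, and W an isomorphism-invariant p-group functor (W assigns to every group Q a subgroup W(Q), nontrivial whenever Q is a nontrivial finite p-group, and every isomorphism from a finite p-group Q onto a group R carries W(Q) onto W(R)). Suppose N_G(W(S)) has a normal p-complement, and W(T) controls strong fusion in every section G* = K/R of G all of whose sections are p-stable in the normalizer form, for every Sylow p-subgroup T of G*. Then G has a normal p-complement. -/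
theorem result {G : Type u} [Group G] [Finite G] {p : ℕ} [Fact p.Prime] (hp : p ≠ 2) (W : ∀ (Q : Type u) [Group Q], Subgroup Q) (hW : Cfsg.IsCharPFunctor.{u} p W) (S : Sylow p G) (hN : Cfsg.HasNormalPComplement p ↥(Subgroup.normalizer ((Cfsg.inducedFunctor (G := G) W (S : Subgroup G) : Subgroup G) : Set G))) (hctl : ∀ (K R : Subgroup G) [hR : (R.subgroupOf K).Normal], (∀ (K' R' : Subgroup (↥K ⧸ R.subgroupOf K)) [hR' : (R'.subgroupOf K').Normal], Cfsg.IsNormalizerPStable p (↥K' ⧸ R'.subgroupOf K')) → ∀ T : Sylow p (↥K ⧸ R.subgroupOf K), Cfsg.ControlsStrongFusion p (Cfsg.inducedFunctor (G := (↥K ⧸ R.subgroupOf K)) W (T : Subgroup (↥K ⧸ R.subgroupOf K)))) : Cfsg.HasNormalPComplement p G := by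
  refine Cfsg.Agent.Helper1.gen_npc p (Cfsg.Agent.Helper1.funLoc_npcLoc W hW)
    (Good := fun Z inst => @Cfsg.Agent.Helper12.IsSectionOf Z inst G _)
    (fun Z _ _ X h => Cfsg.Agent.Helper12.isSectionOf_subgroup h X)
    (fun Z _ _ N _ h => Cfsg.Agent.Helper12.isSectionOf_quotient h N)
    ?_ (Nat.card G) G rfl (Cfsg.Agent.Helper12.isSectionOf_self G) S hN
  intro G' _ _ hsec hG' P hP H _ hH hD2 hCH Mb _ hMb j₀ hj₀ h5a habel
  apply hG'
  have hstr : Cfsg.Agent.Helper1.PStr p G' := by
    refine ⟨H, Mb.comap (QuotientGroup.mk' H), inferInstance, inferInstance, hH, habel,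
      ⟨Nat.card Mb, hMb, fun a ha => Cfsg.Agent.Helper1.comap_pow_card_mem H Mb a ha⟩,
      j₀, fun z => ?_⟩
    rw [Subgroup.mem_comap, map_pow]; exact hj₀ _
  obtain ⟨K', f, hf⟩ := hsec
  have e1 : (f.ker.map K'.subtype).subgroupOf K' = f.ker :=
    Subgroup.comap_map_eq_self_of_injective K'.subtype_injective _
  have hn : ((f.ker.map K'.subtype).subgroupOf K').Normal := by rw [e1]; infer_instance
  have e : (↥K' ⧸ (f.ker.map K'.subtype).subgroupOf K') ≃* G' :=
    (QuotientGroup.quotientMulEquivOfEq e1).trans (QuotientGroup.quotientKerEquivOfSurjective f hf)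
  exact endgame_iso hp W hW e (hctl K' (f.ker.map K'.subtype)) hstr P hP

end Cfsg.Agent.S1990
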