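import Cfsg.Statements.S1992
-- import your own Cfsg.Agent.* helpers here
import Cfsg.Agent.Helper12.SelfNorm
import Cfsg.Agent.S0144

set_option autoImplicit false
open Cfsg

namespace Cfsg.Agent.S1992

/-- Let G be a finite group in which, for every prime q dividing the order of G, every Sylow q-subgroup is its own normalizer. Then the order of G is a power of a single prime (G is a q-group for some prime q; for G trivial any prime works). -/
theorem result {G : Type*} [Group G] [Finite G] (h : ∀ q : ℕ, q.Prime → q ∣ Nat.card G → ∀ Q : Sylow q G, Subgroup.normalizer ((Q : Subgroup G) : Set G) = Q) : ∃ q : ℕ, q.Prime ∧ IsPGroup q G := by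
  open Cfsg.Agent.Helper12 in (
  classical
  by_cases h1 : Nat.card G = 1
  · exact ⟨2, Nat.prime_two, IsPGroup.of_card (n := 0) (by rw [h1]; rfl)⟩
  by_cases h5 : ∃ p : ℕ, p.Prime ∧ 5 ≤ p ∧ p ∣ Nat.card G
  · obtain ⟨p, hp, hp5, hdvd⟩ := h5
    have : Fact p.Prime := ⟨hp⟩
    obtain ⟨S⟩ : Nonempty (Sylow p G) := inferInstance
    have hS := S.ne_bot_of_dvd_card hdvd
    have hN := h p hp hdvd S
    have hnot := not_le_commutator_of_self_normalizing p hp5 (Nat.card G) G le_rfl S hS hN
    obtain ⟨x, hxS, hxc⟩ := SetLike.not_le_iff_exists.1 hnot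
    obtain ⟨k, hk⟩ := S.isPGroup' ⟨x, hxS⟩
    have hk' : x ^ p ^ k = 1 := congrArg Subtype.val hk
    obtain ⟨M, hMn, hMne, hMq⟩ := exists_pQuot_of_abelianization p (Abelianization.of x) (by
      intro h0
      apply hxc
      exact (QuotientGroup.eq_one_iff x).1 h0) k (by rw [← map_pow, hk', map_one])
    exact ⟨p, hp, isPGroup_of_pQuot p h M hMne hMq⟩
  · push Not at h5
    have hne : Nat.card G ≠ 0 := Nat.card_pos.ne'
    obtain ⟨a, m, hm2, hm⟩ := Nat.exists_eq_pow_mul_and_not_dvd hne 2 (by norm_num)
    have hm0 : m ≠ 0 := by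
      rintro rfl
      rw [mul_zero] at hm
      exact hne hm
    obtain ⟨b, m', hm3, hm'⟩ := Nat.exists_eq_pow_mul_and_not_dvd hm0 3 (by norm_num)
    have hm'1 : m' = 1 := by
      by_contra hne1
      obtain ⟨q, hq, hqm⟩ := Nat.exists_prime_and_dvd hne1
      have hqm1 : q ∣ m := by rw [hm']; exact Dvd.dvd.mul_left hqm _
      have hqG : q ∣ Nat.card G := by rw [hm]; exact Dvd.dvd.mul_left hqm1 _
      have hq5 : q < 5 := by
        by_contra hge
        push Not at hge
        exact h5 q hq hge hqG
      have hq2 := hq.two_le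
      interval_cases q
      · exact hm2 hqm1
      · exact hm3 hqm
      · exact absurd hq (by norm_num)
    have hcard : Nat.card G = 2 ^ a * 3 ^ b := by rw [hm, hm', hm'1, mul_one]
    have hsolv : Group.IsSolvable G :=
      Cfsg.Agent.S0144.result 2 3 a b Nat.prime_two Nat.prime_three hcard
    have hnt : Nontrivial G := by
      rw [← Finite.one_lt_card_iff_nontrivial]
      have := Nat.card_pos (α := G)
      omega
    have hlt := Group.IsSolvable.commutator_lt_top_of_nontrivial G
    have hfin : Finite (Abelianization G) :=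
      Finite.of_surjective (Abelianization.of (G := G)) QuotientGroup.mk_surjective
    have hab : Nat.card (Abelianization G) ≠ 1 := by
      intro h0
      have h2 : (commutator G).index = 1 := h0
      exact hlt.ne (Subgroup.index_eq_one.1 h2)
    obtain ⟨p, hp, hpd⟩ := Nat.exists_prime_and_dvd hab
    have : Fact p.Prime := ⟨hp⟩
    obtain ⟨y, hy⟩ := exists_prime_orderOf_dvd_card' p hpd
    obtain ⟨M, hMn, hMne, hMq⟩ := exists_pQuot_of_abelianization p y (by
      intro h0
      rw [h0, orderOf_one] at hy
      exact hp.one_lt.ne hy) 1 (by rw [pow_one, ← hy]; exact pow_orderOf_eq_one y)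
    exact ⟨p, hp, isPGroup_of_pQuot p h M hMne hMq⟩)

end Cfsg.Agent.S1992
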