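import Cfsg.Statements.S2001
-- import your own Cfsg.Agent.* helpers here
import Cfsg.Agent.Helper12.WVTransfer

set_option autoImplicit false
open Cfsg

namespace Cfsg.Agent.S2001

/-- Let p be a prime dividing the order of the finite group G, P a Sylow p-subgroup, W a conjugacy functor for p on G with Z(H) ≤ W(H) for every nontrivial p-subgroup H, and V a central functor: a conjugacy functor with V(H) ≤ Z(H), and V(H) ≤ V(K) whenever Z(H) ≤ Z(K), for nontrivial p-subgroups H, K. Say that W with V controls transfer in a subgroup L when some Sylow p-subgroup Q of L satisfies Q ∩ L' = (Q ∩ (N_L(W(Q)))')·(Q ∩ (C_L(V(Q)))') as a product of two subgroups. If W with V controls transfer in N_G(H) for every subgroup H with Z(P) ≤ H ≤ P, then W with V controls transfer in G. -/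
theorem result {G : Type*} [Group G] [Finite G] {p : ℕ} [Fact p.Prime] (hdiv : p ∣ Nat.card G) (P : Sylow p G) (W V : Subgroup G → Subgroup G) (hW : Cfsg.IsConjugacyFunctor p W) (hV : Cfsg.IsConjugacyFunctor p V) (hWZ : ∀ H : Subgroup G, IsPGroup p ↥H → H ⊓ Subgroup.centralizer ((H : Subgroup G) : Set G) ≤ W H) (hVZ : ∀ H : Subgroup G, IsPGroup p ↥H → V H ≤ H ⊓ Subgroup.centralizer ((H : Subgroup G) : Set G)) (hVmono : ∀ H K : Subgroup G, IsPGroup p ↥H → IsPGroup p ↥K → H ≠ ⊥ → K ≠ ⊥ → H ⊓ Subgroup.centralizer ((H : Subgroup G) : Set G) ≤ K ⊓ Subgroup.centralizer ((K : Subgroup G) : Set G) → V H ≤ V K) (hloc : ∀ H : Subgroup G, (P : Subgroup G) ⊓ Subgroup.centralizer (((P : Subgroup G) : Subgroup G) : Set G) ≤ H → H ≤ (P : Subgroup G) → ∃ Q : Subgroup G, Q ≤ Subgroup.normalizer ((H : Subgroup G) : Set G) ∧ IsPGroup p ↥Q ∧ ¬ p ∣ (Q).relIndex (Subgroup.normalizer ((H : Subgroup G) : Set G)) ∧ ∀ x : G, x ∈ Q ⊓ ⁅Subgroup.normalizer ((H : Subgroup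 G) : Set G), Subgroup.normalizer ((H : Subgroup G) : Set G)⁆ ↔ ∃ a ∈ Q ⊓ ⁅Subgroup.normalizer ((H : Subgroup G) : Set G) ⊓ Subgroup.normalizer ((W Q : Subgroup G) : Set G), Subgroup.normalizer ((H : Subgroup G) : Set G) ⊓ Subgroup.normalizer ((W Q : Subgroup G) : Set G)⁆, ∃ b ∈ Q ⊓ ⁅Subgroup.normalizer ((H : Subgroup G) : Set G) ⊓ Subgroup.centralizer ((V Q : Subgroup G) : Set G), Subgroup.normalizer ((H : Subgroup G) : Set G) ⊓ Subgroup.centralizer ((V Q : Subgroup G) : Set G)⁆, x = a * b) : ∃ Q : Subgroup G, IsPGroup p ↥Q ∧ ¬ p ∣ Q.index ∧ ∀ x : G, x ∈ Q ⊓ commutator G ↔ ∃ a ∈ Q ⊓ ⁅Subgroup.normalizer ((W Q : Subgroup G) : Set G), Subgroup.normalizer ((W Q : Subgroup G) : Set G)⁆, ∃ b ∈ Q ⊓ ⁅Subgroup.centralizer ((V Q : Subgroup G) : Set G), Subgroup.centralizer ((V Q : Subgroup G) : Set G)⁆, x = a * b := by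
  classical
  open Cfsg.Agent.Helper12 in (
  have hPp : IsPGroup p (P : Subgroup G) := P.isPGroup'
  have hloc' : ∀ H : Subgroup G,
      (P : Subgroup G) ⊓ Subgroup.centralizer ((P : Subgroup G) : Set G) ≤ H →
      H ≤ (P : Subgroup G) →
      ¬ p ∣ ((P : Subgroup G) ⊓ Subgroup.normalizer (H : Set G)).relIndex
        (Subgroup.normalizer (H : Set G)) →
      wvT W V (Subgroup.normalizer (H : Set G))
        ((P : Subgroup G) ⊓ Subgroup.normalizer (H : Set G)) := by
    intro H hZH hHP hidx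
    obtain ⟨Q, hQN, hQp, hQidx, hQ⟩ := hloc H hZH hHP
    obtain ⟨m, hm, hmQ⟩ := exists_conj_eq_of_relIndex hQp hQN hQidx
      (hPp.to_le inf_le_left) inf_le_right hidx
    refine wvT_transfer hW hV hQp hm hmQ ?_
    intro x hx
    obtain ⟨a, ha, b, hb, rfl⟩ := (hQ x).1 hx
    exact Subgroup.mul_mem_sup ha hb
  -- `P` normalizes `P ∩ C(V(P))'`
  have hPB : (P : Subgroup G) ≤ Subgroup.normalizer
      (((P : Subgroup G) ⊓ ⁅Subgroup.centralizer ((V (P : Subgroup G) : Subgroup G) : Set G),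
        Subgroup.centralizer ((V (P : Subgroup G) : Subgroup G) : Set G)⁆ : Subgroup G) : Set G) := by
    intro g hg
    apply mem_normalizer_of_cjs_eq
    have hgP : cjs g (P : Subgroup G) = (P : Subgroup G) :=
      cjs_eq_of_mem_normalizer (Subgroup.le_normalizer hg)
    rw [cjs_inf, cjs_commutator, ← centralizer_cjs, ← cf_cjs hV hPp, hgP]
  obtain ⟨J, hJ⟩ := exists_subgroup_mul
    ((P : Subgroup G) ⊓ ⁅Subgroup.normalizer ((W (P : Subgroup G) : Subgroup G) : Set G),
      Subgroup.normalizer ((W (P : Subgroup G) : Subgroup G) : Set G)⁆)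
    ((P : Subgroup G) ⊓ ⁅Subgroup.centralizer ((V (P : Subgroup G) : Subgroup G) : Set G),
      Subgroup.centralizer ((V (P : Subgroup G) : Subgroup G) : Set G)⁆)
    (inf_le_left.trans hPB)
  have hA : (P : Subgroup G) ⊓ ⁅Subgroup.normalizer ((W (P : Subgroup G) : Subgroup G) : Set G),
      Subgroup.normalizer ((W (P : Subgroup G) : Subgroup G) : Set G)⁆ ≤ J := by
    intro a ha
    exact (hJ a).2 ⟨a, ha, 1, one_mem _, by simp⟩
  have hB : (P : Subgroup G) ⊓ ⁅Subgroup.centralizer ((V (P : Subgroup G) : Subgroup G) : Set G),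
      Subgroup.centralizer ((V (P : Subgroup G) : Subgroup G) : Set G)⁆ ≤ J := by
    intro b hb
    exact (hJ b).2 ⟨1, one_mem _, b, hb, by simp⟩
  have hglob := wvT_global hW P hWZ hVmono hloc' J hA hB
  refine ⟨(P : Subgroup G), hPp, P.not_dvd_index, fun x => ⟨fun hx => ?_, ?_⟩⟩
  · rw [commutator_def] at hx
    exact (hJ x).1 (hglob hx)
  · rintro ⟨a, ha, b, hb, rfl⟩
    refine Subgroup.mem_inf.2 ⟨mul_mem (Subgroup.mem_inf.1 ha).1 (Subgroup.mem_inf.1 hb).1, ?_⟩
    rw [commutator_def]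
    exact mul_mem (Subgroup.commutator_mono le_top le_top (Subgroup.mem_inf.1 ha).2)
      (Subgroup.commutator_mono le_top le_top (Subgroup.mem_inf.1 hb).2))

end Cfsg.Agent.S2001
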