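import Cfsg.Statements.S2015
-- import your own Cfsg.Agent.* helpers here
import Cfsg.Agent.Helper12.KEngel
import Cfsg.Agent.Helper12.SecIndexP

set_option autoImplicit false
universe u
open Cfsg

namespace Cfsg.Agent.S2015

/-- For p ≥ 5, every finite p-group P has a characteristic subgroup K containing Z(P), depending only on P, whose normalizer controls transfer wherever P is a Sylow subgroup: for every finite group G and every embedding ι of P onto a Sylow p-subgroup of G, the intersection of ι(P) with the derived subgroup of G equals its intersection with the derived subgroup of N_G(ι(K)). -/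
theorem result (p : ℕ) [Fact p.Prime] (hp : 5 ≤ p) (P : Type u) [Group P] [Finite P] (hP : IsPGroup p P) : ∃ K : Subgroup P, K.Characteristic ∧ Subgroup.center P ≤ K ∧ ∀ (G : Type u) [Group G] [Finite G] (ι : P →* G), Function.Injective ι → (∃ T : Sylow p G, (T : Subgroup G) = ι.range) → ι.range ⊓ commutator G = ι.range ⊓ (commutator ↥(Subgroup.normalizer ((K.map ι : Subgroup G) : Set G))).map (Subgroup.normalizer ((K.map ι : Subgroup G) : Set G)).subtype := by
  open Cfsg.Agent.Helper12 in (
  have hW : Cfsg.IsCharPFunctor.{u} p Cfsg.kInfLower := kInfLower_charP p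
  refine ⟨Cfsg.kInfLower P, ?_, center_le_kInfLower P, ?_⟩
  · rw [Subgroup.characteristic_iff_map_eq]
    intro φ
    exact hW.2 P P hP φ
  · intro G _ _ ι hι ⟨T, hT⟩
    have hct := kInf_tCtl_sections hp G (isSectionOf_self G) T
    have hJ : tJ (indFam ({Cfsg.kInfLower} : Set (∀ (Q : Type u) [Group Q], Subgroup Q)) G)
        (T : Subgroup G) ≤
        ⁅Subgroup.normalizer
          ((Cfsg.inducedFunctor Cfsg.kInfLower (T : Subgroup G) : Subgroup G) : Set G),
         Subgroup.normalizer
          ((Cfsg.inducedFunctor Cfsg.kInfLower (T : Subgroup G) : Subgroup G) : Set G)⁆ := by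
      refine iSup₂_le ?_
      rintro _ ⟨W', rfl, rfl⟩
      exact inf_le_right
    have hK : Cfsg.inducedFunctor Cfsg.kInfLower (T : Subgroup G) =
        (Cfsg.kInfLower P).map ι := by
      rw [hT]
      have h1 := hW.2 P ↥ι.range hP (MonoidHom.ofInjective hι)
      unfold Cfsg.inducedFunctor
      rw [← h1, Subgroup.map_map]
      rfl
    rw [hK] at hJ
    simp only [commutator_def]
    rw [← commutator_eq_map_subtype, ← hT]
    apply le_antisymm
    · exact le_inf inf_le_left (hct.trans hJ)
    · exact inf_le_inf_left _ (Subgroup.commutator_mono le_top le_top)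
  )

end Cfsg.Agent.S2015
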