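import Cfsg.Statements.S2162
-- import your own Cfsg.Agent.* helpers here

set_option autoImplicit false
open Cfsg

namespace Cfsg.Agent.S2162

/-- Adapted basis of a square-zero endomorphism. -/
theorem exists_adapted_basis {K V : Type*} [Field K] [AddCommGroup V] [Module K V] [FiniteDimensional K V]
    (N : V →ₗ[K] V) (hN : ∀ v, N (N v) = 0) (r m : ℕ) (hr : Module.finrank K (LinearMap.range N) = r)
    (hm : m + 2 * r = Module.finrank K V) :
    ∃ b : Module.Basis (Fin r ⊕ (Fin r ⊕ Fin m)) K V,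
      (∀ i, N (b (Sum.inl i)) = b (Sum.inr (Sum.inl i))) ∧ (∀ x, N (b (Sum.inr x)) = 0) := by
  classical
  have hRW : LinearMap.range N ≤ LinearMap.ker N := by
    rintro _ ⟨v, rfl⟩
    exact hN v
  obtain ⟨C, hC⟩ := Submodule.exists_isCompl (LinearMap.range N)
  obtain ⟨D, hD⟩ : ∃ D, D = C ⊓ LinearMap.ker N := ⟨_, rfl⟩
  have hDW : D ≤ LinearMap.ker N := by rw [hD]; exact inf_le_right
  have hDR : Disjoint (LinearMap.range N) D := by
    rw [hD]
    exact hC.disjoint.mono_right inf_le_left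
  have hDsup : LinearMap.range N ⊔ D = LinearMap.ker N := by
    rw [hD, ← sup_inf_assoc_of_le _ hRW, hC.sup_eq_top, top_inf_eq]
  have hDdim : Module.finrank K D = m := by
    have h1 := Submodule.finrank_sup_add_finrank_inf_eq (LinearMap.range N) D
    rw [hDsup, disjoint_iff.mp hDR, finrank_bot] at h1
    have h2 := LinearMap.finrank_range_add_finrank_ker N
    omega
  obtain ⟨bR⟩ : Nonempty (Module.Basis (Fin r) K (LinearMap.range N)) := ⟨Module.finBasisOfFinrankEq K _ hr⟩
  obtain ⟨bD⟩ : Nonempty (Module.Basis (Fin m) K D) := ⟨Module.finBasisOfFinrankEq K _ hDdim⟩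
  have hpre : ∀ i, ∃ u : V, N u = (bR i : V) := fun i => (bR i).2
  choose u hu using hpre
  obtain ⟨e, he_def⟩ : ∃ e : Fin r → V, ∀ i, e i = (bR i : V) := ⟨fun i => (bR i : V), fun _ => rfl⟩
  obtain ⟨k, hk_def⟩ : ∃ k : Fin m → V, ∀ j, k j = (bD j : V) := ⟨fun j => (bD j : V), fun _ => rfl⟩
  have he : LinearIndependent K e := by
    have h := bR.linearIndependent.map' (LinearMap.range N).subtype (Submodule.ker_subtype _)
    have heq : e = ⇑(LinearMap.range N).subtype ∘ ⇑bR := funext he_def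
    rw [heq]
    exact h
  have hk : LinearIndependent K k := by
    have h := bD.linearIndependent.map' D.subtype (Submodule.ker_subtype _)
    have heq : k = ⇑D.subtype ∘ ⇑bD := funext hk_def
    rw [heq]
    exact h
  have heR : ∀ i, e i ∈ LinearMap.range N := fun i => by rw [he_def]; exact (bR i).2
  have hkD : ∀ j, k j ∈ D := fun j => by rw [hk_def]; exact (bD j).2
  have hek : LinearIndependent K (Sum.elim e k) := by
    apply he.sum_type hk
    apply hDR.mono
    · rw [Submodule.span_le]; rintro _ ⟨i, rfl⟩; exact heR i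
    · rw [Submodule.span_le]; rintro _ ⟨j, rfl⟩; exact hkD j
  have hu_li : LinearIndependent K u := by
    apply LinearIndependent.of_comp N
    have heq : ⇑N ∘ u = e := by
      funext i
      rw [Function.comp_apply, hu, he_def]
    rw [heq]
    exact he
  have hdisj2 : Disjoint (Submodule.span K (Set.range u)) (Submodule.span K (Set.range (Sum.elim e k))) := by
    rw [Submodule.disjoint_def]
    intro x hx1 hx2
    have hxker : N x = 0 := by
      have hle : Submodule.span K (Set.range (Sum.elim e k)) ≤ LinearMap.ker N := by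
        rw [Submodule.span_le]
        rintro _ ⟨i | j, rfl⟩
        · exact hRW (heR i)
        · exact hDW (hkD j)
      exact hle hx2
    obtain ⟨c, rfl⟩ := (Submodule.mem_span_range_iff_exists_fun K).mp hx1
    rw [map_sum] at hxker
    have h0 : ∑ i, c i • e i = 0 := by
      rw [← hxker]
      apply Finset.sum_congr rfl
      intro i _
      rw [map_smul, hu, he_def]
    have hc := Fintype.linearIndependent_iff.mp he c h0
    simp [hc]
  have hw : LinearIndependent K (Sum.elim u (Sum.elim e k)) := hu_li.sum_type hek hdisj2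
  have hcard : Fintype.card (Fin r ⊕ (Fin r ⊕ Fin m)) = Module.finrank K V := by
    simp only [Fintype.card_sum, Fintype.card_fin]
    omega
  refine ⟨basisOfLinearIndependentOfCardEqFinrank' _ hw hcard, ?_, ?_⟩
  · intro i
    rw [coe_basisOfLinearIndependentOfCardEqFinrank']
    simp only [Sum.elim_inl, Sum.elim_inr]
    rw [hu, he_def]
  · intro x
    rw [coe_basisOfLinearIndependentOfCardEqFinrank']
    rcases x with i | j
    · simp only [Sum.elim_inr, Sum.elim_inl]
      exact hRW (heR i)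
    · simp only [Sum.elim_inr]
      exact hDW (hkD j)

theorem exists_conj {K V : Type*} [Field K] [AddCommGroup V] [Module K V] [FiniteDimensional K V]
    (hsq : ∀ x : K, ∃ y : K, y ^ 2 = x)
    (N₁ N₂ : V →ₗ[K] V) (h₁ : ∀ v, N₁ (N₁ v) = 0) (h₂ : ∀ v, N₂ (N₂ v) = 0)
    (r : ℕ) (hr0 : 0 < r) (hr₁ : Module.finrank K (LinearMap.range N₁) = r)
    (hr₂ : Module.finrank K (LinearMap.range N₂) = r) :
    ∃ ψ : V →ₗ[K] V, LinearMap.det ψ = 1 ∧ ψ ∘ₗ N₁ = N₂ ∘ₗ ψ := by
  classical
  have h2r : 2 * r ≤ Module.finrank K V := by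
    have hRW : LinearMap.range N₁ ≤ LinearMap.ker N₁ := by
      rintro _ ⟨v, rfl⟩
      exact h₁ v
    have h1 := Submodule.finrank_mono hRW
    have h2 := LinearMap.finrank_range_add_finrank_ker N₁
    omega
  obtain ⟨m, hm⟩ : ∃ m, m + 2 * r = Module.finrank K V := ⟨Module.finrank K V - 2 * r, by omega⟩
  obtain ⟨b₁, hb₁, hb₁'⟩ := exists_adapted_basis N₁ h₁ r m hr₁ hm
  obtain ⟨b₂, hb₂, hb₂'⟩ := exists_adapted_basis N₂ h₂ r m hr₂ hm
  obtain ⟨φ, hφ⟩ : ∃ φ : V ≃ₗ[K] V, ∀ i, φ (b₁ i) = b₂ i :=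
    ⟨b₁.equiv b₂ (Equiv.refl _), fun i => by simp⟩
  have hdet : LinearMap.det (φ : V →ₗ[K] V) ≠ 0 := (LinearEquiv.isUnit_det' φ).ne_zero
  obtain ⟨lam, hlam⟩ := hsq (LinearMap.det (φ : V →ₗ[K] V))⁻¹
  obtain ⟨i₀⟩ : Nonempty (Fin r) := ⟨⟨0, hr0⟩⟩
  obtain ⟨w, hw⟩ : ∃ w : Fin r ⊕ (Fin r ⊕ Fin m) → K,
      w = Sum.elim (fun i => if i = i₀ then lam else 1)
        (Sum.elim (fun i => if i = i₀ then lam else 1) (fun _ => 1)) := ⟨_, rfl⟩
  obtain ⟨S, hS⟩ : ∃ S : V →ₗ[K] V, ∀ i, S (b₂ i) = w i • b₂ i :=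
    ⟨b₂.constr K (fun i => w i • b₂ i), fun i => by simp⟩
  have hSdet : LinearMap.det S = lam ^ 2 := by
    rw [← LinearMap.det_toMatrix b₂]
    have hmat : LinearMap.toMatrix b₂ b₂ S = Matrix.diagonal w := by
      ext i j
      rw [LinearMap.toMatrix_apply, hS, map_smul, Module.Basis.repr_self, Matrix.diagonal_apply]
      by_cases hij : i = j
      · subst hij; simp
      · simp [hij]
    rw [hmat, Matrix.det_diagonal, hw]
    simp [Fintype.prod_sum_type, sq]
  refine ⟨S ∘ₗ (φ : V →ₗ[K] V), ?_, ?_⟩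
  · rw [LinearMap.det_comp, hSdet, hlam, inv_mul_cancel₀ hdet]
  · apply b₁.ext
    intro i
    simp only [LinearMap.comp_apply, LinearEquiv.coe_coe]
    rcases i with i | x
    · rw [hb₁, hφ, hφ, hS, hS, map_smul, hb₂, hw]
      simp
    · rw [hb₁', map_zero, map_zero, hφ, hS, map_smul, hb₂', smul_zero]

theorem sqrt_exists {F : Type*} [Field F] [Fintype F] [CharP F 2] (x : F) : ∃ y : F, y ^ 2 = x := by
  obtain ⟨y, hy⟩ := surjective_frobenius F 2 x
  exact ⟨y, hy⟩

theorem sq_zero {F : Type*} [Field F] [CharP F 2] {n : ℕ} (A : Matrix (Fin n) (Fin n) F) (hA : A * A = 1) :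
    (A - 1) * (A - 1) = 0 := by
  have h2 : (2 : F) = 0 := CharTwo.two_eq_zero
  have h3 : A + A = 0 := by rw [← two_smul F A, h2, zero_smul]
  have h4 : (1 : Matrix (Fin n) (Fin n) F) + 1 = 0 := by rw [← two_smul F (1 : Matrix (Fin n) (Fin n) F), h2, zero_smul]
  calc (A - 1) * (A - 1) = A * A - (A + A) + 1 := by noncomm_ring
    _ = 0 := by rw [hA, h3, sub_zero, h4]

theorem coe_sq {F : Type*} [Field F] {n : ℕ} (a : Matrix.SpecialLinearGroup (Fin n) F) (ha : orderOf a = 2) :
    (a : Matrix (Fin n) (Fin n) F) * (a : Matrix (Fin n) (Fin n) F) = 1 := by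
  have h1 : a ^ 2 = 1 := by
    have := pow_orderOf_eq_one a
    rwa [ha] at this
  rw [sq] at h1
  have := congrArg (fun x : Matrix.SpecialLinearGroup (Fin n) F => (x : Matrix (Fin n) (Fin n) F)) h1
  simpa using this

/-- Conjugacy of involutions in the special linear group over a finite field of characteristic two, in dimension at least 3: two elements of order 2 of SL_n(F) are conjugate in SL_n(F) exactly when the matrices a − 1 and b − 1 have the same rank (the rank of a − 1 is the dimension of the commutator space [V, a]). -/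
theorem result {F : Type*} [Field F] [Fintype F] [CharP F 2] {n : ℕ} (hn : 3 ≤ n) (a b : Matrix.SpecialLinearGroup (Fin n) F) (ha : orderOf a = 2) (hb : orderOf b = 2) :
    IsConj a b ↔ ((a : Matrix (Fin n) (Fin n) F) - 1).rank = ((b : Matrix (Fin n) (Fin n) F) - 1).rank := by
  constructor
  · intro h
    rw [isConj_iff] at h
    obtain ⟨c, hc⟩ := h
    have hcc : (c : Matrix (Fin n) (Fin n) F) * ((c⁻¹ : Matrix.SpecialLinearGroup (Fin n) F) : Matrix (Fin n) (Fin n) F) = 1 := by
      rw [← Matrix.SpecialLinearGroup.coe_mul, mul_inv_cancel, Matrix.SpecialLinearGroup.coe_one]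
    have h1 : ((b : Matrix (Fin n) (Fin n) F) - 1) = (c : Matrix (Fin n) (Fin n) F) * ((a : Matrix (Fin n) (Fin n) F) - 1)
        * ((c⁻¹ : Matrix.SpecialLinearGroup (Fin n) F) : Matrix (Fin n) (Fin n) F) := by
      rw [← hc]
      simp only [Matrix.SpecialLinearGroup.coe_mul]
      rw [Matrix.mul_sub, Matrix.sub_mul, Matrix.mul_one, hcc]
    rw [h1, Matrix.rank_mul_eq_left_of_isUnit_det _ _ (by rw [Matrix.SpecialLinearGroup.det_coe]; exact isUnit_one),
      Matrix.rank_mul_eq_right_of_isUnit_det _ _ (by rw [Matrix.SpecialLinearGroup.det_coe]; exact isUnit_one)]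
  · intro hrank
    have hAA := coe_sq a ha
    have hBB := coe_sq b hb
    obtain ⟨N₁, hN₁⟩ : ∃ N₁ : (Fin n → F) →ₗ[F] (Fin n → F),
        N₁ = Matrix.toLin' ((a : Matrix (Fin n) (Fin n) F) - 1) := ⟨_, rfl⟩
    obtain ⟨N₂, hN₂⟩ : ∃ N₂ : (Fin n → F) →ₗ[F] (Fin n → F),
        N₂ = Matrix.toLin' ((b : Matrix (Fin n) (Fin n) F) - 1) := ⟨_, rfl⟩
    have h₁ : ∀ v, N₁ (N₁ v) = 0 := by
      intro v
      rw [hN₁, Matrix.toLin'_apply, Matrix.toLin'_apply, Matrix.mulVec_mulVec, sq_zero _ hAA, Matrix.zero_mulVec]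
    have h₂ : ∀ v, N₂ (N₂ v) = 0 := by
      intro v
      rw [hN₂, Matrix.toLin'_apply, Matrix.toLin'_apply, Matrix.mulVec_mulVec, sq_zero _ hBB, Matrix.zero_mulVec]
    have hrk : ∀ M : Matrix (Fin n) (Fin n) F, Module.finrank F (LinearMap.range (Matrix.toLin' M)) = M.rank := by
      intro M
      rw [Matrix.toLin'_apply', Matrix.rank]
    have hr0 : 0 < ((a : Matrix (Fin n) (Fin n) F) - 1).rank := by
      rw [Nat.pos_iff_ne_zero]
      intro h0
      have h1 : (a : Matrix (Fin n) (Fin n) F) - 1 = 0 := by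
        rw [← hrk, Submodule.finrank_eq_zero, LinearMap.range_eq_bot] at h0
        exact (LinearEquiv.map_eq_zero_iff _).mp h0
      have h2 : a = 1 := by
        apply Subtype.ext
        rw [Matrix.SpecialLinearGroup.coe_one]
        exact sub_eq_zero.mp h1
      rw [h2, orderOf_one] at ha
      norm_num at ha
    have hr₁ : Module.finrank F (LinearMap.range N₁) = ((a : Matrix (Fin n) (Fin n) F) - 1).rank := by
      rw [hN₁]; exact hrk _
    have hr₂ : Module.finrank F (LinearMap.range N₂) = ((a : Matrix (Fin n) (Fin n) F) - 1).rank := by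
      rw [hN₂, hrank]; exact hrk _
    obtain ⟨ψ, hψdet, hψ⟩ := exists_conj (K := F) (V := Fin n → F) sqrt_exists N₁ N₂ h₁ h₂ _ hr0 hr₁ hr₂
    have hP : LinearMap.toMatrix' ψ * ((a : Matrix (Fin n) (Fin n) F) - 1)
        = ((b : Matrix (Fin n) (Fin n) F) - 1) * LinearMap.toMatrix' ψ := by
      have := congrArg LinearMap.toMatrix' hψ
      rwa [LinearMap.toMatrix'_comp, LinearMap.toMatrix'_comp, hN₁, hN₂, LinearMap.toMatrix'_toLin',
        LinearMap.toMatrix'_toLin'] at this
    have hP' : LinearMap.toMatrix' ψ * (a : Matrix (Fin n) (Fin n) F) = (b : Matrix (Fin n) (Fin n) F) * LinearMap.toMatrix' ψ := by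
      rw [Matrix.mul_sub, Matrix.sub_mul, Matrix.mul_one, Matrix.one_mul] at hP
      exact sub_left_injective hP
    obtain ⟨c, hc⟩ : ∃ c : Matrix.SpecialLinearGroup (Fin n) F,
        (c : Matrix (Fin n) (Fin n) F) = LinearMap.toMatrix' ψ :=
      ⟨⟨LinearMap.toMatrix' ψ, by rw [LinearMap.det_toMatrix', hψdet]⟩, rfl⟩
    rw [isConj_iff]
    refine ⟨c, ?_⟩
    rw [mul_inv_eq_iff_eq_mul]
    apply Subtype.ext
    rw [Matrix.SpecialLinearGroup.coe_mul, Matrix.SpecialLinearGroup.coe_mul, hc]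
    exact hP'

end Cfsg.Agent.S2162
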