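import Cfsg.Statements.S2163
-- import your own Cfsg.Agent.* helpers here

set_option autoImplicit false
open Cfsg

namespace Cfsg.Agent.S2163

/-- Over a finite field of characteristic two and for n ≥ 3: for every ℓ with 1 ≤ ℓ and 2ℓ ≤ n, the matrix j_ℓ that is the identity plus the entries 1 in positions (n − ℓ + i, i) for i < ℓ (an identity block of size ℓ in the lower left corner) lies in SL_n(F), has order 2, and j_ℓ − 1 has rank ℓ. Together with the conjugacy criterion by rank, these matrices represent the conjugacy classes of involutions of SL_n(F). -/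
theorem result {F : Type*} [Field F] [Fintype F] [CharP F 2] {n : ℕ} (hn : 3 ≤ n) (ℓ : ℕ) (h1 : 1 ≤ ℓ) (h2 : 2 * ℓ ≤ n) :
    ∃ a : Matrix.SpecialLinearGroup (Fin n) F, (a : Matrix (Fin n) (Fin n) F) = 1 + Matrix.of (fun i j : Fin n => if j.val < ℓ ∧ i.val = j.val + (n - ℓ) then (1 : F) else 0) ∧ orderOf a = 2 ∧ ((a : Matrix (Fin n) (Fin n) F) - 1).rank = ℓ := by
  classical
  set E : Matrix (Fin n) (Fin n) F := Matrix.of (fun i j : Fin n => if j.val < ℓ ∧ i.val = j.val + (n - ℓ) then (1 : F) else 0) with hE
  have hEapp : ∀ i j, E i j = if j.val < ℓ ∧ i.val = j.val + (n - ℓ) then (1 : F) else 0 := fun i j => rfl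
  have hlow : (1 + E).BlockTriangular OrderDual.toDual := by
    intro i j hij
    have hij' : i < j := hij
    rw [Matrix.add_apply, Matrix.one_apply_ne (ne_of_lt hij'), hEapp, if_neg, add_zero]
    rintro ⟨h1', h2'⟩
    have : j.val ≤ i.val := by omega
    exact absurd hij' (not_lt.mpr this)
  have hdet : (1 + E).det = 1 := by
    rw [Matrix.det_of_lowerTriangular _ hlow]
    apply Finset.prod_eq_one
    intro i _
    rw [Matrix.add_apply, Matrix.one_apply_eq, hEapp, if_neg, add_zero]
    rintro ⟨h1', h2'⟩
    omega
  have hEE : E * E = 0 := by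
    ext i k
    rw [Matrix.mul_apply]
    apply Finset.sum_eq_zero
    intro j _
    rw [hEapp i j, hEapp j k]
    split_ifs with h3 h4
    · exfalso; omega
    · simp
    · simp
    · simp
  have hE2 : E + E = 0 := by
    ext i j
    simp [CharTwo.add_self_eq_zero]
  have hEne : E ≠ 0 := by
    intro h0
    have h := congrFun (congrFun h0 ⟨n - ℓ, by omega⟩) ⟨0, by omega⟩
    rw [hEapp] at h
    simp only [Matrix.zero_apply] at h
    rw [if_pos ⟨by omega, by simp⟩] at h
    exact one_ne_zero h
  let a : Matrix.SpecialLinearGroup (Fin n) F := ⟨1 + E, hdet⟩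
  have ha : (a : Matrix (Fin n) (Fin n) F) = 1 + E := rfl
  refine ⟨a, rfl, ?_, ?_⟩
  · haveI : Fact (Nat.Prime 2) := ⟨Nat.prime_two⟩
    apply orderOf_eq_prime
    · apply Subtype.ext
      rw [Matrix.SpecialLinearGroup.coe_pow, ha, Matrix.SpecialLinearGroup.coe_one]
      rw [pow_two, add_mul, mul_add, mul_add, one_mul, mul_one, one_mul, hEE, add_zero, add_assoc, hE2, add_zero]
    · intro h1'
      have h := congrArg (fun a : Matrix.SpecialLinearGroup (Fin n) F => (a : Matrix (Fin n) (Fin n) F)) h1'
      simp only [ha, Matrix.SpecialLinearGroup.coe_one] at h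
      exact hEne (by simpa using h)
  · rw [ha, add_sub_cancel_left]
    let f : Fin ℓ → Fin n := fun j => ⟨j.val + (n - ℓ), by omega⟩
    let g : Fin ℓ → Fin n := fun j => ⟨j.val, by omega⟩
    have hsub : E.submatrix f g = 1 := by
      ext j j'
      rw [Matrix.submatrix_apply, hEapp, Matrix.one_apply]
      by_cases hjj : j = j'
      · subst hjj
        rw [if_pos rfl, if_pos]
        exact ⟨j.2, rfl⟩
      · rw [if_neg hjj, if_neg]
        rintro ⟨_, h4⟩
        apply hjj
        apply Fin.ext
        simp only [f, g] at h4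
        omega
    apply le_antisymm
    · have hz : Function.support E.row ⊆ ((Finset.image f Finset.univ : Finset (Fin n)) : Set (Fin n)) := by
        intro i hi
        by_contra hni
        apply hi
        funext j
        change E i j = 0
        rw [hEapp, if_neg]
        rintro ⟨h3, h4⟩
        apply hni
        simp only [Finset.coe_image, Finset.coe_univ, Set.image_univ, Set.mem_range]
        exact ⟨⟨j.val, h3⟩, Fin.ext h4.symm⟩
      calc E.rank ≤ (Finset.image f Finset.univ).card := Matrix.rank_le_card_of_support_subset E _ hz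
        _ ≤ (Finset.univ : Finset (Fin ℓ)).card := Finset.card_image_le
        _ = ℓ := by simp
    · calc ℓ = (1 : Matrix (Fin ℓ) (Fin ℓ) F).rank := by rw [Matrix.rank_one, Fintype.card_fin]
        _ = (E.submatrix f g).rank := by rw [hsub]
        _ ≤ E.rank := Matrix.rank_submatrix_le E f g

end Cfsg.Agent.S2163
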