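import Cfsg.Statements.S2165
-- import your own Cfsg.Agent.* helpers here

set_option autoImplicit false
open Cfsg

namespace Cfsg.Agent.S2165

/-- In SU_n(q), q even, n ≥ 3 (matrices of determinant 1 over the field with q² elements preserving Σ u_i v_i^q): for every ℓ with 1 ≤ ℓ and 2ℓ ≤ n, the permutation matrix of the involution of {0, …, n−1} exchanging i and n − ℓ + i for each i < ℓ lies in SU_n(q), has order 2, and differs from the identity by a matrix of rank ℓ. So every rank between 1 and n/2 occurs for involutions of SU_n(q). -/
theorem result {F : Type*} [Field F] [Fintype F] [CharP F 2] {n q : ℕ} (hF : Fintype.card F = q ^ 2) (hn : 3 ≤ n) (ℓ : ℕ) (h1 : 1 ≤ ℓ) (h2 : 2 * ℓ ≤ n) :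
    ∃ a : ↥(Cfsg.SU n F q), (((a : Matrix.SpecialLinearGroup (Fin n) F) : Matrix (Fin n) (Fin n) F) = Matrix.of (fun i j : Fin n => if (j.val < ℓ ∧ i.val = j.val + (n - ℓ)) ∨ (i.val < ℓ ∧ j.val = i.val + (n - ℓ)) ∨ (i = j ∧ ℓ ≤ i.val ∧ i.val < n - ℓ) then (1 : F) else 0)) ∧ orderOf a = 2 ∧ ((((a : Matrix.SpecialLinearGroup (Fin n) F) : Matrix (Fin n) (Fin n) F)) - 1).rank = ℓ := by
  classical
  -- the involution on indices
  have hbound : ∀ i : Fin n, (if i.val < ℓ then i.val + (n - ℓ) else if n - ℓ ≤ i.val then i.val - (n - ℓ) else i.val) < n := by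
    intro i
    have := i.2
    split_ifs <;> omega
  let τ : Fin n → Fin n := fun i =>
    ⟨if i.val < ℓ then i.val + (n - ℓ) else if n - ℓ ≤ i.val then i.val - (n - ℓ) else i.val, hbound i⟩
  have hτval : ∀ i : Fin n, (τ i).val = if i.val < ℓ then i.val + (n - ℓ) else if n - ℓ ≤ i.val then i.val - (n - ℓ) else i.val := fun i => rfl
  have hτ : Function.Involutive τ := by
    intro i
    apply Fin.ext
    rw [hτval (τ i), hτval i]
    have := i.2
    split_ifs <;> omega
  let σ : Equiv.Perm (Fin n) := hτ.toPerm τ
  have hσ : ∀ i, σ i = τ i := fun i => rfl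
  have hσσ : σ * σ = 1 := by
    ext i
    simp only [Equiv.Perm.coe_mul, Function.comp_apply, Equiv.Perm.coe_one, id_eq, hσ, hτ i]
  set P : Matrix (Fin n) (Fin n) F := σ.permMatrix F with hPdef
  have hP : ∀ i k, P i k = if σ i = k then (1 : F) else 0 := by
    intro i k
    rw [hPdef]
    change (PEquiv.toMatrix (Equiv.toPEquiv σ) : Matrix (Fin n) (Fin n) F) i k = _
    rw [PEquiv.toMatrix_apply, Equiv.toPEquiv_apply]
    simp only [Option.mem_def, Option.some.injEq]
  have hPeq : P = Matrix.of (fun i j : Fin n => if (j.val < ℓ ∧ i.val = j.val + (n - ℓ)) ∨ (i.val < ℓ ∧ j.val = i.val + (n - ℓ)) ∨ (i = j ∧ ℓ ≤ i.val ∧ i.val < n - ℓ) then (1 : F) else 0) := by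
    ext i j
    rw [hP, Matrix.of_apply]
    apply if_congr _ rfl rfl
    rw [hσ, Fin.ext_iff, hτval, Fin.ext_iff]
    have := i.2
    have := j.2
    split_ifs <;> constructor <;> intro h <;> omega
  have hPP : P * P = 1 := by
    rw [hPdef, ← Matrix.permMatrix_mul, hσσ, Matrix.permMatrix_one]
  have hdet : P.det = 1 := by
    rw [hPdef, Matrix.det_permutation]
    rcases Int.units_eq_one_or (Equiv.Perm.sign σ) with h | h
    · rw [h]; simp
    · rw [h]; simp [CharTwo.neg_eq]
  let a0 : Matrix.SpecialLinearGroup (Fin n) F := ⟨P, hdet⟩
  have ha0 : (a0 : Matrix (Fin n) (Fin n) F) = P := rfl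
  have hmem : a0 ∈ Cfsg.SU n F q := by
    intro u v
    change Cfsg.hermForm n F q (P.mulVec u) (P.mulVec v) = Cfsg.hermForm n F q u v
    rw [hPdef, Matrix.permMatrix_mulVec, Matrix.permMatrix_mulVec]
    unfold Cfsg.hermForm
    exact Equiv.sum_comp σ (fun i => u i * v i ^ q)
  let a : ↥(Cfsg.SU n F q) := ⟨a0, hmem⟩
  have ha : ((a : Matrix.SpecialLinearGroup (Fin n) F) : Matrix (Fin n) (Fin n) F) = P := rfl
  have hσ_lo : ∀ i : Fin n, i.val < ℓ → (σ i).val = i.val + (n - ℓ) := by
    intro i hi
    rw [hσ, hτval, if_pos hi]
  have hσ_hi : ∀ i : Fin n, n - ℓ ≤ i.val → (σ i).val = i.val - (n - ℓ) := by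
    intro i hi
    rw [hσ, hτval, if_neg (by omega), if_pos hi]
  have hσ_mid : ∀ i : Fin n, ℓ ≤ i.val → i.val < n - ℓ → σ i = i := by
    intro i hi hi'
    apply Fin.ext
    rw [hσ, hτval, if_neg (by omega), if_neg (by omega)]
  have hPne : P ≠ 1 := by
    intro h
    have h' := congrFun (congrFun h ⟨0, by omega⟩) ⟨0, by omega⟩
    rw [hP, Matrix.one_apply_eq, if_neg] at h'
    · exact zero_ne_one h'
    · intro h''
      have := hσ_lo ⟨0, by omega⟩ (by simp; omega)
      rw [h''] at this
      simp at this
      omega
  refine ⟨a, by rw [ha, hPeq], ?_, ?_⟩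
  · have : Fact (Nat.Prime 2) := ⟨Nat.prime_two⟩
    apply orderOf_eq_prime
    · apply Subtype.ext
      apply Subtype.ext
      rw [Subgroup.coe_pow, Matrix.SpecialLinearGroup.coe_pow, ha, Subgroup.coe_one, Matrix.SpecialLinearGroup.coe_one, pow_two, hPP]
    · intro h1'
      apply hPne
      rw [← ha, h1', Subgroup.coe_one, Matrix.SpecialLinearGroup.coe_one]
  · rw [ha]
    obtain ⟨f, hfval⟩ : ∃ f : Fin ℓ → Fin n, ∀ j, (f j).val = j.val + (n - ℓ) :=
      ⟨fun j => ⟨j.val + (n - ℓ), by omega⟩, fun j => rfl⟩
    obtain ⟨g, hgval⟩ : ∃ g : Fin ℓ → Fin n, ∀ j, (g j).val = j.val :=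
      ⟨fun j => ⟨j.val, by omega⟩, fun j => rfl⟩
    have hN : ∀ i k, (P - 1) i k = (if σ i = k then (1 : F) else 0) - (if i = k then 1 else 0) := by
      intro i k
      rw [Matrix.sub_apply, hP, Matrix.one_apply]
    have hsub : (P - 1).submatrix f g = 1 := by
      ext j j'
      rw [Matrix.submatrix_apply, hN, Matrix.one_apply]
      have hne : ¬ (f j = g j') := by
        intro h
        have h3 : j.val + (n - ℓ) = j'.val := by
          have := congrArg Fin.val h
          rwa [hfval, hgval] at this
        have h4 := j'.2
        omega
      rw [if_neg hne, sub_zero]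
      apply if_congr _ rfl rfl
      have h5 : n - ℓ ≤ (f j).val := by rw [hfval]; omega
      rw [Fin.ext_iff, hσ_hi (f j) h5, hfval, hgval, Fin.ext_iff]
      have h6 := j.2
      have h7 := j'.2
      constructor
      · intro h; omega
      · intro h; omega
    apply le_antisymm
    · obtain ⟨C, hC⟩ : ∃ C : Matrix (Fin n) (Fin ℓ) F, ∀ i j, C i j = if i = g j then (1 : F) else if i = f j then -1 else 0 :=
        ⟨Matrix.of (fun i j => if i = g j then (1 : F) else if i = f j then -1 else 0), fun i j => rfl⟩
      have hCD : P - 1 = C * (P - 1).submatrix g id := by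
        ext i k
        rw [Matrix.mul_apply]
        by_cases hi : i.val < ℓ
        · rw [Finset.sum_eq_single (⟨i.val, hi⟩ : Fin ℓ)]
          · have hig : i = g ⟨i.val, hi⟩ := by
              apply Fin.ext
              rw [hgval]
            rw [hC, if_pos hig, one_mul, Matrix.submatrix_apply, ← hig, id]
          · intro j _ hj
            rw [hC, if_neg, if_neg, zero_mul]
            · intro h
              have := congrArg Fin.val h
              rw [hfval] at this
              omega
            · intro h
              apply hj
              apply Fin.ext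
              have := congrArg Fin.val h
              rw [hgval] at this
              exact this.symm
          · intro h; exact absurd (Finset.mem_univ _) h
        · by_cases hi' : n - ℓ ≤ i.val
          · have hlt : i.val - (n - ℓ) < ℓ := by have := i.2; omega
            rw [Finset.sum_eq_single (⟨i.val - (n - ℓ), hlt⟩ : Fin ℓ)]
            · have hig : i ≠ g ⟨i.val - (n - ℓ), hlt⟩ := by
                intro h
                have := congrArg Fin.val h
                rw [hgval] at this
                simp only at this
                omega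
              have hif : i = f ⟨i.val - (n - ℓ), hlt⟩ := by
                apply Fin.ext
                rw [hfval]
                simp only
                omega
              rw [hC, if_neg hig, if_pos hif, Matrix.submatrix_apply, hN, hN, id]
              have hσi : σ i = g ⟨i.val - (n - ℓ), hlt⟩ := by
                apply Fin.ext
                rw [hσ_hi i hi', hgval]
              have hσg : σ (g ⟨i.val - (n - ℓ), hlt⟩) = i := by
                rw [← hσi]
                have := congrArg (fun s : Equiv.Perm (Fin n) => s i) hσσ
                simpa using this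
              rw [hσg, hσi]
              ring
            · intro j _ hj
              rw [hC, if_neg, if_neg, zero_mul]
              · intro h
                apply hj
                apply Fin.ext
                have := congrArg Fin.val h
                rw [hfval] at this
                simp only
                omega
              · intro h
                have := congrArg Fin.val h
                rw [hgval] at this
                have := j.2
                omega
            · intro h; exact absurd (Finset.mem_univ _) h
          · rw [Finset.sum_eq_zero]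
            · rw [hN, hσ_mid i (by omega) (by omega), sub_self]
            · intro j _
              rw [hC, if_neg, if_neg, zero_mul]
              · intro h
                have := congrArg Fin.val h
                rw [hfval] at this
                omega
              · intro h
                have := congrArg Fin.val h
                rw [hgval] at this
                have := j.2
                omega
      calc (P - 1).rank = (C * (P - 1).submatrix g id).rank := by rw [← hCD]
        _ ≤ C.rank := Matrix.rank_mul_le_left _ _
        _ ≤ Fintype.card (Fin ℓ) := Matrix.rank_le_card_width _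
        _ = ℓ := Fintype.card_fin ℓ
    · calc ℓ = (1 : Matrix (Fin ℓ) (Fin ℓ) F).rank := by rw [Matrix.rank_one, Fintype.card_fin]
        _ = ((P - 1).submatrix f g).rank := by rw [hsub]
        _ ≤ (P - 1).rank := Matrix.rank_submatrix_le (P - 1) f g

end Cfsg.Agent.S2165
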