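import Cfsg.Statements.S2172
-- import your own Cfsg.Agent.* helpers here
import Cfsg.Agent.Helper5.Inv2Plus
import Cfsg.Agent.Helper15.Witt
import Cfsg.Agent.S0287

set_option autoImplicit false
open Cfsg

namespace Cfsg.Agent.S2172

set_option maxHeartbeats 1600000 in

/-- Splitting of involution classes from O to Ω for the hyperbolic quadratic form Q = Σ x_i y_i in dimension 2m over a finite field F of characteristic two, m ≥ 4. Let t, s be involutions of the commutator subgroup Ω that are conjugate in the full isometry group O. If it is not the case that t − 1 has rank m and Q(v + t v) = 0 for every vector v, then t and s are conjugate by an element of Ω. If t − 1 has rank m and Q(v + t v) = 0 for all v, then t and s are conjugate by an element of Ω exactly when the intersection of the images of t − 1 and s − 1 has even dimension (so the class of t in O meets at most two classes of Ω). -/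
theorem result {F : Type*} [Field F] [Fintype F] [CharP F 2] {m : ℕ} (hm : 4 ≤ m) (t s : ↥(Cfsg.isometryGroup F (Cfsg.quadFormPlus m F))) (ht : orderOf t = 2) (hs : orderOf s = 2) (htO : t ∈ Cfsg.Omega F (Cfsg.quadFormPlus m F)) (hsO : s ∈ Cfsg.Omega F (Cfsg.quadFormPlus m F)) (hconj : IsConj t s) :
    (¬ (((((t : ↥(Cfsg.isometryGroup F (Cfsg.quadFormPlus m F))) : GL (Fin m ⊕ Fin m) F) : Matrix (Fin m ⊕ Fin m) (Fin m ⊕ Fin m) F) - 1).rank = m ∧ ∀ v : Fin m ⊕ Fin m → F, Cfsg.quadFormPlus m F (v + Matrix.mulVec (((t : ↥(Cfsg.isometryGroup F (Cfsg.quadFormPlus m F))) : GL (Fin m ⊕ Fin m) F) : Matrix (Fin m ⊕ Fin m) (Fin m ⊕ Fin m) F) v) = 0) →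
      ∃ g ∈ Cfsg.Omega F (Cfsg.quadFormPlus m F), g * t * g⁻¹ = s) ∧
    ((((((t : ↥(Cfsg.isometryGroup F (Cfsg.quadFormPlus m F))) : GL (Fin m ⊕ Fin m) F) : Matrix (Fin m ⊕ Fin m) (Fin m ⊕ Fin m) F) - 1).rank = m ∧ ∀ v : Fin m ⊕ Fin m → F, Cfsg.quadFormPlus m F (v + Matrix.mulVec (((t : ↥(Cfsg.isometryGroup F (Cfsg.quadFormPlus m F))) : GL (Fin m ⊕ Fin m) F) : Matrix (Fin m ⊕ Fin m) (Fin m ⊕ Fin m) F) v) = 0) →
      ((∃ g ∈ Cfsg.Omega F (Cfsg.quadFormPlus m F), g * t * g⁻¹ = s) ↔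
        Even (Module.finrank F ↥(LinearMap.range (Matrix.toLin' ((((t : ↥(Cfsg.isometryGroup F (Cfsg.quadFormPlus m F))) : GL (Fin m ⊕ Fin m) F) : Matrix (Fin m ⊕ Fin m) (Fin m ⊕ Fin m) F) - 1)) ⊓ LinearMap.range (Matrix.toLin' ((((s : ↥(Cfsg.isometryGroup F (Cfsg.quadFormPlus m F))) : GL (Fin m ⊕ Fin m) F) : Matrix (Fin m ⊕ Fin m) (Fin m ⊕ Fin m) F) - 1)))))) := by
  classical
  have h2 : (2 : F) = 0 := CharTwo.two_eq_zero
  obtain ⟨𝒬, h𝒬, hnd⟩ := Cfsg.Agent.S0287.plus_model F m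
  have hQeq : Cfsg.quadFormPlus m F = ⇑𝒬 := funext (fun v => (h𝒬 v).symm)
  revert t s
  rw [hQeq]
  intro t s ht hs htO hsO hconj
  have h' : Fintype.card F ≠ 2 ∨ Fintype.card (Fin m ⊕ Fin m) ≠ 4 :=
    Or.inr (by rw [Fintype.card_sum, Fintype.card_fin]; omega)
  obtain ⟨g, hg⟩ := isConj_iff.1 hconj
  have htt : t * t = 1 := by
    have h := pow_orderOf_eq_one t
    rw [ht, pow_two] at h
    exact h
  obtain ⟨Mt, hMt⟩ : ∃ Mt : Matrix (Fin m ⊕ Fin m) (Fin m ⊕ Fin m) F,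
      Mt = ((t : Matrix.GeneralLinearGroup (Fin m ⊕ Fin m) F) :
        Matrix (Fin m ⊕ Fin m) (Fin m ⊕ Fin m) F) := ⟨_, rfl⟩
  obtain ⟨Ms, hMs⟩ : ∃ Ms : Matrix (Fin m ⊕ Fin m) (Fin m ⊕ Fin m) F,
      Ms = ((s : Matrix.GeneralLinearGroup (Fin m ⊕ Fin m) F) :
        Matrix (Fin m ⊕ Fin m) (Fin m ⊕ Fin m) F) := ⟨_, rfl⟩
  rw [← hMt, ← hMs]
  obtain ⟨T, hT⟩ : ∃ T : (Fin m ⊕ Fin m → F) →ₗ[F] (Fin m ⊕ Fin m → F),
      T = Matrix.mulVecLin Mt := ⟨_, rfl⟩
  have hmul : ∀ v, Matrix.mulVec Mt v = T v := by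
    intro v
    rw [hT, Matrix.mulVecLin_apply]
  have hTQ : ∀ v, 𝒬 (T v) = 𝒬 v := by
    intro v
    rw [← hmul, hMt]
    exact (Cfsg.Agent.Helper6.isometry_mem_iff (⇑𝒬) _).1 t.2 v
  have hTT : ∀ x, T (T x) = x := by
    intro x
    rw [← hmul, ← hmul, hMt, Matrix.mulVec_mulVec, ← Units.val_mul, ← Subgroup.coe_mul, htt,
      Subgroup.coe_one, Units.val_one, Matrix.one_mulVec]
  obtain ⟨Fx, hFx⟩ : ∃ Fx : Submodule F (Fin m ⊕ Fin m → F),
      Fx = LinearMap.ker (T - LinearMap.id) := ⟨_, rfl⟩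
  have hmemFx : ∀ x, x ∈ Fx ↔ T x = x := by
    intro x
    rw [hFx, LinearMap.mem_ker, LinearMap.sub_apply, LinearMap.id_apply, sub_eq_zero]
  have hrange : LinearMap.range (T - LinearMap.id) ≤ Fx := by
    rintro y ⟨x, rfl⟩
    rw [hmemFx, LinearMap.sub_apply, LinearMap.id_apply, map_sub, hTT]
    have e : x - T x - (T x - x) = (2 : F) • (x - T x) := by
      rw [two_smul]
      abel
    rw [h2, zero_smul] at e
    exact sub_eq_zero.1 e
  have hsum : Module.finrank F ↥(LinearMap.range (T - LinearMap.id)) + Module.finrank F ↥Fx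
      = 2 * m := by
    have h1 := LinearMap.finrank_range_add_finrank_ker (T - LinearMap.id)
    rw [Module.finrank_fintype_fun_eq_card, Fintype.card_sum, Fintype.card_fin, ← hFx] at h1
    omega
  have hle := Submodule.finrank_mono hrange
  have hrank : (Mt - 1).rank = Module.finrank F ↥(LinearMap.range (T - LinearMap.id)) := by
    rw [hT, Matrix.rank, Cfsg.Agent.Helper5.mulVecLin_sub_one]
  have hneg : ∀ v : Fin m ⊕ Fin m → F, -v = v := by
    intro v
    have h : v + v = 0 := by rw [← two_smul F v, h2, zero_smul]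
    exact neg_eq_of_add_eq_zero_left h
  have hplus : ∀ v, v + T v ∈ Fx := by
    intro v
    rw [hmemFx, map_add, hTT, add_comm]
  have hTsub : ∀ v, T v - v = v + T v := by
    intro v
    rw [sub_eq_add_neg, hneg, add_comm]
  constructor
  · intro hcond
    have hex : ∃ w ∈ Fx, 𝒬 w ≠ 0 := by
      by_contra hno
      have hall : ∀ u ∈ Fx, Cfsg.quadFormPlus m F u = 0 := by
        intro u hu
        by_contra hu0
        exact hno ⟨u, hu, by rw [h𝒬]; exact hu0⟩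
      have h5 := Cfsg.Agent.Helper15.plus_singular_finrank_le m Fx hall
      apply hcond
      refine ⟨by rw [hrank]; omega, fun v => ?_⟩
      rw [hmul]
      by_contra hv0
      exact hno ⟨v + T v, hplus v, hv0⟩
    obtain ⟨w, hwF, hw⟩ := hex
    have hfix : Matrix.mulVec ((t : Matrix.GeneralLinearGroup (Fin m ⊕ Fin m) F) :
        Matrix (Fin m ⊕ Fin m) (Fin m ⊕ Fin m) F) w = w := by
      rw [← hMt, hmul]
      exact (hmemFx w).1 hwF
    exact Cfsg.Agent.Helper5.omega_conj_of_fixed h2 𝒬 hnd h' t s g hg w hw hfix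
  · rintro ⟨hrk, hsing⟩
    obtain ⟨Rt, hRt⟩ : ∃ Rt : Submodule F (Fin m ⊕ Fin m → F),
        Rt = LinearMap.range (Matrix.toLin' (Mt - 1)) := ⟨_, rfl⟩
    obtain ⟨Rs, hRs⟩ : ∃ Rs : Submodule F (Fin m ⊕ Fin m → F),
        Rs = LinearMap.range (Matrix.toLin' (Ms - 1)) := ⟨_, rfl⟩
    rw [← hRt, ← hRs]
    have hRt' : Rt = LinearMap.range (T - LinearMap.id) := by
      rw [hRt, hT, Matrix.toLin'_apply', Cfsg.Agent.Helper5.mulVecLin_sub_one]
    have hRtM : Cfsg.Agent.Helper5.IsMTS 𝒬 m Rt := by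
      refine ⟨by rw [hRt', ← hrank, hrk], ?_⟩
      intro u hu
      rw [hRt'] at hu
      obtain ⟨v, rfl⟩ := hu
      rw [LinearMap.sub_apply, LinearMap.id_apply, hTsub, ← hmul]
      exact hsing v
    have hmeven : m % 2 = 0 := by
      have h6 := Cfsg.Agent.Helper5.dick2_comm h2 𝒬 hnd t htO
      rw [Cfsg.Agent.Helper5.dick2_apply, ← hMt, ← hT, ← hFx, Fintype.card_sum,
        Fintype.card_fin] at h6
      have e : m + m - Module.finrank F ↥Fx = m := by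
        rw [hrank] at hrk
        omega
      rw [e] at h6
      exact Nat.even_iff.1 ((neg_one_pow_eq_one_iff_even (by decide)).1 h6)
    have hmap : ∀ g₁ : ↥(Cfsg.isometryGroup F ⇑𝒬), g₁ * t * g₁⁻¹ = s →
        Rs = Rt.map (Matrix.mulVecLin ((g₁ : Matrix.GeneralLinearGroup (Fin m ⊕ Fin m) F) :
          Matrix (Fin m ⊕ Fin m) (Fin m ⊕ Fin m) F)) := by
      intro g₁ hg₁
      have e1 : s * g₁ = g₁ * t := by
        rw [← hg₁]
        group
      have hM1 : ((s : Matrix.GeneralLinearGroup (Fin m ⊕ Fin m) F) :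
          Matrix (Fin m ⊕ Fin m) (Fin m ⊕ Fin m) F)
          * ((g₁ : Matrix.GeneralLinearGroup (Fin m ⊕ Fin m) F) :
            Matrix (Fin m ⊕ Fin m) (Fin m ⊕ Fin m) F)
          = ((g₁ : Matrix.GeneralLinearGroup (Fin m ⊕ Fin m) F) :
            Matrix (Fin m ⊕ Fin m) (Fin m ⊕ Fin m) F)
          * ((t : Matrix.GeneralLinearGroup (Fin m ⊕ Fin m) F) :
            Matrix (Fin m ⊕ Fin m) (Fin m ⊕ Fin m) F) := by
        rw [← Units.val_mul, ← Units.val_mul, ← Subgroup.coe_mul, ← Subgroup.coe_mul, e1]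
      have hM2 : ((g₁ : Matrix.GeneralLinearGroup (Fin m ⊕ Fin m) F) :
          Matrix (Fin m ⊕ Fin m) (Fin m ⊕ Fin m) F)
          * (((g₁⁻¹ : ↥(Cfsg.isometryGroup F ⇑𝒬)) : Matrix.GeneralLinearGroup (Fin m ⊕ Fin m) F) :
            Matrix (Fin m ⊕ Fin m) (Fin m ⊕ Fin m) F) = 1 := by
        rw [← Units.val_mul, ← Subgroup.coe_mul, mul_inv_cancel, Subgroup.coe_one, Units.val_one]
      rw [hRs, hRt, hMs, hMt]
      exact Cfsg.Agent.Helper5.range_conj _ _ _ _ hM1 hM2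
    have hpar : ∀ g₁ : ↥(Cfsg.isometryGroup F ⇑𝒬), g₁ * t * g₁⁻¹ = s →
        (Cfsg.Agent.Helper5.plusD 𝒬 h𝒬 hnd g₁ = 1 ↔ Even (Module.finrank F ↥(Rt ⊓ Rs))) := by
      intro g₁ hg₁
      rw [hmap g₁ hg₁, Cfsg.Agent.Helper5.plusD_apply, neg_one_pow_eq_one_iff_even (by decide),
        Nat.even_iff, Nat.even_iff]
      have hp := Cfsg.Agent.Helper5.mts_parity_map 𝒬 Cfsg.Agent.Helper5.finrank_plusV hnd
        (Cfsg.Agent.Helper5.plusE F m) Rt (Cfsg.Agent.Helper5.plusE_mts 𝒬 h𝒬) hRtM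
        (Matrix.mulVecLin ((g₁ : Matrix.GeneralLinearGroup (Fin m ⊕ Fin m) F) :
          Matrix (Fin m ⊕ Fin m) (Fin m ⊕ Fin m) F))
        (Cfsg.Agent.Helper5.mulVecLin_inj _) (Cfsg.Agent.Helper5.mulVecLin_isom ⇑𝒬 g₁)
      have b := Submodule.finrank_mono (inf_le_left : Cfsg.Agent.Helper5.plusE F m ⊓
        (Cfsg.Agent.Helper5.plusE F m).map
          (Matrix.mulVecLin ((g₁ : Matrix.GeneralLinearGroup (Fin m ⊕ Fin m) F) :
            Matrix (Fin m ⊕ Fin m) (Fin m ⊕ Fin m) F)) ≤ Cfsg.Agent.Helper5.plusE F m)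
      rw [(Cfsg.Agent.Helper5.plusE_mts 𝒬 h𝒬).1] at b
      constructor <;> intro hh <;> omega
    constructor
    · rintro ⟨g₁, hg₁Ω, hg₁⟩
      exact (hpar g₁ hg₁).1 (Cfsg.Agent.Helper5.plusD_comm 𝒬 h𝒬 hnd g₁ hg₁Ω)
    · intro hev
      by_cases hgΩ : g ∈ commutator ↥(Cfsg.isometryGroup F ⇑𝒬)
      · exact ⟨g, hgΩ, hg⟩
      · exfalso
        have h7 := Cfsg.Agent.Helper5.plusD_of_not_omega h2 𝒬 h𝒬 hnd h' g hgΩ
        have h8 := (hpar g hg).2 hev
        rw [h7] at h8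
        exact absurd h8 (by decide)

end Cfsg.Agent.S2172
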