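import Cfsg.Statements.S2173
-- import your own Cfsg.Agent.* helpers here
import Cfsg.Agent.Helper5.Dickson2
import Cfsg.Agent.Helper6.Quad
import Cfsg.Agent.Helper15.Witt
import Cfsg.Agent.S0288

set_option autoImplicit false
open Cfsg

namespace Cfsg.Agent.S2173

set_option maxHeartbeats 1600000 in

/-- For the quadratic form Σ x_i y_i + (z₁² + c z₁ z₂ + d z₂²) in dimension 2m with anisotropic binary part over a finite field F of characteristic two, m ≥ 4 (minus type): two involutions of the commutator subgroup Ω that are conjugate in the full isometry group O are conjugate by an element of Ω (no class of involutions of O inside Ω splits). -/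
theorem result {F : Type*} [Field F] [Fintype F] [CharP F 2] {m : ℕ} (hm : 4 ≤ m) (c d : F) (hcd : ∀ z₁ z₂ : F, z₁ ^ 2 + c * z₁ * z₂ + d * z₂ ^ 2 = 0 → z₁ = 0 ∧ z₂ = 0) (t s : ↥(Cfsg.isometryGroup F (Cfsg.quadFormMinus (m - 1) F c d))) (ht : orderOf t = 2) (hs : orderOf s = 2) (htO : t ∈ Cfsg.Omega F (Cfsg.quadFormMinus (m - 1) F c d)) (hsO : s ∈ Cfsg.Omega F (Cfsg.quadFormMinus (m - 1) F c d)) (hconj : IsConj t s) :
    ∃ g ∈ Cfsg.Omega F (Cfsg.quadFormMinus (m - 1) F c d), g * t * g⁻¹ = s := by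
  classical
  have h2 : (2 : F) = 0 := CharTwo.two_eq_zero
  obtain ⟨𝒬, h𝒬, hnd⟩ := Cfsg.Agent.S0288.minus_model F c d hcd (m - 1)
  have hQeq : Cfsg.quadFormMinus (m - 1) F c d = ⇑𝒬 := funext (fun v => (h𝒬 v).symm)
  revert t s
  rw [hQeq]
  intro t s ht hs htO hsO hconj
  have h' : Fintype.card F ≠ 2 ∨ Fintype.card ((Fin (m - 1) ⊕ Fin (m - 1)) ⊕ Fin 2) ≠ 4 :=
    Or.inr (by rw [Fintype.card_sum, Fintype.card_sum, Fintype.card_fin, Fintype.card_fin]; omega)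
  obtain ⟨g, hg⟩ := isConj_iff.1 hconj
  by_cases hgΩ : g ∈ commutator ↥(Cfsg.isometryGroup F ⇑𝒬)
  · exact ⟨g, hgΩ, hg⟩
  have hdg : Cfsg.Agent.Helper5.dick2 h2 𝒬 hnd g = -1 := by
    rcases Int.units_eq_one_or (Cfsg.Agent.Helper5.dick2 h2 𝒬 hnd g) with h | h
    · exact absurd ((Cfsg.Agent.Helper5.omega2_iff h2 𝒬 hnd h' g).2 h) hgΩ
    · exact h
  have htt : t * t = 1 := by
    have h := pow_orderOf_eq_one t
    rw [ht, pow_two] at h
    exact h
  obtain ⟨T, hT⟩ : ∃ T : ((Fin (m - 1) ⊕ Fin (m - 1)) ⊕ Fin 2 → F) →ₗ[F]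
      ((Fin (m - 1) ⊕ Fin (m - 1)) ⊕ Fin 2 → F),
      T = Matrix.mulVecLin ((t : Matrix.GeneralLinearGroup
        ((Fin (m - 1) ⊕ Fin (m - 1)) ⊕ Fin 2) F) :
        Matrix ((Fin (m - 1) ⊕ Fin (m - 1)) ⊕ Fin 2) ((Fin (m - 1) ⊕ Fin (m - 1)) ⊕ Fin 2) F) :=
    ⟨_, rfl⟩
  have hTx : ∀ x, T x = Cfsg.Agent.Helper5.isoActF ⇑𝒬 t x := by
    intro x
    rw [hT, Matrix.mulVecLin_apply, Cfsg.Agent.Helper5.isoActF_apply]
  have hTQ : ∀ v, 𝒬 (T v) = 𝒬 v := by
    intro v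
    rw [hT, Matrix.mulVecLin_apply]
    exact (Cfsg.Agent.Helper6.isometry_mem_iff (⇑𝒬) _).1 t.2 v
  have hTT : ∀ x, T (T x) = x := by
    intro x
    rw [hT, Matrix.mulVecLin_apply, Matrix.mulVecLin_apply, Matrix.mulVec_mulVec,
      ← Units.val_mul, ← Subgroup.coe_mul, htt, Subgroup.coe_one, Units.val_one,
      Matrix.one_mulVec]
  obtain ⟨Fx, hFx⟩ : ∃ Fx : Submodule F ((Fin (m - 1) ⊕ Fin (m - 1)) ⊕ Fin 2 → F),
      Fx = LinearMap.ker (T - LinearMap.id) := ⟨_, rfl⟩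
  have hmemFx : ∀ x, x ∈ Fx ↔ T x = x := by
    intro x
    rw [hFx, LinearMap.mem_ker, LinearMap.sub_apply, LinearMap.id_apply, sub_eq_zero]
  have hrange : LinearMap.range (T - LinearMap.id) ≤ Fx := by
    rintro y ⟨x, rfl⟩
    rw [hmemFx, LinearMap.sub_apply, LinearMap.id_apply, map_sub, hTT]
    have e : x - T x - (T x - x) = (2 : F) • (x - T x) := by
      rw [two_smul]
      abel
    rw [h2, zero_smul] at e
    exact sub_eq_zero.1 e
  have hdim : m ≤ Module.finrank F Fx := by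
    have h1 := LinearMap.finrank_range_add_finrank_ker (T - LinearMap.id)
    have h3 := Submodule.finrank_mono hrange
    rw [Module.finrank_fintype_fun_eq_card, Fintype.card_sum, Fintype.card_sum,
      Fintype.card_fin, Fintype.card_fin, ← hFx] at h1
    omega
  obtain ⟨w, hwF, hw⟩ : ∃ w ∈ Fx, 𝒬 w ≠ 0 := by
    by_contra hno
    have hall : ∀ u ∈ Fx, Cfsg.quadFormMinus (m - 1) F c d u = 0 := by
      intro u hu
      by_contra hu0
      exact hno ⟨u, hu, by rw [h𝒬]; exact hu0⟩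
    have h5 := Cfsg.Agent.Helper15.minus_singular_finrank_le (m - 1) c d hcd Fx hall
    omega
  have hw' : T w = w := (hmemFx w).1 hwF
  obtain ⟨τ, hτ⟩ : ∃ τ : ↥(Cfsg.isometryGroup F ⇑𝒬),
      τ = Cfsg.Agent.Helper5.reflEl 𝒬 w hw := ⟨_, rfl⟩
  have hτact : Cfsg.Agent.Helper5.ActsRefl 𝒬 τ w := by
    rw [hτ]
    exact Cfsg.Agent.Helper5.actsRefl_reflEl 𝒬 w hw
  have hdτ : Cfsg.Agent.Helper5.dick2 h2 𝒬 hnd τ = -1 :=
    Cfsg.Agent.Helper5.dick2_refl h2 𝒬 hnd τ w hw hτact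
  have hp : ∀ x, QuadraticMap.polar (⇑𝒬) w (T x) = QuadraticMap.polar (⇑𝒬) w x := by
    intro x
    unfold QuadraticMap.polar
    have e1 : w + T x = T (w + x) := by rw [map_add, hw']
    rw [e1, hTQ, hTQ]
  have hcomm : t * τ = τ * t := by
    apply Cfsg.Agent.Helper5.isoActF_injective ⇑𝒬
    apply LinearEquiv.ext
    intro x
    rw [map_mul, map_mul, LinearEquiv.mul_apply, LinearEquiv.mul_apply, hτact x, hτact,
      ← hTx, ← hTx, map_sub, map_smul, hw', hp x]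
  refine ⟨g * τ, ?_, ?_⟩
  · apply (Cfsg.Agent.Helper5.omega2_iff h2 𝒬 hnd h' _).2
    rw [map_mul, hdg, hdτ] <;> decide
  · have e : g * τ * t * (g * τ)⁻¹ = g * (τ * t * τ⁻¹) * g⁻¹ := by group
    rw [e, ← hcomm, mul_inv_cancel_right, hg]

end Cfsg.Agent.S2173
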