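import Cfsg.Statements.S2231
-- import your own Cfsg.Agent.* helpers here

set_option autoImplicit false
open Cfsg

namespace Cfsg.Agent.S2231

open scoped Pointwise

theorem pgroups_abelian_of_sylow {G : Type*} [Group G] [Finite G] (p : ℕ) [Fact p.Prime]
    (P : Sylow p G) (hP : ∀ a ∈ P, ∀ b ∈ P, a * b = b * a) (S : Subgroup G) (hS : IsPGroup p S) :
    ∀ a ∈ S, ∀ b ∈ S, a * b = b * a := by
  obtain ⟨Q, hQ⟩ := hS.exists_le_sylow
  obtain ⟨g, rfl⟩ := MulAction.exists_smul_eq G P Q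
  intro a ha b hb
  have ha' : a ∈ MulAut.conj g • (P : Subgroup G) := hQ ha
  have hb' : b ∈ MulAut.conj g • (P : Subgroup G) := hQ hb
  obtain ⟨x, hx, rfl⟩ := (Subgroup.mem_smul_pointwise_iff_exists _ _ _).mp ha'
  obtain ⟨y, hy, rfl⟩ := (Subgroup.mem_smul_pointwise_iff_exists _ _ _).mp hb'
  have hxy := hP x hx y hy
  simp only [MulAut.smul_def, MulAut.conj_apply]
  calc g * x * g⁻¹ * (g * y * g⁻¹) = g * (x * y) * g⁻¹ := by group
    _ = g * (y * x) * g⁻¹ := by rw [hxy]
    _ = g * y * g⁻¹ * (g * x * g⁻¹) := by group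

theorem section_abelian {G : Type*} [Group G] [Finite G] (p : ℕ) [Fact p.Prime]
    (hG : ∀ S : Subgroup G, IsPGroup p S → ∀ a ∈ S, ∀ b ∈ S, a * b = b * a)
    (K R : Subgroup G) [hN : (R.subgroupOf K).Normal]
    (T : Subgroup (K ⧸ R.subgroupOf K)) (hT : IsPGroup p T) :
    ∀ a ∈ T, ∀ b ∈ T, a * b = b * a := by
  classical
  let π : K →* K ⧸ R.subgroupOf K := QuotientGroup.mk' (R.subgroupOf K)
  have hπ : Function.Surjective π := QuotientGroup.mk'_surjective _
  let φ : T.comap π →* T := π.subgroupComap T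
  have hφ : Function.Surjective φ := MonoidHom.subgroupComap_surjective_of_surjective π T hπ
  let P : Sylow p (T.comap π) := default
  have htop : ((P.mapSurjective hφ : Sylow p T) : Subgroup T) = ⊤ := by
    have h1 : IsPGroup p (⊤ : Subgroup T) := by
      intro g
      obtain ⟨k, hk⟩ := hT g.1
      exact ⟨k, Subtype.ext hk⟩
    exact ((P.mapSurjective hφ).is_maximal' h1 le_top).symm
  rw [Sylow.coe_mapSurjective] at htop
  have key : ∀ a ∈ T, ∃ x : T.comap π, x ∈ (P : Subgroup (T.comap π)) ∧ π (x : K) = a := by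
    intro a ha
    have : (⟨a, ha⟩ : T) ∈ (P : Subgroup (T.comap π)).map φ := by rw [htop]; trivial
    obtain ⟨x, hx, hxa⟩ := this
    refine ⟨x, hx, ?_⟩
    have := congrArg Subtype.val hxa
    exact this
  -- the image of P in G is a p-group
  let ι : T.comap π →* G := K.subtype.comp (T.comap π).subtype
  have hPG : IsPGroup p ((P : Subgroup (T.comap π)).map ι) := P.isPGroup'.map ι
  intro a ha b hb
  obtain ⟨x, hx, rfl⟩ := key a ha
  obtain ⟨y, hy, rfl⟩ := key b hb
  have hxy := hG _ hPG (ι x) (Subgroup.mem_map_of_mem ι hx) (ι y) (Subgroup.mem_map_of_mem ι hy)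
  have hxy' : (x : K) * (y : K) = (y : K) * (x : K) := Subtype.ext hxy
  rw [← map_mul, ← map_mul, hxy']

def upperFun (K : Type*) [Field K] (t : K) : Matrix.SpecialLinearGroup (Fin 2) K :=
  ⟨!![1, t; 0, 1], by simp [Matrix.det_fin_two]⟩

theorem upperFun_coe (K : Type*) [Field K] (t : K) :
    (upperFun K t : Matrix (Fin 2) (Fin 2) K) = !![1, t; 0, 1] := rfl

def upper (K : Type*) [Field K] : Multiplicative K →* Matrix.SpecialLinearGroup (Fin 2) K where
  toFun t := upperFun K (Multiplicative.toAdd t)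
  map_one' := by
    apply Subtype.ext
    rw [upperFun_coe, Matrix.SpecialLinearGroup.coe_one]
    simp [Matrix.one_fin_two]
  map_mul' s t := by
    apply Subtype.ext
    rw [Matrix.SpecialLinearGroup.coe_mul, upperFun_coe, upperFun_coe, upperFun_coe, Matrix.mul_fin_two]
    simp [add_comm]

theorem upper_apply (K : Type*) [Field K] (t : Multiplicative K) :
    ((upper K t : Matrix.SpecialLinearGroup (Fin 2) K) : Matrix (Fin 2) (Fin 2) K) = !![1, Multiplicative.toAdd t; 0, 1] := rfl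

theorem psl2_pgroups_abelian {p : ℕ} [Fact p.Prime] {K : Type*} [Field K] [Fintype K] [CharP K p]
    (S : Subgroup (Matrix.ProjectiveSpecialLinearGroup (Fin 2) K)) (hS : IsPGroup p S) :
    ∀ a ∈ S, ∀ b ∈ S, a * b = b * a := by
  classical
  have hpp : p.Prime := Fact.out
  obtain ⟨f, -, hq⟩ := FiniteField.card K p
  let φ : Multiplicative K →* Matrix.ProjectiveSpecialLinearGroup (Fin 2) K :=
    (QuotientGroup.mk' (Subgroup.center (Matrix.SpecialLinearGroup (Fin 2) K))).comp (upper K)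
  have hinj : Function.Injective φ := by
    rw [injective_iff_map_eq_one]
    intro t ht
    have h1 : upper K t ∈ Subgroup.center (Matrix.SpecialLinearGroup (Fin 2) K) := by
      have : (QuotientGroup.mk' (Subgroup.center (Matrix.SpecialLinearGroup (Fin 2) K))) (upper K t) = 1 := ht
      rwa [QuotientGroup.mk'_apply, QuotientGroup.eq_one_iff] at this
    obtain ⟨r, -, hr⟩ := Matrix.SpecialLinearGroup.mem_center_iff.mp h1
    have h2 := congrFun (congrFun hr 0) 1
    rw [upper_apply] at h2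
    simp at h2
    have : Multiplicative.toAdd t = 0 := h2.symm
    exact Multiplicative.toAdd.injective this
  have hcard : Nat.card φ.range = Fintype.card K := by
    rw [← Nat.card_eq_fintype_card]
    exact (Nat.card_congr (MonoidHom.ofInjective hinj).toEquiv).symm.trans (Nat.card_congr Multiplicative.toAdd)
  have hPG : IsPGroup p φ.range := IsPGroup.of_card (n := (f : ℕ)) (by rw [hcard, hq])
  -- the order of the ambient group
  have hdvd1 : Nat.card (Matrix.ProjectiveSpecialLinearGroup (Fin 2) K) ∣ Nat.card (Matrix.SpecialLinearGroup (Fin 2) K) :=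
    Subgroup.card_quotient_dvd_card _
  have hdvd2 : Nat.card (Matrix.SpecialLinearGroup (Fin 2) K) ∣ Nat.card (GL (Fin 2) K) :=
    Subgroup.card_dvd_of_injective Matrix.SpecialLinearGroup.toGL (by
      intro A B h
      apply Subtype.ext
      have := congrArg (fun g : GL (Fin 2) K => (g : Matrix (Fin 2) (Fin 2) K)) h
      simpa using this)
  have hGL : Nat.card (GL (Fin 2) K) = (Fintype.card K ^ 2 - 1) * (Fintype.card K ^ 2 - Fintype.card K) := by
    rw [Matrix.card_GL_field, Fin.prod_univ_two]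
    simp
  have hindex : ¬ p ∣ φ.range.index := by
    intro hdvd
    have h3 : Nat.card φ.range * φ.range.index = Nat.card (Matrix.ProjectiveSpecialLinearGroup (Fin 2) K) :=
      Subgroup.card_mul_index _
    have h4 : Fintype.card K * p ∣ (Fintype.card K ^ 2 - 1) * (Fintype.card K ^ 2 - Fintype.card K) := by
      rw [← hGL]
      refine dvd_trans ?_ (dvd_trans hdvd1 hdvd2)
      rw [← h3, hcard]
      exact mul_dvd_mul_left _ hdvd
    have hq1 : 1 ≤ Fintype.card K := Fintype.card_pos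
    have h5 : (Fintype.card K ^ 2 - 1) * (Fintype.card K ^ 2 - Fintype.card K) = Fintype.card K * ((Fintype.card K ^ 2 - 1) * (Fintype.card K - 1)) := by
      have : Fintype.card K ^ 2 - Fintype.card K = Fintype.card K * (Fintype.card K - 1) := by
        rw [Nat.mul_sub, mul_one, pow_two]
      rw [this]; ring
    rw [h5] at h4
    have h6 : p ∣ (Fintype.card K ^ 2 - 1) * (Fintype.card K - 1) := (Nat.mul_dvd_mul_iff_left (by omega)).mp h4
    have hpq : p ∣ Fintype.card K := by
      rw [hq]; exact dvd_pow_self p (PNat.ne_zero f)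
    rcases (Nat.Prime.dvd_mul hpp).mp h6 with h7 | h7
    · have h8 : p ∣ Fintype.card K ^ 2 := dvd_pow hpq (by norm_num)
      have h9 : 1 ≤ Fintype.card K ^ 2 := Nat.one_le_pow _ _ hq1
      have : p ∣ 1 := by
        have := Nat.dvd_sub h8 h7
        rwa [Nat.sub_sub_self h9] at this
      exact hpp.one_lt.ne' (Nat.dvd_one.mp this)
    · have : p ∣ 1 := by
        have := Nat.dvd_sub hpq h7
        rwa [Nat.sub_sub_self hq1] at this
      exact hpp.one_lt.ne' (Nat.dvd_one.mp this)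
  let P : Sylow p (Matrix.ProjectiveSpecialLinearGroup (Fin 2) K) := hPG.toSylow hindex
  have hPc : ∀ a ∈ P, ∀ b ∈ P, a * b = b * a := by
    intro a ha b hb
    have ha' : a ∈ φ.range := ha
    have hb' : b ∈ φ.range := hb
    obtain ⟨s, rfl⟩ := ha'
    obtain ⟨t, rfl⟩ := hb'
    rw [← map_mul, ← map_mul, mul_comm]
  exact pgroups_abelian_of_sylow p P hPc S hS

def uniSub (p : ℕ) : Submonoid (Matrix.SpecialLinearGroup (Fin 3) (ZMod p)) where
  carrier := {g | (g : Matrix (Fin 3) (Fin 3) (ZMod p)) 1 0 = 0 ∧ (g : Matrix (Fin 3) (Fin 3) (ZMod p)) 2 0 = 0 ∧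
    (g : Matrix (Fin 3) (Fin 3) (ZMod p)) 2 1 = 0 ∧ (g : Matrix (Fin 3) (Fin 3) (ZMod p)) 0 0 = 1 ∧
    (g : Matrix (Fin 3) (Fin 3) (ZMod p)) 1 1 = 1 ∧ (g : Matrix (Fin 3) (Fin 3) (ZMod p)) 2 2 = 1}
  one_mem' := by
    simp [Matrix.SpecialLinearGroup.coe_one]
  mul_mem' := by
    rintro a b ⟨a10, a20, a21, a00, a11, a22⟩ ⟨b10, b20, b21, b00, b11, b22⟩
    refine ⟨?_, ?_, ?_, ?_, ?_, ?_⟩ <;>
    · rw [Matrix.SpecialLinearGroup.coe_mul, Matrix.mul_apply, Fin.sum_univ_three]
      simp [*]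

def uni (p : ℕ) [Fact p.Prime] : Subgroup (Matrix.SpecialLinearGroup (Fin 3) (ZMod p)) where
  toSubmonoid := uniSub p
  inv_mem' := by
    intro a ha
    have : a⁻¹ = a ^ (orderOf a - 1) := by
      have hpos : 0 < orderOf a := orderOf_pos a
      rw [inv_eq_iff_mul_eq_one, ← pow_succ', Nat.sub_add_cancel hpos, pow_orderOf_eq_one]
    rw [this]
    have ha' : a ∈ uniSub p := ha
    exact pow_mem ha' _

theorem uni_pow (p : ℕ) [Fact p.Prime] (hp : p ≠ 2) (a : Matrix.SpecialLinearGroup (Fin 3) (ZMod p))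
    (ha : a ∈ uni p) : a ^ p = 1 := by
  obtain ⟨a10, a20, a21, a00, a11, a22⟩ := ha
  have hpp : p.Prime := Fact.out
  have hp3 : 3 ≤ p := by
    have := hpp.two_le
    omega
  have hN3 : ((a : Matrix (Fin 3) (Fin 3) (ZMod p)) - 1) ^ 3 = 0 := by
    ext i j
    fin_cases i <;> fin_cases j <;>
      simp [pow_succ, Matrix.mul_apply, Fin.sum_univ_three, Matrix.sub_apply, a10, a20, a21, a00, a11, a22]
  apply Subtype.ext
  rw [Matrix.SpecialLinearGroup.coe_pow, Matrix.SpecialLinearGroup.coe_one]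
  have h0 : (a : Matrix (Fin 3) (Fin 3) (ZMod p)) = 1 + ((a : Matrix (Fin 3) (Fin 3) (ZMod p)) - 1) := by abel
  rw [h0, add_pow_char_of_commute p (Commute.one_left _), one_pow]
  have hNp : ((a : Matrix (Fin 3) (Fin 3) (ZMod p)) - 1) ^ p = 0 := by
    have : ((a : Matrix (Fin 3) (Fin 3) (ZMod p)) - 1) ^ p
        = ((a : Matrix (Fin 3) (Fin 3) (ZMod p)) - 1) ^ 3 * ((a : Matrix (Fin 3) (Fin 3) (ZMod p)) - 1) ^ (p - 3) := by
      rw [← pow_add]; congr 1; omega
    rw [this, hN3, zero_mul]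
  rw [hNp, add_zero]

def xel (p : ℕ) : Matrix.SpecialLinearGroup (Fin 3) (ZMod p) :=
  ⟨!![1, 1, 0; 0, 1, 0; 0, 0, 1], by simp [Matrix.det_fin_three]⟩

def yel (p : ℕ) : Matrix.SpecialLinearGroup (Fin 3) (ZMod p) :=
  ⟨!![1, 0, 0; 0, 1, 1; 0, 0, 1], by simp [Matrix.det_fin_three]⟩

theorem xel_coe (p : ℕ) : (xel p : Matrix (Fin 3) (Fin 3) (ZMod p)) = !![1, 1, 0; 0, 1, 0; 0, 0, 1] := rfl
theorem yel_coe (p : ℕ) : (yel p : Matrix (Fin 3) (Fin 3) (ZMod p)) = !![1, 0, 0; 0, 1, 1; 0, 0, 1] := rfl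

theorem xy_ne (p : ℕ) [Fact p.Prime] : xel p * yel p ≠ yel p * xel p := by
  intro h
  have h1 := congrArg (fun g : Matrix.SpecialLinearGroup (Fin 3) (ZMod p) => (g : Matrix (Fin 3) (Fin 3) (ZMod p)) 0 2) h
  simp only [Matrix.SpecialLinearGroup.coe_mul, xel_coe, yel_coe, Matrix.mul_apply, Fin.sum_univ_three] at h1
  simp at h1

theorem xel_mem_qd (p : ℕ) : xel p ∈ Cfsg.qd p := by
  apply Subgroup.subset_closure
  simp [xel_coe]

theorem yel_mem_qd (p : ℕ) : yel p ∈ Cfsg.qd p := by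
  apply Subgroup.subset_closure
  simp [yel_coe]

theorem xel_mem_uni (p : ℕ) [Fact p.Prime] : xel p ∈ uni p := by
  change _ ∧ _ ∧ _ ∧ _ ∧ _ ∧ _
  simp [xel_coe]

theorem yel_mem_uni (p : ℕ) [Fact p.Prime] : yel p ∈ uni p := by
  change _ ∧ _ ∧ _ ∧ _ ∧ _ ∧ _
  simp [yel_coe]

/-- Let p be an odd prime and K a finite field of characteristic p. Then Qd(p) (the natural semidirect product of an elementary abelian group of order p² by SL₂(p)) is not involved in the projective special linear group PSL₂(K). -/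
theorem result {p : ℕ} [Fact p.Prime] (hp : p ≠ 2) {K : Type*} [Field K] [Fintype K] [CharP K p] : ¬ Cfsg.Involves ↥(Cfsg.qd p) (Matrix.ProjectiveSpecialLinearGroup (Fin 2) K) := by
  classical
  rintro ⟨H, R, hN, ⟨e⟩⟩
  haveI := hN
  let T : Subgroup ↥(Cfsg.qd p) := (uni p).subgroupOf (Cfsg.qd p)
  have hT : IsPGroup p T := by
    intro g
    refine ⟨1, ?_⟩
    rw [pow_one]
    have hg : ((g : ↥(Cfsg.qd p)) : Matrix.SpecialLinearGroup (Fin 3) (ZMod p)) ∈ uni p := g.2
    apply Subtype.ext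
    apply Subtype.ext
    rw [Subgroup.coe_pow, Subgroup.coe_pow, Subgroup.coe_one, Subgroup.coe_one]
    exact uni_pow p hp _ hg
  have hT' : IsPGroup p (T.comap e.toMonoidHom) := hT.comap_of_injective e.toMonoidHom e.injective
  let X : ↥(Cfsg.qd p) := ⟨xel p, xel_mem_qd p⟩
  let Y : ↥(Cfsg.qd p) := ⟨yel p, yel_mem_qd p⟩
  have hX : e.symm X ∈ T.comap e.toMonoidHom := by
    rw [Subgroup.mem_comap]
    change e (e.symm X) ∈ T
    rw [e.apply_symm_apply]
    exact xel_mem_uni p
  have hY : e.symm Y ∈ T.comap e.toMonoidHom := by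
    rw [Subgroup.mem_comap]
    change e (e.symm Y) ∈ T
    rw [e.apply_symm_apply]
    exact yel_mem_uni p
  have comm := section_abelian p (fun S hS => psl2_pgroups_abelian S hS) H R (T.comap e.toMonoidHom) hT'
    (e.symm X) hX (e.symm Y) hY
  have comm' : X * Y = Y * X := by
    have := congrArg e comm
    simpa using this
  exact xy_ne p (congrArg Subtype.val comm')

end Cfsg.Agent.S2231
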