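import Cfsg.Statements.S2255
import Cfsg.Agent.S2253
import Cfsg.Agent.Lead.NilBound
import Cfsg.Agent.Lead.NilNum
import Cfsg.Agent.Lead.NilN1
import Cfsg.Agent.Lead.NilOrbOdd
import Cfsg.Agent.Helper1.NilPerm
import Cfsg.Agent.Helper13.NilPerm
import Cfsg.Agent.Lead.NilOddNum
import Cfsg.Agent.Helper3.NilAlt
import Cfsg.Agent.Helper13.NilAlt
import Cfsg.Agent.Helper24.NilAlt
import Cfsg.Agent.Helper21.NilAlt

set_option autoImplicit false
open Cfsg

namespace Cfsg.Agent.S2255


/-- a nilpotent subgroup of even order of the alternating group lies, up to a factor 2, below a nilpotent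
subgroup of the symmetric group -/
theorem exists_nilpotent_double {n : ℕ} (N : Subgroup (Equiv.Perm (Fin n))) (hN : Group.IsNilpotent N)
    (hA : N ≤ alternatingGroup (Fin n)) (heven : Even (Nat.card N)) :
    ∃ M : Subgroup (Equiv.Perm (Fin n)), Group.IsNilpotent M ∧ 2 * Nat.card N ≤ Nat.card M := by
  obtain ⟨P⟩ : Nonempty (Sylow 2 N) := inferInstance
  obtain ⟨Q, hQodd, hcomm, hcard⟩ := Cfsg.Agent.Helper3.nil_two_complement hN P
  have h2 : 2 ∣ Nat.card (P : Subgroup N) := by
    have h1 : 2 ∣ Nat.card (P : Subgroup N) * Nat.card Q := by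
      rw [← hcard]; exact even_iff_two_dvd.mp heven
    rcases (Nat.Prime.dvd_mul Nat.prime_two).mp h1 with h | h
    · exact h
    · exact absurd (even_iff_two_dvd.mpr h) (Nat.not_even_iff_odd.mpr hQodd)
  haveI : Fact (Nat.Prime 2) := ⟨Nat.prime_two⟩
  obtain ⟨x, hx⟩ := exists_prime_orderOf_dvd_card' (G := (P : Subgroup N)) 2 h2
  let P' : Subgroup (Equiv.Perm (Fin n)) := (P : Subgroup N).map N.subtype
  let Q' : Subgroup (Equiv.Perm (Fin n)) := Q.map N.subtype
  have hinj : Function.Injective N.subtype := Subgroup.subtype_injective N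
  have hP'card : Nat.card P' = Nat.card (P : Subgroup N) := Subgroup.card_map_of_injective hinj
  have hQ'card : Nat.card Q' = Nat.card Q := Subgroup.card_map_of_injective hinj
  have hP'2 : IsPGroup 2 P' := IsPGroup.map P.isPGroup' N.subtype
  have hP'A : P' ≤ alternatingGroup (Fin n) := by
    rintro _ ⟨y, -, rfl⟩
    exact hA y.2
  have hQ'n : Group.IsNilpotent Q' :=
    Group.nilpotent_of_mulEquiv (Q.equivMapOfInjective N.subtype hinj)
  have hcomm' : ∀ a ∈ P', ∀ b ∈ Q', a * b = b * a := by
    rintro _ ⟨a, ha, rfl⟩ _ ⟨b, hb, rfl⟩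
    have := hcomm a ha b hb
    have h' := congrArg N.subtype this
    simpa using h'
  -- the involution
  let x' : Equiv.Perm (Fin n) := ((x : N) : Equiv.Perm (Fin n))
  have hx1 : x' ≠ 1 := by
    intro h
    have : x = 1 := by
      apply Subtype.ext; apply Subtype.ext; exact h
    rw [this, orderOf_one] at hx
    norm_num at hx
  have hx2 : x' * x' = 1 := by
    have h1 : x ^ 2 = 1 := by
      have h0 := pow_orderOf_eq_one x
      rwa [hx] at h0
    have h2 : ((x ^ 2 : (P : Subgroup N)) : N) = 1 := by rw [h1]; rfl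
    have h3 : (((x ^ 2 : (P : Subgroup N)) : N) : Equiv.Perm (Fin n)) = 1 := by rw [h2]; rfl
    simpa [pow_two] using h3
  have hxQ : ∀ q ∈ Q', x' * q = q * x' := by
    intro q hq
    exact hcomm' x' ⟨(x : N), x.2, rfl⟩ q hq
  obtain ⟨t, ht, hsign⟩ := Cfsg.Agent.Helper13.exists_odd_perm_commuting Q' (by rw [hQ'card]; exact hQodd) x' hx1 hx2 hxQ
  obtain ⟨M, hM, hle⟩ := Cfsg.Agent.Helper24.nil_double_of_odd_centralizer P' Q' hP'2 hP'A (by rw [hQ'card]; exact hQodd)
    hQ'n hcomm' t ht hsign
  refine ⟨M, hM, ?_⟩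
  rw [hP'card, hQ'card, ← hcard] at hle
  exact hle

/-- Let n be a natural number not congruent to 3 modulo 4, with n ∉ {5, 6, 9}. Then every nilpotent subgroup of the alternating group on n letters has order at most the order of a Sylow 2-subgroup of the alternating group (so the nilpotent subgroups of largest order are exactly the Sylow 2-subgroups). -/
theorem result  (n : ℕ) (hn : n % 4 ≠ 3)
    (h5 : n ≠ 5) (h6 : n ≠ 6) (h9 : n ≠ 9)
    (N : Subgroup (alternatingGroup (Fin n))) (hN : Group.IsNilpotent N)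
    (P : Sylow 2 (alternatingGroup (Fin n))) :
    Nat.card N ≤ Nat.card P := by
  haveI : Fact (Nat.Prime 2) := ⟨Nat.prime_two⟩
  rcases Nat.lt_or_ge n 2 with hlt | hge
  · have hsub : Subsingleton (Fin n) := by
      interval_cases n
      · infer_instance
      · infer_instance
    have hN1 : Nat.card N = 1 := by
      have : Subsingleton N := by
        refine ⟨fun a b => ?_⟩
        apply Subtype.ext; apply Subtype.ext
        exact Subsingleton.elim _ _
      exact Nat.card_unique
    rw [hN1]
    exact Nat.card_pos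
  · let N' : Subgroup (Equiv.Perm (Fin n)) := N.map (alternatingGroup (Fin n)).subtype
    have hinj : Function.Injective (alternatingGroup (Fin n)).subtype := Subgroup.subtype_injective _
    have hcardN : Nat.card N' = Nat.card N := Subgroup.card_map_of_injective hinj
    have hN' : Group.IsNilpotent N' :=
      Group.nilpotent_of_mulEquiv (N.equivMapOfInjective _ hinj)
    have hA : N' ≤ alternatingGroup (Fin n) := by
      rintro _ ⟨y, -, rfl⟩
      exact y.2
    haveI : Nontrivial (Fin n) := Fin.nontrivial_iff_two_le.mpr hge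
    have hAcard : 2 * Nat.card (alternatingGroup (Fin n)) = n.factorial := by
      have h1 := two_mul_card_alternatingGroup (α := Fin n)
      rw [Fintype.card_perm, Fintype.card_fin] at h1
      rw [Nat.card_eq_fintype_card]
      exact h1
    have hApos : Nat.card (alternatingGroup (Fin n)) ≠ 0 := Nat.card_pos.ne'
    have hP : 2 * Nat.card P = 2 ^ (n.factorial.factorization 2) := by
      rw [Sylow.card_eq_multiplicity, ← hAcard, Nat.factorization_mul (by norm_num) hApos]
      simp [Nat.Prime.factorization_self Nat.prime_two, pow_add]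
    suffices hsuff : 2 * Nat.card N' ≤ 2 ^ (n.factorial.factorization 2) by
      rw [hcardN] at hsuff
      omega
    rcases Nat.even_or_odd (Nat.card N') with heven | hodd
    · obtain ⟨M, hM, hle⟩ := exists_nilpotent_double N' hN' hA heven
      obtain ⟨PS⟩ : Nonempty (Sylow 2 (Equiv.Perm (Fin n))) := inferInstance
      have h1 := Cfsg.Agent.S2253.result n hn M hM PS
      have hPS : Nat.card PS = 2 ^ (n.factorial.factorization 2) := by
        rw [Sylow.card_eq_multiplicity, Nat.card_perm, Nat.card_eq_fintype_card, Fintype.card_fin]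
      omega
    · obtain ⟨l, hoddl, hsum, hle⟩ := Cfsg.Agent.Lead.nil_exists_orbit_multiset_odd Cfsg.Agent.Lead.nilBound
        (fun N Ω _ _ _ _ _ _ h => Cfsg.Agent.Helper13.card_le_nilBound_of N _
          (fun p _ P => Cfsg.Agent.Helper1.nil_sylow_card_dvd h p P)) N' hN' hodd
      rw [Fintype.card_fin] at hsum
      have h2 := Cfsg.Agent.Lead.nil_prod_odd_le Cfsg.Agent.Lead.nilBound Cfsg.Agent.Lead.nilBound_le
        Cfsg.Agent.Lead.nilBound_three Cfsg.Agent.Helper21.nilBound_odd_two_mul_le l hoddl
        (by rw [hsum]; exact hn) (by rw [hsum]; exact h5) (by rw [hsum]; exact h6)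
        (by rw [hsum]; exact h9) (by rw [hsum]; exact hge)
      rw [hsum] at h2
      calc 2 * Nat.card N' ≤ 2 * (l.map Cfsg.Agent.Lead.nilBound).prod := Nat.mul_le_mul_left _ hle
        _ ≤ _ := h2

end Cfsg.Agent.S2255
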