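import Cfsg.Statements.S2268
-- import your own Cfsg.Agent.* helpers here

set_option autoImplicit false
open Cfsg

namespace Cfsg.Agent.S2268

/-- Let G be a finite group with an abelian Sylow p-subgroup P and let Q ≤ P. Then N_G(Q) = (N_G(Q) ∩ N_G(P))·C_G(Q), so that N_G(Q)/C_G(Q) is a homomorphic image of the subgroup (N_G(Q) ∩ N_G(P))/C_G(P) of N_G(P)/C_G(P); in particular the order of N_G(Q)/C_G(Q) divides the order of N_G(P)/C_G(P). -/
theorem result {G : Type*} [Group G] [Finite G] {p : ℕ} [Fact p.Prime]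
    (P : Sylow p G) (hP : IsMulCommutative (P : Subgroup G)) (Q : Subgroup G) (hQ : Q ≤ (P : Subgroup G)) :
    Subgroup.normalizer (Q : Set G) =
      (Subgroup.normalizer (Q : Set G) ⊓ Subgroup.normalizer ((P : Subgroup G) : Set G)) ⊔ Subgroup.centralizer (Q : Set G) ∧
    ((Subgroup.centralizer (Q : Set G)).subgroupOf (Subgroup.normalizer (Q : Set G))).index ∣ ((Subgroup.centralizer ((P : Subgroup G) : Set G)).subgroupOf (Subgroup.normalizer ((P : Subgroup G) : Set G))).index := by
  classical
  have hPc : IsMulCommutative (P : Subgroup G) := hP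
  have hCPQ : Subgroup.centralizer ((P : Subgroup G) : Set G) ≤ Subgroup.centralizer (Q : Set G) :=
    Subgroup.centralizer_le hQ
  have h1 : (P : Subgroup G) ≤ Subgroup.centralizer (Q : Set G) :=
    le_trans (Subgroup.le_centralizer (P : Subgroup G)) hCPQ
  have hCN : Subgroup.centralizer (Q : Set G) ≤ Subgroup.normalizer (Q : Set G) :=
    Subgroup.centralizer_le_normalizer _
  have hCNP : Subgroup.centralizer ((P : Subgroup G) : Set G) ≤ Subgroup.normalizer ((P : Subgroup G) : Set G) :=
    Subgroup.centralizer_le_normalizer _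
  -- part 1
  have part1 : Subgroup.normalizer (Q : Set G) =
      (Subgroup.normalizer (Q : Set G) ⊓ Subgroup.normalizer ((P : Subgroup G) : Set G)) ⊔ Subgroup.centralizer (Q : Set G) := by
    apply le_antisymm
    · intro g hg
      have h2 : ((g • P : Sylow p G) : Subgroup G) ≤ Subgroup.centralizer (Q : Set G) := by
        rintro - ⟨x, hx, rfl⟩
        rw [Subgroup.mem_centralizer_iff]
        intro q hq
        have hq' : g⁻¹ * q * g ∈ Q := by
          have := (Subgroup.mem_normalizer_iff'.mp hg (g⁻¹ * q)).mpr (by simpa using hq)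
          simpa [mul_assoc] using this
        have hcomm := (Subgroup.mem_centralizer_iff.mp (h1 hx)) (g⁻¹ * q * g) hq'
        change q * (g * x * g⁻¹) = g * x * g⁻¹ * q
        calc q * (g * x * g⁻¹) = g * ((g⁻¹ * q * g) * x) * g⁻¹ := by group
          _ = g * (x * (g⁻¹ * q * g)) * g⁻¹ := by rw [hcomm]
          _ = g * x * g⁻¹ * q := by group
      obtain ⟨c, hc⟩ := MulAction.exists_smul_eq (Subgroup.centralizer (Q : Set G))
        ((g • P).subtype h2) (P.subtype h1)
      simp_rw [Sylow.smul_subtype, Subgroup.smul_def, smul_smul] at hc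
      have hcg : (c : G) * g ∈ Subgroup.normalizer ((P : Subgroup G) : Set G) :=
        Sylow.smul_eq_iff_mem_normalizer.mp (Sylow.subtype_injective hc)
      have hcgQ : (c : G) * g ∈ Subgroup.normalizer (Q : Set G) :=
        mul_mem (hCN c.2) hg
      have : g = (c : G)⁻¹ * ((c : G) * g) := by group
      rw [this, sup_comm]
      exact Subgroup.mul_mem_sup (inv_mem c.2) ⟨hcgQ, hcg⟩
    · exact sup_le inf_le_left hCN
  refine ⟨part1, ?_⟩
  -- part 2
  have hA1 : Subgroup.normalizer (Q : Set G) ⊓ Subgroup.normalizer ((P : Subgroup G) : Set G) ≤ Subgroup.normalizer (Q : Set G) := inf_le_left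
  have hA2 : Subgroup.normalizer (Q : Set G) ⊓ Subgroup.normalizer ((P : Subgroup G) : Set G) ≤ Subgroup.normalizer ((P : Subgroup G) : Set G) := inf_le_right
  have e1 : ((Subgroup.centralizer (Q : Set G)).subgroupOf (Subgroup.normalizer (Q : Set G))).index
      = (Subgroup.centralizer (Q : Set G)).relIndex (Subgroup.normalizer (Q : Set G) ⊓ Subgroup.normalizer ((P : Subgroup G) : Set G)) := by
    rw [← Subgroup.relIndex_subgroupOf (H := Subgroup.centralizer (Q : Set G)) hA1]
    rw [← Subgroup.relIndex_sup_right]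
    have htop : (Subgroup.normalizer (Q : Set G) ⊓ Subgroup.normalizer ((P : Subgroup G) : Set G)).subgroupOf (Subgroup.normalizer (Q : Set G)) ⊔ (Subgroup.centralizer (Q : Set G)).subgroupOf (Subgroup.normalizer (Q : Set G)) = ⊤ := by
      rw [← Subgroup.subgroupOf_sup hA1 hCN, ← part1, Subgroup.subgroupOf_self]
    rw [htop, Subgroup.relIndex_top_right]
  rw [e1]
  refine dvd_trans (Subgroup.relIndex_dvd_of_le_left _ hCPQ) ?_
  rw [← Subgroup.relIndex_subgroupOf (H := Subgroup.centralizer ((P : Subgroup G) : Set G)) hA2]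
  exact Subgroup.relIndex_dvd_index_of_normal _ _

end Cfsg.Agent.S2268
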