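import Cfsg.Statements.S2269
-- import your own Cfsg.Agent.* helpers here

set_option autoImplicit false
open Cfsg

namespace Cfsg.Agent.S2269

open scoped Pointwise

theorem conj_pow_inv {G : Type*} [Group G] (m x : G) (h : m⁻¹ * x * m = x⁻¹) (k : ℕ) (hk : Odd k) :
    (m ^ k)⁻¹ * x * m ^ k = x⁻¹ := by
  obtain ⟨j, rfl⟩ := hk
  induction j with
  | zero => simpa using h
  | succ j ih =>
    have e : m ^ (2 * (j + 1) + 1) = m ^ (2 * j + 1) * m * m := by
      rw [show 2 * (j + 1) + 1 = (2 * j + 1) + 1 + 1 by ring, pow_succ, pow_succ]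
    rw [e]
    have h' : m⁻¹ * x⁻¹ * m = x := by
      have := congrArg (fun y => y⁻¹) h
      simpa [mul_assoc] using this
    calc (m ^ (2 * j + 1) * m * m)⁻¹ * x * (m ^ (2 * j + 1) * m * m)
        = m⁻¹ * (m⁻¹ * ((m ^ (2 * j + 1))⁻¹ * x * m ^ (2 * j + 1)) * m) * m := by group
      _ = m⁻¹ * (m⁻¹ * x⁻¹ * m) * m := by rw [ih]
      _ = x⁻¹ := by rw [h', h]

theorem even_index_of_invert {G : Type*} [Group G] [Finite G] {p : ℕ} [Fact p.Prime] (P : Sylow p G)
    (hP : IsMulCommutative (P : Subgroup G)) (x g : G) (hx : x ∈ P) (hx2 : x ^ 2 ≠ 1)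
    (hg : g⁻¹ * x * g = x⁻¹) :
    2 ∣ ((Subgroup.centralizer ((P : Subgroup G) : Set G)).subgroupOf
      (Subgroup.normalizer ((P : Subgroup G) : Set G))).index := by
  classical
  haveI : IsMulCommutative (P : Subgroup G) := hP
  have hmem : g⁻¹ * x * g ∈ (P : Subgroup G) := by
    rw [hg]; exact inv_mem hx
  obtain ⟨m, hmN, hm⟩ := P.conj_eq_normalizer_conj_of_mem x g hx hmem
  rw [hg] at hm
  by_contra hodd
  have hodd' : Odd ((Subgroup.centralizer ((P : Subgroup G) : Set G)).subgroupOf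
      (Subgroup.normalizer ((P : Subgroup G) : Set G))).index := by
    rcases Nat.even_or_odd ((Subgroup.centralizer ((P : Subgroup G) : Set G)).subgroupOf
      (Subgroup.normalizer ((P : Subgroup G) : Set G))).index with h | h
    · exact absurd (even_iff_two_dvd.mp h) hodd
    · exact h
  have hpow := Subgroup.pow_index_mem ((Subgroup.centralizer ((P : Subgroup G) : Set G)).subgroupOf
      (Subgroup.normalizer ((P : Subgroup G) : Set G)))
      (⟨m, hmN⟩ : Subgroup.normalizer ((P : Subgroup G) : Set G))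
  rw [Subgroup.mem_subgroupOf] at hpow
  have hcomm := hpow x hx
  have hinv := conj_pow_inv m x hm.symm _ hodd'
  simp only [Subgroup.coe_pow] at hcomm
  rw [mul_assoc, hcomm, ← mul_assoc, inv_mul_cancel, one_mul] at hinv
  apply hx2
  rw [pow_two]
  nth_rewrite 1 [hinv]
  exact inv_mul_cancel x

theorem pgroups_abelian_of_sylow {G : Type*} [Group G] [Finite G] (p : ℕ) [Fact p.Prime]
    (P : Sylow p G) (hP : ∀ a ∈ P, ∀ b ∈ P, a * b = b * a) (S : Subgroup G) (hS : IsPGroup p S) :
    ∀ a ∈ S, ∀ b ∈ S, a * b = b * a := by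
  obtain ⟨Q, hQ⟩ := hS.exists_le_sylow
  obtain ⟨g, rfl⟩ := MulAction.exists_smul_eq G P Q
  intro a ha b hb
  have ha' : a ∈ MulAut.conj g • (P : Subgroup G) := hQ ha
  have hb' : b ∈ MulAut.conj g • (P : Subgroup G) := hQ hb
  obtain ⟨x, hx, rfl⟩ := (Subgroup.mem_smul_pointwise_iff_exists _ _ _).mp ha'
  obtain ⟨y, hy, rfl⟩ := (Subgroup.mem_smul_pointwise_iff_exists _ _ _).mp hb'
  have hxy := hP x hx y hy
  simp only [MulAut.smul_def, MulAut.conj_apply]
  calc g * x * g⁻¹ * (g * y * g⁻¹) = g * (x * y) * g⁻¹ := by group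
    _ = g * (y * x) * g⁻¹ := by rw [hxy]
    _ = g * y * g⁻¹ * (g * x * g⁻¹) := by group

/-- the odd case -/
theorem odd_case (n : ℕ) (hn : 5 ≤ n) {p : ℕ} [Fact p.Prime] (hp2 : p ≠ 2)
    (P : Sylow p (alternatingGroup (Fin n))) (hP : IsMulCommutative (P : Subgroup (alternatingGroup (Fin n)))) :
    2 ∣ ((Subgroup.centralizer ((P : Subgroup (alternatingGroup (Fin n))) : Set (alternatingGroup (Fin n)))).subgroupOf (Subgroup.normalizer ((P : Subgroup (alternatingGroup (Fin n))) : Set (alternatingGroup (Fin n))))).index ∨ IsCyclic (P : Subgroup (alternatingGroup (Fin n))) := by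
  classical
  have hpprime : p.Prime := Fact.out
  haveI : Nontrivial (Fin n) := Fin.nontrivial_iff_two_le.mpr (by omega)
  obtain ⟨j, hj⟩ := IsPGroup.iff_card.mp P.isPGroup'
  rcases Nat.eq_zero_or_pos j with hj0 | hjpos
  · right
    rw [hj0, pow_zero] at hj
    haveI : Subsingleton (P : Subgroup (alternatingGroup (Fin n))) := (Nat.card_eq_one_iff_unique.mp hj).1
    exact isCyclic_of_subsingleton
  have hdvdP : p ∣ Nat.card (P : Subgroup (alternatingGroup (Fin n))) := by
    rw [hj]; exact dvd_pow_self p (by omega)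
  obtain ⟨y, hy⟩ := exists_prime_orderOf_dvd_card' p hdvdP
  obtain ⟨x, hx⟩ : ∃ x : alternatingGroup (Fin n), x = (y : alternatingGroup (Fin n)) := ⟨_, rfl⟩
  have hxP : x ∈ (P : Subgroup (alternatingGroup (Fin n))) := hx ▸ y.2
  have hxord : orderOf x = p := by
    rw [hx, Subgroup.orderOf_coe]; exact hy
  obtain ⟨σ, hσ⟩ : ∃ σ : Equiv.Perm (Fin n), σ = (x : Equiv.Perm (Fin n)) := ⟨_, rfl⟩
  have hσord : orderOf σ = p := by
    rw [hσ, Subgroup.orderOf_coe]; exact hxord
  have hx2 : x ^ 2 ≠ 1 := by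
    intro h
    have : p ∣ 2 := by
      rw [← hxord]; exact orderOf_dvd_of_pow_eq_one h
    exact hp2 ((Nat.prime_dvd_prime_iff_eq hpprime Nat.prime_two).mp this)
  by_cases hcent : Subgroup.centralizer {σ} ≤ alternatingGroup (Fin n)
  · right
    obtain ⟨k, hk⟩ := Equiv.Perm.cycleType_prime_order (σ := σ) (by rw [hσord]; exact hpprime)
    rw [hσord] at hk
    have hcount := Equiv.Perm.count_le_one_of_centralizer_le_alternating hcent p
    rw [hk, Multiset.count_replicate_self] at hcount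
    have hk0 : k = 0 := by omega
    have hsum : σ.cycleType.sum = p := by
      rw [hk, hk0, Multiset.sum_replicate]; simp
    have hle := Equiv.Perm.card_le_of_centralizer_le_alternating hcent
    rw [hsum, Fintype.card_fin] at hle
    have hpn : p ≤ n := by
      have := Equiv.Perm.sum_cycleType_le σ
      rw [hsum, Fintype.card_fin] at this
      exact this
    have hdvd : p ^ j ∣ n.factorial := by
      have h1 : p ^ j ∣ Nat.card (alternatingGroup (Fin n)) := by
        rw [← hj]; exact Subgroup.card_subgroup_dvd_card _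
      have h2 : Nat.card (alternatingGroup (Fin n)) ∣ n.factorial := by
        have := two_mul_nat_card_alternatingGroup (α := Fin n)
        rw [Nat.card_perm, Nat.card_eq_fintype_card (α := Fin n), Fintype.card_fin] at this
        exact Dvd.intro_left _ this
      exact h1.trans h2
    have hp3 : 3 ≤ p := by
      have := hpprime.two_le
      omega
    have hlog : Nat.log p n < 2 := by
      apply Nat.log_lt_of_lt_pow (by omega)
      nlinarith
    rw [Nat.Prime.pow_dvd_factorial_iff hpprime hlog] at hdvd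
    have hdiv : n / p = 1 := by
      apply Nat.div_eq_of_lt_le <;> omega
    simp [hdiv] at hdvd
    have hj1 : j = 1 := by omega
    rw [hj1, pow_one] at hj
    exact isCyclic_of_prime_card hj
  · left
    obtain ⟨τ, hτ1, hτ2⟩ := SetLike.not_le_iff_exists.mp hcent
    have hτsign : Equiv.Perm.sign τ = -1 := by
      rcases Int.units_eq_one_or (Equiv.Perm.sign τ) with h | h
      · exact absurd (Equiv.Perm.mem_alternatingGroup.mpr h) hτ2
      · exact h
    rw [Subgroup.mem_centralizer_singleton_iff] at hτ1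
    have hconj : IsConj σ σ⁻¹ := by
      rw [Equiv.Perm.isConj_iff_cycleType_eq, Equiv.Perm.cycleType_inv]
    obtain ⟨c, hc⟩ := isConj_iff.mp hconj
    obtain ⟨g₀, hg₀s, hg₀⟩ : ∃ g₀ : Equiv.Perm (Fin n), Equiv.Perm.sign g₀ = 1 ∧ g₀ * σ * g₀⁻¹ = σ⁻¹ := by
      rcases Int.units_eq_one_or (Equiv.Perm.sign c) with h | h
      · exact ⟨c, h, hc⟩
      · refine ⟨c * τ, by rw [map_mul, h, hτsign]; norm_num, ?_⟩
        calc c * τ * σ * (c * τ)⁻¹ = c * (τ * σ * τ⁻¹) * c⁻¹ := by group
          _ = c * (σ * τ * τ⁻¹) * c⁻¹ := by rw [hτ1]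
          _ = c * σ * c⁻¹ := by group
          _ = σ⁻¹ := hc
    obtain ⟨g, hg⟩ : ∃ g : alternatingGroup (Fin n), (g : Equiv.Perm (Fin n)) = g₀ :=
      ⟨⟨g₀, Equiv.Perm.mem_alternatingGroup.mpr hg₀s⟩, rfl⟩
    have hgx : (g⁻¹)⁻¹ * x * g⁻¹ = x⁻¹ := by
      apply Subtype.ext
      simp only [inv_inv, Subgroup.coe_mul, Subgroup.coe_inv, hg, ← hσ]
      exact hg₀
    exact even_index_of_invert P hP x g⁻¹ hxP hx2 hgx

theorem dihedral_pgroup {G : Type*} [Group G] (z s : G) (hz : z ^ 4 = 1) (hs : s ^ 2 = 1)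
    (hsz : s * z * s⁻¹ = z⁻¹) :
    IsPGroup 2 (Subgroup.zpowers s ⊔ Subgroup.zpowers z : Subgroup G) := by
  have hsz' : s⁻¹ * z * s = z⁻¹ := by
    have h1 : z = s⁻¹ * z⁻¹ * s := by rw [← hsz]; group
    calc s⁻¹ * z * s = (s⁻¹ * z⁻¹ * s)⁻¹ := by group
      _ = z⁻¹ := by rw [← h1]
  apply IsPGroup.to_sup_of_normal_right'
  · rintro ⟨g, hg⟩
    obtain ⟨k, rfl⟩ := Subgroup.mem_zpowers_iff.mp hg
    refine ⟨1, Subtype.ext ?_⟩
    simp only [pow_one, Subgroup.coe_pow, Subgroup.coe_one]
    rw [← zpow_natCast, ← zpow_mul, mul_comm, zpow_mul, zpow_natCast, hs, one_zpow]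
  · rintro ⟨g, hg⟩
    obtain ⟨k, rfl⟩ := Subgroup.mem_zpowers_iff.mp hg
    refine ⟨2, Subtype.ext ?_⟩
    simp only [Subgroup.coe_pow, Subgroup.coe_one]
    rw [← zpow_natCast, ← zpow_mul, mul_comm, zpow_mul, zpow_natCast]
    norm_num
    rw [hz, one_zpow]
  · rw [Subgroup.zpowers_le, Subgroup.mem_normalizer_iff]
    intro h
    constructor
    · intro hh
      obtain ⟨k, rfl⟩ := Subgroup.mem_zpowers_iff.mp hh
      rw [← conj_zpow, hsz, inv_zpow]
      exact inv_mem (Subgroup.zpow_mem_zpowers z k)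
    · intro hh
      obtain ⟨k, hk⟩ := Subgroup.mem_zpowers_iff.mp hh
      have h1 : h = s⁻¹ * z ^ k * s := by rw [hk]; group
      have h2 : s⁻¹ * z ^ k * s = (s⁻¹ * z * s) ^ k := by
        have := conj_zpow (a := s⁻¹) (b := z) (i := k)
        rw [inv_inv] at this
        exact this.symm
      rw [h1, h2, hsz', inv_zpow]
      exact inv_mem (Subgroup.zpow_mem_zpowers z k)

theorem sylow_two_not_comm {G : Type*} [Group G] [Finite G] [Fact (Nat.Prime 2)] (P : Sylow 2 G) (z s : G)
    (hz : z ^ 4 = 1) (hs : s ^ 2 = 1) (hsz : s * z * s⁻¹ = z⁻¹) (hz2 : z ^ 2 ≠ 1) :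
    ¬ IsMulCommutative (P : Subgroup G) := by
  intro hP
  have hPc : ∀ a ∈ P, ∀ b ∈ P, a * b = b * a := fun a ha b hb => by
    have := (isMulCommutative_iff.mp hP) ⟨a, ha⟩ ⟨b, hb⟩
    exact congrArg Subtype.val this
  have hQ := dihedral_pgroup z s hz hs hsz
  have hcomm := pgroups_abelian_of_sylow 2 P hPc _ hQ s
    (Subgroup.mem_sup_left (Subgroup.mem_zpowers s)) z (Subgroup.mem_sup_right (Subgroup.mem_zpowers z))
  apply hz2
  have h1 : z⁻¹ = z := by rw [← hsz, hcomm, mul_inv_cancel_right]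
  rw [pow_two]
  nth_rewrite 1 [← h1]
  exact inv_mul_cancel z

theorem exists_emb (n : ℕ) (hn : 6 ≤ n) : ∃ ι : Equiv.Perm (Fin 6) →* Equiv.Perm (Fin n),
    Function.Injective ι ∧ ∀ e, Equiv.Perm.sign (ι e) = Equiv.Perm.sign e := by
  classical
  let f : Fin 6 ≃ {x : Fin n // x.val < 6} :=
    { toFun := fun i => ⟨⟨i.val, by omega⟩, i.2⟩
      invFun := fun x => ⟨x.1.val, x.2⟩
      left_inv := fun i => rfl
      right_inv := fun x => rfl }
  exact ⟨Equiv.Perm.extendDomainHom f, Equiv.Perm.extendDomainHom_injective f,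
    fun e => Equiv.Perm.sign_extendDomain e f⟩

/-- `(0 1 2 3)(4 5)` -/
def z0 : Equiv.Perm (Fin 6) := Equiv.swap 0 1 * Equiv.swap 1 2 * Equiv.swap 2 3 * Equiv.swap 4 5

/-- `(1 3)(4 5)` -/
def s0 : Equiv.Perm (Fin 6) := Equiv.swap 1 3 * Equiv.swap 4 5

theorem z0_pow : z0 ^ 4 = 1 := by decide
theorem s0_pow : s0 ^ 2 = 1 := by decide
theorem s0_z0 : s0 * z0 * s0⁻¹ = z0⁻¹ := by decide
theorem z0_sq : z0 ^ 2 ≠ 1 := by decide
theorem z0_sign : Equiv.Perm.sign z0 = 1 := by decide
theorem s0_sign : Equiv.Perm.sign s0 = 1 := by decide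

theorem two_case (n : ℕ) (hn : 6 ≤ n) [Fact (Nat.Prime 2)] (P : Sylow 2 (alternatingGroup (Fin n))) :
    ¬ IsMulCommutative (P : Subgroup (alternatingGroup (Fin n))) := by
  obtain ⟨ι, hinj, hsign⟩ := exists_emb n hn
  obtain ⟨z, hz⟩ : ∃ z : alternatingGroup (Fin n), (z : Equiv.Perm (Fin n)) = ι z0 :=
    ⟨⟨ι z0, Equiv.Perm.mem_alternatingGroup.mpr (by rw [hsign, z0_sign])⟩, rfl⟩
  obtain ⟨s, hs⟩ : ∃ s : alternatingGroup (Fin n), (s : Equiv.Perm (Fin n)) = ι s0 :=
    ⟨⟨ι s0, Equiv.Perm.mem_alternatingGroup.mpr (by rw [hsign, s0_sign])⟩, rfl⟩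
  apply sylow_two_not_comm P z s
  · apply Subtype.ext
    rw [Subgroup.coe_pow, hz, ← map_pow, z0_pow, map_one, Subgroup.coe_one]
  · apply Subtype.ext
    rw [Subgroup.coe_pow, hs, ← map_pow, s0_pow, map_one, Subgroup.coe_one]
  · apply Subtype.ext
    rw [Subgroup.coe_mul, Subgroup.coe_mul, Subgroup.coe_inv, Subgroup.coe_inv, hz, hs, ← map_inv, ← map_mul,
      ← map_mul, s0_z0, map_inv]
  · intro h
    have h1 := congrArg Subtype.val h
    rw [Subgroup.coe_pow, hz, ← map_pow, Subgroup.coe_one, ← map_one ι] at h1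
    exact z0_sq (hinj h1)

set_option maxRecDepth 100000 in
theorem a5_no_order_four : ∀ g : Equiv.Perm (Fin 5), Equiv.Perm.sign g = 1 → g ^ 4 = 1 → g ^ 2 = 1 := by
  decide +kernel

theorem a5_case [Fact (Nat.Prime 2)] (P : Sylow 2 (alternatingGroup (Fin 5)))
    (hP : IsMulCommutative (P : Subgroup (alternatingGroup (Fin 5)))) :
    ((Subgroup.centralizer ((P : Subgroup (alternatingGroup (Fin 5))) : Set (alternatingGroup (Fin 5)))).subgroupOf
      (Subgroup.normalizer ((P : Subgroup (alternatingGroup (Fin 5))) : Set (alternatingGroup (Fin 5))))).index = 3 ∧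
    IsKleinFour (P : Subgroup (alternatingGroup (Fin 5))) := by
  classical
  haveI : IsSimpleGroup (alternatingGroup (Fin 5)) := alternatingGroup.isSimpleGroup_five
  have hG : Nat.card (alternatingGroup (Fin 5)) = 60 := by
    have := two_mul_nat_card_alternatingGroup (α := Fin 5)
    rw [Nat.card_perm, Nat.card_eq_fintype_card (α := Fin 5), Fintype.card_fin] at this
    have h5 : Nat.factorial 5 = 120 := by decide
    omega
  -- card P = 4
  have hPcard : Nat.card (P : Subgroup (alternatingGroup (Fin 5))) = 4 := by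
    obtain ⟨j, hj⟩ := IsPGroup.iff_card.mp P.isPGroup'
    have h1 := (P : Subgroup (alternatingGroup (Fin 5))).card_mul_index
    have h2 := P.not_dvd_index
    rw [hG, hj] at h1
    have hjle : j ≤ 5 := by
      by_contra hcon
      have : 2 ^ 6 ≤ 2 ^ j := Nat.pow_le_pow_right (by norm_num) (by omega)
      have hpos : 0 < (P : Subgroup (alternatingGroup (Fin 5))).index := by
        rcases Nat.eq_zero_or_pos (P : Subgroup (alternatingGroup (Fin 5))).index with h | h
        · rw [h] at h1; omega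
        · exact h
      nlinarith
    rw [hj]
    interval_cases j <;> omega
  have hPC : (P : Subgroup (alternatingGroup (Fin 5))) ≤
      Subgroup.centralizer ((P : Subgroup (alternatingGroup (Fin 5))) : Set (alternatingGroup (Fin 5))) := by
    intro x hx
    rw [Subgroup.mem_centralizer_iff]
    intro y hy
    have := (isMulCommutative_iff.mp hP) ⟨y, hy⟩ ⟨x, hx⟩
    exact congrArg Subtype.val this
  have hPN : (P : Subgroup (alternatingGroup (Fin 5))) ≤
      Subgroup.normalizer ((P : Subgroup (alternatingGroup (Fin 5))) : Set (alternatingGroup (Fin 5))) :=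
    Subgroup.le_normalizer
  have hklein : IsKleinFour (P : Subgroup (alternatingGroup (Fin 5))) := by
    refine ⟨hPcard, ?_⟩
    have hsq : ∀ g : (P : Subgroup (alternatingGroup (Fin 5))), g ^ 2 = 1 := by
      intro g
      have h4 : g ^ 4 = 1 := by rw [← hPcard]; exact pow_card_eq_one'
      have h4' : ((g : alternatingGroup (Fin 5)) : Equiv.Perm (Fin 5)) ^ 4 = 1 := by
        have := congrArg (fun x : (P : Subgroup (alternatingGroup (Fin 5))) =>
          ((x : alternatingGroup (Fin 5)) : Equiv.Perm (Fin 5))) h4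
        simpa using this
      have h2 := a5_no_order_four _ (Equiv.Perm.mem_alternatingGroup.mp (g : alternatingGroup (Fin 5)).2) h4'
      apply Subtype.ext
      apply Subtype.ext
      simpa using h2
    have hdvd : Monoid.exponent (P : Subgroup (alternatingGroup (Fin 5))) ∣ 2 :=
      Monoid.exponent_dvd_of_forall_pow_eq_one hsq
    have hne : Monoid.exponent (P : Subgroup (alternatingGroup (Fin 5))) ≠ 1 := by
      intro h1
      rw [Monoid.exp_eq_one_iff] at h1
      have := Nat.card_eq_one_iff_unique.mpr ⟨h1, ⟨1⟩⟩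
      omega
    rcases (Nat.dvd_prime Nat.prime_two).mp hdvd with h | h
    · exact absurd h hne
    · exact h
  refine ⟨?_, hklein⟩
  obtain ⟨N, hN⟩ : ∃ N : Subgroup (alternatingGroup (Fin 5)),
      N = Subgroup.normalizer ((P : Subgroup (alternatingGroup (Fin 5))) : Set (alternatingGroup (Fin 5))) := ⟨_, rfl⟩
  obtain ⟨C, hC⟩ : ∃ C : Subgroup (alternatingGroup (Fin 5)),
      C = Subgroup.centralizer ((P : Subgroup (alternatingGroup (Fin 5))) : Set (alternatingGroup (Fin 5))) := ⟨_, rfl⟩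
  rw [← hN] at hPN
  rw [← hC] at hPC
  rw [← hN, ← hC]
  have hNcard : Nat.card N ∣ 60 := hG ▸ Subgroup.card_subgroup_dvd_card N
  have hNpos : 0 < Nat.card N := Nat.card_pos
  have h4K : 4 ∣ Nat.card (C.subgroupOf N) := by
    have h1 : (P : Subgroup (alternatingGroup (Fin 5))).subgroupOf N ≤ C.subgroupOf N := fun x hx => hPC hx
    have h2 := Subgroup.card_dvd_of_le h1
    rwa [Nat.card_congr (Subgroup.subgroupOfEquivOfLe hPN).toEquiv, hPcard] at h2
  have hKN := (C.subgroupOf N).card_mul_index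
  have hN60 : Nat.card N ≠ 60 := by
    intro h
    have hNtop : N = ⊤ := Subgroup.eq_top_of_card_eq N (h.trans hG.symm)
    rw [hN, Subgroup.normalizer_eq_top_iff] at hNtop
    rcases hNtop.eq_bot_or_eq_top with h1 | h1
    · rw [h1, Subgroup.card_bot] at hPcard; omega
    · rw [h1, Subgroup.card_top, hG] at hPcard; omega
  have hN20 : Nat.card N ≠ 20 := by
    intro h
    have hidx : N.index = 3 := by
      have := N.card_mul_index
      rw [h, hG] at this
      omega
    have hcore : N.normalCore = ⊥ := by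
      rcases (Subgroup.normalCore_normal N).eq_bot_or_eq_top with h1 | h1
      · exact h1
      · exfalso
        have : N = ⊤ := top_le_iff.mp (h1 ▸ Subgroup.normalCore_le N)
        rw [this, Subgroup.card_top, hG] at h
        omega
    rw [Subgroup.normalCore_eq_ker, MonoidHom.ker_eq_bot_iff] at hcore
    have := Nat.card_le_card_of_injective _ hcore
    rw [hG, Nat.card_perm, ← Subgroup.index_eq_card, hidx] at this
    norm_num [Nat.factorial] at this
  have hKtop : C.subgroupOf N ≠ ⊤ := by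
    intro h
    rw [Subgroup.subgroupOf_eq_top] at h
    have hNC : Subgroup.normalizer ((P : Subgroup (alternatingGroup (Fin 5))) : Set (alternatingGroup (Fin 5))) ≤
        Subgroup.centralizer ((P : Subgroup (alternatingGroup (Fin 5))) : Set (alternatingGroup (Fin 5))) := by
      rw [← hN, ← hC]; exact h
    have hcompl := MonoidHom.ker_transferSylow_isComplement' P hNC
    have hcard := hcompl.card_mul_card
    rw [hPcard, hG] at hcard
    have hnormal : (MonoidHom.transferSylow P hNC).ker.Normal := MonoidHom.normal_ker _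
    rcases hnormal.eq_bot_or_eq_top with h1 | h1
    · rw [h1, Subgroup.card_bot] at hcard; omega
    · rw [h1, Subgroup.card_top, hG] at hcard; omega
  have hKcard : Nat.card (C.subgroupOf N) ≠ Nat.card N := fun h => hKtop (Subgroup.eq_top_of_card_eq _ h)
  obtain ⟨a', ha'⟩ := h4K
  obtain ⟨c, hc⟩ : ∃ c, c = (C.subgroupOf N).index := ⟨_, rfl⟩
  rw [← hc]
  rw [ha', ← hc] at hKN
  rw [ha'] at hKcard
  have h15 : a' * c ∣ 15 := by
    have : 4 * (a' * c) ∣ 4 * 15 := by
      have h60 : (4 : ℕ) * 15 = 60 := by norm_num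
      rw [h60, ← mul_assoc, hKN]
      exact hNcard
    exact Nat.dvd_of_mul_dvd_mul_left (by norm_num) this
  have hc15 : c ∣ 15 := dvd_of_mul_left_dvd h15
  have hcmem : c ∈ Nat.divisors 15 := by simp [hc15]
  have hdiv15 : Nat.divisors 15 = {1, 3, 5, 15} := by decide
  rw [hdiv15] at hcmem
  simp only [Finset.mem_insert, Finset.mem_singleton] at hcmem
  rcases hcmem with rfl | rfl | rfl | rfl
  · omega
  · rfl
  · exfalso
    have h3 : a' ∣ 3 := Nat.dvd_of_mul_dvd_mul_right (by norm_num : 0 < 5) (by simpa using h15)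
    have hle : a' ≤ 3 := Nat.le_of_dvd (by norm_num) h3
    interval_cases a' <;> omega
  · exfalso
    have h1 : a' ∣ 1 := Nat.dvd_of_mul_dvd_mul_right (by norm_num : 0 < 15) (by simpa using h15)
    have hle : a' ≤ 1 := Nat.le_of_dvd (by norm_num) h1
    interval_cases a' <;> omega

/-- Let n ≥ 5 and let P be an abelian Sylow p-subgroup of the alternating group A_n. Then N(P)/C(P) (taken in A_n) has even order, or P is cyclic, except when n = 5 and p = 2, where P is a four-group and N(P)/C(P) has order 3. -/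
theorem result (n : ℕ) (hn : 5 ≤ n) {p : ℕ} [Fact p.Prime]
    (P : Sylow p (alternatingGroup (Fin n))) (hP : IsMulCommutative (P : Subgroup (alternatingGroup (Fin n)))) :
    (¬ (n = 5 ∧ p = 2) → 2 ∣ ((Subgroup.centralizer ((P : Subgroup (alternatingGroup (Fin n))) : Set (alternatingGroup (Fin n)))).subgroupOf (Subgroup.normalizer ((P : Subgroup (alternatingGroup (Fin n))) : Set (alternatingGroup (Fin n))))).index ∨ IsCyclic (P : Subgroup (alternatingGroup (Fin n)))) ∧
    ((n = 5 ∧ p = 2) → ((Subgroup.centralizer ((P : Subgroup (alternatingGroup (Fin n))) : Set (alternatingGroup (Fin n)))).subgroupOf (Subgroup.normalizer ((P : Subgroup (alternatingGroup (Fin n))) : Set (alternatingGroup (Fin n))))).index = 3 ∧ IsKleinFour (P : Subgroup (alternatingGroup (Fin n)))) := by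
  constructor
  · intro hne
    by_cases hp2 : p = 2
    · subst hp2
      exfalso
      exact two_case n (by omega) P hP
    · exact odd_case n hn hp2 P hP
  · rintro ⟨rfl, rfl⟩
    exact a5_case P hP

end Cfsg.Agent.S2269
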