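import Cfsg.Statements.S2270
-- import your own Cfsg.Agent.* helpers here

set_option autoImplicit false
open Cfsg

namespace Cfsg.Agent.S2270

theorem conj_pow_inv {G : Type*} [Group G] (m x : G) (h : m⁻¹ * x * m = x⁻¹) (k : ℕ) (hk : Odd k) :
    (m ^ k)⁻¹ * x * m ^ k = x⁻¹ := by
  obtain ⟨j, rfl⟩ := hk
  induction j with
  | zero => simpa using h
  | succ j ih =>
    have e : m ^ (2 * (j + 1) + 1) = m ^ (2 * j + 1) * m * m := by
      rw [show 2 * (j + 1) + 1 = (2 * j + 1) + 1 + 1 by ring, pow_succ, pow_succ]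
    rw [e]
    have h' : m⁻¹ * x⁻¹ * m = x := by
      have := congrArg (fun y => y⁻¹) h
      simpa [mul_assoc] using this
    calc (m ^ (2 * j + 1) * m * m)⁻¹ * x * (m ^ (2 * j + 1) * m * m)
        = m⁻¹ * (m⁻¹ * ((m ^ (2 * j + 1))⁻¹ * x * m ^ (2 * j + 1)) * m) * m := by group
      _ = m⁻¹ * (m⁻¹ * x⁻¹ * m) * m := by rw [ih]
      _ = x⁻¹ := by rw [h', h]

/-- Let n ≥ 3, p an odd prime, and P an abelian Sylow p-subgroup of the symmetric group S_n (with p dividing n!, so that P ≠ 1). Then N(P)/C(P) has even order. -/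
theorem result (n : ℕ) (hn : 3 ≤ n) {p : ℕ} [Fact p.Prime] (hp : p ≠ 2) (hpn : p ≤ n)
    (P : Sylow p (Equiv.Perm (Fin n))) (hP : IsMulCommutative (P : Subgroup (Equiv.Perm (Fin n)))) :
    2 ∣ ((Subgroup.centralizer ((P : Subgroup (Equiv.Perm (Fin n))) : Set (Equiv.Perm (Fin n)))).subgroupOf (Subgroup.normalizer ((P : Subgroup (Equiv.Perm (Fin n))) : Set (Equiv.Perm (Fin n))))).index := by
  classical
  haveI : IsMulCommutative (P : Subgroup (Equiv.Perm (Fin n))) := hP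
  have hpprime : p.Prime := Fact.out
  -- p divides the order of the symmetric group
  have hdvd : p ∣ Nat.card (Equiv.Perm (Fin n)) := by
    rw [Nat.card_eq_fintype_card, Fintype.card_perm, Fintype.card_fin]
    exact Nat.dvd_factorial hpprime.pos hpn
  have hdvdP : p ∣ Nat.card (P : Subgroup (Equiv.Perm (Fin n))) := P.dvd_card_of_dvd_card hdvd
  obtain ⟨y, hy⟩ := exists_prime_orderOf_dvd_card' p hdvdP
  set x : Equiv.Perm (Fin n) := (y : Equiv.Perm (Fin n)) with hx
  have hxP : x ∈ (P : Subgroup (Equiv.Perm (Fin n))) := y.2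
  have hxord : orderOf x = p := by
    rw [hx, Subgroup.orderOf_coe]; exact hy
  -- x and x⁻¹ are conjugate in the symmetric group
  have hconj : IsConj x x⁻¹ := by
    rw [Equiv.Perm.isConj_iff_cycleType_eq, Equiv.Perm.cycleType_inv]
  obtain ⟨c, hc⟩ := isConj_iff.mp hconj
  -- c * x * c⁻¹ = x⁻¹ ; put g = c⁻¹ so that g⁻¹ * x * g = x⁻¹
  have hg : (c⁻¹)⁻¹ * x * c⁻¹ = x⁻¹ := by simpa using hc
  have hmem : (c⁻¹)⁻¹ * x * c⁻¹ ∈ (P : Subgroup (Equiv.Perm (Fin n))) := by
    rw [hg]; exact inv_mem hxP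
  obtain ⟨m, hmN, hm⟩ := P.conj_eq_normalizer_conj_of_mem x c⁻¹ hxP hmem
  rw [hg] at hm
  by_contra hodd
  have hodd' : Odd ((Subgroup.centralizer ((P : Subgroup (Equiv.Perm (Fin n))) : Set (Equiv.Perm (Fin n)))).subgroupOf (Subgroup.normalizer ((P : Subgroup (Equiv.Perm (Fin n))) : Set (Equiv.Perm (Fin n))))).index := by
    rcases Nat.even_or_odd ((Subgroup.centralizer ((P : Subgroup (Equiv.Perm (Fin n))) : Set (Equiv.Perm (Fin n)))).subgroupOf (Subgroup.normalizer ((P : Subgroup (Equiv.Perm (Fin n))) : Set (Equiv.Perm (Fin n))))).index with h | h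
    · exact absurd (even_iff_two_dvd.mp h) hodd
    · exact h
  have hpow := Subgroup.pow_index_mem ((Subgroup.centralizer ((P : Subgroup (Equiv.Perm (Fin n))) : Set (Equiv.Perm (Fin n)))).subgroupOf (Subgroup.normalizer ((P : Subgroup (Equiv.Perm (Fin n))) : Set (Equiv.Perm (Fin n))))) (⟨m, hmN⟩ : Subgroup.normalizer ((P : Subgroup (Equiv.Perm (Fin n))) : Set (Equiv.Perm (Fin n))))
  rw [Subgroup.mem_subgroupOf] at hpow
  have hcomm := hpow x hxP
  have hinv := conj_pow_inv m x hm.symm _ hodd'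
  simp only [Subgroup.coe_pow] at hcomm
  rw [mul_assoc, hcomm, ← mul_assoc, inv_mul_cancel, one_mul] at hinv
  -- x = x⁻¹ so x ^ 2 = 1
  have hx2 : x ^ 2 = 1 := by
    rw [pow_two]
    nth_rewrite 1 [hinv]
    exact inv_mul_cancel x
  have : p ∣ 2 := by
    rw [← hxord]; exact orderOf_dvd_of_pow_eq_one hx2
  have := (Nat.prime_dvd_prime_iff_eq hpprime Nat.prime_two).mp this
  exact hp this

end Cfsg.Agent.S2270
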