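import Cfsg.Statements.S2336
-- import your own Cfsg.Agent.* helpers here
import Cfsg.Agent.Helper24.PermDecomp

set_option autoImplicit false
open Cfsg

namespace Cfsg.Agent.S2336

open Cfsg.Agent.Helper24

/-- Let F be a finite field with q elements and n ≥ 3. The permutation character of SL_n(F) on the non-zero vectors of F^n (the function sending a matrix to the number of non-zero vectors it fixes) is the sum of the principal character and q − 1 pairwise distinct irreducible complex characters. -/
theorem result {F : Type*} [Field F] [Fintype F] [DecidableEq F] (n : ℕ) (hn : 3 ≤ n) :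
    ∃ χ : Fin (Fintype.card F - 1) → (Matrix.SpecialLinearGroup (Fin n) F → ℂ),
      (∀ i, Cfsg.IsIrrCharacter (Matrix.SpecialLinearGroup (Fin n) F) (χ i)) ∧ Function.Injective χ ∧
      ∀ g : Matrix.SpecialLinearGroup (Fin n) F,
        (Nat.card {v : Fin n → F // v ≠ 0 ∧ (g : Matrix (Fin n) (Fin n) F).mulVec v = v} : ℂ) = 1 + ∑ i, χ i g := by
  classical
  haveI htrans : MulAction.IsPretransitive (Matrix.SpecialLinearGroup (Fin n) F) (NZVec n F) :=
    nzVec_pretransitive hn
  have hnz : (Pi.single (⟨0, by omega⟩ : Fin n) (1 : F) : Fin n → F) ≠ 0 := by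
    intro h
    have h1 := congrFun h (⟨0, by omega⟩ : Fin n)
    rw [Pi.single_eq_same] at h1
    exact one_ne_zero h1
  obtain ⟨χ, h1, h2, h3⟩ := perm_multfree_decomp (G := Matrix.SpecialLinearGroup (Fin n) F)
    (Ω := NZVec n F) ⟨_, hnz⟩ (Fintype.card F) (nzVec_rank hn _)
    (perm_mf_of_swap nzTheta nzTheta_bijective (nzVec_swap hn))
  refine ⟨χ, h1, h2, fun g => ?_⟩
  rw [← h3 g, Nat.card_congr (nzVecFixEquiv g)]

end Cfsg.Agent.S2336
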