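import Cfsg.Statements.S2352
import Mathlib
-- import your own Cfsg.Agent.* helpers here

set_option autoImplicit false
open Cfsg

namespace Cfsg.Agent.S2352

open Equiv

/-- A partial injection on a finite type extends to a permutation. -/
theorem exists_perm_of_partial {α : Type*} [Fintype α] [DecidableEq α] (R : α → α → Prop)
    (hf : ∀ a b b', R a b → R a b' → b = b') (hi : ∀ a a' b, R a b → R a' b → a = a') :
    ∃ σ : Perm α, ∀ a b, R a b → σ a = b := by
  classical
  let s : Finset α := Finset.univ.filter (fun a => ∃ b, R a b)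
  let f : α → α := fun a => if h : ∃ b, R a b then h.choose else a
  have hR : ∀ a, (∃ b, R a b) → R a (f a) := by
    intro a ha
    simp only [f, dif_pos ha]
    exact ha.choose_spec
  have hfs : Set.InjOn f s := by
    intro a ha a' ha' hEq
    rw [Finset.mem_coe] at ha ha'
    simp only [s, Finset.mem_filter, Finset.mem_univ, true_and] at ha ha'
    have h1 := hR a ha
    have h2 := hR a' ha'
    rw [hEq] at h1
    exact hi _ _ _ h1 h2
  obtain ⟨g, hg⟩ := Finset.exists_equiv_extend_of_card_eq (α := α)
    (t := (Finset.univ : Finset α)) (by simp) (s := s) (f := f) (by simp) hfs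
  refine ⟨g.trans (Equiv.subtypeUnivEquiv (fun x => Finset.mem_univ x)), ?_⟩
  intro a b hab
  have ha : a ∈ s := by
    simp only [s, Finset.mem_filter, Finset.mem_univ, true_and]
    exact ⟨b, hab⟩
  have h1 := hg a ha
  have h2 := hR a ⟨b, hab⟩
  simp only [Equiv.trans_apply, Equiv.subtypeUnivEquiv_apply]
  rw [h1]
  exact hf _ _ _ h2 hab

/-- the letter of a word as a permutation -/
def letter {m : ℕ} (σ : ℕ → Perm (Fin m)) (x : ℕ × Bool) : Perm (Fin m) :=
  cond x.2 (σ x.1) (σ x.1)⁻¹

theorem exists_perm_word (L : List (ℕ × Bool)) (hL : FreeGroup.IsReduced L) :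
    ∃ σ : ℕ → Perm (Fin (L.length + 1)), ∀ (j : ℕ) (hj : j < L.length),
      letter σ L[j] ⟨j + 1, by omega⟩ = ⟨j, by omega⟩ := by
  classical
  -- the relation for generator x
  let R : ℕ → Fin (L.length + 1) → Fin (L.length + 1) → Prop := fun x a b =>
    ∃ (j : ℕ) (hj : j < L.length), L[j].1 = x ∧
      ((L[j].2 = true ∧ a.val = j + 1 ∧ b.val = j) ∨ (L[j].2 = false ∧ a.val = j ∧ b.val = j + 1))
  have hchain : ∀ (j : ℕ) (hj : j + 1 < L.length), L[j].1 = L[j + 1].1 → L[j].2 = L[j + 1].2 :=
    fun j hj => List.IsChain.getElem hL j hj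
  have hfun : ∀ x a b b', R x a b → R x a b' → b = b' := by
    rintro x a b b' ⟨j, hj, hx, h⟩ ⟨j', hj', hx', h'⟩
    rcases h with ⟨hs, ha, hb⟩ | ⟨hs, ha, hb⟩ <;> rcases h' with ⟨hs', ha', hb'⟩ | ⟨hs', ha', hb'⟩
    · have : j = j' := by omega
      subst this
      exact Fin.ext (by omega)
    · have hjj : j' = j + 1 := by omega
      subst hjj
      have := hchain j hj' (by rw [hx, hx'])
      rw [hs, hs'] at this
      exact absurd this (by simp)
    · have hjj : j = j' + 1 := by omega
      subst hjj
      have := hchain j' hj (by rw [hx, hx'])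
      rw [hs, hs'] at this
      exact absurd this (by simp)
    · have : j = j' := by omega
      subst this
      exact Fin.ext (by omega)
  have hinj : ∀ x a a' b, R x a b → R x a' b → a = a' := by
    rintro x a a' b ⟨j, hj, hx, h⟩ ⟨j', hj', hx', h'⟩
    rcases h with ⟨hs, ha, hb⟩ | ⟨hs, ha, hb⟩ <;> rcases h' with ⟨hs', ha', hb'⟩ | ⟨hs', ha', hb'⟩
    · have : j = j' := by omega
      subst this
      exact Fin.ext (by omega)
    · have hjj : j = j' + 1 := by omega
      subst hjj
      have := hchain j' hj (by rw [hx, hx'])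
      rw [hs, hs'] at this
      exact absurd this (by simp)
    · have hjj : j' = j + 1 := by omega
      subst hjj
      have := hchain j hj' (by rw [hx, hx'])
      rw [hs, hs'] at this
      exact absurd this (by simp)
    · have : j = j' := by omega
      subst this
      exact Fin.ext (by omega)
  have hex : ∀ x, ∃ σ : Perm (Fin (L.length + 1)), ∀ a b, R x a b → σ a = b :=
    fun x => exists_perm_of_partial (R x) (hfun x) (hinj x)
  choose σ hσ using hex
  refine ⟨σ, ?_⟩
  intro j hj
  rcases hb : L[j].2 with _ | _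
  · -- negative letter
    have hR : R L[j].1 ⟨j, by omega⟩ ⟨j + 1, by omega⟩ :=
      ⟨j, hj, rfl, Or.inr ⟨hb, rfl, rfl⟩⟩
    have := hσ _ _ _ hR
    simp only [letter, hb, cond_false]
    rw [Perm.inv_eq_iff_eq]
    exact this.symm
  · have hR : R L[j].1 ⟨j + 1, by omega⟩ ⟨j, by omega⟩ :=
      ⟨j, hj, rfl, Or.inl ⟨hb, rfl, rfl⟩⟩
    have := hσ _ _ _ hR
    simp only [letter, hb, cond_true]
    exact this

theorem prod_apply_last (L : List (ℕ × Bool)) (σ : ℕ → Perm (Fin (L.length + 1)))
    (hσ : ∀ (j : ℕ) (hj : j < L.length), letter σ L[j] ⟨j + 1, by omega⟩ = ⟨j, by omega⟩) :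
    ∀ d : ℕ, ∀ hd : d ≤ L.length,
      ((L.drop (L.length - d)).map (letter σ)).prod (Fin.last L.length) =
        ⟨L.length - d, by omega⟩ := by
  intro d
  induction d with
  | zero =>
    intro _
    simp only [Nat.sub_zero, List.drop_length, List.map_nil, List.prod_nil, Perm.coe_one, id_eq]
    rfl
  | succ d ih =>
    intro hd
    have hj : L.length - (d + 1) < L.length := by omega
    have h1 : L.length - (d + 1) + 1 = L.length - d := by omega
    rw [List.drop_eq_getElem_cons hj, List.map_cons, List.prod_cons, Perm.mul_apply, h1,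
      ih (by omega)]
    have := hσ (L.length - (d + 1)) hj
    convert this using 2
    exact Fin.ext h1.symm

/-- doubling embedding of `Perm (Fin m)` into permutations of `Fin n`. -/
noncomputable def emb (m n : ℕ) (e : (Fin m ⊕ Fin m) ⊕ Fin (n - 2 * m) ≃ Fin n) :
    Perm (Fin m) →* Perm (Fin n) :=
  (e.permCongrHom.toMonoidHom).comp ((Perm.sumCongrHom _ _).comp
    (MonoidHom.prod ((Perm.sumCongrHom _ _).comp
      (MonoidHom.prod (MonoidHom.id _) (MonoidHom.id _))) 1))

theorem emb_eq (m n : ℕ) (e : (Fin m ⊕ Fin m) ⊕ Fin (n - 2 * m) ≃ Fin n) (τ : Perm (Fin m)) :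
    emb m n e τ = e.permCongr (Equiv.sumCongr (Equiv.sumCongr τ τ) (1 : Perm (Fin (n - 2 * m)))) :=
  rfl

theorem sign_emb (m n : ℕ) (e : (Fin m ⊕ Fin m) ⊕ Fin (n - 2 * m) ≃ Fin n) (τ : Perm (Fin m)) :
    Perm.sign (emb m n e τ) = 1 := by
  rw [emb_eq, Perm.sign_permCongr]
  have h1 := Perm.sign_sumCongr (Equiv.sumCongr τ τ : Perm (Fin m ⊕ Fin m))
    (1 : Perm (Fin (n - 2 * m)))
  have h2 := Perm.sign_sumCongr τ τ
  rw [show (Equiv.sumCongr (Equiv.sumCongr τ τ) (1 : Perm (Fin (n - 2 * m)))) =
    Perm.sumCongr (Perm.sumCongr τ τ) 1 from rfl, h1, h2]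
  simp [Int.units_mul_self]

theorem emb_apply (m n : ℕ) (e : (Fin m ⊕ Fin m) ⊕ Fin (n - 2 * m) ≃ Fin n) (τ : Perm (Fin m))
    (x : Fin m) : emb m n e τ (e (Sum.inl (Sum.inl x))) = e (Sum.inl (Sum.inl (τ x))) := by
  rw [emb_eq]
  simp [Equiv.permCongr_apply]

/-- A non-trivial law holds in only finitely many alternating groups: for every non-trivial element w of the free group on countably many generators there is N such that for all n ≥ N some substitution of elements of the alternating group of degree n into w is not the identity. -/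
theorem result (w : FreeGroup ℕ) (hw : w ≠ 1) :
    ∃ N : ℕ, ∀ n : ℕ, N ≤ n → ∃ f : ℕ → alternatingGroup (Fin n), FreeGroup.lift f w ≠ 1 := by

  classical
  set L := w.toWord with hLdef
  have hred : FreeGroup.IsReduced L := FreeGroup.isReduced_toWord
  have hLne : L ≠ [] := fun h => hw (FreeGroup.toWord_eq_nil_iff.1 h)
  have hlen : 0 < L.length := List.length_pos_iff.2 hLne
  obtain ⟨σ, hσ⟩ := exists_perm_word L hred
  have hprod := prod_apply_last L σ hσ L.length le_rfl
  simp only [Nat.sub_self, List.drop_zero] at hprod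
  -- lift σ w moves the last point
  have hlift : FreeGroup.lift σ w = (L.map (letter σ)).prod := by
    conv_lhs => rw [← FreeGroup.mk_toWord (x := w)]
    rw [FreeGroup.lift_mk]
    rfl
  have hne : FreeGroup.lift σ w ≠ 1 := by
    intro h
    rw [hlift] at h
    rw [h] at hprod
    have h0 : (Fin.last L.length).val = 0 := by
      have := congrArg Fin.val hprod
      simpa only [Perm.coe_one, id_eq] using this
    simp only [Fin.val_last] at h0
    omega
  refine ⟨2 * (L.length + 1), fun n hn => ?_⟩
  have hcard : Fintype.card ((Fin (L.length + 1) ⊕ Fin (L.length + 1)) ⊕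
      Fin (n - 2 * (L.length + 1))) = Fintype.card (Fin n) := by
    simp only [Fintype.card_sum, Fintype.card_fin]
    omega
  let e := Fintype.equivOfCardEq hcard
  let ψ : Perm (Fin (L.length + 1)) →* alternatingGroup (Fin n) :=
    MonoidHom.codRestrict (emb (L.length + 1) n e) (alternatingGroup (Fin n))
      (fun τ => Equiv.Perm.mem_alternatingGroup.2 (sign_emb _ _ e τ))
  refine ⟨fun i => ψ (σ i), fun h => hne ?_⟩
  have hcomp : FreeGroup.lift (fun i => ψ (σ i)) = ψ.comp (FreeGroup.lift σ) := by
    apply FreeGroup.ext_hom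
    intro a
    simp
  rw [hcomp] at h
  have h1 : emb (L.length + 1) n e (FreeGroup.lift σ w) = 1 := by
    have := congrArg Subtype.val h
    simpa [ψ] using this
  ext x
  have h2 := emb_apply (L.length + 1) n e (FreeGroup.lift σ w) x
  rw [h1] at h2
  have h3 := Sum.inl_injective (Sum.inl_injective (e.injective h2))
  simp [← h3]

end Cfsg.Agent.S2352
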