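import Cfsg.Statements.S2353
import Mathlib
-- import your own Cfsg.Agent.* helpers here

set_option autoImplicit false
open Cfsg

namespace Cfsg.Agent.S2353

open Polynomial

section aux

variable {F : Type*} [Field F]

/-- one step of the degree ping-pong on pairs of polynomials. -/
theorem step (x y p : F[X]) (d : ℕ) (hd : 1 ≤ d) (hp : p.natDegree = d) (hp0 : p ≠ 0)
    (hx : x ≠ 0) (hy : y ≠ 0) (hne : y.natDegree ≠ x.natDegree + d) :
    p * x + y ≠ 0 ∧ x + p * (p * x + y) ≠ 0 ∧
      (x + p * (p * x + y)).natDegree = (p * x + y).natDegree + d ∧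
      ((p * x + y).natDegree = x.natDegree + d ∨ (p * x + y).natDegree = y.natDegree) ∧
      x.natDegree + d ≤ (p * x + y).natDegree := by
  have hpx : (p * x).natDegree = x.natDegree + d := by
    rw [Polynomial.natDegree_mul hp0 hx, hp, add_comm]
  have hy' : ((p * x + y).natDegree = x.natDegree + d ∨ (p * x + y).natDegree = y.natDegree) ∧
      x.natDegree + d ≤ (p * x + y).natDegree := by
    rcases lt_or_gt_of_ne hne with h | h
    · have := Polynomial.natDegree_add_eq_left_of_natDegree_lt (p := p * x) (q := y) (by omega)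
      rw [this, hpx]
      exact ⟨Or.inl rfl, le_refl _⟩
    · have := Polynomial.natDegree_add_eq_right_of_natDegree_lt (p := p * x) (q := y) (by omega)
      rw [this]
      exact ⟨Or.inr rfl, by omega⟩
  have hy0 : p * x + y ≠ 0 := by
    intro h
    rw [h, Polynomial.natDegree_zero] at hy'
    omega
  have hpy : (p * (p * x + y)).natDegree = (p * x + y).natDegree + d := by
    rw [Polynomial.natDegree_mul hp0 hy0, hp, add_comm]
  have hx' : (x + p * (p * x + y)).natDegree = (p * x + y).natDegree + d := by
    rw [Polynomial.natDegree_add_eq_right_of_natDegree_lt (by omega), hpy]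
  refine ⟨hy0, ?_, hx', hy'.1, hy'.2⟩
  intro h
  rw [h, Polynomial.natDegree_zero] at hx'
  omega

/-- the vector obtained from `(1, 1)` by the letters of a word. -/
noncomputable def pvec : List (ℕ × Bool) → F[X] × F[X]
  | [] => (1, 1)
  | l :: L =>
    if l.2 then
      ((pvec L).1 + X ^ (l.1 + 1) * (X ^ (l.1 + 1) * (pvec L).1 + (pvec L).2),
        X ^ (l.1 + 1) * (pvec L).1 + (pvec L).2)
    else
      (-(X ^ (l.1 + 1)) * (pvec L).2 + (pvec L).1,
        (pvec L).2 + -(X ^ (l.1 + 1)) * (-(X ^ (l.1 + 1)) * (pvec L).2 + (pvec L).1))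

/-- a degree bound depending only on the word. -/
def bnd : List (ℕ × Bool) → ℕ
  | [] => 0
  | l :: L => 2 * (l.1 + 1) + bnd L

theorem pvec_inv : ∀ L : List (ℕ × Bool), FreeGroup.IsReduced L →
    (pvec (F := F) L).1 ≠ 0 ∧ (pvec (F := F) L).2 ≠ 0 ∧
    (∀ l L', L = l :: L' →
      (l.2 = true → (pvec (F := F) L).1.natDegree = (pvec (F := F) L).2.natDegree + (l.1 + 1)) ∧
      (l.2 = false → (pvec (F := F) L).2.natDegree = (pvec (F := F) L).1.natDegree + (l.1 + 1))) ∧
    (L = [] → (pvec (F := F) L).1.natDegree = 0 ∧ (pvec (F := F) L).2.natDegree = 0) ∧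
    (pvec (F := F) L).1.natDegree ≤ bnd L ∧ (pvec (F := F) L).2.natDegree ≤ bnd L := by
  intro L
  induction L with
  | nil =>
    intro _
    refine ⟨one_ne_zero, one_ne_zero, ?_, ?_, ?_, ?_⟩
    · intro l L' h
      exact absurd h (List.cons_ne_nil _ _).symm
    · intro _
      exact ⟨Polynomial.natDegree_one, Polynomial.natDegree_one⟩
    · show (1 : F[X]).natDegree ≤ _
      rw [Polynomial.natDegree_one]
      exact Nat.zero_le _
    · show (1 : F[X]).natDegree ≤ _
      rw [Polynomial.natDegree_one]
      exact Nat.zero_le _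
  | cons l L ih =>
    intro hred
    have hredL : FreeGroup.IsReduced L := by
      cases L with
      | nil => exact FreeGroup.IsReduced.nil
      | cons b L' => exact (FreeGroup.isReduced_cons_cons.1 hred).2
    obtain ⟨h1, h2, hdeg, hnil, hb1, hb2⟩ := ih hredL
    have hXd : (X ^ (l.1 + 1) : F[X]).natDegree = l.1 + 1 := Polynomial.natDegree_X_pow _
    have hX0 : (X ^ (l.1 + 1) : F[X]) ≠ 0 := pow_ne_zero _ Polynomial.X_ne_zero
    have hnXd : (-(X ^ (l.1 + 1)) : F[X]).natDegree = l.1 + 1 := by
      rw [Polynomial.natDegree_neg, hXd]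
    have hnX0 : (-(X ^ (l.1 + 1)) : F[X]) ≠ 0 := neg_ne_zero.2 hX0
    cases hl2 : l.2 with
    | true =>
      have hne : (pvec (F := F) L).2.natDegree ≠ (pvec (F := F) L).1.natDegree + (l.1 + 1) := by
        cases L with
        | nil =>
          obtain ⟨e1, e2⟩ := hnil rfl
          rw [e1, e2]
          omega
        | cons b L' =>
          obtain ⟨et, ef⟩ := hdeg b L' rfl
          have hr := (FreeGroup.isReduced_cons_cons.1 hred).1
          cases hb : b.2 with
          | true =>
            have := et hb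
            omega
          | false =>
            have := ef hb
            have hne1 : l.1 ≠ b.1 := by
              intro h
              have := hr h
              rw [hl2, hb] at this
              exact Bool.noConfusion this
            omega
      obtain ⟨s1, s2, s3, s4, s5⟩ := step (pvec (F := F) L).1 (pvec (F := F) L).2 (X ^ (l.1 + 1))
        (l.1 + 1) (by omega) hXd hX0 h1 h2 hne
      have hpv : pvec (F := F) (l :: L) =
          ((pvec L).1 + X ^ (l.1 + 1) * (X ^ (l.1 + 1) * (pvec L).1 + (pvec L).2),
            X ^ (l.1 + 1) * (pvec L).1 + (pvec L).2) := by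
        rw [pvec, if_pos hl2]
      rw [hpv]
      dsimp only
      refine ⟨s2, s1, ?_, ?_, ?_, ?_⟩
      · intro l' L'' h
        obtain ⟨rfl, rfl⟩ := List.cons.inj h
        refine ⟨fun _ => s3, fun h' => ?_⟩
        rw [hl2] at h'
        exact Bool.noConfusion h'
      · intro h
        exact absurd h (List.cons_ne_nil _ _)
      · show (_ : F[X]).natDegree ≤ 2 * (l.1 + 1) + bnd L
        rw [s3]
        rcases s4 with s4 | s4 <;> omega
      · show (_ : F[X]).natDegree ≤ 2 * (l.1 + 1) + bnd L
        rcases s4 with s4 | s4 <;> omega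
    | false =>
      have hne : (pvec (F := F) L).1.natDegree ≠ (pvec (F := F) L).2.natDegree + (l.1 + 1) := by
        cases L with
        | nil =>
          obtain ⟨e1, e2⟩ := hnil rfl
          rw [e1, e2]
          omega
        | cons b L' =>
          obtain ⟨et, ef⟩ := hdeg b L' rfl
          have hr := (FreeGroup.isReduced_cons_cons.1 hred).1
          cases hb : b.2 with
          | false =>
            have := ef hb
            omega
          | true =>
            have := et hb
            have hne1 : l.1 ≠ b.1 := by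
              intro h
              have := hr h
              rw [hl2, hb] at this
              exact Bool.noConfusion this
            omega
      obtain ⟨s1, s2, s3, s4, s5⟩ := step (pvec (F := F) L).2 (pvec (F := F) L).1
        (-(X ^ (l.1 + 1))) (l.1 + 1) (by omega) hnXd hnX0 h2 h1 hne
      have hpv : pvec (F := F) (l :: L) =
          (-(X ^ (l.1 + 1)) * (pvec L).2 + (pvec L).1,
            (pvec L).2 + -(X ^ (l.1 + 1)) * (-(X ^ (l.1 + 1)) * (pvec L).2 + (pvec L).1)) := by
        rw [pvec, if_neg (by rw [hl2]; exact Bool.false_ne_true)]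
      rw [hpv]
      dsimp only
      refine ⟨s1, s2, ?_, ?_, ?_, ?_⟩
      · intro l' L'' h
        obtain ⟨rfl, rfl⟩ := List.cons.inj h
        refine ⟨fun h' => ?_, fun _ => s3⟩
        rw [hl2] at h'
        exact Bool.noConfusion h'
      · intro h
        exact absurd h (List.cons_ne_nil _ _)
      · show (_ : F[X]).natDegree ≤ 2 * (l.1 + 1) + bnd L
        rcases s4 with s4 | s4 <;> omega
      · show (_ : F[X]).natDegree ≤ 2 * (l.1 + 1) + bnd L
        rw [s3]
        rcases s4 with s4 | s4 <;> omega

/-- the matrices substituted for the generators. -/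
def g (t : F) (i : ℕ) : Matrix.SpecialLinearGroup (Fin 2) F :=
  ⟨!![1 + (t ^ (i + 1)) ^ 2, t ^ (i + 1); t ^ (i + 1), 1], by
    rw [Matrix.det_fin_two_of]; ring⟩

theorem prod_mulVec (t : F) : ∀ L : List (ℕ × Bool),
    ((L.map fun x => cond x.2 (g t x.1) (g t x.1)⁻¹).prod :
      Matrix.SpecialLinearGroup (Fin 2) F).1.mulVec ![1, 1] =
      ![eval t (pvec (F := F) L).1, eval t (pvec (F := F) L).2] := by
  intro L
  induction L with
  | nil =>
    simp [pvec]
  | cons l L ih =>
    have hmul : ∀ A B : Matrix.SpecialLinearGroup (Fin 2) F, (A * B).1 = A.1 * B.1 := fun A B => rfl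
    obtain ⟨i, b⟩ := l
    cases b with
    | true =>
      have hpv : pvec (F := F) ((i, true) :: L) =
          ((pvec L).1 + X ^ (i + 1) * (X ^ (i + 1) * (pvec L).1 + (pvec L).2),
            X ^ (i + 1) * (pvec L).1 + (pvec L).2) := by
        rw [pvec, if_pos rfl]
      have hprod : (((i, true) :: L).map fun x => cond x.2 (g t x.1) (g t x.1)⁻¹).prod =
          g t i * (L.map fun x => cond x.2 (g t x.1) (g t x.1)⁻¹).prod := rfl
      have hg : (g t i).1 = !![1 + (t ^ (i + 1)) ^ 2, t ^ (i + 1); t ^ (i + 1), 1] := rfl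
      rw [hprod, hpv, hmul, ← Matrix.mulVec_mulVec, ih, hg]
      ext j
      fin_cases j
      · simp [Matrix.mulVec, dotProduct, Fin.sum_univ_two]
        ring
      · simp [Matrix.mulVec, dotProduct, Fin.sum_univ_two]
    | false =>
      have hpv : pvec (F := F) ((i, false) :: L) =
          (-(X ^ (i + 1)) * (pvec L).2 + (pvec L).1,
            (pvec L).2 + -(X ^ (i + 1)) * (-(X ^ (i + 1)) * (pvec L).2 + (pvec L).1)) := by
        rw [pvec, if_neg (by simp)]
      have hprod : (((i, false) :: L).map fun x => cond x.2 (g t x.1) (g t x.1)⁻¹).prod =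
          (g t i)⁻¹ * (L.map fun x => cond x.2 (g t x.1) (g t x.1)⁻¹).prod := rfl
      have hinv : ((g t i)⁻¹ : Matrix.SpecialLinearGroup (Fin 2) F).1 =
          !![1, -(t ^ (i + 1)); -(t ^ (i + 1)), 1 + (t ^ (i + 1)) ^ 2] := by
        rw [Matrix.SpecialLinearGroup.coe_inv]
        show Matrix.adjugate !![1 + (t ^ (i + 1)) ^ 2, t ^ (i + 1); t ^ (i + 1), 1] = _
        rw [Matrix.adjugate_fin_two_of]
      rw [hprod, hpv, hmul, ← Matrix.mulVec_mulVec, ih, hinv]
      ext j
      fin_cases j
      · simp [Matrix.mulVec, dotProduct, Fin.sum_univ_two]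
        ring
      · simp [Matrix.mulVec, dotProduct, Fin.sum_univ_two]
        ring

theorem main [Fintype F] (w : FreeGroup ℕ) (hL : w.toWord ≠ [])
    (hcard : bnd w.toWord + 1 ≤ Fintype.card F) :
    ∃ f : ℕ → Matrix.ProjectiveSpecialLinearGroup (Fin 2) F, FreeGroup.lift f w ≠ 1 := by
  classical
  obtain ⟨h1, h2, hdeg, -, hb1, hb2⟩ := pvec_inv (F := F) w.toWord FreeGroup.isReduced_toWord
  obtain ⟨l, L', hl⟩ := List.exists_cons_of_ne_nil hL
  obtain ⟨Q, hQ⟩ : ∃ Q : F[X], Q = (pvec (F := F) w.toWord).1 - (pvec (F := F) w.toWord).2 :=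
    ⟨_, rfl⟩
  have hQ0 : Q ≠ 0 := by
    intro h
    rw [hQ] at h
    have he : (pvec (F := F) w.toWord).1 = (pvec (F := F) w.toWord).2 := sub_eq_zero.1 h
    obtain ⟨ht, hf⟩ := hdeg l L' hl
    cases hb : l.2 with
    | true =>
      have := ht hb
      rw [he] at this
      omega
    | false =>
      have := hf hb
      rw [he] at this
      omega
  have hQd : Q.natDegree < Fintype.card F := by
    have := Polynomial.natDegree_sub_le (pvec (F := F) w.toWord).1 (pvec (F := F) w.toWord).2
    rw [← hQ] at this
    have h3 : max (pvec (F := F) w.toWord).1.natDegree (pvec (F := F) w.toWord).2.natDegree ≤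
      bnd w.toWord := max_le hb1 hb2
    omega
  obtain ⟨t, ht⟩ : ∃ t : F, eval t Q ≠ 0 := by
    by_contra hcon
    push Not at hcon
    exact hQ0 (Polynomial.eq_zero_of_natDegree_lt_card_of_eval_eq_zero Q (f := id)
      Function.injective_id hcon hQd)
  refine ⟨fun i => QuotientGroup.mk (g t i), ?_⟩
  intro h
  have hcomp : FreeGroup.lift (fun i =>
      (QuotientGroup.mk (g t i) : Matrix.ProjectiveSpecialLinearGroup (Fin 2) F)) =
      (QuotientGroup.mk' _).comp (FreeGroup.lift (g t)) := by
    ext i
    simp
  rw [hcomp] at h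
  have h' : (QuotientGroup.mk (FreeGroup.lift (g t) w) :
      Matrix.ProjectiveSpecialLinearGroup (Fin 2) F) = 1 := h
  rw [QuotientGroup.eq_one_iff, Matrix.SpecialLinearGroup.mem_center_iff] at h'
  obtain ⟨r, -, hs⟩ := h'
  have hS := prod_mulVec t w.toWord
  rw [← FreeGroup.lift_mk, FreeGroup.mk_toWord] at hS
  have hs' : (FreeGroup.lift (g t) w).1 = Matrix.scalar (Fin 2) r := hs.symm
  rw [hs'] at hS
  have e0 := congrFun hS 0
  have e1 := congrFun hS 1
  simp [Matrix.mulVec, dotProduct, Fin.sum_univ_two] at e0 e1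
  apply ht
  rw [hQ, eval_sub, ← e0, ← e1, sub_self]

end aux

/-- A non-trivial law holds in PSL_2 over only finitely many finite fields: for every non-trivial element w of the free group on countably many generators there is N such that over every finite field with at least N elements some substitution of elements of PSL_2 into w is not the identity. -/
theorem result (w : FreeGroup ℕ) (hw : w ≠ 1) :
    ∃ N : ℕ, ∀ (F : Type*) [Field F] [Fintype F], N ≤ Fintype.card F →
      ∃ f : ℕ → Matrix.ProjectiveSpecialLinearGroup (Fin 2) F, FreeGroup.lift f w ≠ 1 := by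
  have hL : w.toWord ≠ [] := fun h => hw (FreeGroup.toWord_eq_nil_iff.1 h)
  refine ⟨bnd w.toWord + 1, ?_⟩
  intro F _ _ hcard
  exact main w hL hcard

end Cfsg.Agent.S2353
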