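import Cfsg.Statements.S2354
import Mathlib
import Cfsg.Agent.S2353
-- import your own Cfsg.Agent.* helpers here

set_option autoImplicit false
open Cfsg

namespace Cfsg.Agent.S2354

open Matrix Polynomial Cfsg.Agent.S2353

section ring

variable {R : Type*} [CommRing R]

def zm (b c : R) : Matrix (Fin 4) (Fin 4) R := !![1, 0, 0, 0; 0, 1, 0, 0; b, 0, 1, 0; c, b, 0, 1]

def zp (b c : R) : Matrix (Fin 4) (Fin 4) R := !![1, 0, b, c; 0, 1, 0, b; 0, 0, 1, 0; 0, 0, 0, 1]

theorem zm_mul_self (h2 : (2 : R) = 0) (b c : R) : zm b c * zm b c = 1 := by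
  ext i j
  fin_cases i <;> fin_cases j <;> simp [zm, Matrix.mul_apply, Fin.sum_univ_four]
  · linear_combination b * h2
  · linear_combination c * h2
  · linear_combination b * h2

theorem zp_mul_self (h2 : (2 : R) = 0) (b c : R) : zp b c * zp b c = 1 := by
  ext i j
  fin_cases i <;> fin_cases j <;> simp [zp, Matrix.mul_apply, Fin.sum_univ_four]
  · linear_combination b * h2
  · linear_combination c * h2
  · linear_combination b * h2

/-- the action of `zm b c` on vectors. -/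
def sm (b c : R) (v : Fin 4 → R) : Fin 4 → R :=
  ![v 0, v 1, v 2 + b * v 0, v 3 + c * v 0 + b * v 1]

/-- the action of `zp b c` on vectors. -/
def sp (b c : R) (v : Fin 4 → R) : Fin 4 → R :=
  ![v 0 + b * v 2 + c * v 3, v 1 + b * v 3, v 2, v 3]

theorem zm_mulVec (b c : R) (v : Fin 4 → R) : (zm b c).mulVec v = sm b c v := by
  ext i
  fin_cases i <;> simp [zm, sm, Matrix.mulVec, dotProduct, Fin.sum_univ_four] <;> ring

theorem zp_mulVec (b c : R) (v : Fin 4 → R) : (zp b c).mulVec v = sp b c v := by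
  ext i
  fin_cases i <;> simp [zp, sp, Matrix.mulVec, dotProduct, Fin.sum_univ_four] <;> ring

end ring

section field

variable {F : Type*} [Field F]

def Zm (h2 : (2 : F) = 0) (b c : F) : GL (Fin 4) F :=
  ⟨zm b c, zm b c, zm_mul_self h2 b c, zm_mul_self h2 b c⟩

def Zp (h2 : (2 : F) = 0) (b c : F) : GL (Fin 4) F :=
  ⟨zp b c, zp b c, zp_mul_self h2 b c, zp_mul_self h2 b c⟩

theorem Zm_mem (h2 : (2 : F) = 0) (e : ℕ) (he : e ≠ 0) (hθ : ∀ x : F, (x ^ e) ^ e = x ^ 2) (b : F) :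
    Zm h2 b (b ^ e) ∈ Cfsg.Lie.Sz F e := by
  apply Subgroup.subset_closure
  refine ⟨?_, ?_⟩
  · intro u v
    show Cfsg.Lie.altForm4 ((zm b (b ^ e)) *ᵥ u) ((zm b (b ^ e)) *ᵥ v) = Cfsg.Lie.altForm4 u v
    simp [Cfsg.Lie.altForm4, zm, Matrix.mulVec, dotProduct, Fin.sum_univ_four]
    linear_combination (b ^ e * u 0 * v 0 + b * u 0 * v 1 + b * u 1 * v 0) * h2
  · show Cfsg.Lie.star4 (zm b (b ^ e)) = (zm b (b ^ e)).map (fun x => x ^ e)
    ext i j
    fin_cases i <;> fin_cases j <;> simp [Cfsg.Lie.star4, Cfsg.Lie.pairOf, zm, he, hθ]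
    all_goals first | ring1 | linear_combination (-(b ^ e)) * h2

theorem Zp_mem (h2 : (2 : F) = 0) (e : ℕ) (he : e ≠ 0) (hθ : ∀ x : F, (x ^ e) ^ e = x ^ 2) (b : F) :
    Zp h2 b (b ^ e) ∈ Cfsg.Lie.Sz F e := by
  apply Subgroup.subset_closure
  refine ⟨?_, ?_⟩
  · intro u v
    show Cfsg.Lie.altForm4 ((zp b (b ^ e)) *ᵥ u) ((zp b (b ^ e)) *ᵥ v) = Cfsg.Lie.altForm4 u v
    simp [Cfsg.Lie.altForm4, zp, Matrix.mulVec, dotProduct, Fin.sum_univ_four]
    linear_combination (b ^ e * u 3 * v 3 + b * u 2 * v 3 + b * u 3 * v 2) * h2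
  · show Cfsg.Lie.star4 (zp b (b ^ e)) = (zp b (b ^ e)).map (fun x => x ^ e)
    ext i j
    fin_cases i <;> fin_cases j <;> simp [Cfsg.Lie.star4, Cfsg.Lie.pairOf, zp, he, hθ]
    all_goals first | ring1 | linear_combination (-(b ^ e)) * h2

/-- the polynomial vector obtained from `(1, 0, 1, 0)` by the letters of a word. -/
noncomputable def V (e : ℕ) : List (ℕ × Bool) → Fin 4 → F[X]
  | [] => ![1, 0, 1, 0]
  | l :: L =>
    if l.2 then
      sp (X ^ (l.1 + 1)) (X ^ ((l.1 + 1) * e)) (sm (X ^ (l.1 + 1)) (X ^ ((l.1 + 1) * e)) (V e L))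
    else
      sm (X ^ (l.1 + 1)) (X ^ ((l.1 + 1) * e)) (sp (X ^ (l.1 + 1)) (X ^ ((l.1 + 1) * e)) (V e L))

theorem natDegree_sm (b c : F[X]) (v : Fin 4 → F[X]) (n k : ℕ) (hb : b.natDegree ≤ k)
    (hc : c.natDegree ≤ k) (hv : ∀ j, (v j).natDegree ≤ n) :
    ∀ j, (sm b c v j).natDegree ≤ n + k := by
  have hm : ∀ (a : F[X]) (j : Fin 4), a.natDegree ≤ k → (a * v j).natDegree ≤ n + k := by
    intro a j ha
    have := Polynomial.natDegree_mul_le (p := a) (q := v j)
    have := hv j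
    omega
  have ha : ∀ (x y : F[X]), x.natDegree ≤ n + k → y.natDegree ≤ n + k →
      (x + y).natDegree ≤ n + k := by
    intro x y hx hy
    exact (Polynomial.natDegree_add_le x y).trans (max_le hx hy)
  have hv' : ∀ j, (v j).natDegree ≤ n + k := fun j => (hv j).trans (Nat.le_add_right _ _)
  intro j
  fin_cases j
  · exact hv' 0
  · exact hv' 1
  · exact ha _ _ (hv' 2) (hm b 0 hb)
  · exact ha _ _ (ha _ _ (hv' 3) (hm c 0 hc)) (hm b 1 hb)

theorem natDegree_sp (b c : F[X]) (v : Fin 4 → F[X]) (n k : ℕ) (hb : b.natDegree ≤ k)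
    (hc : c.natDegree ≤ k) (hv : ∀ j, (v j).natDegree ≤ n) :
    ∀ j, (sp b c v j).natDegree ≤ n + k := by
  have hm : ∀ (a : F[X]) (j : Fin 4), a.natDegree ≤ k → (a * v j).natDegree ≤ n + k := by
    intro a j ha
    have := Polynomial.natDegree_mul_le (p := a) (q := v j)
    have := hv j
    omega
  have ha : ∀ (x y : F[X]), x.natDegree ≤ n + k → y.natDegree ≤ n + k →
      (x + y).natDegree ≤ n + k := by
    intro x y hx hy
    exact (Polynomial.natDegree_add_le x y).trans (max_le hx hy)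
  have hv' : ∀ j, (v j).natDegree ≤ n + k := fun j => (hv j).trans (Nat.le_add_right _ _)
  intro j
  fin_cases j
  · exact ha _ _ (ha _ _ (hv' 0) (hm b 2 hb)) (hm c 3 hc)
  · exact ha _ _ (hv' 1) (hm b 3 hb)
  · exact hv' 2
  · exact hv' 3

theorem V_natDegree (e : ℕ) (he : 1 ≤ e) : ∀ (L : List (ℕ × Bool)) (j : Fin 4),
    (V (F := F) e L j).natDegree ≤ e * bnd L := by
  intro L
  induction L with
  | nil =>
    intro j
    have hV : V (F := F) e [] = ![1, 0, 1, 0] := rfl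
    rw [hV]
    fin_cases j <;> simp
  | cons l L ih =>
    have hb : (X ^ (l.1 + 1) : F[X]).natDegree ≤ (l.1 + 1) * e := by
      rw [Polynomial.natDegree_X_pow]
      exact Nat.le_mul_of_pos_right _ (by omega)
    have hc : (X ^ ((l.1 + 1) * e) : F[X]).natDegree ≤ (l.1 + 1) * e := by
      rw [Polynomial.natDegree_X_pow]
    have hbnd : e * bnd (l :: L) = e * bnd L + (l.1 + 1) * e + (l.1 + 1) * e := by
      show e * (2 * (l.1 + 1) + bnd L) = _
      ring
    rw [hbnd]
    by_cases hl : l.2 = true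
    · have hV : V (F := F) e (l :: L) = sp (X ^ (l.1 + 1)) (X ^ ((l.1 + 1) * e))
          (sm (X ^ (l.1 + 1)) (X ^ ((l.1 + 1) * e)) (V e L)) := by
        rw [V, if_pos hl]
      rw [hV]
      exact natDegree_sp _ _ _ _ _ hb hc (natDegree_sm _ _ _ _ _ hb hc ih)
    · have hV : V (F := F) e (l :: L) = sm (X ^ (l.1 + 1)) (X ^ ((l.1 + 1) * e))
          (sp (X ^ (l.1 + 1)) (X ^ ((l.1 + 1) * e)) (V e L)) := by
        rw [V, if_neg hl]
      rw [hV]
      exact natDegree_sm _ _ _ _ _ hb hc (natDegree_sp _ _ _ _ _ hb hc ih)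

/-- modulo `X ^ e` the vector is the `SL₂` vector of `S2353`. -/
theorem V_congr (h2 : (2 : F) = 0) (e : ℕ) : ∀ (L : List (ℕ × Bool)),
    Ideal.Quotient.mk (Ideal.span {(X ^ e : F[X])}) (V (F := F) e L 0) =
      Ideal.Quotient.mk (Ideal.span {(X ^ e : F[X])}) (pvec (F := F) L).1 ∧
    Ideal.Quotient.mk (Ideal.span {(X ^ e : F[X])}) (V (F := F) e L 1) = 0 ∧
    Ideal.Quotient.mk (Ideal.span {(X ^ e : F[X])}) (V (F := F) e L 2) =
      Ideal.Quotient.mk (Ideal.span {(X ^ e : F[X])}) (pvec (F := F) L).2 ∧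
    Ideal.Quotient.mk (Ideal.span {(X ^ e : F[X])}) (V (F := F) e L 3) = 0 := by
  intro L
  have hneg : ∀ q : F[X], -q = q := by
    intro q
    have h2' : (2 : F[X]) = 0 := by
      rw [← one_add_one_eq_two, ← C_1, ← C_add, one_add_one_eq_two, h2, C_0]
    linear_combination (-q) * h2'
  induction L with
  | nil =>
    refine ⟨rfl, ?_, rfl, ?_⟩
    · show Ideal.Quotient.mk (Ideal.span {(X ^ e : F[X])}) 0 = 0
      exact map_zero _
    · show Ideal.Quotient.mk (Ideal.span {(X ^ e : F[X])}) 0 = 0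
      exact map_zero _
  | cons l L ih =>
    obtain ⟨i0, i1, i2, i3⟩ := ih
    have hc : Ideal.Quotient.mk (Ideal.span {(X ^ e : F[X])}) (X ^ ((l.1 + 1) * e)) = 0 := by
      rw [Ideal.Quotient.eq_zero_iff_mem, Ideal.mem_span_singleton]
      exact ⟨X ^ (l.1 * e), by ring⟩
    by_cases hl : l.2 = true
    · have hV : V (F := F) e (l :: L) = sp (X ^ (l.1 + 1)) (X ^ ((l.1 + 1) * e))
          (sm (X ^ (l.1 + 1)) (X ^ ((l.1 + 1) * e)) (V e L)) := by
        rw [V, if_pos hl]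
      have hpv : pvec (F := F) (l :: L) =
          ((pvec L).1 + X ^ (l.1 + 1) * (X ^ (l.1 + 1) * (pvec L).1 + (pvec L).2),
            X ^ (l.1 + 1) * (pvec L).1 + (pvec L).2) := by
        rw [pvec, if_pos hl]
      rw [hV, hpv]
      simp only [sp, sm, Matrix.cons_val_zero, Matrix.cons_val_one, Matrix.cons_val_two,
        Matrix.cons_val_three, Matrix.head_cons, Matrix.tail_cons, map_add, map_mul, hc, i0, i1,
        i2, i3, zero_mul, mul_zero, add_zero, zero_add]
      refine ⟨?_, ?_, ?_, ?_⟩ <;> first | trivial | ring1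
    · have hV : V (F := F) e (l :: L) = sm (X ^ (l.1 + 1)) (X ^ ((l.1 + 1) * e))
          (sp (X ^ (l.1 + 1)) (X ^ ((l.1 + 1) * e)) (V e L)) := by
        rw [V, if_neg hl]
      have hpv : pvec (F := F) (l :: L) =
          (-(X ^ (l.1 + 1)) * (pvec L).2 + (pvec L).1,
            (pvec L).2 + -(X ^ (l.1 + 1)) * (-(X ^ (l.1 + 1)) * (pvec L).2 + (pvec L).1)) := by
        rw [pvec, if_neg hl]
      rw [hV, hpv, hneg]
      simp only [sp, sm, Matrix.cons_val_zero, Matrix.cons_val_one, Matrix.cons_val_two,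
        Matrix.cons_val_three, Matrix.head_cons, Matrix.tail_cons, map_add, map_mul, hc, i0, i1,
        i2, i3, zero_mul, mul_zero, add_zero, zero_add]
      refine ⟨?_, ?_, ?_, ?_⟩ <;> first | trivial | ring1

theorem eval_sm (t : F) (b c : F[X]) (v : Fin 4 → F[X]) :
    (fun j => eval t (sm b c v j)) = sm (eval t b) (eval t c) (fun j => eval t (v j)) := by
  funext j
  fin_cases j <;> simp [sm]

theorem eval_sp (t : F) (b c : F[X]) (v : Fin 4 → F[X]) :
    (fun j => eval t (sp b c v j)) = sp (eval t b) (eval t c) (fun j => eval t (v j)) := by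
  funext j
  fin_cases j <;> simp [sp]

/-- the substituted elements. -/
def gel (h2 : (2 : F) = 0) (e : ℕ) (t : F) (i : ℕ) : GL (Fin 4) F :=
  Zp h2 (t ^ (i + 1)) ((t ^ (i + 1)) ^ e) * Zm h2 (t ^ (i + 1)) ((t ^ (i + 1)) ^ e)

theorem prod_mulVec (h2 : (2 : F) = 0) (e : ℕ) (t : F) : ∀ L : List (ℕ × Bool),
    ((L.map fun x => cond x.2 (gel h2 e t x.1) (gel h2 e t x.1)⁻¹).prod : GL (Fin 4) F).1.mulVec
        ![1, 0, 1, 0] = fun j => eval t (V (F := F) e L j) := by
  intro L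
  induction L with
  | nil =>
    have hV : V (F := F) e [] = ![1, 0, 1, 0] := rfl
    rw [hV]
    funext j
    fin_cases j <;> simp
  | cons l L ih =>
    obtain ⟨i, b⟩ := l
    have hpow : eval t (X ^ ((i + 1) * e) : F[X]) = (t ^ (i + 1)) ^ e := by
      rw [eval_pow, eval_X, pow_mul]
    have hpow1 : eval t (X ^ (i + 1) : F[X]) = t ^ (i + 1) := by
      rw [eval_pow, eval_X]
    cases b with
    | true =>
      have hV : V (F := F) e ((i, true) :: L) = sp (X ^ (i + 1)) (X ^ ((i + 1) * e))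
          (sm (X ^ (i + 1)) (X ^ ((i + 1) * e)) (V e L)) := by
        rw [V, if_pos rfl]
      have hprod : (((i, true) :: L).map fun x => cond x.2 (gel h2 e t x.1) (gel h2 e t x.1)⁻¹).prod =
          gel h2 e t i * (L.map fun x => cond x.2 (gel h2 e t x.1) (gel h2 e t x.1)⁻¹).prod := rfl
      have hg : (gel h2 e t i : GL (Fin 4) F).1 =
          zp (t ^ (i + 1)) ((t ^ (i + 1)) ^ e) * zm (t ^ (i + 1)) ((t ^ (i + 1)) ^ e) := rfl
      rw [hprod, Units.val_mul, ← Matrix.mulVec_mulVec, ih, hg, ← Matrix.mulVec_mulVec, zm_mulVec,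
        zp_mulVec, hV, eval_sp, eval_sm, hpow, hpow1]
    | false =>
      have hV : V (F := F) e ((i, false) :: L) = sm (X ^ (i + 1)) (X ^ ((i + 1) * e))
          (sp (X ^ (i + 1)) (X ^ ((i + 1) * e)) (V e L)) := by
        rw [V, if_neg (by simp)]
      have hprod : (((i, false) :: L).map fun x => cond x.2 (gel h2 e t x.1) (gel h2 e t x.1)⁻¹).prod =
          (gel h2 e t i)⁻¹ * (L.map fun x => cond x.2 (gel h2 e t x.1) (gel h2 e t x.1)⁻¹).prod := rfl
      have hg : ((gel h2 e t i)⁻¹ : GL (Fin 4) F).1 =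
          zm (t ^ (i + 1)) ((t ^ (i + 1)) ^ e) * zp (t ^ (i + 1)) ((t ^ (i + 1)) ^ e) := rfl
      rw [hprod, Units.val_mul, ← Matrix.mulVec_mulVec, ih, hg, ← Matrix.mulVec_mulVec, zp_mulVec,
        zm_mulVec, hV, eval_sm, eval_sp, hpow, hpow1]

theorem main [Fintype F] (w : FreeGroup ℕ) (hL : w.toWord ≠ []) (m : ℕ)
    (hm : bnd w.toWord + 1 ≤ m) (hcard : Fintype.card F = 2 ^ (2 * m + 1)) :
    ∃ f : ℕ → ↥(Cfsg.Lie.Sz F (2 ^ (m + 1))), FreeGroup.lift f w ≠ 1 := by
  classical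
  have h2 : (2 : F) = 0 := by
    obtain ⟨p, hp⟩ := CharP.exists F
    haveI := hp
    obtain ⟨n, hpp, hn⟩ := FiniteField.card F p
    rw [hcard] at hn
    have hp2 : p = 2 := by
      have h3 : p ∣ 2 ^ (2 * m + 1) := by
        rw [hn]
        exact dvd_pow_self p n.ne_zero
      exact (Nat.prime_dvd_prime_iff_eq hpp Nat.prime_two).1 (hpp.dvd_of_dvd_pow h3)
    have h4 := CharP.cast_eq_zero F p
    rw [hp2] at h4
    exact_mod_cast h4
  obtain ⟨e, he⟩ : ∃ e, e = 2 ^ (m + 1) := ⟨_, rfl⟩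
  rw [← he]
  have he0 : e ≠ 0 := by
    rw [he]
    positivity
  have he1 : 1 ≤ e := Nat.pos_of_ne_zero he0
  have hθ : ∀ x : F, (x ^ e) ^ e = x ^ 2 := by
    intro x
    rw [← pow_mul, he, ← pow_add, show m + 1 + (m + 1) = (2 * m + 1) + 1 by ring, pow_succ, pow_mul,
      ← hcard, FiniteField.pow_card]
  have hmlt : m < 2 ^ m := Nat.lt_two_pow_self
  have hlt : bnd w.toWord < 2 ^ m := by omega
  have hem : e = 2 * 2 ^ m := by
    rw [he, pow_succ, mul_comm]
  obtain ⟨h1, h2', hdeg, -, hb1, hb2⟩ := pvec_inv (F := F) w.toWord FreeGroup.isReduced_toWord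
  obtain ⟨l, L', hl⟩ := List.exists_cons_of_ne_nil hL
  obtain ⟨Q, hQ⟩ : ∃ Q : F[X], Q = (pvec (F := F) w.toWord).1 - (pvec (F := F) w.toWord).2 :=
    ⟨_, rfl⟩
  have hQ0 : Q ≠ 0 := by
    intro h
    rw [hQ] at h
    have he' : (pvec (F := F) w.toWord).1 = (pvec (F := F) w.toWord).2 := sub_eq_zero.1 h
    obtain ⟨ht, hf⟩ := hdeg l L' hl
    cases hb : l.2 with
    | true =>
      have := ht hb
      rw [he'] at this
      omega
    | false =>
      have := hf hb
      rw [he'] at this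
      omega
  have hQd : Q.natDegree ≤ bnd w.toWord := by
    have := Polynomial.natDegree_sub_le (pvec (F := F) w.toWord).1 (pvec (F := F) w.toWord).2
    rw [← hQ] at this
    exact this.trans (max_le hb1 hb2)
  obtain ⟨Rp, hR⟩ : ∃ Rp : F[X], Rp = V (F := F) e w.toWord 0 - V (F := F) e w.toWord 2 :=
    ⟨_, rfl⟩
  obtain ⟨c0, -, c2, -⟩ := V_congr h2 e w.toWord
  have hcong : Ideal.Quotient.mk (Ideal.span {(X ^ e : F[X])}) Rp =
      Ideal.Quotient.mk (Ideal.span {(X ^ e : F[X])}) Q := by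
    rw [hR, hQ, map_sub, map_sub, c0, c2]
  have hR0 : Rp ≠ 0 := by
    intro h
    rw [h, map_zero] at hcong
    have h5 := hcong.symm
    rw [Ideal.Quotient.eq_zero_iff_mem, Ideal.mem_span_singleton] at h5
    have h6 := Polynomial.natDegree_le_of_dvd h5 hQ0
    rw [Polynomial.natDegree_X_pow] at h6
    omega
  have hRd : Rp.natDegree < Fintype.card F := by
    have h7 := Polynomial.natDegree_sub_le (V (F := F) e w.toWord 0) (V (F := F) e w.toWord 2)
    rw [← hR] at h7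
    have h8 := V_natDegree (F := F) e he1 w.toWord 0
    have h9 := V_natDegree (F := F) e he1 w.toWord 2
    have h10 : e * bnd w.toWord < 2 ^ (2 * m + 1) := by
      calc e * bnd w.toWord < e * 2 ^ m := Nat.mul_lt_mul_of_pos_left hlt (by omega)
        _ = 2 ^ (2 * m + 1) := by
          rw [he, ← pow_add]
          congr 1
          ring
    rw [hcard]
    have := max_le h8 h9
    omega
  obtain ⟨t, ht⟩ : ∃ t : F, eval t Rp ≠ 0 := by
    by_contra hcon
    push Not at hcon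
    exact hR0 (Polynomial.eq_zero_of_natDegree_lt_card_of_eval_eq_zero Rp (f := id)
      Function.injective_id hcon hRd)
  obtain ⟨f, hf⟩ : ∃ f : ℕ → ↥(Cfsg.Lie.Sz F e), ∀ i, (f i : GL (Fin 4) F) = gel h2 e t i :=
    ⟨fun i => ⟨gel h2 e t i, mul_mem (Zp_mem h2 e he0 hθ _) (Zm_mem h2 e he0 hθ _)⟩, fun i => rfl⟩
  refine ⟨f, ?_⟩
  intro h
  have hcomp : (Subgroup.subtype (Cfsg.Lie.Sz F e)).comp (FreeGroup.lift f) =
      FreeGroup.lift (gel h2 e t) := by
    ext i
    simp [hf]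
  have h' : FreeGroup.lift (gel h2 e t) w = 1 := by
    rw [← hcomp]
    show (Subgroup.subtype (Cfsg.Lie.Sz F e)) (FreeGroup.lift f w) = 1
    rw [h, map_one]
  have hS := prod_mulVec h2 e t w.toWord
  rw [← FreeGroup.lift_mk, FreeGroup.mk_toWord, h'] at hS
  have e0 := congrFun hS 0
  have e2 := congrFun hS 2
  simp at e0 e2
  apply ht
  rw [hR, eval_sub, ← e0, ← e2, sub_self]

end field

/-- A non-trivial law holds in only finitely many Suzuki groups: for every non-trivial element w of the free group on countably many generators there is N such that for q = 2^(2m+1) with m ≥ N some substitution of elements of the Suzuki group over the field with q elements into w is not the identity. -/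
theorem result (w : FreeGroup ℕ) (hw : w ≠ 1) :
    ∃ N : ℕ, ∀ (F : Type*) [Field F] [Fintype F] (m : ℕ), 1 ≤ m → N ≤ m →
      Fintype.card F = 2 ^ (2 * m + 1) →
      ∃ f : ℕ → ↥(Cfsg.Lie.Sz F (2 ^ (m + 1))), FreeGroup.lift f w ≠ 1 := by
  have hL : w.toWord ≠ [] := fun h => hw (FreeGroup.toWord_eq_nil_iff.1 h)
  refine ⟨bnd w.toWord + 1, ?_⟩
  intro F _ _ m _ hm hcard
  exact main w hL m hm hcard

end Cfsg.Agent.S2354
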