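import Mathlib
import Cfsg.Statements.S2355
import Cfsg.Agent.Helper14.LawE
-- import your own Cfsg.Agent.* helpers here

set_option autoImplicit false
open Cfsg

namespace Cfsg.Agent.S2355

open Cfsg.Agent.Helper14.Law

/-- A non-trivial law is satisfied by only finitely many finite simple groups that are alternating or classical, up to isomorphism: for every non-trivial element w of the free group on countably many generators there is a bound N such that every alternating group of degree ≥ 5 and every simple classical group (linear, symplectic, unitary or orthogonal, in this problem's sense) in which w is a law has order at most N. -/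
theorem result (w : FreeGroup ℕ) (hw : w ≠ 1) :
    ∃ N : ℕ, ∀ (G : Type*) [Group G] [Finite G],
      (Cfsg.IsAlternating G ∨ Cfsg.IsPSL G ∨ Cfsg.IsPSp G ∨ Cfsg.IsPSU G ∨ Cfsg.IsPOmegaOdd G ∨
          Cfsg.IsPOmegaPlus G ∨ Cfsg.IsPOmegaMinus G) →
      (∀ f : ℕ → G, FreeGroup.lift f w = 1) → Nat.card G ≤ N := by
  obtain ⟨D, hD⟩ := S_gen w hw
  obtain ⟨p, hp, hpr⟩ := Nat.exists_infinite_primes (D + 5)
  have : Fact p.Prime := ⟨hpr⟩
  have hH1 : ¬ CL w (Matrix.SpecialLinearGroup (Fin 2) (ZMod p)) :=
    not_CL_sl2 w D hD (ZMod p) (by rw [ZMod.card]; omega)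
  obtain ⟨a, ha, ha2⟩ := exists_perfect_elt (ZMod p) (by rw [ZMod.card]; omega)
  have hperf : commutator (Matrix.SpecialLinearGroup (Fin 2) (ZMod p)) = ⊤ :=
    Matrix.SL2.commutator_eq_top ha ha2
  generalize hh : Nat.card (Matrix.SpecialLinearGroup (Fin 2) (ZMod p)) = h
  have hQ0 : 0 < (D + 4) ^ 2 := by positivity
  have hQ3 : D + 3 ≤ (D + 4) ^ 2 := by nlinarith
  refine ⟨h.factorial + ((D + 4) ^ 2) ^ ((2 * h + 2) * (2 * h + 2)), ?_⟩
  intro G _ _ hG law
  rcases hG with hG | hG | hG | hG | hG | hG | hG
  · -- alternating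
    obtain ⟨n, hn5, ⟨e⟩⟩ := hG
    have hn : n < h := by
      by_contra hcon
      push Not at hcon
      exact hH1 (CL_alt w hperf n (by rw [hh]; exact hcon) (CL_of_law w (law_of_equiv w e law)))
    calc Nat.card G = Nat.card (alternatingGroup (Fin n)) := Nat.card_congr e.toEquiv
      _ ≤ Nat.card (Equiv.Perm (Fin n)) :=
          Nat.card_le_card_of_injective _ Subtype.val_injective
      _ = n.factorial := by rw [Nat.card_perm, Nat.card_fin]
      _ ≤ h.factorial := Nat.factorial_le hn.le
      _ ≤ _ := Nat.le_add_right _ _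
  · -- PSL
    obtain ⟨F, _, _, n, hn2, hn', ⟨e⟩⟩ := hG
    have hCL : CL w (Matrix.SpecialLinearGroup (Fin n) F) := CL_of_law_quot w e law
    have hn : n < h := by
      by_contra hcon
      push Not at hcon
      obtain ⟨φ, hφ⟩ := exists_cayley (Matrix.SpecialLinearGroup (Fin 2) (ZMod p)) n
        (by rw [hh]; exact hcon)
      exact hH1 (CL_sl w hperf ((permGL (Fin n) F).comp φ)
        ((permGL_injective _ _).comp hφ) hCL)
    have hF : Fintype.card F ≤ D + 3 := by
      by_contra hcon
      push Not at hcon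
      obtain ⟨k, rfl⟩ := Nat.exists_eq_add_of_le hn2
      obtain ⟨a, ha, ha2⟩ := exists_perfect_elt F (by omega)
      have hperfF := Matrix.SL2.commutator_eq_top ha ha2
      exact not_CL_sl2 w D hD F (by omega)
        (CL_sl w hperfF (src2 k F) (src2_injective k F) hCL)
    refine le_trans (card_bound e Subtype.val Subtype.val_injective ((D + 4) ^ 2) (2 * h + 2)
      hQ0 (le_trans hF hQ3) ?_) (Nat.le_add_left _ _)
    simp only [Fintype.card_fin]; omega
  · -- PSp
    obtain ⟨F, _, _, m, hm2, hm', ⟨e⟩⟩ := hG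
    have hCL : CL w (Matrix.symplecticGroup (Fin m) F) := CL_of_law_quot w e law
    have hn : m < h := by
      by_contra hcon
      push Not at hcon
      obtain ⟨φ, hφ⟩ := exists_cayley (Matrix.SpecialLinearGroup (Fin 2) (ZMod p)) m
        (by rw [hh]; exact hcon)
      exact hH1 (CL_sp w ((permGL (Fin m) F).comp φ) ((permGL_injective _ _).comp hφ) hCL)
    have hF : Fintype.card F ≤ D + 3 := by
      by_contra hcon
      push Not at hcon
      obtain ⟨k, rfl⟩ := Nat.exists_eq_add_of_le hm2
      exact not_CL_sl2 w D hD F (by omega) (CL_sp w (src2 k F) (src2_injective k F) hCL)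
    refine le_trans (card_bound e Subtype.val Subtype.val_injective ((D + 4) ^ 2) (2 * h + 2)
      hQ0 (le_trans hF hQ3) ?_) (Nat.le_add_left _ _)
    simp only [Fintype.card_sum, Fintype.card_fin]; omega
  · -- PSU
    obtain ⟨F, _, _, n, q, hq, hn3, hnq, ⟨e⟩⟩ := hG
    have hCL : CL w (SU n F q) := CL_of_law_quot w e law
    have hn : n < h := by
      by_contra hcon
      push Not at hcon
      exact hH1 (CL_su_perm w hperf n q F (by rw [hh]; exact hcon) hCL)
    have hq' : q ≤ D + 1 := by
      by_contra hcon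
      push Not at hcon
      obtain ⟨k, rfl⟩ := Nat.exists_eq_add_of_le (show 2 ≤ n by omega)
      exact not_CL_su w D hD F k q hq (by omega) hCL
    have hF : Fintype.card F ≤ (D + 4) ^ 2 := by
      rw [hq]; exact Nat.pow_le_pow_left (by omega) 2
    refine le_trans (card_bound e _ (su_val_injective n q F) ((D + 4) ^ 2) (2 * h + 2)
      hQ0 hF ?_) (Nat.le_add_left _ _)
    simp only [Fintype.card_fin]; omega
  · -- POmegaOdd
    obtain ⟨F, _, _, m, hm3, hodd, ⟨e⟩⟩ := hG
    have hCL : CL w (Omega F (quadFormOdd m F)) := CL_of_law_quot w e law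
    have hn : m < h := by
      by_contra hcon
      push Not at hcon
      obtain ⟨φ, hφ⟩ := exists_cayley (Matrix.SpecialLinearGroup (Fin 2) (ZMod p)) m
        (by rw [hh]; exact hcon)
      exact hH1 (CL_odd w hperf ((permGL (Fin m) F).comp φ)
        ((permGL_injective _ _).comp hφ) hCL)
    have hF : Fintype.card F ≤ D + 3 := by
      by_contra hcon
      push Not at hcon
      obtain ⟨k, rfl⟩ := Nat.exists_eq_add_of_le (show 2 ≤ m by omega)
      obtain ⟨a, ha, ha2⟩ := exists_perfect_elt F (by omega)
      have hperfF := Matrix.SL2.commutator_eq_top ha ha2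
      exact not_CL_sl2 w D hD F (by omega)
        (CL_odd w hperfF (src2 k F) (src2_injective k F) hCL)
    refine le_trans (card_bound e _ (omega_val_injective F (quadFormOdd m F)) ((D + 4) ^ 2)
      (2 * h + 2) hQ0 (le_trans hF hQ3) ?_) (Nat.le_add_left _ _)
    simp only [Fintype.card_sum, Fintype.card_fin, Fintype.card_unit]; omega
  · -- POmegaPlus
    obtain ⟨F, _, _, m, hm4, ⟨e⟩⟩ := hG
    have hCL : CL w (Omega F (quadFormPlus m F)) := CL_of_law_quot w e law
    have hn : m < h := by
      by_contra hcon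
      push Not at hcon
      obtain ⟨φ, hφ⟩ := exists_cayley (Matrix.SpecialLinearGroup (Fin 2) (ZMod p)) m
        (by rw [hh]; exact hcon)
      exact hH1 (CL_plus w hperf ((permGL (Fin m) F).comp φ)
        ((permGL_injective _ _).comp hφ) hCL)
    have hF : Fintype.card F ≤ D + 3 := by
      by_contra hcon
      push Not at hcon
      obtain ⟨k, rfl⟩ := Nat.exists_eq_add_of_le (show 2 ≤ m by omega)
      obtain ⟨a, ha, ha2⟩ := exists_perfect_elt F (by omega)
      have hperfF := Matrix.SL2.commutator_eq_top ha ha2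
      exact not_CL_sl2 w D hD F (by omega)
        (CL_plus w hperfF (src2 k F) (src2_injective k F) hCL)
    refine le_trans (card_bound e _ (omega_val_injective F (quadFormPlus m F)) ((D + 4) ^ 2)
      (2 * h + 2) hQ0 (le_trans hF hQ3) ?_) (Nat.le_add_left _ _)
    simp only [Fintype.card_sum, Fintype.card_fin]; omega
  · -- POmegaMinus
    obtain ⟨F, _, _, m, a, b, hm4, hanis, ⟨e⟩⟩ := hG
    have hCL : CL w (Omega F (quadFormMinus (m - 1) F a b)) := CL_of_law_quot w e law
    have hn : m - 1 < h := by
      by_contra hcon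
      push Not at hcon
      obtain ⟨φ, hφ⟩ := exists_cayley (Matrix.SpecialLinearGroup (Fin 2) (ZMod p)) (m - 1)
        (by rw [hh]; exact hcon)
      exact hH1 (CL_minus w a b hperf ((permGL (Fin (m - 1)) F).comp φ)
        ((permGL_injective _ _).comp hφ) hCL)
    have hF : Fintype.card F ≤ D + 3 := by
      by_contra hcon
      push Not at hcon
      obtain ⟨ρ, hρ⟩ := exists_src2 F (m - 1) (by omega)
      obtain ⟨a', ha, ha2⟩ := exists_perfect_elt F (by omega)
      have hperfF := Matrix.SL2.commutator_eq_top ha ha2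
      exact not_CL_sl2 w D hD F (by omega) (CL_minus w a b hperfF ρ hρ hCL)
    refine le_trans (card_bound e _ (omega_val_injective F (quadFormMinus (m - 1) F a b))
      ((D + 4) ^ 2) (2 * h + 2) hQ0 (le_trans hF hQ3) ?_) (Nat.le_add_left _ _)
    simp only [Fintype.card_sum, Fintype.card_fin]; omega

end Cfsg.Agent.S2355
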