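import Cfsg.Statements.S2450
import Mathlib
import Cfsg.Agent.Helper14.PSL2
-- import your own Cfsg.Agent.* helpers here

set_option autoImplicit false
open Cfsg

namespace Cfsg.Agent.S2450

open Cfsg.Agent.Helper14.Mat2 Cfsg.Agent.Helper14.SL2Odd Cfsg.Agent.Helper14.PSL2

theorem trace_formula {F : Type*} [Field F] (τA τB : F) (dA dB : Fˣ) (s : F) :
    ((rep τA dA * (Ps s * rep τB dB * (Ps s)⁻¹) : Matrix.SpecialLinearGroup (Fin 2) F) :
      Matrix (Fin 2) (Fin 2) F).trace =
      (τA * τB - dA * (dB : F)⁻¹ - (dA : F)⁻¹ * dB) + ((dA : F)⁻¹ * τB - τA * (dB : F)⁻¹) * s +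
        (-((dA : F)⁻¹ * (dB : F)⁻¹)) * s ^ 2 := by
  rw [Ps_inv]
  simp only [Matrix.SpecialLinearGroup.coe_mul, coe_rep, coe_Ps]
  simp [Matrix.trace_fin_two, Matrix.mul_apply, Fin.sum_univ_two]
  ring

/-- The Arad–Herzog conjecture for PSL(2,q): let F be a finite field with q ≥ 4 elements. For any two non-identity elements a, b of PSL(2,F), the set of products of a conjugate of a with a conjugate of b is not a single conjugacy class. -/
theorem result {F : Type*} [Field F] [Fintype F] (h4 : 4 ≤ Fintype.card F)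
    (a b : Matrix.ProjectiveSpecialLinearGroup (Fin 2) F) (ha : a ≠ 1) (hb : b ≠ 1) (c : Matrix.ProjectiveSpecialLinearGroup (Fin 2) F) :
    {g : Matrix.ProjectiveSpecialLinearGroup (Fin 2) F | ∃ u v : Matrix.ProjectiveSpecialLinearGroup (Fin 2) F, g = (u * a * u⁻¹) * (v * b * v⁻¹)} ≠ {g | IsConj c g} := by

  classical
  intro hEq
  obtain ⟨A, rfl⟩ := QuotientGroup.mk_surjective a
  obtain ⟨B, rfl⟩ := QuotientGroup.mk_surjective b
  obtain ⟨C, rfl⟩ := QuotientGroup.mk_surjective c
  obtain ⟨dA, hcA⟩ := isConj_rep_of_nonscalar A (nonscalar_of_mk_ne_one A ha)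
  obtain ⟨dB, hcB⟩ := isConj_rep_of_nonscalar B (nonscalar_of_mk_ne_one B hb)
  obtain ⟨PA, hPA⟩ := isConj_iff.1 hcA
  obtain ⟨PB, hPB⟩ := isConj_iff.1 hcB
  set τA := (A : Matrix (Fin 2) (Fin 2) F).trace with hτA
  set τB := (B : Matrix (Fin 2) (Fin 2) F).trace with hτB
  set γ := (C : Matrix (Fin 2) (Fin 2) F).trace with hγ
  set c0 : F := τA * τB - dA * (dB : F)⁻¹ - (dA : F)⁻¹ * dB with hc0
  set c1 : F := (dA : F)⁻¹ * τB - τA * (dB : F)⁻¹ with hc1
  set c2 : F := -((dA : F)⁻¹ * (dB : F)⁻¹) with hc2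
  have hc2ne : c2 ≠ 0 := by
    rw [hc2]
    exact neg_ne_zero.2 (mul_ne_zero (inv_ne_zero dA.ne_zero) (inv_ne_zero dB.ne_zero))
  have hcov : ∀ s : F, c0 + c1 * s + c2 * s ^ 2 = γ ∨ c0 + c1 * s + c2 * s ^ 2 = -γ := by
    intro s
    have hmem : (QuotientGroup.mk (rep τA dA * (Ps s * rep τB dB * (Ps s)⁻¹)) :
        Matrix.ProjectiveSpecialLinearGroup (Fin 2) F) ∈
        {g : Matrix.ProjectiveSpecialLinearGroup (Fin 2) F | ∃ u v : Matrix.ProjectiveSpecialLinearGroup (Fin 2) F, g = (u * QuotientGroup.mk A * u⁻¹) * (v * QuotientGroup.mk B * v⁻¹)} := by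
      refine ⟨QuotientGroup.mk PA, QuotientGroup.mk (Ps s * PB), ?_⟩
      rw [← hPA, ← hPB]
      simp only [QuotientGroup.mk_mul, QuotientGroup.mk_inv, mul_inv_rev]
      group
    rw [hEq] at hmem
    have h := trace_of_isConj_mk hmem
    rw [trace_formula] at h
    exact h
  have h1 := card_le_two_of_quad c0 c1 c2 γ hc2ne
  have h2 := card_le_two_of_quad c0 c1 c2 (-γ) hc2ne
  have hunion : (Finset.univ : Finset F) ⊆
      (Finset.univ.filter (fun s : F => c0 + c1 * s + c2 * s ^ 2 = γ)) ∪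
        (Finset.univ.filter (fun s : F => c0 + c1 * s + c2 * s ^ 2 = -γ)) := by
    intro s _
    simp only [Finset.mem_union, Finset.mem_filter, Finset.mem_univ, true_and]
    exact hcov s
  have hcard : Fintype.card F ≤ 4 := by
    have := Finset.card_le_card hunion
    have h3 := Finset.card_union_le (Finset.univ.filter (fun s : F => c0 + c1 * s + c2 * s ^ 2 = γ))
      (Finset.univ.filter (fun s : F => c0 + c1 * s + c2 * s ^ 2 = -γ))
    rw [Finset.card_univ] at this
    omega
  have hcard4 : Fintype.card F = 4 := by omega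
  have h2F : (2 : F) = 0 := by
    have h4 : ((4 : ℕ) : F) = 0 := by
      rw [← hcard4]
      exact Nat.cast_card_eq_zero F
    have : (2 : F) * 2 = 0 := by
      push_cast at h4
      linear_combination h4
    exact mul_self_eq_zero.1 this
  have hγγ : -γ = γ := by linear_combination (-γ) * h2F
  have hall : (Finset.univ.filter (fun s : F => c0 + c1 * s + c2 * s ^ 2 = γ)) = Finset.univ := by
    ext s
    simp only [Finset.mem_filter, Finset.mem_univ, true_and, iff_true]
    rcases hcov s with h | h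
    · exact h
    · rw [hγγ] at h
      exact h
  rw [hall, Finset.card_univ] at h1
  omega

end Cfsg.Agent.S2450
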