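import Cfsg.Statements.S2456
import Mathlib
import Cfsg.Agent.Helper14.SL2Conj
-- import your own Cfsg.Agent.* helpers here

set_option autoImplicit false
open Cfsg

namespace Cfsg.Agent.S2456

open Cfsg.Agent.Helper14.Mat2 Cfsg.Agent.Helper14.SL2Odd Cfsg.Agent.Helper14.PSL2
  Cfsg.Agent.Helper14.SL2Conj

/-- A strong covering result in the direction of Thompson's conjecture (non-identity elements) for PSL(2,q), q even: let F be a finite field of characteristic 2 with q ≥ 4 elements and let x ∈ PSL(2,F) have order greater than 2 and not dividing q + 1. Then every non-identity element of PSL(2,F) is a product of two conjugates of x. -/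
theorem result {F : Type*} [Field F] [Fintype F] [CharP F 2] (h4 : 4 ≤ Fintype.card F)
    (x : Matrix.ProjectiveSpecialLinearGroup (Fin 2) F) (hx2 : 2 < orderOf x) (hxq : ¬ orderOf x ∣ Fintype.card F + 1) : ∀ g : Matrix.ProjectiveSpecialLinearGroup (Fin 2) F, g ≠ 1 → ∃ u v : Matrix.ProjectiveSpecialLinearGroup (Fin 2) F, g = (u * x * u⁻¹) * (v * x * v⁻¹) := by
  classical
  obtain ⟨X, rfl⟩ := QuotientGroup.mk_surjective x
  have hCH := sq_eq X
  have h20 : (2 : F) = 0 := CharTwo.two_eq_zero
  have hroot : ∃ a : F, a ^ 2 - (X : Matrix (Fin 2) (Fin 2) F).trace * a + 1 = 0 := by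
    by_contra hno
    push Not at hno
    have hpow := pow_card_add_one 2 X hno
    have h1 : (QuotientGroup.mk X : Matrix.ProjectiveSpecialLinearGroup (Fin 2) F) ^
        (Fintype.card F + 1) = 1 :=
      mk_pow_eq_one_of_scalar X _ 1 (by rw [hpow, one_smul])
    exact hxq (orderOf_dvd_of_pow_eq_one h1)
  obtain ⟨a, ha⟩ := hroot
  have ha0 : a ≠ 0 := by
    intro h0
    rw [h0] at ha
    simp at ha
  have htr : (X : Matrix (Fin 2) (Fin 2) F).trace = a + a⁻¹ := by
    field_simp
    linear_combination -ha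
  have ha2 : a ^ 2 ≠ 1 := by
    intro h1
    have ht0 : (X : Matrix (Fin 2) (Fin 2) F).trace = 0 := by
      have : (X : Matrix (Fin 2) (Fin 2) F).trace * a = 0 := by
        linear_combination -ha + h1 + h20
      rcases mul_eq_zero.1 this with h | h
      · exact h
      · exact absurd h ha0
    rw [ht0, zero_smul, zero_sub] at hCH
    have h1 : (QuotientGroup.mk X : Matrix.ProjectiveSpecialLinearGroup (Fin 2) F) ^ 2 = 1 :=
      mk_pow_eq_one_of_scalar X 2 (-1) (by rw [hCH]; simp)
    have := orderOf_le_of_pow_eq_one (by norm_num) h1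
    omega
  intro g hg
  obtain ⟨G, rfl⟩ := QuotientGroup.mk_surjective g
  refine covering_of_pair X G (nonscalar_of_mk_ne_one G hg)
    (fun N hN => isConj_of_trace_split a ha0 ha2 X N htr (hN.trans htr)) ?_
  intro τ d
  have hdet : a * a⁻¹ - ((d : F) * ((a + a⁻¹) - τ * a⁻¹)) * 0 = 1 := by
    rw [mul_zero, sub_zero, mul_inv_cancel₀ ha0]
  obtain ⟨Y, h00, h01, h10, h11⟩ := exists_SL _ _ _ _ hdet
  have hd : (d : F) ≠ 0 := d.ne_zero
  refine ⟨Y, rep τ d * Y, ?_, ?_, rfl⟩
  · rw [Matrix.trace_fin_two, h00, h11, htr]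
  · rw [trace_rep_mul, h10, h01, h11, htr]
    field_simp
    ring

end Cfsg.Agent.S2456
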