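import Cfsg.Statements.S2466
import Mathlib
import Cfsg.Agent.Helper14.AltOrders
-- import your own Cfsg.Agent.* helpers here

set_option autoImplicit false
open Cfsg

namespace Cfsg.Agent.S2466

/-- Adjacency of odd primes in the prime graph of the alternating groups: let r ≠ s be odd primes at most n. The alternating group of degree n has an element of order r·s if and only if r + s ≤ n. -/
theorem result (n r s : ℕ) (hr : r.Prime) (hs : s.Prime) (hr2 : r ≠ 2) (hs2 : s ≠ 2) (hrs : r ≠ s) (hrn : r ≤ n) (hsn : s ≤ n) :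
    (r * s ∈ Set.range (orderOf : alternatingGroup (Fin n) → ℕ)) ↔ r + s ≤ n := by

  rw [Cfsg.Agent.Helper14.AltOrders.mem_range_orderOf_iff]
  have hr0 := hr.two_le
  have hs0 := hs.two_le
  have hcop : Nat.Coprime r s := (Nat.coprime_primes hr hs).2 hrs
  constructor
  · rintro ⟨m, hsum, h2, -, hl⟩
    obtain ⟨a, ha, hra⟩ := Cfsg.Agent.Helper14.AltOrders.prime_dvd_lcm hr m
      (hl ▸ Dvd.intro _ rfl)
    obtain ⟨b, hb, hsb⟩ := Cfsg.Agent.Helper14.AltOrders.prime_dvd_lcm hs m
      (hl ▸ Dvd.intro_left _ rfl)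
    have ha2 := h2 a ha
    have hb2 := h2 b hb
    by_cases hsa : s ∣ a
    · have hd : r * s ∣ a := Nat.Coprime.mul_dvd_of_dvd_of_dvd hcop hra hsa
      have h1 := Nat.le_of_dvd (by omega) hd
      have h3 := Multiset.le_sum_of_mem ha
      nlinarith
    · have hne : b ≠ a := fun h => hsa (h ▸ hsb)
      have h1 := Cfsg.Agent.Helper14.AltOrders.add_le_sum_of_mem_of_ne ha hb hne
      have h3 := Nat.le_of_dvd (by omega) hra
      have h4 := Nat.le_of_dvd (by omega) hsb
      omega
  · intro h
    refine ⟨{r, s}, ?_, ?_, ?_, ?_⟩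
    · simpa using h
    · intro a ha
      simp only [Multiset.insert_eq_cons, Multiset.mem_cons, Multiset.mem_singleton] at ha
      rcases ha with rfl | rfl <;> assumption
    · have h1 : r % 2 = 1 := (hr.eq_two_or_odd).resolve_left hr2
      have h2 : s % 2 = 1 := (hs.eq_two_or_odd).resolve_left hs2
      rw [Nat.even_iff]
      simp only [Multiset.insert_eq_cons, Multiset.sum_cons, Multiset.sum_singleton,
        Multiset.card_cons, Multiset.card_singleton]
      omega
    · simp only [Multiset.insert_eq_cons, Multiset.lcm_cons, Multiset.lcm_singleton,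
        lcm_eq_nat_lcm, normalize_eq]
      exact hcop.lcm_eq_mul

end Cfsg.Agent.S2466
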