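import Cfsg.Statements.S2467
import Mathlib
import Cfsg.Agent.Helper14.AltOrders
-- import your own Cfsg.Agent.* helpers here

set_option autoImplicit false
open Cfsg

namespace Cfsg.Agent.S2467

/-- Adjacency of 2 and an odd prime in the prime graph of the alternating groups: let r be an odd prime at most n, with n ≥ 4. The alternating group of degree n has an element of order 2r if and only if r + 4 ≤ n. -/
theorem result (n r : ℕ) (hn : 4 ≤ n) (hr : r.Prime) (hr2 : r ≠ 2) (hrn : r ≤ n) :
    (2 * r ∈ Set.range (orderOf : alternatingGroup (Fin n) → ℕ)) ↔ r + 4 ≤ n := by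

  rw [Cfsg.Agent.Helper14.AltOrders.mem_range_orderOf_iff]
  have hr0 := hr.two_le
  have hodd : r % 2 = 1 := (hr.eq_two_or_odd).resolve_left hr2
  have hcop : Nat.Coprime 2 r := (Nat.coprime_primes Nat.prime_two hr).2 (Ne.symm hr2)
  constructor
  · rintro ⟨m, hsum, h2, hev, hl⟩
    obtain ⟨a, ha, hra⟩ := Cfsg.Agent.Helper14.AltOrders.prime_dvd_lcm hr m
      (hl ▸ Dvd.intro_left _ rfl)
    obtain ⟨b, hb, h2b⟩ := Cfsg.Agent.Helper14.AltOrders.prime_dvd_lcm Nat.prime_two m
      (hl ▸ Dvd.intro _ rfl)
    have ha2 := h2 a ha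
    have hpar := Cfsg.Agent.Helper14.AltOrders.parity_filter m
    rw [Nat.even_iff] at hev
    rw [hev] at hpar
    have hsplit := Multiset.filter_add_not (fun x => x % 2 = 0) m
    have hsumsplit : (m.filter (fun x => x % 2 = 0)).sum +
        (m.filter (fun x => ¬ x % 2 = 0)).sum = m.sum := by
      rw [← Multiset.sum_add, hsplit]
    -- a second even part, given one even part
    have key : ∀ e ∈ m, e % 2 = 0 → ∃ c, 2 ≤ c ∧ e + c ≤ (m.filter (fun x => x % 2 = 0)).sum := by
      intro e he he2
      have heE : e ∈ m.filter (fun x => x % 2 = 0) := Multiset.mem_filter.2 ⟨he, he2⟩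
      have hcard : 0 < Multiset.card ((m.filter (fun x => x % 2 = 0)).erase e) := by
        rw [Multiset.card_erase_of_mem heE]
        have : 0 < Multiset.card (m.filter (fun x => x % 2 = 0)) :=
          Multiset.card_pos_iff_exists_mem.2 ⟨e, heE⟩
        simp only [Nat.pred_eq_sub_one]
        omega
      obtain ⟨c, hc⟩ := Multiset.card_pos_iff_exists_mem.1 hcard
      have hcm : c ∈ m := (Multiset.mem_filter.1 (Multiset.mem_of_mem_erase hc)).1
      refine ⟨c, h2 c hcm, ?_⟩
      have h1 := Multiset.sum_erase heE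
      have h3 := Multiset.le_sum_of_mem hc
      omega
    rcases Nat.mod_two_eq_zero_or_one a with hae | hao
    · obtain ⟨c, hc2, hc⟩ := key a ha hae
      have hd : 2 * r ∣ a :=
        Nat.Coprime.mul_dvd_of_dvd_of_dvd hcop (Nat.dvd_of_mod_eq_zero hae) hra
      have h1 := Nat.le_of_dvd (by omega) hd
      omega
    · obtain ⟨c, hc2, hc⟩ := key b hb (Nat.mod_eq_zero_of_dvd h2b)
      have hb2 := h2 b hb
      have haO : a ∈ m.filter (fun x => ¬ x % 2 = 0) :=
        Multiset.mem_filter.2 ⟨ha, by omega⟩
      have h1 := Multiset.le_sum_of_mem haO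
      have h3 := Nat.le_of_dvd (by omega) hra
      omega
  · intro h
    refine ⟨{r, 2, 2}, ?_, ?_, ?_, ?_⟩
    · simp only [Multiset.insert_eq_cons, Multiset.sum_cons, Multiset.sum_singleton]
      omega
    · intro a ha
      simp only [Multiset.insert_eq_cons, Multiset.mem_cons, Multiset.mem_singleton] at ha
      rcases ha with rfl | rfl | rfl <;> omega
    · rw [Nat.even_iff]
      simp only [Multiset.insert_eq_cons, Multiset.sum_cons, Multiset.sum_singleton,
        Multiset.card_cons, Multiset.card_singleton]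
      omega
    · simp only [Multiset.insert_eq_cons, Multiset.lcm_cons, Multiset.lcm_singleton,
        lcm_eq_nat_lcm, normalize_eq, Nat.lcm_self]
      rw [Nat.lcm_comm, hcop.lcm_eq_mul]

end Cfsg.Agent.S2467
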