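import Mathlib
import Cfsg.Statements.S2485
-- import your own Cfsg.Agent.* helpers here

set_option autoImplicit false
open scoped Pointwise
open Cfsg

namespace Cfsg.Agent.S2485

open Matrix

theorem mk_eq_one_of_scalar {q : ℕ} [Fact q.Prime] (N : GL (Fin 2) (ZMod q)) (a : ZMod q)
    (h : (N : Matrix (Fin 2) (Fin 2) (ZMod q)) = Matrix.scalar (Fin 2) a) :
    (QuotientGroup.mk N : GL (Fin 2) (ZMod q) ⧸ Subgroup.center (GL (Fin 2) (ZMod q))) = 1 := by
  rw [QuotientGroup.eq_one_iff, Matrix.GeneralLinearGroup.center_eq_range_scalar]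
  have ha : a ≠ 0 := by
    rintro rfl
    rw [map_zero] at h
    exact N.ne_zero h
  exact ⟨Units.mk0 a ha, Units.ext (by rw [Matrix.GeneralLinearGroup.coe_scalar]; exact h.symm)⟩

theorem scalar_of_mk_eq_one {q : ℕ} [Fact q.Prime] (N : GL (Fin 2) (ZMod q))
    (h : (QuotientGroup.mk N : GL (Fin 2) (ZMod q) ⧸ Subgroup.center (GL (Fin 2) (ZMod q))) = 1) :
    ∃ u : (ZMod q)ˣ, N = Matrix.GeneralLinearGroup.scalar (Fin 2) u := by
  rw [QuotientGroup.eq_one_iff, Matrix.GeneralLinearGroup.center_eq_range_scalar] at h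
  obtain ⟨u, hu⟩ := h
  exact ⟨u, hu.symm⟩

/-- rotations and reflections -/
def N0 (q : ℕ) [Fact q.Prime] : Subgroup (GL (Fin 2) (ZMod q)) where
  carrier := {g | (g.1 0 0 = g.1 1 1 ∧ g.1 0 1 = - g.1 1 0) ∨
    (g.1 0 0 = - g.1 1 1 ∧ g.1 0 1 = g.1 1 0)}
  mul_mem' := by
    intro g h hg hh
    simp only [Set.mem_ofPred_eq, Units.val_mul, Matrix.mul_apply, Fin.sum_univ_two] at *
    rcases hg with ⟨h1, h2⟩ | ⟨h1, h2⟩ <;> rcases hh with ⟨h3, h4⟩ | ⟨h3, h4⟩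
    · left
      constructor
      · rw [h1, h2, h3, h4]; ring
      · rw [h1, h2, h3, h4]; ring
    · right
      constructor
      · rw [h1, h2, h3, h4]; ring
      · rw [h1, h2, h3, h4]; ring
    · right
      constructor
      · rw [h1, h2, h3, h4]; ring
      · rw [h1, h2, h3, h4]; ring
    · left
      constructor
      · rw [h1, h2, h3, h4]; ring
      · rw [h1, h2, h3, h4]; ring
  one_mem' := by
    left
    simp
  inv_mem' := by
    intro g hg
    simp only [Set.mem_ofPred_eq] at *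
    have e : ((g⁻¹ : GL (Fin 2) (ZMod q)) : Matrix (Fin 2) (Fin 2) (ZMod q))
        = Ring.inverse (g.1.det) • !![g.1 1 1, - g.1 0 1; - g.1 1 0, g.1 0 0] := by
      rw [Matrix.coe_units_inv, Matrix.inv_def, Matrix.adjugate_fin_two]
    rw [e]
    simp only [Matrix.smul_apply, Matrix.of_apply, Matrix.cons_val_zero, Matrix.cons_val_one,
      Matrix.cons_val', smul_eq_mul]
    rcases hg with ⟨h1, h2⟩ | ⟨h1, h2⟩
    · left
      constructor
      · simp [h1]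
      · simp [h2]
    · right
      constructor
      · simp [h1]
      · simp [h2]

theorem J_pow {q : ℕ} [Fact q.Prime] (hq4 : q % 4 = 3) :
    (!![0, -1; 1, 0] : Matrix (Fin 2) (Fin 2) (ZMod q)) ^ q = !![0, 1; -1, 0] := by
  have h2 : (!![0, -1; 1, 0] : Matrix (Fin 2) (Fin 2) (ZMod q)) ^ 4 = 1 := by
    have h2' : (!![0, -1; 1, 0] : Matrix (Fin 2) (Fin 2) (ZMod q)) ^ 2 = -1 := by
      rw [pow_two]
      ext i j
      fin_cases i <;> fin_cases j <;> simp [Matrix.mul_apply, Fin.sum_univ_two]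
    have : (4 : ℕ) = 2 * 2 := rfl
    rw [this, pow_mul, h2']
    simp
  have h3 : (!![0, -1; 1, 0] : Matrix (Fin 2) (Fin 2) (ZMod q)) ^ 3 = !![0, 1; -1, 0] := by
    rw [pow_succ, pow_two]
    ext i j
    fin_cases i <;> fin_cases j <;> simp [Matrix.mul_apply, Fin.sum_univ_two]
  have key : ∀ n : ℕ, (!![0, -1; 1, 0] : Matrix (Fin 2) (Fin 2) (ZMod q)) ^ (4 * n + 3)
      = !![0, 1; -1, 0] := fun n => by rw [pow_add, pow_mul, h2, one_pow, one_mul, h3]
  have h5 := key (q / 4)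
  have hq : 4 * (q / 4) + 3 = q := by omega
  rw [hq] at h5
  exact h5

theorem rot_pow {q : ℕ} [Fact q.Prime] (hq4 : q % 4 = 3) (a b : ZMod q) :
    (!![a, -b; b, a] : Matrix (Fin 2) (Fin 2) (ZMod q)) ^ (q + 1)
      = Matrix.scalar (Fin 2) (a ^ 2 + b ^ 2) := by
  have e : (!![a, -b; b, a] : Matrix (Fin 2) (Fin 2) (ZMod q))
      = a • (1 : Matrix (Fin 2) (Fin 2) (ZMod q))
        + b • (!![0, -1; 1, 0] : Matrix (Fin 2) (Fin 2) (ZMod q)) := by
    ext i j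
    fin_cases i <;> fin_cases j <;> simp
  have hc : Commute (a • (1 : Matrix (Fin 2) (Fin 2) (ZMod q)))
      (b • (!![0, -1; 1, 0] : Matrix (Fin 2) (Fin 2) (ZMod q))) := by
    apply Commute.smul_left
    apply Commute.smul_right
    exact Commute.one_left _
  have hq : (!![a, -b; b, a] : Matrix (Fin 2) (Fin 2) (ZMod q)) ^ q
      = !![a, b; -b, a] := by
    rw [e, add_pow_char_of_commute q hc, smul_pow, smul_pow, one_pow, J_pow hq4, ZMod.pow_card,
      ZMod.pow_card]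
    ext i j
    fin_cases i <;> fin_cases j <;> simp
  rw [pow_succ, hq]
  ext i j
  fin_cases i <;> fin_cases j <;>
    simp [Matrix.mul_apply, Fin.sum_univ_two, Matrix.scalar_apply] <;> ring

theorem sumsq_ne_zero {q : ℕ} [Fact q.Prime] (hq4 : q % 4 = 3) (a b : ZMod q)
    (h : a ≠ 0 ∨ b ≠ 0) : a ^ 2 + b ^ 2 ≠ 0 := by
  intro h0
  by_cases hb : b = 0
  · subst hb
    have : a = 0 := by simpa using h0
    rcases h with h | h
    · exact h this
    · exact h rfl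
  · have hsq : IsSquare (-1 : ZMod q) := by
      refine ⟨a / b, ?_⟩
      field_simp
      linear_combination -h0
    exact (ZMod.exists_sq_eq_neg_one_iff.mp hsq) hq4

theorem two_ne_zero' {q : ℕ} [Fact q.Prime] (hq4 : q % 4 = 3) : (2 : ZMod q) ≠ 0 := by
  intro h
  have h2 : ((2 : ℕ) : ZMod q) = 0 := by exact_mod_cast h
  rw [ZMod.natCast_eq_zero_iff] at h2
  have := Nat.le_of_dvd (by norm_num) h2
  interval_cases q <;> omega

/-- reflection matrices -/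
noncomputable def refl {q : ℕ} [Fact q.Prime] (a b : ZMod q) (h : a ^ 2 + b ^ 2 ≠ 0) :
    GL (Fin 2) (ZMod q) :=
  Matrix.GeneralLinearGroup.mkOfDetNeZero !![a, b; b, -a] (by
    rw [Matrix.det_fin_two_of]
    intro h0
    apply h
    linear_combination -h0)

theorem refl_val {q : ℕ} [Fact q.Prime] (a b : ZMod q) (h : a ^ 2 + b ^ 2 ≠ 0) :
    ((refl a b h : GL (Fin 2) (ZMod q)) : Matrix (Fin 2) (Fin 2) (ZMod q)) = !![a, b; b, -a] :=
  rfl

theorem refl_mem {q : ℕ} [Fact q.Prime] (a b : ZMod q) (h : a ^ 2 + b ^ 2 ≠ 0) :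
    refl a b h ∈ N0 q := by
  right
  rw [refl_val]
  simp

theorem refl_conj_mem {q : ℕ} [Fact q.Prime] (a b : ZMod q) (h : a ^ 2 + b ^ 2 ≠ 0)
    (Y : GL (Fin 2) (ZMod q))
    (hc : 2 * a * (Y.1 0 1 * Y.1 1 1 + Y.1 0 0 * Y.1 1 0)
      + b * ((Y.1 1 1) ^ 2 - (Y.1 0 1) ^ 2 - (Y.1 0 0) ^ 2 + (Y.1 1 0) ^ 2) = 0) :
    Y⁻¹ * refl a b h * Y ∈ N0 q := by
  right
  have e : ((Y⁻¹ : GL (Fin 2) (ZMod q)) : Matrix (Fin 2) (Fin 2) (ZMod q))
      = (Y.1.det)⁻¹ • !![Y.1 1 1, - Y.1 0 1; - Y.1 1 0, Y.1 0 0] := by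
    rw [Matrix.coe_units_inv, Matrix.inv_def, Matrix.adjugate_fin_two, Ring.inverse_eq_inv']
  rw [Units.val_mul, Units.val_mul, e, refl_val]
  simp only [Matrix.mul_apply, Fin.sum_univ_two, Matrix.smul_apply, Matrix.of_apply,
    Matrix.cons_val_zero, Matrix.cons_val_one, Matrix.cons_val', smul_eq_mul]
  constructor
  · simp
    ring
  · simp
    linear_combination (Y.1.det)⁻¹ * hc

theorem refl_ne_one {q : ℕ} [Fact q.Prime] (hq4 : q % 4 = 3) (a b : ZMod q)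
    (h : a ^ 2 + b ^ 2 ≠ 0) :
    (QuotientGroup.mk (refl a b h) : GL (Fin 2) (ZMod q) ⧸ Subgroup.center (GL (Fin 2) (ZMod q)))
      ≠ 1 := by
  intro h1
  obtain ⟨u, hu⟩ := scalar_of_mk_eq_one _ h1
  have hu' := congrArg (fun M : GL (Fin 2) (ZMod q) => (M : Matrix (Fin 2) (Fin 2) (ZMod q))) hu
  simp only [refl_val, Matrix.GeneralLinearGroup.coe_scalar] at hu'
  have h01 := congrFun (congrFun hu' 0) 1
  have h00 := congrFun (congrFun hu' 0) 0
  have h11 := congrFun (congrFun hu' 1) 1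
  simp at h01 h00 h11
  have ha : a = 0 := by
    have : 2 * a = 0 := by
      rw [h00] at h11 ⊢
      linear_combination -h11
    rcases mul_eq_zero.mp this with h2 | h2
    · exact absurd h2 (two_ne_zero' hq4)
    · exact h2
  apply h
  rw [ha, h01]
  ring

theorem key {q : ℕ} [Fact q.Prime] (hq4 : q % 4 = 3) (Y : GL (Fin 2) (ZMod q)) :
    ∃ R : GL (Fin 2) (ZMod q), R ∈ N0 q ∧ Y⁻¹ * R * Y ∈ N0 q ∧
      (QuotientGroup.mk R : GL (Fin 2) (ZMod q) ⧸ Subgroup.center (GL (Fin 2) (ZMod q))) ≠ 1 := by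
  by_cases huv : (Y.1 1 0) ^ 2 + (Y.1 1 1) ^ 2 - (Y.1 0 0) ^ 2 - (Y.1 0 1) ^ 2 = 0 ∧
      Y.1 0 0 * Y.1 1 0 + Y.1 0 1 * Y.1 1 1 = 0
  · obtain ⟨hu, hv⟩ := huv
    have h : (1 : ZMod q) ^ 2 + 0 ^ 2 ≠ 0 := sumsq_ne_zero hq4 _ _ (Or.inl one_ne_zero)
    refine ⟨refl 1 0 h, refl_mem _ _ h, refl_conj_mem _ _ h Y ?_, refl_ne_one hq4 _ _ h⟩
    linear_combination 2 * hv
  · have h : ((Y.1 1 0) ^ 2 + (Y.1 1 1) ^ 2 - (Y.1 0 0) ^ 2 - (Y.1 0 1) ^ 2) ^ 2
        + (-2 * (Y.1 0 0 * Y.1 1 0 + Y.1 0 1 * Y.1 1 1)) ^ 2 ≠ 0 := by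
      apply sumsq_ne_zero hq4
      by_contra hcon
      push Not at hcon
      apply huv
      refine ⟨hcon.1, ?_⟩
      rcases mul_eq_zero.mp hcon.2 with h2 | h2
      · exact absurd (neg_eq_zero.mp h2) (two_ne_zero' hq4)
      · exact h2
    refine ⟨refl _ _ h, refl_mem _ _ h, refl_conj_mem _ _ h Y ?_, refl_ne_one hq4 _ _ h⟩
    ring

theorem isPGroup_H0 {q k : ℕ} [Fact q.Prime] (hk : q + 1 = 2 ^ k) (hq4 : q % 4 = 3) :
    IsPGroup 2 ((N0 q).map (QuotientGroup.mk' (Subgroup.center (GL (Fin 2) (ZMod q))))) := by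
  rintro ⟨g, hg⟩
  obtain ⟨M, hM, rfl⟩ := Subgroup.mem_map.mp hg
  rcases hM with ⟨h1, h2⟩ | ⟨h1, h2⟩
  · refine ⟨k, Subtype.ext ?_⟩
    have e : (M : Matrix (Fin 2) (Fin 2) (ZMod q)) = !![M.1 0 0, - M.1 1 0; M.1 1 0, M.1 0 0] := by
      ext i j
      fin_cases i <;> fin_cases j <;> simp [h1, h2]
    have e2 : ((M ^ (q + 1) : GL (Fin 2) (ZMod q)) : Matrix (Fin 2) (Fin 2) (ZMod q))
        = Matrix.scalar (Fin 2) ((M.1 0 0) ^ 2 + (M.1 1 0) ^ 2) := by
      rw [Units.val_pow_eq_pow_val, e, rot_pow hq4]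
      simp
    have e3 := mk_eq_one_of_scalar _ _ e2
    rw [QuotientGroup.mk_pow, hk] at e3
    exact e3
  · refine ⟨1, Subtype.ext ?_⟩
    have e2 : ((M ^ 2 : GL (Fin 2) (ZMod q)) : Matrix (Fin 2) (Fin 2) (ZMod q))
        = Matrix.scalar (Fin 2) ((M.1 0 0) ^ 2 + (M.1 1 0) ^ 2) := by
      rw [Units.val_pow_eq_pow_val, pow_two]
      ext i j
      fin_cases i <;> fin_cases j <;>
        simp [Matrix.mul_apply, Fin.sum_univ_two, Matrix.scalar_apply, h1, h2] <;> ring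
    have e3 := mk_eq_one_of_scalar _ _ e2
    rw [QuotientGroup.mk_pow] at e3
    exact e3

/-- Let q = 2^k − 1 ≥ 7 be a prime and let G = PGL(2,q), the general linear group of degree 2 over the field with q elements modulo its centre. Then any two Sylow 2-subgroups of G have a non-trivial intersection: for a Sylow 2-subgroup H and every x ∈ G, H ∩ H^x ≠ 1. -/
theorem result {q k : ℕ} [Fact q.Prime] (hk : q + 1 = 2 ^ k) (hq : 7 ≤ q)
    (H : Sylow 2 (GL (Fin 2) (ZMod q) ⧸ Subgroup.center (GL (Fin 2) (ZMod q))))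
    (x : GL (Fin 2) (ZMod q) ⧸ Subgroup.center (GL (Fin 2) (ZMod q))) :
    (H : Subgroup (GL (Fin 2) (ZMod q) ⧸ Subgroup.center (GL (Fin 2) (ZMod q)))) ⊓ MulAut.conj x • (H : Subgroup _) ≠ ⊥ := by
  have hq4 : q % 4 = 3 := by
    have hk3 : 3 ≤ k := by
      by_contra hlt
      push Not at hlt
      have : 2 ^ k ≤ 2 ^ 2 := Nat.pow_le_pow_right (by norm_num) (by omega)
      omega
    obtain ⟨m, rfl⟩ := Nat.exists_eq_add_of_le hk3
    rw [pow_add] at hk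
    omega
  have hP := isPGroup_H0 hk hq4
  obtain ⟨P, hP⟩ := hP.exists_le_sylow
  obtain ⟨g, rfl⟩ := MulAction.exists_smul_eq
    (GL (Fin 2) (ZMod q) ⧸ Subgroup.center (GL (Fin 2) (ZMod q))) P H
  obtain ⟨Y, hY⟩ := QuotientGroup.mk_surjective (g⁻¹ * x * g)
  obtain ⟨R, hR1, hR2, hR3⟩ := key hq4 Y
  intro hbot
  have hmem : g * QuotientGroup.mk R * g⁻¹ ∈
      ((g • P : Sylow 2 (GL (Fin 2) (ZMod q) ⧸ Subgroup.center (GL (Fin 2) (ZMod q)))) :
        Subgroup (GL (Fin 2) (ZMod q) ⧸ Subgroup.center (GL (Fin 2) (ZMod q)))) ⊓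
      MulAut.conj x • ((g • P : Sylow 2 (GL (Fin 2) (ZMod q) ⧸ Subgroup.center (GL (Fin 2) (ZMod q)))) :
        Subgroup (GL (Fin 2) (ZMod q) ⧸ Subgroup.center (GL (Fin 2) (ZMod q)))) := by
    rw [Sylow.coe_subgroup_smul]
    refine Subgroup.mem_inf.mpr ⟨?_, ?_⟩
    · rw [Subgroup.mem_pointwise_smul_iff_inv_smul_mem]
      have e : (MulAut.conj g)⁻¹ • (g * QuotientGroup.mk R * g⁻¹)
          = (QuotientGroup.mk R : GL (Fin 2) (ZMod q) ⧸ Subgroup.center (GL (Fin 2) (ZMod q))) := by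
        rw [MulAut.smul_def, MulAut.conj_inv_apply]
        group
      rw [e]
      exact hP (Subgroup.mem_map_of_mem _ hR1)
    · rw [Subgroup.mem_pointwise_smul_iff_inv_smul_mem, Subgroup.mem_pointwise_smul_iff_inv_smul_mem]
      have e : (MulAut.conj g)⁻¹ • (MulAut.conj x)⁻¹ • (g * QuotientGroup.mk R * g⁻¹)
          = (QuotientGroup.mk (Y⁻¹ * R * Y) :
              GL (Fin 2) (ZMod q) ⧸ Subgroup.center (GL (Fin 2) (ZMod q))) := by
        rw [MulAut.smul_def, MulAut.smul_def, MulAut.conj_inv_apply, MulAut.conj_inv_apply,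
          QuotientGroup.mk_mul, QuotientGroup.mk_mul, QuotientGroup.mk_inv, hY]
        group
      rw [e]
      exact hP (Subgroup.mem_map_of_mem _ hR2)
  rw [hbot, Subgroup.mem_bot] at hmem
  apply hR3
  have : (QuotientGroup.mk R : GL (Fin 2) (ZMod q) ⧸ Subgroup.center (GL (Fin 2) (ZMod q)))
      = g⁻¹ * (g * QuotientGroup.mk R * g⁻¹) * g := by group
  rw [this, hmem]
  group

end Cfsg.Agent.S2485
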