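import Cfsg.Statements.S2505
import Mathlib
-- import your own Cfsg.Agent.* helpers here

set_option autoImplicit false
open Cfsg

namespace Cfsg.Agent.S2505

open Equiv

/-- the maximal product of the parts of a partition of `n`. -/
def g : ℕ → ℕ
  | 0 => 1
  | 1 => 1
  | 2 => 2
  | 3 => 3
  | 4 => 4
  | (n + 5) => 3 * g (n + 2)

theorem g_add_three (j : ℕ) (hj : 2 ≤ j) : g (j + 3) = 3 * g j := by
  obtain ⟨i, rfl⟩ : ∃ i, j = i + 2 := ⟨j - 2, by omega⟩
  rw [show i + 2 + 3 = i + 5 by omega, g]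

theorem g_base : ∀ j, g j ≤ g (j + 1) ∧ 2 * g j ≤ g (j + 2) ∧ 3 * g j ≤ g (j + 3) ∧
    4 * g j ≤ g (j + 4) := by
  intro j
  induction j using Nat.strong_induction_on with
  | _ j ih =>
    by_cases hj : j < 5
    · interval_cases j <;> simp [g]
    · obtain ⟨i, rfl⟩ : ∃ i, j = i + 3 := ⟨j - 3, by omega⟩
      have hi : 2 ≤ i := by omega
      obtain ⟨h1, h2, h3, h4⟩ := ih i (by omega)
      have e0 := g_add_three i hi
      have e1 := g_add_three (i + 1) (by omega)
      have e2 := g_add_three (i + 2) (by omega)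
      have e3 := g_add_three (i + 3) (by omega)
      have e4 := g_add_three (i + 4) (by omega)
      rw [show i + 3 + 1 = i + 1 + 3 by omega, show i + 3 + 2 = i + 2 + 3 by omega,
        show i + 3 + 4 = i + 4 + 3 by omega, e3, e0, e1, e2, e4]
      have e5 : g (i + 4) = g (i + 1 + 3) := rfl
      rw [e5, e1]
      omega

theorem g_mul (m : ℕ) : ∀ j, m * g j ≤ g (j + m) := by
  induction m using Nat.strong_induction_on with
  | _ m ih =>
    intro j
    obtain ⟨h1, h2, h3, h4⟩ := g_base j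
    by_cases hm : m < 5
    · interval_cases m
      · simp
      · simpa using h1
      · exact h2
      · exact h3
      · exact h4
    · have h5 := ih (m - 3) (by omega) j
      have h6 := (g_base (j + (m - 3))).2.2.1
      rw [show j + (m - 3) + 3 = j + m by omega] at h6
      calc m * g j ≤ 3 * ((m - 3) * g j) := by
            rw [← mul_assoc]; exact Nat.mul_le_mul_right _ (by omega)
        _ ≤ 3 * g (j + (m - 3)) := Nat.mul_le_mul_left _ h5
        _ ≤ g (j + m) := h6

theorem prod_le_g {ι : Type*} (s : Finset ι) (c : ι → ℕ) :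
    ∏ i ∈ s, c i ≤ g (∑ i ∈ s, c i) := by
  classical
  induction s using Finset.induction_on with
  | empty => simp [g]
  | insert a s ha ih =>
    rw [Finset.prod_insert ha, Finset.sum_insert ha]
    calc c a * ∏ i ∈ s, c i ≤ c a * g (∑ i ∈ s, c i) := Nat.mul_le_mul_left _ ih
      _ ≤ g (∑ i ∈ s, c i + c a) := g_mul _ _
      _ = g (c a + ∑ i ∈ s, c i) := by rw [add_comm]

theorem g_three_mul (k : ℕ) : g (3 * k) = 3 ^ k := by
  induction k with
  | zero => rfl
  | succ k ih =>
    rcases Nat.eq_zero_or_pos k with rfl | hk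
    · rfl
    · rw [show 3 * (k + 1) = 3 * k + 3 by ring, g_add_three _ (by omega), ih, pow_succ]
      ring

theorem g_three_mul_add_one (k : ℕ) (hk : 1 ≤ k) : g (3 * k + 1) = 4 * 3 ^ (k - 1) := by
  induction k, hk using Nat.le_induction with
  | base => rfl
  | succ k hk ih =>
    rw [show 3 * (k + 1) + 1 = 3 * k + 1 + 3 by ring, g_add_three _ (by omega), ih]
    obtain ⟨i, rfl⟩ : ∃ i, k = i + 1 := ⟨k - 1, by omega⟩
    rw [show i + 1 + 1 - 1 = i + 1 by omega, show i + 1 - 1 = i by omega, pow_succ]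
    ring

theorem g_three_mul_add_two (k : ℕ) : g (3 * k + 2) = 2 * 3 ^ k := by
  induction k with
  | zero => rfl
  | succ k ih =>
    rw [show 3 * (k + 1) + 2 = 3 * k + 2 + 3 by ring, g_add_three _ (by omega), ih, pow_succ]
    ring

theorem card_le (n : ℕ) (A : Subgroup (Perm (Fin n))) (hA : IsMulCommutative A) :
    Nat.card A ≤ g n := by
  classical
  let q : Fin n → MulAction.orbitRel.Quotient A (Fin n) :=
    Quotient.mk (MulAction.orbitRel A (Fin n))
  let x : MulAction.orbitRel.Quotient A (Fin n) → Fin n := fun ω => Quotient.out ω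
  have hx : ∀ ω, q (x ω) = ω := fun ω => Quotient.out_eq ω
  let S : MulAction.orbitRel.Quotient A (Fin n) → Finset (Fin n) :=
    fun ω => Finset.univ.filter (fun y => q y = ω)
  let ev : A → (MulAction.orbitRel.Quotient A (Fin n) → Fin n) :=
    fun a ω => (a : Perm (Fin n)) (x ω)
  have hqa : ∀ (a : A) (y : Fin n), q ((a : Perm (Fin n)) y) = q y := by
    intro a y
    apply Quotient.sound
    show MulAction.orbitRel A (Fin n) _ _
    rw [MulAction.orbitRel_apply]
    exact ⟨a, rfl⟩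
  have hmem : ∀ a, ev a ∈ Fintype.piFinset S := by
    intro a
    rw [Fintype.mem_piFinset]
    intro ω
    show (a : Perm (Fin n)) (x ω) ∈ S ω
    rw [Finset.mem_filter]
    exact ⟨Finset.mem_univ _, (hqa a (x ω)).trans (hx ω)⟩
  have hev : Function.Injective ev := by
    intro a b hab
    apply Subtype.ext
    ext y
    have h1 : q y = q (x (q y)) := (hx (q y)).symm
    have h2 : MulAction.orbitRel A (Fin n) y (x (q y)) := Quotient.exact h1
    rw [MulAction.orbitRel_apply] at h2
    obtain ⟨c, hc⟩ := h2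
    have hc' : (c : Perm (Fin n)) (x (q y)) = y := hc
    have h3 : (a : Perm (Fin n)) (x (q y)) = (b : Perm (Fin n)) (x (q y)) := congrFun hab (q y)
    have hac : (a : Perm (Fin n)) * (c : Perm (Fin n)) = (c : Perm (Fin n)) * (a : Perm (Fin n)) :=
      setLike_mul_comm a.2 c.2
    have hbc : (b : Perm (Fin n)) * (c : Perm (Fin n)) = (c : Perm (Fin n)) * (b : Perm (Fin n)) :=
      setLike_mul_comm b.2 c.2
    calc ((a : Perm (Fin n)) y : ℕ) = (((a : Perm (Fin n)) * (c : Perm (Fin n))) (x (q y)) : ℕ) := by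
          rw [Perm.mul_apply, hc']
      _ = (((b : Perm (Fin n)) * (c : Perm (Fin n))) (x (q y)) : ℕ) := by
          rw [hac, hbc, Perm.mul_apply, Perm.mul_apply, h3]
      _ = ((b : Perm (Fin n)) y : ℕ) := by rw [Perm.mul_apply, hc']
  have h1 : Nat.card A ≤ ∏ ω, (S ω).card := by
    rw [← Fintype.card_piFinset, Nat.card_eq_fintype_card, ← Finset.card_univ]
    exact Finset.card_le_card_of_injOn ev (fun a _ => hmem a) (fun a _ b _ h => hev h)
  have h2 : ∑ ω, (S ω).card = n := by
    have h3 := Finset.card_eq_sum_card_fiberwise (f := q) (s := Finset.univ) (t := Finset.univ)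
      (fun y _ => Finset.mem_univ _)
    rw [Finset.card_univ, Fintype.card_fin] at h3
    exact h3.symm
  calc Nat.card A ≤ ∏ ω, (S ω).card := h1
    _ ≤ g (∑ ω, (S ω).card) := prod_le_g _ _
    _ = g n := by rw [h2]

/-- the translation action of `C × (Fin j → ZMod 3)` on `C ⊕ (Fin j × ZMod 3)`. -/
def tr (C : Type) [AddCommGroup C] (j : ℕ) (u : C × (Fin j → ZMod 3)) :
    Perm (C ⊕ (Fin j × ZMod 3)) where
  toFun := Sum.map (fun c => u.1 + c) (fun p => (p.1, u.2 p.1 + p.2))
  invFun := Sum.map (fun c => -u.1 + c) (fun p => (p.1, -u.2 p.1 + p.2))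
  left_inv := by rintro (c | ⟨i, z⟩) <;> simp
  right_inv := by rintro (c | ⟨i, z⟩) <;> simp

theorem tr_add (C : Type) [AddCommGroup C] (j : ℕ) (u v : C × (Fin j → ZMod 3)) :
    tr C j (u + v) = tr C j u * tr C j v := by
  ext (c | ⟨i, z⟩) <;> simp [tr, add_assoc]

theorem tr_injective (C : Type) [AddCommGroup C] (j : ℕ) : Function.Injective (tr C j) := by
  intro u v h
  have h1 := congrArg (fun f : Perm (C ⊕ (Fin j × ZMod 3)) => f (Sum.inl 0)) h
  have h2 : ∀ i, tr C j u (Sum.inr (i, 0)) = tr C j v (Sum.inr (i, 0)) := fun i => by rw [h]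
  simp only [tr, coe_fn_mk, Sum.map_inl, add_zero, Sum.inl.injEq] at h1
  simp only [tr, coe_fn_mk, Sum.map_inr, add_zero, Sum.inr.injEq, Prod.mk.injEq, true_and] at h2
  exact Prod.ext h1 (funext h2)

theorem exists_abelian (C : Type) [AddCommGroup C] [Fintype C] (j n : ℕ)
    (hn : Fintype.card C + 3 * j = n) :
    ∃ A : Subgroup (Perm (Fin n)), IsMulCommutative A ∧ Nat.card A = Fintype.card C * 3 ^ j := by
  classical
  have hcard : Fintype.card (C ⊕ (Fin j × ZMod 3)) = n := by
    rw [Fintype.card_sum, Fintype.card_prod, Fintype.card_fin, ZMod.card, ← hn, mul_comm]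
  let e : (C ⊕ (Fin j × ZMod 3)) ≃ Fin n := Fintype.equivFinOfCardEq hcard
  let φ : Multiplicative (C × (Fin j → ZMod 3)) →* Perm (C ⊕ (Fin j × ZMod 3)) :=
    MonoidHom.mk' (fun u => tr C j (Multiplicative.toAdd u)) (fun a b => tr_add C j _ _)
  let ψ : Multiplicative (C × (Fin j → ZMod 3)) →* Perm (Fin n) :=
    (e.permCongrHom : Perm (C ⊕ (Fin j × ZMod 3)) →* Perm (Fin n)).comp φ
  have hψ : Function.Injective ψ := by
    intro a b hab
    have h1 : φ a = φ b := e.permCongrHom.injective hab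
    exact Multiplicative.toAdd.injective (tr_injective C j h1)
  refine ⟨ψ.range, inferInstance, ?_⟩
  rw [Nat.card_congr (MonoidHom.ofInjective hψ).toEquiv.symm, Nat.card_eq_fintype_card]
  simp [Fintype.card_prod, Fintype.card_pi, ZMod.card]

/-- The largest order of an abelian subgroup of the symmetric group of degree n is 3^k when n = 3k, 4·3^(k−1) when n = 3k + 1, and 2·3^k when n = 3k + 2, for every k ≥ 1. -/
theorem result (k : ℕ) (hk : 1 ≤ k) :
    IsGreatest {c : ℕ | ∃ A : Subgroup (Equiv.Perm (Fin (3 * k))), IsMulCommutative A ∧ Nat.card A = c} (3 ^ k) ∧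
    IsGreatest {c : ℕ | ∃ A : Subgroup (Equiv.Perm (Fin (3 * k + 1))), IsMulCommutative A ∧ Nat.card A = c}
      (4 * 3 ^ (k - 1)) ∧
    IsGreatest {c : ℕ | ∃ A : Subgroup (Equiv.Perm (Fin (3 * k + 2))), IsMulCommutative A ∧ Nat.card A = c}
      (2 * 3 ^ k) := by
  have e3 : Fintype.card (ZMod 3) = 3 := ZMod.card 3
  have e4 : Fintype.card (ZMod 4) = 4 := ZMod.card 4
  have e2 : Fintype.card (ZMod 2) = 2 := ZMod.card 2
  obtain ⟨i, rfl⟩ : ∃ i, k = i + 1 := ⟨k - 1, by omega⟩
  refine ⟨⟨?_, ?_⟩, ⟨?_, ?_⟩, ⟨?_, ?_⟩⟩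
  · obtain ⟨A, hA, hc⟩ := exists_abelian (ZMod 3) i (3 * (i + 1)) (by rw [e3]; ring)
    refine ⟨A, hA, ?_⟩
    rw [hc, e3, pow_succ, mul_comm]
  · rintro c ⟨A, hA, rfl⟩
    rw [← g_three_mul]
    exact card_le _ A hA
  · obtain ⟨A, hA, hc⟩ := exists_abelian (ZMod 4) i (3 * (i + 1) + 1) (by rw [e4]; ring)
    refine ⟨A, hA, ?_⟩
    rw [hc, e4, show i + 1 - 1 = i by omega]
  · rintro c ⟨A, hA, rfl⟩
    rw [← g_three_mul_add_one _ (by omega)]
    exact card_le _ A hA
  · obtain ⟨A, hA, hc⟩ := exists_abelian (ZMod 2) (i + 1) (3 * (i + 1) + 2) (by rw [e2]; ring)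
    refine ⟨A, hA, ?_⟩
    rw [hc, e2]
  · rintro c ⟨A, hA, rfl⟩
    rw [← g_three_mul_add_two]
    exact card_le _ A hA

end Cfsg.Agent.S2505
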