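import Cfsg.Statements.S2504
import Mathlib
import Cfsg.Agent.S2505
-- import your own Cfsg.Agent.* helpers here

set_option autoImplicit false
open Cfsg

namespace Cfsg.Agent.S2504

open Equiv Cfsg.Agent.S2505

theorem six_mul (m : ℕ) (hm : 5 ≤ m) : ∀ j, 6 * (m * g j) ≤ 5 * g (j + m) := by
  induction m using Nat.strong_induction_on with
  | _ m ih =>
    intro j
    by_cases h8 : m < 8
    · have b0 := g_base j
      have b3 := g_base (j + 3)
      interval_cases m
      · have h1 := b0.2.2.1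
        have h2 := b3.2.1
        rw [show j + 3 + 2 = j + 5 by omega] at h2
        omega
      · have h1 := b0.2.2.1
        have h2 := b3.2.2.1
        rw [show j + 3 + 3 = j + 6 by omega] at h2
        omega
      · have h1 := b0.2.2.1
        have h2 := b3.2.2.2
        rw [show j + 3 + 4 = j + 7 by omega] at h2
        omega
    · obtain ⟨i, rfl⟩ : ∃ i, m = i + 3 := ⟨m - 3, by omega⟩
      have h5 := ih i (by omega) (by omega) j
      have h6 := (g_base (j + i)).2.2.1
      rw [show j + i + 3 = j + (i + 3) by omega] at h6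
      have h7 : (i + 3) * g j ≤ 3 * (i * g j) := by
        rw [← mul_assoc]
        exact Nat.mul_le_mul_right _ (by omega)
      generalize (i + 3) * g j = a at h7 ⊢
      generalize i * g j = b at h7 h5
      omega

theorem key {Ω : Type*} [Fintype Ω] [DecidableEq Ω] (c : Ω → ℕ) (T : Finset Ω) :
    ∏ ω, c ω ≤ (∏ ω ∈ T, c ω) * g (∑ ω, c ω - ∑ ω ∈ T, c ω) := by
  rw [← Finset.prod_mul_prod_compl T c]
  have h1 : ∑ ω, c ω - ∑ ω ∈ T, c ω = ∑ ω ∈ Tᶜ, c ω := by
    rw [← Finset.sum_add_sum_compl T c]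
    omega
  rw [h1]
  exact Nat.mul_le_mul_left _ (prod_le_g _ _)

theorem arith {Ω : Type*} [Fintype Ω] [DecidableEq Ω] (c : Ω → ℕ) (k : ℕ) (hk : 2 ≤ k)
    (hsum : ∑ ω, c ω = 3 * k + 2) (hP : 16 * 3 ^ (k - 2) < ∏ ω, c ω) :
    ∃ ω₀, c ω₀ = 2 ∧ ∀ ω, ω ≠ ω₀ → c ω = 3 := by
  obtain ⟨j, rfl⟩ : ∃ j, k = j + 2 := ⟨k - 2, by omega⟩
  rw [show j + 2 - 2 = j by omega] at hP
  have g1 : g (3 * (j + 2) + 2 - 1) = 12 * 3 ^ j := by
    rw [show 3 * (j + 2) + 2 - 1 = 3 * (j + 2) + 1 by omega, g_three_mul_add_one _ (by omega),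
      show j + 2 - 1 = j + 1 by omega, pow_succ]
    ring
  have g4 : g (3 * (j + 2) + 2 - 4) = 4 * 3 ^ j := by
    rw [show 3 * (j + 2) + 2 - 4 = 3 * (j + 1) + 1 by omega, g_three_mul_add_one _ (by omega),
      show j + 1 - 1 = j by omega]
  have gn : g (3 * (j + 2) + 2) = 18 * 3 ^ j := by
    rw [g_three_mul_add_two, pow_succ, pow_succ]
    ring
  generalize 3 ^ j = t at hP g1 g4 gn
  generalize hPd : ∏ ω, c ω = P at hP
  have h1 : ∀ ω, c ω = 2 ∨ c ω = 3 := by
    intro ω
    have hkey := key c {ω}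
    rw [Finset.prod_singleton, Finset.sum_singleton, hsum, hPd] at hkey
    by_cases h5 : 5 ≤ c ω
    · exfalso
      have h6 := six_mul (c ω) h5 (3 * (j + 2) + 2 - c ω)
      have hle : c ω ≤ 3 * (j + 2) + 2 := by
        rw [← hsum]
        exact Finset.single_le_sum (fun _ _ => Nat.zero_le _) (Finset.mem_univ ω)
      rw [show 3 * (j + 2) + 2 - c ω + c ω = 3 * (j + 2) + 2 by omega, gn] at h6
      generalize c ω * g (3 * (j + 2) + 2 - c ω) = a at hkey h6
      omega
    · have : c ω = 0 ∨ c ω = 1 ∨ c ω = 2 ∨ c ω = 3 ∨ c ω = 4 := by omega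
      rcases this with h | h | h | h | h
      · rw [h, zero_mul] at hkey
        omega
      · rw [h, one_mul, g1] at hkey
        omega
      · left; exact h
      · right; exact h
      · rw [h, g4] at hkey
        omega
  have h2 : ∀ ω ω', ω ≠ ω' → c ω = 2 → c ω' = 2 → False := by
    intro ω ω' hne h h'
    have hkey := key c {ω, ω'}
    rw [Finset.prod_pair hne, Finset.sum_pair hne, hsum, hPd, h, h',
      show 3 * (j + 2) + 2 - (2 + 2) = 3 * (j + 2) + 2 - 4 from rfl, g4] at hkey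
    omega
  have h3 : ∃ ω₀, c ω₀ = 2 := by
    by_contra hno
    push Not at hno
    have hall : ∀ ω, c ω = 3 := fun ω => (h1 ω).resolve_left (hno ω)
    rw [Finset.sum_congr rfl (fun ω _ => hall ω), Finset.sum_const, smul_eq_mul] at hsum
    omega
  obtain ⟨ω₀, h0⟩ := h3
  refine ⟨ω₀, h0, fun ω hne => ?_⟩
  rcases h1 ω with h | h
  · exact absurd h0 (fun h0 => h2 ω ω₀ hne h h0)
  · exact h

theorem parity (n : ℕ) (A : Subgroup (Perm (Fin n))) (hA : IsMulCommutative A)
    (heven : ∀ a ∈ A, Perm.sign a = 1) (u : Fin n)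
    (hu : (MulAction.orbit A u).ncard = 2)
    (hrest : ∀ x, x ∉ MulAction.orbit A u → (MulAction.orbit A x).ncard = 3) : False := by
  classical
  haveI := hA
  have h1 : ∃ y ∈ MulAction.orbit A u, y ≠ u := by
    by_contra hno
    push Not at hno
    have : MulAction.orbit A u = {u} := by
      ext y
      constructor
      · intro hy
        exact hno y hy
      · rintro rfl
        exact MulAction.mem_orbit_self _
    rw [this, Set.ncard_singleton] at hu
    omega
  obtain ⟨v, hv, hvu⟩ := h1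
  obtain ⟨a, ha⟩ := MulAction.mem_orbit_iff.1 hv
  have hav : (a : Perm (Fin n)) u = v := ha
  have horb : MulAction.orbit A u = {u, v} := by
    symm
    apply Set.eq_of_subset_of_ncard_le
    · rintro y (rfl | rfl)
      · exact MulAction.mem_orbit_self _
      · exact hv
    · rw [hu, Set.ncard_pair hvu.symm]
    · exact Set.toFinite _
  have hpow2 : ((a : Perm (Fin n)) ^ 2) u = u := by
    have := Subgroup.pow_index_mem (MulAction.stabilizer A u) a
    rw [MulAction.index_stabilizer, hu, MulAction.mem_stabilizer_iff] at this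
    exact this
  have hpow3 : ∀ x, x ∉ MulAction.orbit A u → ((a : Perm (Fin n)) ^ 3) x = x := by
    intro x hx
    have := Subgroup.pow_index_mem (MulAction.stabilizer A x) a
    rw [MulAction.index_stabilizer, hrest x hx, MulAction.mem_stabilizer_iff] at this
    exact this
  have h3u : ((a : Perm (Fin n)) ^ 3) u = v := by
    rw [pow_succ', Perm.mul_apply, hpow2, hav]
  have hav2 : (a : Perm (Fin n)) v = u := by
    rw [← hav, ← Perm.mul_apply, ← sq, hpow2]
  have h3v : ((a : Perm (Fin n)) ^ 3) v = u := by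
    calc ((a : Perm (Fin n)) ^ 3) v = ((a : Perm (Fin n)) ^ 3) ((a : Perm (Fin n)) u) := by rw [hav]
      _ = ((a : Perm (Fin n)) ^ 3 * (a : Perm (Fin n))) u := rfl
      _ = ((a : Perm (Fin n)) * (a : Perm (Fin n)) ^ 3) u := by rw [← pow_succ, ← pow_succ']
      _ = (a : Perm (Fin n)) (((a : Perm (Fin n)) ^ 3) u) := rfl
      _ = u := by rw [h3u, hav2]
  have hswap : (a : Perm (Fin n)) ^ 3 = swap u v := by
    ext x
    by_cases hxu : x = u
    · rw [hxu, h3u, swap_apply_left]
    · by_cases hxv : x = v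
      · rw [hxv, h3v, swap_apply_right]
      · rw [swap_apply_of_ne_of_ne hxu hxv, hpow3]
        rw [horb]
        simp [hxu, hxv]
  have hs : Perm.sign ((a : Perm (Fin n)) ^ 3) = 1 := by
    rw [map_pow, heven _ a.2, one_pow]
  rw [hswap, Perm.sign_swap hvu.symm] at hs
  exact absurd hs (by decide)

theorem upper2 (k : ℕ) (hk : 2 ≤ k) (n : ℕ) (hn : n = 3 * k + 2) (A : Subgroup (Perm (Fin n)))
    (hA : IsMulCommutative A) (heven : ∀ a ∈ A, Perm.sign a = 1) :
    Nat.card A ≤ 16 * 3 ^ (k - 2) := by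
  classical
  by_contra hcon
  push Not at hcon
  let q : Fin n → MulAction.orbitRel.Quotient A (Fin n) :=
    Quotient.mk (MulAction.orbitRel A (Fin n))
  let x : MulAction.orbitRel.Quotient A (Fin n) → Fin n := fun ω => Quotient.out ω
  have hx : ∀ ω, q (x ω) = ω := fun ω => Quotient.out_eq ω
  let S : MulAction.orbitRel.Quotient A (Fin n) → Finset (Fin n) :=
    fun ω => Finset.univ.filter (fun y => q y = ω)
  let ev : A → (MulAction.orbitRel.Quotient A (Fin n) → Fin n) :=
    fun a ω => (a : Perm (Fin n)) (x ω)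
  have hqa : ∀ (a : A) (y : Fin n), q ((a : Perm (Fin n)) y) = q y := by
    intro a y
    apply Quotient.sound
    show MulAction.orbitRel A (Fin n) _ _
    rw [MulAction.orbitRel_apply]
    exact ⟨a, rfl⟩
  have hmem : ∀ a, ev a ∈ Fintype.piFinset S := by
    intro a
    rw [Fintype.mem_piFinset]
    intro ω
    show (a : Perm (Fin n)) (x ω) ∈ S ω
    rw [Finset.mem_filter]
    exact ⟨Finset.mem_univ _, (hqa a (x ω)).trans (hx ω)⟩
  have hev : Function.Injective ev := by
    intro a b hab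
    apply Subtype.ext
    ext y
    have h1 : q y = q (x (q y)) := (hx (q y)).symm
    have h2 : MulAction.orbitRel A (Fin n) y (x (q y)) := Quotient.exact h1
    rw [MulAction.orbitRel_apply] at h2
    obtain ⟨c, hc⟩ := h2
    have hc' : (c : Perm (Fin n)) (x (q y)) = y := hc
    have h3 : (a : Perm (Fin n)) (x (q y)) = (b : Perm (Fin n)) (x (q y)) := congrFun hab (q y)
    have hac : (a : Perm (Fin n)) * (c : Perm (Fin n)) = (c : Perm (Fin n)) * (a : Perm (Fin n)) :=
      setLike_mul_comm a.2 c.2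
    have hbc : (b : Perm (Fin n)) * (c : Perm (Fin n)) = (c : Perm (Fin n)) * (b : Perm (Fin n)) :=
      setLike_mul_comm b.2 c.2
    calc ((a : Perm (Fin n)) y : ℕ) = (((a : Perm (Fin n)) * (c : Perm (Fin n))) (x (q y)) : ℕ) := by
          rw [Perm.mul_apply, hc']
      _ = (((b : Perm (Fin n)) * (c : Perm (Fin n))) (x (q y)) : ℕ) := by
          rw [hac, hbc, Perm.mul_apply, Perm.mul_apply, h3]
      _ = ((b : Perm (Fin n)) y : ℕ) := by rw [Perm.mul_apply, hc']
  have h1 : Nat.card A ≤ ∏ ω, (S ω).card := by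
    rw [← Fintype.card_piFinset, Nat.card_eq_fintype_card, ← Finset.card_univ]
    exact Finset.card_le_card_of_injOn ev (fun a _ => hmem a) (fun a _ b _ h => hev h)
  have h2 : ∑ ω, (S ω).card = 3 * k + 2 := by
    have h3 := Finset.card_eq_sum_card_fiberwise (f := q) (s := Finset.univ) (t := Finset.univ)
      (fun y _ => Finset.mem_univ _)
    rw [Finset.card_univ, Fintype.card_fin] at h3
    rw [← hn]
    exact h3.symm
  have hc : 16 * 3 ^ (k - 2) < ∏ ω, (S ω).card := lt_of_lt_of_le hcon h1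
  obtain ⟨ω₀, h20, h3⟩ := arith (fun ω => (S ω).card) k hk h2 hc
  have hS : ∀ y : Fin n, (MulAction.orbit A y).ncard = (S (q y)).card := by
    intro y
    rw [← Set.ncard_coe_finset]
    congr 1
    ext z
    rw [Finset.mem_coe, Finset.mem_filter]
    constructor
    · intro hz
      exact ⟨Finset.mem_univ _, Quotient.sound hz⟩
    · rintro ⟨-, hz⟩
      exact Quotient.exact hz
  apply parity n A hA heven (x ω₀)
  · rw [hS, hx]
    exact h20
  · intro y hy
    rw [hS]
    apply h3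
    intro h
    apply hy
    have h5 : q y = q (x ω₀) := by
      rw [hx]
      exact h
    exact Quotient.exact h5

theorem sgn4 : ∀ v : ZMod 2 × ZMod 2, Perm.sign (Equiv.addLeft v) = 1 := by decide

theorem sgn3 : ∀ v : ZMod 3, Perm.sign (Equiv.addLeft v) = 1 := by decide

/-- the translation action of `(Fin i → ZMod 2 × ZMod 2) × (Fin j → ZMod 3)`. -/
def tr2 (i j : ℕ) (u : (Fin i → ZMod 2 × ZMod 2) × (Fin j → ZMod 3)) :
    Perm ((Fin i × (ZMod 2 × ZMod 2)) ⊕ (Fin j × ZMod 3)) :=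
  Equiv.sumCongr (Equiv.prodCongrRight fun a => Equiv.addLeft (u.1 a))
    (Equiv.prodCongrRight fun b => Equiv.addLeft (u.2 b))

theorem tr2_add (i j : ℕ) (u v : (Fin i → ZMod 2 × ZMod 2) × (Fin j → ZMod 3)) :
    tr2 i j (u + v) = tr2 i j u * tr2 i j v := by
  ext (⟨a, z⟩ | ⟨b, z⟩) <;> simp [tr2, add_assoc]

theorem tr2_injective (i j : ℕ) : Function.Injective (tr2 i j) := by
  intro u v h
  have h1 : ∀ a, tr2 i j u (Sum.inl (a, 0)) = tr2 i j v (Sum.inl (a, 0)) := fun a => by rw [h]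
  have h2 : ∀ b, tr2 i j u (Sum.inr (b, 0)) = tr2 i j v (Sum.inr (b, 0)) := fun b => by rw [h]
  simp [tr2] at h1 h2
  exact Prod.ext (funext h1) (funext h2)

theorem sign_tr2 (i j : ℕ) (u : (Fin i → ZMod 2 × ZMod 2) × (Fin j → ZMod 3)) :
    Perm.sign (tr2 i j u) = 1 := by
  have h := Perm.sign_sumCongr
    (Equiv.prodCongrRight fun a : Fin i => Equiv.addLeft (u.1 a))
    (Equiv.prodCongrRight fun b : Fin j => Equiv.addLeft (u.2 b))
  rw [Perm.sign_prodCongrRight, Perm.sign_prodCongrRight] at h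
  rw [tr2]
  refine h.trans ?_
  simp [sgn4, sgn3]

theorem exists_alt (i j n : ℕ) (hn : 4 * i + 3 * j = n) :
    ∃ A : Subgroup (alternatingGroup (Fin n)), IsMulCommutative A ∧ Nat.card A = 4 ^ i * 3 ^ j := by
  classical
  have hcard : Fintype.card ((Fin i × (ZMod 2 × ZMod 2)) ⊕ (Fin j × ZMod 3)) = n := by
    simp only [Fintype.card_sum, Fintype.card_prod, Fintype.card_fin, ZMod.card]
    omega
  let e : ((Fin i × (ZMod 2 × ZMod 2)) ⊕ (Fin j × ZMod 3)) ≃ Fin n := Fintype.equivFinOfCardEq hcard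
  let φ : Multiplicative ((Fin i → ZMod 2 × ZMod 2) × (Fin j → ZMod 3)) →*
      Perm ((Fin i × (ZMod 2 × ZMod 2)) ⊕ (Fin j × ZMod 3)) :=
    MonoidHom.mk' (fun u => tr2 i j (Multiplicative.toAdd u)) (fun a b => tr2_add i j _ _)
  let ψ : Multiplicative ((Fin i → ZMod 2 × ZMod 2) × (Fin j → ZMod 3)) →* Perm (Fin n) :=
    (e.permCongrHom : Perm ((Fin i × (ZMod 2 × ZMod 2)) ⊕ (Fin j × ZMod 3)) →* Perm (Fin n)).comp φ
  have hmem : ∀ u, ψ u ∈ alternatingGroup (Fin n) := by
    intro u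
    rw [Equiv.Perm.mem_alternatingGroup]
    show Perm.sign (e.permCongr (tr2 i j (Multiplicative.toAdd u))) = 1
    rw [Perm.sign_permCongr, sign_tr2]
  let ψ' : Multiplicative ((Fin i → ZMod 2 × ZMod 2) × (Fin j → ZMod 3)) →*
      alternatingGroup (Fin n) := ψ.codRestrict _ hmem
  have hψ : Function.Injective ψ' := by
    intro a b hab
    have h0 : ψ a = ψ b := congrArg Subtype.val hab
    have h1 : φ a = φ b := e.permCongrHom.injective h0
    exact Multiplicative.toAdd.injective (tr2_injective i j h1)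
  refine ⟨ψ'.range, inferInstance, ?_⟩
  rw [Nat.card_congr (MonoidHom.ofInjective hψ).toEquiv.symm, Nat.card_eq_fintype_card]
  simp [Fintype.card_prod, Fintype.card_pi, ZMod.card]

theorem transport (n : ℕ) (A : Subgroup (alternatingGroup (Fin n))) (hA : IsMulCommutative A) :
    ∃ A' : Subgroup (Perm (Fin n)), IsMulCommutative A' ∧ Nat.card A' = Nat.card A ∧
      ∀ a ∈ A', Perm.sign a = 1 := by
  haveI := hA
  refine ⟨A.map (alternatingGroup (Fin n)).subtype, inferInstance,
    Subgroup.card_map_of_injective (Subgroup.subtype_injective _), ?_⟩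
  rintro a ⟨b, -, rfl⟩
  exact Equiv.Perm.mem_alternatingGroup.1 b.2

/-- The largest order of an abelian subgroup of the alternating group of degree n is 3^k when n = 3k, 4·3^(k−1) when n = 3k + 1, and 16·3^(k−2) when n = 3k + 2, for every k ≥ 2 (so for all degrees n ≥ 6). -/
theorem result (k : ℕ) (hk : 2 ≤ k) :
    IsGreatest {c : ℕ | ∃ A : Subgroup (alternatingGroup (Fin (3 * k))), IsMulCommutative A ∧ Nat.card A = c} (3 ^ k) ∧
    IsGreatest {c : ℕ | ∃ A : Subgroup (alternatingGroup (Fin (3 * k + 1))), IsMulCommutative A ∧ Nat.card A = c}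
      (4 * 3 ^ (k - 1)) ∧
    IsGreatest {c : ℕ | ∃ A : Subgroup (alternatingGroup (Fin (3 * k + 2))), IsMulCommutative A ∧ Nat.card A = c}
      (16 * 3 ^ (k - 2)) := by
  obtain ⟨j, rfl⟩ : ∃ j, k = j + 2 := ⟨k - 2, by omega⟩
  refine ⟨⟨?_, ?_⟩, ⟨?_, ?_⟩, ⟨?_, ?_⟩⟩
  · obtain ⟨A, hA, hc⟩ := exists_alt 0 (j + 2) (3 * (j + 2)) (by ring)
    refine ⟨A, hA, ?_⟩
    rw [hc, pow_zero, one_mul]
  · rintro c ⟨A, hA, rfl⟩
    obtain ⟨A', hA', hc, -⟩ := transport _ A hA
    rw [← hc, ← g_three_mul]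
    exact card_le _ A' hA'
  · obtain ⟨A, hA, hc⟩ := exists_alt 1 (j + 1) (3 * (j + 2) + 1) (by ring)
    refine ⟨A, hA, ?_⟩
    rw [hc, show j + 2 - 1 = j + 1 by omega, pow_one]
  · rintro c ⟨A, hA, rfl⟩
    obtain ⟨A', hA', hc, -⟩ := transport _ A hA
    rw [← hc, ← g_three_mul_add_one _ (by omega)]
    exact card_le _ A' hA'
  · obtain ⟨A, hA, hc⟩ := exists_alt 2 j (3 * (j + 2) + 2) (by ring)
    refine ⟨A, hA, ?_⟩
    rw [hc, show j + 2 - 2 = j by omega]
    norm_num
  · rintro c ⟨A, hA, rfl⟩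
    obtain ⟨A', hA', hc, heven⟩ := transport _ A hA
    rw [← hc]
    exact upper2 (j + 2) (by omega) _ rfl A' hA' heven

end Cfsg.Agent.S2504
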