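import Cfsg.Statements.S2510
import Mathlib
import Cfsg.Agent.Helper14.PSLSpecE
-- import your own Cfsg.Agent.* helpers here

set_option autoImplicit false
open Cfsg

namespace Cfsg.Agent.S2510

open Cfsg.Agent.Helper14.PSLSpec

theorem eq_of_dvd_iff (a b : ℕ) (h : ∀ c, a ∣ c ↔ b ∣ c) : a = b :=
  Nat.dvd_antisymm ((h b).2 dvd_rfl) ((h a).1 dvd_rfl)

theorem prod3_dvd {L : Type*} [Group L] (x y z : L) (c : ℕ) :
    orderOf ((x, y, z) : L × L × L) ∣ c ↔ orderOf x ∣ c ∧ orderOf y ∣ c ∧ orderOf z ∣ c := by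
  rw [Prod.orderOf, Nat.lcm_dvd_iff, Prod.orderOf, Nat.lcm_dvd_iff]

theorem prod2_dvd {L : Type*} [Group L] (x y : L) (c : ℕ) :
    orderOf ((x, y) : L × L) ∣ c ↔ orderOf x ∣ c ∧ orderOf y ∣ c := by
  rw [Prod.orderOf, Nat.lcm_dvd_iff]

theorem replA {L : Type*} [Group L] (r : ℕ) (hr : r.Prime) (x e : L) (hc : Commute x e)
    (he : orderOf e = r) (hx : ¬ r ∣ orderOf x) (c : ℕ) :
    orderOf (x * e) ∣ c ↔ (r ∣ c ∧ orderOf x ∣ c) := by
  have hcop : Nat.Coprime (orderOf x) r := ((Nat.Prime.coprime_iff_not_dvd hr).2 hx).symm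
  rw [hc.orderOf_mul_eq_mul_orderOf_of_coprime (by rw [he]; exact hcop), he]
  constructor
  · intro h
    exact ⟨(Dvd.intro_left _ rfl).trans h, (Dvd.intro _ rfl).trans h⟩
  · rintro ⟨h1, h2⟩
    exact hcop.mul_dvd_of_dvd_of_dvd h2 h1

theorem pow_mul_dvd_iff (p j c₁ c : ℕ) (hp : p.Prime) (h : ¬ p ∣ c₁) :
    p ^ j * c₁ ∣ c ↔ (p ^ j ∣ c ∧ c₁ ∣ c) := by
  have hcop : Nat.Coprime (p ^ j) c₁ := Nat.Coprime.pow_left j ((Nat.Prime.coprime_iff_not_dvd hp).2 h)
  constructor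
  · intro h
    exact ⟨(Dvd.intro _ rfl).trans h, (Dvd.intro_left _ rfl).trans h⟩
  · rintro ⟨h1, h2⟩
    exact hcop.mul_dvd_of_dvd_of_dvd h1 h2

theorem orderOf_pow_part {L : Type*} [Group L] (p j c : ℕ) (hp : p.Prime) (x : L)
    (ho : orderOf x = p ^ j * c) (hc : ¬ p ∣ c) : orderOf (x ^ c) = p ^ j := by
  have hc0 : c ≠ 0 := by
    rintro rfl
    exact hc (dvd_zero p)
  rw [orderOf_pow_of_dvd hc0 (by rw [ho]; exact Dvd.intro_left _ rfl), ho,
    Nat.mul_div_cancel _ (Nat.pos_of_ne_zero hc0)]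

/-- core, three factors. -/
theorem core3 {L : Type*} [Group L] [Finite L] (p r : ℕ) (hp : p.Prime) (hr : r.Prime)
    (hpr : p ≠ r) (γ : L)
    (hdich : ∀ x : L, (∃ e : L, Commute x e ∧ orderOf e = r) ∨
      (∃ j c : ℕ, orderOf x = p ^ j * c ∧ c ∣ orderOf γ ∧ ¬ p ∣ c))
    (he0 : ∃ w : L, orderOf w = r) (x y z : L) (hN : ¬ r ∣ orderOf ((x, y, z) : L × L × L)) :
    ∃ t : L × L × L, orderOf t = r * orderOf ((x, y, z) : L × L × L) := by
  have hcopN : Nat.Coprime r (orderOf ((x, y, z) : L × L × L)) :=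
    (Nat.Prime.coprime_iff_not_dvd hr).2 hN
  have hrx : ¬ r ∣ orderOf x := fun h => hN (h.trans (((prod3_dvd x y z _).1 dvd_rfl).1))
  have hry : ¬ r ∣ orderOf y := fun h => hN (h.trans (((prod3_dvd x y z _).1 dvd_rfl).2.1))
  have hrz : ¬ r ∣ orderOf z := fun h => hN (h.trans (((prod3_dvd x y z _).1 dvd_rfl).2.2))
  suffices h : ∃ t : L × L × L, ∀ c, orderOf t ∣ c ↔
      (r ∣ c ∧ orderOf x ∣ c ∧ orderOf y ∣ c ∧ orderOf z ∣ c) by
    obtain ⟨t, ht⟩ := h
    refine ⟨t, eq_of_dvd_iff _ _ fun c => ?_⟩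
    rw [ht, ← prod3_dvd]
    constructor
    · rintro ⟨h1, h2⟩
      exact hcopN.mul_dvd_of_dvd_of_dvd h1 h2
    · intro h
      exact ⟨(Dvd.intro _ rfl).trans h, (Dvd.intro_left _ rfl).trans h⟩
  rcases hdich x with ⟨e, hce, hoe⟩ | ⟨j₁, c₁, ho₁, hcS₁, hpc₁⟩
  · refine ⟨(x * e, y, z), fun c => ?_⟩
    rw [prod3_dvd, replA r hr x e hce hoe hrx]
    tauto
  rcases hdich y with ⟨e, hce, hoe⟩ | ⟨j₂, c₂, ho₂, hcS₂, hpc₂⟩
  · refine ⟨(x, y * e, z), fun c => ?_⟩
    rw [prod3_dvd, replA r hr y e hce hoe hry]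
    tauto
  rcases hdich z with ⟨e, hce, hoe⟩ | ⟨j₃, c₃, ho₃, hcS₃, hpc₃⟩
  · refine ⟨(x, y, z * e), fun c => ?_⟩
    rw [prod3_dvd, replA r hr z e hce hoe hrz]
    tauto
  -- all of type (B)
  obtain ⟨w₀, hw₀⟩ := he0
  have hL : Nat.lcm c₁ (Nat.lcm c₂ c₃) ∣ orderOf γ := Nat.lcm_dvd hcS₁ (Nat.lcm_dvd hcS₂ hcS₃)
  have hx' : orderOf (γ ^ (orderOf γ / Nat.lcm c₁ (Nat.lcm c₂ c₃))) = Nat.lcm c₁ (Nat.lcm c₂ c₃) :=
    orderOf_pow_orderOf_div (orderOf_pos γ).ne' hL
  obtain ⟨u, hu⟩ : ∃ u : L, orderOf u = p ^ (max j₁ (max j₂ j₃)) := by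
    rcases le_total j₁ (max j₂ j₃) with h1 | h1
    · rw [max_eq_right h1]
      rcases le_total j₂ j₃ with h2 | h2
      · rw [max_eq_right h2]
        exact ⟨z ^ c₃, orderOf_pow_part p j₃ c₃ hp z ho₃ hpc₃⟩
      · rw [max_eq_left h2]
        exact ⟨y ^ c₂, orderOf_pow_part p j₂ c₂ hp y ho₂ hpc₂⟩
    · rw [max_eq_left h1]
      exact ⟨x ^ c₁, orderOf_pow_part p j₁ c₁ hp x ho₁ hpc₁⟩
  refine ⟨(γ ^ (orderOf γ / Nat.lcm c₁ (Nat.lcm c₂ c₃)), u, w₀), fun c => ?_⟩
  rw [prod3_dvd, hx', hu, hw₀, ho₁, ho₂, ho₃, pow_mul_dvd_iff p j₁ c₁ c hp hpc₁,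
    pow_mul_dvd_iff p j₂ c₂ c hp hpc₂, pow_mul_dvd_iff p j₃ c₃ c hp hpc₃, Nat.lcm_dvd_iff,
    Nat.lcm_dvd_iff]
  have hmax : p ^ (max j₁ (max j₂ j₃)) ∣ c ↔ (p ^ j₁ ∣ c ∧ p ^ j₂ ∣ c ∧ p ^ j₃ ∣ c) := by
    constructor
    · intro h
      exact ⟨(pow_dvd_pow p (le_max_left _ _)).trans h,
        (pow_dvd_pow p ((le_max_left _ _).trans (le_max_right _ _))).trans h,
        (pow_dvd_pow p ((le_max_right _ _).trans (le_max_right _ _))).trans h⟩
    · rintro ⟨h1, h2, h3⟩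
      rcases le_total j₁ (max j₂ j₃) with h4 | h4
      · rw [max_eq_right h4]
        rcases le_total j₂ j₃ with h5 | h5
        · rw [max_eq_right h5]
          exact h3
        · rw [max_eq_left h5]
          exact h2
      · rw [max_eq_left h4]
        exact h1
  rw [hmax]
  tauto

/-- core, two factors. -/
theorem core2 {L : Type*} [Group L] [Finite L] (p r : ℕ) (hp : p.Prime) (hr : r.Prime)
    (hpr : p ≠ r) (γ : L)
    (hdich : ∀ x : L, (∃ e : L, Commute x e ∧ orderOf e = r) ∨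
      (∃ j c : ℕ, orderOf x = p ^ j * c ∧ c ∣ orderOf γ ∧ ¬ p ∣ c))
    (he0 : ∃ w : L, orderOf w = r)
    (hU : ∀ J : ℕ, 1 ≤ J → (∃ u : L, orderOf u = p ^ J) → ∃ w : L, orderOf w = p ^ J * r)
    (x y : L) (hN : ¬ r ∣ orderOf ((x, y) : L × L)) :
    ∃ t : L × L, orderOf t = r * orderOf ((x, y) : L × L) := by
  have hcopN : Nat.Coprime r (orderOf ((x, y) : L × L)) :=
    (Nat.Prime.coprime_iff_not_dvd hr).2 hN
  have hrx : ¬ r ∣ orderOf x := fun h => hN (h.trans (((prod2_dvd x y _).1 dvd_rfl).1))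
  have hry : ¬ r ∣ orderOf y := fun h => hN (h.trans (((prod2_dvd x y _).1 dvd_rfl).2))
  suffices h : ∃ t : L × L, ∀ c, orderOf t ∣ c ↔
      (r ∣ c ∧ orderOf x ∣ c ∧ orderOf y ∣ c) by
    obtain ⟨t, ht⟩ := h
    refine ⟨t, eq_of_dvd_iff _ _ fun c => ?_⟩
    rw [ht, ← prod2_dvd]
    constructor
    · rintro ⟨h1, h2⟩
      exact hcopN.mul_dvd_of_dvd_of_dvd h1 h2
    · intro h
      exact ⟨(Dvd.intro _ rfl).trans h, (Dvd.intro_left _ rfl).trans h⟩
  rcases hdich x with ⟨e, hce, hoe⟩ | ⟨j₁, c₁, ho₁, hcS₁, hpc₁⟩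
  · refine ⟨(x * e, y), fun c => ?_⟩
    rw [prod2_dvd, replA r hr x e hce hoe hrx]
    tauto
  rcases hdich y with ⟨e, hce, hoe⟩ | ⟨j₂, c₂, ho₂, hcS₂, hpc₂⟩
  · refine ⟨(x, y * e), fun c => ?_⟩
    rw [prod2_dvd, replA r hr y e hce hoe hry]
    tauto
  have hL : Nat.lcm c₁ c₂ ∣ orderOf γ := Nat.lcm_dvd hcS₁ hcS₂
  have hx' : orderOf (γ ^ (orderOf γ / Nat.lcm c₁ c₂)) = Nat.lcm c₁ c₂ :=
    orderOf_pow_orderOf_div (orderOf_pos γ).ne' hL
  obtain ⟨u, hu⟩ : ∃ u : L, orderOf u = p ^ (max j₁ j₂) := by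
    rcases le_total j₁ j₂ with h1 | h1
    · rw [max_eq_right h1]
      exact ⟨y ^ c₂, orderOf_pow_part p j₂ c₂ hp y ho₂ hpc₂⟩
    · rw [max_eq_left h1]
      exact ⟨x ^ c₁, orderOf_pow_part p j₁ c₁ hp x ho₁ hpc₁⟩
  obtain ⟨w, hw⟩ : ∃ w : L, orderOf w = p ^ (max j₁ j₂) * r := by
    rcases Nat.eq_zero_or_pos (max j₁ j₂) with h0 | hpos
    · obtain ⟨w₀, hw₀⟩ := he0
      exact ⟨w₀, by rw [h0, pow_zero, one_mul, hw₀]⟩
    · exact hU _ hpos ⟨u, hu⟩
  have hcop : Nat.Coprime (p ^ (max j₁ j₂)) r :=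
    Nat.Coprime.pow_left _ ((Nat.coprime_primes hp hr).2 hpr)
  refine ⟨(γ ^ (orderOf γ / Nat.lcm c₁ c₂), w), fun c => ?_⟩
  rw [prod2_dvd, hx', hw, ho₁, ho₂, pow_mul_dvd_iff p j₁ c₁ c hp hpc₁,
    pow_mul_dvd_iff p j₂ c₂ c hp hpc₂, Nat.lcm_dvd_iff]
  have hmax : p ^ (max j₁ j₂) * r ∣ c ↔ (r ∣ c ∧ p ^ j₁ ∣ c ∧ p ^ j₂ ∣ c) := by
    constructor
    · intro h
      have h' : p ^ (max j₁ j₂) ∣ c := (Dvd.intro _ rfl).trans h
      exact ⟨(Dvd.intro_left _ rfl).trans h, (pow_dvd_pow p (le_max_left _ _)).trans h',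
        (pow_dvd_pow p (le_max_right _ _)).trans h'⟩
    · rintro ⟨h0, h1, h2⟩
      apply hcop.mul_dvd_of_dvd_of_dvd _ h0
      rcases le_total j₁ j₂ with h4 | h4
      · rw [max_eq_right h4]
        exact h2
      · rw [max_eq_left h4]
        exact h1
  rw [hmax]
  tauto

theorem orderOf_zr (r m : ℕ) (hr : r.Prime) (w : Multiplicative (Fin m → ZMod r)) :
    orderOf w = 1 ∨ orderOf w = r := by
  have hw : w ^ r = 1 := by
    apply Multiplicative.toAdd.injective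
    rw [toAdd_pow, toAdd_one]
    funext i
    simp
  exact (Nat.dvd_prime hr).1 (orderOf_dvd_of_pow_eq_one hw)

/-- Let F be a finite field with q = p^a elements, n ≥ 2 (with q ≥ 4 when n = 2), L = PSL(n, F), and let r be a prime dividing q − 1 and not dividing n. Then for every m the direct product L × L × L × (ℤ/r)^m has the same set of element orders as L × L × L; and if n − 1 ≠ p^j for every j ≥ 0 (so never when n = 2, since 1 = p^0), then already L × L × (ℤ/r)^m has the same set of element orders as L × L. -/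
theorem result {F : Type*} [Field F] [Fintype F] (p a n r m : ℕ) (hp : p.Prime) (ha : 1 ≤ a) (hF : Fintype.card F = p ^ a)
    (hn : 2 ≤ n) (hn2 : n = 2 → 4 ≤ Fintype.card F) (hr : r.Prime) (hrq : r ∣ Fintype.card F - 1) (hrn : ¬ r ∣ n) :
    Set.range (orderOf : Matrix.ProjectiveSpecialLinearGroup (Fin n) F × Matrix.ProjectiveSpecialLinearGroup (Fin n) F × Matrix.ProjectiveSpecialLinearGroup (Fin n) F × Multiplicative (Fin m → ZMod r) → ℕ) =
      Set.range (orderOf : Matrix.ProjectiveSpecialLinearGroup (Fin n) F × Matrix.ProjectiveSpecialLinearGroup (Fin n) F × Matrix.ProjectiveSpecialLinearGroup (Fin n) F → ℕ) ∧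
    ((¬ ∃ j : ℕ, n - 1 = p ^ j) →
      Set.range (orderOf : Matrix.ProjectiveSpecialLinearGroup (Fin n) F × Matrix.ProjectiveSpecialLinearGroup (Fin n) F × Multiplicative (Fin m → ZMod r) → ℕ) =
        Set.range (orderOf : Matrix.ProjectiveSpecialLinearGroup (Fin n) F × Matrix.ProjectiveSpecialLinearGroup (Fin n) F → ℕ)) := by

  classical
  have hn1 : 1 ≤ n := by omega
  have hfin := finite_psl F n
  have hpr : p ≠ r := by
    rintro rfl
    exact not_dvd_card_sub_one p a hp ha hF hrq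
  obtain ⟨γ, hγ⟩ := singer_data (F := F) n hn1
  have hdich := dichotomy p a n r hp ha hF hn1 hr hrq hrn γ hγ
  have he0 := exists_r_element (F := F) n r hn hr hrq hrn
  constructor
  · apply Set.eq_of_subset_of_subset
    · rintro _ ⟨⟨x, y, z, w⟩, rfl⟩
      have key : ∀ c, orderOf ((x, y, z, w) : Matrix.ProjectiveSpecialLinearGroup (Fin n) F ×
          Matrix.ProjectiveSpecialLinearGroup (Fin n) F × Matrix.ProjectiveSpecialLinearGroup (Fin n) F ×
          Multiplicative (Fin m → ZMod r)) ∣ c ↔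
          (orderOf ((x, y, z) : Matrix.ProjectiveSpecialLinearGroup (Fin n) F ×
          Matrix.ProjectiveSpecialLinearGroup (Fin n) F × Matrix.ProjectiveSpecialLinearGroup (Fin n) F) ∣ c ∧
            orderOf w ∣ c) := by
        intro c
        rw [prod3_dvd, Prod.orderOf, Nat.lcm_dvd_iff, Prod.orderOf, Nat.lcm_dvd_iff, Prod.orderOf,
          Nat.lcm_dvd_iff]
        tauto
      by_cases hcase : orderOf w = 1 ∨ r ∣ orderOf ((x, y, z) :
          Matrix.ProjectiveSpecialLinearGroup (Fin n) F ×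
          Matrix.ProjectiveSpecialLinearGroup (Fin n) F × Matrix.ProjectiveSpecialLinearGroup (Fin n) F)
      · refine ⟨(x, y, z), eq_of_dvd_iff _ _ fun c => ?_⟩
        rw [key]
        constructor
        · intro h
          refine ⟨h, ?_⟩
          rcases hcase with h1 | h1
          · rw [h1]
            exact one_dvd _
          · rcases orderOf_zr r m hr w with h2 | h2
            · rw [h2]
              exact one_dvd _
            · rw [h2]
              exact h1.trans h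
        · exact fun h => h.1
      · push Not at hcase
        have hw : orderOf w = r := (orderOf_zr r m hr w).resolve_left hcase.1
        obtain ⟨t, ht⟩ := core3 p r hp hr hpr γ hdich he0 x y z hcase.2
        refine ⟨t, ?_⟩
        rw [ht]
        apply eq_of_dvd_iff
        intro c
        rw [key, hw]
        have hcopN := (Nat.Prime.coprime_iff_not_dvd hr).2 hcase.2
        constructor
        · intro h
          exact ⟨(Dvd.intro_left _ rfl).trans h, (Dvd.intro _ rfl).trans h⟩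
        · rintro ⟨h1, h2⟩
          exact hcopN.mul_dvd_of_dvd_of_dvd h2 h1
    · rintro _ ⟨⟨x, y, z⟩, rfl⟩
      refine ⟨(x, y, z, 1), eq_of_dvd_iff _ _ fun c => ?_⟩
      rw [prod3_dvd, Prod.orderOf, Nat.lcm_dvd_iff, Prod.orderOf, Nat.lcm_dvd_iff, Prod.orderOf,
        Nat.lcm_dvd_iff, orderOf_one]
      simp
  · intro hnp
    have hU : ∀ J : ℕ, 1 ≤ J → (∃ u : Matrix.ProjectiveSpecialLinearGroup (Fin n) F, orderOf u = p ^ J) →
        ∃ w : Matrix.ProjectiveSpecialLinearGroup (Fin n) F, orderOf w = p ^ J * r := by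
      rintro J hJ ⟨u, hu⟩
      have h1 := p_order_bound p a n hp ha hF hn1 u J hJ hu
      have h2 : p ^ (J - 1) ≠ n - 1 := fun h => hnp ⟨J - 1, h.symm⟩
      exact exists_p_r_element p a n r hp ha hF hn hr hrq hrn J hJ (by omega)
    apply Set.eq_of_subset_of_subset
    · rintro _ ⟨⟨x, y, w⟩, rfl⟩
      have key : ∀ c, orderOf ((x, y, w) : Matrix.ProjectiveSpecialLinearGroup (Fin n) F ×
          Matrix.ProjectiveSpecialLinearGroup (Fin n) F × Multiplicative (Fin m → ZMod r)) ∣ c ↔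
          (orderOf ((x, y) : Matrix.ProjectiveSpecialLinearGroup (Fin n) F ×
          Matrix.ProjectiveSpecialLinearGroup (Fin n) F) ∣ c ∧ orderOf w ∣ c) := by
        intro c
        rw [prod2_dvd, Prod.orderOf, Nat.lcm_dvd_iff, Prod.orderOf, Nat.lcm_dvd_iff]
        tauto
      by_cases hcase : orderOf w = 1 ∨ r ∣ orderOf ((x, y) :
          Matrix.ProjectiveSpecialLinearGroup (Fin n) F × Matrix.ProjectiveSpecialLinearGroup (Fin n) F)
      · refine ⟨(x, y), eq_of_dvd_iff _ _ fun c => ?_⟩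
        rw [key]
        constructor
        · intro h
          refine ⟨h, ?_⟩
          rcases hcase with h1 | h1
          · rw [h1]
            exact one_dvd _
          · rcases orderOf_zr r m hr w with h2 | h2
            · rw [h2]
              exact one_dvd _
            · rw [h2]
              exact h1.trans h
        · exact fun h => h.1
      · push Not at hcase
        have hw : orderOf w = r := (orderOf_zr r m hr w).resolve_left hcase.1
        obtain ⟨t, ht⟩ := core2 p r hp hr hpr γ hdich he0 hU x y hcase.2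
        refine ⟨t, ?_⟩
        rw [ht]
        apply eq_of_dvd_iff
        intro c
        rw [key, hw]
        have hcopN := (Nat.Prime.coprime_iff_not_dvd hr).2 hcase.2
        constructor
        · intro h
          exact ⟨(Dvd.intro_left _ rfl).trans h, (Dvd.intro _ rfl).trans h⟩
        · rintro ⟨h1, h2⟩
          exact hcopN.mul_dvd_of_dvd_of_dvd h2 h1
    · rintro _ ⟨⟨x, y⟩, rfl⟩
      refine ⟨(x, y, 1), eq_of_dvd_iff _ _ fun c => ?_⟩
      rw [prod2_dvd, Prod.orderOf, Nat.lcm_dvd_iff, Prod.orderOf, Nat.lcm_dvd_iff, orderOf_one]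
      simp

end Cfsg.Agent.S2510
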