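import Cfsg.Statements.S2513
import Mathlib
import Cfsg.Agent.Helper14.SpecLin
-- import your own Cfsg.Agent.* helpers here

set_option autoImplicit false
open Cfsg

namespace Cfsg.Agent.S2513

open Matrix

theorem eq_zero_or_one {F : Type*} [Field F] [Fintype F] (hF : Fintype.card F = 2) (x : F) :
    x = 0 ∨ x = 1 := by
  classical
  by_contra h
  push Not at h
  have h3 : ({0, 1, x} : Finset F).card ≤ Fintype.card F := Finset.card_le_univ _
  rw [Finset.card_insert_of_notMem, Finset.card_insert_of_notMem, Finset.card_singleton, hF] at h3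
  · omega
  · simpa using (Ne.symm h.2)
  · simp [Ne.symm h.1]

theorem center_eq_bot {F : Type*} [Field F] [Fintype F] (hF : Fintype.card F = 2) (n : ℕ)
    (hn : 1 ≤ n) : Subgroup.center (Matrix.SpecialLinearGroup (Fin n) F) = ⊥ := by
  classical
  rw [eq_bot_iff]
  intro A hA
  rw [Matrix.SpecialLinearGroup.mem_center_iff] at hA
  obtain ⟨r, hr, hrA⟩ := hA
  rw [Subgroup.mem_bot]
  rcases eq_zero_or_one hF r with rfl | rfl
  · rw [Fintype.card_fin, zero_pow (by omega)] at hr
    exact absurd hr zero_ne_one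
  · apply Matrix.SpecialLinearGroup.ext
    intro i j
    rw [← hrA]
    simp [Matrix.one_apply]

theorem key_dvd {ι G : Type*} [Fintype ι] [Group G] [Finite G] (x : ι → G) (c : ℕ) :
    orderOf x ∣ c ↔ ∀ i, orderOf (x i) ∣ c := by
  classical
  rw [Pi.orderOf, Finset.lcm_dvd_iff]
  simp

theorem prime_pow_dvd_lcm (S : Finset ℕ) (a : ℕ → ℕ) (ha : ∀ d ∈ S, a d ≠ 0) (r k : ℕ)
    (hr : r.Prime) (hk : 0 < k) (h : r ^ k ∣ S.lcm a) : ∃ d ∈ S, r ^ k ∣ a d := by
  have h0 : S.lcm a ≠ 0 := by
    intro h0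
    rw [Finset.lcm_eq_zero_iff] at h0
    obtain ⟨d, hd, hd0⟩ := h0
    exact ha d hd hd0
  rw [hr.pow_dvd_iff_le_factorization h0, Finset.factorization_lcm ha, Finset.le_sup_iff (by exact hk)] at h
  obtain ⟨d, hd, hle⟩ := h
  exact ⟨d, hd, (hr.pow_dvd_iff_le_factorization (ha d hd)).2 hle⟩

/-- the number `M'`. -/
def bigM (n : ℕ) : ℕ := (Finset.Ioc (n / 2) n).lcm (fun d => 2 ^ d - 1)

theorem dvd_bigM (n d : ℕ) (hd1 : 1 ≤ d) (hdn : d ≤ n) : 2 ^ d - 1 ∣ bigM n := by
  by_cases h2 : 2 * d ≤ n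
  · have h3 : d * (n / d) ≤ n := Nat.mul_div_le n d
    have h4 : n < d * (n / d + 1) := Nat.lt_mul_div_succ n (by omega)
    rw [mul_add, mul_one] at h4
    have h5 : d * (n / d) ∈ Finset.Ioc (n / 2) n := by
      rw [Finset.mem_Ioc]
      constructor
      · generalize d * (n / d) = e at h3 h4
        omega
      · exact h3
    exact (Nat.pow_sub_one_dvd_pow_sub_one 2 (Dvd.intro (n / d) rfl)).trans
      (Finset.dvd_lcm (f := fun d => 2 ^ d - 1) h5)
  · have h5 : d ∈ Finset.Ioc (n / 2) n := by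
      rw [Finset.mem_Ioc]
      omega
    exact Finset.dvd_lcm (f := fun d => 2 ^ d - 1) h5

theorem two_pow_sub_one_ne_zero (d : ℕ) (hd : 1 ≤ d) : 2 ^ d - 1 ≠ 0 := by
  have : 2 ^ 1 ≤ 2 ^ d := Nat.pow_le_pow_right (by norm_num) hd
  omega

/-- every odd element order of `SL_n(F)`, `|F| = 2`, divides `M'`. -/
theorem odd_order_dvd {F : Type*} [Field F] [Fintype F] (hF : Fintype.card F = 2) (n : ℕ)
    (B : Matrix.SpecialLinearGroup (Fin n) F) (hodd : Odd (orderOf B)) : orderOf B ∣ bigM n := by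
  classical
  have h2 : (2 : F) = 0 := by
    have := FiniteField.cast_card_eq_zero F
    rw [hF] at this
    exact_mod_cast this
  have hm : ((orderOf B : ℕ) : F) ≠ 0 := by
    obtain ⟨j, hj⟩ := hodd
    rw [hj]
    push_cast
    rw [h2]
    simp
  have hA : (B : Matrix (Fin n) (Fin n) F) ^ orderOf B = 1 := by
    rw [← Matrix.SpecialLinearGroup.coe_pow, pow_orderOf_eq_one, Matrix.SpecialLinearGroup.coe_one]
  have hM : ∀ d, 1 ≤ d → d ≤ n → (Fintype.card F ^ d - 1) ∣ bigM n := by
    intro d hd1 hdn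
    rw [hF]
    exact dvd_bigM n d hd1 hdn
  have h3 := Cfsg.Agent.Helper14.SpecLin.pow_eq_one_of_semisimple (B : Matrix (Fin n) (Fin n) F)
    (orderOf B) (bigM n) hm hA hM
  apply orderOf_dvd_of_pow_eq_one
  apply Matrix.SpecialLinearGroup.ext
  intro i j
  rw [Matrix.SpecialLinearGroup.coe_pow, h3, Matrix.SpecialLinearGroup.coe_one]

/-- Singer-type elements of `SL_n(F)`, `|F| = 2`. -/
theorem exists_singer {F : Type*} [Field F] [Fintype F] (hF : Fintype.card F = 2) (n d : ℕ)
    (hd1 : 1 ≤ d) (hdn : d ≤ n) :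
    ∃ B : Matrix.SpecialLinearGroup (Fin n) F, orderOf B = 2 ^ d - 1 := by
  classical
  obtain ⟨A, hA⟩ := Cfsg.Agent.Helper14.SpecLin.exists_matrix_orderOf (F := F) n d hd1 hdn
  rw [hF] at hA
  have hpos : 0 < orderOf A := by
    rw [hA]
    exact Nat.pos_of_ne_zero (two_pow_sub_one_ne_zero d hd1)
  have hdet : A.det = 1 := by
    rcases eq_zero_or_one hF A.det with h | h
    · exfalso
      have h1 : A.det ^ orderOf A = 1 := by
        rw [← Matrix.det_pow, pow_orderOf_eq_one, Matrix.det_one]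
      rw [h, zero_pow hpos.ne'] at h1
      exact zero_ne_one h1
    · exact h
  obtain ⟨B, hB⟩ : ∃ B : Matrix.SpecialLinearGroup (Fin n) F, (B : Matrix (Fin n) (Fin n) F) = A :=
    ⟨⟨A, hdet⟩, rfl⟩
  refine ⟨B, ?_⟩
  rw [← hA]
  apply orderOf_eq_orderOf_iff.2
  intro j
  constructor
  · intro h
    have := congrArg (fun X : Matrix.SpecialLinearGroup (Fin n) F => (X : Matrix (Fin n) (Fin n) F)) h
    simpa only [Matrix.SpecialLinearGroup.coe_pow, Matrix.SpecialLinearGroup.coe_one, hB] using this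
  · intro h
    apply Matrix.SpecialLinearGroup.ext
    intro i l
    rw [Matrix.SpecialLinearGroup.coe_pow, Matrix.SpecialLinearGroup.coe_one, hB]
    exact congrFun (congrFun h i) l

/-- arithmetic core. -/
theorem arith_core (n m t c : ℕ) (hm : m ∣ bigM n) (hmodd : Odd m) (cd : ℕ → ℕ)
    (hcd : ∀ d, n / 2 < d → d ≤ n → cd d = Nat.gcd m (2 ^ d - 1)) :
    2 ^ t * m ∣ c ↔ (2 ^ t ∣ c ∧ ∀ d, n / 2 < d → d ≤ n → cd d ∣ c) := by
  have hcop : Nat.Coprime (2 ^ t) m := by
    apply Nat.Coprime.pow_left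
    rcases hmodd with ⟨j, rfl⟩
    simp
  constructor
  · intro h
    refine ⟨(Dvd.intro _ rfl).trans h, ?_⟩
    intro d hd1 hd2
    rw [hcd d hd1 hd2]
    exact (Nat.gcd_dvd_left _ _).trans ((Dvd.intro_left _ rfl).trans h)
  · rintro ⟨h1, h2⟩
    apply Nat.Coprime.mul_dvd_of_dvd_of_dvd hcop h1
    rw [Nat.dvd_iff_prime_pow_dvd_dvd]
    intro r k hr hrk
    rcases Nat.eq_zero_or_pos k with rfl | hk
    · simp
    have h3 : r ^ k ∣ bigM n := hrk.trans hm
    obtain ⟨d, hd, hdvd⟩ := prime_pow_dvd_lcm (Finset.Ioc (n / 2) n) (fun d => 2 ^ d - 1)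
      (fun d hd => two_pow_sub_one_ne_zero d (by rw [Finset.mem_Ioc] at hd; omega)) r k hr hk h3
    rw [Finset.mem_Ioc] at hd
    have h4 := h2 d hd.1 hd.2
    rw [hcd d hd.1 hd.2] at h4
    exact (Nat.dvd_gcd hrk hdvd).trans h4

/-- Let F be the field with two elements, n ≥ 2, L = PSL(n, F) and k₀ = ⌊(n + 3)/2⌋. Then for every k ≥ k₀ the direct product of k copies of L has the same set of element orders as the direct product of k₀ copies of L. -/
theorem result {F : Type*} [Field F] [Fintype F] (hF : Fintype.card F = 2) (n k : ℕ) (hn : 2 ≤ n) (hk : (n + 3) / 2 ≤ k) :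
    Set.range (orderOf : (Fin k → Matrix.ProjectiveSpecialLinearGroup (Fin n) F) → ℕ) = Set.range (orderOf : (Fin ((n + 3) / 2) → Matrix.ProjectiveSpecialLinearGroup (Fin n) F) → ℕ) := by

  classical
  have hn1 : 1 ≤ n := by omega
  have hcen := center_eq_bot hF n hn1
  let π : Matrix.SpecialLinearGroup (Fin n) F →* Matrix.ProjectiveSpecialLinearGroup (Fin n) F :=
    QuotientGroup.mk' _
  have hπs : Function.Surjective π := QuotientGroup.mk'_surjective _
  have hπi : Function.Injective π := by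
    rw [← MonoidHom.ker_eq_bot_iff, QuotientGroup.ker_mk', hcen]
  have : Finite (Matrix.ProjectiveSpecialLinearGroup (Fin n) F) := Finite.of_surjective π hπs
  have eq_of_dvd_iff : ∀ a b : ℕ, (∀ c, a ∣ c ↔ b ∣ c) → a = b := by
    intro a b h
    exact Nat.dvd_antisymm ((h b).2 dvd_rfl) ((h a).1 dvd_rfl)
  have hk0 : (n + 3) / 2 = n - n / 2 + 1 := by omega
  apply Set.eq_of_subset_of_subset
  · rintro _ ⟨x, rfl⟩
    have hNpos : orderOf x ≠ 0 := (orderOf_pos x).ne'
    obtain ⟨t, m, hmodd, hN⟩ := Nat.exists_eq_two_pow_mul_odd hNpos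
    have hcop : Nat.Coprime (2 ^ t) m := by
      apply Nat.Coprime.pow_left
      rcases hmodd with ⟨j, rfl⟩
      simp
    -- each component
    have hcomp : ∀ i, ∃ ti mi, Odd mi ∧ orderOf (x i) = 2 ^ ti * mi ∧ ti ≤ t ∧ mi ∣ m ∧ mi ∣ bigM n := by
      intro i
      obtain ⟨ti, mi, hmiodd, hoi⟩ := Nat.exists_eq_two_pow_mul_odd (orderOf_pos (x i)).ne'
      have hdvd : orderOf (x i) ∣ 2 ^ t * m := by
        rw [← hN]
        exact (key_dvd x _).1 dvd_rfl i
      have hcopi : Nat.Coprime (2 ^ ti) m := by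
        apply Nat.Coprime.pow_left
        rcases hmodd with ⟨j, rfl⟩
        simp
      have hcopi' : Nat.Coprime mi (2 ^ t) := by
        apply Nat.Coprime.pow_right
        rcases hmiodd with ⟨j, rfl⟩
        simp
      have h1 : 2 ^ ti ∣ 2 ^ t := by
        apply hcopi.dvd_of_dvd_mul_right
        exact (Dvd.intro _ hoi.symm).trans hdvd
      have h2 : mi ∣ m := by
        apply hcopi'.dvd_of_dvd_mul_left
        exact (Dvd.intro_left _ hoi.symm).trans hdvd
      refine ⟨ti, mi, hmiodd, hoi, (Nat.pow_dvd_pow_iff_le_right (by norm_num)).1 h1, h2, ?_⟩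
      -- lift
      obtain ⟨A, hA⟩ := hπs (x i)
      have hoA : orderOf (A ^ 2 ^ ti) = mi := by
        have h3 : orderOf A = orderOf (x i) := by
          rw [← hA]
          exact (orderOf_injective π hπi A).symm
        rw [orderOf_pow_of_dvd (by positivity) (by rw [h3, hoi]; exact Dvd.intro _ rfl), h3, hoi,
          Nat.mul_div_cancel_left _ (by positivity)]
      have h4 := odd_order_dvd hF n (A ^ 2 ^ ti) (by rw [hoA]; exact hmiodd)
      rwa [hoA] at h4
    choose ti mi hmiodd hoi htile hmidvd hmiM using hcomp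
    have hmM : m ∣ bigM n := by
      have h1 : orderOf x ∣ 2 ^ t * bigM n := by
        rw [key_dvd]
        intro i
        rw [hoi i]
        exact mul_dvd_mul (pow_dvd_pow 2 (htile i)) (hmiM i)
      rw [hN] at h1
      exact (Nat.mul_dvd_mul_iff_left (by positivity)).1 h1
    -- element of order 2^t
    have hu : ∃ u : Matrix.ProjectiveSpecialLinearGroup (Fin n) F, orderOf u = 2 ^ t := by
      by_contra hne
      have h1 : ∀ i, ti i < t := by
        intro i
        by_contra hlt
        have heq : ti i = t := le_antisymm (htile i) (not_lt.1 hlt)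
        apply hne
        refine ⟨x i ^ (orderOf (x i) / 2 ^ t), ?_⟩
        apply orderOf_pow_orderOf_div (orderOf_pos (x i)).ne'
        rw [hoi i, heq]
        exact Dvd.intro _ rfl
      have ht : 1 ≤ t := by
        by_contra h0
        apply hne
        refine ⟨1, ?_⟩
        have : t = 0 := by omega
        rw [this]
        simp
      have h2 : orderOf x ∣ 2 ^ (t - 1) * m := by
        rw [key_dvd]
        intro i
        rw [hoi i]
        exact mul_dvd_mul (pow_dvd_pow 2 (by have := h1 i; omega)) (hmidvd i)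
      rw [hN] at h2
      have h3 : 2 ^ t ∣ 2 ^ (t - 1) := (Nat.mul_dvd_mul_iff_right (Nat.pos_of_ne_zero (by
        rcases hmodd with ⟨j, rfl⟩
        omega))).1 h2
      have h4 := (Nat.pow_dvd_pow_iff_le_right (by norm_num)).1 h3
      omega
    obtain ⟨u, hu⟩ := hu
    -- semisimple elements
    have hs : ∀ d, ∃ s : Matrix.ProjectiveSpecialLinearGroup (Fin n) F,
        n / 2 < d → d ≤ n → orderOf s = Nat.gcd m (2 ^ d - 1) := by
      intro d
      by_cases hd : n / 2 < d ∧ d ≤ n
      · obtain ⟨B, hB⟩ := exists_singer hF n d (by omega) hd.2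
        have h1 : orderOf (π B) = 2 ^ d - 1 := by
          rw [orderOf_injective π hπi, hB]
        refine ⟨(π B) ^ (orderOf (π B) / Nat.gcd m (2 ^ d - 1)), fun _ _ => ?_⟩
        apply orderOf_pow_orderOf_div (orderOf_pos _).ne'
        rw [h1]
        exact Nat.gcd_dvd_right _ _
      · exact ⟨1, fun h1 h2 => absurd ⟨h1, h2⟩ hd⟩
    choose s hs using hs
    refine ⟨fun j => if j.val = 0 then u else s (n / 2 + j.val), ?_⟩
    apply eq_of_dvd_iff
    intro c
    rw [key_dvd, hN, arith_core n m t c hmM hmodd (fun d => orderOf (s d)) hs]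
    constructor
    · intro h
      constructor
      · have := h ⟨0, by omega⟩
        rw [if_pos rfl, hu] at this
        exact this
      · intro d hd1 hd2
        have := h ⟨d - n / 2, by omega⟩
        rw [if_neg (by simp; omega)] at this
        have heq : n / 2 + (d - n / 2) = d := by omega
        simp only [heq] at this
        exact this
    · rintro ⟨h1, h2⟩ j
      by_cases hj : j.val = 0
      · rw [if_pos hj, hu]
        exact h1
      · rw [if_neg hj]
        have := j.isLt
        exact h2 (n / 2 + j.val) (by omega) (by omega)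
  · rintro _ ⟨y, rfl⟩
    refine ⟨fun i => if hi : i.val < (n + 3) / 2 then y ⟨i.val, hi⟩ else 1, ?_⟩
    apply eq_of_dvd_iff
    intro c
    rw [key_dvd, key_dvd]
    constructor
    · intro h j
      have := h ⟨j.val, lt_of_lt_of_le j.isLt hk⟩
      rw [dif_pos j.isLt] at this
      exact this
    · intro h i
      by_cases hi : i.val < (n + 3) / 2
      · rw [dif_pos hi]
        exact h _
      · rw [dif_neg hi]
        simp

end Cfsg.Agent.S2513
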