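import Cfsg.Statements.S2514
-- import your own Cfsg.Agent.* helpers here

set_option autoImplicit false
open Cfsg

namespace Cfsg.Agent.S2514

theorem exists_orderOf_eq_of_dvd {X : Type*} [Group X] [Finite X] (x : X) (d : ℕ) (hd : d ∣ orderOf x) :
    ∃ y : X, orderOf y = d :=
  ⟨x ^ (orderOf x / d), orderOf_pow_orderOf_div (orderOf_pos x).ne' hd⟩

theorem exists_maximal_order {X : Type*} [Group X] [Finite X] (n : ℕ) (hn : n ∈ Set.range (orderOf : X → ℕ)) :
    ∃ M : ℕ, (M ∈ Set.range (orderOf : X → ℕ) ∧ ∀ m ∈ Set.range (orderOf : X → ℕ), M ∣ m → m = M) ∧ n ∣ M := by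
  classical
  let P : ℕ → Prop := fun m => m ∈ Set.range (orderOf : X → ℕ) ∧ n ∣ m
  have hbound : ∀ m, P m → m ≤ Nat.card X := by
    rintro m ⟨⟨x, rfl⟩, -⟩
    exact orderOf_le_card
  have hPn : P n := ⟨hn, dvd_rfl⟩
  have hspec : P (Nat.findGreatest P (Nat.card X)) := Nat.findGreatest_spec (hbound n hPn) hPn
  refine ⟨Nat.findGreatest P (Nat.card X), ⟨hspec.1, ?_⟩, hspec.2⟩
  intro m hm hdvd
  have hPm : P m := ⟨hm, hspec.2.trans hdvd⟩
  have h1 : m ≤ Nat.findGreatest P (Nat.card X) := Nat.le_findGreatest (hbound m hPm) hPm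
  obtain ⟨x, rfl⟩ := hm
  have h2 : Nat.findGreatest P (Nat.card X) ≤ orderOf x := Nat.le_of_dvd (orderOf_pos x) hdvd
  exact le_antisymm h1 h2

theorem main {G H : Type*} [Group G] [Finite G] [Group H] [Finite H] (k : ℕ)
    (hsub : {n : ℕ | n ∈ Set.range (orderOf : H → ℕ) ∧ ∀ m ∈ Set.range (orderOf : H → ℕ), n ∣ m → m = n} ⊆ {n : ℕ | n ∈ Set.range (orderOf : G → ℕ) ∧ ∀ m ∈ Set.range (orderOf : G → ℕ), n ∣ m → m = n})
    (hfew : ({n : ℕ | n ∈ Set.range (orderOf : G → ℕ) ∧ ∀ m ∈ Set.range (orderOf : G → ℕ), n ∣ m → m = n} \ {n : ℕ | n ∈ Set.range (orderOf : H → ℕ) ∧ ∀ m ∈ Set.range (orderOf : H → ℕ), n ∣ m → m = n}).ncard < k + 1) :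
    Set.range (orderOf : (Fin (k + 1) → G) → ℕ) = Set.range (orderOf : (Fin k → G) × H → ℕ) := by
  classical
  have key1 : ∀ (x : Fin (k + 1) → G) (c : ℕ), orderOf x ∣ c ↔ ∀ i, orderOf (x i) ∣ c := by
    intro x c
    rw [Pi.orderOf, Finset.lcm_dvd_iff]
    simp
  have key2 : ∀ (y : (Fin k → G) × H) (c : ℕ), orderOf y ∣ c ↔ (∀ i, orderOf (y.1 i) ∣ c) ∧ orderOf y.2 ∣ c := by
    intro y c
    rw [Prod.orderOf, Nat.lcm_dvd_iff, Pi.orderOf, Finset.lcm_dvd_iff]
    simp
  have eq_of_dvd_iff : ∀ a b : ℕ, (∀ c, a ∣ c ↔ b ∣ c) → a = b := by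
    intro a b h
    exact Nat.dvd_antisymm ((h b).2 dvd_rfl) ((h a).1 dvd_rfl)
  apply Set.eq_of_subset_of_subset
  · rintro _ ⟨x, rfl⟩
    have hM : ∀ i, ∃ M : ℕ, (M ∈ Set.range (orderOf : G → ℕ) ∧ ∀ m ∈ Set.range (orderOf : G → ℕ), M ∣ m → m = M) ∧ orderOf (x i) ∣ M :=
      fun i => exists_maximal_order (orderOf (x i)) ⟨x i, rfl⟩
    choose M hMmax hMdvd using hM
    by_cases hcase : ∃ i, M i ∈ {n : ℕ | n ∈ Set.range (orderOf : H → ℕ) ∧ ∀ m ∈ Set.range (orderOf : H → ℕ), n ∣ m → m = n}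
    · obtain ⟨i, hi⟩ := hcase
      obtain ⟨h0, hh0⟩ := hi.1
      obtain ⟨h, hh⟩ := exists_orderOf_eq_of_dvd h0 (orderOf (x i)) (hh0 ▸ hMdvd i)
      refine ⟨(fun j => x (i.succAbove j), h), ?_⟩
      apply eq_of_dvd_iff
      intro c
      rw [key1, key2, Fin.forall_iff_succAbove i]
      simp only [hh]
      tauto
    · push Not at hcase
      have hnotinj : ¬ Function.Injective M := by
        intro hinj
        have hsubset : Set.range M ⊆ ({n : ℕ | n ∈ Set.range (orderOf : G → ℕ) ∧ ∀ m ∈ Set.range (orderOf : G → ℕ), n ∣ m → m = n} \ {n : ℕ | n ∈ Set.range (orderOf : H → ℕ) ∧ ∀ m ∈ Set.range (orderOf : H → ℕ), n ∣ m → m = n}) := by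
          rintro _ ⟨i, rfl⟩
          exact ⟨hMmax i, hcase i⟩
        have hfin : ({n : ℕ | n ∈ Set.range (orderOf : G → ℕ) ∧ ∀ m ∈ Set.range (orderOf : G → ℕ), n ∣ m → m = n} \ {n : ℕ | n ∈ Set.range (orderOf : H → ℕ) ∧ ∀ m ∈ Set.range (orderOf : H → ℕ), n ∣ m → m = n}).Finite := by
          apply Set.Finite.subset (Set.finite_range (orderOf : G → ℕ))
          rintro n ⟨hn, -⟩
          exact hn.1
        have h1 := Set.ncard_le_ncard hsubset hfin
        rw [Set.ncard_range_of_injective hinj, Nat.card_eq_fintype_card, Fintype.card_fin] at h1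
        omega
      rw [Function.Injective] at hnotinj
      push Not at hnotinj
      obtain ⟨i, j, hij, hne⟩ := hnotinj
      have hlcm : Nat.lcm (orderOf (x i)) (orderOf (x j)) ∣ M i :=
        Nat.lcm_dvd (hMdvd i) (hij ▸ hMdvd j)
      obtain ⟨g0, hg0⟩ := (hMmax i).1
      obtain ⟨g', hg'⟩ := exists_orderOf_eq_of_dvd g0 _ (hg0 ▸ hlcm)
      refine ⟨(fun l => Function.update x i g' (j.succAbove l), 1), ?_⟩
      apply eq_of_dvd_iff
      intro c
      rw [key1, key2, Fin.forall_iff_succAbove j]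
      simp only [orderOf_one, one_dvd, and_true]
      constructor
      · intro hall
        obtain ⟨l0, hl0⟩ := Fin.exists_succAbove_eq hne
        have h0 := hall l0
        rw [hl0, Function.update_self, hg'] at h0
        refine ⟨(Nat.dvd_lcm_right _ _).trans h0, ?_⟩
        intro l
        by_cases hl : j.succAbove l = i
        · rw [hl]
          exact (Nat.dvd_lcm_left _ _).trans h0
        · have := hall l
          rwa [Function.update_of_ne hl] at this
      · rintro ⟨hj, hrest⟩ l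
        by_cases hl : j.succAbove l = i
        · rw [hl, Function.update_self, hg']
          have := hrest l
          rw [hl] at this
          exact Nat.lcm_dvd this hj
        · rw [Function.update_of_ne hl]
          exact hrest l
  · rintro _ ⟨y, rfl⟩
    obtain ⟨M, hMmax, hMdvd⟩ := exists_maximal_order (orderOf y.2) ⟨y.2, rfl⟩
    obtain ⟨g0, hg0⟩ := (hsub hMmax).1
    obtain ⟨g, hg⟩ := exists_orderOf_eq_of_dvd g0 _ (hg0 ▸ hMdvd)
    refine ⟨Fin.cons g y.1, ?_⟩
    apply eq_of_dvd_iff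
    intro c
    rw [key1, key2, Fin.forall_fin_succ]
    simp only [Fin.cons_zero, Fin.cons_succ, hg]
    tauto

/-- For a finite group X write μ(X) for the set of element orders of X that are maximal under divisibility. Let G and H be finite groups and k ≥ 1 such that μ(H) ⊆ μ(G) and μ(G) has fewer than k elements outside μ(H). Then the direct product of k copies of G has the same set of element orders as the direct product of k − 1 copies of G with H. -/
theorem result {G H : Type*} [Group G] [Finite G] [Group H] [Finite H] (k : ℕ) (hk : 1 ≤ k)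
    (hsub : {n : ℕ | n ∈ Set.range (orderOf : H → ℕ) ∧ ∀ m ∈ Set.range (orderOf : H → ℕ), n ∣ m → m = n} ⊆ {n : ℕ | n ∈ Set.range (orderOf : G → ℕ) ∧ ∀ m ∈ Set.range (orderOf : G → ℕ), n ∣ m → m = n})
    (hfew : ({n : ℕ | n ∈ Set.range (orderOf : G → ℕ) ∧ ∀ m ∈ Set.range (orderOf : G → ℕ), n ∣ m → m = n} \ {n : ℕ | n ∈ Set.range (orderOf : H → ℕ) ∧ ∀ m ∈ Set.range (orderOf : H → ℕ), n ∣ m → m = n}).ncard < k) :
    Set.range (orderOf : (Fin k → G) → ℕ) = Set.range (orderOf : (Fin (k - 1) → G) × H → ℕ) := by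
  obtain ⟨k', rfl⟩ : ∃ k', k = k' + 1 := ⟨k - 1, by omega⟩
  exact main k' hsub hfew

end Cfsg.Agent.S2514
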