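import Cfsg.Statements.S2516
-- import your own Cfsg.Agent.* helpers here

set_option autoImplicit false
open Cfsg

namespace Cfsg.Agent.S2516

theorem phi_apply {F : Type*} [Field F] {V : Type*} [AddCommGroup V] [Module F V]
    {G : Type*} [Group G] (ρ : Representation F G V) (g : G) (v : V) :
    ((MulAutMultiplicative V).symm.toMonoidHom.comp
        ((DistribMulAction.toAddAut ((V →ₗ[F] V)ˣ) V).comp ρ.asGroupHom)) g (Multiplicative.ofAdd v) =
      Multiplicative.ofAdd (ρ g v) := rfl

theorem pow_formula {F : Type*} [Field F] {V : Type*} [AddCommGroup V] [Module F V]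
    {G : Type*} [Group G] (ρ : Representation F G V) (g : G) (v : V) (m : ℕ) :
    (⟨Multiplicative.ofAdd v, g⟩ : Multiplicative V ⋊[(MulAutMultiplicative V).symm.toMonoidHom.comp
        ((DistribMulAction.toAddAut ((V →ₗ[F] V)ˣ) V).comp ρ.asGroupHom)] G) ^ m =
      ⟨Multiplicative.ofAdd (∑ i ∈ Finset.range m, ((ρ g) ^ i) v), g ^ m⟩ := by
  induction m with
  | zero => simp; rfl
  | succ m ih =>
    rw [pow_succ, ih, SemidirectProduct.mul_def]
    simp only
    rw [phi_apply, Finset.sum_range_succ, pow_succ, ← ofAdd_add, map_pow]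


/-- Let F be a field of characteristic p > 0, V a non-zero finite-dimensional F-vector space, G a finite group and ρ a representation of G on V; form the semidirect product V ⋊ G. For g ∈ G of order k, the coset Vg contains an element of order pk if and only if the minimal polynomial of ρ(g) does not divide 1 + X + ⋯ + X^(k−1). -/
theorem result {F : Type*} [Field F] (p : ℕ) [Fact p.Prime] [CharP F p] {V : Type*} [AddCommGroup V] [Module F V] [FiniteDimensional F V] [Nontrivial V]
    {G : Type*} [Group G] [Finite G] (ρ : Representation F G V) (g : G) :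
    (∃ x : Multiplicative V ⋊[(MulAutMultiplicative V).symm.toMonoidHom.comp
        ((DistribMulAction.toAddAut ((V →ₗ[F] V)ˣ) V).comp ρ.asGroupHom)] G,
        x.right = g ∧ orderOf x = p * orderOf g) ↔
      ¬ (minpoly F (ρ g) ∣ ∑ i ∈ Finset.range (orderOf g), (Polynomial.X : Polynomial F) ^ i) := by
  classical
  have hkpos : 0 < orderOf g := orderOf_pos g
  have hp : p.Prime := Fact.out
  have haeval : Polynomial.aeval (ρ g) (∑ i ∈ Finset.range (orderOf g), (Polynomial.X : Polynomial F) ^ i) =
      ∑ i ∈ Finset.range (orderOf g), (ρ g) ^ i := by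
    simp
  rw [minpoly.dvd_iff, haeval]
  have hxk : ∀ v : V, (⟨Multiplicative.ofAdd v, g⟩ : Multiplicative V ⋊[(MulAutMultiplicative V).symm.toMonoidHom.comp
        ((DistribMulAction.toAddAut ((V →ₗ[F] V)ˣ) V).comp ρ.asGroupHom)] G) ^ (orderOf g) =
      SemidirectProduct.inl (Multiplicative.ofAdd ((∑ i ∈ Finset.range (orderOf g), (ρ g) ^ i) v)) := by
    intro v
    rw [pow_formula, pow_orderOf_eq_one, LinearMap.sum_apply]
    rfl
  constructor
  · rintro ⟨x, hxr, hxo⟩ hN0
    obtain ⟨l, r⟩ := x
    simp only at hxr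
    subst hxr
    have h1 := hxk (Multiplicative.toAdd l)
    rw [hN0] at h1
    have h2 : (⟨l, r⟩ : Multiplicative V ⋊[(MulAutMultiplicative V).symm.toMonoidHom.comp
        ((DistribMulAction.toAddAut ((V →ₗ[F] V)ˣ) V).comp ρ.asGroupHom)] G) ^ (orderOf r) = 1 := by
      exact h1.trans (by simp only [LinearMap.zero_apply, ofAdd_zero, map_one])
    have h3 := orderOf_dvd_of_pow_eq_one h2
    rw [hxo] at h3
    have h4 := Nat.le_of_dvd hkpos h3
    have h5 := hp.two_le
    nlinarith
  · intro hN0
    obtain ⟨v, hv⟩ : ∃ v, (∑ i ∈ Finset.range (orderOf g), (ρ g) ^ i) v ≠ 0 := by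
      by_contra h
      push Not at h
      exact hN0 (LinearMap.ext h)
    refine ⟨⟨Multiplicative.ofAdd v, g⟩, rfl, ?_⟩
    have hkdvd : orderOf g ∣ orderOf (⟨Multiplicative.ofAdd v, g⟩ : Multiplicative V ⋊[(MulAutMultiplicative V).symm.toMonoidHom.comp
        ((DistribMulAction.toAddAut ((V →ₗ[F] V)ˣ) V).comp ρ.asGroupHom)] G) := by
      have := orderOf_map_dvd (SemidirectProduct.rightHom : Multiplicative V ⋊[(MulAutMultiplicative V).symm.toMonoidHom.comp
        ((DistribMulAction.toAddAut ((V →ₗ[F] V)ˣ) V).comp ρ.asGroupHom)] G →* G) ⟨Multiplicative.ofAdd v, g⟩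
      exact this
    have hord : orderOf ((⟨Multiplicative.ofAdd v, g⟩ : Multiplicative V ⋊[(MulAutMultiplicative V).symm.toMonoidHom.comp
        ((DistribMulAction.toAddAut ((V →ₗ[F] V)ˣ) V).comp ρ.asGroupHom)] G) ^ (orderOf g)) = p := by
      rw [hxk v, orderOf_injective _ SemidirectProduct.inl_injective]
      apply orderOf_eq_prime
      · rw [← ofAdd_nsmul, ← Nat.cast_smul_eq_nsmul F, CharP.cast_eq_zero F p, zero_smul]
        rfl
      · intro h
        exact hv (Multiplicative.ofAdd.injective h)
    rw [orderOf_pow_of_dvd hkpos.ne' hkdvd] at hord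
    exact Nat.eq_mul_of_div_eq_left hkdvd hord

end Cfsg.Agent.S2516
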