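import Mathlib
import Cfsg.Statements.S5938
import Cfsg.Agent.Helper14.PSLMax
import Cfsg.Agent.S0803

set_option autoImplicit false
open Cfsg

namespace Cfsg.Agent.S5938

theorem charP_of_card {F : Type*} [Field F] [Fintype F] (p : ℕ) [Fact p.Prime]
    (hF : Fintype.card F = p) : CharP F p := by
  obtain ⟨q, hq⟩ := CharP.exists F
  have := hq
  have : Fact q.Prime := ⟨CharP.char_is_prime F q⟩
  obtain ⟨n, hqp, hn⟩ := FiniteField.card F q
  have hdvd : q ∣ p := by
    rw [← hF, hn]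
    exact dvd_pow_self q n.pos.ne'
  have : q = p := (Nat.prime_dvd_prime_iff_eq hqp Fact.out).mp hdvd
  rw [← this]
  exact hq

theorem perm_sq_ne : (c[(0 : Fin 4), 1, 2] * c[(0 : Fin 4), 1, 2]) * (c[(0 : Fin 4), 1, 3] * c[(0 : Fin 4), 1, 3])
    ≠ (c[(0 : Fin 4), 1, 3] * c[(0 : Fin 4), 1, 3]) * (c[(0 : Fin 4), 1, 2] * c[(0 : Fin 4), 1, 2]) := by
  decide

/-- Let p be a prime with p ≡ ±1 (mod 8) and F a field with p elements. Then PSL_2(F) has a maximal subgroup isomorphic to the symmetric group S_4. -/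
theorem result {F : Type*} [Field F] [Fintype F] (p : ℕ) [Fact p.Prime] (hF : Fintype.card F = p) (hp : p % 8 = 1 ∨ p % 8 = 7) : ∃ H : Subgroup (Matrix.ProjectiveSpecialLinearGroup (Fin 2) F), IsCoatom H ∧ Nonempty (H ≃* Equiv.Perm (Fin 4)) := by
  classical
  have := charP_of_card p hF
  have hpp : p.Prime := Fact.out
  have hodd : Odd (Fintype.card F) := by
    rw [hF, Nat.odd_iff]
    omega
  have h16 : p ^ 2 % 16 = 1 := by
    rw [Nat.pow_mod]
    have : p % 16 = 1 ∨ p % 16 = 7 ∨ p % 16 = 9 ∨ p % 16 = 15 := by omega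
    rcases this with h | h | h | h <;> rw [h]
  obtain ⟨H, ⟨e⟩⟩ := (Cfsg.Agent.S0803.result hF).mpr h16
  refine ⟨H, ?_, ⟨e⟩⟩
  have hcardH : Nat.card H = 24 := by
    rw [Nat.card_congr e.toEquiv, Nat.card_eq_fintype_card, Fintype.card_perm, Fintype.card_fin]
    rfl
  have hp7 : 7 ≤ p := by
    have := hpp.two_le
    omega
  have hcop : ¬ p ∣ Nat.card H := by
    rw [hcardH]
    intro hd
    have h24 : (24 : ℕ) = 2 ^ 3 * 3 := by norm_num
    rw [h24] at hd
    rcases (Nat.Prime.dvd_mul hpp).mp hd with h | h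
    · have := (Nat.prime_dvd_prime_iff_eq hpp Nat.prime_two).mp (hpp.dvd_of_dvd_pow h)
      omega
    · have := (Nat.prime_dvd_prime_iff_eq hpp Nat.prime_three).mp h
      omega
  have hxy : ((e.symm c[(0 : Fin 4), 1, 2] : H) : Matrix.ProjectiveSpecialLinearGroup (Fin 2) F)
      * (e.symm c[(0 : Fin 4), 1, 2] : H) * (((e.symm c[(0 : Fin 4), 1, 3] : H) : Matrix.ProjectiveSpecialLinearGroup (Fin 2) F) * (e.symm c[(0 : Fin 4), 1, 3] : H))
      ≠ ((e.symm c[(0 : Fin 4), 1, 3] : H) : Matrix.ProjectiveSpecialLinearGroup (Fin 2) F)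
      * (e.symm c[(0 : Fin 4), 1, 3] : H) * (((e.symm c[(0 : Fin 4), 1, 2] : H) : Matrix.ProjectiveSpecialLinearGroup (Fin 2) F) * (e.symm c[(0 : Fin 4), 1, 2] : H)) := by
    intro h
    apply perm_sq_ne
    apply e.symm.injective
    apply Subtype.ext
    simp only [map_mul, Subgroup.coe_mul]
    exact h
  have hPSL := Cfsg.Agent.Helper13.card_PSL2_mul_two hodd
  rw [hF] at hPSL
  have hbig : 48 < p * (p ^ 2 - 1) := by
    have h1 : 48 ≤ p ^ 2 - 1 := by
      have : 7 * 7 ≤ p * p := Nat.mul_le_mul hp7 hp7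
      have : p ^ 2 = p * p := by ring
      omega
    calc 48 < 7 * 48 := by norm_num
      _ ≤ p * (p ^ 2 - 1) := Nat.mul_le_mul hp7 h1
  refine ⟨?_, ?_⟩
  · intro htop
    have : Nat.card H = Nat.card (Matrix.ProjectiveSpecialLinearGroup (Fin 2) F) := by
      rw [htop, Subgroup.card_top]
    omega
  · intro M hHM
    rcases Cfsg.Agent.Helper14.PSLMax.max_of p hF hodd H _ _ (e.symm c[(0 : Fin 4), 1, 2]).2
      (e.symm c[(0 : Fin 4), 1, 3]).2 hxy hcop M hHM.le with h | h | h | h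
    · exact h
    · exfalso
      have := Subgroup.card_dvd_of_le hHM.le
      rw [hcardH, h] at this
      omega
    · exfalso
      have := Subgroup.eq_of_le_of_card_ge hHM.le (by rw [hcardH, h])
      exact hHM.ne this
    · exfalso
      have := Subgroup.card_dvd_of_le hHM.le
      rw [hcardH, h] at this
      omega

end Cfsg.Agent.S5938
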