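import Mathlib
import Cfsg.Statements.S5940
import Cfsg.Agent.Helper14.PSLMax
import Cfsg.Agent.S0802
import Cfsg.Agent.S5938

set_option autoImplicit false
open Cfsg

namespace Cfsg.Agent.S5940

theorem mem_a : c[(0 : Fin 4), 1, 2] ∈ alternatingGroup (Fin 4) := by
  rw [Equiv.Perm.mem_alternatingGroup]
  decide

theorem mem_b : c[(0 : Fin 4), 1, 3] ∈ alternatingGroup (Fin 4) := by
  rw [Equiv.Perm.mem_alternatingGroup]
  decide

theorem card_a4 : Nat.card (alternatingGroup (Fin 4)) = 12 := by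
  rw [nat_card_alternatingGroup, Nat.card_eq_fintype_card, Fintype.card_fin]
  rfl

/-- Let p ≥ 5 be a prime with p ≡ ±3 (mod 8) and p ≢ ±1 (mod 10), and F a field with p elements. Then PSL_2(F) has a maximal subgroup isomorphic to the alternating group A_4. -/
theorem result {F : Type*} [Field F] [Fintype F] (p : ℕ) [Fact p.Prime] (hF : Fintype.card F = p) (h5 : 5 ≤ p) (h8 : p % 8 = 3 ∨ p % 8 = 5) (h10 : p % 10 ≠ 1 ∧ p % 10 ≠ 9) : ∃ H : Subgroup (Matrix.ProjectiveSpecialLinearGroup (Fin 2) F), IsCoatom H ∧ Nonempty (H ≃* alternatingGroup (Fin 4)) := by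
  classical
  have := Cfsg.Agent.S5938.charP_of_card p hF
  have hpp : p.Prime := Fact.out
  have hodd : Odd (Fintype.card F) := by
    rw [hF, Nat.odd_iff]
    omega
  have hF1 : Fintype.card F = p ^ 1 := by rw [pow_one]; exact hF
  obtain ⟨H, ⟨e⟩⟩ := (Cfsg.Agent.S0802.result p 1 hF1).mpr (by
    rintro ⟨h2, -⟩
    omega)
  refine ⟨H, ?_, ⟨e⟩⟩
  have hcardH : Nat.card H = 12 := by
    rw [Nat.card_congr e.toEquiv, card_a4]
  have hcop : ¬ p ∣ Nat.card H := by
    rw [hcardH]
    intro hd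
    have h12 : (12 : ℕ) = 2 ^ 2 * 3 := by norm_num
    rw [h12] at hd
    rcases (Nat.Prime.dvd_mul hpp).mp hd with h | h
    · have := (Nat.prime_dvd_prime_iff_eq hpp Nat.prime_two).mp (hpp.dvd_of_dvd_pow h)
      omega
    · have := (Nat.prime_dvd_prime_iff_eq hpp Nat.prime_three).mp h
      omega
  obtain ⟨a, ha⟩ : ∃ a : alternatingGroup (Fin 4), a = ⟨c[(0 : Fin 4), 1, 2], mem_a⟩ := ⟨_, rfl⟩
  obtain ⟨b, hb⟩ : ∃ b : alternatingGroup (Fin 4), b = ⟨c[(0 : Fin 4), 1, 3], mem_b⟩ := ⟨_, rfl⟩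
  have hab : a * a * (b * b) ≠ b * b * (a * a) := by
    rw [ha, hb]
    decide
  have hxy : ((e.symm a : H) : Matrix.ProjectiveSpecialLinearGroup (Fin 2) F)
      * (e.symm a : H) * (((e.symm b : H) : Matrix.ProjectiveSpecialLinearGroup (Fin 2) F) * (e.symm b : H))
      ≠ ((e.symm b : H) : Matrix.ProjectiveSpecialLinearGroup (Fin 2) F)
      * (e.symm b : H) * (((e.symm a : H) : Matrix.ProjectiveSpecialLinearGroup (Fin 2) F) * (e.symm a : H)) := by
    intro h
    apply hab
    apply e.symm.injective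
    apply Subtype.ext
    simp only [map_mul, Subgroup.coe_mul]
    exact h
  have hPSL := Cfsg.Agent.Helper13.card_PSL2_mul_two hodd
  rw [hF] at hPSL
  have hp2 : 1 ≤ p ^ 2 := Nat.one_le_pow _ _ (by omega)
  have hcube : p * (p ^ 2 - 1) + p = p ^ 3 := by
    obtain ⟨m, hm⟩ : ∃ m, p ^ 2 = m + 1 := ⟨p ^ 2 - 1, by omega⟩
    rw [hm, Nat.add_sub_cancel]
    have : p ^ 3 = p * p ^ 2 := by ring
    rw [this, hm]
    ring
  have hbig : 24 < p * (p ^ 2 - 1) := by
    have h1 : 24 ≤ p ^ 2 - 1 := by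
      have : 5 * 5 ≤ p * p := Nat.mul_le_mul h5 h5
      have : p ^ 2 = p * p := by ring
      omega
    calc 24 < 5 * 24 := by norm_num
      _ ≤ p * (p ^ 2 - 1) := Nat.mul_le_mul h5 h1
  refine ⟨?_, ?_⟩
  · intro htop
    have : Nat.card H = Nat.card (Matrix.ProjectiveSpecialLinearGroup (Fin 2) F) := by
      rw [htop, Subgroup.card_top]
    omega
  · intro M hHM
    rcases Cfsg.Agent.Helper14.PSLMax.max_of p hF hodd H _ _ (e.symm a).2
      (e.symm b).2 hxy hcop M hHM.le with h | h | h | h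
    · exact h
    · exfalso
      have := Subgroup.eq_of_le_of_card_ge hHM.le (by rw [hcardH, h])
      exact hHM.ne this
    · exfalso
      obtain ⟨k, hk⟩ := Subgroup.card_subgroup_dvd_card M
      rw [h] at hk
      have h16 : p ^ 3 % 16 = p % 16 := by
        rw [← hcube, ← hPSL, hk]
        omega
      have hc : p % 16 = 3 ∨ p % 16 = 5 ∨ p % 16 = 11 ∨ p % 16 = 13 := by omega
      rw [Nat.pow_mod] at h16
      rcases hc with h | h | h | h <;> rw [h] at h16 <;> omega
    · obtain ⟨k, hk⟩ := Subgroup.card_subgroup_dvd_card M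
      rw [h] at hk
      have h5' : p ^ 3 % 5 = p % 5 := by
        rw [← hcube, ← hPSL, hk]
        omega
      have hc : p % 5 = 0 ∨ p % 5 = 1 ∨ p % 5 = 2 ∨ p % 5 = 3 ∨ p % 5 = 4 := by omega
      rw [Nat.pow_mod] at h5'
      rcases hc with h0 | h0 | h0 | h0 | h0
      · have hp5 : p = 5 := by
          have : 5 ∣ p := Nat.dvd_of_mod_eq_zero h0
          exact ((Nat.prime_dvd_prime_iff_eq Nat.prime_five hpp).mp this).symm
        apply Subgroup.eq_top_of_card_eq
        rw [h]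
        rw [hp5] at hPSL
        have h120 : (5 : ℕ) * (5 ^ 2 - 1) = 120 := by norm_num
        rw [h120] at hPSL
        omega
      · exfalso; omega
      · exfalso; rw [h0] at h5'; omega
      · exfalso; rw [h0] at h5'; omega
      · exfalso; omega

end Cfsg.Agent.S5940
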