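import Mathlib
import Cfsg.Statements.S2537
import Cfsg.Agent.Helper14.HallD
import Cfsg.Agent.S0802
import Cfsg.Agent.S0803
import Cfsg.Agent.S5940

set_option autoImplicit false
open Cfsg

namespace Cfsg.Agent.S2537

open Cfsg.Agent.Helper14.Mat2 Cfsg.Agent.Helper14.SL2Odd Cfsg.Agent.Helper14.PSL2
  Cfsg.Agent.Helper14.SL2Conj Cfsg.Agent.Helper14.Torus Cfsg.Agent.Helper14.TorusB
  Cfsg.Agent.Helper14.TorusC Cfsg.Agent.Helper14.TorusD Cfsg.Agent.Helper14.TorusE
  Cfsg.Agent.Helper14.A4Sub Cfsg.Agent.Helper14.SL2T Cfsg.Agent.Helper14.SL2U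
  Cfsg.Agent.Helper14.PSLMax Cfsg.Agent.Helper14.HallA Cfsg.Agent.Helper14.HallB
  Cfsg.Agent.Helper14.HallC Cfsg.Agent.Helper14.HallD

/-- Let `F` be a finite field with `q` elements of characteristic `p ≥ 5`, and `ε = 1` if `q ≡ 1 (mod 4)`, `ε = -1` otherwise. Then `PSL(2, F)` has a Hall `{2, 3}`-subgroup if and only if `3` divides `q − ε`, or the `{2,3}`-part of `q² − 1` is 24, or the `{2,3}`-part of `q² − 1` is 48 (the `{2,3}`-part of `m` being the largest divisor of `m` with no prime factor other than 2 and 3). -/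
theorem result {F : Type*} [Field F] [Fintype F] {p : ℕ} [Fact p.Prime] [CharP F p]
    (hp : 5 ≤ p) (q : ℕ) (hq : Fintype.card F = q) :
    (∃ H : Subgroup (Matrix.ProjectiveSpecialLinearGroup (Fin 2) F), Cfsg.IsPiHall ({2, 3} : Set ℕ) H) ↔
      (3 ∣ q - 1 ∧ q % 4 = 1) ∨ (3 ∣ q + 1 ∧ q % 4 = 3) ∨
        2 ^ (q ^ 2 - 1).factorization 2 * 3 ^ (q ^ 2 - 1).factorization 3 = 24 ∨
        2 ^ (q ^ 2 - 1).factorization 2 * 3 ^ (q ^ 2 - 1).factorization 3 = 48 := by
  classical
  subst hq
  have hpp : p.Prime := Fact.out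
  obtain ⟨n, -, hF⟩ := FiniteField.card F p
  have h2q : ¬ 2 ∣ Fintype.card F := by
    rw [hF]
    intro h
    have := (Nat.prime_dvd_prime_iff_eq Nat.prime_two hpp).mp (Nat.prime_two.dvd_of_dvd_pow h)
    omega
  have h3q : ¬ 3 ∣ Fintype.card F := by
    rw [hF]
    intro h
    have := (Nat.prime_dvd_prime_iff_eq Nat.prime_three hpp).mp (Nat.prime_three.dvd_of_dvd_pow h)
    omega
  have hodd : Odd (Fintype.card F) := by
    rw [← Nat.not_even_iff_odd, even_iff_two_dvd]
    exact h2q
  have hq2 : 2 ≤ Fintype.card F := Fintype.one_lt_card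
  have hN := Cfsg.Agent.Helper13.card_PSL2_mul_two (F := F) hodd
  have hR := arith1 _ _ h2q h3q hq2 hN
  have h24 := arith2 _ h2q h3q hq2
  have h2F := two_ne_zero_of_odd hodd
  have key : ∀ H : Subgroup (Matrix.ProjectiveSpecialLinearGroup (Fin 2) F),
      2 * Nat.card H = 2 ^ (Fintype.card F ^ 2 - 1).factorization 2 *
        3 ^ (Fintype.card F ^ 2 - 1).factorization 3 → Cfsg.IsPiHall ({2, 3} : Set ℕ) H := by
    intro H h
    rw [hall_iff]
    exact Nat.eq_of_mul_eq_mul_left (by norm_num : 0 < 2) (h.trans hR.symm)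
  constructor
  · rintro ⟨H, hH⟩
    rw [hall_iff] at hH
    obtain ⟨Mt, hMt⟩ : ∃ Mt : Subgroup (Matrix.SpecialLinearGroup (Fin 2) F),
        Mt = H.comap (QuotientGroup.mk' (Subgroup.center (Matrix.SpecialLinearGroup (Fin 2) F))) :=
      ⟨_, rfl⟩
    have hcard : Nat.card Mt = 2 ^ (Fintype.card F ^ 2 - 1).factorization 2 *
        3 ^ (Fintype.card F ^ 2 - 1).factorization 3 := by
      rw [hMt, card_comap hodd H, hH, hR]
    have hneg : negOne ∈ Mt := by
      rw [hMt, Subgroup.mem_comap]
      have : QuotientGroup.mk' (Subgroup.center (Matrix.SpecialLinearGroup (Fin 2) F)) negOne = 1 := by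
        rw [QuotientGroup.mk'_apply, QuotientGroup.eq_one_iff]
        exact negOne_mem_center
      rw [this]
      exact H.one_mem
    have hpn : ¬ p ∣ Nat.card Mt := by
      rw [hcard]
      intro h
      rcases (Nat.Prime.dvd_mul hpp).mp h with h | h
      · have := (Nat.prime_dvd_prime_iff_eq hpp Nat.prime_two).mp (hpp.dvd_of_dvd_pow h)
        omega
      · have := (Nat.prime_dvd_prime_iff_eq hpp Nat.prime_three).mp (hpp.dvd_of_dvd_pow h)
        omega
    rcases Cfsg.Agent.Helper14.ClassEq.main_abs (hyp_of hodd Mt hneg (h1_of_coprime hodd p Mt hpn))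
      with ⟨B, hBi, hBc⟩ | h | h | h
    · have h12 : 12 ∣ Nat.card B := by
        have h1 := Subgroup.card_mul_index B
        rw [hcard] at h1
        have hi : B.index = 1 ∨ B.index = 2 := by
          have : B.index ≠ 0 := Subgroup.index_ne_zero_of_finite
          omega
        obtain ⟨c, hc⟩ := h24
        rw [hc] at h1
        rcases hi with hi | hi
        · rw [hi] at h1
          omega
        · rw [hi] at h1
          omega
      obtain ⟨g, hg⟩ := exists_order_twelve (⟨negOne, hneg⟩ : Mt) (by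
        intro y hy
        have hyy : (y : Matrix.SpecialLinearGroup (Fin 2) F) * (y : Matrix.SpecialLinearGroup (Fin 2) F) = 1 := by
          have := congrArg Subtype.val hy
          simpa using this
        rcases sq_one h2F _ hyy with h | h
        · left
          exact Subtype.ext h
        · right
          exact Subtype.ext h) B hBc h12
      have hg' : orderOf (g : Matrix.SpecialLinearGroup (Fin 2) F) = 12 := by
        rw [Subgroup.orderOf_coe]
        exact hg
      rcases order_twelve hodd p hp (g : Matrix.SpecialLinearGroup (Fin 2) F) hg' with h | h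
      · left
        constructor
        · exact dvd_trans (by norm_num) h
        · omega
      · right
        left
        constructor
        · exact dvd_trans (by norm_num) h
        · omega
    · right
      right
      left
      rw [← hcard]
      exact h
    · right
      right
      right
      rw [← hcard]
      exact h
    · exfalso
      rw [hcard] at h
      exact arith3 _ _ (by rw [h]; norm_num)
  · rintro (⟨h3, h4⟩ | ⟨h3, h4⟩ | h | h)
    · obtain ⟨H, hH⟩ := hall_of_torus (F := F) hodd (Or.inl ⟨h3, h4⟩)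
      exact ⟨H, key H hH⟩
    · obtain ⟨H, hH⟩ := hall_of_torus (F := F) hodd (Or.inr ⟨h3, h4⟩)
      exact ⟨H, key H hH⟩
    · obtain ⟨H, ⟨e⟩⟩ := (Cfsg.Agent.S0802.result (F := F) p n hF).mpr (by
        rintro ⟨h2, -⟩
        omega)
      refine ⟨H, key H ?_⟩
      rw [h, Nat.card_congr e.toEquiv, Cfsg.Agent.S5940.card_a4]
    · have h48 : (48 : ℕ) = 2 ^ 4 * 3 ^ 1 := by norm_num
      rw [h48] at h
      obtain ⟨hx, -⟩ := pow23_eq _ _ _ _ h
      have hd := Nat.ordProj_dvd (Fintype.card F ^ 2 - 1) 2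
      rw [hx] at hd
      have hne := sq_sub_ne _ hq2
      have h16 : Fintype.card F ^ 2 % 16 = 1 := by
        generalize Fintype.card F ^ 2 = s at hd hne
        omega
      obtain ⟨H, ⟨e⟩⟩ := (Cfsg.Agent.S0803.result (F := F) rfl).mpr h16
      refine ⟨H, key H ?_⟩
      rw [h, Nat.card_congr e.toEquiv, Nat.card_perm, Nat.card_eq_fintype_card, Fintype.card_fin]
      rfl

end Cfsg.Agent.S2537
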