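import Cfsg.Statements.S2896
import Cfsg.Agent.Helper16.ParabolicChar

set_option autoImplicit false
open Cfsg

namespace Cfsg.Agent.S2896

/-- Let p be a prime dividing the order of the finite group G, S a Sylow p-subgroup of G and X a subgroup of S. (i) If some nontrivial element z of the centre of X has F*(C_G(z)) = O_p(C_G(z)), then F*(N_G(X)) = O_p(N_G(X)). (ii) G has parabolic characteristic p if and only if F*(C_G(z)) = O_p(C_G(z)) for every nontrivial z ∈ Ω₁(Z(S)). (iii) If F*(C_G(z)) = O_p(C_G(z)) for every element z of S of order p, then G has local characteristic p. -/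
theorem result {G : Type*} [Group G] [Finite G] {p : ℕ} [Fact p.Prime] (hdiv : p ∣ Nat.card G) (S : Sylow p G) (X : Subgroup G) (hX : X ≤ (S : Subgroup G)) : (∀ z : G, z ≠ 1 → z ∈ X → (∀ x ∈ X, x * z = z * x) → Cfsg.generalizedFittingSubgroup ↥(Subgroup.centralizer ({z} : Set G)) = Cfsg.pCore p ↥(Subgroup.centralizer ({z} : Set G)) → Cfsg.generalizedFittingSubgroup ↥(Subgroup.normalizer (X : Set G)) = Cfsg.pCore p ↥(Subgroup.normalizer (X : Set G))) ∧ (Cfsg.IsOfParabolicCharacteristic p G ↔ ∀ z : G, z ≠ 1 → z ∈ Cfsg.omegaOne p ((S : Subgroup G) ⊓ Subgroup.centralizer ((S : Subgroup G) : Set G)) → Cfsg.generalizedFittingSubgroup ↥(Subgroup.centralizer ({z} : Set G)) = Cfsg.pCore p ↥(Subgroup.centralizer ({z} : Set G))) ∧ ((∀ z : G, z ∈ (S : Subgroup G) → orderOf z = p → Cfsg.generalizedFittingSubgroup ↥(Subgroup.centralizer ({z} : Set G)) = Cfsg.pCore p ↥(Subgroup.centralizer ({z} : Set G))) → Cfsg.IsOfLocalCharacteristic p G) := by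
  have key : ∀ K : Subgroup G, Cfsg.generalizedFittingSubgroup ↥K = Cfsg.pCore p ↥K ↔
      Cfsg.Agent.Helper17.CharPA p K :=
    fun K => Cfsg.Agent.Helper17.genFitting_eq_pCore_iff.trans
      (Cfsg.Agent.Helper17.charPA_iff K).symm
  have keyL : ∀ K : Subgroup G,
      (Subgroup.centralizer (Cfsg.pCore p ↥K : Set ↥K) ≤ Cfsg.pCore p ↥K) ↔
      Cfsg.Agent.Helper17.CharPA p K := fun K => (Cfsg.Agent.Helper17.charPA_iff K).symm
  have part1 : ∀ Y : Subgroup G, IsPGroup p Y → ∀ z : G, z ∈ Y → (∀ x ∈ Y, x * z = z * x) →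
      Cfsg.Agent.Helper17.CharPA p (Subgroup.centralizer ({z} : Set G)) →
      Cfsg.Agent.Helper17.CharPA p (Subgroup.normalizer (Y : Set G)) :=
    fun Y hY z hz hzc hK => Cfsg.Agent.Helper16.charPA_normalizer_of_centralizer hY hz hzc hK
  have ord : ∀ z : G, orderOf z = p → z ≠ 1 ∧ z ^ p = 1 := by
    intro z hzo
    refine ⟨?_, ?_⟩
    · intro h
      rw [h, orderOf_one] at hzo
      exact (Fact.out : p.Prime).one_lt.ne hzo
    · rw [← hzo]; exact pow_orderOf_eq_one z
  refine ⟨?_, ⟨?_, ?_⟩, ?_⟩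
  · intro z _ hzX hzc hF
    rw [key] at hF ⊢
    exact part1 X (S.2.to_le hX) z hzX hzc hF
  · intro hpar z hz1 hzO
    rw [key]
    have hzS : z ∈ (S : Subgroup G) ⊓ Subgroup.centralizer ((S : Subgroup G) : Set G) :=
      Cfsg.Agent.Helper16.omegaOne_le_self p _ hzO
    obtain ⟨hzS1, hzS2⟩ := Subgroup.mem_inf.mp hzS
    have hRp : IsPGroup p (Subgroup.zpowers z) :=
      S.2.to_le (by rw [Subgroup.zpowers_le]; exact hzS1)
    have hR1 : Subgroup.zpowers z ≠ ⊥ := by
      intro h; exact hz1 (Subgroup.zpowers_eq_bot.mp h)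
    have hSC : (S : Subgroup G) ≤ Subgroup.centralizer ({z} : Set G) := by
      intro s hs
      rw [Subgroup.mem_centralizer_iff]
      intro y hy
      rw [Set.mem_singleton_iff] at hy
      rw [hy]
      exact (Subgroup.mem_centralizer_iff.mp hzS2 s hs).symm
    have hN := hpar (Subgroup.zpowers z) hRp hR1
      ⟨S, hSC.trans (Cfsg.Agent.Helper16.centralizer_singleton_le_normalizer_zpowers z)⟩
    rw [keyL] at hN
    exact Cfsg.Agent.Helper17.charPA_of_normal hN
      (Cfsg.Agent.Helper16.centralizer_singleton_le_normalizer_zpowers z)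
      (Cfsg.Agent.Helper16.normalizer_zpowers_le_normalizer_centralizer z)
  · intro hz R hR hR1 hpar
    rw [keyL]
    obtain ⟨T, hT⟩ := hpar
    obtain ⟨g, hg⟩ := MulAction.exists_smul_eq G T S
    have hSN : (S : Subgroup G) ≤
        Subgroup.normalizer ((R.map (MulAut.conj g).toMonoidHom : Subgroup G) : Set G) := by
      rw [Cfsg.Agent.Helper16.normalizer_map_conj, ← hg, Cfsg.Agent.Helper17.sylow_smul_coe]
      exact Cfsg.Agent.Helper17.map_conj_le_of_le _ _ g hT
    have hX'p : IsPGroup p (R.map (MulAut.conj g).toMonoidHom) := hR.map _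
    have hX'S : R.map (MulAut.conj g).toMonoidHom ≤ (S : Subgroup G) := by
      have h1 : IsPGroup p ↥((S : Subgroup G) ⊔ R.map (MulAut.conj g).toMonoidHom) :=
        IsPGroup.to_sup_of_normal_right' S.2 hX'p hSN
      have h2 := S.3 h1 le_sup_left
      exact le_sup_right.trans h2.le
    have hX'1 : R.map (MulAut.conj g).toMonoidHom ≠ ⊥ :=
      Cfsg.Agent.Helper16.map_conj_ne_bot hR1 g
    obtain ⟨z, hzX, hzo, hzc⟩ := Cfsg.Agent.Helper17.exists_central_mem_of_normal
      (S : Subgroup G) (R.map (MulAut.conj g).toMonoidHom) S.2 hX'S hSN hX'1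
    obtain ⟨hz1, hzp⟩ := ord z hzo
    have hzO : z ∈ Cfsg.omegaOne p ((S : Subgroup G) ⊓
        Subgroup.centralizer ((S : Subgroup G) : Set G)) :=
      Cfsg.Agent.Helper16.omegaOne_gen_mem (Subgroup.mem_inf.mpr ⟨hX'S hzX,
        Subgroup.mem_centralizer_iff.mpr (fun t ht => hzc t ht)⟩) hzp
    have hK := (key _).mp (hz z hz1 hzO)
    have hN := part1 _ hX'p z hzX (fun x hx => hzc x (hX'S hx)) hK
    have hN' := Cfsg.Agent.Helper16.charPA_map_conj hN g⁻¹
    rw [← Cfsg.Agent.Helper16.normalizer_map_conj, Cfsg.Agent.Helper17.map_conj_map_conj,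
      inv_mul_cancel, Cfsg.Agent.Helper17.map_conj_one] at hN'
    exact hN'
  · intro hz
    refine ⟨hdiv, ?_⟩
    intro R hR hR1
    rw [keyL]
    obtain ⟨g, hg⟩ := Cfsg.Agent.Helper17.exists_conj_le_sylow S R hR
    have hX'p : IsPGroup p (R.map (MulAut.conj g).toMonoidHom) := hR.map _
    have hX'1 : R.map (MulAut.conj g).toMonoidHom ≠ ⊥ :=
      Cfsg.Agent.Helper16.map_conj_ne_bot hR1 g
    obtain ⟨z, hzX, hzo, hzc⟩ := Cfsg.Agent.Helper17.exists_central_mem_of_normal
      (R.map (MulAut.conj g).toMonoidHom) (R.map (MulAut.conj g).toMonoidHom) hX'p le_rfl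
      Subgroup.le_normalizer hX'1
    have hK := (key _).mp (hz z (hg hzX) hzo)
    have hN := part1 _ hX'p z hzX hzc hK
    have hN' := Cfsg.Agent.Helper16.charPA_map_conj hN g⁻¹
    rw [← Cfsg.Agent.Helper16.normalizer_map_conj, Cfsg.Agent.Helper17.map_conj_map_conj,
      inv_mul_cancel, Cfsg.Agent.Helper17.map_conj_one] at hN'
    exact hN'

end Cfsg.Agent.S2896
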