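import Cfsg.Statements.S2897
import Cfsg.Agent.Helper17.Parabolic

set_option autoImplicit false
open Cfsg

namespace Cfsg.Agent.S2897

open Cfsg.Agent.Helper17

/-- Let p be a prime dividing the order of the finite group G, suppose G has parabolic characteristic p, let S be a Sylow p-subgroup of G and G₁ a normal subgroup of G. If Ω₁(Z(S ∩ G₁)) is nontrivial and contained in Ω₁(Z(S)), then G₁ has parabolic characteristic p. -/
theorem result {G : Type*} [Group G] [Finite G] {p : ℕ} [Fact p.Prime] (hdiv : p ∣ Nat.card G) (hG : Cfsg.IsOfParabolicCharacteristic p G) (S : Sylow p G) (G₁ : Subgroup G) [G₁.Normal] (hne : Cfsg.omegaOne p (((S : Subgroup G) ⊓ G₁) ⊓ Subgroup.centralizer (((S : Subgroup G) ⊓ G₁ : Subgroup G) : Set G)) ≠ ⊥) (hle : Cfsg.omegaOne p (((S : Subgroup G) ⊓ G₁) ⊓ Subgroup.centralizer (((S : Subgroup G) ⊓ G₁ : Subgroup G) : Set G)) ≤ Cfsg.omegaOne p ((S : Subgroup G) ⊓ Subgroup.centralizer ((S : Subgroup G) : Set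 G))) : Cfsg.IsOfParabolicCharacteristic p ↥G₁ := by
  rintro R hRp hR1 ⟨T₁, hT₁⟩
  rw [← charPA_iff]
  apply charPA_of_map_subtype
  rw [map_subtype_normalizer, inf_comm]
  have hR'G₁ : R.map G₁.subtype ≤ G₁ := Subgroup.map_subtype_le _
  have hR'p : IsPGroup p (R.map G₁.subtype) := hRp.map _
  have hR'1 : R.map G₁.subtype ≠ ⊥ := by
    intro h
    apply hR1
    rw [Subgroup.map_eq_bot_iff_of_injective _ G₁.subtype_injective] at h
    exact h
  have hT₁p : IsPGroup p ((T₁ : Subgroup G₁).map G₁.subtype) := T₁.2.map _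
  obtain ⟨S'', hS''⟩ := hT₁p.exists_le_sylow
  have hmax := sylow_map_subtype_max G₁ T₁
  have hT : (T₁ : Subgroup G₁).map G₁.subtype = (S'' : Subgroup G) ⊓ G₁ :=
    (hmax ((S'' : Subgroup G) ⊓ G₁) inf_le_right (S''.2.to_le inf_le_left)
      (le_inf hS'' (Subgroup.map_subtype_le _))).symm
  obtain ⟨g, hg⟩ := MulAction.exists_smul_eq G S S''
  have hmemS'' : ∀ y : G, y ∈ (S'' : Subgroup G) ↔ g⁻¹ * y * g ∈ (S : Subgroup G) := by
    intro y
    rw [← hg, sylow_smul_coe, mem_map_conj]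
  have hZ : ∀ x ∈ (T₁ : Subgroup G₁).map G₁.subtype,
      (∀ t ∈ (T₁ : Subgroup G₁).map G₁.subtype, t * x = x * t) → x ^ p = 1 →
      ∀ s ∈ (S'' : Subgroup G), s * x = x * s := by
    intro x hx hxc hxp s hs
    rw [hT] at hx hxc
    obtain ⟨hxS, hxG₁⟩ := Subgroup.mem_inf.mp hx
    have haS : g⁻¹ * x * g ∈ (S : Subgroup G) := (hmemS'' x).mp hxS
    have haG₁ : g⁻¹ * x * g ∈ G₁ := by
      have := ‹G₁.Normal›.conj_mem x hxG₁ g⁻¹
      simpa using this
    have hac : g⁻¹ * x * g ∈ Subgroup.centralizer (((S : Subgroup G) ⊓ G₁ : Subgroup G) : Set G) := by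
      rw [Subgroup.mem_centralizer_iff]
      intro b hb
      obtain ⟨hbS, hbG₁⟩ := Subgroup.mem_inf.mp hb
      have h1 : g * b * g⁻¹ ∈ (S'' : Subgroup G) ⊓ G₁ := by
        refine Subgroup.mem_inf.mpr ⟨?_, ‹G₁.Normal›.conj_mem b hbG₁ g⟩
        rw [hmemS'']
        have e : g⁻¹ * (g * b * g⁻¹) * g = b := by group
        rw [e]
        exact hbS
      have h2 := hxc _ h1
      calc b * (g⁻¹ * x * g) = g⁻¹ * ((g * b * g⁻¹) * x) * g := by group
        _ = g⁻¹ * (x * (g * b * g⁻¹)) * g := by rw [h2]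
        _ = g⁻¹ * x * g * b := by group
    have hap : (g⁻¹ * x * g) ^ p = 1 := by
      have e : g⁻¹ * x * g = g⁻¹ * x * g⁻¹⁻¹ := by group
      rw [e, conj_pow, hxp]
      group
    have h3 : g⁻¹ * x * g ∈ Cfsg.omegaOne p (((S : Subgroup G) ⊓ G₁) ⊓
        Subgroup.centralizer (((S : Subgroup G) ⊓ G₁ : Subgroup G) : Set G)) :=
      Subgroup.subset_closure ⟨Subgroup.mem_inf.mpr ⟨Subgroup.mem_inf.mpr ⟨haS, haG₁⟩, hac⟩, hap⟩
    have h4 : Cfsg.omegaOne p ((S : Subgroup G) ⊓ Subgroup.centralizer ((S : Subgroup G) : Set G))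
        ≤ (S : Subgroup G) ⊓ Subgroup.centralizer ((S : Subgroup G) : Set G) := by
      unfold Cfsg.omegaOne
      rw [Subgroup.closure_le]
      intro y hy
      exact hy.1
    have h5 := (Subgroup.mem_inf.mp (h4 (hle h3))).2
    have h6 := Subgroup.mem_centralizer_iff.mp h5 _ ((hmemS'' s).mp hs)
    calc s * x = g * ((g⁻¹ * s * g) * (g⁻¹ * x * g)) * g⁻¹ := by group
      _ = g * ((g⁻¹ * x * g) * (g⁻¹ * s * g)) * g⁻¹ := by rw [h6]
      _ = x * s := by group
  have hTN : (T₁ : Subgroup G₁).map G₁.subtype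
      ≤ Subgroup.normalizer ((R.map G₁.subtype : Subgroup G) : Set G) := by
    have h1 := Subgroup.map_mono (f := G₁.subtype) hT₁
    rw [map_subtype_normalizer] at h1
    exact h1.trans inf_le_left
  exact charPA_parabolic_inf
    (fun R h1 h2 h3 => (charPA_iff _).mpr (hG R h1 h2 h3)) G₁
    (fun M hM => charPA_of_normal hM inf_le_left (by
      apply le_normalizer_of_conj_mem
      intro m hm x hx
      obtain ⟨hx1, hx2⟩ := Subgroup.mem_inf.mp hx
      exact Subgroup.mem_inf.mpr ⟨M.mul_mem (M.mul_mem hm hx1) (M.inv_mem hm),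
        ‹G₁.Normal›.conj_mem x hx2 m⟩))
    S'' _ hT hmax hZ _ hR'G₁ hR'p hR'1 hTN

end Cfsg.Agent.S2897
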