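import Cfsg.Statements.S2898
import Cfsg.Agent.Helper17.Parabolic
import Cfsg.Agent.Helper17.PPrimeCore

set_option autoImplicit false
open Cfsg

namespace Cfsg.Agent.S2898

open Cfsg.Agent.Helper17

/-- Let G be a finite group of even order with parabolic characteristic 2. If the centre of G ⧸ O(G) is trivial, then O(G) = 1. -/
theorem result {G : Type*} [Group G] [Finite G] (h2 : 2 ∣ Nat.card G) (hG : Cfsg.IsOfParabolicCharacteristic 2 G) [hN : (Cfsg.oddCore G).Normal] (hZ : Subgroup.center (G ⧸ Cfsg.oddCore G) = ⊥) : Cfsg.oddCore G = ⊥ := by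
  haveI : Fact (Nat.Prime 2) := ⟨Nat.prime_two⟩
  have hOcop : (Nat.card ↥(Cfsg.oddCore G)).Coprime 2 := pPrimeCore_card_coprime 2
  have hOel : ∀ u ∈ Cfsg.oddCore G, (orderOf u).Coprime 2 :=
    fun u hu => orderOf_coprime_of_mem_pPrimeCore 2 hu
  obtain ⟨S⟩ : Nonempty (Sylow 2 G) := inferInstance
  have hS1 : (S : Subgroup G) ≠ ⊥ := S.ne_bot_of_dvd_card h2
  have stepA : ∀ z ∈ (S : Subgroup G), orderOf z = 2 →
      (∀ s ∈ (S : Subgroup G), s * z = z * s) → ∀ u ∈ Cfsg.oddCore G, z * u * z⁻¹ = u⁻¹ := by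
    intro z hzS hz2 hzc
    have hU1 : Subgroup.zpowers z ≠ ⊥ := by
      intro hb
      have : z = 1 := Subgroup.zpowers_eq_bot.mp hb
      rw [this, orderOf_one] at hz2
      omega
    have hUp : IsPGroup 2 (Subgroup.zpowers z) :=
      isPGroup_zpowers_of_orderOf z 1 (by rw [hz2, pow_one])
    have hSN := le_normalizer_zpowers_of_commute (S : Subgroup G) z hzc
    have hM : CharPA 2 (Subgroup.normalizer ((Subgroup.zpowers z : Subgroup G) : Set G)) :=
      (charPA_iff _).mpr (hG _ hUp hU1 ⟨S, hSN⟩)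
    have hW : Cfsg.oddCore G ⊓ Subgroup.normalizer ((Subgroup.zpowers z : Subgroup G) : Set G) = ⊥ := by
      apply eq_bot_of_coprime_of_charPA hM inf_le_right
      · apply le_normalizer_of_conj_mem
        intro m hm x hx
        obtain ⟨hx1, hx2⟩ := Subgroup.mem_inf.mp hx
        exact Subgroup.mem_inf.mpr ⟨hN.conj_mem x hx1 m,
          Subgroup.mul_mem _ (Subgroup.mul_mem _ hm hx2) (Subgroup.inv_mem _ hm)⟩
      · exact Nat.Coprime.coprime_dvd_left (Subgroup.card_dvd_of_le inf_le_left) hOcop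
    have hfix : ∀ u ∈ Cfsg.oddCore G, z * u = u * z → u = 1 := by
      intro u hu hcomm
      have h1 := le_normalizer_zpowers_of_commute (Subgroup.zpowers u) z (by
        intro s hs
        obtain ⟨k, rfl⟩ := Subgroup.mem_zpowers_iff.mp hs
        exact (Commute.zpow_left (show Commute u z from hcomm.symm) k).eq)
      have h3 : u ∈ Cfsg.oddCore G ⊓
          Subgroup.normalizer ((Subgroup.zpowers z : Subgroup G) : Set G) :=
        Subgroup.mem_inf.mpr ⟨hu, h1 (Subgroup.mem_zpowers u)⟩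
      rw [hW] at h3
      exact Subgroup.mem_bot.mp h3
    let φ : ↥(Cfsg.oddCore G) → ↥(Cfsg.oddCore G) := fun w =>
      ⟨(w : G)⁻¹ * (z * w * z⁻¹), Subgroup.mul_mem _ (Subgroup.inv_mem _ w.2) (hN.conj_mem w w.2 z)⟩
    have hinj : Function.Injective φ := by
      intro w v hwv
      have h1 : (w : G)⁻¹ * (z * w * z⁻¹) = (v : G)⁻¹ * (z * v * z⁻¹) := congrArg Subtype.val hwv
      have h2' : (w : G)⁻¹ * z * w = (v : G)⁻¹ * z * v := by
        calc (w : G)⁻¹ * z * w = ((w : G)⁻¹ * (z * w * z⁻¹)) * z := by group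
          _ = ((v : G)⁻¹ * (z * v * z⁻¹)) * z := by rw [h1]
          _ = (v : G)⁻¹ * z * v := by group
      have h3 : z * ((v : G) * (w : G)⁻¹) = ((v : G) * (w : G)⁻¹) * z := by
        calc z * ((v : G) * (w : G)⁻¹) = (v : G) * ((v : G)⁻¹ * z * v) * (w : G)⁻¹ := by group
          _ = (v : G) * ((w : G)⁻¹ * z * w) * (w : G)⁻¹ := by rw [h2']
          _ = (v : G) * (w : G)⁻¹ * z := by group
      have h4 := hfix _ (Subgroup.mul_mem _ v.2 (Subgroup.inv_mem _ w.2)) h3
      exact Subtype.ext (mul_inv_eq_one.mp h4).symm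
    have hsurj : Function.Surjective φ := Finite.surjective_of_injective hinj
    intro u hu
    obtain ⟨w, hw⟩ := hsurj ⟨u, hu⟩
    have hu' : u = (w : G)⁻¹ * (z * w * z⁻¹) := (congrArg Subtype.val hw).symm
    have hzz : z * z = 1 := by rw [← pow_two, ← hz2, pow_orderOf_eq_one]
    have hzinv : z⁻¹ = z := inv_eq_of_mul_eq_one_right hzz
    rw [hu', hzinv]
    calc z * ((w : G)⁻¹ * (z * w * z)) * z = z * (w : G)⁻¹ * z * w * (z * z) := by group
      _ = z * (w : G)⁻¹ * z * w := by rw [hzz, mul_one]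
      _ = ((w : G)⁻¹ * (z * w * z))⁻¹ := by
          have : ((w : G)⁻¹ * (z * w * z))⁻¹ = z⁻¹ * (w : G)⁻¹ * z⁻¹ * w := by group
          rw [this, hzinv]
  have stepB : ∀ z : G, (∀ u ∈ Cfsg.oddCore G, z * u * z⁻¹ = u⁻¹) →
      z ∈ Subgroup.centralizer (Cfsg.oddCore G : Set G) → Cfsg.oddCore G = ⊥ := by
    intro z hinv hzC
    rw [eq_bot_iff]
    intro u hu
    rw [Subgroup.mem_bot]
    have h1 : u * z = z * u := Subgroup.mem_centralizer_iff.mp hzC u hu
    have h3 : u = u⁻¹ := by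
      calc u = z * u * z⁻¹ := by rw [← h1]; group
        _ = u⁻¹ := hinv u hu
    have h4 : u ^ 2 = 1 := by
      rw [pow_two]
      nth_rewrite 1 [h3]
      group
    have h5 : orderOf u ∣ 2 := orderOf_dvd_of_pow_eq_one h4
    have h6 : orderOf u = 1 := Nat.Coprime.eq_one_of_dvd (hOel u hu) h5
    exact orderOf_eq_one_iff.mp h6
  have hCconj : ∀ (g c : G), c ∈ Subgroup.centralizer (Cfsg.oddCore G : Set G) →
      g * c * g⁻¹ ∈ Subgroup.centralizer (Cfsg.oddCore G : Set G) := by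
    intro g c hc
    apply conj_mem_centralizer _ hc
    intro r hr
    have := hN.conj_mem r hr g⁻¹
    simpa using this
  by_cases hSC : (S : Subgroup G) ⊓ Subgroup.centralizer (Cfsg.oddCore G : Set G) = ⊥
  · exfalso
    obtain ⟨z, hzS, hz2, hzc⟩ := exists_central_orderOf_eq_prime (S : Subgroup G) S.2 hS1
    have hinv := stepA z hzS hz2 hzc
    have hzz : z * z = 1 := by rw [← pow_two, ← hz2, pow_orderOf_eq_one]
    have hzinv : z⁻¹ = z := inv_eq_of_mul_eq_one_right hzz
    have hCn : (Subgroup.centralizer (Cfsg.oddCore G : Set G)).Normal :=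
      ⟨fun c hc g => hCconj g c hc⟩
    have hCcop : (Nat.card ↥(Subgroup.centralizer (Cfsg.oddCore G : Set G))).Coprime 2 := by
      rw [Nat.coprime_comm, Nat.Prime.coprime_iff_not_dvd Nat.prime_two]
      intro hdvd
      obtain ⟨y, hy⟩ := exists_prime_orderOf_dvd_card' 2 hdvd
      have hy' : orderOf (y : G) = 2 ^ 1 := by rw [Subgroup.orderOf_coe, hy, pow_one]
      obtain ⟨g, hg⟩ := exists_conj_mem_sylow S (y : G) 1 hy'
      have h1 : g * (y : G) * g⁻¹ ∈ (S : Subgroup G) ⊓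
          Subgroup.centralizer (Cfsg.oddCore G : Set G) :=
        Subgroup.mem_inf.mpr ⟨hg, hCconj g y y.2⟩
      rw [hSC, Subgroup.mem_bot] at h1
      have h3 : (y : G) = 1 := by
        have : (y : G) = g⁻¹ * (g * (y : G) * g⁻¹) * g := by group
        rw [this, h1]
        group
      rw [h3, orderOf_one] at hy'
      omega
    have hCO : Subgroup.centralizer (Cfsg.oddCore G : Set G) ≤ Cfsg.oddCore G :=
      le_pPrimeCore' hCn hCcop
    have hconjinv : ∀ (g : G), ∀ u ∈ Cfsg.oddCore G, (g * z * g⁻¹) * u * (g * z * g⁻¹)⁻¹ = u⁻¹ := by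
      intro g u hu
      have h1 : g⁻¹ * u * g ∈ Cfsg.oddCore G := by
        have := hN.conj_mem u hu g⁻¹
        simpa using this
      have h3 := hinv _ h1
      calc (g * z * g⁻¹) * u * (g * z * g⁻¹)⁻¹ = g * (z * (g⁻¹ * u * g) * z⁻¹) * g⁻¹ := by group
        _ = g * (g⁻¹ * u * g)⁻¹ * g⁻¹ := by rw [h3]
        _ = u⁻¹ := by group
    have hprod : ∀ g : G, z * (g * z * g⁻¹) ∈ Cfsg.oddCore G := by
      intro g
      apply hCO
      rw [Subgroup.mem_centralizer_iff]
      intro u hu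
      have h1 := hconjinv g u hu
      have h3 := hinv u⁻¹ (Subgroup.inv_mem _ hu)
      rw [inv_inv] at h3
      calc u * (z * (g * z * g⁻¹)) = (z * u⁻¹ * z⁻¹) * (z * (g * z * g⁻¹)) := by rw [h3]
        _ = z * u⁻¹ * (g * z * g⁻¹) := by group
        _ = z * ((g * z * g⁻¹) * u * (g * z * g⁻¹)⁻¹) * (g * z * g⁻¹) := by rw [h1]
        _ = z * (g * z * g⁻¹) * u := by group
    have hzcenter : (QuotientGroup.mk z : G ⧸ Cfsg.oddCore G) ∈
        Subgroup.center (G ⧸ Cfsg.oddCore G) := by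
      rw [Subgroup.mem_center_iff]
      intro q
      induction q using QuotientGroup.induction_on with
      | H g =>
        rw [← QuotientGroup.mk_mul, ← QuotientGroup.mk_mul, QuotientGroup.eq]
        have h1 := hprod g⁻¹
        rw [inv_inv] at h1
        have e : (g * z)⁻¹ * (z * g) = z⁻¹ * (g⁻¹ * z * g) := by group
        rw [e, hzinv]
        exact h1
    rw [hZ, Subgroup.mem_bot, QuotientGroup.eq_one_iff] at hzcenter
    have h5 := hOel z hzcenter
    rw [hz2] at h5
    norm_num at h5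
  · have hTS : (S : Subgroup G) ≤ Subgroup.normalizer
        (((S : Subgroup G) ⊓ Subgroup.centralizer (Cfsg.oddCore G : Set G) : Subgroup G) : Set G) := by
      apply le_normalizer_of_conj_mem
      intro s hs x hx
      obtain ⟨hx1, hx2⟩ := Subgroup.mem_inf.mp hx
      exact Subgroup.mem_inf.mpr ⟨Subgroup.mul_mem _ (Subgroup.mul_mem _ hs hx1)
        (Subgroup.inv_mem _ hs), hCconj s x hx2⟩
    obtain ⟨z, hz, hz2, hzc⟩ := exists_central_mem_of_normal (S : Subgroup G) _ S.2
      inf_le_left hTS hSC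
    obtain ⟨hzS, hzC⟩ := Subgroup.mem_inf.mp hz
    exact stepB z (stepA z hzS hz2 hzc) hzC

end Cfsg.Agent.S2898
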