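import Cfsg.Statements.S2905
import Cfsg.Agent.Helper17.PMin

set_option autoImplicit false
open Cfsg

namespace Cfsg.Agent.S2905

open Cfsg.Agent.Helper17

/-- Let P be a finite p-minimal group (a Sylow p-subgroup S is not normal and lies in a unique maximal subgroup M of P) and let F be the normal core of M. Then: every subnormal subgroup N of P contained in M satisfies N ∩ S ≤ O_p(P); if O^p(P) has a normal Sylow p-subgroup then the order of P has at most two prime divisors; every normal subgroup N of P either contains O^p(P) or is contained in F; and O^p(P)F ⧸ F is a minimal normal subgroup of P ⧸ F. -/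
theorem result {P : Type*} [Group P] [Finite P] {p : ℕ} [Fact p.Prime] (hP : Cfsg.IsPMinimal p P) (S : Sylow p P) (M : Subgroup P) (hM : IsCoatom M) (hSM : (S : Subgroup P) ≤ M) [hF : M.normalCore.Normal] : (∀ N : Subgroup P, N.IsSubnormal → N ≤ M → N ⊓ (S : Subgroup P) ≤ Cfsg.pCore p P) ∧ ((∀ T : Sylow p ↥(Cfsg.pResidual p P), (T : Subgroup ↥(Cfsg.pResidual p P)).Normal) → (Nat.card P).primeFactors.card ≤ 2) ∧ (∀ N : Subgroup P, N.Normal → Cfsg.pResidual p P ≤ N ∨ N ≤ M.normalCore) ∧ (∀ N : Subgroup P, N.Normal → M.normalCore ≤ N → N ≤ Cfsg.pResidual p P ⊔ M.normalCore → N = M.normalCore ∨ N = Cfsg.pResidual p P ⊔ M.normalCore) ∧ M.normalCore < Cfsg.pResidual p P ⊔ M.normalCore := by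
  refine ⟨?_, ?_, ?_, ?_, ?_⟩
  · intro N hNs hNM
    exact pmin_subnormal_aux hP S M hM hSM _ N hNs hNM rfl
  · intro hT
    haveI := Cfsg.Agent.Helper16.pResidual_normal p P
    refine pmin_two_primes_core hP S M hM hSM (Cfsg.pResidual p P) ?_ ?_ hT
    · intro x hx
      exact Cfsg.Agent.Helper16.mem_pResidual_of_coprime hx
    · intro K S₁
      have h1 := Cfsg.Agent.Helper16.pResidual_sup_sylow S₁
      have h2 : K = ((Cfsg.pResidual p ↥K) ⊔ (S₁ : Subgroup ↥K)).map K.subtype := by
        rw [h1, ← MonoidHom.range_eq_map, Subgroup.range_subtype]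
      rw [Subgroup.map_sup] at h2
      have h3 : (Cfsg.pResidual p ↥K).map K.subtype ≤ Cfsg.pResidual p P := by
        rw [Subgroup.map_le_iff_le_comap]
        show Subgroup.closure _ ≤ _
        rw [Subgroup.closure_le]
        intro x hx
        show (x : P) ∈ Cfsg.pResidual p P
        apply Cfsg.Agent.Helper16.mem_pResidual_of_coprime
        rw [Subgroup.orderOf_coe]
        exact hx
      conv_lhs => rw [h2]
      exact sup_le_sup_right h3 _
  · intro N hN
    exact pmin_normal_dichotomy hP S M hM hSM N hN
  · intro N hN hFN hNle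
    rcases pmin_normal_dichotomy hP S M hM hSM N hN with h | h
    · right
      exact le_antisymm hNle (sup_le h hFN)
    · left
      exact le_antisymm h hFN
  · refine lt_of_le_of_ne le_sup_right ?_
    intro heq
    apply pmin_residual_not_le S M hM hSM
    exact (le_sup_left.trans heq.ge).trans (Subgroup.normalCore_le M)

end Cfsg.Agent.S2905
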