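import Cfsg.Statements.S2907

set_option autoImplicit false
open Cfsg

namespace Cfsg.Agent.S2907

/-- Let X be a finite semi-extraspecial p-group and x an element of X outside the centre. Then the index of C_X(x) in X equals the order of Z(X), and the commutators [x, y], y ∈ X, form exactly the centre Z(X). -/
theorem result {X : Type*} [Group X] [Finite X] {p : ℕ} [Fact p.Prime] (hX : Cfsg.IsSemiExtraspecial p X) (x : X) (hx : x ∉ Subgroup.center X) : (Subgroup.centralizer ({x} : Set X)).index = Nat.card ↥(Subgroup.center X) ∧ {z : X | ∃ y : X, z = x * y * x⁻¹ * y⁻¹} = (Subgroup.center X : Set X) := by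
  classical
obtain ⟨⟨hp, hfr, hcomm⟩, hY⟩ := hX
have hc : ∀ y : X, x * y * x⁻¹ * y⁻¹ ∈ Subgroup.center X := by
  intro y
  rw [← hcomm]
  have h1 := Subgroup.commutator_mem_commutator (Subgroup.mem_top x) (Subgroup.mem_top y)
  rwa [commutatorElement_def] at h1
let f : X →* X := MonoidHom.mk' (fun y => x * y * x⁻¹ * y⁻¹) (by
  intro y y'
  calc x * (y * y') * x⁻¹ * (y * y')⁻¹
      = x * y * x⁻¹ * ((x * y' * x⁻¹ * y'⁻¹) * y⁻¹) := by group
    _ = x * y * x⁻¹ * (y⁻¹ * (x * y' * x⁻¹ * y'⁻¹)) := by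
        rw [← (Subgroup.mem_center_iff.1 (hc y')) y⁻¹]
    _ = x * y * x⁻¹ * y⁻¹ * (x * y' * x⁻¹ * y'⁻¹) := by group)
have hf : ∀ y, f y = x * y * x⁻¹ * y⁻¹ := fun y => rfl
have hker : f.ker = Subgroup.centralizer ({x} : Set X) := by
  ext y
  rw [MonoidHom.mem_ker, hf, Subgroup.mem_centralizer_iff]
  constructor
  · intro h z hz
    rw [Set.mem_singleton_iff] at hz
    subst hz
    have h2 : z * y * z⁻¹ * y⁻¹ * (y * z) = 1 * (y * z) := by rw [h]
    rw [one_mul] at h2
    rw [← h2]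
    group
  · intro h
    have h2 := h x (Set.mem_singleton x)
    rw [h2]
    group
have hrange_le : f.range ≤ Subgroup.center X := by
  rintro _ ⟨y, rfl⟩
  exact hc y
have hrange : f.range = Subgroup.center X := by
  by_contra hne
  have hne_top : f.range.subgroupOf (Subgroup.center X) ≠ ⊤ := by
    intro h
    exact hne (le_antisymm hrange_le (Subgroup.subgroupOf_eq_top.1 h))
  obtain ⟨M, hM, hle⟩ :=
    (eq_top_or_exists_le_coatom (f.range.subgroupOf (Subgroup.center X))).resolve_left hne_top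
  obtain ⟨Y, hYdef⟩ : ∃ Y : Subgroup X, Y = M.map (Subgroup.center X).subtype := ⟨_, rfl⟩
  have hYle : Y ≤ Subgroup.center X := by
    rw [hYdef]
    rintro _ ⟨m, -, rfl⟩
    exact m.2
  have hYsub : Y.subgroupOf (Subgroup.center X) = M := by
    rw [hYdef]
    exact Subgroup.comap_map_eq_self_of_injective (Subgroup.subtype_injective _) M
  obtain ⟨hYn, ⟨-, hcard⟩⟩ := hY Y hYle (by rw [hYsub]; exact hM)
  have hIY : f.range ≤ Y := by
    intro w hw
    have h1 : (⟨w, hrange_le hw⟩ : Subgroup.center X) ∈ M := hle (Subgroup.mem_subgroupOf.2 hw)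
    rw [hYdef]
    exact ⟨⟨w, hrange_le hw⟩, h1, rfl⟩
  have hYne : ∃ z ∈ Subgroup.center X, z ∉ Y := by
    by_contra hcon
    push Not at hcon
    apply hM.1
    rw [← hYsub]
    exact Subgroup.subgroupOf_eq_top.2 hcon
  obtain ⟨z₀, hz₀, hz₀Y⟩ := hYne
  have hZb_le : (Subgroup.center X).map (QuotientGroup.mk' Y) ≤ Subgroup.center (X ⧸ Y) := by
    rintro _ ⟨z, hz, rfl⟩
    rw [Subgroup.mem_center_iff]
    intro q
    obtain ⟨y, rfl⟩ := QuotientGroup.mk_surjective q
    show (QuotientGroup.mk y : X ⧸ Y) * QuotientGroup.mk z = QuotientGroup.mk z * QuotientGroup.mk y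
    rw [← QuotientGroup.mk_mul, ← QuotientGroup.mk_mul, (Subgroup.mem_center_iff.1 hz) y]
  have hZb_ne : (Subgroup.center X).map (QuotientGroup.mk' Y) ≠ ⊥ := by
    intro h
    have h1 : (QuotientGroup.mk' Y) z₀ ∈ (Subgroup.center X).map (QuotientGroup.mk' Y) :=
      ⟨z₀, hz₀, rfl⟩
    rw [h, Subgroup.mem_bot] at h1
    exact hz₀Y ((QuotientGroup.eq_one_iff z₀).1 h1)
  have hZb_card : Nat.card ((Subgroup.center X).map (QuotientGroup.mk' Y)) = p := by
    have h1 : Nat.card ((Subgroup.center X).map (QuotientGroup.mk' Y)) ∣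
        Nat.card (Subgroup.center (X ⧸ Y)) := Subgroup.card_dvd_of_le hZb_le
    rw [hcard] at h1
    rcases (Nat.dvd_prime (Fact.out : p.Prime)).1 h1 with h | h
    · exact absurd (Subgroup.eq_bot_of_card_eq _ h) hZb_ne
    · exact h
  have hZb_eq : (Subgroup.center X).map (QuotientGroup.mk' Y) = Subgroup.center (X ⧸ Y) :=
    Subgroup.eq_of_le_of_card_ge hZb_le (by rw [hcard, hZb_card])
  have hxc : (QuotientGroup.mk' Y) x ∈ Subgroup.center (X ⧸ Y) := by
    rw [Subgroup.mem_center_iff]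
    intro q
    obtain ⟨y, rfl⟩ := QuotientGroup.mk_surjective q
    show (QuotientGroup.mk y : X ⧸ Y) * QuotientGroup.mk x = QuotientGroup.mk x * QuotientGroup.mk y
    rw [← QuotientGroup.mk_mul, ← QuotientGroup.mk_mul, eq_comm, QuotientGroup.eq_iff_div_mem]
    have h1 : x * y / (y * x) = f y := by simp [hf, div_eq_mul_inv, mul_assoc]
    rw [h1]
    exact hIY ⟨y, rfl⟩
  rw [← hZb_eq] at hxc
  obtain ⟨z, hz, hzx⟩ := hxc
  have h1 : z⁻¹ * x ∈ Y := by
    have h := hzx
    rw [QuotientGroup.mk'_apply, QuotientGroup.mk'_apply] at h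
    exact QuotientGroup.eq.1 h
  apply hx
  have h2 : x = z * (z⁻¹ * x) := by group
  rw [h2]
  exact Subgroup.mul_mem _ hz (hYle h1)
refine ⟨?_, ?_⟩
· rw [← hker, Subgroup.index_ker, hrange]
· ext z
  rw [← hrange]
  constructor
  · rintro ⟨y, rfl⟩
    exact ⟨y, rfl⟩
  · rintro ⟨y, rfl⟩
    exact ⟨y, rfl⟩

end Cfsg.Agent.S2907
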