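import Cfsg.Statements.S2908
import Cfsg.Agent.S0029
import Cfsg.Agent.Lead.PGroup
import Cfsg.Agent.Helper17.CharP

set_option autoImplicit false
open Cfsg

namespace Cfsg.Agent.S2908

open Cfsg.Agent.Helper17
open scoped commutatorElement

/-- Let P be a p-subgroup of a finite group, normalized by a p-subgroup A and by a subgroup B of order prime to p that commutes elementwise with A. If [P, B] ≤ [P, A], then B centralizes P. -/
theorem result {G : Type*} [Group G] [Finite G] {p : ℕ} [Fact p.Prime] (P A B : Subgroup G) (hP : IsPGroup p ↥P) (hA : IsPGroup p ↥A) (hB : ¬ p ∣ Nat.card ↥B) (hnA : A ≤ Subgroup.normalizer (P : Set G)) (hnB : B ≤ Subgroup.normalizer (P : Set G)) (hAB : ⁅A, B⁆ = ⊥) (hcomm : ⁅P, B⁆ ≤ ⁅P, A⁆) : ⁅P, B⁆ = ⊥ := by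
  classical
  have hpp : p.Prime := Fact.out
  have hab : ∀ a ∈ A, ∀ b ∈ B, a * b = b * a := by
    intro a ha b hb
    have h1 : ⁅a, b⁆ ∈ ⁅A, B⁆ := Subgroup.commutator_mem_commutator ha hb
    rw [hAB, Subgroup.mem_bot] at h1
    exact commutatorElement_eq_one_iff_mul_comm.mp h1
  have hRp : IsPGroup p ↥(A ⊔ P : Subgroup G) := IsPGroup.to_sup_of_normal_right' hA hP hnA
  have hBR : B ≤ Subgroup.normalizer ((A ⊔ P : Subgroup G) : Set G) := by
    apply le_normalizer_of_conj_mem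
    intro b hb k hk
    have h1 : (A ⊔ P).map (MulAut.conj b).toMonoidHom ≤ A ⊔ P := by
      rw [Subgroup.map_sup]
      apply sup_le_sup
      · rintro _ ⟨a, ha, rfl⟩
        have h2 : b * a * b⁻¹ = a := by rw [← hab a ha b hb, mul_inv_cancel_right]
        simp only [MulEquiv.coe_toMonoidHom, MulAut.conj_apply]
        rw [h2]; exact ha
      · rintro _ ⟨u, hu, rfl⟩
        simp only [MulEquiv.coe_toMonoidHom, MulAut.conj_apply]
        exact (Subgroup.mem_normalizer_iff.mp (hnB hb) u).mp hu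
    exact h1 ⟨k, hk, by simp⟩
  have hcop : (Nat.card ↥B).Coprime (Nat.card ↥(frattini ↥(A ⊔ P : Subgroup G))) := by
    obtain ⟨n, hn⟩ := IsPGroup.iff_card.mp hRp
    have h1 : Nat.card ↥(frattini ↥(A ⊔ P : Subgroup G)) ∣ p ^ n := by
      rw [← hn]; exact Subgroup.card_subgroup_dvd_card _
    obtain ⟨m, -, hm⟩ := (Nat.dvd_prime_pow hpp).mp h1
    rw [hm]
    exact Nat.Coprime.pow_right m ((Nat.Prime.coprime_iff_not_dvd hpp).mpr hB).symm
  have hF'n : ∀ k ∈ (A ⊔ P : Subgroup G),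
      ∀ f ∈ (commutator ↥(A ⊔ P : Subgroup G)).map (A ⊔ P : Subgroup G).subtype,
      k * f * k⁻¹ ∈ (commutator ↥(A ⊔ P : Subgroup G)).map (A ⊔ P : Subgroup G).subtype := by
    rintro k hk _ ⟨f₀, hf₀, rfl⟩
    exact ⟨⟨k, hk⟩ * f₀ * ⟨k, hk⟩⁻¹,
      (inferInstance : (commutator ↥(A ⊔ P : Subgroup G)).Normal).conj_mem f₀ hf₀ _, rfl⟩
  have hPA : ⁅P, A⁆ ≤ (commutator ↥(A ⊔ P : Subgroup G)).map (A ⊔ P : Subgroup G).subtype := by
    rw [Subgroup.commutator_le]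
    intro u hu a ha
    refine ⟨⁅(⟨u, Subgroup.mem_sup_right hu⟩ : ↥(A ⊔ P : Subgroup G)),
      ⟨a, Subgroup.mem_sup_left ha⟩⁆, ?_, rfl⟩
    rw [commutator_def]
    exact Subgroup.commutator_mem_commutator (Subgroup.mem_top _) (Subgroup.mem_top _)
  let T : Subgroup G :=
    { carrier := {k | k ∈ (A ⊔ P : Subgroup G) ∧ ∀ b ∈ B, b * k * b⁻¹ * k⁻¹ ∈
        (commutator ↥(A ⊔ P : Subgroup G)).map (A ⊔ P : Subgroup G).subtype}
      one_mem' := ⟨Subgroup.one_mem _, fun b _ => by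
        have e : b * 1 * b⁻¹ * (1 : G)⁻¹ = 1 := by group
        rw [e]; exact Subgroup.one_mem _⟩
      mul_mem' := by
        rintro k₁ k₂ ⟨h1, h1'⟩ ⟨h2, h2'⟩
        refine ⟨Subgroup.mul_mem _ h1 h2, fun b hb => ?_⟩
        have e : b * (k₁ * k₂) * b⁻¹ * (k₁ * k₂)⁻¹ =
            (b * k₁ * b⁻¹ * k₁⁻¹) * (k₁ * (b * k₂ * b⁻¹ * k₂⁻¹) * k₁⁻¹) := by group
        rw [e]
        exact Subgroup.mul_mem _ (h1' b hb) (hF'n k₁ h1 _ (h2' b hb))
      inv_mem' := by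
        rintro k ⟨h1, h1'⟩
        refine ⟨Subgroup.inv_mem _ h1, fun b hb => ?_⟩
        have e : b * k⁻¹ * b⁻¹ * k⁻¹⁻¹ = k⁻¹ * (b * k * b⁻¹ * k⁻¹)⁻¹ * k⁻¹⁻¹ := by group
        rw [e]
        exact hF'n k⁻¹ (Subgroup.inv_mem _ h1) _ (Subgroup.inv_mem _ (h1' b hb)) }
  have hAT : A ≤ T := by
    intro a ha
    refine ⟨Subgroup.mem_sup_left ha, fun b hb => ?_⟩
    have e : b * a * b⁻¹ * a⁻¹ = 1 := by rw [← hab a ha b hb]; group
    rw [e]; exact Subgroup.one_mem _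
  have hPT : P ≤ T := by
    intro u hu
    refine ⟨Subgroup.mem_sup_right hu, fun b hb => ?_⟩
    apply hPA
    apply hcomm
    rw [Subgroup.commutator_comm]
    have h1 : ⁅b, u⁆ ∈ ⁅B, P⁆ := Subgroup.commutator_mem_commutator hb hu
    rwa [commutatorElement_def] at h1
  have hRT : A ⊔ P ≤ T := sup_le hAT hPT
  have hcent := Cfsg.Agent.S0029.result B (A ⊔ P) hBR hcop (by
    intro b hb k hk
    exact Subgroup.map_mono (Cfsg.Agent.Lead.commutator_le_frattini hRp) ((hRT hk).2 b hb))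
  rw [eq_bot_iff, Subgroup.commutator_le]
  intro u hu b hb
  rw [Subgroup.mem_bot, commutatorElement_eq_one_iff_mul_comm]
  exact Subgroup.mem_centralizer_iff.mp (hcent hb) u (Subgroup.mem_sup_right hu)

end Cfsg.Agent.S2908
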