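import Cfsg.Statements.S2909
import Cfsg.Agent.S0028
import Cfsg.Agent.S2908
import Cfsg.Agent.Helper1.GenCent
import Cfsg.Agent.Helper17.Basic
import Cfsg.Agent.Helper17.CharP
import Cfsg.Agent.Helper17.Comm3

set_option autoImplicit false
open Cfsg

namespace Cfsg.Agent.S2909

open Cfsg.Agent.Helper17
open scoped commutatorElement

/-- Let p be a prime, E a normal p-subgroup of the finite group G, and U a non-cyclic elementary abelian p-subgroup of G such that either C_E(U) = C_E(u) for every nontrivial u ∈ U, or [E, U] = [E, ⟨u⟩] for every nontrivial u ∈ U. If R is a subgroup of order prime to p normalized by U, then [R, U] centralizes E. -/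
theorem result {G : Type*} [Group G] [Finite G] {p : ℕ} [Fact p.Prime] (E : Subgroup G) [E.Normal] (hE : IsPGroup p ↥E) (U : Subgroup G) (hU : Cfsg.IsElementaryAbelian p U) (hnc : ¬ IsCyclic ↥U) (hcond : (∀ u ∈ U, u ≠ 1 → E ⊓ Subgroup.centralizer (U : Set G) = E ⊓ Subgroup.centralizer ({u} : Set G)) ∨ (∀ u ∈ U, u ≠ 1 → ⁅E, U⁆ = ⁅E, Subgroup.zpowers u⁆)) (R : Subgroup G) (hR : ¬ p ∣ Nat.card ↥R) (hRU : U ≤ Subgroup.normalizer (R : Set G)) : ⁅R, U⁆ ≤ Subgroup.centralizer (E : Set G) := by
  classical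
  have hpp : p.Prime := Fact.out
  have hEn : E.Normal := inferInstance
  obtain ⟨hUc, hUp⟩ := hU
  have hUcomm : ∀ a ∈ U, ∀ b ∈ U, a * b = b * a :=
    fun a ha b hb => comm_of_isMulCommutative U hUc ha hb
  have hUpg : IsPGroup p ↥U := by
    rintro ⟨x, hx⟩
    exact ⟨1, by apply Subtype.ext; simp [hUp x hx]⟩
  have hcopUR : (Nat.card ↥U).Coprime (Nat.card ↥R) := by
    obtain ⟨n, hn⟩ := IsPGroup.iff_card.mp hUpg
    rw [hn]; exact Nat.Coprime.pow_left n ((Nat.Prime.coprime_iff_not_dvd hpp).mpr hR)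
  have hgen := Cfsg.Agent.Helper1.centGen_aux _ G U R rfl hUcomm hnc hRU hcopUR
  have hnE : ∀ X : Subgroup G, X ≤ Subgroup.normalizer (E : Set G) := fun X => by
    rw [Subgroup.normalizer_eq_top]; exact le_top
  have hu_claim : ∀ u ∈ U, u ≠ 1 →
      ⁅R ⊓ Subgroup.centralizer ({u} : Set G), U⁆ ≤ Subgroup.centralizer (E : Set G) := by
    intro u hu hu1
    have hcu : ∀ x, x ∈ Subgroup.centralizer ({u} : Set G) ↔ u * x = x * u := by
      intro x
      rw [Subgroup.mem_centralizer_iff]
      constructor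
      · intro h; exact h u rfl
      · intro h y hy; rw [Set.mem_singleton_iff] at hy; rw [hy]; exact h
    have hURu : U ≤ Subgroup.normalizer
        ((R ⊓ Subgroup.centralizer ({u} : Set G) : Subgroup G) : Set G) := by
      apply le_normalizer_of_conj_mem
      intro v hv x hx
      have hvc : v ∈ Subgroup.centralizer ({u} : Set G) := (hcu v).mpr (hUcomm u hu v hv)
      exact ⟨(Subgroup.mem_normalizer_iff.mp (hRU hv) x).mp hx.1,
        Subgroup.mul_mem _ (Subgroup.mul_mem _ hvc hx.2) (Subgroup.inv_mem _ hvc)⟩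
    have hBle : ⁅R ⊓ Subgroup.centralizer ({u} : Set G), U⁆ ≤
        R ⊓ Subgroup.centralizer ({u} : Set G) :=
      Cfsg.Agent.Helper1.commutator_le_of_le_normalizer _ U hURu
    have hBcard : ¬ p ∣ Nat.card ↥⁅R ⊓ Subgroup.centralizer ({u} : Set G), U⁆ := fun h =>
      hR (h.trans ((Subgroup.card_dvd_of_le hBle).trans (Subgroup.card_dvd_of_le inf_le_left)))
    have hBu : ∀ b ∈ ⁅R ⊓ Subgroup.centralizer ({u} : Set G), U⁆, u * b = b * u :=
      fun b hb => (hcu b).mp (hBle hb).2
    have hup : IsPGroup p ↥(Subgroup.zpowers u) :=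
      IsPGroup.to_le hUpg (Subgroup.zpowers_le.mpr hu)
    rcases hcond with h | h
    · have hE0 := h u hu hu1
      have h1 : ⁅E ⊓ Subgroup.centralizer (U : Set G), U⁆ = ⊥ := by
        rw [eq_bot_iff, Subgroup.commutator_le]
        intro e he v hv
        rw [Subgroup.mem_bot, commutatorElement_eq_one_iff_mul_comm]
        exact (Subgroup.mem_centralizer_iff.mp he.2 v hv).symm
      have h2 : ⁅R ⊓ Subgroup.centralizer ({u} : Set G), E ⊓ Subgroup.centralizer (U : Set G)⁆ ≤
          E ⊓ Subgroup.centralizer (U : Set G) := by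
        rw [hE0, Subgroup.commutator_comm]
        apply Cfsg.Agent.Helper1.commutator_le_of_le_normalizer
        apply le_normalizer_of_conj_mem
        intro r hr x hx
        exact ⟨hEn.conj_mem x hx.1 r,
          Subgroup.mul_mem _ (Subgroup.mul_mem _ hr.2 hx.2) (Subgroup.inv_mem _ hr.2)⟩
      have h3 : ⁅⁅R ⊓ Subgroup.centralizer ({u} : Set G),
          E ⊓ Subgroup.centralizer (U : Set G)⁆, U⁆ = ⊥ :=
        eq_bot_iff.mpr ((Subgroup.commutator_mono h2 le_rfl).trans h1.le)
      have h4 : ⁅⁅E ⊓ Subgroup.centralizer (U : Set G), U⁆,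
          R ⊓ Subgroup.centralizer ({u} : Set G)⁆ = ⊥ := by
        rw [h1]; exact Subgroup.commutator_bot_left _
      have h5 : ⁅⁅U, R ⊓ Subgroup.centralizer ({u} : Set G)⁆,
          E ⊓ Subgroup.centralizer (U : Set G)⁆ = ⊥ :=
        Subgroup.commutator_commutator_eq_bot_of_rotate h3 h4
      apply Cfsg.Agent.S0028.result p (Subgroup.zpowers u) _ E hup
        ((Nat.Prime.coprime_iff_not_dvd hpp).mpr hBcard).symm hE
      · rw [Subgroup.zpowers_le, Subgroup.mem_centralizer_iff]
        intro b hb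
        exact (hBu b hb).symm
      · exact hnE _
      · exact hnE _
      · intro e he
        have he' : e ∈ E ⊓ Subgroup.centralizer (U : Set G) := by
          rw [hE0]
          exact ⟨he.1, (hcu e).mpr
            (Subgroup.mem_centralizer_iff.mp he.2 u (Subgroup.mem_zpowers u))⟩
        rw [Subgroup.mem_centralizer_iff]
        intro b hb
        have hb' : b ∈ ⁅U, R ⊓ Subgroup.centralizer ({u} : Set G)⁆ := by
          rw [Subgroup.commutator_comm]; exact hb
        have h6 := Subgroup.commutator_mem_commutator hb' he'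
        rw [h5, Subgroup.mem_bot, commutatorElement_eq_one_iff_mul_comm] at h6
        exact h6
    · have hE1 := h u hu hu1
      have hN_U : U ≤ Subgroup.normalizer ((⁅E, U⁆ : Subgroup G) : Set G) :=
        Cfsg.Agent.Helper1.le_normalizer_commutator E U U (hnE U) Subgroup.le_normalizer
      have hN_E : E ≤ Subgroup.normalizer ((⁅E, U⁆ : Subgroup G) : Set G) :=
        le_normalizer_commutator_self_left E U
      have hN_R : R ⊓ Subgroup.centralizer ({u} : Set G) ≤
          Subgroup.normalizer ((⁅E, U⁆ : Subgroup G) : Set G) := by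
        rw [hE1]
        apply Cfsg.Agent.Helper1.le_normalizer_commutator E (Subgroup.zpowers u) _ (hnE _)
        intro r hr
        apply Subgroup.centralizer_le_normalizer
        rw [Subgroup.mem_centralizer_iff]
        intro y hy
        obtain ⟨k, rfl⟩ := Subgroup.mem_zpowers_iff.mp hy
        have h0 : Commute u r := (hcu r).mp hr.2
        exact (h0.zpow_left k).eq
      have h1 : ⁅⁅R ⊓ Subgroup.centralizer ({u} : Set G), E⁆, U⁆ ≤ ⁅E, U⁆ :=
        Subgroup.commutator_mono (Subgroup.commutator_le_right _ E) le_rfl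
      have h2 : ⁅⁅E, U⁆, R ⊓ Subgroup.centralizer ({u} : Set G)⁆ ≤ ⁅E, U⁆ :=
        Cfsg.Agent.Helper1.commutator_le_of_le_normalizer _ _ hN_R
      have h3 := three_subgroups_rel ⁅E, U⁆ U (R ⊓ Subgroup.centralizer ({u} : Set G)) E
        hN_U hN_R hN_E h1 h2
      have h4 : ⁅E, ⁅R ⊓ Subgroup.centralizer ({u} : Set G), U⁆⁆ ≤ ⁅E, Subgroup.zpowers u⁆ := by
        calc ⁅E, ⁅R ⊓ Subgroup.centralizer ({u} : Set G), U⁆⁆
            = ⁅⁅U, R ⊓ Subgroup.centralizer ({u} : Set G)⁆, E⁆ := by
              rw [Subgroup.commutator_comm E ⁅R ⊓ Subgroup.centralizer ({u} : Set G), U⁆,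
                Subgroup.commutator_comm (R ⊓ Subgroup.centralizer ({u} : Set G)) U]
          _ ≤ ⁅E, U⁆ := h3
          _ = ⁅E, Subgroup.zpowers u⁆ := hE1
      have h5 := Cfsg.Agent.S2908.result E (Subgroup.zpowers u)
        ⁅R ⊓ Subgroup.centralizer ({u} : Set G), U⁆ hE hup hBcard (hnE _) (hnE _) (by
          rw [eq_bot_iff, Subgroup.commutator_le]
          intro y hy b hb
          obtain ⟨k, rfl⟩ := Subgroup.mem_zpowers_iff.mp hy
          rw [Subgroup.mem_bot, commutatorElement_eq_one_iff_mul_comm]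
          have h0 : Commute u b := hBu b hb
          exact (h0.zpow_left k).eq) h4
      intro b hb
      rw [Subgroup.mem_centralizer_iff]
      intro e he
      have h6 := Subgroup.commutator_mem_commutator he hb
      rw [h5, Subgroup.mem_bot, commutatorElement_eq_one_iff_mul_comm] at h6
      exact h6
  have hTle : Cfsg.Agent.Helper1.centGen U R ≤
      (Subgroup.centralizer ((U.map (QuotientGroup.mk' (Subgroup.centralizer (E : Set G))) :
        Subgroup (G ⧸ Subgroup.centralizer (E : Set G))) :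
        Set (G ⧸ Subgroup.centralizer (E : Set G)))).comap
        (QuotientGroup.mk' (Subgroup.centralizer (E : Set G))) := by
    unfold Cfsg.Agent.Helper1.centGen
    refine iSup₂_le ?_
    rintro u ⟨hu, hu1⟩ r hr
    rw [Subgroup.mem_comap, Subgroup.mem_centralizer_iff]
    rintro _ ⟨v, hv, rfl⟩
    have h1 : ⁅r, v⁆ ∈ Subgroup.centralizer (E : Set G) :=
      hu_claim u hu hu1 (Subgroup.commutator_mem_commutator hr hv)
    have h2 : (QuotientGroup.mk' (Subgroup.centralizer (E : Set G))) ⁅r, v⁆ = 1 :=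
      (QuotientGroup.eq_one_iff _).mpr h1
    rw [map_commutatorElement, commutatorElement_eq_one_iff_mul_comm] at h2
    exact h2.symm
  rw [Subgroup.commutator_le]
  intro r hr v hv
  have h1 := hTle (hgen hr)
  rw [Subgroup.mem_comap, Subgroup.mem_centralizer_iff] at h1
  have h2 := h1 _ ⟨v, hv, rfl⟩
  have h3 : (QuotientGroup.mk' (Subgroup.centralizer (E : Set G))) ⁅r, v⁆ = 1 := by
    rw [map_commutatorElement, commutatorElement_eq_one_iff_mul_comm]
    exact h2.symm
  exact (QuotientGroup.eq_one_iff _).mp h3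

end Cfsg.Agent.S2909
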