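import Cfsg.Statements.S2910
import Cfsg.Agent.Lead.MinimalPair

set_option autoImplicit false
open Cfsg

namespace Cfsg.Agent.S2910

/-- Let p be an odd prime dividing the order of the finite group G and P a Sylow p-subgroup of G. If Ω₁(P) (generated by the elements of order dividing p) is contained in the centre of G, then G has a normal p-complement. In particular, if G is quasisimple then Ω₁(P) is not central in G. -/
theorem result {G : Type*} [Group G] [Finite G] {p : ℕ} [Fact p.Prime] (hp : p ≠ 2) (hdiv : p ∣ Nat.card G) (P : Sylow p G) (hZ : Cfsg.omegaOne p (P : Subgroup G) ≤ Subgroup.center G) : Cfsg.HasNormalPComplement p G ∧ ¬ Cfsg.IsQuasisimple G := by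
  have hnpc : Cfsg.HasNormalPComplement p G := by
    by_contra hnpc
    have hF : ¬ Cfsg.Agent.Lead.FrobHyp p G := fun hF => hnpc (Cfsg.Agent.Lead.frobHyp_iff.mp hF)
    obtain ⟨X, g, hXP, hgN, hcop, hgC, hsmall⟩ := Cfsg.Agent.Lead.exists_small_exponent_pair P hF
    apply hgC
    rw [Subgroup.mem_centralizer_iff]
    intro x hx
    have hxp : x ^ p = 1 := by
      rcases hsmall x hx with h1 | ⟨h2, -⟩
      · exact h1
      · exact absurd h2 hp
    have hxZ : x ∈ Subgroup.center G := hZ (Subgroup.subset_closure ⟨hXP hx, hxp⟩)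
    exact (Subgroup.mem_center_iff.mp hxZ g).symm
  refine ⟨hnpc, ?_⟩
  rintro ⟨hperf, -⟩
  obtain ⟨N, hN, hc⟩ := (Cfsg.Agent.Lead.hasNormalPComplement_iff P).mp hnpc
  have hcard : Nat.card (G ⧸ N) = Nat.card (P : Subgroup G) := by
    rw [← Subgroup.index_eq_card]; exact hc.symm.index_eq_card
  have hPG : IsPGroup p (G ⧸ N) := by
    obtain ⟨k, hk⟩ := P.2.exists_card_eq
    exact IsPGroup.of_card (hcard.trans hk)
  have hnt : Nontrivial (G ⧸ N) := by
    rw [← Finite.one_lt_card_iff_nontrivial, hcard]
    have : Nontrivial (P : Subgroup G) :=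
      (Subgroup.nontrivial_iff_ne_bot _).mpr (P.ne_bot_of_dvd_card hdiv)
    exact Finite.one_lt_card
  have : Group.IsPerfect (G ⧸ N) := inferInstance
  exact Group.IsPerfect.not_isNilpotent (G ⧸ N) hPG.isNilpotent

end Cfsg.Agent.S2910
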