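import Cfsg.Statements.S2911
import Cfsg.Agent.Helper18.Transfer
import Mathlib

set_option autoImplicit false
open Cfsg

namespace Cfsg.Agent.S2911

/-- A finite group whose Sylow 2-subgroups are isomorphic to the direct product of a group of order 2 and a dihedral group of order 8 has a subgroup of index two. -/
theorem result {G : Type*} [Group G] [Finite G] (S : Sylow 2 G) (hS : Nonempty (↥(S : Subgroup G) ≃* Multiplicative (ZMod 2) × DihedralGroup 4)) : ∃ H : Subgroup G, H.index = 2 := by
  classical
  obtain ⟨e⟩ := hS
  let ϕ : (S : Subgroup G) →* Multiplicative (ZMod 2) :=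
    (MonoidHom.fst _ _).comp e.toMonoidHom
  have hϕ : ∀ s, ϕ s = (e s).1 := fun s => rfl
  let z : (S : Subgroup G) := e.symm (Multiplicative.ofAdd 1, 1)
  have hez : e z = (Multiplicative.ofAdd 1, 1) := e.apply_symm_apply _
  have hz2 : z * z = 1 := by
    apply e.injective
    rw [e.map_mul, hez, e.map_one]
    decide
  have hzc : ∀ s : (S : Subgroup G), s * z = z * s := by
    intro s
    apply e.injective
    rw [map_mul, map_mul, hez]
    generalize e s = w
    revert w
    decide
  have hodd : Odd (S : Subgroup G).index := by
    rw [← Nat.not_even_iff_odd, even_iff_two_dvd]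
    exact S.not_dvd_index
  have hdec1 : ∀ u : Multiplicative (ZMod 2) × DihedralGroup 4,
      (∀ y, u * y = y * u) → u.1 = 1 → ∃ v, u = v * v := by decide
  have hdec2 : ∀ y : Multiplicative (ZMod 2) × DihedralGroup 4,
      y * y ≠ (Multiplicative.ofAdd 1, 1) := by decide
  have hV : MonoidHom.transfer ϕ (z : G) ≠ 1 := by
    apply Cfsg.Agent.Helper18.transfer_central_involution_ne_one (S : Subgroup G) S.isPGroup'
      hodd ϕ z z.2
    · exact congrArg Subtype.val hz2
    · intro s hs
      exact congrArg Subtype.val (hzc ⟨s, hs⟩)
    · intro g hg h hϕ1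
      let c : (S : Subgroup G) →* (S : Subgroup G) :=
        { toFun := fun s => ⟨g⁻¹ * s * g, hg s s.2⟩
          map_one' := by ext; simp
          map_mul' := by intro a b; ext; simp [mul_assoc] }
      have hcinj : Function.Injective c := by
        intro a b hab
        have := congrArg Subtype.val hab
        simp only [c, MonoidHom.coe_mk, OneHom.coe_mk] at this
        ext
        simpa using this
      have hcsurj : Function.Surjective c := Finite.injective_iff_surjective.1 hcinj
      have hw : c z = ⟨g⁻¹ * z * g, h⟩ := rfl
      rw [← hw] at hϕ1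
      have hwc : ∀ s, c z * s = s * c z := by
        intro s
        obtain ⟨s', rfl⟩ := hcsurj s
        rw [← map_mul, ← map_mul, hzc]
      have hewc : ∀ y, e (c z) * y = y * e (c z) := by
        intro y
        have := congrArg e (hwc (e.symm y))
        simpa using this
      obtain ⟨v, hv⟩ := hdec1 (e (c z)) hewc (by rw [← hϕ]; exact hϕ1)
      obtain ⟨t', ht'⟩ := hcsurj (e.symm v)
      have h1 : c z = c (t' * t') := by
        apply e.injective
        rw [map_mul, ht', map_mul, e.apply_symm_apply, hv]
      have h2 := hcinj h1
      apply hdec2 (e t')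
      rw [← map_mul, ← h2, hez]
  have hidx : (MonoidHom.transfer ϕ).ker.index = 2 := by
    rw [Subgroup.index_ker]
    have hcard : Nat.card (Multiplicative (ZMod 2)) = 2 := by
      rw [Nat.card_eq_fintype_card]; rfl
    have hne : (MonoidHom.transfer ϕ).range ≠ ⊥ := by
      intro hb
      apply hV
      have hm : MonoidHom.transfer ϕ (z : G) ∈ (MonoidHom.transfer ϕ).range := ⟨_, rfl⟩
      rw [hb] at hm
      exact hm
    have h1 : Nat.card (MonoidHom.transfer ϕ).range ∣ 2 := by
      have := Subgroup.card_subgroup_dvd_card (MonoidHom.transfer ϕ).range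
      rwa [hcard] at this
    have h2 : Nat.card (MonoidHom.transfer ϕ).range ≠ 1 := by
      intro h
      exact hne (Subgroup.eq_bot_of_card_eq _ h)
    rcases (Nat.dvd_prime Nat.prime_two).1 h1 with h | h
    · exact absurd h h2
    · exact h
  exact ⟨_, hidx⟩

end Cfsg.Agent.S2911
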