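import Cfsg.Statements.S2922
import Cfsg.Agent.Helper17.AxB
import Cfsg.Agent.Helper17.FStarP

set_option autoImplicit false
open Cfsg

namespace Cfsg.Agent.S2922

open Cfsg.Agent.Helper17

/-- Let p be a prime, X a finite group, B a p-subgroup of X and C a normal subgroup of B. If N_X(C) has characteristic p (its generalized Fitting subgroup is O_p(N_X(C))), then N_X(B) and C_X(B) have characteristic p. -/
theorem result {X : Type*} [Group X] [Finite X] {p : ℕ} [Fact p.Prime] (B C : Subgroup X) (hB : IsPGroup p ↥B) (hCB : C ≤ B) (hCn : (C.subgroupOf B).Normal) (hC : Cfsg.generalizedFittingSubgroup ↥(Subgroup.normalizer (C : Set X)) = Cfsg.pCore p ↥(Subgroup.normalizer (C : Set X))) : Cfsg.generalizedFittingSubgroup ↥(Subgroup.normalizer (B : Set X)) = Cfsg.pCore p ↥(Subgroup.normalizer (B : Set X)) ∧ Cfsg.generalizedFittingSubgroup ↥(Subgroup.centralizer (B : Set X)) = Cfsg.pCore p ↥(Subgroup.centralizer (B : Set X)) := by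
  have hM : CharPA p (Subgroup.normalizer (C : Set X)) :=
    (charPA_iff _).mpr (charP_of_genFitting_eq_pCore hC)
  have hBM : B ≤ Subgroup.normalizer (C : Set X) :=
    (Subgroup.normal_subgroupOf_iff_le_normalizer hCB).mp hCn
  have hY₀ := charPA_local hM hBM hB
  have hNB : CharPA p (Subgroup.normalizer (B : Set X)) := by
    apply charPA_of_centralizer_le hY₀ inf_le_right
    intro x hx
    obtain ⟨hxN, hxC⟩ := Subgroup.mem_inf.mp hx
    refine Subgroup.mem_inf.mpr ⟨?_, hxN⟩
    have hBpc : B ≤ pc p (Subgroup.normalizer (B : Set X)) :=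
      le_pc Subgroup.le_normalizer hB le_rfl
    apply Subgroup.centralizer_le_normalizer
    exact Subgroup.centralizer_le (SetLike.coe_subset_coe.mpr (hCB.trans hBpc)) hxC
  have hCB' : CharPA p (Subgroup.centralizer (B : Set X)) := by
    apply charPA_of_normal hNB (Subgroup.centralizer_le_normalizer _)
    apply le_normalizer_of_conj_mem
    intro n hn x hx
    apply conj_mem_centralizer _ hx
    intro r hr
    have := (Subgroup.mem_normalizer_iff.mp (Subgroup.inv_mem _ hn) r).mp hr
    simpa using this
  exact ⟨genFitting_eq_pCore_of_charP ((charPA_iff _).mp hNB),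
    genFitting_eq_pCore_of_charP ((charPA_iff _).mp hCB')⟩

end Cfsg.Agent.S2922
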