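import Cfsg.Statements.S2925
import Cfsg.Agent.Helper9.Layer
import Cfsg.Agent.Helper17.Basic
import Cfsg.Agent.Helper17.RelSylow
import Cfsg.Agent.Helper17.SylIn

set_option autoImplicit false
open Cfsg

namespace Cfsg.Agent.S2925

open Cfsg.Agent.Helper17
open scoped commutatorElement

/-- Let K be a component of the finite group X and T a Sylow 2-subgroup of X. If some abelian normal subgroup Y of T does not normalize K, then K ⧸ Z(K) has abelian Sylow 2-subgroups. -/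
theorem result {X : Type*} [Group X] [Finite X] (K : Subgroup X) (hK : Cfsg.IsComponent K) (T : Sylow 2 X) (Y : Subgroup X) (hYT : Y ≤ (T : Subgroup X)) (hYn : (Y.subgroupOf (T : Subgroup X)).Normal) (hYab : IsMulCommutative ↥Y) (hnot : ¬ Y ≤ Subgroup.normalizer (K : Set X)) (P : Sylow 2 (↥K ⧸ Subgroup.center ↥K)) : IsMulCommutative ↥(P : Subgroup (↥K ⧸ Subgroup.center ↥K)) := by
  classical
  have hY : ∃ y ∈ Y, y ∉ Subgroup.normalizer (K : Set X) := by
    by_contra hcon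
    push Not at hcon
    exact hnot (fun y hy => hcon y hy)
  obtain ⟨y, hyY, hyN⟩ := hY
  have hK' : Cfsg.IsComponent (K.map (MulAut.conj y).toMonoidHom) :=
    Cfsg.Agent.Helper9.component_map_equiv (MulAut.conj y) K hK
  have hne : K ≠ K.map (MulAut.conj y).toMonoidHom :=
    fun h => hyN (mem_normalizer_of_map_conj_eq K h.symm)
  have hcomm := Cfsg.Agent.Helper9.components_commute hK hK' hne
  have hcomm' : ∀ a ∈ K, ∀ b ∈ K.map (MulAut.conj y).toMonoidHom, a * b = b * a := by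
    intro a ha b hb
    have h1 := Subgroup.commutator_mem_commutator ha hb
    rw [hcomm, Subgroup.mem_bot] at h1
    exact commutatorElement_eq_one_iff_mul_comm.mp h1
  have hYc : ∀ a ∈ Y, ∀ b ∈ Y, a * b = b * a :=
    fun a ha b hb => comm_of_isMulCommutative Y hYab ha hb
  have hYn' : ∀ t ∈ (T : Subgroup X), t * y * t⁻¹ ∈ Y := by
    intro t ht
    have h1 := hYn.conj_mem ⟨y, hYT hyY⟩ (Subgroup.mem_subgroupOf.mpr hyY) ⟨t, ht⟩
    exact Subgroup.mem_subgroupOf.mp h1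
  have hcY : ∀ t ∈ (T : Subgroup X), t * (y * t⁻¹ * y⁻¹) ∈ Y := by
    intro t ht
    have h1 := Y.mul_mem (hYn' t ht) (Y.inv_mem hyY)
    have e : t * (y * t⁻¹ * y⁻¹) = t * y * t⁻¹ * y⁻¹ := by group
    rw [e]; exact h1
  have key : ∀ s ∈ (T : Subgroup X) ⊓ K, ∀ t ∈ (T : Subgroup X) ⊓ K, ∀ k ∈ K,
      (s⁻¹ * t⁻¹ * s * t) * k = k * (s⁻¹ * t⁻¹ * s * t) := by
    intro s hs t ht k hk
    have hs' : y * s⁻¹ * y⁻¹ ∈ K.map (MulAut.conj y).toMonoidHom :=
      conj_mem_map_conj K y (K.inv_mem hs.2)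
    have ht' : y * t⁻¹ * y⁻¹ ∈ K.map (MulAut.conj y).toMonoidHom :=
      conj_mem_map_conj K y (K.inv_mem ht.2)
    have hsY := hcY s hs.1
    have htY := hcY t ht.1
    obtain ⟨s', hs'def⟩ : ∃ s', s' = y * s⁻¹ * y⁻¹ := ⟨_, rfl⟩
    obtain ⟨t', ht'def⟩ : ∃ t', t' = y * t⁻¹ * y⁻¹ := ⟨_, rfl⟩
    rw [← hs'def] at hs' hsY
    rw [← ht'def] at ht' htY
    have h1 := hYc _ hsY _ htY
    have e1 : s * t * (s' * t') = t * s * (t' * s') := by
      calc s * t * (s' * t') = s * (t * s') * t' := by simp only [mul_assoc]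
        _ = s * (s' * t) * t' := by rw [hcomm' t ht.2 s' hs']
        _ = s * s' * (t * t') := by simp only [mul_assoc]
        _ = t * t' * (s * s') := h1
        _ = t * (t' * s) * s' := by simp only [mul_assoc]
        _ = t * (s * t') * s' := by rw [← hcomm' s hs.2 t' ht']
        _ = t * s * (t' * s') := by simp only [mul_assoc]
    have hz : s⁻¹ * t⁻¹ * s * t = t' * s' * (s' * t')⁻¹ := by
      calc s⁻¹ * t⁻¹ * s * t = (t * s)⁻¹ * (s * t * (s' * t')) * (s' * t')⁻¹ := by group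
        _ = (t * s)⁻¹ * (t * s * (t' * s')) * (s' * t')⁻¹ := by rw [e1]
        _ = t' * s' * (s' * t')⁻¹ := by group
    have hzK' : s⁻¹ * t⁻¹ * s * t ∈ K.map (MulAut.conj y).toMonoidHom := by
      rw [hz]
      exact Subgroup.mul_mem _ (Subgroup.mul_mem _ ht' hs')
        (Subgroup.inv_mem _ (Subgroup.mul_mem _ hs' ht'))
    exact (hcomm' k hk _ hzK').symm
  obtain ⟨P₀, hP₀⟩ := sylIn_inf_of_subnormal T hK.1
  have hcenter : ∀ s ∈ (P₀ : Subgroup ↥K), ∀ t ∈ (P₀ : Subgroup ↥K),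
      s⁻¹ * t⁻¹ * s * t ∈ Subgroup.center ↥K := by
    intro s hs t ht
    rw [Subgroup.mem_center_iff]
    intro k
    apply Subtype.ext
    have hs' : (s : X) ∈ (T : Subgroup X) ⊓ K := by rw [← hP₀]; exact ⟨s, hs, rfl⟩
    have ht' : (t : X) ∈ (T : Subgroup X) ⊓ K := by rw [← hP₀]; exact ⟨t, ht, rfl⟩
    exact (key _ hs' _ ht' (k : X) k.2).symm
  have hQab : ∀ a ∈ ((P₀.mapSurjective (QuotientGroup.mk'_surjective (Subgroup.center ↥K)) :
      Sylow 2 (↥K ⧸ Subgroup.center ↥K)) : Subgroup (↥K ⧸ Subgroup.center ↥K)),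
      ∀ b ∈ ((P₀.mapSurjective (QuotientGroup.mk'_surjective (Subgroup.center ↥K)) :
      Sylow 2 (↥K ⧸ Subgroup.center ↥K)) : Subgroup (↥K ⧸ Subgroup.center ↥K)), a * b = b * a := by
    intro a ha b hb
    rw [Sylow.coe_mapSurjective] at ha hb
    obtain ⟨s, hs, rfl⟩ := ha
    obtain ⟨t, ht, rfl⟩ := hb
    rw [QuotientGroup.mk'_apply, QuotientGroup.mk'_apply, ← QuotientGroup.mk_mul,
      ← QuotientGroup.mk_mul]
    refine (QuotientGroup.eq.mpr ?_).symm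
    have e : (t * s)⁻¹ * (s * t) = s⁻¹ * t⁻¹ * s * t := by group
    rw [e]
    exact hcenter s hs t ht
  obtain ⟨g, hg⟩ := MulAction.exists_smul_eq (↥K ⧸ Subgroup.center ↥K)
    (P₀.mapSurjective (QuotientGroup.mk'_surjective (Subgroup.center ↥K))) P
  have hPab : ∀ a ∈ (P : Subgroup (↥K ⧸ Subgroup.center ↥K)),
      ∀ b ∈ (P : Subgroup (↥K ⧸ Subgroup.center ↥K)), a * b = b * a := by
    rw [← hg, sylow_smul_coe]
    rintro _ ⟨a₀, ha₀, rfl⟩ _ ⟨b₀, hb₀, rfl⟩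
    simp only [MulEquiv.coe_toMonoidHom, MulAut.conj_apply]
    have h1 := hQab a₀ ha₀ b₀ hb₀
    calc g * a₀ * g⁻¹ * (g * b₀ * g⁻¹) = g * (a₀ * b₀) * g⁻¹ := by group
      _ = g * (b₀ * a₀) * g⁻¹ := by rw [h1]
      _ = g * b₀ * g⁻¹ * (g * a₀ * g⁻¹) := by group
  exact ⟨⟨fun a b => Subtype.ext (hPab a a.2 b b.2)⟩⟩

end Cfsg.Agent.S2925
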