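import Cfsg.Statements.S2940
import Cfsg.Agent.Helper17.Basic

set_option autoImplicit false
open Cfsg

namespace Cfsg.Agent.S2940

open Cfsg.Agent.Helper17

/-- Let S be a Sylow p-subgroup of the finite group G and G₁, G₂ subgroups containing S with G = G₁G₂. Then for every g ∈ G there is a Sylow p-subgroup U of G with S ∩ S^g ≤ U ≤ G₁ ∩ G₂^g (conjugates taken as X^g = g⁻¹Xg). -/
theorem result {G : Type*} [Group G] [Finite G] {p : ℕ} [Fact p.Prime] (S : Sylow p G) (G₁ G₂ : Subgroup G) (h1 : (S : Subgroup G) ≤ G₁) (h2 : (S : Subgroup G) ≤ G₂) (hfact : ∀ g : G, ∃ g₁ ∈ G₁, ∃ g₂ ∈ G₂, g = g₁ * g₂) (g : G) : ∃ U : Sylow p G, (S : Subgroup G) ⊓ Cfsg.subgroupConjRight g (S : Subgroup G) ≤ (U : Subgroup G) ∧ (U : Subgroup G) ≤ G₁ ⊓ Cfsg.subgroupConjRight g G₂ := by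
  unfold Cfsg.subgroupConjRight
  obtain ⟨a, ha, b, hb, hab⟩ := hfact g⁻¹
  have hg : g = b⁻¹ * a⁻¹ := by
    rw [← mul_inv_rev, ← hab, inv_inv]
  set D : Subgroup G := G₁ ⊓ G₂.map (MulAut.conj g⁻¹).toMonoidHom with hD
  have hQD : ((a • S : Sylow p G) : Subgroup G) ≤ D := by
    rw [sylow_smul_coe]
    rintro _ ⟨s, hs, rfl⟩
    refine Subgroup.mem_inf.mpr ⟨?_, ?_⟩
    · exact G₁.mul_mem (G₁.mul_mem ha (h1 hs)) (G₁.inv_mem ha)
    · rw [mem_map_conj]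
      have : g⁻¹⁻¹ * ((MulAut.conj a).toMonoidHom s) * g⁻¹ = b⁻¹ * s * b := by
        rw [hg]; simp [mul_assoc]
      rw [this]
      exact G₂.mul_mem (G₂.mul_mem (G₂.inv_mem hb) (h2 hs)) hb
  have hID : (S : Subgroup G) ⊓ (S : Subgroup G).map (MulAut.conj g⁻¹).toMonoidHom ≤ D :=
    inf_le_inf h1 (Subgroup.map_mono h2)
  have hI : IsPGroup p ↥((S : Subgroup G) ⊓ (S : Subgroup G).map (MulAut.conj g⁻¹).toMonoidHom) :=
    S.2.to_le inf_le_left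
  have hI' : IsPGroup p ↥(((S : Subgroup G) ⊓ (S : Subgroup G).map (MulAut.conj g⁻¹).toMonoidHom).subgroupOf D) :=
    hI.comap_of_injective D.subtype D.subtype_injective
  obtain ⟨U₀, hU₀⟩ := hI'.exists_le_sylow
  obtain ⟨d, hd⟩ := MulAction.exists_smul_eq D ((a • S : Sylow p G).subtype hQD) U₀
  rw [Sylow.smul_subtype] at hd
  refine ⟨d • (a • S : Sylow p G), ?_, Sylow.smul_le hQD d⟩
  intro x hx
  have hx' : (⟨x, hID hx⟩ : D) ∈ (U₀ : Subgroup D) := hU₀ (Subgroup.mem_subgroupOf.mpr hx)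
  rw [← hd, Sylow.coe_subtype, Subgroup.mem_subgroupOf] at hx'
  exact hx'

end Cfsg.Agent.S2940
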