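import Cfsg.Statements.S2955
import Cfsg.Agent.Helper17.Basic
import Cfsg.Agent.Helper17.RelSylow

set_option autoImplicit false
open Cfsg

namespace Cfsg.Agent.S2955

open Cfsg.Agent.Helper17

/-- Let p be a prime dividing the order of the finite group G and 𝓕 a conjugation-closed family of subgroups that controls Sylow p-intersections in G. Suppose the Sylow p-subgroups of G are chain-connected: any two of them are joined by a chain of Sylow p-subgroups, consecutive ones distinct with nontrivial intersection, all containing the intersection of the two ends (equivalently, the graph on the Sylow p-subgroups whose edges are the distinct pairs meeting nontrivially is connected). Then for every Sylow p-subgroup S, G is generated by N_G(S) together with the members of 𝓕 that meet S in a Sylow p-subgroup of themselves. -/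
theorem result {G : Type*} [Group G] [Finite G] (p : ℕ) [Fact p.Prime] (hdiv : p ∣ Nat.card G)
    (𝓕 : Set (Subgroup G)) (h𝓕 : Cfsg.IsNormalSet 𝓕) (hc : Cfsg.ControlsSylowIntersections p 𝓕)
    (hconn : Cfsg.IsSylowChainConnected p G) (S : Sylow p G) :
    (⨆ X ∈ Cfsg.sylowMembers p 𝓕 (S : Subgroup G), X) ⊔ Subgroup.normalizer ((S : Subgroup G) : Set G) = ⊤ := by
  classical
  obtain ⟨H, hHdef⟩ : ∃ H : Subgroup G, H = (⨆ X ∈ Cfsg.sylowMembers p 𝓕 (S : Subgroup G), X) ⊔
      Subgroup.normalizer ((S : Subgroup G) : Set G) := ⟨_, rfl⟩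
  rw [← hHdef]
  have hXH : ∀ X ∈ Cfsg.sylowMembers p 𝓕 (S : Subgroup G), X ≤ H := by
    intro X hX
    rw [hHdef]
    exact le_sup_of_le_left (le_iSup₂ (f := fun X _ => X) X hX)
  have hNH : Subgroup.normalizer ((S : Subgroup G) : Set G) ≤ H := by
    rw [hHdef]; exact le_sup_right
  have stepA : ∀ T T' : Sylow p G,
      (∃ h ∈ H, (T : Subgroup G) = (S : Subgroup G).map (MulAut.conj h).toMonoidHom) →
      ∀ X ∈ Cfsg.sylowMembers p 𝓕 (T : Subgroup G), ∀ x ∈ X,
      Cfsg.subgroupConjRight x (T' : Subgroup G) = (T : Subgroup G) →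
      ∃ h ∈ H, (T' : Subgroup G) = (S : Subgroup G).map (MulAut.conj h).toMonoidHom := by
    rintro T T' ⟨h, hh, hT⟩ X ⟨hX𝓕, P, hP⟩ x hx hconj
    have hX'𝓕 := h𝓕 X hX𝓕 h
    have hSeq : (T : Subgroup G).map (MulAut.conj h⁻¹).toMonoidHom = (S : Subgroup G) := by
      rw [hT, map_conj_map_conj, inv_mul_cancel, map_conj_one]
    have hinf : (S : Subgroup G) ⊓ Cfsg.subgroupConjRight h X =
        ((T : Subgroup G) ⊓ X).map (MulAut.conj h⁻¹).toMonoidHom := by
      rw [Subgroup.map_inf_eq _ _ _ (MulAut.conj h⁻¹).injective, hSeq]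
      rfl
    have hcardX : Nat.card ↥(Cfsg.subgroupConjRight h X) = Nat.card ↥X :=
      Subgroup.card_map_of_injective (MulAut.conj h⁻¹).injective
    have hcard : Nat.card ↥(((S : Subgroup G) ⊓ Cfsg.subgroupConjRight h X).subgroupOf
        (Cfsg.subgroupConjRight h X)) =
        p ^ (Nat.card ↥(Cfsg.subgroupConjRight h X)).factorization p := by
      rw [Nat.card_congr (Subgroup.subgroupOfEquivOfLe inf_le_right).toEquiv, hinf,
        Subgroup.card_map_of_injective (MulAut.conj h⁻¹).injective, ← hP, Subgroup.card_subtype,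
        hcardX]
      exact P.card_eq_multiplicity
    have hX'mem : Cfsg.subgroupConjRight h X ∈ Cfsg.sylowMembers p 𝓕 (S : Subgroup G) := by
      refine ⟨hX'𝓕, Sylow.ofCard _ hcard, ?_⟩
      rw [Sylow.coe_ofCard, Subgroup.map_subgroupOf_eq_of_le inf_le_right]
    have hx' : h⁻¹ * x * h ∈ H := hXH _ hX'mem ⟨x, hx, by simp⟩
    refine ⟨x * h, ?_, ?_⟩
    · have e : x * h = h * (h⁻¹ * x * h) := by group
      rw [e]; exact H.mul_mem hh hx'
    · have h1 : (T' : Subgroup G) = (T : Subgroup G).map (MulAut.conj x).toMonoidHom := by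
        rw [← hconj]
        unfold Cfsg.subgroupConjRight
        rw [map_conj_map_conj, mul_inv_cancel, map_conj_one]
      rw [h1, hT, map_conj_map_conj]
  have stepB : ∀ T T' : Sylow p G, T ≠ T' → (T : Subgroup G) ⊓ (T' : Subgroup G) ≠ ⊥ →
      (∃ h ∈ H, (T : Subgroup G) = (S : Subgroup G).map (MulAut.conj h).toMonoidHom) →
      ∃ h ∈ H, (T' : Subgroup G) = (S : Subgroup G).map (MulAut.conj h).toMonoidHom := by
    intro T T' hne hint hgood
    obtain ⟨m, c, X, x, h0, hlast, hstep⟩ := hc T T' hne hint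
    have hall : ∀ j : Fin (m + 1), ∃ h ∈ H,
        ((c j : Sylow p G) : Subgroup G) = (S : Subgroup G).map (MulAut.conj h).toMonoidHom := by
      intro j
      induction j using Fin.induction with
      | zero => rw [h0]; exact hgood
      | succ j ih =>
        obtain ⟨hX1, -, hxj, hconj, -⟩ := hstep j
        exact stepA (c j.castSucc) (c j.succ) ih (X j) hX1 (x j) hxj hconj
    have h1 := hall (Fin.last m)
    rwa [hlast] at h1
  have hgoodAll : ∀ T : Sylow p G, ∃ h ∈ H,
      (T : Subgroup G) = (S : Subgroup G).map (MulAut.conj h).toMonoidHom := by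
    intro T
    obtain ⟨n, c, h0, hlast, -, hstep⟩ := hconn S T
    have hall : ∀ j : Fin (n + 1), ∃ h ∈ H,
        ((c j : Sylow p G) : Subgroup G) = (S : Subgroup G).map (MulAut.conj h).toMonoidHom := by
      intro j
      induction j using Fin.induction with
      | zero => rw [h0]; exact ⟨1, H.one_mem, (map_conj_one _).symm⟩
      | succ j ih => exact stepB _ _ (hstep j).1 (hstep j).2 ih
    have h1 := hall (Fin.last n)
    rwa [hlast] at h1
  rw [eq_top_iff]
  intro g _
  obtain ⟨h, hh, he⟩ := hgoodAll (g • S)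
  rw [sylow_smul_coe] at he
  have h1 := mem_normalizer_of_map_conj_eq_map_conj (S : Subgroup G) he
  have e : g = h * (h⁻¹ * g) := by group
  rw [e]; exact H.mul_mem hh (hNH h1)

end Cfsg.Agent.S2955
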