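import Cfsg.Statements.S2958

set_option autoImplicit false
open Cfsg

namespace Cfsg.Agent.S2958

/-- Let X, A, B be subgroups of a group G such that G is generated by the conjugates of X and every conjugate of X is contained in A or in B. Then A = G or B = G. -/
theorem result {G : Type*} [Group G] (X A B : Subgroup G) (hgen : (⨆ g : G, X.map (MulAut.conj g).toMonoidHom) = ⊤) (hcover : ∀ g : G, X.map (MulAut.conj g).toMonoidHom ≤ A ∨ X.map (MulAut.conj g).toMonoidHom ≤ B) : A = ⊤ ∨ B = ⊤ := by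
  by_contra hcon
  push Not at hcon
  obtain ⟨hA, hB⟩ := hcon
  set c : G → Subgroup G := fun g => X.map (MulAut.conj g).toMonoidHom with hc
  have hcmul : ∀ g h : G, (c g).map (MulAut.conj h).toMonoidHom = c (h * g) := by
    intro g h
    simp only [hc, Subgroup.map_map]
    congr 1
    ext x; simp [mul_assoc]
  let U : Subgroup G := ⨆ g : {g : G // ¬ c g ≤ B}, c g.1
  have hUA : U ≤ A := by
    apply iSup_le
    rintro ⟨g, hg⟩
    rcases hcover g with h | h
    · exact h
    · exact absurd h hg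
  have hBU : ∀ b ∈ B, U.map (MulAut.conj b).toMonoidHom ≤ U := by
    intro b hb
    rw [Subgroup.map_iSup]
    apply iSup_le
    rintro ⟨g, hg⟩
    rw [hcmul]
    have hbg : ¬ c (b * g) ≤ B := by
      intro h
      apply hg
      intro x hx
      have h1 : b * x * b⁻¹ ∈ c (b * g) := by
        rw [← hcmul]; exact ⟨x, hx, rfl⟩
      have h2 := h h1
      have h3 := B.mul_mem (B.mul_mem (B.inv_mem hb) h2) hb
      simpa [mul_assoc] using h3
    exact le_iSup (fun g : {g : G // ¬ c g ≤ B} => c g.1) ⟨b * g, hbg⟩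
  have hBN : B ≤ Subgroup.normalizer (U : Set G) := by
    rw [Subgroup.le_normalizer_iff]
    intro b hb k hk
    exact hBU b hb ⟨k, hk, rfl⟩
  have hall : ∀ g, c g ≤ Subgroup.normalizer (U : Set G) := by
    intro g
    by_cases h : c g ≤ B
    · exact h.trans hBN
    · exact (le_iSup (fun g : {g : G // ¬ c g ≤ B} => c g.1) ⟨g, h⟩).trans Subgroup.le_normalizer
  have hN : Subgroup.normalizer (U : Set G) = ⊤ := by
    rw [eq_top_iff, ← hgen]; exact iSup_le hall
  obtain ⟨g₀, hg₀⟩ : ∃ g, ¬ c g ≤ B := by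
    by_contra h
    push Not at h
    apply hB
    rw [eq_top_iff, ← hgen]; exact iSup_le h
  have hg₀U : c g₀ ≤ U := le_iSup (fun g : {g : G // ¬ c g ≤ B} => c g.1) ⟨g₀, hg₀⟩
  apply hA
  rw [eq_top_iff, ← hgen]
  apply iSup_le
  intro g
  refine le_trans ?_ hUA
  have hcg : c g = (c g₀).map (MulAut.conj (g * g₀⁻¹)).toMonoidHom := by
    rw [hcmul]; simp
  change c g ≤ U
  rw [hcg]
  rintro _ ⟨x, hx, rfl⟩
  have hmem : g * g₀⁻¹ ∈ Subgroup.normalizer (U : Set G) := by rw [hN]; trivial
  exact (Subgroup.mem_normalizer_iff.mp hmem x).mp (hg₀U hx)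

end Cfsg.Agent.S2958
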