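import Cfsg.Statements.S2961
import Cfsg.Agent.Helper17.CharP

set_option autoImplicit false
open Cfsg

namespace Cfsg.Agent.S2961

open Cfsg.Agent.Helper17

/-- Let G be a finite group of characteristic p (C_G(O_p(G)) ≤ O_p(G)), p prime, T a Sylow p-subgroup of G and Q a normal subgroup of T with C_T(Q) ≤ Q. Then every subgroup L of G containing Q has characteristic p: C_L(O_p(L)) ≤ O_p(L). -/
theorem result {G : Type*} [Group G] [Finite G] {p : ℕ} [Fact p.Prime] (hG : Subgroup.centralizer (Cfsg.pCore p G : Set G) ≤ Cfsg.pCore p G) (T : Sylow p G) (Q : Subgroup G) (hQT : Q ≤ (T : Subgroup G)) (hQn : (T : Subgroup G) ≤ Subgroup.normalizer (Q : Set G)) (hC : (T : Subgroup G) ⊓ Subgroup.centralizer (Q : Set G) ≤ Q) (L : Subgroup G) (hQL : Q ≤ L) : Subgroup.centralizer (Cfsg.pCore p ↥L : Set ↥L) ≤ Cfsg.pCore p ↥L := by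
  rw [← charPA_iff]
  have hPn := pCore_normal' p G
  have hPp := pCore_isPGroup' p G
  have hPT : Cfsg.pCore p G ≤ (T : Subgroup G) := hPp.le_sylow_of_normal T
  have hCQ := centralizer_le_of_sylow hG T Q hQT hQn hC
  let S : Set G := {x | ∃ g ∈ L, ∃ a ∈ Q, x = g * a * g⁻¹}
  let K : Subgroup G := Subgroup.closure S
  have hKL : K ≤ L := (Subgroup.closure_le L).mpr (by
    rintro _ ⟨g, hg, a, ha, rfl⟩
    exact L.mul_mem (L.mul_mem hg (hQL ha)) (L.inv_mem hg))
  have hQK : Q ≤ K := fun a ha => Subgroup.subset_closure ⟨1, L.one_mem, a, ha, by simp⟩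
  have hconj : ∀ n : G, (∀ s ∈ S, n * s * n⁻¹ ∈ S) → ∀ x ∈ K, n * x * n⁻¹ ∈ K := by
    intro n hn x hx
    induction hx using Subgroup.closure_induction with
    | mem x hx => exact Subgroup.subset_closure (hn x hx)
    | one => simp
    | mul x y _ _ ihx ihy =>
      have e : n * (x * y) * n⁻¹ = (n * x * n⁻¹) * (n * y * n⁻¹) := by group
      rw [e]
      exact K.mul_mem ihx ihy
    | inv x _ ih =>
      have e : n * x⁻¹ * n⁻¹ = (n * x * n⁻¹)⁻¹ := by group
      rw [e]
      exact K.inv_mem ih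
  have hLK : L ≤ Subgroup.normalizer (K : Set G) := by
    apply le_normalizer_of_conj_mem
    intro n hn x hx
    apply hconj n _ x hx
    rintro _ ⟨g, hg, a, ha, rfl⟩
    exact ⟨n * g, L.mul_mem hn hg, a, ha, by group⟩
  have hPK : Cfsg.pCore p G ≤ Subgroup.normalizer (K : Set G) := by
    apply le_normalizer_of_conj_mem
    intro n hn x hx
    apply hconj n _ x hx
    rintro _ ⟨g, hg, a, ha, rfl⟩
    have h1 : g⁻¹ * n * g ∈ Cfsg.pCore p G := by simpa using hPn.conj_mem n hn g⁻¹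
    have h2 : (g⁻¹ * n * g) * a * (g⁻¹ * n * g)⁻¹ ∈ Q :=
      (Subgroup.mem_normalizer_iff.mp (hQn (hPT h1)) a).mp ha
    exact ⟨g, hg, _, h2, by group⟩
  have hKchar : CharPA p K := by
    have hM : CharPA p (K ⊔ Cfsg.pCore p G) := by
      apply charPA_of_pc_le (charPA_top_iff.mpr hG) le_top
      rw [pc_top]
      exact le_sup_right
    exact charPA_of_normal hM le_sup_left (sup_le Subgroup.le_normalizer hPK)
  have hRK : pc p K ≤ pc p L := pc_le_pc_of_normal hKL hLK
  apply charPA_of_coprime_eq_one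
  intro c hc hcop
  obtain ⟨hcL, hcC⟩ := Subgroup.mem_inf.mp hc
  have hcQ : c ∈ Q := by
    apply hCQ
    rw [Subgroup.mem_centralizer_iff]
    intro a ha
    have hwK : a * c * a⁻¹ * c⁻¹ ∈ K := by
      have h1 : c * a⁻¹ * c⁻¹ ∈ K :=
        (Subgroup.mem_normalizer_iff.mp (hLK hcL) a⁻¹).mp (K.inv_mem (hQK ha))
      have e : a * c * a⁻¹ * c⁻¹ = a * (c * a⁻¹ * c⁻¹) := by group
      rw [e]
      exact K.mul_mem (hQK ha) h1
    have hwC : a * c * a⁻¹ * c⁻¹ ∈ Subgroup.centralizer (pc p L : Set G) := by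
      have h1 : a * c * a⁻¹ ∈ Subgroup.centralizer (pc p L : Set G) :=
        conj_mem_centralizer (fun r hr => pc_conj_mem' L (hQL ha) hr) hcC
      exact Subgroup.mul_mem _ h1 (Subgroup.inv_mem _ hcC)
    have hwRK : a * c * a⁻¹ * c⁻¹ ∈ pc p K :=
      hKchar (Subgroup.mem_inf.mpr
        ⟨hwK, Subgroup.centralizer_le (SetLike.coe_subset_coe.mpr hRK) hwC⟩)
    have hwR := hRK hwRK
    have hcomm : Commute (a * c * a⁻¹ * c⁻¹) c := Subgroup.mem_centralizer_iff.mp hcC _ hwR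
    exact comm_of_coprime_comm c a hcop hcomm (isPGroup_mem_pow (pc_isPGroup L) hwR)
  have hQp : IsPGroup p Q := T.2.to_le hQT
  obtain ⟨k, hk⟩ := isPGroup_mem_pow hQp hcQ
  exact eq_one_of_coprime_of_pow_eq_one hcop hk

end Cfsg.Agent.S2961
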