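import Cfsg.Statements.S2963
import Mathlib

set_option autoImplicit false
open Cfsg

namespace Cfsg.Agent.S2963

/-- Let n be odd. If the symmetric group of degree n is a minimal parabolic group for the prime 2, that is, a Sylow 2-subgroup is not normal and lies in exactly one maximal subgroup, then n = 2^m + 1 for some natural number m. -/
theorem result (n : ℕ) (hn : Odd n) (h : Cfsg.IsPMinimal 2 (Equiv.Perm (Fin n))) : ∃ m : ℕ, n = 2 ^ m + 1 := by
  classical
  obtain ⟨P⟩ : Nonempty (Sylow 2 (Equiv.Perm (Fin n))) := inferInstance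
  obtain ⟨hPn, M, ⟨hMco, hPM⟩, huniq⟩ := h P
  have hn2 : ¬ 2 ∣ Nat.card (Fin n) := by
    rw [Nat.card_fin]
    exact fun h2 => (Nat.not_even_iff_odd.mpr hn) (even_iff_two_dvd.mpr h2)
  obtain ⟨a, ha⟩ := P.isPGroup'.nonempty_fixed_point_of_prime_not_dvd_card (Fin n) hn2
  have haP : ∀ σ ∈ (P : Subgroup (Equiv.Perm (Fin n))), σ a = a := fun σ hσ => ha ⟨σ, hσ⟩
  have hlift : ∀ K : Subgroup (Equiv.Perm (Fin n)), (P : Subgroup (Equiv.Perm (Fin n))) ≤ K →
      K ≠ ⊤ → K ≤ M := by
    intro K hPK hK
    obtain h1 | ⟨M', hM', hle⟩ := eq_top_or_exists_le_coatom K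
    · exact absurd h1 hK
    · have e := huniq M' ⟨hM', hPK.trans hle⟩
      rw [← e]; exact hle
  let SB : Set (Fin n) → Subgroup (Equiv.Perm (Fin n)) := fun B =>
    { carrier := {σ | ∀ x, σ x ∈ B ↔ x ∈ B}
      one_mem' := fun x => Iff.rfl
      mul_mem' := by
        intro σ τ hσ hτ x
        rw [Equiv.Perm.mul_apply, hσ (τ x), hτ x]
      inv_mem' := by
        intro σ hσ x
        have h1 := hσ (σ⁻¹ x)
        rw [show σ (σ⁻¹ x) = x from by simp] at h1
        exact h1.symm }
  have hSBmem : ∀ (B : Set (Fin n)) (σ : Equiv.Perm (Fin n)), σ ∈ SB B ↔ ∀ x, σ x ∈ B ↔ x ∈ B :=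
    fun B σ => Iff.rfl
  have hSBswap : ∀ (B : Set (Fin n)) (i j : Fin n), (i ∈ B ↔ j ∈ B) → Equiv.swap i j ∈ SB B := by
    intro B i j hij
    rw [hSBmem]
    intro x
    by_cases hxi : x = i
    · subst hxi; rw [Equiv.swap_apply_left]; exact hij.symm
    · by_cases hxj : x = j
      · subst hxj; rw [Equiv.swap_apply_right]; exact hij
      · rw [Equiv.swap_apply_of_ne_of_ne hxi hxj]
  have hSBne : ∀ (B : Set (Fin n)) (i j : Fin n), i ∈ B → j ∉ B → SB B ≠ ⊤ := by
    intro B i j hi hj htop
    have h1 : Equiv.swap i j ∈ SB B := by rw [htop]; trivial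
    have h2 := (hSBmem B _).mp h1 j
    rw [Equiv.swap_apply_right] at h2
    exact hj (h2.mp hi)
  by_cases hex : ∃ b : Fin n, b ≠ a
  · obtain ⟨b, hb⟩ := hex
    have haO : a ∉ MulAction.orbit ↥(P : Subgroup (Equiv.Perm (Fin n))) b := by
      intro h1
      obtain ⟨g, hg⟩ := MulAction.mem_orbit_iff.mp (MulAction.orbit_eq_iff.mp
        (MulAction.orbit_eq_iff.mpr h1).symm)
      apply hb
      rw [← hg]
      exact ha g
    have hPO : (P : Subgroup (Equiv.Perm (Fin n))) ≤
        SB (MulAction.orbit ↥(P : Subgroup (Equiv.Perm (Fin n))) b) := by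
      intro σ hσ
      rw [hSBmem]
      intro x
      have e : σ x = (⟨σ, hσ⟩ : ↥(P : Subgroup (Equiv.Perm (Fin n)))) • x := rfl
      rw [e, ← MulAction.orbit_eq_iff, MulAction.orbit_smul, MulAction.orbit_eq_iff]
    have hPa : (P : Subgroup (Equiv.Perm (Fin n))) ≤ SB {a} := by
      intro σ hσ
      rw [hSBmem]
      intro x
      rw [Set.mem_singleton_iff, Set.mem_singleton_iff]
      constructor
      · intro h1
        apply σ.injective
        rw [h1, haP σ hσ]
      · intro h1
        rw [h1, haP σ hσ]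
    have hbO : b ∈ MulAction.orbit ↥(P : Subgroup (Equiv.Perm (Fin n))) b :=
      MulAction.mem_orbit_self b
    have hcover : ∀ c : Fin n, c = a ∨ c ∈ MulAction.orbit ↥(P : Subgroup (Equiv.Perm (Fin n))) b := by
      by_contra hcon
      push Not at hcon
      obtain ⟨c, hca, hcO⟩ := hcon
      have hM1 : SB (MulAction.orbit ↥(P : Subgroup (Equiv.Perm (Fin n))) b) ≤ M :=
        hlift _ hPO (hSBne _ b a hbO haO)
      have hM2 : SB {a} ≤ M :=
        hlift _ hPa (hSBne _ a b (Set.mem_singleton a) (by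
          rw [Set.mem_singleton_iff]; exact hb))
      apply hMco.1
      rw [eq_top_iff, ← Equiv.Perm.closure_isSwap, Subgroup.closure_le]
      rintro σ ⟨i, j, hij, rfl⟩
      have key : ∀ j : Fin n, j ≠ a → Equiv.swap a j ∈ M := by
        intro j hja
        by_cases hjO : j ∈ MulAction.orbit ↥(P : Subgroup (Equiv.Perm (Fin n))) b
        · have hcj : c ≠ j := fun h1 => hcO (h1 ▸ hjO)
          have e : Equiv.swap c j * Equiv.swap a c * Equiv.swap c j = Equiv.swap j a :=
            Equiv.swap_mul_swap_mul_swap (Ne.symm hca) (Ne.symm hja)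
          rw [Equiv.swap_comm a j, ← e]
          have h1 : Equiv.swap c j ∈ M := hM2 (hSBswap _ c j (by
            rw [Set.mem_singleton_iff, Set.mem_singleton_iff]
            exact ⟨fun h => absurd h hca, fun h => absurd h hja⟩))
          have h2 : Equiv.swap a c ∈ M := hM1 (hSBswap _ a c
            ⟨fun h => absurd h haO, fun h => absurd h hcO⟩)
          exact M.mul_mem (M.mul_mem h1 h2) h1
        · exact hM1 (hSBswap _ a j ⟨fun h => absurd h haO, fun h => absurd h hjO⟩)
      by_cases hia : i = a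
      · subst hia; exact key j (Ne.symm hij)
      · by_cases hja : j = a
        · subst hja; rw [Equiv.swap_comm]; exact key i hia
        · exact hM2 (hSBswap _ i j (by
            rw [Set.mem_singleton_iff, Set.mem_singleton_iff]
            exact ⟨fun h => absurd h hia, fun h => absurd h hja⟩))
    obtain ⟨m, hm⟩ := P.isPGroup'.card_orbit b
    refine ⟨m, ?_⟩
    have huniv : insert a (MulAction.orbit ↥(P : Subgroup (Equiv.Perm (Fin n))) b) = Set.univ := by
      ext c
      simp only [Set.mem_insert_iff, Set.mem_univ, iff_true]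
      exact hcover c
    have h1 := Set.ncard_insert_of_notMem haO (Set.toFinite _)
    rw [huniv, Set.ncard_univ, Nat.card_fin] at h1
    rw [h1, ← hm, Nat.card_coe_set_eq]
  · exfalso
    push Not at hex
    apply hPn
    constructor
    intro σ hσ g
    have e : g * σ * g⁻¹ = σ := by
      have hg : g = 1 := by
        ext x
        rw [hex (g x), hex x]
        rfl
      rw [hg]; simp
    rw [e]; exact hσ

end Cfsg.Agent.S2963
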