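import Cfsg.Statements.S2998
import Cfsg.Agent.Helper17.RelSylow2
import Mathlib

set_option autoImplicit false
open Cfsg

namespace Cfsg.Agent.S2998

open Cfsg.Agent.Helper17
open scoped Pointwise

/-- Let G be a finite group, p a prime, P a Sylow p-subgroup of G and x ∈ P an element such that N_G(R) ≤ C_G(x) for every nontrivial subgroup R of P. Then P ≤ C_G(x); every G-conjugate of x lying in P equals x (so g ∈ C_G(x) whenever g x g⁻¹ ∈ P); and for every normal subgroup N of G, the image of x in G ⧸ N has the same property with respect to the image of P: the normalizer of every nontrivial subgroup of the image of P centralizes the image of x. -/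
theorem result {G : Type*} [Group G] [Finite G] {p : ℕ} [Fact p.Prime] (P : Sylow p G) (x : G) (hxP : x ∈ (P : Subgroup G)) (hlc : ∀ R : Subgroup G, R ≤ (P : Subgroup G) → R ≠ ⊥ → Subgroup.normalizer (R : Set G) ≤ Subgroup.centralizer ({x} : Set G)) : (P : Subgroup G) ≤ Subgroup.centralizer ({x} : Set G) ∧ (∀ g : G, g * x * g⁻¹ ∈ (P : Subgroup G) → g * x * g⁻¹ = x) ∧ ∀ (N : Subgroup G) [N.Normal], ∀ R : Subgroup (G ⧸ N), R ≤ (P : Subgroup G).map (QuotientGroup.mk' N) → R ≠ ⊥ → Subgroup.normalizer (R : Set (G ⧸ N)) ≤ Subgroup.centralizer ({(QuotientGroup.mk x : G ⧸ N)} : Set (G ⧸ N)) := by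
  classical
  have h1 : (P : Subgroup G) ≤ Subgroup.centralizer ({x} : Set G) := by
    by_cases hP : (P : Subgroup G) = ⊥
    · rw [hP]; exact bot_le
    · exact le_trans Subgroup.le_normalizer (hlc _ le_rfl hP)
  refine ⟨h1, ?_, ?_⟩
  · intro g hg
    by_cases hx1 : x = 1
    · rw [hx1]; simp
    have hPne : (P : Subgroup G) ≠ ⊥ := by
      intro h; rw [h, Subgroup.mem_bot] at hxP; exact hx1 hxP
    have hy1 : g * x * g⁻¹ ≠ 1 := by
      intro h; apply hx1
      have : x = g⁻¹ * (g * x * g⁻¹) * g := by group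
      rw [this, h]; group
    have hzy : Subgroup.zpowers (g * x * g⁻¹) ≤ (P : Subgroup G) := by
      rw [Subgroup.zpowers_le]; exact hg
    have hzne : Subgroup.zpowers (g * x * g⁻¹) ≠ ⊥ := by
      rw [Ne, Subgroup.zpowers_eq_bot]; exact hy1
    have hNy := hlc _ hzy hzne
    have hCy : Subgroup.centralizer ({g * x * g⁻¹} : Set G) ≤
        Subgroup.normalizer (Subgroup.zpowers (g * x * g⁻¹) : Set G) := by
      rw [Subgroup.zpowers_eq_closure, ← Subgroup.centralizer_closure]
      exact Subgroup.centralizer_le_normalizer _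
    have hk : (P : Subgroup G).map (MulAut.conj g).toMonoidHom ≤
        Subgroup.centralizer ({x} : Set G) := by
      rintro _ ⟨u, hu, rfl⟩
      apply hNy
      apply hCy
      rw [Subgroup.mem_centralizer_iff]
      intro w hw
      rw [Set.mem_singleton_iff] at hw
      rw [hw]
      have hux : x * u = u * x := Subgroup.mem_centralizer_iff.mp (h1 hu) x (Set.mem_singleton x)
      simp only [MulEquiv.coe_toMonoidHom, MulAut.conj_apply]
      have e1 : g * x * g⁻¹ * (g * u * g⁻¹) = g * (x * u) * g⁻¹ := by group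
      rw [e1, hux]; group
    obtain ⟨h, hh, e⟩ := exists_conj_eq_of_le P _ h1 g hk
    have hn := mem_normalizer_of_map_conj_eq_map_conj (P : Subgroup G) e
    have hn' := hlc _ le_rfl hPne hn
    have hg' : g ∈ Subgroup.centralizer ({x} : Set G) := by
      have := Subgroup.mul_mem _ hh hn'
      simpa using this
    have hgx : x * g = g * x := Subgroup.mem_centralizer_iff.mp hg' x (Set.mem_singleton x)
    rw [← hgx]; group
  · intro N _ R hR hRne gbar hgbar
    obtain ⟨g, rfl⟩ := QuotientGroup.mk_surjective gbar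
    have hR₀P : R.comap (QuotientGroup.mk' N) ⊓ (P : Subgroup G) ≤ (P : Subgroup G) := inf_le_right
    have hmap : (R.comap (QuotientGroup.mk' N) ⊓ (P : Subgroup G)).map (QuotientGroup.mk' N) = R := by
      apply le_antisymm
      · rintro _ ⟨u, hu, rfl⟩; exact hu.1
      · intro r hr
        obtain ⟨u, hu, rfl⟩ := hR hr
        exact ⟨u, ⟨hr, hu⟩, rfl⟩
    have hR₀ne : R.comap (QuotientGroup.mk' N) ⊓ (P : Subgroup G) ≠ ⊥ := by
      intro h; apply hRne; rw [← hmap, h, Subgroup.map_bot]
    have hnorm : ∀ r : G, (r : G ⧸ N) ∈ R → ((g * r * g⁻¹ : G) : G ⧸ N) ∈ R := by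
      intro r hr
      have := (Subgroup.mem_normalizer_iff.mp hgbar (r : G ⧸ N)).mp hr
      simpa using this
    have hEH : (R.comap (QuotientGroup.mk' N) ⊓ (P : Subgroup G)).map (MulAut.conj g).toMonoidHom
        ≤ (P : Subgroup G) ⊔ N := by
      rintro _ ⟨u, hu, rfl⟩
      have h1 : ((g * u * g⁻¹ : G) : G ⧸ N) ∈ R := hnorm u hu.1
      obtain ⟨v, hv, hveq⟩ := hR h1
      have h2 : v⁻¹ * (g * u * g⁻¹) ∈ N := by
        rw [← QuotientGroup.eq]
        exact hveq
      have e1 : g * u * g⁻¹ = v * (v⁻¹ * (g * u * g⁻¹)) := by group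
      simp only [MulEquiv.coe_toMonoidHom, MulAut.conj_apply]
      rw [e1]
      exact Subgroup.mul_mem _ (Subgroup.mem_sup_left hv) (Subgroup.mem_sup_right h2)
    have hE : IsPGroup p ((R.comap (QuotientGroup.mk' N) ⊓ (P : Subgroup G)).map
        (MulAut.conj g).toMonoidHom) := (P.isPGroup'.to_le hR₀P).map _
    obtain ⟨h, hh, hconj⟩ := exists_conj_le_of_sylow_le P _ le_sup_left _ hEH hE
    obtain ⟨u, hu, n, hn, rfl⟩ : ∃ u ∈ (P : Subgroup G), ∃ n ∈ N, u * n = h := by
      have : h ∈ ((P : Subgroup G) : Set G) * (N : Set G) := by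
        rw [← Subgroup.mul_normal]; exact hh
      obtain ⟨u, hu, n, hn, e⟩ := Set.mem_mul.mp this
      exact ⟨u, hu, n, hn, e⟩
    have hπn : ((n : G) : G ⧸ N) = 1 := (QuotientGroup.eq_one_iff n).mpr hn
    have hngN : n * g ∈ Subgroup.normalizer
        ((R.comap (QuotientGroup.mk' N) ⊓ (P : Subgroup G) : Subgroup G) : Set G) := by
      apply Subgroup.mem_normalizer_fintype
      intro r hr
      have h3 := hconj _ (conj_mem_map_conj _ g hr)
      have h4 : (n * g) * r * (n * g)⁻¹ ∈ (P : Subgroup G) := by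
        have := Subgroup.mul_mem _ (Subgroup.mul_mem _ (Subgroup.inv_mem _ hu) h3) hu
        convert this using 1; group
      refine ⟨?_, h4⟩
      show ((((n * g) * r * (n * g)⁻¹ : G)) : G ⧸ N) ∈ R
      have e2 : ((((n * g) * r * (n * g)⁻¹ : G)) : G ⧸ N) = ((g * r * g⁻¹ : G) : G ⧸ N) := by
        simp [hπn]
      rw [e2]
      exact hnorm r hr.1
    have hc := hlc _ hR₀P hR₀ne hngN
    rw [Subgroup.mem_centralizer_iff]
    intro w hw
    rw [Set.mem_singleton_iff] at hw
    rw [hw]
    have hcx : x * (n * g) = (n * g) * x := Subgroup.mem_centralizer_iff.mp hc x (Set.mem_singleton x)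
    have := congrArg (fun t : G => (t : G ⧸ N)) hcx
    simpa [hπn] using this

end Cfsg.Agent.S2998
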