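import Cfsg.Statements.S3003
import Cfsg.Agent.Helper1.GenCent
import Cfsg.Agent.Helper17.Basic
import Cfsg.Agent.Helper17.CharP
import Cfsg.Agent.Helper17.NonCyclic
import Cfsg.Agent.Helper17.ElemAb

set_option autoImplicit false
open Cfsg

namespace Cfsg.Agent.S3003

open Cfsg.Agent.Helper17

/-- Let G be a finite group, p a prime and Q a large p-subgroup of G: C_G(Q) ≤ Q and N_G(U) ≤ N_G(Q) for every nontrivial subgroup U of C_G(Q). Let Q ≤ G₁ ≤ G, let R be a subgroup of order prime to p normalized by G₁, and let U ≤ G₁ be a p-subgroup. If U contains a nontrivial element which is G₁-conjugate to an element of Z(Q), then C_R(U) = 1. In particular, if U is elementary abelian of order at least p² and every maximal subgroup of U contains a nontrivial element G₁-conjugate into Z(Q), then R = 1. -/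
theorem result {G : Type*} [Group G] [Finite G] {p : ℕ} [Fact p.Prime] (Q : Subgroup G) (hQp : IsPGroup p ↥Q) (hlarge : Cfsg.IsLarge Q) (G₁ : Subgroup G) (hQG : Q ≤ G₁) (R : Subgroup G) (hR : (Nat.card ↥R).Coprime p) (hGR : G₁ ≤ Subgroup.normalizer (R : Set G)) (U : Subgroup G) (hUG : U ≤ G₁) (hUp : IsPGroup p ↥U) : ((∃ x ∈ U, x ≠ 1 ∧ ∃ g ∈ G₁, g * x * g⁻¹ ∈ Q ⊓ Subgroup.centralizer (Q : Set G)) → R ⊓ Subgroup.centralizer (U : Set G) = ⊥) ∧ (Cfsg.IsElementaryAbelian p U → p ^ 2 ≤ Nat.card ↥U → (∀ U₀ : Subgroup G, U₀ ≤ U → IsCoatom (U₀.subgroupOf U) → ∃ x ∈ U₀, x ≠ 1 ∧ ∃ g ∈ G₁, g * x * g⁻¹ ∈ Q ⊓ Subgroup.centralizer (Q : Set G)) → R = ⊥) := by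
  classical
  have hpp : p.Prime := Fact.out
  obtain ⟨hQself, hQbang⟩ := hlarge
  have hQR : ∀ y ∈ Q, y ∈ R → y = 1 := by
    intro y hyQ hyR
    obtain ⟨k, hk⟩ := (IsPGroup.iff_orderOf.mp hQp) ⟨y, hyQ⟩
    rw [Subgroup.orderOf_mk] at hk
    have h1 : orderOf y ∣ Nat.card ↥R := by
      have h := orderOf_dvd_natCard (⟨y, hyR⟩ : ↥R)
      rwa [Subgroup.orderOf_mk] at h
    have h2 : (orderOf y).Coprime (orderOf y) :=
      Nat.Coprime.coprime_dvd_left h1 (by rw [hk]; exact Nat.Coprime.pow_right k hR)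
    exact orderOf_eq_one_iff.mp ((Nat.coprime_self _).mp h2)
  have P1 : ∀ V : Subgroup G,
      (∃ x ∈ V, x ≠ 1 ∧ ∃ g ∈ G₁, g * x * g⁻¹ ∈ Q ⊓ Subgroup.centralizer (Q : Set G)) →
      R ⊓ Subgroup.centralizer (V : Set G) = ⊥ := by
    rintro V ⟨x, hxV, hx1, g, hg, hz⟩
    rw [eq_bot_iff]
    rintro r ⟨hrR, hrV⟩
    rw [Subgroup.mem_bot]
    have hxr : x * r = r * x := Subgroup.mem_centralizer_iff.mp hrV x hxV
    have hr'R : g * r * g⁻¹ ∈ R := (Subgroup.mem_normalizer_iff.mp (hGR hg) r).mp hrR
    have hzr : (g * x * g⁻¹) * (g * r * g⁻¹) = (g * r * g⁻¹) * (g * x * g⁻¹) := by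
      calc (g * x * g⁻¹) * (g * r * g⁻¹) = g * (x * r) * g⁻¹ := by group
        _ = g * (r * x) * g⁻¹ := by rw [hxr]
        _ = (g * r * g⁻¹) * (g * x * g⁻¹) := by group
    have hz1 : g * x * g⁻¹ ≠ 1 := by
      intro h
      apply hx1
      have e : x = g⁻¹ * (g * x * g⁻¹) * g := by group
      rw [e, h]; group
    have hr'N : g * r * g⁻¹ ∈ Subgroup.normalizer (Q : Set G) := by
      apply hQbang (Subgroup.zpowers (g * x * g⁻¹)) (Subgroup.zpowers_le.mpr hz.2)
        (by rw [Ne, Subgroup.zpowers_eq_bot]; exact hz1)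
      apply Subgroup.centralizer_le_normalizer
      rw [Subgroup.mem_centralizer_iff]
      intro y hy
      obtain ⟨k, rfl⟩ := Subgroup.mem_zpowers_iff.mp hy
      have h0 : Commute (g * x * g⁻¹) (g * r * g⁻¹) := hzr
      exact (h0.zpow_left k).eq
    have hr'C : g * r * g⁻¹ ∈ Subgroup.centralizer (Q : Set G) := by
      rw [Subgroup.mem_centralizer_iff]
      intro q hq
      have h1 : (g * r * g⁻¹) * q * (g * r * g⁻¹)⁻¹ * q⁻¹ = 1 := by
        apply hQR
        · exact Q.mul_mem ((Subgroup.mem_normalizer_iff.mp hr'N q).mp hq) (Q.inv_mem hq)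
        · have e : (g * r * g⁻¹) * q * (g * r * g⁻¹)⁻¹ * q⁻¹ =
              (g * r * g⁻¹) * (q * (g * r * g⁻¹)⁻¹ * q⁻¹) := by group
          rw [e]
          exact R.mul_mem hr'R
            ((Subgroup.mem_normalizer_iff.mp (hGR (hQG hq)) _).mp (R.inv_mem hr'R))
      calc q * (g * r * g⁻¹)
          = ((g * r * g⁻¹) * q * (g * r * g⁻¹)⁻¹ * q⁻¹)⁻¹ * ((g * r * g⁻¹) * q) := by group
        _ = (g * r * g⁻¹) * q := by rw [h1, inv_one, one_mul]
    have h2 := hQR _ (hQself hr'C) hr'R
    have e : r = g⁻¹ * (g * r * g⁻¹) * g := by group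
    rw [e, h2]; group
  refine ⟨P1 U, ?_⟩
  intro hUea hcard hcoat
  obtain ⟨hUc, hUexp⟩ := hUea
  have hUcomm : ∀ a ∈ U, ∀ b ∈ U, a * b = b * a :=
    fun a ha b hb => comm_of_isMulCommutative U hUc ha hb
  have claim : ∀ n : ℕ, ∀ W : Subgroup G, W ≤ U → Nat.card ↥U - Nat.card ↥W = n →
      R ⊓ Subgroup.centralizer (W : Set G) = ⊥ := by
    intro n
    induction n using Nat.strong_induction_on with
    | _ n ih =>
      intro W hWU hn
      by_cases hcoW : IsCoatom (W.subgroupOf U)
      · exact P1 W (hcoat W hWU hcoW)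
      by_cases hWtop : W.subgroupOf U = ⊤
      · have hUW : U ≤ W := Subgroup.subgroupOf_eq_top.mp hWtop
        haveI : Nontrivial ↥U := by
          rw [← Finite.one_lt_card_iff_nontrivial]
          calc 1 < p ^ 2 := Nat.one_lt_pow (by norm_num) hpp.one_lt
            _ ≤ Nat.card ↥U := hcard
        obtain h | ⟨b, hb, -⟩ := eq_top_or_exists_le_coatom (⊥ : Subgroup ↥U)
        · exact absurd h bot_ne_top
        · have e : (b.map U.subtype).subgroupOf U = b :=
            Subgroup.comap_map_eq_self_of_injective U.subtype_injective b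
          obtain ⟨x, hx, hx1, hg⟩ := hcoat (b.map U.subtype) (Subgroup.map_subtype_le b)
            (by rw [e]; exact hb)
          exact P1 W ⟨x, hUW (Subgroup.map_subtype_le b hx), hx1, hg⟩
      have hnc' : ∃ V' : Subgroup ↥U, W.subgroupOf U < V' ∧ V' ≠ ⊤ := by
        by_contra hcon
        push Not at hcon
        exact hcoW ⟨hWtop, fun b hb => hcon b hb⟩
      obtain ⟨V', hWV', hV'top⟩ := hnc'
      obtain ⟨a', ha'V, ha'W⟩ := SetLike.exists_of_lt hWV'
      have hb'ex : ∃ b' : ↥U, b' ∉ V' := by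
        by_contra hcon
        push Not at hcon
        exact hV'top (eq_top_iff.mpr (fun y _ => hcon y))
      obtain ⟨b', hb'V⟩ := hb'ex
      have haU : (a' : G) ∈ U := a'.2
      have hbU : (b' : G) ∈ U := b'.2
      have haW : (a' : G) ∉ W := fun h => ha'W (Subgroup.mem_subgroupOf.mpr h)
      have hbW : (b' : G) ∉ W ⊔ Subgroup.zpowers (a' : G) := by
        intro h
        apply hb'V
        have hle : W ⊔ Subgroup.zpowers (a' : G) ≤ V'.map U.subtype := by
          apply sup_le
          · intro w hw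
            exact ⟨⟨w, hWU hw⟩, hWV'.le (Subgroup.mem_subgroupOf.mpr hw), rfl⟩
          · rw [Subgroup.zpowers_le]; exact ⟨a', ha'V, rfl⟩
        obtain ⟨y, hy, hyb⟩ := hle h
        have e : y = b' := Subtype.ext hyb
        rwa [← e]
      by_contra hRW
      have hab := hUcomm _ haU _ hbU
      have hap := hUexp _ haU
      have hbp := hUexp _ hbU
      have hdisj := closure_pair_inf_eq_bot hpp hab hap hbp W haW hbW
      have haE : (a' : G) ∈ Subgroup.closure ({(a' : G), (b' : G)} : Set G) :=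
        Subgroup.subset_closure (by simp)
      have hbE : (b' : G) ∈ Subgroup.closure ({(a' : G), (b' : G)} : Set G) :=
        Subgroup.subset_closure (by simp)
      have hU'U : Subgroup.closure ({(a' : G), (b' : G)} : Set G) ≤ U := by
        rw [Subgroup.closure_le]
        rintro x (rfl | rfl)
        · exact haU
        · exact hbU
      have ha1 : (a' : G) ≠ 1 := fun h => haW (h ▸ W.one_mem)
      have hao : orderOf (a' : G) = p := by
        rcases (Nat.dvd_prime hpp).mp (orderOf_dvd_of_pow_eq_one hap) with h | h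
        · exact absurd (orderOf_eq_one_iff.mp h) ha1
        · exact h
      have hba : (b' : G) ∉ Subgroup.zpowers (a' : G) := fun h => hbW (Subgroup.mem_sup_right h)
      have hnc : ¬ IsCyclic ↥(Subgroup.closure ({(a' : G), (b' : G)} : Set G)) := by
        apply not_isCyclic_of_two hpp.pos
          (⟨(a' : G), haE⟩ : ↥(Subgroup.closure ({(a' : G), (b' : G)} : Set G))) ⟨(b' : G), hbE⟩
        · rw [Subgroup.orderOf_mk]; exact hao
        · apply Subtype.ext
          rw [Subgroup.coe_pow, Subgroup.coe_one]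
          exact hbp
        · intro h
          obtain ⟨k, hk⟩ := Subgroup.mem_zpowers_iff.mp h
          apply hba
          rw [Subgroup.mem_zpowers_iff]
          refine ⟨k, ?_⟩
          have h2 := congrArg Subtype.val hk
          rw [Subgroup.coe_zpow] at h2
          exact h2
      have hnorm : Subgroup.closure ({(a' : G), (b' : G)} : Set G) ≤
          Subgroup.normalizer ((R ⊓ Subgroup.centralizer (W : Set G) : Subgroup G) : Set G) := by
        apply le_normalizer_of_conj_mem
        intro v hv y hy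
        have hvU := hU'U hv
        have hvc : v ∈ Subgroup.centralizer (W : Set G) := by
          rw [Subgroup.mem_centralizer_iff]
          intro w hw
          exact hUcomm w (hWU hw) v hvU
        exact ⟨(Subgroup.mem_normalizer_iff.mp (hGR (hUG hvU)) y).mp hy.1,
          Subgroup.mul_mem _ (Subgroup.mul_mem _ hvc hy.2) (Subgroup.inv_mem _ hvc)⟩
      have hcop : (Nat.card ↥(Subgroup.closure ({(a' : G), (b' : G)} : Set G))).Coprime
          (Nat.card ↥(R ⊓ Subgroup.centralizer (W : Set G) : Subgroup G)) := by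
        obtain ⟨k, hk⟩ := IsPGroup.iff_card.mp (IsPGroup.to_le hUp hU'U)
        rw [hk]
        exact Nat.Coprime.pow_left k
          (Nat.Coprime.coprime_dvd_right (Subgroup.card_dvd_of_le inf_le_left) hR.symm)
      have hgen := Cfsg.Agent.Helper1.centGen_aux _ G _ _ rfl (closure_pair_comm hab) hnc hnorm
        hcop
      have hex : ∃ c ∈ Subgroup.closure ({(a' : G), (b' : G)} : Set G), c ≠ 1 ∧
          (R ⊓ Subgroup.centralizer (W : Set G)) ⊓ Subgroup.centralizer ({c} : Set G) ≠ ⊥ := by
        by_contra hall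
        push Not at hall
        apply hRW
        rw [eq_bot_iff]
        refine hgen.trans ?_
        unfold Cfsg.Agent.Helper1.centGen
        refine iSup₂_le ?_
        rintro c ⟨hc, hc1⟩
        rw [hall c hc hc1]
      obtain ⟨c, hc, hc1, hcne⟩ := hex
      have hcW : c ∉ W := fun h => hc1 (hdisj c hc h)
      have hW'U : W ⊔ Subgroup.zpowers c ≤ U :=
        sup_le hWU (Subgroup.zpowers_le.mpr (hU'U hc))
      have hlt : Nat.card ↥W < Nat.card ↥(W ⊔ Subgroup.zpowers c : Subgroup G) := by
        by_contra hle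
        push Not at hle
        have e : W = W ⊔ Subgroup.zpowers c := Subgroup.eq_of_le_of_card_ge le_sup_left hle
        apply hcW
        rw [e]
        exact Subgroup.mem_sup_right (Subgroup.mem_zpowers c)
      have hle2 : Nat.card ↥(W ⊔ Subgroup.zpowers c : Subgroup G) ≤ Nat.card ↥U :=
        Subgroup.card_le_of_le hW'U
      have hIH := ih (Nat.card ↥U - Nat.card ↥(W ⊔ Subgroup.zpowers c : Subgroup G)) (by omega)
        (W ⊔ Subgroup.zpowers c) hW'U rfl
      apply hcne
      rw [eq_bot_iff, ← hIH]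
      rintro y ⟨⟨hyR, hyW⟩, hyc⟩
      have hyW' : y ∈ Subgroup.centralizer (W : Set G) := hyW
      have hyc' : y ∈ Subgroup.centralizer ({c} : Set G) := hyc
      refine ⟨hyR, ?_⟩
      show y ∈ Subgroup.centralizer ((W ⊔ Subgroup.zpowers c : Subgroup G) : Set G)
      rw [Subgroup.mem_centralizer_iff]
      intro h hh
      have hle3 : W ⊔ Subgroup.zpowers c ≤ Subgroup.centralizer ({y} : Set G) := by
        apply sup_le
        · intro w hw
          rw [Subgroup.mem_centralizer_iff]
          intro y' hy'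
          rw [Set.mem_singleton_iff] at hy'
          subst hy'
          exact (Subgroup.mem_centralizer_iff.mp hyW' w hw).symm
        · rw [Subgroup.zpowers_le, Subgroup.mem_centralizer_iff]
          intro y' hy'
          rw [Set.mem_singleton_iff] at hy'
          subst hy'
          exact (Subgroup.mem_centralizer_iff.mp hyc' c rfl).symm
      exact (Subgroup.mem_centralizer_iff.mp (hle3 hh) y rfl).symm
  have h0 := claim _ ⊥ bot_le rfl
  rw [eq_bot_iff]
  intro r hr
  rw [← h0]
  refine ⟨hr, ?_⟩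
  show r ∈ Subgroup.centralizer (((⊥ : Subgroup G)) : Set G)
  rw [Subgroup.mem_centralizer_iff]
  intro h hh
  have e : h = 1 := Subgroup.mem_bot.mp hh
  rw [e, one_mul, mul_one]

end Cfsg.Agent.S3003
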