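import Cfsg.Statements.S3011
import Mathlib
import Cfsg.Agent.Helper21.BaerSuzuki

set_option autoImplicit false
open Cfsg

namespace Cfsg.Agent.S3011

theorem odd_eq_one_of_inv_eq {G : Type*} [Group G] (x : G) (hx : Odd (orderOf x)) (h : x⁻¹ = x) :
    x = 1 := by
  have h2 : x ^ 2 = 1 := by
    rw [pow_two]
    calc x * x = x⁻¹ * x := by rw [h]
      _ = 1 := inv_mul_cancel x
  have hd : orderOf x ∣ 2 := orderOf_dvd_of_pow_eq_one h2
  rcases (Nat.dvd_prime Nat.prime_two).1 hd with h3 | h3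
  · exact orderOf_eq_one_iff.1 h3
  · rw [h3] at hx
    exact absurd hx (by decide)

theorem odd_comm_of_sq {G : Type*} [Group G] (h k : G) (hh : Odd (orderOf h))
    (hc : Commute (h ^ 2) k) : Commute h k := by
  obtain ⟨m, hm⟩ := hh
  have e : (h ^ 2) ^ (m + 1) = h := by
    rw [← pow_mul, show 2 * (m + 1) = orderOf h + 1 by omega, pow_succ, pow_orderOf_eq_one,
      one_mul]
  rw [← e]
  exact hc.pow_left _

theorem odd_not_invert {G : Type*} [Group G] (g k : G) (hg : Odd (orderOf g))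
    (hk : Odd (orderOf k)) (h : g * k * g⁻¹ = k⁻¹) : k = 1 := by
  have h2 : g ^ 2 * k * (g ^ 2)⁻¹ = k := by
    calc g ^ 2 * k * (g ^ 2)⁻¹ = g * (g * k * g⁻¹) * g⁻¹ := by rw [pow_two]; group
      _ = g * k⁻¹ * g⁻¹ := by rw [h]
      _ = (g * k * g⁻¹)⁻¹ := by group
      _ = k := by rw [h, inv_inv]
  have hc : Commute g k := odd_comm_of_sq g k hg (mul_inv_eq_iff_eq_mul.1 h2)
  have h3 : g * k * g⁻¹ = k := mul_inv_eq_iff_eq_mul.2 hc.eq
  rw [h3] at h
  exact odd_eq_one_of_inv_eq k hk h.symm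

theorem sidki_core {G : Type*} [Group G] (V : Subgroup G) (hS : Cfsg.IsSidkiPair V)
    (a b h k : G) (ha : a ∈ V) (hb : b ∈ V)
    (hVel : ∀ w ∈ V, w = 1 ∨ w = a ∨ w = b ∨ w = a * b)
    (hh : Odd (orderOf h)) (hk : Odd (orderOf k)) (hh1 : h ≠ 1) (hk1 : k ≠ 1)
    (hah : a * h * a⁻¹ = h⁻¹) (hbh : b * h * b⁻¹ = h) (hbk : b * k * b⁻¹ = k⁻¹)
    (hak : a * k * a⁻¹ = k) : False := by
  have hch : (a * b) * h * (a * b)⁻¹ = h⁻¹ := by
    calc (a * b) * h * (a * b)⁻¹ = a * (b * h * b⁻¹) * a⁻¹ := by group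
      _ = h⁻¹ := by rw [hbh, hah]
  have hck : (a * b) * k * (a * b)⁻¹ = k⁻¹ := by
    calc (a * b) * k * (a * b)⁻¹ = a * (b * k * b⁻¹) * a⁻¹ := by group
      _ = a * k⁻¹ * a⁻¹ := by rw [hbk]
      _ = (a * k * a⁻¹)⁻¹ := by group
      _ = k⁻¹ := by rw [hak]
  have hS' : ∀ x v : G, v ∈ V → Odd (orderOf x) → v * x * v⁻¹ = x⁻¹ →
      (a * x * a⁻¹ = x ∨ b * x * b⁻¹ = x ∨ (a * b) * x * (a * b)⁻¹ = x) := by
    intro x v hv hx hvx
    obtain ⟨w, hw, hw1, hwx⟩ := hS x v hv hx hvx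
    have hwx' : w * x * w⁻¹ = x := mul_inv_eq_iff_eq_mul.2 hwx
    rcases hVel w hw with rfl | rfl | rfl | rfl
    · exact absurd rfl hw1
    · exact Or.inl hwx'
    · exact Or.inr (Or.inl hwx')
    · exact Or.inr (Or.inr hwx')
  have hconj : ∀ (g x y : G), g * (x * y * x⁻¹) * g⁻¹ =
      (g * x * g⁻¹) * (g * y * g⁻¹) * (g * x * g⁻¹)⁻¹ := by
    intros; group
  have hconj2 : ∀ (g x y : G), g * (x * y) * g⁻¹ = (g * x * g⁻¹) * (g * y * g⁻¹) := by
    intros; group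
  have step2 : Commute h k → False := by
    intro hc
    have hyo : Odd (orderOf (h * k)) := by
      have hd := hc.orderOf_mul_dvd_lcm
      exact Odd.of_dvd_nat (Odd.of_dvd_nat (hh.mul hk) (Nat.lcm_dvd_mul _ _)) hd
    have hcy : (a * b) * (h * k) * (a * b)⁻¹ = (h * k)⁻¹ := by
      rw [hconj2 (a * b) h k, hch, hck, hc.eq, mul_inv_rev]
    rcases hS' (h * k) (a * b) (V.mul_mem ha hb) hyo hcy with e | e | e
    · rw [hconj2 a h k, hah, hak] at e
      have e2 : h⁻¹ = h := mul_right_cancel e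
      exact hh1 (odd_eq_one_of_inv_eq h hh e2)
    · rw [hconj2 b h k, hbh, hbk] at e
      have e2 : k⁻¹ = k := mul_left_cancel e
      exact hk1 (odd_eq_one_of_inv_eq k hk e2)
    · rw [hcy] at e
      have hy1 : h * k = 1 := odd_eq_one_of_inv_eq (h * k) hyo e
      have hk' : k = h⁻¹ := eq_inv_of_mul_eq_one_right hy1
      rw [hk'] at hak
      have e2 : h⁻¹ = h := by
        calc h⁻¹ = a * h⁻¹ * a⁻¹ := hak.symm
          _ = (a * h * a⁻¹)⁻¹ := by group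
          _ = h := by rw [hah, inv_inv]
      exact hh1 (odd_eq_one_of_inv_eq h hh e2)
  have hxo : Odd (orderOf (h * k * h⁻¹)) := by
    have h1 := (MulAut.conj h).orderOf_eq k
    rw [MulAut.conj_apply] at h1
    rw [h1]
    exact hk
  have hbx : b * (h * k * h⁻¹) * b⁻¹ = (h * k * h⁻¹)⁻¹ := by
    rw [hconj b h k, hbh, hbk]
    group
  rcases hS' (h * k * h⁻¹) b hb hxo hbx with e | e | e
  · rw [hconj a h k, hah, hak] at e
    have hc2 : h ^ 2 * k * (h ^ 2)⁻¹ = k := by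
      calc h ^ 2 * k * (h ^ 2)⁻¹ = h * (h * k * h⁻¹) * h⁻¹ := by rw [pow_two]; group
        _ = h * (h⁻¹ * k * h⁻¹⁻¹) * h⁻¹ := by rw [e]
        _ = k := by group
    exact step2 (odd_comm_of_sq h k hh (mul_inv_eq_iff_eq_mul.1 hc2))
  · rw [hbx] at e
    have hx1 := odd_eq_one_of_inv_eq _ hxo e
    exact hk1 (conj_eq_one_iff.1 hx1)
  · rw [hconj (a * b) h k, hch, hck] at e
    have hinv2 : h ^ 2 * k * (h ^ 2)⁻¹ = k⁻¹ := by
      calc h ^ 2 * k * (h ^ 2)⁻¹ = h * (h * k * h⁻¹) * h⁻¹ := by rw [pow_two]; group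
        _ = h * (h⁻¹ * k⁻¹ * h⁻¹⁻¹) * h⁻¹ := by rw [e]
        _ = k⁻¹ := by group
    have ho2 : Odd (orderOf (h ^ 2)) := Odd.of_dvd_nat hh (orderOf_pow_dvd 2)
    exact hk1 (odd_not_invert (h ^ 2) k ho2 hk hinv2)

/-- Let G be a finite group and V a nontrivial elementary abelian 2-subgroup of G of order at most 4 such that, whenever an element of V inverts an element h of G of odd order, some nontrivial element of V commutes with h. Then V meets O₂(G) nontrivially. (The case of order at most 4 has a short argument from the Baer–Suzuki theorem.) -/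
theorem result {G : Type*} [Group G] [Finite G] (V : Subgroup G) (hV : Cfsg.IsElementaryAbelian 2 V) (hV1 : V ≠ ⊥) (hS : Cfsg.IsSidkiPair V) (h4 : Nat.card V ≤ 4) : V ⊓ Cfsg.pCore 2 G ≠ ⊥ := by
  classical
intro hbot
have hnot : ∀ v ∈ V, v ≠ 1 → ∀ N : Subgroup G, N.Normal → IsPGroup 2 N → v ∉ N := by
  intro v hv hv1 N hNn hNp hvN
  have h1 : v ∈ V ⊓ Cfsg.pCore 2 G :=
    ⟨hv, (le_sSup (show N ∈ {N : Subgroup G | N.Normal ∧ IsPGroup 2 N} from ⟨hNn, hNp⟩)) hvN⟩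
  rw [hbot] at h1
  exact hv1 (Subgroup.mem_bot.1 h1)
have hord : ∀ v ∈ V, v ≠ 1 → orderOf v = 2 := fun v hv hv1 =>
  orderOf_eq_prime (hV.2 v hv) hv1
have hinv : ∀ v ∈ V, v ≠ 1 → ∃ h : G, h ≠ 1 ∧ Odd (orderOf h) ∧ v * h * v⁻¹ = h⁻¹ :=
  fun v hv hv1 =>
    Cfsg.Agent.Helper21.exists_inverted_of_involution v (hord v hv hv1) (hnot v hv hv1)
have hsq : ∀ v ∈ V, v * v = 1 := fun v hv => by
  rw [← pow_two]
  exact hV.2 v hv
have hcomm : ∀ x ∈ V, ∀ y ∈ V, x * y = y * x := fun x hx y hy =>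
  congrArg Subtype.val (hV.1.is_comm.comm ⟨x, hx⟩ ⟨y, hy⟩)
obtain ⟨a, ha, ha1⟩ : ∃ a ∈ V, a ≠ 1 := by
  by_contra hcon
  push Not at hcon
  exact hV1 ((Subgroup.eq_bot_iff_forall _).2 hcon)
obtain ⟨h, hh1, hho, hah⟩ := hinv a ha ha1
obtain ⟨b, hb, hb1, hbh⟩ := hS h a ha hho hah
have hbh' : b * h * b⁻¹ = h := mul_inv_eq_iff_eq_mul.2 hbh
have hba : b ≠ a := by
  rintro rfl
  rw [hbh'] at hah
  exact hh1 (odd_eq_one_of_inv_eq h hho hah.symm)
obtain ⟨k, hk1, hko, hbk⟩ := hinv b hb hb1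
obtain ⟨w, hw, hw1, hwk⟩ := hS k b hb hko hbk
have hwk' : w * k * w⁻¹ = k := mul_inv_eq_iff_eq_mul.2 hwk
have hab1 : a * b ≠ 1 := by
  intro h1
  have h2 : b = a⁻¹ := eq_inv_of_mul_eq_one_right h1
  have h3 : a⁻¹ = a := inv_eq_of_mul_eq_one_left (hsq a ha)
  exact hba (h2.trans h3)
have hVel : ∀ w ∈ V, w = 1 ∨ w = a ∨ w = b ∨ w = a * b := by
  have hsub : ({1, a, b, a * b} : Set G) ⊆ (V : Set G) := by
    intro x hx
    simp only [Set.mem_insert_iff, Set.mem_singleton_iff] at hx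
    rcases hx with rfl | rfl | rfl | rfl
    exacts [V.one_mem, ha, hb, V.mul_mem ha hb]
  have hcard : ({1, a, b, a * b} : Set G).ncard = 4 := by
    rw [Set.ncard_insert_of_notMem, Set.ncard_insert_of_notMem, Set.ncard_pair]
    · intro h1
      exact ha1 (mul_eq_right.1 h1.symm)
    · simp only [Set.mem_insert_iff, Set.mem_singleton_iff, not_or]
      refine ⟨fun h1 => hba h1.symm, fun h1 => hb1 ?_⟩
      exact mul_eq_left.1 h1.symm
    · simp only [Set.mem_insert_iff, Set.mem_singleton_iff, not_or]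
      exact ⟨fun h1 => ha1 h1.symm, fun h1 => hb1 h1.symm, fun h1 => hab1 h1.symm⟩
  have hVn : (V : Set G).ncard ≤ 4 := by
    rw [← Nat.card_coe_set_eq]
    exact h4
  have heq := Set.eq_of_subset_of_ncard_le hsub (by rw [hcard]; exact hVn) (Set.toFinite _)
  intro w hw
  have h1 : w ∈ ({1, a, b, a * b} : Set G) := by
    rw [heq]
    exact hw
  simpa using h1
rcases hVel w hw with rfl | rfl | rfl | rfl
· exact hw1 rfl
· exact sidki_core V hS w b h k ha hb hVel hho hko hh1 hk1 hah hbh' hbk hwk'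
· rw [hwk'] at hbk
  exact hk1 (odd_eq_one_of_inv_eq k hko hbk.symm)
· have habb : a * b * b = a := by rw [mul_assoc, hsq b hb, mul_one]
  have hVel' : ∀ w ∈ V, w = 1 ∨ w = a * b ∨ w = b ∨ w = a * b * b := by
    intro w hw
    rw [habb]
    rcases hVel w hw with h1 | h1 | h1 | h1
    · exact Or.inl h1
    · exact Or.inr (Or.inr (Or.inr h1))
    · exact Or.inr (Or.inr (Or.inl h1))
    · exact Or.inr (Or.inl h1)
  have hch : (a * b) * h * (a * b)⁻¹ = h⁻¹ := by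
    calc (a * b) * h * (a * b)⁻¹ = a * (b * h * b⁻¹) * a⁻¹ := by group
      _ = h⁻¹ := by rw [hbh', hah]
  exact sidki_core V hS (a * b) b h k (V.mul_mem ha hb) hb hVel' hho hko hh1 hk1 hch hbh' hbk hwk'

end Cfsg.Agent.S3011
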