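import Cfsg.Statements.S3012
import Cfsg.Agent.Helper17.Basic
import Mathlib.FieldTheory.Finite.Basic

set_option autoImplicit false
open Cfsg

namespace Cfsg.Agent.S3012

open Cfsg.Agent.Helper17

/-- Let G be a finite group, V a nontrivial elementary abelian 2-subgroup of G satisfying the Sidki pair condition (every odd-order element inverted by an element of V commutes with a nontrivial element of V), and K a normal subgroup of G with V ∩ K = 1. Then the image of V in G/K satisfies the Sidki pair condition in G/K. -/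
theorem result {G : Type*} [Group G] [Finite G] (V K : Subgroup G) [K.Normal] (hV : Cfsg.IsElementaryAbelian 2 V) (hV1 : V ≠ ⊥) (hS : Cfsg.IsSidkiPair V) (hVK : V ⊓ K = ⊥) : Cfsg.IsSidkiPair (V.map (QuotientGroup.mk' K)) := by
  obtain ⟨hVc, hV2⟩ := hV
  intro hbar vbar hvbar hodd hinv
  obtain ⟨v, hvV, rfl⟩ := hvbar
  obtain ⟨h₀, rfl⟩ := QuotientGroup.mk'_surjective K hbar
  set π := QuotientGroup.mk' K with hπ
  obtain ⟨j, hj⟩ := hodd
  have hvv : v * v = 1 := by rw [← pow_two]; exact hV2 v hvV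
  have hvinv : v⁻¹ = v := inv_eq_of_mul_eq_one_left hvv
  set z : G := h₀ ^ (j + 1) * v * (h₀ ^ (j + 1))⁻¹ * v⁻¹ with hz
  have hπz : π z = π h₀ := by
    have e1 : π v * (π h₀ ^ (j + 1))⁻¹ * (π v)⁻¹ = π h₀ ^ (j + 1) := by
      rw [← conj_inv, ← conj_pow, hinv, inv_pow, inv_inv]
    rw [hz]
    simp only [map_mul, map_pow, map_inv]
    rw [mul_assoc (π h₀ ^ (j + 1)) (π v), mul_assoc (π h₀ ^ (j + 1)), e1, ← pow_add]
    have : j + 1 + (j + 1) = orderOf (π h₀) + 1 := by omega
    rw [this, pow_succ, pow_orderOf_eq_one, one_mul]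
  have hvz : v * z * v⁻¹ = z⁻¹ := by
    rw [hz]
    simp only [mul_inv_rev, inv_inv, hvinv]
    simp only [mul_assoc]
    rw [hvv, mul_one]
  have ho : orderOf z ≠ 0 := (orderOf_pos z).ne'
  obtain ⟨a, m, hm, hom⟩ := Nat.exists_eq_two_pow_mul_odd ho
  set k := orderOf (π h₀) with hk
  have hkodd : Odd k := ⟨j, hj⟩
  have hcop : Nat.Coprime (2 ^ a) k := by
    apply Nat.Coprime.pow_left
    exact Nat.coprime_two_left.mpr hkodd
  set e : ℕ := (2 ^ a) ^ (Nat.totient k) with he
  have hemod : e ≡ 1 [MOD k] := Nat.ModEq.pow_totient hcop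
  have hkpos : 0 < k := orderOf_pos _
  have htot : 0 < Nat.totient k := Nat.totient_pos.mpr hkpos
  set z' : G := z ^ e with hz'
  have hπz' : π z' = π h₀ := by
    rw [hz', map_pow, hπz, ← pow_mod_orderOf, ← hk, hemod, pow_mod_orderOf, pow_one]
  have hz'odd : Odd (orderOf z') := by
    have h1 : z' ^ m = 1 := by
      rw [hz', ← pow_mul]
      apply orderOf_dvd_iff_pow_eq_one.mp
      rw [hom, he]
      exact Nat.mul_dvd_mul (dvd_pow_self _ htot.ne') dvd_rfl
    exact Odd.of_dvd_nat hm (orderOf_dvd_of_pow_eq_one h1)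
  have hvz' : v * z' * v⁻¹ = z'⁻¹ := by
    rw [hz', ← conj_pow, hvz, inv_pow]
  obtain ⟨w, hwV, hw1, hwz⟩ := hS z' v hvV hz'odd hvz'
  refine ⟨π w, ⟨w, hwV, rfl⟩, ?_, ?_⟩
  · intro h1
    apply hw1
    have hwK : w ∈ K := by
      have : w ∈ (QuotientGroup.mk' K).ker := by
        rw [MonoidHom.mem_ker]; exact h1
      rwa [QuotientGroup.ker_mk'] at this
    have : w ∈ V ⊓ K := ⟨hwV, hwK⟩
    rw [hVK] at this
    exact Subgroup.mem_bot.mp this
  · rw [← hπz', ← map_mul, ← map_mul, hwz]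

end Cfsg.Agent.S3012
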