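import Cfsg.Statements.S3013
import Cfsg.Agent.Helper17.Basic

set_option autoImplicit false
open Cfsg

namespace Cfsg.Agent.S3013

open Cfsg.Agent.Helper17

/-- Let G be a finite group and V a nontrivial elementary abelian 2-subgroup of G satisfying the Sidki pair condition. Let v ∈ V and let x be an element of odd order inverted by v, and put C = C_G(v) ∩ C_G(x), the centralizer of the dihedral subgroup generated by v and x. Then C ∩ V is nontrivial and satisfies the Sidki pair condition inside C: every odd-order element of C inverted by an element of C ∩ V commutes with a nontrivial element of C ∩ V. -/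
theorem result {G : Type*} [Group G] [Finite G] (V : Subgroup G) (hV : Cfsg.IsElementaryAbelian 2 V) (hV1 : V ≠ ⊥) (hS : Cfsg.IsSidkiPair V) (v x : G) (hv : v ∈ V) (hx : Odd (orderOf x)) (hinv : v * x * v⁻¹ = x⁻¹) (C : Subgroup G) (hC : C = Subgroup.centralizer ({v} : Set G) ⊓ Subgroup.centralizer ({x} : Set G)) : C ⊓ V ≠ ⊥ ∧ Cfsg.IsSidkiPair ((C ⊓ V).subgroupOf C) := by
  subst hC
  obtain ⟨hVc, hV2⟩ := hV
  have comm : ∀ a ∈ V, ∀ b ∈ V, a * b = b * a :=
    fun a ha b hb => comm_of_isMulCommutative V hVc ha hb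
  constructor
  · obtain ⟨w, hwV, hw1, hwx⟩ := hS x v hv hx hinv
    intro hbot
    have hw : w ∈ (Subgroup.centralizer ({v} : Set G) ⊓ Subgroup.centralizer ({x} : Set G)) ⊓ V := by
      refine Subgroup.mem_inf.mpr ⟨Subgroup.mem_inf.mpr ⟨?_, ?_⟩, hwV⟩
      · rw [Subgroup.mem_centralizer_singleton_iff]
        exact comm w hwV v hv
      · rw [Subgroup.mem_centralizer_singleton_iff]
        exact hwx
    rw [hbot] at hw
    exact hw1 (Subgroup.mem_bot.mp hw)
  · intro h u hu hodd hinvh
    have huV : (u : G) ∈ V := (Subgroup.mem_subgroupOf.mp hu).2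
    have huC := u.2
    have hhC := h.2
    rw [Subgroup.mem_inf, Subgroup.mem_centralizer_singleton_iff,
      Subgroup.mem_centralizer_singleton_iff] at huC hhC
    have hodd' : Odd (orderOf (h : G)) := by rwa [Subgroup.orderOf_coe]
    have hinvh' : (u : G) * (h : G) * (u : G)⁻¹ = (h : G)⁻¹ := by
      have := congrArg Subtype.val hinvh
      simpa using this
    have hxh : Commute x (h : G) := hhC.2.symm
    have hoddxh : Odd (orderOf (x * (h : G))) := by
      have hdvd := hxh.orderOf_mul_dvd_lcm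
      exact Odd.of_dvd_nat (hx.mul hodd') (hdvd.trans (Nat.lcm_dvd_mul _ _))
    have hinvxh : (v * (u : G)) * (x * (h : G)) * (v * (u : G))⁻¹ = (x * (h : G))⁻¹ := by
      have e1 : (u : G) * x = x * (u : G) := huC.2
      have e2 : v * (h : G) = (h : G) * v := hhC.1.symm
      have e3 : (h : G)⁻¹ * v⁻¹ = v⁻¹ * (h : G)⁻¹ := by
        rw [← mul_inv_rev, ← mul_inv_rev, e2]
      calc (v * (u : G)) * (x * (h : G)) * (v * (u : G))⁻¹
          = v * ((u : G) * x) * (h : G) * (u : G)⁻¹ * v⁻¹ := by simp [mul_assoc]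
        _ = v * x * ((u : G) * (h : G) * (u : G)⁻¹) * v⁻¹ := by rw [e1]; simp [mul_assoc]
        _ = v * x * (h : G)⁻¹ * v⁻¹ := by rw [hinvh']
        _ = (v * x * v⁻¹) * (h : G)⁻¹ := by rw [mul_assoc (v * x), e3]; simp [mul_assoc]
        _ = x⁻¹ * (h : G)⁻¹ := by rw [hinv]
        _ = (x * (h : G))⁻¹ := by rw [hxh.eq, mul_inv_rev]
    obtain ⟨w, hwV, hw1, hwxh⟩ := hS (x * (h : G)) (v * (u : G)) (V.mul_mem hv huV) hoddxh hinvxh
    have cwv : Commute w v := comm w hwV v hv
    have cwxh : Commute w (x * (h : G)) := hwxh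
    have cw1 : Commute w (v * (x * (h : G)) * v⁻¹) := (cwv.mul_right cwxh).mul_right cwv.inv_right
    have e4 : v * (x * (h : G)) * v⁻¹ = x⁻¹ * (h : G) := by
      have e2 : v * (h : G) = (h : G) * v := hhC.1.symm
      calc v * (x * (h : G)) * v⁻¹ = (v * x * v⁻¹) * (v * (h : G)) * v⁻¹ := by simp [mul_assoc]
        _ = x⁻¹ * (h : G) := by rw [hinv, e2]; simp [mul_assoc]
    rw [e4] at cw1
    have cw2 : Commute w ((x * (h : G)) * (x⁻¹ * (h : G))⁻¹) := cwxh.mul_right cw1.inv_right
    have e5 : (x * (h : G)) * (x⁻¹ * (h : G))⁻¹ = x ^ 2 := by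
      simp [mul_assoc, pow_two]
    rw [e5] at cw2
    have cwx : Commute w x := commute_of_commute_sq_of_odd hx cw2
    have cwh : Commute w (h : G) := by
      have := cwx.inv_right.mul_right cwxh
      simpa using this
    have hwC : w ∈ Subgroup.centralizer ({v} : Set G) ⊓ Subgroup.centralizer ({x} : Set G) := by
      rw [Subgroup.mem_inf, Subgroup.mem_centralizer_singleton_iff,
        Subgroup.mem_centralizer_singleton_iff]
      exact ⟨cwv.eq, cwx.eq⟩
    refine ⟨⟨w, hwC⟩, ?_, ?_, ?_⟩
    · rw [Subgroup.mem_subgroupOf]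
      exact ⟨hwC, hwV⟩
    · intro h1
      apply hw1
      have := congrArg Subtype.val h1
      simpa using this
    · apply Subtype.ext
      simpa using cwh.eq

end Cfsg.Agent.S3013
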