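import Cfsg.Statements.S3014
import Cfsg.Agent.Helper17.TransferM
import Cfsg.Agent.Helper17.RelSylow2
import Cfsg.Agent.Helper17.SylIn
import Cfsg.Agent.Helper17.CharP
import Mathlib

set_option autoImplicit false
open Cfsg

namespace Cfsg.Agent.S3014

open Cfsg.Agent.Helper17

/-- Let G be a finite group and H ≤ M ≤ G subgroups such that for every g ∈ G the subgroup generated by H and g H g⁻¹ meets M exactly in H. If H is a maximal subgroup of M and M is a maximal subgroup of G, then the normal closure of H in G meets M exactly in H. -/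
theorem result {G : Type*} [Group G] [Finite G] (H M : Subgroup G) (hHM : H ≤ M) (hcl : ∀ g : G, (H ⊔ H.map (MulAut.conj g).toMonoidHom) ⊓ M = H) (hmaxH : IsCoatom (H.subgroupOf M)) (hmaxM : IsCoatom M) : Subgroup.normalClosure (H : Set G) ⊓ M = H := by
  classical
  have f1 : ∀ g : G, H.map (MulAut.conj g).toMonoidHom ≤ M →
      H.map (MulAut.conj g).toMonoidHom = H := by
    intro g hg
    have h1 : H ⊔ H.map (MulAut.conj g).toMonoidHom ≤ M := sup_le hHM hg
    have h2 := hcl g
    rw [inf_eq_left.mpr h1] at h2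
    have h3 : H.map (MulAut.conj g).toMonoidHom ≤ H := le_sup_right.trans h2.le
    exact Subgroup.eq_of_le_of_card_ge h3 (card_map_conj H g).ge
  have f2 : ∀ m ∈ M, ∀ h ∈ H, m * h * m⁻¹ ∈ H := by
    intro m hm h hh
    have h1 : H.map (MulAut.conj m).toMonoidHom ≤ M := by
      rintro _ ⟨y, hy, rfl⟩
      exact M.mul_mem (M.mul_mem hm (hHM hy)) (M.inv_mem hm)
    have h2 := f1 m h1
    have h3 := conj_mem_map_conj H m hh
    rw [h2] at h3
    exact h3
  have f3 : ∃ m₀ ∈ M, m₀ ∉ H := by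
    by_contra hcon
    push Not at hcon
    exact hmaxH.1 (Subgroup.subgroupOf_eq_top.mpr hcon)
  have f4 : ∀ X : Subgroup G, H ≤ X → X ≤ M → X = H ∨ X = M := by
    intro X hHX hXM
    have h1 : H.subgroupOf M ≤ X.subgroupOf M :=
      fun y hy => Subgroup.mem_subgroupOf.mpr (hHX (Subgroup.mem_subgroupOf.mp hy))
    rcases hmaxH.le_iff.mp h1 with h2 | h2
    · right
      exact le_antisymm hXM (Subgroup.subgroupOf_eq_top.mp h2)
    · left
      have h3 := Subgroup.subgroupOf_inj.mp h2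
      rw [inf_eq_left.mpr hXM, inf_eq_left.mpr hHM] at h3
      exact h3
  have hHK : H ≤ Subgroup.normalClosure (H : Set G) := Subgroup.le_normalClosure
  rcases f4 (Subgroup.normalClosure (H : Set G) ⊓ M) (le_inf hHK hHM) inf_le_right with h | h
  · exact h
  exfalso
  have hMK : M ≤ Subgroup.normalClosure (H : Set G) := inf_eq_right.mp h
  obtain ⟨m₀, hm₀M, hm₀H⟩ := f3
  have hMN : M ≤ Subgroup.normalizer (H : Set G) := le_normalizer_of_conj_mem M H f2
  by_cases hnorm : Subgroup.normalizer (H : Set G) = ⊤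
  · haveI : H.Normal := Subgroup.normalizer_eq_top_iff.mp hnorm
    rw [Subgroup.normalClosure_eq_self] at hMK
    exact hm₀H (hMK hm₀M)
  have hNM : Subgroup.normalizer (H : Set G) = M := by
    rcases hmaxM.le_iff.mp hMN with h1 | h1
    · exact absurd h1 hnorm
    · exact h1
  by_cases hC : ∀ t : G, t ∉ M → ∀ m : G, m ∈ M → t⁻¹ * m * t ∈ M → t⁻¹ * m * t ∈ H
  · haveI hN : (H.subgroupOf M).Normal := by
      constructor
      rintro ⟨h, hhM⟩ hh ⟨m, hm⟩
      exact Subgroup.mem_subgroupOf.mpr (f2 m hm h (Subgroup.mem_subgroupOf.mp hh))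
    letI : CommGroup (M ⧸ H.subgroupOf M) :=
      { (inferInstance : Group (M ⧸ H.subgroupOf M)) with
        mul_comm := comm_of_coatom_normal (H.subgroupOf M) hmaxH }
    have hV := transfer_eq_of_conj_mem_ker M (QuotientGroup.mk' (H.subgroupOf M))
      (by
        intro t ht m hm h
        rw [QuotientGroup.mk'_apply, QuotientGroup.eq_one_iff]
        exact Subgroup.mem_subgroupOf.mpr (hC t ht m hm h))
    have hHker : (H : Set G) ⊆ (MonoidHom.transfer (QuotientGroup.mk' (H.subgroupOf M))).ker := by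
      intro h hh
      rw [SetLike.mem_coe, MonoidHom.mem_ker]
      have h6 : MonoidHom.transfer (QuotientGroup.mk' (H.subgroupOf M)) h
          = (QuotientGroup.mk' (H.subgroupOf M)) ⟨h, hHM hh⟩ := hV ⟨h, hHM hh⟩
      rw [h6, QuotientGroup.mk'_apply, QuotientGroup.eq_one_iff]
      exact Subgroup.mem_subgroupOf.mpr hh
    have hKker := Subgroup.normalClosure_le_normal hHker
    have h5 := hKker (hMK hm₀M)
    rw [MonoidHom.mem_ker] at h5
    have h6 : MonoidHom.transfer (QuotientGroup.mk' (H.subgroupOf M)) m₀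
        = (QuotientGroup.mk' (H.subgroupOf M)) ⟨m₀, hm₀M⟩ := hV ⟨m₀, hm₀M⟩
    apply hm₀H
    have h7 : (QuotientGroup.mk' (H.subgroupOf M)) ⟨m₀, hm₀M⟩ = 1 := by rw [← h6, h5]
    rw [QuotientGroup.mk'_apply, QuotientGroup.eq_one_iff] at h7
    exact Subgroup.mem_subgroupOf.mp h7
  · push Not at hC
    obtain ⟨t, ht, m, hm, hmM, hmH⟩ := hC
    have hL := hcl t⁻¹
    have hm'n : ∀ y ∈ H.map (MulAut.conj t⁻¹).toMonoidHom,
        (t⁻¹ * m * t) * y * (t⁻¹ * m * t)⁻¹ ∈ H.map (MulAut.conj t⁻¹).toMonoidHom := by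
      rintro _ ⟨h, hh, rfl⟩
      refine ⟨m * h * m⁻¹, f2 m hm h hh, ?_⟩
      simp only [MulEquiv.coe_toMonoidHom, MulAut.conj_apply]; group
    have hLm : (H ⊔ H.map (MulAut.conj t⁻¹).toMonoidHom).map
        (MulAut.conj (t⁻¹ * m * t)).toMonoidHom ≤ H ⊔ H.map (MulAut.conj t⁻¹).toMonoidHom := by
      rw [Subgroup.map_sup]
      apply sup_le_sup
      · rintro _ ⟨h, hh, rfl⟩; exact f2 _ hmM h hh
      · rintro _ ⟨y, hy, rfl⟩; exact hm'n y hy
    have hm'L : t⁻¹ * m * t ∈ Subgroup.normalizer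
        ((H ⊔ H.map (MulAut.conj t⁻¹).toMonoidHom : Subgroup G) : Set G) := by
      apply Subgroup.mem_normalizer_fintype
      intro n hn
      exact hLm (conj_mem_map_conj _ _ hn)
    have hLN : H ⊔ H.map (MulAut.conj t⁻¹).toMonoidHom ≤ Subgroup.normalizer
        ((H ⊔ H.map (MulAut.conj t⁻¹).toMonoidHom : Subgroup G) : Set G) := Subgroup.le_normalizer
    have hHm : H ⊔ Subgroup.zpowers (t⁻¹ * m * t) = M := by
      rcases f4 (H ⊔ Subgroup.zpowers (t⁻¹ * m * t)) le_sup_left
        (sup_le hHM (by rw [Subgroup.zpowers_le]; exact hmM)) with h1 | h1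
      · exfalso
        have h2 : t⁻¹ * m * t ∈ H ⊔ Subgroup.zpowers (t⁻¹ * m * t) :=
          Subgroup.mem_sup_right (Subgroup.mem_zpowers _)
        rw [h1] at h2
        exact hmH h2
      · exact h1
    have hMNL : M ≤ Subgroup.normalizer
        ((H ⊔ H.map (MulAut.conj t⁻¹).toMonoidHom : Subgroup G) : Set G) := by
      rw [← hHm]
      exact sup_le (le_sup_left.trans hLN) (by rw [Subgroup.zpowers_le]; exact hm'L)
    have hNL : Subgroup.normalizer
        ((H ⊔ H.map (MulAut.conj t⁻¹).toMonoidHom : Subgroup G) : Set G) = ⊤ := by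
      rcases hmaxM.le_iff.mp hMNL with h1 | h1
      · exact h1
      · exfalso
        have h2 : H.map (MulAut.conj t⁻¹).toMonoidHom ≤ M := by
          rw [← h1]; exact le_sup_right.trans hLN
        have h3 := f1 t⁻¹ h2
        have h4 : t⁻¹ ∈ Subgroup.normalizer (H : Set G) := mem_normalizer_of_map_conj_eq H h3
        rw [hNM] at h4
        exact ht (by simpa using M.inv_mem h4)
    haveI : (H ⊔ H.map (MulAut.conj t⁻¹).toMonoidHom).Normal :=
      Subgroup.normalizer_eq_top_iff.mp hNL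
    have hKL : Subgroup.normalClosure (H : Set G) ≤ H ⊔ H.map (MulAut.conj t⁻¹).toMonoidHom :=
      Subgroup.normalClosure_le_normal
        (SetLike.coe_subset_coe.mpr (le_sup_left : H ≤ H ⊔ H.map (MulAut.conj t⁻¹).toMonoidHom))
    have h8 : M ≤ (H ⊔ H.map (MulAut.conj t⁻¹).toMonoidHom) ⊓ M := le_inf (hMK.trans hKL) le_rfl
    rw [hL] at h8
    exact hm₀H (h8 hm₀M)

end Cfsg.Agent.S3014
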