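import Cfsg.Statements.S3015
import Cfsg.Agent.Helper17.TransferM
import Cfsg.Agent.Helper17.RelSylow2
import Cfsg.Agent.Helper17.SylIn
import Cfsg.Agent.Helper17.CharP
import Cfsg.Agent.Helper17.CD
import Mathlib

set_option autoImplicit false
open Cfsg

namespace Cfsg.Agent.S3015

open Cfsg.Agent.Helper17

/-- Let G be a finite non-abelian simple group, M a maximal subgroup of G and H a normal subgroup of M of prime index in M. Then G is generated by H together with one of its conjugates. -/
theorem result {G : Type*} [Group G] [Finite G] [IsSimpleGroup G] (hG : ¬ IsMulCommutative G) (M H : Subgroup G) (hmaxM : IsCoatom M) (hHM : H ≤ M) (hHn : (H.subgroupOf M).Normal) (hidx : (H.relIndex M).Prime) : ∃ g : G, H ⊔ H.map (MulAut.conj g).toMonoidHom = ⊤ := by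
  classical
  haveI : Fact (H.relIndex M).Prime := ⟨hidx⟩
  have f2 : ∀ m ∈ M, ∀ h ∈ H, m * h * m⁻¹ ∈ H := by
    intro m hm h hh
    have := hHn.conj_mem ⟨h, hHM hh⟩ (Subgroup.mem_subgroupOf.mpr hh) ⟨m, hm⟩
    exact Subgroup.mem_subgroupOf.mp this
  have f3 : ∃ m₀ ∈ M, m₀ ∉ H := by
    by_contra hcon
    push Not at hcon
    have h1 : H.relIndex M = 1 := Subgroup.relIndex_eq_one.mpr hcon
    rw [h1] at hidx
    exact Nat.not_prime_one hidx
  have f4 : ∀ X : Subgroup G, H ≤ X → X ≤ M → X = H ∨ X = M := by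
    intro X hHX hXM
    have h1 := Subgroup.relIndex_mul_relIndex H X M hHX hXM
    rcases (Nat.Prime.eq_one_or_self_of_dvd hidx _ (Dvd.intro _ h1)) with h2 | h2
    · left; exact le_antisymm (Subgroup.relIndex_eq_one.mp h2) hHX
    · right
      rw [h2] at h1
      have h3 : X.relIndex M = 1 := by
        have hp := hidx.pos
        exact Nat.eq_of_mul_eq_mul_left hp (h1.trans (mul_one _).symm)
      exact le_antisymm hXM (Subgroup.relIndex_eq_one.mp h3)
  obtain ⟨m₀, hm₀M, hm₀H⟩ := f3
  have hMnn : Subgroup.normalizer (M : Set G) = M := by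
    have h1 : M ≤ Subgroup.normalizer (M : Set G) := Subgroup.le_normalizer
    rcases hmaxM.le_iff.mp h1 with h2 | h2
    · exfalso
      haveI hMn : M.Normal := Subgroup.normalizer_eq_top_iff.mp h2
      rcases hMn.eq_bot_or_eq_top with h3 | h3
      · apply hm₀H
        have h4 : m₀ ∈ (⊥ : Subgroup G) := h3 ▸ hm₀M
        rw [Subgroup.mem_bot] at h4
        rw [h4]; exact H.one_mem
      · exact hmaxM.1 h3
    · exact h2
  have hconjM : ∀ s : G, s ∉ M → M ⊔ M.map (MulAut.conj s).toMonoidHom = ⊤ := by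
    intro s hs
    have h1 : M ≤ M ⊔ M.map (MulAut.conj s).toMonoidHom := le_sup_left
    rcases hmaxM.le_iff.mp h1 with h2 | h2
    · exact h2
    · exfalso
      have h3 : M.map (MulAut.conj s).toMonoidHom ≤ M := sup_eq_left.mp h2
      have h4 : M.map (MulAut.conj s).toMonoidHom = M :=
        Subgroup.eq_of_le_of_card_ge h3 (card_map_conj M s).ge
      have h5 : s ∈ Subgroup.normalizer (M : Set G) := mem_normalizer_of_map_conj_eq M h4
      rw [hMnn] at h5
      exact hs h5
  by_cases hC : ∀ t : G, t ∉ M → ∀ m : G, m ∈ M → t⁻¹ * m * t ∈ M → t⁻¹ * m * t ∈ H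
  · exfalso
    haveI hN : (H.subgroupOf M).Normal := hHn
    have hcard : Nat.card (M ⧸ H.subgroupOf M) = H.relIndex M := rfl
    haveI : IsCyclic (M ⧸ H.subgroupOf M) := isCyclic_of_prime_card hcard
    letI : CommGroup (M ⧸ H.subgroupOf M) := IsCyclic.commGroup
    have hV := transfer_eq_of_conj_mem_ker M (QuotientGroup.mk' (H.subgroupOf M))
      (by
        intro t ht m hm h
        rw [QuotientGroup.mk'_apply, QuotientGroup.eq_one_iff]
        exact Subgroup.mem_subgroupOf.mpr (hC t ht m hm h))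
    rcases (MonoidHom.normal_ker
      (MonoidHom.transfer (QuotientGroup.mk' (H.subgroupOf M)))).eq_bot_or_eq_top with hbot | htop
    · apply hG
      refine ⟨⟨fun a b => ?_⟩⟩
      have hinj := (MonoidHom.ker_eq_bot_iff _).1 hbot
      apply hinj
      rw [map_mul, map_mul, mul_comm]
    · have h5 : m₀ ∈ (MonoidHom.transfer (QuotientGroup.mk' (H.subgroupOf M))).ker := by
        rw [htop]; trivial
      rw [MonoidHom.mem_ker] at h5
      have h6 : MonoidHom.transfer (QuotientGroup.mk' (H.subgroupOf M)) m₀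
          = (QuotientGroup.mk' (H.subgroupOf M)) ⟨m₀, hm₀M⟩ := hV ⟨m₀, hm₀M⟩
      apply hm₀H
      have h7 : (QuotientGroup.mk' (H.subgroupOf M)) ⟨m₀, hm₀M⟩ = 1 := by rw [← h6, h5]
      rw [QuotientGroup.mk'_apply, QuotientGroup.eq_one_iff] at h7
      exact Subgroup.mem_subgroupOf.mp h7
  · push Not at hC
    obtain ⟨t, ht, m, hm, hmM, hmH⟩ := hC
    have hts : t⁻¹ ∉ M := fun h => ht (by simpa using M.inv_mem h)
    have hm'n : ∀ y ∈ H.map (MulAut.conj t⁻¹).toMonoidHom,
        (t⁻¹ * m * t) * y * (t⁻¹ * m * t)⁻¹ ∈ H.map (MulAut.conj t⁻¹).toMonoidHom := by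
      rintro _ ⟨h, hh, rfl⟩
      refine ⟨m * h * m⁻¹, f2 m hm h hh, ?_⟩
      simp only [MulEquiv.coe_toMonoidHom, MulAut.conj_apply]; group
    have hLm : (H ⊔ H.map (MulAut.conj t⁻¹).toMonoidHom).map
        (MulAut.conj (t⁻¹ * m * t)).toMonoidHom ≤ H ⊔ H.map (MulAut.conj t⁻¹).toMonoidHom := by
      rw [Subgroup.map_sup]
      apply sup_le_sup
      · rintro _ ⟨h, hh, rfl⟩; exact f2 _ hmM h hh
      · rintro _ ⟨y, hy, rfl⟩; exact hm'n y hy
    have hm'L : t⁻¹ * m * t ∈ Subgroup.normalizer
        ((H ⊔ H.map (MulAut.conj t⁻¹).toMonoidHom : Subgroup G) : Set G) := by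
      apply Subgroup.mem_normalizer_fintype
      intro n hn
      exact hLm (conj_mem_map_conj _ _ hn)
    have hLN : H ⊔ H.map (MulAut.conj t⁻¹).toMonoidHom ≤ Subgroup.normalizer
        ((H ⊔ H.map (MulAut.conj t⁻¹).toMonoidHom : Subgroup G) : Set G) := Subgroup.le_normalizer
    have hHm : H ⊔ Subgroup.zpowers (t⁻¹ * m * t) = M := by
      rcases f4 (H ⊔ Subgroup.zpowers (t⁻¹ * m * t)) le_sup_left
        (sup_le hHM (by rw [Subgroup.zpowers_le]; exact hmM)) with h1 | h1
      · exfalso
        have h2 : t⁻¹ * m * t ∈ H ⊔ Subgroup.zpowers (t⁻¹ * m * t) :=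
          Subgroup.mem_sup_right (Subgroup.mem_zpowers _)
        rw [h1] at h2
        exact hmH h2
      · exact h1
    have hMNL : M ≤ Subgroup.normalizer
        ((H ⊔ H.map (MulAut.conj t⁻¹).toMonoidHom : Subgroup G) : Set G) := by
      rw [← hHm]
      exact sup_le (le_sup_left.trans hLN) (by rw [Subgroup.zpowers_le]; exact hm'L)
    by_cases hH' : H.map (MulAut.conj t⁻¹).toMonoidHom ≤ M
    · exfalso
      have hE1 : ∀ x ∈ M, (orderOf x).Coprime (H.relIndex M) → x ∈ H := by
        intro x hxM hx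
        haveI hN : (H.subgroupOf M).Normal := hHn
        have hcard : Nat.card (M ⧸ H.subgroupOf M) = H.relIndex M := rfl
        have h0 : orderOf (⟨x, hxM⟩ : M) = orderOf x :=
          (Subgroup.orderOf_coe (⟨x, hxM⟩ : M)).symm
        have h1 : orderOf ((QuotientGroup.mk' (H.subgroupOf M)) ⟨x, hxM⟩) ∣ orderOf x := by
          have := orderOf_map_dvd (QuotientGroup.mk' (H.subgroupOf M)) (⟨x, hxM⟩ : M)
          rwa [h0] at this
        have h2 : orderOf ((QuotientGroup.mk' (H.subgroupOf M)) ⟨x, hxM⟩) ∣ H.relIndex M := by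
          rw [← hcard]; exact orderOf_dvd_natCard _
        have h3 : orderOf ((QuotientGroup.mk' (H.subgroupOf M)) ⟨x, hxM⟩) = 1 := by
          have h4 := Nat.dvd_gcd h1 h2
          rw [hx.gcd_eq_one] at h4
          exact Nat.dvd_one.mp h4
        have h4 := orderOf_eq_one_iff.mp h3
        rw [QuotientGroup.mk'_apply, QuotientGroup.eq_one_iff] at h4
        exact Subgroup.mem_subgroupOf.mp h4
      have hEn : ∀ g : G, ∀ x ∈ ({x | x ∈ M ∧ (orderOf x).Coprime (H.relIndex M)} : Set G),
          g * x * g⁻¹ ∈ ({x | x ∈ M ∧ (orderOf x).Coprime (H.relIndex M)} : Set G) := by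
        have hMN : M ≤ Subgroup.normalizer
            ({x | x ∈ M ∧ (orderOf x).Coprime (H.relIndex M)} : Set G) := by
          intro m hm
          apply Subgroup.mem_normalizer_fintype
          rintro x ⟨hxM, hx⟩
          exact ⟨M.mul_mem (M.mul_mem hm hxM) (M.inv_mem hm), by rw [orderOf_conj_eq]; exact hx⟩
        have htN : t⁻¹ ∈ Subgroup.normalizer
            ({x | x ∈ M ∧ (orderOf x).Coprime (H.relIndex M)} : Set G) := by
          apply Subgroup.mem_normalizer_fintype
          rintro x ⟨hxM, hx⟩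
          exact ⟨hH' (conj_mem_map_conj H t⁻¹ (hE1 x hxM hx)), by rw [orderOf_conj_eq]; exact hx⟩
        have hNtop : Subgroup.normalizer
            ({x | x ∈ M ∧ (orderOf x).Coprime (H.relIndex M)} : Set G) = ⊤ := by
          rcases hmaxM.le_iff.mp hMN with h1 | h1
          · exact h1
          · exfalso; rw [h1] at htN; exact hts htN
        intro g x hx
        have hg : g ∈ Subgroup.normalizer
            ({x | x ∈ M ∧ (orderOf x).Coprime (H.relIndex M)} : Set G) := by rw [hNtop]; trivial
        exact (Subgroup.mem_set_normalizer_iff.mp hg x).mp hx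
      have hEK : Subgroup.normalClosure
          ({x | x ∈ M ∧ (orderOf x).Coprime (H.relIndex M)} : Set G) ≤ M := by
        rw [Subgroup.normalClosure, Subgroup.closure_le]
        intro y hy
        rw [Group.mem_conjugatesOfSet_iff] at hy
        obtain ⟨a, ha, hconj⟩ := hy
        obtain ⟨c, rfl⟩ := isConj_iff.mp hconj
        exact (hEn c a ha).1
      have hKbot : Subgroup.normalClosure
          ({x | x ∈ M ∧ (orderOf x).Coprime (H.relIndex M)} : Set G) = ⊥ := by
        rcases (Subgroup.normalClosure_normal (s := ({x | x ∈ M ∧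
          (orderOf x).Coprime (H.relIndex M)} : Set G))).eq_bot_or_eq_top with h3 | h3
        · exact h3
        · exfalso; rw [h3] at hEK; exact hmaxM.1 (top_le_iff.mp hEK)
      have hMp : IsPGroup (H.relIndex M) M := by
        apply isPGroup_of_coprime_eq_one
        intro x hxM hx
        have h1 : x ∈ Subgroup.normalClosure
            ({x | x ∈ M ∧ (orderOf x).Coprime (H.relIndex M)} : Set G) :=
          Subgroup.subset_normalClosure ⟨hxM, hx⟩
        rw [hKbot, Subgroup.mem_bot] at h1
        exact h1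
      have hH'n : ((H.map (MulAut.conj t⁻¹).toMonoidHom).subgroupOf M).Normal := by
        apply Subgroup.normal_of_index_eq_minFac_card
        have e1 := card_eq_card_mul_relIndex hH'
        have e2 := card_eq_card_mul_relIndex hHM
        rw [card_map_conj] at e1
        have hHpos : 0 < Nat.card H := Nat.card_pos
        have h1 : (H.map (MulAut.conj t⁻¹).toMonoidHom).relIndex M = H.relIndex M :=
          Nat.eq_of_mul_eq_mul_left hHpos (e1.symm.trans e2)
        obtain ⟨n, hn⟩ := IsPGroup.iff_card.mp hMp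
        have hn0 : n ≠ 0 := by
          rintro rfl
          rw [pow_zero] at hn
          rw [hn] at e2
          have h2 : H.relIndex M ∣ 1 := Dvd.intro_left _ e2.symm
          exact hidx.one_lt.ne' (Nat.dvd_one.mp h2)
        show (H.map (MulAut.conj t⁻¹).toMonoidHom).relIndex M = (Nat.card M).minFac
        rw [h1, hn, Nat.pow_minFac hn0, Nat.Prime.minFac_eq hidx]
      have hH'N1 : M ≤ Subgroup.normalizer
          ((H.map (MulAut.conj t⁻¹).toMonoidHom : Subgroup G) : Set G) := by
        apply le_normalizer_of_conj_mem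
        intro m hm y hy
        have := hH'n.conj_mem ⟨y, hH' hy⟩ (Subgroup.mem_subgroupOf.mpr hy) ⟨m, hm⟩
        exact Subgroup.mem_subgroupOf.mp this
      have hH'N2 : M.map (MulAut.conj t⁻¹).toMonoidHom ≤ Subgroup.normalizer
          ((H.map (MulAut.conj t⁻¹).toMonoidHom : Subgroup G) : Set G) := by
        apply le_normalizer_of_conj_mem
        rintro _ ⟨m, hm, rfl⟩ _ ⟨h, hh, rfl⟩
        refine ⟨m * h * m⁻¹, f2 m hm h hh, ?_⟩
        simp only [MulEquiv.coe_toMonoidHom, MulAut.conj_apply]; group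
      have hH'top : Subgroup.normalizer
          ((H.map (MulAut.conj t⁻¹).toMonoidHom : Subgroup G) : Set G) = ⊤ :=
        top_le_iff.mp ((hconjM t⁻¹ hts).symm.le.trans (sup_le hH'N1 hH'N2))
      have hH'nG : (H.map (MulAut.conj t⁻¹).toMonoidHom).Normal :=
        Subgroup.normalizer_eq_top_iff.mp hH'top
      have hH'bot : H.map (MulAut.conj t⁻¹).toMonoidHom = ⊥ := by
        rcases hH'nG.eq_bot_or_eq_top with h3 | h3
        · exact h3
        · exfalso; rw [h3] at hH'; exact hmaxM.1 (top_le_iff.mp hH')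
      have hHbot : H = ⊥ :=
        (Subgroup.map_eq_bot_iff_of_injective H (MulAut.conj t⁻¹).injective).mp hH'bot
      have hX := f4 (M ⊓ M.map (MulAut.conj t⁻¹).toMonoidHom) (by rw [hHbot]; exact bot_le)
        inf_le_left
      have hmem : t⁻¹ * m * t ∈ M ⊓ M.map (MulAut.conj t⁻¹).toMonoidHom := by
        refine ⟨hmM, ?_⟩
        have := conj_mem_map_conj M t⁻¹ hm
        simpa using this
      rcases hX with h1 | h1
      · rw [h1] at hmem; exact hmH hmem
      · have h3 : M ≤ M.map (MulAut.conj t⁻¹).toMonoidHom := inf_eq_left.mp h1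
        have h4 : M.map (MulAut.conj t⁻¹).toMonoidHom = M :=
          (Subgroup.eq_of_le_of_card_ge h3 (card_map_conj M t⁻¹).le).symm
        have h5 := hconjM t⁻¹ hts
        rw [h4, sup_idem] at h5
        exact hmaxM.1 h5
    · refine ⟨t⁻¹, ?_⟩
      have hNL : Subgroup.normalizer
          ((H ⊔ H.map (MulAut.conj t⁻¹).toMonoidHom : Subgroup G) : Set G) = ⊤ := by
        rcases hmaxM.le_iff.mp hMNL with h1 | h1
        · exact h1
        · exfalso; apply hH'; rw [← h1]; exact le_sup_right.trans hLN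
      have hLn : (H ⊔ H.map (MulAut.conj t⁻¹).toMonoidHom).Normal :=
        Subgroup.normalizer_eq_top_iff.mp hNL
      rcases hLn.eq_bot_or_eq_top with h3 | h3
      · exfalso; apply hH'
        have h4 : H.map (MulAut.conj t⁻¹).toMonoidHom ≤
            H ⊔ H.map (MulAut.conj t⁻¹).toMonoidHom := le_sup_right
        rw [h3] at h4
        exact h4.trans bot_le
      · exact h3

end Cfsg.Agent.S3015
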