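import Cfsg.Statements.S3020
import Cfsg.Agent.Helper17.PCore

set_option autoImplicit false
open Cfsg

namespace Cfsg.Agent.S3020

open Cfsg.Agent.Helper17

/-- Let G be a finite group, p a prime and H an abelian p-subgroup of G that is extremely closed (for every g, the subgroup generated by H and g H g⁻¹ meets N_G(H) exactly in H). Then for every g ∈ G, the subgroup T generated by H and g H g⁻¹ is the product of H with O_{p'}(T), and H meets O_{p'}(T) trivially; that is, O_{p'}(T) is a normal p-complement of H in T. -/
theorem result {G : Type*} [Group G] [Finite G] {p : ℕ} [Fact p.Prime] (H : Subgroup G) (hHp : IsPGroup p H) (hHab : IsMulCommutative H) (hcl : Cfsg.IsExtremelyClosed H) (g : G) (T : Subgroup G) (hT : T = H ⊔ H.map (MulAut.conj g).toMonoidHom) : H ⊔ (Cfsg.pPrimeCore p ↥T).map T.subtype = T ∧ H ⊓ (Cfsg.pPrimeCore p ↥T).map T.subtype = ⊥ := by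
  have hHT : H ≤ T := by rw [hT]; exact le_sup_left
  have hTN : T ⊓ Subgroup.normalizer (H : Set G) = H := by rw [hT]; exact hcl g
  have hmapH : (H.subgroupOf T).map T.subtype = H := by
    rw [Subgroup.subgroupOf_map_subtype]; exact inf_eq_left.mpr hHT
  -- H is a Sylow p-subgroup of T
  let P : Sylow p T :=
    { toSubgroup := H.subgroupOf T
      isPGroup' := hHp.comap_of_injective T.subtype T.subtype_injective
      is_maximal' := by
        intro Q hQ hle
        have hQ0 : IsPGroup p (Q.map T.subtype) := hQ.map _
        have hHQ0 : H ≤ Q.map T.subtype := by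
          rw [← hmapH]; exact Subgroup.map_mono hle
        have heq : H = Q.map T.subtype := by
          by_contra hne
          obtain ⟨x, hxQ, hxH, hxN⟩ := exists_normalizer_mem_not_mem H _ hQ0 hHQ0 hne
          have hxT : x ∈ T := Subgroup.map_subtype_le Q hxQ
          have : x ∈ T ⊓ Subgroup.normalizer (H : Set G) := Subgroup.mem_inf.mpr ⟨hxT, hxN⟩
          rw [hTN] at this
          exact hxH this
        apply Subgroup.map_injective T.subtype_injective
        rw [hmapH, ← heq] }
  have hPmap : (P : Subgroup T).map T.subtype = H := hmapH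
  have hNC : Subgroup.normalizer ((P : Subgroup T) : Set T) ≤ Subgroup.centralizer ((P : Subgroup T) : Set T) := by
    intro n hn
    have hnN : (n : G) ∈ Subgroup.normalizer (H : Set G) := by
      rw [Subgroup.mem_normalizer_iff]
      intro h
      have key := Subgroup.mem_normalizer_iff.mp hn
      constructor
      · intro hh
        have := (key ⟨h, hHT hh⟩).mp (Subgroup.mem_subgroupOf.mpr hh)
        exact Subgroup.mem_subgroupOf.mp this
      · intro hh
        have hhT : h ∈ T := by
          have h1 : (n : G)⁻¹ * ((n : G) * h * (n : G)⁻¹) * (n : G) ∈ T :=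
            T.mul_mem (T.mul_mem (T.inv_mem n.2) (hHT hh)) n.2
          simpa [mul_assoc] using h1
        have := (key ⟨h, hhT⟩).mpr (Subgroup.mem_subgroupOf.mpr hh)
        exact Subgroup.mem_subgroupOf.mp this
    have hnH : (n : G) ∈ H := by
      have : (n : G) ∈ T ⊓ Subgroup.normalizer (H : Set G) := Subgroup.mem_inf.mpr ⟨n.2, hnN⟩
      rwa [hTN] at this
    rw [Subgroup.mem_centralizer_iff]
    intro y hy
    have hyH : (y : G) ∈ H := Subgroup.mem_subgroupOf.mp hy
    apply Subtype.ext
    exact comm_of_isMulCommutative H hHab hyH hnH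
  have hcompl := MonoidHom.ker_transferSylow_isComplement' P hNC
  have hcore := pPrimeCore_eq_of_normal_complement P _ hcompl
  rw [hcore]
  have hsup := hcompl.sup_eq_top
  have hdisj := hcompl.disjoint
  constructor
  · have h1 : ((MonoidHom.transferSylow P hNC).ker ⊔ (P : Subgroup T)).map T.subtype = T := by
      rw [hsup, ← MonoidHom.range_eq_map, Subgroup.range_subtype]
    rw [Subgroup.map_sup, hPmap] at h1
    rw [sup_comm]; exact h1
  · have h1 : ((MonoidHom.transferSylow P hNC).ker ⊓ (P : Subgroup T)).map T.subtype = ⊥ := by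
      rw [disjoint_iff.mp hdisj, Subgroup.map_bot]
    rw [Subgroup.map_inf _ _ _ T.subtype_injective, hPmap] at h1
    rw [inf_comm]; exact h1

end Cfsg.Agent.S3020
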