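import Cfsg.Statements.S3021
import Cfsg.Agent.Helper17.Basic

set_option autoImplicit false
open Cfsg

namespace Cfsg.Agent.S3021

open Cfsg.Agent.Helper17

/-- Let G be a finite group, p a prime and H a p-subgroup of G that is extremely closed (for every g, the subgroup generated by H and g H g⁻¹ meets N_G(H) exactly in H). Then every p-subgroup Q of G containing H has N_G(Q) ≤ N_G(H); in particular every Sylow p-subgroup P of G containing H normalizes H, and H is strongly closed in P with respect to G. -/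
theorem result {G : Type*} [Group G] [Finite G] {p : ℕ} [Fact p.Prime] (H : Subgroup G) (hHp : IsPGroup p H) (hcl : Cfsg.IsExtremelyClosed H) : (∀ Q : Subgroup G, IsPGroup p Q → H ≤ Q → Subgroup.normalizer (Q : Set G) ≤ Subgroup.normalizer (H : Set G)) ∧ ∀ P : Sylow p G, H ≤ (P : Subgroup G) → (P : Subgroup G) ≤ Subgroup.normalizer (H : Set G) ∧ Cfsg.IsStronglyClosed H (P : Subgroup G) := by
  have key : ∀ Q : Subgroup G, IsPGroup p Q → H ≤ Q →
      Subgroup.normalizer (Q : Set G) ≤ Subgroup.normalizer (H : Set G) := by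
    intro Q hQ hHQ
    rw [Subgroup.le_normalizer_iff]
    intro g hg h hh
    have hTQ : H ⊔ H.map (MulAut.conj g).toMonoidHom ≤ Q := by
      refine sup_le hHQ ?_
      rintro _ ⟨y, hy, rfl⟩
      exact ((Subgroup.mem_normalizer_iff.mp hg) y).mp (hHQ hy)
    have hT : IsPGroup p ↥(H ⊔ H.map (MulAut.conj g).toMonoidHom) := hQ.to_le hTQ
    by_contra hcon
    have hne : H ≠ H ⊔ H.map (MulAut.conj g).toMonoidHom := by
      intro h'
      apply hcon
      rw [h']
      exact (le_sup_right : H.map (MulAut.conj g).toMonoidHom ≤ _) (conj_mem_map_conj H g hh)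
    obtain ⟨x, hxT, hxH, hxN⟩ := exists_normalizer_mem_not_mem H _ hT le_sup_left hne
    have hx : x ∈ (H ⊔ H.map (MulAut.conj g).toMonoidHom) ⊓ Subgroup.normalizer (H : Set G) :=
      ⟨hxT, hxN⟩
    rw [hcl g] at hx
    exact hxH hx
  refine ⟨key, ?_⟩
  intro P hHP
  have hPN : (P : Subgroup G) ≤ Subgroup.normalizer (H : Set G) :=
    Subgroup.le_normalizer.trans (key P P.2 hHP)
  refine ⟨hPN, hHP, ?_⟩
  intro x hx g hgx
  have h1 : g * x * g⁻¹ ∈ (H ⊔ H.map (MulAut.conj g).toMonoidHom) ⊓ Subgroup.normalizer (H : Set G) :=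
    ⟨(le_sup_right : H.map (MulAut.conj g).toMonoidHom ≤ _) (conj_mem_map_conj H g hx), hPN hgx⟩
  rw [hcl g] at h1
  exact h1

end Cfsg.Agent.S3021
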