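import Cfsg.Statements.S3023
import Cfsg.Agent.Helper17.SylIn

set_option autoImplicit false
open Cfsg

namespace Cfsg.Agent.S3023

open Cfsg.Agent.Helper17

/-- Let p be a prime, G a finite group of parabolic characteristic p (every p-local subgroup containing a Sylow p-subgroup of G has characteristic p), S a Sylow p-subgroup of G and G₁ a subnormal subgroup of G. If the centre of S ∩ G₁ is nontrivial and contained in the centre of S, then G₁ has parabolic characteristic p. -/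
theorem result {G : Type*} [Group G] [Finite G] {p : ℕ} [Fact p.Prime] (hG : Cfsg.IsOfParabolicCharacteristic p G) (S : Sylow p G) (G₁ : Subgroup G) (hsn : G₁.IsSubnormal) (hne : ((S : Subgroup G) ⊓ G₁) ⊓ Subgroup.centralizer (((S : Subgroup G) ⊓ G₁ : Subgroup G) : Set G) ≠ ⊥) (hle : ((S : Subgroup G) ⊓ G₁) ⊓ Subgroup.centralizer (((S : Subgroup G) ⊓ G₁ : Subgroup G) : Set G) ≤ (S : Subgroup G) ⊓ Subgroup.centralizer ((S : Subgroup G) : Set G)) : Cfsg.IsOfParabolicCharacteristic p ↥G₁ := by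
  rintro R hRp hR1 ⟨T₁, hT₁⟩
  rw [← charPA_iff]
  apply charPA_of_map_subtype
  rw [map_subtype_normalizer, inf_comm]
  have hR'G₁ : R.map G₁.subtype ≤ G₁ := Subgroup.map_subtype_le _
  have hR'p : IsPGroup p (R.map G₁.subtype) := hRp.map _
  have hR'1 : R.map G₁.subtype ≠ ⊥ := by
    intro h
    apply hR1
    rw [Subgroup.map_eq_bot_iff_of_injective _ G₁.subtype_injective] at h
    exact h
  have hsyl := sylIn_inf_of_subnormal S hsn
  have hsyl' : SylIn p ((T₁ : Subgroup G₁).map G₁.subtype) G₁ := ⟨T₁, rfl⟩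
  obtain ⟨h, hh, e⟩ := hsyl.exists_conj_eq hsyl'
  have hmemS'' : ∀ y : G, y ∈ ((h • S : Sylow p G) : Subgroup G) ↔ h⁻¹ * y * h ∈ (S : Subgroup G) := by
    intro y
    rw [sylow_smul_coe, mem_map_conj]
  have hnG₁ : ∀ y : G, y ∈ G₁ ↔ h⁻¹ * y * h ∈ G₁ := by
    intro y
    constructor
    · intro hy
      exact G₁.mul_mem (G₁.mul_mem (G₁.inv_mem hh) hy) hh
    · intro hy
      have := G₁.mul_mem (G₁.mul_mem hh hy) (G₁.inv_mem hh)
      simpa [mul_assoc] using this
  have hT : (T₁ : Subgroup G₁).map G₁.subtype = ((h • S : Sylow p G) : Subgroup G) ⊓ G₁ := by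
    rw [e]
    ext y
    rw [mem_map_conj, Subgroup.mem_inf, Subgroup.mem_inf, hmemS'', ← hnG₁]
  have hZ : ∀ x ∈ (T₁ : Subgroup G₁).map G₁.subtype,
      (∀ t ∈ (T₁ : Subgroup G₁).map G₁.subtype, t * x = x * t) → x ^ p = 1 →
      ∀ s ∈ ((h • S : Sylow p G) : Subgroup G), s * x = x * s := by
    intro x hx hxc _ s hs
    rw [e] at hx hxc
    have ha : h⁻¹ * x * h ∈ (S : Subgroup G) ⊓ G₁ := (mem_map_conj _ h x).mp hx
    have hac : h⁻¹ * x * h ∈ Subgroup.centralizer (((S : Subgroup G) ⊓ G₁ : Subgroup G) : Set G) := by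
      rw [Subgroup.mem_centralizer_iff]
      intro b hb
      have h2 := hxc (h * b * h⁻¹) (conj_mem_map_conj _ h hb)
      calc b * (h⁻¹ * x * h) = h⁻¹ * ((h * b * h⁻¹) * x) * h := by group
        _ = h⁻¹ * (x * (h * b * h⁻¹)) * h := by rw [h2]
        _ = h⁻¹ * x * h * b := by group
    have h5 := (Subgroup.mem_inf.mp (hle (Subgroup.mem_inf.mpr ⟨ha, hac⟩))).2
    have h6 := Subgroup.mem_centralizer_iff.mp h5 _ ((hmemS'' s).mp hs)
    calc s * x = h * ((h⁻¹ * s * h) * (h⁻¹ * x * h)) * h⁻¹ := by group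
      _ = h * ((h⁻¹ * x * h) * (h⁻¹ * s * h)) * h⁻¹ := by rw [h6]
      _ = x * s := by group
  have hmax := sylow_map_subtype_max G₁ T₁
  have hTN : (T₁ : Subgroup G₁).map G₁.subtype
      ≤ Subgroup.normalizer ((R.map G₁.subtype : Subgroup G) : Set G) := by
    have h1 := Subgroup.map_mono (f := G₁.subtype) hT₁
    rw [map_subtype_normalizer] at h1
    exact h1.trans inf_le_left
  exact charPA_parabolic_inf
    (fun R h1 h2 h3 => (charPA_iff _).mpr (hG R h1 h2 h3)) G₁
    (fun M hM => charPA_inf_of_subnormal hM hsn)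
    (h • S) _ hT hmax hZ _ hR'G₁ hR'p hR'1 hTN

end Cfsg.Agent.S3023
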