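import Cfsg.Statements.S3025
import Cfsg.Agent.Helper1.Quat
import Cfsg.Agent.Helper17.CharP

set_option autoImplicit false
open Cfsg

namespace Cfsg.Agent.S3025

open Cfsg.Agent.Helper17

/-- Let F be a finite group and H a nontrivial subgroup of F that is contained in every nontrivial subgroup of F which H normalizes. Then F has a nontrivial normal subgroup N contained in every nontrivial normal subgroup of F (a unique minimal normal subgroup), N is simple, and one of the following holds: C_F(N) = 1; or H = N has prime order p, C_F(N) is cyclic of order a power of p, and F/C_F(N) is cyclic of order dividing p − 1; or H = N has order 2, N is central in F, and F is a generalized quaternion group. -/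
theorem result {F : Type*} [Group F] [Finite F] (H : Subgroup F) (hH : H ≠ ⊥)
    (hmin : ∀ R : Subgroup F, R ≠ ⊥ → H ≤ Subgroup.normalizer (R : Set F) → H ≤ R) :
    ∃ N : Subgroup F, N.Normal ∧ N ≠ ⊥ ∧ (∀ M : Subgroup F, M.Normal → M ≠ ⊥ → N ≤ M) ∧ IsSimpleGroup ↥N ∧
      (Subgroup.centralizer (N : Set F) = ⊥ ∨
       (H = N ∧ (Nat.card N).Prime ∧ IsCyclic ↥(Subgroup.centralizer (N : Set F)) ∧
          (∃ k : ℕ, 1 ≤ k ∧ Nat.card ↥(Subgroup.centralizer (N : Set F)) = Nat.card N ^ k) ∧
          (∃ g : F, Subgroup.centralizer (N : Set F) ⊔ Subgroup.zpowers g = ⊤) ∧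
          (Subgroup.centralizer (N : Set F)).index ∣ Nat.card N - 1) ∨
       (H = N ∧ Nat.card N = 2 ∧ Subgroup.centralizer (N : Set F) = ⊤ ∧
          ∃ k : ℕ, 1 ≤ k ∧ Nonempty (F ≃* QuaternionGroup (2 ^ k)))) := by
  classical
  obtain ⟨N, hNdef⟩ : ∃ N : Subgroup F, N = Subgroup.normalClosure (H : Set F) := ⟨_, rfl⟩
  have hNn : N.Normal := by rw [hNdef]; exact Subgroup.normalClosure_normal
  have hHN : H ≤ N := by rw [hNdef]; exact Subgroup.le_normalClosure
  have hN1 : N ≠ ⊥ := by
    intro h; apply hH; rw [eq_bot_iff, ← h]; exact hHN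
  have hNmin : ∀ M : Subgroup F, M.Normal → M ≠ ⊥ → N ≤ M := by
    intro M hM hM1
    have h1 : H ≤ M := hmin M hM1 (by rw [Subgroup.normalizer_eq_top_iff.mpr hM]; exact le_top)
    rw [hNdef]
    haveI := hM
    exact Subgroup.normalClosure_le_normal h1
  have hsimple : IsSimpleGroup ↥N := by
    haveI : Nontrivial ↥N := (Subgroup.nontrivial_iff_ne_bot N).mpr hN1
    refine ⟨fun K hK => ?_⟩
    by_cases hKb : K = ⊥
    · exact Or.inl hKb
    right
    have hK'1 : K.map N.subtype ≠ ⊥ := by
      rw [Ne, Subgroup.map_eq_bot_iff_of_injective _ (Subgroup.subtype_injective _)]; exact hKb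
    have hNK : ∀ n ∈ N, ∀ x ∈ K.map N.subtype, n * x * n⁻¹ ∈ K.map N.subtype := by
      rintro n hn _ ⟨k, hk, rfl⟩
      exact ⟨⟨n, hn⟩ * k * ⟨n, hn⟩⁻¹, hK.conj_mem k hk ⟨n, hn⟩, rfl⟩
    have hHcore : H ≤ (K.map N.subtype).normalCore := by
      intro h hh
      show ∀ b : F, b * h * b⁻¹ ∈ K.map N.subtype
      intro b
      have h2 : H ≤ (K.map N.subtype).map (MulAut.conj b⁻¹).toMonoidHom := by
        apply hmin
        · rw [Ne, Subgroup.map_eq_bot_iff_of_injective _ (MulAut.conj b⁻¹).injective]; exact hK'1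
        · apply le_normalizer_of_conj_mem
          rintro h' hh' _ ⟨k, hk, rfl⟩
          refine ⟨(b * h' * b⁻¹) * k * (b * h' * b⁻¹)⁻¹,
            hNK _ (hNn.conj_mem h' (hHN hh') b) k hk, ?_⟩
          simp only [MulEquiv.coe_toMonoidHom, MulAut.conj_apply]; group
      obtain ⟨k, hk, e⟩ := h2 hh
      have e2 : b * h * b⁻¹ = k := by
        rw [← e]; simp only [MulEquiv.coe_toMonoidHom, MulAut.conj_apply]; group
      rw [e2]; exact hk
    have hcore1 : (K.map N.subtype).normalCore ≠ ⊥ := by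
      intro h; apply hH; rw [eq_bot_iff, ← h]; exact hHcore
    have h3 : N ≤ K.map N.subtype :=
      (hNmin _ (Subgroup.normalCore_normal _) hcore1).trans (Subgroup.normalCore_le _)
    rw [eq_top_iff]
    intro x _
    obtain ⟨k, hk, e⟩ := h3 x.2
    have e2 : k = x := Subtype.ext e
    rw [← e2]; exact hk
  refine ⟨N, hNn, hN1, hNmin, hsimple, ?_⟩
  haveI := hNn
  by_cases hC : Subgroup.centralizer (N : Set F) = ⊥
  · exact Or.inl hC
  right
  obtain ⟨C, hCdef⟩ : ∃ C : Subgroup F, C = Subgroup.centralizer (N : Set F) := ⟨_, rfl⟩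
  rw [← hCdef] at hC
  have hCn : C.Normal := by rw [hCdef]; exact Subgroup.normal_centralizer
  have hNC : N ≤ C := hNmin _ hCn hC
  have hcomm : ∀ a ∈ N, ∀ b ∈ N, a * b = b * a := by
    intro a ha b hb
    have hb' := hNC hb
    rw [hCdef, Subgroup.mem_centralizer_iff] at hb'
    exact hb' a ha
  haveI hNcomm : IsMulCommutative ↥N :=
    ⟨⟨fun a b => Subtype.ext (hcomm a.1 a.2 b.1 b.2)⟩⟩
  have hp : (Nat.card ↥N).Prime := (Group.is_simple_iff_prime_card).mp hsimple
  haveI hpF : Fact (Nat.card ↥N).Prime := ⟨hp⟩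
  have hHeq : H = N := by
    rcases (H.subgroupOf N).eq_bot_or_eq_top_of_prime_card with h | h
    · exfalso; apply hH; rw [eq_bot_iff]; intro x hx
      have hx2 : (⟨x, hHN hx⟩ : ↥N) ∈ H.subgroupOf N := by
        rw [Subgroup.mem_subgroupOf]; exact hx
      rw [h, Subgroup.mem_bot] at hx2
      rw [Subgroup.mem_bot]
      exact congrArg Subtype.val hx2
    · exact le_antisymm hHN (Subgroup.subgroupOf_eq_top.mp h)
  have hsub : ∀ R : Subgroup F, R ≤ C → R ≠ ⊥ → N ≤ R := by
    intro R hRC hR1
    rw [← hHeq]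
    apply hmin R hR1
    apply le_normalizer_of_conj_mem
    intro h hh x hx
    have hx' := hRC hx
    rw [hCdef, Subgroup.mem_centralizer_iff] at hx'
    have e := hx' h (hHN hh)
    rw [e, mul_inv_cancel_right]; exact hx
  have hCp : IsPGroup (Nat.card ↥N) ↥C := by
    have hcard : ∀ q : ℕ, q.Prime → q ∣ Nat.card ↥C → q = Nat.card ↥N := by
      intro q hq hdvd
      haveI := Fact.mk hq
      obtain ⟨x, hx⟩ := exists_prime_orderOf_dvd_card' q hdvd
      have hx1 : Subgroup.zpowers (x : F) ≠ ⊥ := by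
        rw [Ne, Subgroup.zpowers_eq_bot]
        intro h
        have h5 : orderOf (x : F) = 1 := by rw [h]; exact orderOf_one
        rw [Subgroup.orderOf_coe, hx] at h5
        exact hq.one_lt.ne' h5
      have h1 : N ≤ Subgroup.zpowers (x : F) := hsub _ (Subgroup.zpowers_le.mpr x.2) hx1
      have h2 : Nat.card ↥N ∣ q := by
        have h6 := Subgroup.card_dvd_of_le h1
        rwa [Nat.card_zpowers, Subgroup.orderOf_coe, hx] at h6
      exact ((Nat.prime_dvd_prime_iff_eq hp hq).mp h2).symm
    exact IsPGroup.of_card (n := (Nat.card ↥C).primeFactorsList.length)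
      (Nat.eq_prime_pow_of_unique_prime_dvd Nat.card_pos.ne' (fun hd hdvd => hcard _ hd hdvd))
  have huniq : ∀ A B : Subgroup ↥C, Nat.card A = Nat.card ↥N → Nat.card B = Nat.card ↥N →
      A = B := by
    have key : ∀ A : Subgroup ↥C, Nat.card A = Nat.card ↥N → A = N.subgroupOf C := by
      intro A hA
      have hA1 : A.map C.subtype ≠ ⊥ := by
        rw [Ne, Subgroup.map_eq_bot_iff_of_injective _ (Subgroup.subtype_injective _)]
        intro h
        rw [h, Subgroup.card_bot] at hA
        exact hp.one_lt.ne hA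
      have h1 : N ≤ A.map C.subtype := hsub _ (Subgroup.map_subtype_le _) hA1
      have h2 : N.subgroupOf C ≤ A := by
        intro x hx
        rw [Subgroup.mem_subgroupOf] at hx
        obtain ⟨a, ha, e⟩ := h1 hx
        have e2 : a = x := Subtype.ext e
        rw [← e2]; exact ha
      have h3 : Nat.card ↥(N.subgroupOf C) = Nat.card ↥N :=
        Nat.card_congr (Subgroup.subgroupOfEquivOfLe hNC).toEquiv
      exact (Subgroup.eq_of_le_of_card_ge h2 (by rw [h3, hA])).symm
    intro A B hA hB
    rw [key A hA, key B hB]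
  have hk : ∃ k : ℕ, 1 ≤ k ∧ Nat.card ↥C = Nat.card ↥N ^ k := by
    obtain ⟨k, hk⟩ := (IsPGroup.iff_card.mp hCp)
    refine ⟨k, ?_, hk⟩
    rcases Nat.eq_zero_or_pos k with h0 | h0
    · exfalso; rw [h0, pow_zero] at hk
      exact hC (Subgroup.card_eq_one.mp hk)
    · exact h0
  have hker : (MulAut.conjNormal (H := N)).ker = C := by
    ext f
    rw [MonoidHom.mem_ker, hCdef, Subgroup.mem_centralizer_iff]
    constructor
    · intro h n hn
      have h7 := congrArg (fun a : MulAut ↥N => ((a ⟨n, hn⟩ : ↥N) : F)) h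
      simp only [MulAut.conjNormal_apply, MulAut.one_apply] at h7
      calc n * f = (f * n * f⁻¹) * f := by rw [h7]
        _ = f * n := by group
    · intro h
      ext n
      simp only [MulAut.conjNormal_apply, MulAut.one_apply]
      have h8 := h n n.2
      rw [← h8]; group
  haveI hNcyc : IsCyclic ↥N := isCyclic_of_prime_card (p := Nat.card ↥N) rfl
  haveI hAutcyc : IsCyclic (MulAut ↥N) :=
    isCyclic_of_surjective (IsCyclic.mulAutMulEquiv ↥N).symm.toMonoidHom
      (MulEquiv.surjective _)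
  have hidx : C.index ∣ Nat.card ↥N - 1 := by
    rw [← hker, Subgroup.index_ker]
    have h9 := Subgroup.card_subgroup_dvd_card (MulAut.conjNormal (H := N)).range
    rwa [IsCyclic.card_mulAut, Nat.totient_prime hp] at h9
  have hgen : ∃ g : F, C ⊔ Subgroup.zpowers g = ⊤ := by
    obtain ⟨⟨a, ⟨g, rfl⟩⟩, hgen⟩ :=
      IsCyclic.exists_generator (α := ↥(MulAut.conjNormal (H := N)).range)
    refine ⟨g, ?_⟩
    rw [eq_top_iff]
    intro f _
    obtain ⟨k, hk⟩ := Subgroup.mem_zpowers_iff.mp
      (hgen ⟨MulAut.conjNormal (H := N) f, ⟨f, rfl⟩⟩)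
    have hk' : (MulAut.conjNormal (H := N) g) ^ k = MulAut.conjNormal (H := N) f := by
      have := congrArg Subtype.val hk
      simpa using this
    have hmem : f * (g ^ k)⁻¹ ∈ C := by
      rw [← hker, MonoidHom.mem_ker, map_mul, map_inv, map_zpow, hk', mul_inv_cancel]
    have e : f = (f * (g ^ k)⁻¹) * g ^ k := by group
    rw [e]
    exact Subgroup.mul_mem _ (Subgroup.mem_sup_left hmem)
      (Subgroup.mem_sup_right (Subgroup.zpow_mem_zpowers g k))
  by_cases hcyc : IsCyclic ↥C
  · left
    subst hCdef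
    exact ⟨hHeq, hp, hcyc, hk, hgen, hidx⟩
  · right
    rcases Cfsg.Agent.Helper1.pgroup_unique_cyclic_or_quat (Nat.card ↥N) hCp huniq with h | ⟨hp2, n, ⟨e⟩⟩
    · exact absurd h hcyc
    · have hCtop : C = ⊤ := by
        rw [hp2] at hidx
        exact Subgroup.index_eq_one.mp (Nat.dvd_one.mp hidx)
      have hn : 1 ≤ n := by
        rcases Nat.eq_zero_or_pos n with h0 | h0
        · exfalso
          apply hcyc
          haveI : IsCyclic (QuaternionGroup (2 ^ n)) := by
            rw [h0, pow_zero]; exact QuaternionGroup.quaternionGroup_one_isCyclic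
          exact isCyclic_of_surjective e.symm.toMonoidHom e.symm.surjective
        · exact h0
      have iso : F ≃* QuaternionGroup (2 ^ n) :=
        ((Subgroup.topEquiv (G := F)).symm.trans (MulEquiv.subgroupCongr hCtop.symm)).trans e
      subst hCdef
      exact ⟨hHeq, hp2, hCtop, n, hn, ⟨iso⟩⟩

end Cfsg.Agent.S3025
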