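import Cfsg.Statements.S3053
import Cfsg.Agent.Helper17.Extra3

set_option autoImplicit false
open Cfsg

namespace Cfsg.Agent.S3053

open Cfsg.Agent.Helper17

/-- Let p be an odd prime and G a finite group with a Sylow p-subgroup P that is extraspecial of order p³ and exponent p². Then the centre of P is strongly closed in P with respect to G: a G-conjugate of an element of Z(P) that lies in P already lies in Z(P). In particular a nontrivial central element of P is conjugate in G to no noncentral element of P. -/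
theorem result {G : Type*} [Group G] [Finite G]
    {p : ℕ} [Fact p.Prime] (hp : p ≠ 2) (P : Sylow p G) (hE : Cfsg.IsExtraspecial p ↥P)
    (hcard : Nat.card P = p ^ 3) (hexp : Monoid.exponent ↥P = p ^ 2) :
    Cfsg.IsStronglyClosed ((Subgroup.center ↥P).map (P : Subgroup G).subtype) (P : Subgroup G) := by
  obtain ⟨⟨hPp, hfr, hcm⟩, hZcard⟩ := hE
  obtain ⟨hcomm, hpow⟩ := order_p_cube_facts hcard hZcard
  refine ⟨Subgroup.map_subtype_le _, ?_⟩
  have hZmem : ∀ a : G, a ∈ (Subgroup.center ↥P).map (P : Subgroup G).subtype ↔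
      ∃ ha : a ∈ (P : Subgroup G), (⟨a, ha⟩ : ↥(P : Subgroup G)) ∈ Subgroup.center ↥P := by
    intro a
    constructor
    · rintro ⟨b, hb, rfl⟩
      exact ⟨b.2, hb⟩
    · rintro ⟨ha, h⟩
      exact ⟨⟨a, ha⟩, h, rfl⟩
  apply center_strongly_closed_aux hp P _ hcard (Subgroup.map_subtype_le _)
  · rintro a ha h hh
    obtain ⟨haP, hac⟩ := (hZmem a).1 ha
    have h1 := Subgroup.mem_center_iff.1 hac ⟨h, hh⟩
    exact congrArg Subtype.val h1
  · intro a ha hall
    rw [hZmem]
    exact ⟨ha, Subgroup.mem_center_iff.2 (fun g => Subtype.ext (hall g g.2))⟩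
  · rw [Subgroup.card_map_of_injective (Subgroup.subtype_injective _)]
    exact hZcard
  · intro a ha b hb
    rw [hZmem]
    exact ⟨_, hcomm ⟨a, ha⟩ ⟨b, hb⟩⟩
  · intro a ha
    rw [hZmem]
    exact ⟨_, hpow ⟨a, ha⟩⟩
  · by_contra hcon
    push Not at hcon
    have h1 : Monoid.exponent ↥P ∣ p :=
      Monoid.exponent_dvd_of_forall_pow_eq_one (fun x => Subtype.ext (by simpa using hcon x x.2))
    rw [hexp] at h1
    have hpp : p.Prime := Fact.out
    have h2 := Nat.le_of_dvd hpp.pos h1
    nlinarith [hpp.two_le]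

end Cfsg.Agent.S3053
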