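import Cfsg.Statements.S3057
import Cfsg.Agent.Helper17.SylConn

set_option autoImplicit false
open Cfsg

namespace Cfsg.Agent.S3057

open Cfsg.Agent.Helper17

/-- Let p be a prime and G a finite p-solvable group of order divisible by p, with Sylow p-subgroup P. Then the Sylow p-subgroups of G fail to be chain-connected through nontrivial intersections (equivalently, G has a strongly p-embedded subgroup) if and only if O_p(G) = 1 and P is cyclic or, for p = 2, generalized quaternion. -/
theorem result {G : Type*} [Group G] [Finite G]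
    (p : ℕ) [Fact p.Prime] (hdiv : p ∣ Nat.card G) (hsol : Cfsg.IsPSolvable p G) (P : Sylow p G) :
    ¬ Cfsg.IsSylowChainConnected p G ↔
      Cfsg.pCore p G = ⊥ ∧ (IsCyclic ↥P ∨ (p = 2 ∧ ∃ n : ℕ, Nonempty (↥P ≃* QuaternionGroup (2 ^ n)))) := by
  constructor
  · intro hnc
    refine ⟨?_, ?_⟩
    · by_contra hO
      exact hnc (conn_of_pCore_ne_bot hO)
    · by_contra hnot
      obtain ⟨E, hEP, hEc, hEnc⟩ := exists_noncyclic_abelian P hdiv hnot
      exact hnc (conn_of_reflTransGen (reflTransGen_of_noncyclic hsol hdiv P E hEP hEc hEnc))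
  · rintro ⟨hO, hP⟩
    apply not_conn_of_unique P hO hdiv
    intro x hx y hy hox hoy
    rcases hP with hcyc | ⟨hp2, n, ⟨e⟩⟩
    · haveI := hcyc
      have h1 := cyclic_unique_order_p (p := p) (⟨x, hx⟩ : ↥P) ⟨y, hy⟩
        (by rw [Subgroup.orderOf_mk, hox]) (by rw [Subgroup.orderOf_mk, hoy])
      have h2 : (⟨y, hy⟩ : ↥P) ∈ Submonoid.powers (⟨x, hx⟩ : ↥P) :=
        mem_powers_iff_mem_zpowers.2 h1
      obtain ⟨k, hk⟩ := (Submonoid.mem_powers_iff _ _).1 h2
      refine ⟨k, ?_⟩
      have h3 := congrArg Subtype.val hk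
      simpa using h3.symm
    · subst hp2
      have hk : 0 < 2 ^ n := by positivity
      have hxx : e ⟨x, hx⟩ * e ⟨x, hx⟩ = 1 := by
        rw [← map_mul, ← map_one e]
        congr 1
        apply Subtype.ext
        show x * x = 1
        rw [← pow_two, ← hox]
        exact pow_orderOf_eq_one x
      have hyy : e ⟨y, hy⟩ * e ⟨y, hy⟩ = 1 := by
        rw [← map_mul, ← map_one e]
        congr 1
        apply Subtype.ext
        show y * y = 1
        rw [← pow_two, ← hoy]
        exact pow_orderOf_eq_one y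
      have hx1 : e ⟨x, hx⟩ ≠ 1 := by
        intro h
        have h4 : (⟨x, hx⟩ : ↥P) = 1 := e.injective (h.trans (map_one e).symm)
        have h5 : x = 1 := congrArg Subtype.val h4
        rw [h5, orderOf_one] at hox
        omega
      have hy1 : e ⟨y, hy⟩ ≠ 1 := by
        intro h
        have h4 : (⟨y, hy⟩ : ↥P) = 1 := e.injective (h.trans (map_one e).symm)
        have h5 : y = 1 := congrArg Subtype.val h4
        rw [h5, orderOf_one] at hoy
        omega
      rcases Cfsg.Agent.Helper8.quat_invol_gen hk _ hxx with h | h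
      · exact absurd h hx1
      rcases Cfsg.Agent.Helper8.quat_invol_gen hk _ hyy with h' | h'
      · exact absurd h' hy1
      have h6 : (⟨y, hy⟩ : ↥P) = ⟨x, hx⟩ := e.injective (h'.trans h.symm)
      exact ⟨1, by rw [pow_one]; exact congrArg Subtype.val h6⟩

end Cfsg.Agent.S3057
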