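import Cfsg.Statements.S3059
import Cfsg.Agent.Helper17.StronglyEmb

set_option autoImplicit false
open Cfsg

namespace Cfsg.Agent.S3059

open Cfsg.Agent.Helper17

/-- Let p be a prime and H a strongly p-embedded subgroup of the finite group G in the classical sense: H is proper, p divides the order of H, and H ∩ gHg⁻¹ has order prime to p for every g outside H. Then for every normal subgroup N of G of order divisible by p, G = H · O^p(N), where O^p(N) is the subgroup generated by the elements of N of order prime to p. -/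
theorem result {G : Type*} [Group G] [Finite G]
    (p : ℕ) [Fact p.Prime] (H : Subgroup G) (hH : H ≠ ⊤) (hpH : p ∣ Nat.card H)
    (hse : ∀ g : G, g ∉ H → ¬ p ∣ Nat.card ↥(H ⊓ H.map (MulAut.conj g).toMonoidHom))
    (N : Subgroup G) [N.Normal] (hN : p ∣ Nat.card N) :
    H ⊔ Subgroup.closure {g : G | g ∈ N ∧ (orderOf g).Coprime p} = ⊤ := by
  have hp : p.Prime := Fact.out
  have hse' : ClassSE p H := hse
  set K : Subgroup G := Subgroup.closure {g : G | g ∈ N ∧ (orderOf g).Coprime p} with hK
  have hKn : K.Normal := by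
    constructor
    intro k hk g
    have hmap : K.map (MulAut.conj g).toMonoidHom ≤ K := by
      rw [hK, MonoidHom.map_closure, Subgroup.closure_le]
      rintro _ ⟨y, ⟨hyN, hyo⟩, rfl⟩
      apply Subgroup.subset_closure
      refine ⟨‹N.Normal›.conj_mem y hyN g, ?_⟩
      change (orderOf (g * y * g⁻¹)).Coprime p
      rw [orderOf_conj_eq]; exact hyo
    exact hmap ⟨k, hk, rfl⟩
  have hsup : H ⊔ N = ⊤ := classSE_sup_normal_eq_top hse' hpH N hN
  obtain ⟨P, hPH⟩ := classSE_exists_sylow_le hse' hpH
  -- N maps to a normal p-subgroup of G ⧸ K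
  have hNp : IsPGroup p ↥(N.map (QuotientGroup.mk' K)) := by
    rintro ⟨_, n, hn, rfl⟩
    obtain ⟨e, t, ht, hot⟩ := Nat.exists_eq_pow_mul_and_not_dvd (orderOf_pos n).ne' p hp.ne_one
    refine ⟨e, ?_⟩
    apply Subtype.ext
    change (QuotientGroup.mk' K n) ^ p ^ e = 1
    rw [← map_pow]
    apply (QuotientGroup.eq_one_iff _).mpr
    apply Subgroup.subset_closure
    refine ⟨N.pow_mem hn _, ?_⟩
    have h1 : (n ^ p ^ e) ^ t = 1 := by
      rw [← pow_mul, ← hot, pow_orderOf_eq_one]
    exact Nat.Coprime.coprime_dvd_left (orderOf_dvd_of_pow_eq_one h1)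
      ((Nat.Prime.coprime_iff_not_dvd hp).mpr ht).symm
  have hNn : (N.map (QuotientGroup.mk' K)).Normal :=
    Subgroup.Normal.map ‹N.Normal› _ (QuotientGroup.mk'_surjective K)
  have h1 : N.map (QuotientGroup.mk' K) ≤ (P : Subgroup G).map (QuotientGroup.mk' K) :=
    hNp.le_sylow_of_normal (P.mapSurjective (QuotientGroup.mk'_surjective K))
  have h2 : N.map (QuotientGroup.mk' K) ≤ H.map (QuotientGroup.mk' K) :=
    h1.trans (Subgroup.map_mono hPH)
  rw [Subgroup.map_le_map_iff, QuotientGroup.ker_mk'] at h2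
  rw [eq_top_iff, ← hsup]
  exact sup_le le_sup_left h2

end Cfsg.Agent.S3059
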