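import Cfsg.Statements.S3063
import Cfsg.Agent.Helper17.CD

set_option autoImplicit false
open Cfsg

namespace Cfsg.Agent.S3063

open scoped Pointwise commutatorElement

theorem gillam_step {S : Type*} [Group S] [Finite S]
    (hmeta : IsMulCommutative ↥(commutator S))
    {A : Subgroup S} (hA : A ∈ Cfsg.maxAbelianSubgroups S) (x : S) :
    ∃ B ∈ Cfsg.maxAbelianSubgroups S, B ≤ Subgroup.normalClosure (A : Set S) ∧
      A ⊓ commutator S ≤ B ⊓ commutator S ∧ ∀ a ∈ A, ⁅x, a⁆ ∈ B ⊓ commutator S := by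
  classical
  have hMc : ∀ u ∈ commutator S, ∀ v ∈ commutator S, u * v = v * u := by
    intro u hu v hv
    have := hmeta.is_comm.comm ⟨u, hu⟩ ⟨v, hv⟩
    exact congrArg Subtype.val this
  have hAc : ∀ a ∈ A, ∀ b ∈ A, a * b = b * a := by
    intro a ha b hb
    have := hA.1.is_comm.comm ⟨a, ha⟩ ⟨b, hb⟩
    exact congrArg Subtype.val this
  have hself : ∀ g, (∀ b ∈ A, b * g = g * b) → g ∈ A := fun g hg =>
    Cfsg.Agent.Helper17.maxAbelian_centralizer_le hA (Subgroup.mem_centralizer_iff.2 hg)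
  have hcm : ∀ a : S, ⁅x, a⁆ ∈ commutator S := fun a =>
    Subgroup.commutator_mem_commutator (Subgroup.mem_top x) (Subgroup.mem_top a)
  have hMn : (commutator S).Normal := inferInstance
  -- the pieces
  let D : Subgroup S := A ⊓ commutator S
  let Ax : Subgroup S := A ⊓ A.comap (MulAut.conj x).toMonoidHom
  let C : Subgroup S := Ax.map (MulAut.conj x).toMonoidHom
  let X : Subgroup S := D ⊔ Subgroup.closure {y | ∃ a ∈ A, y = ⁅x, a⁆}
  have hAx : ∀ a, a ∈ Ax ↔ a ∈ A ∧ x * a * x⁻¹ ∈ A := by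
    intro a
    show a ∈ A ⊓ A.comap (MulAut.conj x).toMonoidHom ↔ _
    rw [Subgroup.mem_inf, Subgroup.mem_comap]
    rfl
  have hC : ∀ c ∈ C, ∃ a ∈ A, x * a * x⁻¹ ∈ A ∧ c = x * a * x⁻¹ := by
    intro c hc
    obtain ⟨a, ha, rfl⟩ := Subgroup.mem_map.1 hc
    exact ⟨a, ((hAx a).1 ha).1, ((hAx a).1 ha).2, rfl⟩
  have hCA : C ≤ A := by
    intro c hc
    obtain ⟨a, ha, hxa, rfl⟩ := hC c hc
    exact hxa
  have hDA : D ≤ A := inf_le_left
  have hDM : D ≤ commutator S := inf_le_right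
  have hXM : X ≤ commutator S := by
    refine sup_le hDM ((Subgroup.closure_le _).2 ?_)
    rintro y ⟨a, ha, rfl⟩
    exact hcm a
  have hDX : D ≤ X := le_sup_left
  have hgenX : ∀ a ∈ A, ⁅x, a⁆ ∈ X := fun a ha =>
    Subgroup.mem_sup_right (Subgroup.subset_closure ⟨a, ha, rfl⟩)
  -- C centralizes X
  have hXC : X ≤ Subgroup.centralizer (C : Set S) := by
    refine sup_le ?_ ((Subgroup.closure_le _).2 ?_)
    · intro d hd
      refine Subgroup.mem_centralizer_iff.2 fun c hc => ?_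
      exact hAc c (hCA hc) d (hDA hd)
    · rintro y ⟨b, hb, rfl⟩
      refine Subgroup.mem_centralizer_iff.2 fun c hc => ?_
      obtain ⟨a, ha, hxa, rfl⟩ := hC c hc
      have h1 : a * b = b * a := hAc a ha b hb
      have h2 : x * a * x⁻¹ * b⁻¹ = b⁻¹ * (x * a * x⁻¹) :=
        hAc _ hxa _ (A.inv_mem hb)
      rw [commutatorElement_def]
      calc x * a * x⁻¹ * (x * b * x⁻¹ * b⁻¹) = x * (a * b) * x⁻¹ * b⁻¹ := by group
        _ = x * (b * a) * x⁻¹ * b⁻¹ := by rw [h1]
        _ = x * b * x⁻¹ * (x * a * x⁻¹ * b⁻¹) := by group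
        _ = x * b * x⁻¹ * (b⁻¹ * (x * a * x⁻¹)) := by rw [h2]
        _ = x * b * x⁻¹ * b⁻¹ * (x * a * x⁻¹) := by group
  have hCX : C ≤ Subgroup.centralizer (X : Set S) := Subgroup.le_centralizer_iff.mp hXC
  have hCC : C ≤ Subgroup.centralizer (C : Set S) := by
    intro c hc
    refine Subgroup.mem_centralizer_iff.2 fun c' hc' => ?_
    exact hAc c' (hCA hc') c (hCA hc)
  have hXX : X ≤ Subgroup.centralizer (X : Set S) := by
    intro u hu
    refine Subgroup.mem_centralizer_iff.2 fun v hv => ?_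
    exact hMc v (hXM hv) u (hXM hu)
  have hcomm : IsMulCommutative ↥(C ⊔ X) := by
    refine Subgroup.le_centralizer_iff_isMulCommutative.mp ?_
    rw [Cfsg.Agent.Helper17.centralizer_sup_eq]
    exact sup_le (le_inf hCC hCX) (le_inf hXC hXX)
  -- the counting
  have hinj : Ax.relIndex A ≤ D.relIndex X := by
    have hfin : Finite (↥X ⧸ D.subgroupOf X) := inferInstance
    let φ : ↥A → ↥X ⧸ D.subgroupOf X := fun a =>
      QuotientGroup.mk ⟨⁅x, (a : S)⁆, hgenX a a.2⟩
    have hφ : ∀ a b : ↥A, φ a = φ b → a⁻¹ * b ∈ Ax.subgroupOf A := by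
      intro a b hab
      have h1 := QuotientGroup.eq.1 hab
      rw [Subgroup.mem_subgroupOf] at h1 ⊢
      have h2 : (⁅x, (a : S)⁆)⁻¹ * ⁅x, (b : S)⁆ ∈ A := hDA h1
      rw [hAx]
      refine ⟨A.mul_mem (A.inv_mem a.2) b.2, ?_⟩
      have h3 : x * ((a : S)⁻¹ * (b : S)) * x⁻¹
          = (a : S)⁻¹ * ((⁅x, (a : S)⁆)⁻¹ * ⁅x, (b : S)⁆) * (b : S) := by
        rw [commutatorElement_def, commutatorElement_def]; group
      show x * ((a : S)⁻¹ * (b : S)) * x⁻¹ ∈ A
      rw [h3]
      exact A.mul_mem (A.mul_mem (A.inv_mem a.2) h2) b.2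
    let ψ : (↥A ⧸ Ax.subgroupOf A) → ↥X ⧸ D.subgroupOf X := fun q => φ q.out
    have hψ : Function.Injective ψ := by
      intro q q' hq
      have h1 := hφ _ _ hq
      have h2 : (QuotientGroup.mk q.out : ↥A ⧸ Ax.subgroupOf A) = QuotientGroup.mk q'.out :=
        QuotientGroup.eq.2 h1
      have e1 : (QuotientGroup.mk q.out : ↥A ⧸ Ax.subgroupOf A) = q := Quotient.out_eq' q
      have e2 : (QuotientGroup.mk q'.out : ↥A ⧸ Ax.subgroupOf A) = q' := Quotient.out_eq' q'
      rw [← e1, ← e2]; exact h2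
    exact Nat.card_le_card_of_injective ψ hψ
  have hAxA : Ax ≤ A := inf_le_left
  have hcardC : Nat.card ↥C = Nat.card ↥Ax :=
    Subgroup.card_map_of_injective (MulAut.conj x).injective
  have hge : Nat.card ↥A ≤ Nat.card ↥(C ⊔ X) := by
    have e1 : Nat.card ↥Ax * Ax.relIndex A = Nat.card ↥A := by
      have := Subgroup.relIndex_mul_relIndex ⊥ Ax A bot_le hAxA
      rwa [Subgroup.relIndex_bot_left, Subgroup.relIndex_bot_left] at this
    have e2 : Nat.card ↥C * C.relIndex (C ⊔ X) = Nat.card ↥(C ⊔ X) := by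
      have := Subgroup.relIndex_mul_relIndex ⊥ C (C ⊔ X) bot_le le_sup_left
      rwa [Subgroup.relIndex_bot_left, Subgroup.relIndex_bot_left] at this
    have e3 : C.relIndex X ≤ C.relIndex (C ⊔ X) :=
      Subgroup.relIndex_le_of_le_right le_sup_right (by
        show (C.subgroupOf (C ⊔ X)).index ≠ 0
        exact Subgroup.index_ne_zero_of_finite)
    have e4 : (C ⊓ X).relIndex X = C.relIndex X := Subgroup.inf_relIndex_right C X
    have e5 : D.relIndex X ≤ (C ⊓ X).relIndex X :=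
      Subgroup.relIndex_le_of_le_left (le_inf (inf_le_left.trans hCA) (inf_le_right.trans hXM)) (by
        show ((C ⊓ X).subgroupOf X).index ≠ 0
        exact Subgroup.index_ne_zero_of_finite)
    calc Nat.card ↥A = Nat.card ↥Ax * Ax.relIndex A := e1.symm
      _ ≤ Nat.card ↥C * D.relIndex X := by rw [hcardC]; exact Nat.mul_le_mul_left _ hinj
      _ ≤ Nat.card ↥C * C.relIndex (C ⊔ X) :=
          Nat.mul_le_mul_left _ (e5.trans (e4.le.trans e3))
      _ = Nat.card ↥(C ⊔ X) := e2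
  refine ⟨C ⊔ X, ⟨hcomm, fun B hB => (hA.2 B hB).trans hge⟩, ?_, ?_, ?_⟩
  · have hN : (Subgroup.normalClosure (A : Set S)).Normal := Subgroup.normalClosure_normal
    have hAN : A ≤ Subgroup.normalClosure (A : Set S) := Subgroup.le_normalClosure
    refine sup_le (hCA.trans hAN) (sup_le (hDA.trans hAN) ((Subgroup.closure_le _).2 ?_))
    rintro y ⟨a, ha, rfl⟩
    rw [commutatorElement_def]
    exact Subgroup.mul_mem _ (hN.conj_mem a (hAN ha) x) (Subgroup.inv_mem _ (hAN ha))
  · exact le_inf (hDX.trans le_sup_right) hDM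
  · intro a ha
    exact Subgroup.mem_inf.2 ⟨Subgroup.mem_sup_right (hgenX a ha), hcm a⟩

/-- A weak replacement Theorem for metabelian p-groups: let S be a finite p-group whose derived subgroup is abelian and A an abelian subgroup of S of largest possible order. Then the normal closure of A in S contains an abelian subgroup B of the same order as A that is normal in S. -/
theorem result {S : Type*} [Group S] [Finite S] {p : ℕ} [Fact p.Prime]
    (hS : IsPGroup p S) (hmeta : IsMulCommutative ↥(commutator S))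
    (A : Subgroup S) (hA : A ∈ Cfsg.maxAbelianSubgroups S) :
    ∃ B ∈ Cfsg.maxAbelianSubgroups S, B.Normal ∧ B ≤ Subgroup.normalClosure (A : Set S) := by
  classical
obtain ⟨B, ⟨hB, hBW⟩, hmax⟩ := Set.exists_max_image
  {B : Subgroup S | B ∈ Cfsg.maxAbelianSubgroups S ∧ B ≤ Subgroup.normalClosure (A : Set S)}
  (fun B => Nat.card ↥(B ⊓ commutator S)) (Set.toFinite _) ⟨A, hA, Subgroup.le_normalClosure⟩
refine ⟨B, hB, ⟨fun b hb x => ?_⟩, hBW⟩
obtain ⟨B', hB', hle, hD, hX⟩ := gillam_step hmeta hB x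
have hN : (Subgroup.normalClosure (A : Set S)).Normal := Subgroup.normalClosure_normal
have hB'W : B' ≤ Subgroup.normalClosure (A : Set S) :=
  hle.trans (Subgroup.normalClosure_le_normal hBW)
have hcard : Nat.card ↥(B' ⊓ commutator S) ≤ Nat.card ↥(B ⊓ commutator S) := hmax B' ⟨hB', hB'W⟩
have heq : B ⊓ commutator S = B' ⊓ commutator S := Subgroup.eq_of_le_of_card_ge hD hcard
have h1 := hX b hb
rw [← heq] at h1
have h2 := B.mul_mem h1.1 hb
rw [commutatorElement_def] at h2
simpa using h2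

end Cfsg.Agent.S3063
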