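import Cfsg.Statements.S3071
-- import your own Cfsg.Agent.* helpers here
import Cfsg.Agent.Helper12.SL2Stable
import Cfsg.Agent.Helper12.AGWP
import Cfsg.Agent.Helper12.QuadAct
import Cfsg.Agent.Helper12.SecInd
import Cfsg.Agent.Helper1.ZJNpc
import Cfsg.Agent.Helper1.ZJBridge

set_option autoImplicit false
open Cfsg

namespace Cfsg.Agent.S3071

/-- Let p be an odd prime and S a Sylow p-subgroup of the finite group G such that, for every subgroup P with Z(S) ≤ P ≤ S, the normalizer N_G(P) has no section isomorphic to SL₂(p). Let J(S) be the subgroup generated by the abelian subgroups of S of largest order. Then two elements of S are conjugate in G if and only if they are conjugate in N_G(Z(J(S))). -/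
theorem result {G : Type*} [Group G] [Finite G] {p : ℕ} [Fact p.Prime]
    (hp : p ≠ 2) (S : Sylow p G)
    (hfree : ∀ P : Subgroup G, (S : Subgroup G) ⊓ Subgroup.centralizer ((S : Subgroup G) : Set G) ≤ P → P ≤ S →
      ¬ ∃ (H K : Subgroup G) (hK : (K.subgroupOf H).Normal), H ≤ Subgroup.normalizer (P : Set G) ∧
        Nonempty ((H ⧸ K.subgroupOf H) ≃* Matrix.SpecialLinearGroup (Fin 2) (ZMod p))) :
    ∀ x ∈ S, ∀ y ∈ S, (∃ g : G, g * x * g⁻¹ = y) ↔
      ∃ n ∈ Subgroup.normalizer (Cfsg.centerThompsonAOf (S : Subgroup G) : Set G), n * x * n⁻¹ = y := by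
  open Cfsg.Agent.Helper12 in
  (
  have hWc : Cfsg.IsCharPFunctor p (Cfsg.Agent.Helper1.WZ 0) :=
    Cfsg.Agent.Helper1.WZ_char p (Or.inl rfl)
  have h𝓦 : ∀ W' ∈ ({Cfsg.Agent.Helper1.WZ 0} : Set (∀ (Q : Type _) [Group Q], Subgroup Q)),
      Cfsg.IsCharPFunctor p W' := by
    rintro _ rfl; exact hWc
  have hW : Cfsg.IsConjugacyFunctor p
      (Cfsg.inducedFunctor (G := G) (Cfsg.Agent.Helper1.WZ 0)) :=
    isConjugacyFunctor_induced hWc
  have hlocal : ∀ H : Subgroup G,
      (S : Subgroup G) ⊓ Subgroup.centralizer ((S : Subgroup G) : Set G) ≤ H →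
      H ≤ (S : Subgroup G) →
      sfCtl p ({Cfsg.Agent.Helper1.WZ 0} : Set (∀ (Q : Type _) [Group Q], Subgroup Q))
        ↥(Subgroup.normalizer (H : Set G)) := by
    intro H hZH hHS
    have hst : ∀ (K R : Subgroup ↥(Subgroup.normalizer (H : Set G)))
        [hR : (R.subgroupOf K).Normal],
        Cfsg.IsNormalizerPStable p (↥K ⧸ R.subgroupOf K) := by
      intro K R hR
      refine section_nps_of_sl2_free hp (fun Q _ _ hinv => hfree H hZH hHS ?_) K R
      obtain ⟨K', L', hn, hle, e⟩ := section_le_of_involves (Subgroup.normalizer (H : Set G))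
        (Subgroup.normalizer (Q : Set ↥(Subgroup.normalizer (H : Set G)))) hinv
      exact ⟨K', L', hn, hle, e⟩
    have h1 : ∀ (K R : Subgroup ↥(Subgroup.normalizer (H : Set G))) [(R.subgroupOf K).Normal],
        Subgroup.centralizer ((Cfsg.pCore p (↥K ⧸ R.subgroupOf K) :
          Subgroup (↥K ⧸ R.subgroupOf K)) : Set (↥K ⧸ R.subgroupOf K)) ≤
          Cfsg.pCore p (↥K ⧸ R.subgroupOf K) →
          sfCtl p ({Cfsg.Agent.Helper1.WZ 0} : Set (∀ (Q : Type _) [Group Q], Subgroup Q))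
            (↥K ⧸ R.subgroupOf K) := by
      intro K R _ hcen T B y hB hyB
      refine famRel_step hB hyB ⟨Cfsg.Agent.Helper1.WZ 0, rfl, rfl⟩ ?_
      have hn : (Cfsg.Agent.Helper1.ZE 0 (T : Subgroup (↥K ⧸ R.subgroupOf K))).Normal := by
        refine Cfsg.Agent.Helper1.generic_ZJ hp (Or.inl rfl) T
          (T : Subgroup (↥K ⧸ R.subgroupOf K)) le_rfl (fun x _ g hg => hg) hcen ?_
        intro V hVn hV a _ hq
        have ha : a ∈ Subgroup.normalizer (V : Set (↥K ⧸ R.subgroupOf K)) := by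
          rw [Subgroup.normalizer_eq_top_iff.mpr hVn]; exact Subgroup.mem_top a
        exact Cfsg.Agent.Helper1.pstable_of_normalizer V a ha (hst K R V hV a ha hq)
      show y ∈ Subgroup.normalizer ((Cfsg.inducedFunctor (Cfsg.Agent.Helper1.WZ 0)
        (T : Subgroup (↥K ⧸ R.subgroupOf K)) : Subgroup (↥K ⧸ R.subgroupOf K)) :
          Set (↥K ⧸ R.subgroupOf K))
      rw [Cfsg.Agent.Helper1.inducedFunctor_WZ, Subgroup.normalizer_eq_top_iff.mpr hn]
      exact Subgroup.mem_top _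
    exact sfCtl_sections_of_hloc h𝓦 h1 _ (isSectionOf_self _)
  have hWZ : ∀ H : Subgroup G, IsPGroup p ↥H →
      H ⊓ Subgroup.centralizer ((H : Subgroup G) : Set G) ≤
        Cfsg.inducedFunctor (G := G) (Cfsg.Agent.Helper1.WZ 0) H := by
    intro H _ z hz
    obtain ⟨hzH, hzC⟩ := Subgroup.mem_inf.1 hz
    have hc : (⟨z, hzH⟩ : ↥H) ∈ Subgroup.center ↥H := by
      rw [Subgroup.mem_center_iff]
      intro y
      apply Subtype.ext
      exact (Subgroup.mem_centralizer_iff.1 hzC) y y.2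
    exact ⟨⟨z, hzH⟩, Cfsg.Agent.Helper1.center_pow_mem_ZE 0 _ hc (pow_zero _), rfl⟩
  have hloc : ∀ H : Subgroup G,
      (S : Subgroup G) ⊓ Subgroup.centralizer ((S : Subgroup G) : Set G) ≤ H →
      H ≤ (S : Subgroup G) →
      ¬ p ∣ ((S : Subgroup G) ⊓ Subgroup.normalizer (H : Set G)).relIndex
        (Subgroup.normalizer (H : Set G)) →
      ∀ (X : Set G) (a : G),
        X ⊆ ((S : Subgroup G) ⊓ Subgroup.normalizer (H : Set G) : Subgroup G) →
        a ∈ Subgroup.normalizer (H : Set G) →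
        cj a X ⊆ ((S : Subgroup G) ⊓ Subgroup.normalizer (H : Set G) : Subgroup G) →
        wvRel (Cfsg.inducedFunctor (G := G) (Cfsg.Agent.Helper1.WZ 0))
          (fun _ => (⊤ : Subgroup G)) (Subgroup.normalizer (H : Set G))
          ((S : Subgroup G) ⊓ Subgroup.normalizer (H : Set G)) X a := by
    intro H hZH hHS hidx X a hX ha haX
    have hf := fcsf_of_sfCtl_subgroup h𝓦 (Subgroup.normalizer (H : Set G)) (hlocal H hZH hHS)
    obtain ⟨g', hch, hag⟩ := fcsf_transfer (indFam_conj h𝓦 G) hf inf_le_right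
      (S.isPGroup'.to_le inf_le_left) hidx X a ha hX haX
    refine ⟨hX, haX, a * g'⁻¹, g', ?_, by group, hch.imp ?_⟩
    · rw [Subgroup.mem_centralizer_iff]
      intro x hx
      have h1 := hag x hx
      calc x * (a * g'⁻¹) = a * (a⁻¹ * x * a) * g'⁻¹ := by group
        _ = a * (g'⁻¹ * x * g') * g'⁻¹ := by rw [h1]
        _ = a * g'⁻¹ * x := by group
    · rintro t y ⟨_, ⟨W', rfl, rfl⟩, hy⟩
      exact Or.inl hy
  have hglob := wv_global (V := fun _ => (⊤ : Subgroup G)) hW S hWZ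
    (fun _ _ _ _ _ _ _ => le_rfl) hloc
  intro x hx y hy
  constructor
  · rintro ⟨g, hg⟩
    have hA : ({x} : Set G) ⊆ (S : Subgroup G) := by
      intro z hz; rw [Set.mem_singleton_iff.1 hz]; exact hx
    have hgA : cj g⁻¹ ({x} : Set G) ⊆ (S : Subgroup G) := by
      rintro _ ⟨z, hz, rfl⟩
      rw [Set.mem_singleton_iff.1 hz, inv_inv]
      show g * x * g⁻¹ ∈ (S : Subgroup G)
      rw [hg]; exact hy
    obtain ⟨-, -, c, k, hc, hgk, hch⟩ := hglob {x} g⁻¹ hA hgA
    have hkN : k ∈ Subgroup.normalizer ((Cfsg.inducedFunctor (Cfsg.Agent.Helper1.WZ 0)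
        (S : Subgroup G) : Subgroup G) : Set G) := by
      refine FChain.rel_of_chain (fun _ z => z ∈ Subgroup.normalizer
        ((Cfsg.inducedFunctor (Cfsg.Agent.Helper1.WZ 0) (S : Subgroup G) : Subgroup G) : Set G))
        ?_ ?_ ?_ hch
      · intro _; exact one_mem _
      · rintro B t z (hz | hz) _
        · exact (Subgroup.mem_inf.1 hz).2
        · have hz' := (Subgroup.mem_inf.1 hz).2
          have hzw : ∀ v : G, v * z = z * v := fun v =>
            (Subgroup.mem_centralizer_iff.1 hz') v (Subgroup.mem_top v)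
          rw [Subgroup.mem_normalizer_iff]
          intro w
          have e : z * w * z⁻¹ = w := by rw [← hzw w]; group
          rw [e]
      · intro _ a b ha hb; exact mul_mem ha hb
    rw [Cfsg.Agent.Helper1.inducedFunctor_WZ, ← Cfsg.Agent.Helper1.centerThompsonAOf_eq] at hkN
    refine ⟨k⁻¹, inv_mem hkN, ?_⟩
    have hcx : x * c = c * x := (Subgroup.mem_centralizer_iff.1 hc) x rfl
    have hk : k = c⁻¹ * g⁻¹ := by rw [hgk]; group
    have hcc : c * x * c⁻¹ = x := by rw [← hcx]; group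
    rw [hk, ← hg]
    calc (c⁻¹ * g⁻¹)⁻¹ * x * (c⁻¹ * g⁻¹)⁻¹⁻¹ = g * (c * x * c⁻¹) * g⁻¹ := by group
      _ = g * x * g⁻¹ := by rw [hcc]
  · rintro ⟨n, -, hn⟩
    exact ⟨n, hn⟩
  )

end Cfsg.Agent.S3071
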