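import Cfsg.Statements.S3075
import Cfsg.Agent.Helper17.SplitInv

set_option autoImplicit false
open Cfsg

namespace Cfsg.Agent.S3075

open Cfsg.Agent.Helper17

/-- Let p be an odd prime and N a finite group with a normal elementary abelian subgroup A of order p² that is its own centralizer in N, such that N/A is isomorphic to SL₂(p) (over any field F with p elements). Then N splits over A: some subgroup U of N satisfies A ∩ U = 1 and AU = N. -/
theorem result {N : Type*} [Group N] [Finite N] {p : ℕ} [Fact p.Prime] (hp : p ≠ 2)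
    (A : Subgroup N) [A.Normal] (hAcomm : IsMulCommutative A) (hAcard : Nat.card A = p ^ 2) (hAexp : Monoid.exponent ↥A = p)
    (hAself : Subgroup.centralizer (A : Set N) = A)
    {F : Type*} [Field F] [Fintype F] (hF : Fintype.card F = p) (e : N ⧸ A ≃* Matrix.SpecialLinearGroup (Fin 2) F) :
    ∃ U : Subgroup N, A ⊓ U = ⊥ ∧ A ⊔ U = ⊤ := by
  classical
  have hpp : p.Prime := Fact.out
  have hpodd : Odd p := hpp.odd_of_ne_two hp
  obtain ⟨k, hk⟩ := hpodd
  have h2F : (2 : F) ≠ 0 := by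
    intro h2
    have h1 : ((Fintype.card F : ℕ) : F) = 0 := Nat.cast_card_eq_zero F
    rw [hF, hk] at h1
    push_cast at h1
    rw [h2, zero_mul, zero_add] at h1
    exact one_ne_zero h1
  obtain ⟨z, hz⟩ : ∃ z : Matrix.SpecialLinearGroup (Fin 2) F,
      (z : Matrix (Fin 2) (Fin 2) F) = !![-1, 0; 0, -1] :=
    ⟨⟨!![-1, 0; 0, -1], by simp [Matrix.det_fin_two]⟩, rfl⟩
  obtain ⟨u, hu⟩ : ∃ z : Matrix.SpecialLinearGroup (Fin 2) F,
      (z : Matrix (Fin 2) (Fin 2) F) = !![1, 1; 0, 1] :=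
    ⟨⟨!![1, 1; 0, 1], by simp [Matrix.det_fin_two]⟩, rfl⟩
  obtain ⟨l, hl⟩ : ∃ z : Matrix.SpecialLinearGroup (Fin 2) F,
      (z : Matrix (Fin 2) (Fin 2) F) = !![1, 0; 1, 1] :=
    ⟨⟨!![1, 0; 1, 1], by simp [Matrix.det_fin_two]⟩, rfl⟩
  have hz2 : z * z = 1 := by
    ext i j
    rw [Matrix.SpecialLinearGroup.coe_mul, hz]
    fin_cases i <;> fin_cases j <;> simp [Matrix.mul_apply, Fin.sum_univ_two]
  have hzc : ∀ g : Matrix.SpecialLinearGroup (Fin 2) F, g * z = z * g := by
    intro g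
    ext i j
    rw [Matrix.SpecialLinearGroup.coe_mul, Matrix.SpecialLinearGroup.coe_mul, hz]
    fin_cases i <;> fin_cases j <;> simp [Matrix.mul_apply, Fin.sum_univ_two]
  have hz1 : z ≠ 1 := by
    intro h
    have h1 := congrArg
      (fun M : Matrix.SpecialLinearGroup (Fin 2) F => (M : Matrix (Fin 2) (Fin 2) F) 0 0) h
    simp only [hz] at h1
    simp at h1
    apply h2F
    have : (2 : F) = 1 + 1 := by norm_num
    rw [this]
    nth_rewrite 1 [← h1]
    simp
  have hul : u * l ≠ l * u := by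
    intro h
    have h1 := congrArg
      (fun M : Matrix.SpecialLinearGroup (Fin 2) F => (M : Matrix (Fin 2) (Fin 2) F) 0 0) h
    simp only [Matrix.SpecialLinearGroup.coe_mul, hu, hl] at h1
    simp [Matrix.mul_apply, Fin.sum_univ_two] at h1
  have hAc : ∀ a ∈ A, ∀ b ∈ A, a * b = b * a := by
    intro a ha b hb
    have := hAcomm.is_comm.comm (⟨a, ha⟩ : A) ⟨b, hb⟩
    exact congrArg Subtype.val this
  have hAexp' : ∀ a ∈ A, a ^ p = 1 := by
    intro a ha
    have := Monoid.pow_exponent_eq_one (⟨a, ha⟩ : A)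
    rw [hAexp] at this
    exact congrArg Subtype.val this
  obtain ⟨t₀, ht₀⟩ := QuotientGroup.mk_surjective (e.symm z)
  obtain ⟨g₀, hg₀⟩ := QuotientGroup.mk_surjective (e.symm u)
  obtain ⟨h₀, hh₀⟩ := QuotientGroup.mk_surjective (e.symm l)
  have ht₀2 : t₀ * t₀ ∈ A := by
    rw [← QuotientGroup.eq_one_iff, QuotientGroup.mk_mul, ht₀, ← map_mul, hz2, map_one]
  have hzp : z ^ p = z := by
    rw [hk, pow_succ, pow_mul, pow_two, hz2, one_pow, one_mul]
  have htp : ((t₀ ^ p : N) : N ⧸ A) = e.symm z := by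
    rw [QuotientGroup.mk_pow, ht₀, ← map_pow, hzp]
  refine split_of_central_involution hp A hAc hAcard hAexp' hAself (t₀ ^ p) ?_ ?_ ?_ ?_
  · have h1 : t₀ ^ p * t₀ ^ p = (t₀ * t₀) ^ p := by
      rw [← pow_add, ← two_mul, pow_mul, pow_two]
    rw [h1]
    exact hAexp' _ ht₀2
  · intro hmem
    rw [← QuotientGroup.eq_one_iff, htp] at hmem
    apply hz1
    have := congrArg e hmem
    simpa using this
  · intro n
    rw [← QuotientGroup.eq_one_iff]
    rw [QuotientGroup.mk_mul, QuotientGroup.mk_mul, QuotientGroup.mk_mul, QuotientGroup.mk_inv,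
      QuotientGroup.mk_inv, htp]
    apply e.injective
    rw [map_mul, map_mul, map_mul, map_inv, map_inv, map_one, MulEquiv.apply_symm_apply,
      hzc, mul_inv_cancel_right, mul_inv_cancel]
  · refine ⟨g₀, h₀, ?_⟩
    intro hmem
    rw [← QuotientGroup.eq_one_iff] at hmem
    rw [QuotientGroup.mk_mul, QuotientGroup.mk_mul, QuotientGroup.mk_mul, QuotientGroup.mk_inv,
      QuotientGroup.mk_inv, hg₀, hh₀] at hmem
    apply hul
    have h1 := congrArg e hmem
    rw [map_mul, map_mul, map_mul, map_inv, map_inv, map_one, MulEquiv.apply_symm_apply,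
      MulEquiv.apply_symm_apply] at h1
    have h2 : u * l = (u * l * u⁻¹ * l⁻¹) * (l * u) := by group
    rw [h2, h1, one_mul]

end Cfsg.Agent.S3075
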