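import Cfsg.Statements.S3078
import Cfsg.Agent.Helper17.ReplT

set_option autoImplicit false
open Cfsg

namespace Cfsg.Agent.S3078

open scoped commutatorElement

/-- A replacement Theorem for abelian subgroups of p-groups, p odd. Let G be a finite p-group with p odd, A an abelian subgroup of G, and B a subgroup of nilpotency class at most 2 with [B, B] ≤ A, such that A normalizes B but B does not normalize A. Then there is an abelian subgroup A* of G of the same order as A with A ∩ B strictly contained in A* ∩ B, A* contained in N_G(A) and in the normal closure of A, the exponent of A* dividing the exponent of A, and with the subgroup generated by the elements of order dividing p in A of order at most that of the corresponding subgroup of A* (the rank of A is at most the rank of A*). -/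
theorem result {G : Type*} [Group G] [Finite G] {p : ℕ} [Fact p.Prime] (hp : p ≠ 2) (hG : IsPGroup p G) (A B : Subgroup G) (hA : IsMulCommutative A) (hB2 : ⁅⁅B, B⁆, B⁆ = ⊥) (hBA : ⁅B, B⁆ ≤ A) (hAB : A ≤ Subgroup.normalizer (B : Set G)) (hBnA : ¬ B ≤ Subgroup.normalizer (A : Set G)) : ∃ Astar : Subgroup G, IsMulCommutative Astar ∧ Nat.card Astar = Nat.card A ∧ A ⊓ B < Astar ⊓ B ∧ Astar ≤ Subgroup.normalizer (A : Set G) ∧ Astar ≤ Subgroup.normalClosure (A : Set G) ∧ Monoid.exponent Astar ∣ Monoid.exponent A ∧ Nat.card (Cfsg.omegaOne p A) ≤ Nat.card (Cfsg.omegaOne p Astar) := by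
  obtain ⟨K, hK⟩ : ∃ K : Subgroup G, K = A ⊔ B := ⟨_, rfl⟩
  have hAK : A ≤ K := hK ▸ le_sup_left
  have hBK : B ≤ K := hK ▸ le_sup_right
  have hKN : K ≤ Subgroup.normalizer (B : Set G) := hK ▸ sup_le hAB Subgroup.le_normalizer
  haveI hBn : (B.subgroupOf K).Normal := (Subgroup.normal_subgroupOf_iff_le_normalizer hBK).mpr hKN
  have hAc : ∀ x ∈ A, ∀ y ∈ A, x * y = y * x := fun x hx y hy => by
    have := congrArg Subtype.val (mul_comm' (⟨x, hx⟩ : A) ⟨y, hy⟩)
    simpa using this
  have hAc' : ∀ x ∈ A.subgroupOf K, ∀ y ∈ A.subgroupOf K, x * y = y * x := fun x hx y hy =>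
    Subtype.ext (hAc _ (Subgroup.mem_subgroupOf.mp hx) _ (Subgroup.mem_subgroupOf.mp hy))
  have hD : IsPGroup p (⊤ : Subgroup K) := (hG.to_subgroup K).to_subgroup ⊤
  have hBA' : ⁅B.subgroupOf K, B.subgroupOf K⁆ ≤ A.subgroupOf K := by
    rw [Subgroup.commutator_le]
    intro x hx y hy
    rw [Subgroup.mem_subgroupOf]
    have h1 : ((⁅x, y⁆ : K) : G) = ⁅(x : G), (y : G)⁆ := rfl
    rw [h1]
    exact hBA (Subgroup.commutator_mem_commutator (Subgroup.mem_subgroupOf.mp hx)
      (Subgroup.mem_subgroupOf.mp hy))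
  have hnot' : ¬ B.subgroupOf K ≤ Subgroup.normalizer (A.subgroupOf K : Set K) := by
    intro hle
    apply hBnA
    intro b hb
    have h1 := hle (show (⟨b, hBK hb⟩ : K) ∈ B.subgroupOf K from Subgroup.mem_subgroupOf.mpr hb)
    apply Subgroup.mem_normalizer_fintype
    intro n hn
    have h2 := (Subgroup.mem_normalizer_iff.mp h1 ⟨n, hAK hn⟩).mp (Subgroup.mem_subgroupOf.mpr hn)
    exact Subgroup.mem_subgroupOf.mp h2
  obtain ⟨S, hSc, hScard, hinf, ⟨x, hxSB, hxA⟩, hSN, hSncl, hSexp, hSom⟩ :=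
    Cfsg.Agent.Helper17.repl_normal hp (A.subgroupOf K) (B.subgroupOf K) ⊤ hD le_top le_top
      hAc' hBA' hnot'
  have hinj : Function.Injective K.subtype := K.subtype_injective
  have hAmap : (A.subgroupOf K).map K.subtype = A := Subgroup.map_subgroupOf_eq_of_le hAK
  refine ⟨S.map K.subtype, ⟨⟨?_⟩⟩, ?_, ?_, ?_, ?_, ?_, ?_⟩
  · rintro ⟨_, ⟨u, hu, rfl⟩⟩ ⟨_, ⟨v, hv, rfl⟩⟩
    apply Subtype.ext
    show K.subtype u * K.subtype v = K.subtype v * K.subtype u
    rw [← map_mul, ← map_mul, hSc u hu v hv]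
  · rw [Subgroup.card_map_of_injective hinj, hScard]
    exact Nat.card_congr (Subgroup.subgroupOfEquivOfLe hAK).toEquiv
  · refine lt_of_le_of_ne ?_ ?_
    · intro z hz
      obtain ⟨hzA, hzB⟩ := Subgroup.mem_inf.mp hz
      refine Subgroup.mem_inf.mpr ⟨⟨⟨z, hAK hzA⟩, hinf (Subgroup.mem_inf.mpr
        ⟨Subgroup.mem_subgroupOf.mpr hzA, Subgroup.mem_subgroupOf.mpr hzB⟩), rfl⟩, hzB⟩
    · intro heq
      obtain ⟨hxS, hxB⟩ := Subgroup.mem_inf.mp hxSB
      have h1 : (x : G) ∈ S.map K.subtype ⊓ B :=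
        Subgroup.mem_inf.mpr ⟨⟨x, hxS, rfl⟩, Subgroup.mem_subgroupOf.mp hxB⟩
      rw [← heq] at h1
      exact hxA (Subgroup.mem_subgroupOf.mpr (Subgroup.mem_inf.mp h1).1)
  · rintro _ ⟨y, hy, rfl⟩
    have h1 := hSN hy
    apply Subgroup.mem_normalizer_fintype
    intro n hn
    have h2 := (Subgroup.mem_normalizer_iff.mp h1 ⟨n, hAK hn⟩).mp (Subgroup.mem_subgroupOf.mpr hn)
    exact Subgroup.mem_subgroupOf.mp h2
  · rintro _ ⟨y, hy, rfl⟩
    have h1 : Subgroup.normalClosure (A.subgroupOf K : Set K) ≤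
        (Subgroup.normalClosure (A : Set G)).comap K.subtype :=
      Subgroup.normalClosure_le_normal
        (fun a ha => Subgroup.subset_normalClosure (Subgroup.mem_subgroupOf.mp ha))
    exact h1 (hSncl hy)
  · rw [← Monoid.exponent_eq_of_mulEquiv (S.equivMapOfInjective K.subtype hinj),
      ← Monoid.exponent_eq_of_mulEquiv (Subgroup.subgroupOfEquivOfLe hAK)]
    exact hSexp
  · rw [Cfsg.Agent.Helper17.repl_omega_map p K.subtype hinj S,
      Subgroup.card_map_of_injective hinj]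
    have h2 : Nat.card (Cfsg.omegaOne p A) = Nat.card (Cfsg.omegaOne p (A.subgroupOf K)) := by
      conv_lhs => rw [← hAmap]
      rw [Cfsg.Agent.Helper17.repl_omega_map p K.subtype hinj, Subgroup.card_map_of_injective hinj]
    rw [h2]
    exact hSom

end Cfsg.Agent.S3078
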