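import Cfsg.Statements.S3087
import Mathlib.GroupTheory.Index

set_option autoImplicit false
open Cfsg

namespace Cfsg.Agent.S3087

theorem addSubgroup_card_mul_card_le {V : Type*} [AddCommGroup V] [Finite V] (U C D : AddSubgroup V)
    (hU : U ≤ D) (hC : C ≤ D) :
    Nat.card U * Nat.card C ≤ Nat.card D * Nat.card ↥(U ⊓ C) := by
  have h1 : Nat.card U = Nat.card ↥(U ⊓ C) * C.relIndex U := by
    rw [← AddSubgroup.relIndex_bot_left, ← AddSubgroup.relIndex_bot_left,
      ← AddSubgroup.inf_relIndex_right C U, inf_comm C U]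
    exact (AddSubgroup.relIndex_mul_relIndex ⊥ (U ⊓ C) U bot_le inf_le_left).symm
  have h2 : Nat.card D = Nat.card C * C.relIndex D := by
    rw [← AddSubgroup.relIndex_bot_left, ← AddSubgroup.relIndex_bot_left]
    exact (AddSubgroup.relIndex_mul_relIndex ⊥ C D bot_le hC).symm
  have h3 : C.relIndex U ≤ C.relIndex D :=
    AddSubgroup.relIndex_le_of_le_right hU (fun h0 => by
      rw [h0, mul_zero] at h2
      exact (Nat.card_pos (α := D)).ne' h2)
  calc Nat.card U * Nat.card C = Nat.card ↥(U ⊓ C) * C.relIndex U * Nat.card C := by rw [h1]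
    _ ≤ Nat.card ↥(U ⊓ C) * C.relIndex D * Nat.card C := by gcongr
    _ = Nat.card D * Nat.card ↥(U ⊓ C) := by rw [h2]; ring

/-- Let p be a prime, G a finite group acting linearly on a finite vector space V over the field with p elements, W a G-invariant subspace, and A a subgroup of G with |A|·|C_V(A)| ≥ |B|·|C_V(B)| for every subgroup B of A. Then |A|·|C_W(A)| ≥ |B|·|C_W(B)| for every subgroup B of A that contains C_A(W); that is, the image of A in the group induced on W satisfies the same maximality condition. -/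
theorem result {G V : Type*} [Group G] [Finite G] [AddCommGroup V] [Finite V] (p : ℕ) [Fact p.Prime] [Module (ZMod p) V]
    (ρ : Representation (ZMod p) G V) (W : Submodule (ZMod p) V) (hW : ∀ g : G, ∀ w ∈ W, ρ g w ∈ W)
    (A : Subgroup G)
    (hP : ∀ B : Subgroup G, B ≤ A →
      Nat.card ↥B * Nat.card {v : V // ∀ b ∈ B, ρ b v = v} ≤ Nat.card ↥A * Nat.card {v : V // ∀ a ∈ A, ρ a v = v})
    (B : Subgroup G) (hBA : B ≤ A) (hCB : ∀ a ∈ A, (∀ w ∈ W, ρ a w = w) → a ∈ B) :
    Nat.card ↥B * Nat.card {w : W // ∀ b ∈ B, ρ b w = w} ≤ Nat.card ↥A * Nat.card {w : W // ∀ a ∈ A, ρ a w = w} := by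
  let fix : Subgroup G → AddSubgroup V := fun X =>
    { carrier := {v | ∀ x ∈ X, ρ x v = v}
      zero_mem' := by intro x _; simp
      add_mem' := by
        intro a b ha hb x hx
        rw [map_add, ha x hx, hb x hx]
      neg_mem' := by
        intro a ha x hx
        rw [map_neg, ha x hx] }
  have hfix : ∀ (X : Subgroup G) (v : V), v ∈ fix X ↔ ∀ x ∈ X, ρ x v = v := fun X v => Iff.rfl
  have hfixmono : ∀ X Y : Subgroup G, X ≤ Y → fix Y ≤ fix X := by
    intro X Y hXY v hv x hx
    exact hv x (hXY hx)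
  set U : AddSubgroup V := W.toAddSubgroup ⊓ fix B with hU
  let D : Subgroup G :=
    { carrier := {a | a ∈ A ∧ ∀ u ∈ U, ρ a u = u}
      one_mem' := ⟨A.one_mem, by intro u _; simp⟩
      mul_mem' := by
        rintro a b ⟨ha, ha'⟩ ⟨hb, hb'⟩
        refine ⟨A.mul_mem ha hb, ?_⟩
        intro u hu
        rw [map_mul, Module.End.mul_apply, hb' u hu, ha' u hu]
      inv_mem' := by
        rintro a ⟨ha, ha'⟩
        refine ⟨A.inv_mem ha, ?_⟩
        intro u hu
        have h1 : ρ a⁻¹ (ρ a u) = u := by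
          rw [← Module.End.mul_apply, ← map_mul, inv_mul_cancel, map_one, Module.End.one_apply]
        rw [ha' u hu] at h1
        exact h1 }
  have hDA : D ≤ A := fun a ha => ha.1
  have hBD : B ≤ D := by
    intro b hb
    exact ⟨hBA hb, fun u hu => hu.2 b hb⟩
  have hUD : U ≤ fix D := by
    intro u hu d hd
    exact hd.2 u hu
  have hAD : fix A ≤ fix D := hfixmono D A hDA
  have e1 : ∀ X : Subgroup G, Nat.card {v : V // ∀ x ∈ X, ρ x v = v} = Nat.card (fix X) := fun X => rfl
  have e2 : Nat.card {w : W // ∀ b ∈ B, ρ b w = w} = Nat.card U := by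
    apply Nat.card_congr
    exact
      { toFun := fun w => ⟨(w.1 : V), ⟨w.1.2, w.2⟩⟩
        invFun := fun u => ⟨⟨u.1, u.2.1⟩, u.2.2⟩
        left_inv := fun w => rfl
        right_inv := fun u => rfl }
  have e3 : Nat.card {w : W // ∀ a ∈ A, ρ a w = w} = Nat.card ↥(U ⊓ fix A) := by
    apply Nat.card_congr
    exact
      { toFun := fun w => ⟨(w.1 : V), ⟨⟨w.1.2, hfixmono B A hBA w.2⟩, w.2⟩⟩
        invFun := fun u => ⟨⟨u.1, u.2.1.1⟩, u.2.2⟩
        left_inv := fun w => rfl
        right_inv := fun u => rfl }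
  rw [e2, e3]
  have k1 := hP D hDA
  rw [e1, e1] at k1
  have k2 := addSubgroup_card_mul_card_le U (fix A) (fix D) hUD hAD
  have k3 : Nat.card B ≤ Nat.card D := Subgroup.card_le_of_le hBD
  have hpos : 0 < Nat.card (fix A) := Nat.card_pos
  apply Nat.le_of_mul_le_mul_right _ hpos
  calc Nat.card B * Nat.card U * Nat.card (fix A)
      ≤ Nat.card D * Nat.card U * Nat.card (fix A) := by gcongr
    _ = Nat.card D * (Nat.card U * Nat.card (fix A)) := by ring
    _ ≤ Nat.card D * (Nat.card (fix D) * Nat.card ↥(U ⊓ fix A)) := by gcongr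
    _ = (Nat.card D * Nat.card (fix D)) * Nat.card ↥(U ⊓ fix A) := by ring
    _ ≤ (Nat.card A * Nat.card (fix A)) * Nat.card ↥(U ⊓ fix A) := by gcongr
    _ = Nat.card A * Nat.card ↥(U ⊓ fix A) * Nat.card (fix A) := by ring

end Cfsg.Agent.S3087
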