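import Cfsg.Statements.S3155
import Mathlib

set_option autoImplicit false
open Cfsg

namespace Cfsg.Agent.S3155

/-- Let B be the direct product of three cyclic groups of order 4. Then the automorphism of B inverting every element is not the square of any automorphism of B. -/
theorem result {B : Type*} [CommGroup B] [Finite B] (hB : Nonempty (B ≃* Multiplicative (ZMod 4 × ZMod 4 × ZMod 4)))
    (τ : B ≃* B) : τ.trans τ ≠ MulEquiv.inv B := by
  obtain ⟨e⟩ := hB
  intro h
  let g : (ZMod 4 × ZMod 4 × ZMod 4) →+ (ZMod 4 × ZMod 4 × ZMod 4) :=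
    { toFun := fun x => Multiplicative.toAdd (e (τ (e.symm (Multiplicative.ofAdd x))))
      map_zero' := by simp
      map_add' := by intro x y; simp }
  have hgg : ∀ x, g (g x) = -x := by
    intro x
    show Multiplicative.toAdd (e (τ (e.symm (Multiplicative.ofAdd
      (Multiplicative.toAdd (e (τ (e.symm (Multiplicative.ofAdd x))))))))) = -x
    simp only [ofAdd_toAdd, MulEquiv.symm_apply_apply]
    have := congrArg (fun φ : B ≃* B => φ (e.symm (Multiplicative.ofAdd x))) h
    simp only [MulEquiv.trans_apply, MulEquiv.inv_apply] at this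
    rw [this, map_inv, e.apply_symm_apply]
    rfl
  let L : (ZMod 4 × ZMod 4 × ZMod 4) →ₗ[ZMod 4] (ZMod 4 × ZMod 4 × ZMod 4) :=
    g.toZModLinearMap 4
  have hLL : L ∘ₗ L = (-1 : ZMod 4) • LinearMap.id := by
    apply LinearMap.ext
    intro x
    show g (g x) = (-1 : ZMod 4) • x
    rw [hgg]
    simp
  have hdet := congrArg LinearMap.det hLL
  rw [LinearMap.det_comp, LinearMap.det_smul, LinearMap.det_id] at hdet
  have : Fact (1 < 4) := ⟨by norm_num⟩
  have hrank : Module.finrank (ZMod 4) (ZMod 4 × ZMod 4 × ZMod 4) = 3 := by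
    rw [Module.finrank_prod, Module.finrank_prod, Module.finrank_self]
  rw [hrank] at hdet
  revert hdet
  generalize LinearMap.det L = d
  revert d
  decide

end Cfsg.Agent.S3155
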