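import Cfsg.Statements.S3178
import Mathlib
import Cfsg.Agent.Helper18.Modular
import Cfsg.Agent.Helper18.TransferTwo

set_option autoImplicit false
open Cfsg

namespace Cfsg.Agent.S3178

open Subgroup Cfsg.Agent.Helper18

/-- Groups with a modular Sylow 2-subgroup have a normal 2-complement. Let S, of order 2^(n+1) with n ≥ 3, be a Sylow 2-subgroup of a finite group G, and suppose S contains an element a of order 2^n and an involution b with b a b⁻¹ = a^(2^(n-1) + 1); so S is the non-abelian 2-group with a cyclic subgroup of index 2 that is neither dihedral, semidihedral nor generalized quaternion. Then G has a normal 2-complement. -/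
theorem result {G : Type*} [Group G] [Finite G]
    (S : Sylow 2 G) (n : ℕ) (hn : 3 ≤ n) (hS : Nat.card ↥(S : Subgroup G) = 2 ^ (n + 1))
    (a b : G) (ha : a ∈ (S : Subgroup G)) (hb : b ∈ (S : Subgroup G))
    (hao : orderOf a = 2 ^ n) (hbo : orderOf b = 2) (hrel : b * a * b⁻¹ = a ^ (2 ^ (n - 1) + 1)) :
    Cfsg.HasNormalPComplement 2 G := by
  classical
  obtain ⟨m, rfl⟩ : ∃ m, n = m + 3 := ⟨n - 3, by omega⟩
  obtain ⟨q, hqdef⟩ : ∃ q, q = 2 ^ m := ⟨_, rfl⟩
  have hq : 0 < q := by rw [hqdef]; positivity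
  have h8 : 2 ^ (m + 3) = 8 * q := by rw [hqdef]; ring
  have h4 : 2 ^ (m + 3 - 1) = 4 * q := by
    rw [show m + 3 - 1 = m + 2 from rfl, hqdef]; ring
  have h16 : 2 ^ (m + 3 + 1) = 16 * q := by rw [hqdef]; ring
  have hao' : orderOf a = 8 * q := by rw [hao, h8]
  have hS' : Nat.card (S : Subgroup G) = 16 * q := by rw [hS, h16]
  have hrel' : b * a * b⁻¹ = a * a ^ (4 * q) := by rw [hrel, h4, pow_succ']
  have hbb : b * b = 1 := by rw [← pow_two, ← hbo, pow_orderOf_eq_one]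
  have hz1 := mod_z_ne hq hao'
  have hzz := mod_z_sq hao'
  have hcoord := mod_coord (S : Subgroup G) hq hS' ha hb hao' hbb hrel'
  -- the subgroup M
  obtain ⟨M, hMdef⟩ : ∃ M, M = (S : Subgroup G) ⊓ centralizer {b} := ⟨_, rfl⟩
  have hMrel : M.relIndex (S : Subgroup G) = 2 := by
    rw [hMdef]; exact mod_relIndex hq (S : Subgroup G) ha hcoord hao' hbb hrel'
  have hMS : M ≤ (S : Subgroup G) := by rw [hMdef]; exact inf_le_left
  have hMiff : ∀ y ∈ (S : Subgroup G), y ∈ M ↔ b * y = y * b := by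
    intro y hy; rw [hMdef]; exact mod_mem_M_iff _ y hy
  have htype := mod_type hq (S : Subgroup G) hcoord hao' hbb hrel'
  have hSpow : ∀ y ∈ (S : Subgroup G), y ∉ M → y ^ (4 * q) ≠ 1 := by
    intro y hy hyM
    rcases htype y hy with ⟨h, -⟩ | ⟨-, -, h⟩
    · exact absurd ((hMiff y hy).mpr h) hyM
    · rw [h]; exact hz1
  have hMpow : ∀ y ∈ M, y ^ (4 * q) = 1 := by
    intro y hyM
    have hy : y ∈ (S : Subgroup G) := hMS hyM
    rcases htype y hy with ⟨-, h⟩ | ⟨-, hne, -⟩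
    · exact h
    · exact absurd ((hMiff y hy).mp hyM) hne
  have hord : ∀ y ∈ (S : Subgroup G), y ∉ M → 2 ^ (m + 3 - 1) < orderOf y := by
    intro y hy hyM
    have h1 := hSpow y hy hyM
    have h2 : orderOf y ∣ 2 ^ (m + 3 + 1) := by
      rw [← hS]; exact Subgroup.orderOf_dvd_natCard _ hy
    obtain ⟨j, hj, hjo⟩ := (Nat.dvd_prime_pow Nat.prime_two).mp h2
    rw [hjo]
    apply Nat.pow_lt_pow_right (by norm_num)
    by_contra hlt
    apply h1
    rw [← h4]
    apply orderOf_dvd_iff_pow_eq_one.mp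
    rw [hjo]
    exact pow_dvd_pow 2 (by omega)
  have hcon : ∀ g : G, g * a * g⁻¹ ∉ M := by
    intro g hg
    have h1 := hMpow _ hg
    rw [conj_pow] at h1
    apply hz1
    have h2 : a ^ (4 * q) = g⁻¹ * (g * a ^ (4 * q) * g⁻¹) * g := by group
    rw [h2, h1]; group
  obtain ⟨V, hV⟩ := exists_hom_neg_one S M hMrel (m + 3) hord a hao hcon
  -- the kernel
  have hVsurj : Function.Surjective V := by
    intro u
    rcases Int.units_eq_one_or u with rfl | rfl
    · exact ⟨1, map_one _⟩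
    · exact ⟨a, hV⟩
  obtain ⟨G₁, hG₁def⟩ : ∃ G₁ : Subgroup G, G₁ = V.ker := ⟨_, rfl⟩
  have hG₁mem : ∀ g : G, g ∈ G₁ ↔ V g = 1 := by intro g; rw [hG₁def]; exact MonoidHom.mem_ker
  have hG₁n : G₁.Normal := by rw [hG₁def]; infer_instance
  have hG₁idx : G₁.index = 2 := by
    rw [hG₁def, Subgroup.index_ker, MonoidHom.range_eq_top.2 hVsurj]
    simp [Nat.card_eq_fintype_card]
  have hcardG₁ : Nat.card G₁ * 2 = Nat.card G := by
    have h1 := G₁.card_mul_index
    rw [hG₁idx] at h1; exact h1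
  obtain ⟨S₁, hS₁def⟩ : ∃ S₁ : Subgroup G, S₁ = (S : Subgroup G) ⊓ G₁ := ⟨_, rfl⟩
  have hS₁mem : ∀ g : G, g ∈ S₁ ↔ g ∈ (S : Subgroup G) ∧ V g = 1 := by
    intro g; rw [hS₁def, Subgroup.mem_inf, hG₁mem]
  have hS₁S : S₁ ≤ (S : Subgroup G) := by rw [hS₁def]; exact inf_le_left
  have hS₁G₁ : S₁ ≤ G₁ := by rw [hS₁def]; exact inf_le_right
  have hS₁ab : ∀ s ∈ S₁, ∀ t ∈ S₁, s * t = t * s := by
    intro s hs t ht
    rw [hS₁mem] at hs ht
    exact mod_ker_comm (S : Subgroup G) hcoord hao' hbb hrel' V hV s hs.1 t ht.1 hs.2 ht.2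
  have hcardS₁ : Nat.card S₁ * 2 = Nat.card (S : Subgroup G) := by
    have h1 := card_mul_relIndex_of_le hS₁S
    have h2 : S₁.relIndex (S : Subgroup G) = 2 := by
      rw [hS₁def, Subgroup.inf_relIndex_left, hG₁def, Subgroup.relIndex_ker]
      have h3 : (S : Subgroup G).map V = ⊤ := by
        rw [eq_top_iff]
        intro u _
        rcases Int.units_eq_one_or u with rfl | rfl
        · exact one_mem _
        · exact ⟨a, ha, hV⟩
      rw [h3]
      simp [Nat.card_eq_fintype_card]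
    rw [h2] at h1; exact h1
  -- a Sylow 2-subgroup of the kernel
  have hp2 : IsPGroup 2 (S₁.subgroupOf G₁) := (S.isPGroup'.to_le hS₁S).comap_subtype
  have hr : S₁.relIndex G₁ = (S : Subgroup G).index := by
    have h1 := card_mul_relIndex_of_le hS₁G₁
    have h2 := (S : Subgroup G).card_mul_index
    have hpos : 0 < Nat.card S₁ * 2 := by rw [hcardS₁]; exact Nat.card_pos
    apply Nat.eq_of_mul_eq_mul_left hpos
    calc Nat.card S₁ * 2 * S₁.relIndex G₁ = (Nat.card S₁ * S₁.relIndex G₁) * 2 := by ring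
      _ = Nat.card G := by rw [h1, hcardG₁]
      _ = Nat.card S₁ * 2 * (S : Subgroup G).index := by rw [hcardS₁, h2]
  have hidx : ¬ 2 ∣ (S₁.subgroupOf G₁).index := by
    change ¬ 2 ∣ S₁.relIndex G₁
    rw [hr]; exact S.not_dvd_index
  let P₁ : Sylow 2 G₁ := hp2.toSylow hidx
  have hP₁mem : ∀ g : G₁, g ∈ P₁ ↔ (g : G) ∈ S₁ := by
    intro g
    exact (IsPGroup.mem_toSylow hp2 hidx).trans Subgroup.mem_subgroupOf
  have hP₁ab : ∀ x ∈ (P₁ : Subgroup G₁), ∀ y ∈ (P₁ : Subgroup G₁), x * y = y * x := by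
    intro x hx y hy
    apply Subtype.ext
    exact hS₁ab x ((hP₁mem x).mp hx) y ((hP₁mem y).mp hy)
  have hwS₁ : a ^ (2 * q) ∈ S₁ := by
    rw [hS₁mem]
    refine ⟨Subgroup.pow_mem _ ha _, ?_⟩
    rw [map_pow, hV, Even.neg_one_pow ⟨q, by ring⟩]
  have hww : a ^ (2 * q) * a ^ (2 * q) = a ^ (4 * q) := by rw [← pow_add]; congr 1; ring
  have hzS₁ : a ^ (4 * q) ∈ S₁ := by rw [← hww]; exact S₁.mul_mem hwS₁ hwS₁
  have hkey : ∀ x : G, (∀ s ∈ S₁, x * s * x⁻¹ ∈ S₁) →
      ∀ s ∈ S₁, (x * x) ^ (2 ^ (m + 3)) * s = s * (x * x) ^ (2 ^ (m + 3)) := by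
    intro x hx
    have hxz : x * a ^ (4 * q) * x⁻¹ = a ^ (4 * q) := by
      have h1 := hx _ hwS₁
      have h2 : (x * a ^ (2 * q) * x⁻¹) * (x * a ^ (2 * q) * x⁻¹) = x * a ^ (4 * q) * x⁻¹ := by
        rw [← hww]; group
      have h3 : (x * a ^ (4 * q) * x⁻¹) * (x * a ^ (4 * q) * x⁻¹) = 1 := by
        calc (x * a ^ (4 * q) * x⁻¹) * (x * a ^ (4 * q) * x⁻¹)
            = x * (a ^ (4 * q) * a ^ (4 * q)) * x⁻¹ := by group
          _ = 1 := by rw [hzz]; group
      rcases mod_sq_sq (S : Subgroup G) hcoord hao' hbb hrel' _ (hS₁S h1)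
        (by rw [h2]; exact h3) with h5 | h5
      · exfalso
        rw [h2] at h5
        apply hz1
        have h6 : a ^ (4 * q) = x⁻¹ * (x * a ^ (4 * q) * x⁻¹) * x := by group
        rw [h6, h5]; group
      · rw [h2] at h5; exact h5
    have hxz' : x * a ^ (4 * q) = a ^ (4 * q) * x := by
      calc x * a ^ (4 * q) = (x * a ^ (4 * q) * x⁻¹) * x := by group
        _ = a ^ (4 * q) * x := by rw [hxz]
    have hxxz : (x * x) * a ^ (4 * q) = a ^ (4 * q) * (x * x) := by
      calc (x * x) * a ^ (4 * q) = x * (x * a ^ (4 * q)) := by simp only [mul_assoc]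
        _ = x * (a ^ (4 * q) * x) := by rw [hxz']
        _ = (x * a ^ (4 * q)) * x := by simp only [mul_assoc]
        _ = (a ^ (4 * q) * x) * x := by rw [hxz']
        _ = a ^ (4 * q) * (x * x) := by simp only [mul_assoc]
    have hxxb : b ∈ S₁ → (x * x) * b = b * (x * x) := by
      intro hbS₁
      have h1 := hx b hbS₁
      have h2 : (x * b * x⁻¹) * (x * b * x⁻¹) = 1 := by
        calc (x * b * x⁻¹) * (x * b * x⁻¹) = x * (b * b) * x⁻¹ := by group
          _ = 1 := by rw [hbb]; group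
      rcases mod_involutions (S : Subgroup G) hcoord hao' hbb hrel' _ (hS₁S h1) h2
        with h3 | h3 | h3 | h3
      · exfalso
        have h5 : b = 1 := by
          have h6 : b = x⁻¹ * (x * b * x⁻¹) * x := by group
          rw [h6, h3]; group
        rw [h5, orderOf_one] at hbo
        omega
      · exfalso
        apply mod_b_ne_z hq hao' hrel'
        have h8 : x * b * x⁻¹ = x * a ^ (4 * q) * x⁻¹ := h3.trans hxz.symm
        exact mul_left_cancel (mul_right_cancel h8)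
      · calc (x * x) * b = (x * (x * b * x⁻¹) * x⁻¹) * (x * x) := by group
          _ = b * (x * x) := by rw [h3, h3]
      · calc (x * x) * b = (x * (x * b * x⁻¹) * x⁻¹) * (x * x) := by group
          _ = (x * (a ^ (4 * q) * b) * x⁻¹) * (x * x) := by rw [h3]
          _ = ((x * a ^ (4 * q) * x⁻¹) * (x * b * x⁻¹)) * (x * x) := by group
          _ = (a ^ (4 * q) * (a ^ (4 * q) * b)) * (x * x) := by rw [hxz, h3]
          _ = (a ^ (4 * q) * a ^ (4 * q)) * b * (x * x) := by simp only [mul_assoc]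
          _ = b * (x * x) := by rw [hzz, one_mul]
    have hinv : ∀ t ∈ S₁, t * t = 1 → (x * x) * t = t * (x * x) := by
      intro t ht htt
      rcases mod_involutions (S : Subgroup G) hcoord hao' hbb hrel' t (hS₁S ht) htt
        with h | h | h | h
      · rw [h, mul_one, one_mul]
      · rw [h]; exact hxxz
      · rw [h]; rw [h] at ht; exact hxxb ht
      · have hbS₁ : b ∈ S₁ := by
          have h5 : b = a ^ (4 * q) * (a ^ (4 * q) * b) := by rw [← mul_assoc, hzz, one_mul]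
          rw [h5, ← h]; exact S₁.mul_mem hzS₁ ht
        rw [h]
        calc (x * x) * (a ^ (4 * q) * b) = ((x * x) * a ^ (4 * q)) * b := by
              simp only [mul_assoc]
          _ = (a ^ (4 * q) * (x * x)) * b := by rw [hxxz]
          _ = a ^ (4 * q) * ((x * x) * b) := by simp only [mul_assoc]
          _ = a ^ (4 * q) * (b * (x * x)) := by rw [hxxb hbS₁]
          _ = (a ^ (4 * q) * b) * (x * x) := by simp only [mul_assoc]
    have hnorm2 : ∀ s ∈ S₁, (x * x) * s * (x * x)⁻¹ ∈ S₁ := by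
      intro s hs
      have h1 := hx _ (hx s hs)
      have h2 : (x * x) * s * (x * x)⁻¹ = x * (x * s * x⁻¹) * x⁻¹ := by group
      rw [h2]; exact h1
    have hC := commute_pow_two_pow_of_commute_involutions S₁ hS₁ab (x * x) hnorm2 hinv (m + 3)
    intro s hs
    apply hC s hs
    have h1 : orderOf s ∣ 2 ^ (m + 3 + 1) := by
      rw [← hS]; exact Subgroup.orderOf_dvd_natCard _ (hS₁S hs)
    exact orderOf_dvd_iff_pow_eq_one.mp h1
  have hJ : ∀ g ∈ Subgroup.normalizer (P₁ : Set G₁),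
      ∃ J : ℕ, g ^ (2 ^ J) ∈ Subgroup.centralizer (P₁ : Set G₁) := by
    intro g hg
    refine ⟨m + 3 + 1, ?_⟩
    have hx : ∀ s ∈ S₁, (g : G) * s * (g : G)⁻¹ ∈ S₁ := by
      intro s hs
      have h0 := (Subgroup.mem_set_normalizer_iff.mp hg) ⟨s, hS₁G₁ hs⟩
      have h1 : g * ⟨s, hS₁G₁ hs⟩ * g⁻¹ ∈ P₁ := h0.mp ((hP₁mem _).mpr hs)
      exact (hP₁mem _).mp h1
    have h3 := hkey (g : G) hx
    rw [Subgroup.mem_centralizer_iff]
    intro y hy
    apply Subtype.ext
    have h4 := h3 (y : G) ((hP₁mem y).mp hy)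
    have h5 : ((g ^ (2 ^ (m + 3 + 1)) : G₁) : G) = ((g : G) * (g : G)) ^ (2 ^ (m + 3)) := by
      rw [Subgroup.coe_pow, ← pow_two, ← pow_mul, ← pow_succ']
    rw [Subgroup.coe_mul, Subgroup.coe_mul, h5]
    exact h4.symm
  have hNC := normalizer_le_centralizer_of_pow P₁ hP₁ab hJ
  obtain ⟨K₁, hK₁def⟩ : ∃ K₁ : Subgroup G₁, K₁ = (MonoidHom.transferSylow P₁ hNC).ker :=
    ⟨_, rfl⟩
  have hK₁n : K₁.Normal := by rw [hK₁def]; infer_instance
  have hcomp : K₁.IsComplement' (P₁ : Subgroup G₁) := by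
    rw [hK₁def]; exact MonoidHom.ker_transferSylow_isComplement' P₁ hNC
  have hK₁odd : ¬ 2 ∣ Nat.card K₁ := by
    rw [hK₁def]; exact MonoidHom.not_dvd_card_ker_transferSylow P₁ hNC
  have hcardP₁ : Nat.card (P₁ : Subgroup G₁) = Nat.card S₁ := by
    have h1 : (P₁ : Subgroup G₁) = S₁.subgroupOf G₁ := IsPGroup.toSylow_coe hp2 hidx
    rw [h1]
    exact Nat.card_congr (Subgroup.subgroupOfEquivOfLe hS₁G₁).toEquiv
  have hK₁char : ∀ y : G₁, (∃ r : ℕ, Odd r ∧ y ^ r = 1) → y ∈ K₁ := by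
    rintro y ⟨r, hr, hyr⟩
    have h1 : K₁.index = Nat.card (P₁ : Subgroup G₁) := hcomp.symm.index_eq_card
    obtain ⟨c, hc⟩ := (IsPGroup.iff_card).1 P₁.isPGroup'
    rw [← QuotientGroup.eq_one_iff]
    have h2 : orderOf (y : G₁ ⧸ K₁) ∣ 2 ^ c := by
      have h3 := orderOf_dvd_natCard (y : G₁ ⧸ K₁)
      rwa [← Subgroup.index_eq_card, h1, hc] at h3
    have h4 : orderOf (y : G₁ ⧸ K₁) ∣ r := by
      apply orderOf_dvd_of_pow_eq_one
      rw [← QuotientGroup.mk_pow, hyr, QuotientGroup.mk_one]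
    have h5 : Nat.Coprime (2 ^ c) r := Nat.Coprime.pow_left c (Nat.coprime_two_left.mpr hr)
    have h6 : orderOf (y : G₁ ⧸ K₁) = 1 := Nat.eq_one_of_dvd_coprimes h5 h2 h4
    exact orderOf_eq_one_iff.mp h6
  obtain ⟨K, hKdef⟩ : ∃ K : Subgroup G, K = K₁.map G₁.subtype := ⟨_, rfl⟩
  have hKn : K.Normal := by
    constructor
    intro k hk x
    rw [hKdef] at hk ⊢
    obtain ⟨y, hy, rfl⟩ := hk
    have hmem : x * (y : G) * x⁻¹ ∈ G₁ := hG₁n.conj_mem _ y.2 x
    refine ⟨⟨x * (y : G) * x⁻¹, hmem⟩, ?_, rfl⟩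
    apply hK₁char
    refine ⟨Nat.card K₁, ?_, ?_⟩
    · rw [← Nat.not_even_iff_odd, even_iff_two_dvd]; exact hK₁odd
    · apply Subtype.ext
      have h1 : (y : G₁) ^ Nat.card K₁ = 1 :=
        orderOf_dvd_iff_pow_eq_one.mp (Subgroup.orderOf_dvd_natCard K₁ hy)
      have h4 : ((y : G₁) : G) ^ Nat.card K₁ = 1 := by
        have h5 := congrArg Subtype.val h1
        simpa using h5
      show (x * (y : G) * x⁻¹) ^ Nat.card K₁ = 1
      rw [conj_pow, h4]; group
  have hcardK : Nat.card K = Nat.card K₁ := by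
    rw [hKdef]; exact Subgroup.card_map_of_injective G₁.subtype_injective
  have hprod : Nat.card K * Nat.card (S : Subgroup G) = Nat.card G := by
    have h1 := hcomp.card_mul_card
    rw [hcardP₁] at h1
    rw [hcardK, ← hcardS₁, ← hcardG₁, ← h1]; ring
  have hcop : Nat.Coprime (Nat.card K) (Nat.card (S : Subgroup G)) := by
    rw [hcardK, hS]
    apply Nat.Coprime.pow_right
    rw [Nat.coprime_two_right, ← Nat.not_even_iff_odd, even_iff_two_dvd]; exact hK₁odd
  exact ⟨S, K, hKn, Subgroup.isComplement'_of_coprime hprod hcop⟩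

end Cfsg.Agent.S3178
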