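import Cfsg.Statements.S3179
-- import your own Cfsg.Agent.* helpers here
import Cfsg.Agent.Helper13.GL52Bender

set_option autoImplicit false
open Cfsg

namespace Cfsg.Agent.S3179

/-- Let X be a section of the general linear group GL(5, 2), that is, a quotient of a subgroup of it. If X is isomorphic to PSL(2, 2^n) for some n ≥ 2, to a Suzuki group over the field with 2^(2m+1) elements for some m ≥ 1, or to PSU(3, 2^n) for some n ≥ 2, then X is isomorphic to PSL(2, 4). -/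
theorem result {H : Subgroup (GL (Fin 5) (ZMod 2))}
    {K : Subgroup ↥H} [K.Normal]
    (hX : (∃ (n : ℕ) (F : Type) (_ : Field F) (_ : Fintype F), 2 ≤ n ∧ Fintype.card F = 2 ^ n ∧
        Nonempty (↥H ⧸ K ≃* Matrix.ProjectiveSpecialLinearGroup (Fin 2) F)) ∨
      (∃ (m : ℕ) (F : Type) (_ : Field F) (_ : Fintype F), 1 ≤ m ∧ Fintype.card F = 2 ^ (2 * m + 1) ∧
        Nonempty (↥H ⧸ K ≃* ↥(Cfsg.Lie.Sz F (2 ^ (m + 1))))) ∨
      (∃ (n : ℕ) (F : Type) (_ : Field F) (_ : Fintype F), 2 ≤ n ∧ Fintype.card F = 4 ^ n ∧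
        Nonempty (↥H ⧸ K ≃* Cfsg.PSU 3 F (2 ^ n)))) :
    ∃ (F : Type) (_ : Field F) (_ : Fintype F), Fintype.card F = 4 ∧
      Nonempty (↥H ⧸ K ≃* Matrix.ProjectiveSpecialLinearGroup (Fin 2) F) := by
  classical
  rcases hX with ⟨n, F, hFld, hFin, hn, hcard, ⟨e⟩⟩ | ⟨m, F, hFld, hFin, hm, hcard, ⟨e⟩⟩ |
    ⟨n, F, hFld, hFin, hn, hcard, ⟨e⟩⟩
  · -- `PSL(2, 2^n)`
    by_cases h2 : n = 2
    · refine ⟨F, hFld, hFin, ?_, ⟨e⟩⟩
      rw [hcard, h2]
      norm_num
    exfalso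
    have hcardU : Nat.card Fˣ = 2 ^ n - 1 := by
      rw [Nat.card_units, Nat.card_eq_fintype_card, hcard]
    by_cases h3 : n = 3
    · obtain ⟨κ, hκ⟩ := IsCyclic.exists_generator (α := Fˣ)
      have hκo : orderOf κ = 7 := by
        rw [orderOf_eq_card_of_forall_mem_zpowers hκ, hcardU, h3]
        norm_num
      have hκ7 : κ ^ 7 = 1 := by
        rw [← hκo]
        exact pow_orderOf_eq_one κ
      have hκ2 : κ ^ 2 ≠ 1 := by
        intro h
        have h1 := orderOf_dvd_of_pow_eq_one h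
        rw [hκo] at h1
        have h2' := Nat.le_of_dvd (by norm_num) h1
        omega
      obtain ⟨d, w, hd, hw⟩ := Cfsg.Agent.Helper13.bd_psl2_dihedral κ hκ2 7 (by norm_num) hκ7
      exact Cfsg.Agent.Helper13.gl52_no_dihedral_section' 7 (Or.inl rfl) e d w hd hw
    · have h4 : 4 ≤ n := by omega
      have hdvd := Cfsg.Agent.Helper13.gl52_section_card' e
      have hPSL := Cfsg.Agent.Helper2.card_PSL_mul F 2 (by norm_num)
      rw [Cfsg.Agent.S2301.card_SL2, hcard] at hPSL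
      have hodd : Nat.gcd 2 (2 ^ n - 1) = 1 := by
        have h1 : Odd (2 ^ n - 1) :=
          Nat.Even.sub_odd Nat.one_le_two_pow ((Nat.even_pow' (by omega)).mpr even_two) odd_one
        exact Nat.coprime_two_left.mpr h1
      rw [hodd, mul_one] at hPSL
      rw [hPSL] at hdvd
      have hn10 : n ≤ 10 := by
        by_contra hcon
        have h11 : 2 ^ 11 ∣ 2 ^ n := pow_dvd_pow 2 (by omega)
        have h12 := dvd_trans h11 (dvd_trans (dvd_mul_right _ _) hdvd)
        norm_num at h12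
      interval_cases n <;> norm_num at hdvd
  · -- Suzuki groups
    exfalso
    obtain ⟨p, hp⟩ := CharP.exists F
    haveI := hp
    have hpp : p.Prime := CharP.char_is_prime F p
    obtain ⟨k, -, hk⟩ := FiniteField.card F p
    have hp2 : p = 2 := by
      rw [hcard] at hk
      have h1 : p ∣ 2 ^ (2 * m + 1) := by
        rw [hk]
        exact dvd_pow_self p k.ne_zero
      exact (Nat.prime_dvd_prime_iff_eq hpp Nat.prime_two).mp (hpp.dvd_of_dvd_pow h1)
    subst hp2
    have hθ : ∀ x : F, (x ^ 2 ^ (m + 1)) ^ 2 ^ (m + 1) = x ^ 2 := by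
      intro x
      have h1 : (2 : ℕ) ^ (m + 1) * 2 ^ (m + 1) = 2 ^ (2 * m + 1) * 2 := by ring
      have h3 : x ^ 2 ^ (2 * m + 1) = x := by
        have h4 := FiniteField.pow_card x
        rwa [hcard] at h4
      rw [← pow_mul, h1, pow_mul, h3]
    obtain ⟨φ, -⟩ : ∃ φ : ZMod 2 →+* F, True := ⟨ZMod.castHom (dvd_refl 2) F, trivial⟩
    have hcardU : Nat.card Fˣ = 2 ^ (2 * m + 1) - 1 := by
      rw [Nat.card_units, Nat.card_eq_fintype_card, hcard]
    obtain ⟨κ, hκ⟩ := IsCyclic.exists_generator (α := Fˣ)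
    have hκo : orderOf κ = 2 ^ (2 * m + 1) - 1 := by
      rw [orderOf_eq_card_of_forall_mem_zpowers hκ, hcardU]
    obtain ⟨d, w, hd, hw⟩ := Cfsg.Agent.Helper13.bd_sz_dihedral (2 ^ (m + 1))
      (pow_ne_zero _ (by norm_num)) hθ φ κ
    rw [hκo] at hd
    by_cases h1 : m = 1
    · subst h1
      exact Cfsg.Agent.Helper13.gl52_no_dihedral_section' 7 (Or.inl rfl) e d w
        (by rw [hd]; norm_num) hw
    by_cases h2 : m = 2
    · subst h2
      exact Cfsg.Agent.Helper13.gl52_no_dihedral_section' 31 (Or.inr rfl) e d w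
        (by rw [hd]; norm_num) hw
    have hdvd : 2 ^ (2 * m + 1) - 1 ∣ 9999360 := by
      rw [← hd]
      exact dvd_trans (orderOf_dvd_natCard d) (Cfsg.Agent.Helper13.gl52_section_card' e)
    have hm11 : m ≤ 11 := by
      by_contra hcon
      have h25 : 2 ^ 25 ≤ 2 ^ (2 * m + 1) := Nat.pow_le_pow_right (by norm_num) (by omega)
      have h26 := Nat.le_of_dvd (by norm_num) hdvd
      obtain ⟨N, hN⟩ : ∃ N : ℕ, N = 2 ^ (2 * m + 1) := ⟨_, rfl⟩
      rw [← hN] at h25 h26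
      norm_num at h25
      omega
    have hm3 : 3 ≤ m := by omega
    interval_cases m <;> norm_num at hdvd
  · -- unitary groups
    exfalso
    have hF' : Fintype.card F = (2 ^ n) ^ 2 := by
      rw [hcard, ← pow_mul, mul_comm, pow_mul]
      norm_num
    have hS := Cfsg.Agent.S0280.result hF' 3 (by norm_num)
    have hdvd := Cfsg.Agent.Helper13.gl52_section_card' e
    obtain ⟨N, hN⟩ : ∃ N : ℕ, N = Nat.card (Cfsg.PSU 3 F (2 ^ n)) := ⟨_, rfl⟩
    rw [← hN] at hdvd hS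
    obtain ⟨q, hq⟩ : ∃ q : ℕ, q = 2 ^ n := ⟨_, rfl⟩
    rw [← hq] at hS
    have hprod : ∏ i ∈ Finset.range 3, (if Even i then q ^ (i + 1) + 1 else q ^ (i + 1) - 1)
        = (q + 1) * (q ^ 2 - 1) * (q ^ 3 + 1) := by
      have he0 : Even 0 := ⟨0, rfl⟩
      have he2 : Even 2 := ⟨1, rfl⟩
      rw [Finset.prod_range_succ, Finset.prod_range_succ, Finset.prod_range_one,
        if_pos he0, if_neg Nat.not_even_one, if_pos he2]
      norm_num
    rw [hprod] at hS
    have hexp : 3 * (3 - 1) / 2 = 3 := by norm_num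
    rw [hexp] at hS
    have hg : Nat.gcd 3 (q + 1) ∣ 3 := Nat.gcd_dvd_left 3 (q + 1)
    have h1 : Nat.gcd 3 (q + 1) * ((q + 1) * N) ∣ 3 * ((q + 1) * 9999360) :=
      Nat.mul_dvd_mul hg (Nat.mul_dvd_mul_left _ hdvd)
    rw [hS] at h1
    have h2 : (q + 1) * (q ^ 3 * ((q ^ 2 - 1) * (q ^ 3 + 1))) ∣ (q + 1) * (3 * 9999360) := by
      have e1 : q ^ 3 * ((q + 1) * (q ^ 2 - 1) * (q ^ 3 + 1))
          = (q + 1) * (q ^ 3 * ((q ^ 2 - 1) * (q ^ 3 + 1))) := by ring
      have e2 : 3 * ((q + 1) * 9999360) = (q + 1) * (3 * 9999360) := by ring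
      rw [← e1, ← e2]
      exact h1
    have h3 := Nat.dvd_of_mul_dvd_mul_left (Nat.succ_pos q) h2
    rw [hq] at h3
    have hn3 : n ≤ 3 := by
      by_contra hcon
      have h12 : 2 ^ 12 ∣ (2 ^ n) ^ 3 := by
        rw [← pow_mul]
        exact pow_dvd_pow 2 (by omega)
      have h13 := dvd_trans h12 (dvd_trans (dvd_mul_right _ _) h3)
      norm_num at h13
    interval_cases n <;> norm_num at h3

end Cfsg.Agent.S3179
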