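import Cfsg.Statements.S3180
import Mathlib

set_option autoImplicit false
open Cfsg

namespace Cfsg.Agent.S3180

/-- Let P be a Sylow p-subgroup of a finite group J and P₁ a subgroup of P that is weakly closed in P with respect to J. If J acts on a set and two points, each fixed by every element of P₁, lie in one J-orbit, then they lie in one orbit of the normalizer of P₁ in J. -/
theorem result {J : Type*} [Group J] [Finite J]
    {p : ℕ} [Fact p.Prime] (P : Sylow p J) (P₁ : Subgroup J) (hW : Cfsg.IsWeaklyClosed P₁ (P : Subgroup J))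
    {Ω : Type*} [MulAction J Ω] (x y : Ω) (hx : ∀ g ∈ P₁, g • x = x) (hy : ∀ g ∈ P₁, g • y = y)
    (hc : ∃ g : J, g • x = y) :
    ∃ g ∈ Subgroup.normalizer (P₁ : Set J), g • x = y := by
  classical
  obtain ⟨g, hg⟩ := hc
  obtain ⟨hP₁P, hwc⟩ := hW
  set K := MulAction.stabilizer J y with hK
  have h1 : P₁ ≤ K := fun t ht => MulAction.mem_stabilizer_iff.2 (hy t ht)
  have h2 : P₁.map (MulAut.conj g).toMonoidHom ≤ K := by
    rintro _ ⟨t, ht, rfl⟩
    rw [MulAction.mem_stabilizer_iff]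
    simp only [MulEquiv.coe_toMonoidHom, MulAut.conj_apply]
    rw [← hg, mul_smul, mul_smul, inv_smul_smul, hx t ht]
  have hp₁ : IsPGroup p P₁ := P.isPGroup'.to_le hP₁P
  have hA : IsPGroup p (P₁.subgroupOf K) := hp₁.comap_subtype
  have hB : IsPGroup p ((P₁.map (MulAut.conj g).toMonoidHom).subgroupOf K) :=
    (hp₁.map _).comap_subtype
  obtain ⟨R, hR⟩ := hA.exists_le_sylow
  obtain ⟨R', hR'⟩ := hB.exists_le_sylow
  obtain ⟨h, hh⟩ := MulAction.exists_smul_eq K R' R
  have hRJ : IsPGroup p ((R : Subgroup K).map K.subtype) := R.isPGroup'.map _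
  obtain ⟨Q, hQ⟩ := hRJ.exists_le_sylow
  obtain ⟨k, hk⟩ := MulAction.exists_smul_eq J Q P
  have hP₁Q : P₁ ≤ Q := by
    intro t ht
    apply hQ
    exact ⟨⟨t, h1 ht⟩, hR (by rw [Subgroup.mem_subgroupOf]; exact ht), rfl⟩
  have hgQ : ∀ t ∈ P₁, (h : J) * (g * t * g⁻¹) * (h : J)⁻¹ ∈ (Q : Subgroup J) := by
    intro t ht
    apply hQ
    have ht' : (⟨g * t * g⁻¹, h2 ⟨t, ht, rfl⟩⟩ : K) ∈ (R' : Subgroup K) :=
      hR' (by rw [Subgroup.mem_subgroupOf]; exact ⟨t, ht, rfl⟩)
    have h3 : h * ⟨g * t * g⁻¹, h2 ⟨t, ht, rfl⟩⟩ * h⁻¹ ∈ (R : Subgroup K) := by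
      rw [← hh, Sylow.coe_subgroup_smul, Subgroup.mem_pointwise_smul_iff_inv_smul_mem]
      simpa [MulAut.smul_def, mul_assoc] using ht'
    exact ⟨_, h3, rfl⟩
  have hkQ : ∀ q ∈ (Q : Subgroup J), k * q * k⁻¹ ∈ (P : Subgroup J) := by
    intro q hq
    rw [← hk, Sylow.coe_subgroup_smul, Subgroup.mem_pointwise_smul_iff_inv_smul_mem]
    simpa [MulAut.smul_def, mul_assoc] using hq
  have hw1 : P₁.map (MulAut.conj k).toMonoidHom = P₁ := hwc k (by
    rintro _ ⟨t, ht, rfl⟩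
    exact hkQ t (hP₁Q ht))
  have hw2 : P₁.map (MulAut.conj (k * h * g)).toMonoidHom = P₁ := hwc (k * h * g) (by
    rintro _ ⟨t, ht, rfl⟩
    have := hkQ _ (hgQ t ht)
    simpa [mul_assoc] using this)
  have hnorm : ∀ a : J, P₁.map (MulAut.conj a).toMonoidHom = P₁ →
      a ∈ Subgroup.normalizer (P₁ : Set J) := by
    intro a ha
    rw [Subgroup.mem_normalizer_iff]
    intro t
    constructor
    · intro ht
      rw [← ha]
      exact ⟨t, ht, rfl⟩
    · intro ht
      rw [← ha] at ht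
      obtain ⟨t', ht', he⟩ := ht
      have : t' = t := by simpa using he
      rw [← this]
      exact ht'
  have hkN := hnorm k hw1
  have hkhgN := hnorm _ hw2
  refine ⟨(h : J) * g, ?_, ?_⟩
  · have := Subgroup.mul_mem _ (Subgroup.inv_mem _ hkN) hkhgN
    simpa [mul_assoc] using this
  · rw [mul_smul, hg]
    exact h.2

end Cfsg.Agent.S3180
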