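import Cfsg.Statements.S3195
import Mathlib
import Cfsg.Agent.Helper21.BaerSuzuki

set_option autoImplicit false
open Cfsg

namespace Cfsg.Agent.S3195

theorem conj_pow_eq_mul {G : Type*} [Group G] {x h : G} (hx : x * x = 1)
    (hinv : x * h * x⁻¹ = h⁻¹) {k : ℕ} (hk : h ^ (2 * k + 1) = 1) :
    h ^ k * x * (h ^ k)⁻¹ = x * h := by
  have hxi : x⁻¹ = x := inv_eq_of_mul_eq_one_left hx
  have h1 : x * h ^ k * x⁻¹ = (h ^ k)⁻¹ := by
    rw [← conj_pow, hinv, inv_pow]
  have h2 : h ^ k * x = x * (h ^ k)⁻¹ := by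
    have e : h ^ k = x⁻¹ * (h ^ k)⁻¹ * x := by rw [← h1]; group
    calc h ^ k * x = x⁻¹ * (h ^ k)⁻¹ * x * x := by rw [← e]
      _ = x * (h ^ k)⁻¹ := by rw [hxi, mul_assoc, hx, mul_one]
  have h3 : (h ^ k)⁻¹ * (h ^ k)⁻¹ = h := by
    have e : h ^ k * h ^ k * h = 1 := by
      rw [← pow_add, ← pow_succ, ← hk]; congr 1; omega
    calc (h ^ k)⁻¹ * (h ^ k)⁻¹ = (h ^ k)⁻¹ * (h ^ k)⁻¹ * (h ^ k * h ^ k * h) := by
          rw [e, mul_one]
      _ = h := by group
  rw [h2, mul_assoc, h3]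

theorem eq_one_of_mul_self_of_odd {G : Type*} [Group G] {h : G} (hh : h * h = 1) {k : ℕ}
    (hk : h ^ (2 * k + 1) = 1) : h = 1 := by
  have e : h ^ (2 * k + 1) = h := by
    rw [pow_succ, pow_mul, pow_two, hh, one_pow, one_mul]
  calc h = h ^ (2 * k + 1) := e.symm
    _ = 1 := hk

theorem eq_one_of_comm_of_inv {G : Type*} [Group G] {t h : G} (hc : t * h = h * t)
    (hinv : t * h * t⁻¹ = h⁻¹) {k : ℕ} (hk : h ^ (2 * k + 1) = 1) : h = 1 := by
  have h1 : h = h⁻¹ := by
    calc h = t * h * t⁻¹ := by rw [hc]; group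
      _ = h⁻¹ := hinv
  have h2 : h * h = 1 := by
    have e := mul_inv_cancel h
    rwa [← h1] at e
  exact eq_one_of_mul_self_of_odd h2 hk

theorem mul_eq_mul_inv_of_inverted {G : Type*} [Group G] {x h : G} (hx : x * x = 1)
    (hinv : x * h * x⁻¹ = h⁻¹) : h * x = x * h⁻¹ := by
  have hxi : x⁻¹ = x := inv_eq_of_mul_eq_one_left hx
  calc h * x = (x * x) * h * x⁻¹ := by rw [hx, one_mul, hxi]
    _ = x * (x * h * x⁻¹) := by group
    _ = x * h⁻¹ := by rw [hinv]

theorem mul_self_eq_one_of_inverted_by_odd {G : Type*} [Group G] {w v : G}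
    (hinv : w * v * w⁻¹ = v⁻¹) {k : ℕ} (hk : w ^ (2 * k + 1) = 1) : v * v = 1 := by
  have h2 : Commute (w ^ 2) v := by
    have e : w ^ 2 * v * (w ^ 2)⁻¹ = v := by
      calc w ^ 2 * v * (w ^ 2)⁻¹ = w * (w * v * w⁻¹) * w⁻¹ := by rw [pow_two]; group
        _ = w * v⁻¹ * w⁻¹ := by rw [hinv]
        _ = (w * v * w⁻¹)⁻¹ := by group
        _ = v := by rw [hinv, inv_inv]
    show w ^ 2 * v = v * w ^ 2
    calc w ^ 2 * v = w ^ 2 * v * (w ^ 2)⁻¹ * w ^ 2 := by group
      _ = v * w ^ 2 := by rw [e]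
  have h3 : Commute (w ^ (2 * k)) v := by rw [pow_mul]; exact h2.pow_left k
  have h4 : Commute w v := by
    have e : w = (w ^ (2 * k))⁻¹ := by
      rw [eq_inv_iff_mul_eq_one, ← pow_succ']; exact hk
    rw [e]; exact h3.inv_left
  have h5 : v = v⁻¹ := by
    calc v = w * v * w⁻¹ := by rw [h4.eq]; group
      _ = v⁻¹ := hinv
  have e := mul_inv_cancel v
  rwa [← h5] at e

theorem conj_comm_of_comm_conj {G : Type*} [Group G] {g y z : G}
    (h : y * (g⁻¹ * z * g) = g⁻¹ * z * g * y) : g * y * g⁻¹ * z = z * (g * y * g⁻¹) := by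
  calc g * y * g⁻¹ * z = g * (y * (g⁻¹ * z * g)) * g⁻¹ := by group
    _ = g * (g⁻¹ * z * g * y) * g⁻¹ := by rw [h]
    _ = z * (g * y * g⁻¹) := by group

theorem core {G : Type*} [Group G] {p b u v : G}
    (hp : p * p = 1) (hb : b * b = 1) (hpb : p * b = b * p)
    {k m : ℕ} (hu : u ^ (2 * k + 1) = 1) (hv : v ^ (2 * m + 1) = 1)
    (hu1 : u ≠ 1) (hv1 : v ≠ 1)
    (hpu : p * u * p⁻¹ = u⁻¹) (hbu : b * u = u * b)
    (hbv : b * v * b⁻¹ = v⁻¹) (hpv : p * v = v * p)
    (H1 : ∀ g : G, ∃ y, (y = p ∨ y = b ∨ y = p * b) ∧ y * (g * b * g⁻¹) = g * b * g⁻¹ * y)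
    (H2 : ∀ g : G, ∃ y, (y = p ∨ y = b ∨ y = p * b) ∧
      y * (g * (p * b) * g⁻¹) = g * (p * b) * g⁻¹ * y) : False := by
  have hpi : p⁻¹ = p := inv_eq_of_mul_eq_one_left hp
  have hbi : b⁻¹ = b := inv_eq_of_mul_eq_one_left hb
  -- Step 1: u and v commute
  have huv : u * v = v * u := by
    have hUp : u ^ k * p * (u ^ k)⁻¹ = p * u := conj_pow_eq_mul hp hpu hu
    have hUb : u ^ k * b * (u ^ k)⁻¹ = b := by
      have hc : Commute b (u ^ k) := (show Commute b u from hbu).pow_right k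
      calc u ^ k * b * (u ^ k)⁻¹ = b * u ^ k * (u ^ k)⁻¹ := by rw [hc.eq]
        _ = b := by group
    have hVb : v ^ m * b * (v ^ m)⁻¹ = b * v := conj_pow_eq_mul hb hbv hv
    obtain ⟨U, hU⟩ : ∃ U, U = u ^ k := ⟨_, rfl⟩
    rw [← hU] at hUp hUb
    obtain ⟨V, hV⟩ : ∃ V, V = v ^ m := ⟨_, rfl⟩
    rw [← hV] at hVb
    obtain ⟨y, hy, hyc⟩ := H1 (U⁻¹ * V)
    have e1 : U⁻¹ * V * b * (U⁻¹ * V)⁻¹ = U⁻¹ * (b * v) * U := by
      rw [← hVb]; group
    rw [e1] at hyc
    have hc := conj_comm_of_comm_conj hyc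
    rcases hy with hy | hy | hy
    · rw [hy, hUp] at hc
      have e : p * b * (u * v) = p * b * (v * u) := by
        calc p * b * (u * v) = p * (b * u) * v := by group
          _ = p * (u * b) * v := by rw [hbu]
          _ = p * u * (b * v) := by group
          _ = b * v * (p * u) := hc
          _ = b * (v * p) * u := by group
          _ = b * (p * v) * u := by rw [hpv]
          _ = b * p * (v * u) := by group
          _ = p * b * (v * u) := by rw [hpb]
      exact mul_left_cancel e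
    · rw [hy, hUb] at hc
      exfalso
      have e : b * (b * v) = b * (v * b) := by rw [hc]; group
      exact hv1 (eq_one_of_comm_of_inv (mul_left_cancel e) hbv hv)
    · have hUq : U * (p * b) * U⁻¹ = p * u * b := by
        calc U * (p * b) * U⁻¹ = (U * p * U⁻¹) * (U * b * U⁻¹) := by group
          _ = p * u * b := by rw [hUp, hUb]
      rw [hy, hUq] at hc
      exfalso
      have h3 : p * (u * v) = p * (v⁻¹ * u) := by
        calc p * (u * v) = p * u * (b * b) * v := by rw [hb]; group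
          _ = p * u * b * (b * v) := by group
          _ = b * v * (p * u * b) := hc
          _ = b * (v * p) * (u * b) := by group
          _ = b * (p * v) * (b * u) := by rw [hpv, hbu]
          _ = (b * p) * (v * b) * u := by group
          _ = (p * b) * (v * b⁻¹) * u := by rw [hpb, hbi]
          _ = p * (b * v * b⁻¹) * u := by group
          _ = p * (v⁻¹ * u) := by rw [hbv]; group
      have h4 : u * v * u⁻¹ = v⁻¹ := by rw [mul_left_cancel h3]; group
      exact hv1 (eq_one_of_mul_self_of_odd (mul_self_eq_one_of_inverted_by_odd h4 hu) hv)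
  -- Step 2
  have hq : p * b * (p * b) = 1 := by
    calc p * b * (p * b) = p * (b * p) * b := by group
      _ = p * (p * b) * b := by rw [hpb]
      _ = (p * p) * (b * b) := by group
      _ = 1 := by rw [hp, hb, mul_one]
  have hqu : p * b * u * (p * b)⁻¹ = u⁻¹ := by
    calc p * b * u * (p * b)⁻¹ = p * (b * u) * b⁻¹ * p⁻¹ := by group
      _ = p * (u * b) * b⁻¹ * p⁻¹ := by rw [hbu]
      _ = p * u * p⁻¹ := by group
      _ = u⁻¹ := hpu
  have hqv : p * b * v * (p * b)⁻¹ = v⁻¹ := by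
    calc p * b * v * (p * b)⁻¹ = b * p * v * (b * p)⁻¹ := by rw [hpb]
      _ = b * (p * v) * p⁻¹ * b⁻¹ := by group
      _ = b * (v * p) * p⁻¹ * b⁻¹ := by rw [hpv]
      _ = b * v * b⁻¹ := by group
      _ = v⁻¹ := hbv
  have hqw : p * b * (u * v) * (p * b)⁻¹ = (u * v)⁻¹ := by
    calc p * b * (u * v) * (p * b)⁻¹
        = (p * b * u * (p * b)⁻¹) * (p * b * v * (p * b)⁻¹) := by group
      _ = u⁻¹ * v⁻¹ := by rw [hqu, hqv]
      _ = (v * u)⁻¹ := by group
      _ = (u * v)⁻¹ := by rw [huv]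
  have hw : (u * v) ^ (2 * (2 * k * m + k + m) + 1) = 1 := by
    have e : 2 * (2 * k * m + k + m) + 1 = (2 * k + 1) * (2 * m + 1) := by ring
    rw [e, (show Commute u v from huv).mul_pow, pow_mul, hu, one_pow, pow_mul', hv, one_pow,
      one_mul]
  have hconj := conj_pow_eq_mul hq hqw hw
  obtain ⟨y, hy, hyc⟩ := H2 ((u * v) ^ (2 * k * m + k + m))
  rw [hconj] at hyc
  have hup : u * p = p * u⁻¹ := mul_eq_mul_inv_of_inverted hp hpu
  have hvb : v * b = b * v⁻¹ := mul_eq_mul_inv_of_inverted hb hbv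
  rcases hy with hy | hy | hy
  · rw [hy] at hyc
    have h3 : p * p * b * (u * v) = p * p * b * (u⁻¹ * v) := by
      calc p * p * b * (u * v) = p * (p * b * (u * v)) := by group
        _ = p * b * (u * v) * p := hyc
        _ = p * b * u * (v * p) := by group
        _ = p * b * u * (p * v) := by rw [hpv]
        _ = p * b * (u * p) * v := by group
        _ = p * b * (p * u⁻¹) * v := by rw [hup]
        _ = p * (b * p) * u⁻¹ * v := by group
        _ = p * (p * b) * u⁻¹ * v := by rw [hpb]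
        _ = p * p * b * (u⁻¹ * v) := by group
    have h4 : u = u⁻¹ := mul_right_cancel (mul_left_cancel h3)
    have h5 : u * u = 1 := by
      have e := mul_inv_cancel u
      rwa [← h4] at e
    exact hu1 (eq_one_of_mul_self_of_odd h5 hu)
  · rw [hy] at hyc
    have h3 : p * b * b * (u * v) = p * b * b * (u * v⁻¹) := by
      calc p * b * b * (u * v) = b * p * b * (u * v) := by rw [hpb]
        _ = b * (p * b * (u * v)) := by group
        _ = p * b * (u * v) * b := hyc
        _ = p * b * u * (v * b) := by group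
        _ = p * b * u * (b * v⁻¹) := by rw [hvb]
        _ = p * b * (u * b) * v⁻¹ := by group
        _ = p * b * (b * u) * v⁻¹ := by rw [hbu]
        _ = p * b * b * (u * v⁻¹) := by group
    have h4 : v = v⁻¹ := mul_left_cancel (mul_left_cancel h3)
    have h5 : v * v = 1 := by
      have e := mul_inv_cancel v
      rwa [← h4] at e
    exact hv1 (eq_one_of_mul_self_of_odd h5 hv)
  · rw [hy] at hyc
    have h3 : p * b * (u * v) = u * v * (p * b) := by
      have e : p * b * (p * b * (u * v)) = p * b * (u * v * (p * b)) := by rw [hyc]; group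
      exact mul_left_cancel e
    have h4 : u * v = 1 := eq_one_of_comm_of_inv h3 hqw hw
    have h5 : v = u⁻¹ := eq_inv_of_mul_eq_one_right h4
    have h6 : b * v = v * b := by
      rw [h5]; exact ((show Commute b u from hbu).inv_right).eq
    exact hv1 (eq_one_of_comm_of_inv h6 hbv hv)

/-- Let A be a Klein four-subgroup of a finite group G. If every G-conjugate of every involution of A commutes with some involution of A (its centralizer meets A nontrivially), then A meets the largest normal 2-subgroup O₂(G) nontrivially. -/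
theorem result {G : Type*} [Group G] [Finite G]
    (A : Subgroup G) (hA : IsKleinFour ↥A)
    (h : ∀ a ∈ A, a ≠ 1 → ∀ g : G, A ⊓ Subgroup.centralizer ({g * a * g⁻¹} : Set G) ≠ ⊥) :
    A ⊓ Cfsg.pCore 2 G ≠ ⊥ := by
  intro hbot
  have := hA
  have hsq : ∀ x ∈ A, x * x = 1 := by
    intro x hx
    have e := IsKleinFour.mul_self (⟨x, hx⟩ : A)
    exact congrArg Subtype.val e
  have hcomm : ∀ x ∈ A, ∀ y ∈ A, x * y = y * x := by
    intro x hx y hy
    have hxi : x⁻¹ = x := inv_eq_of_mul_eq_one_left (hsq x hx)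
    have hyi : y⁻¹ = y := inv_eq_of_mul_eq_one_left (hsq y hy)
    have hxyi : (x * y)⁻¹ = x * y := inv_eq_of_mul_eq_one_left (hsq (x * y) (mul_mem hx hy))
    calc x * y = (x * y)⁻¹ := hxyi.symm
      _ = y⁻¹ * x⁻¹ := mul_inv_rev x y
      _ = y * x := by rw [hxi, hyi]
  have htri : ∀ x ∈ A, ∀ y ∈ A, ∀ z ∈ A, x ≠ 1 → y ≠ 1 → x ≠ y → z ≠ 1 → z ≠ x → z ≠ y →
      z = x * y := by
    intro x hx y hy z hz h1 h2 h3 h4 h5 h6
    have e := IsKleinFour.eq_mul_of_ne_all (G := A) (x := ⟨x, hx⟩) (y := ⟨y, hy⟩) (z := ⟨z, hz⟩)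
      (fun h => h1 (congrArg Subtype.val h)) (fun h => h2 (congrArg Subtype.val h))
      (fun h => h3 (congrArg Subtype.val h)) (fun h => h4 (congrArg Subtype.val h))
      (fun h => h5 (congrArg Subtype.val h)) (fun h => h6 (congrArg Subtype.val h))
    exact congrArg Subtype.val e
  have hex : ∀ x ∈ A, x ≠ 1 → ∀ g : G, ∃ y ∈ A, y ≠ 1 ∧
      y * (g * x * g⁻¹) = g * x * g⁻¹ * y := by
    intro x hx hx1 g
    have hne := h x hx hx1 g
    rw [Ne, Subgroup.eq_bot_iff_forall] at hne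
    push Not at hne
    obtain ⟨y, hy, hy1⟩ := hne
    have hyA := (Subgroup.mem_inf.1 hy).1
    have hyC := (Subgroup.mem_inf.1 hy).2
    rw [Subgroup.mem_centralizer_iff] at hyC
    exact ⟨y, hyA, hy1, (hyC _ (Set.mem_singleton _)).symm⟩
  have hBS : ∀ x ∈ A, x ≠ 1 → ∃ u : G, u ≠ 1 ∧ (∃ k : ℕ, u ^ (2 * k + 1) = 1) ∧
      x * u * x⁻¹ = u⁻¹ := by
    intro x hx hx1
    have hord : orderOf x = 2 := orderOf_eq_prime (by rw [pow_two]; exact hsq x hx) hx1
    obtain ⟨u, hu1, hodd, hinv⟩ := Cfsg.Agent.Helper21.exists_inverted_of_involution x hord (by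
      intro N hN hN2 hxN
      have hmem : x ∈ A ⊓ Cfsg.pCore 2 G :=
        Subgroup.mem_inf.2 ⟨hx, (le_sSup (show N ∈ {N : Subgroup G | N.Normal ∧ IsPGroup 2 N}
          from ⟨hN, hN2⟩)) hxN⟩
      rw [hbot] at hmem
      exact hx1 (Subgroup.mem_bot.1 hmem))
    obtain ⟨k, hk⟩ := hodd
    exact ⟨u, hu1, ⟨k, by rw [← hk]; exact pow_orderOf_eq_one u⟩, hinv⟩
  obtain ⟨a, ha, ha1⟩ : ∃ a ∈ A, a ≠ 1 := by
    have hnt : Nontrivial A :=
      (Finite.one_lt_card_iff_nontrivial).1 (by rw [hA.card_four]; norm_num)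
    obtain ⟨a, ha1⟩ := exists_ne (1 : A)
    exact ⟨a.1, a.2, fun h => ha1 (Subtype.ext h)⟩
  obtain ⟨u, hu1, ⟨k, hk⟩, hau⟩ := hBS a ha ha1
  have hconj : u ^ k * a * (u ^ k)⁻¹ = a * u := conj_pow_eq_mul (hsq a ha) hau hk
  obtain ⟨b, hb, hb1, hbc⟩ := hex a ha ha1 (u ^ k)
  rw [hconj] at hbc
  have hab : a * b = b * a := hcomm a ha b hb
  have hbu : b * u = u * b := by
    have e : a * (b * u) = a * (u * b) := by
      calc a * (b * u) = (a * b) * u := by group
        _ = b * a * u := by rw [hab]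
        _ = b * (a * u) := by group
        _ = a * u * b := hbc
        _ = a * (u * b) := by group
    exact mul_left_cancel e
  have hba : b ≠ a := by
    intro hba
    rw [hba] at hbu
    exact hu1 (eq_one_of_comm_of_inv hbu hau hk)
  obtain ⟨v, hv1, ⟨m, hm⟩, hbv⟩ := hBS b hb hb1
  have hconj2 : v ^ m * b * (v ^ m)⁻¹ = b * v := conj_pow_eq_mul (hsq b hb) hbv hm
  obtain ⟨y, hy, hy1, hyc⟩ := hex b hb hb1 (v ^ m)
  rw [hconj2] at hyc
  have hyb : y * b = b * y := hcomm y hy b hb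
  have hyv : y * v = v * y := by
    have e : b * (y * v) = b * (v * y) := by
      calc b * (y * v) = (b * y) * v := by group
        _ = y * b * v := by rw [hyb]
        _ = y * (b * v) := by group
        _ = b * v * y := hyc
        _ = b * (v * y) := by group
    exact mul_left_cancel e
  have hyb' : y ≠ b := by
    intro hyb2
    rw [hyb2] at hyv
    exact hv1 (eq_one_of_comm_of_inv hyv hbv hm)
  have hyu : y * u * y⁻¹ = u⁻¹ := by
    by_cases hya : y = a
    · rw [hya]; exact hau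
    · have hyab : y = a * b := htri a ha b hb y hy ha1 hb1 (fun h => hba h.symm) hy1 hya hyb'
      rw [hyab]
      calc a * b * u * (a * b)⁻¹ = a * (b * u) * b⁻¹ * a⁻¹ := by group
        _ = a * (u * b) * b⁻¹ * a⁻¹ := by rw [hbu]
        _ = a * u * a⁻¹ := by group
        _ = u⁻¹ := hau
  have hq1 : y * b ≠ 1 := by
    intro hq
    apply hyb'
    calc y = y * (b * b) := by rw [hsq b hb, mul_one]
      _ = (y * b) * b := by group
      _ = b := by rw [hq, one_mul]
  have hmem : ∀ z ∈ A, z ≠ 1 → z = y ∨ z = b ∨ z = y * b := by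
    intro z hz hz1
    by_cases h1 : z = y
    · exact Or.inl h1
    by_cases h2 : z = b
    · exact Or.inr (Or.inl h2)
    exact Or.inr (Or.inr (htri y hy b hb z hz hy1 hb1 hyb' hz1 h1 h2))
  refine core (hsq y hy) (hsq b hb) hyb hk hm hu1 hv1 hyu hbu hbv hyv ?_ ?_
  · intro g
    obtain ⟨z, hz, hz1, hzc⟩ := hex b hb hb1 g
    exact ⟨z, hmem z hz hz1, hzc⟩
  · intro g
    obtain ⟨z, hz, hz1, hzc⟩ := hex (y * b) (mul_mem hy hb) hq1 g
    exact ⟨z, hmem z hz hz1, hzc⟩

end Cfsg.Agent.S3195
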