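import Cfsg.Statements.S3196
import Mathlib

set_option autoImplicit false
open Cfsg

namespace Cfsg.Agent.S3196

section aux

variable {G : Type*} [Group G]

/-- Elementwise commuting of two subgroups. -/
def Cm (X Y : Subgroup G) : Prop := ∀ x ∈ X, ∀ y ∈ Y, x * y = y * x

theorem Cm.symm {X Y : Subgroup G} (h : Cm X Y) : Cm Y X := fun y hy x hx => (h x hx y hy).symm

theorem cm_iff_le_centralizer {X Y : Subgroup G} :
    Cm X Y ↔ X ≤ Subgroup.centralizer (Y : Set G) := by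
  constructor
  · intro h x hx
    exact Subgroup.mem_centralizer_iff.2 (fun y hy => (h x hx y hy).symm)
  · intro h x hx y hy
    exact ((Subgroup.mem_centralizer_iff.1 (h hx)) y hy).symm

theorem Cm.sup_left {X Y Z : Subgroup G} (h1 : Cm X Z) (h2 : Cm Y Z) : Cm (X ⊔ Y) Z :=
  cm_iff_le_centralizer.2 (sup_le (cm_iff_le_centralizer.1 h1) (cm_iff_le_centralizer.1 h2))

theorem Cm.mono_left {X X' Z : Subgroup G} (h : Cm X Z) (hle : X' ≤ X) : Cm X' Z :=
  fun x hx => h x (hle hx)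

theorem comm_conj_of_comm {y g w : G} (h1 : y * g = g * y) (h2 : y * w = w * y) :
    y * (g * w * g⁻¹) = g * w * g⁻¹ * y := by
  calc y * (g * w * g⁻¹) = (y * g) * w * g⁻¹ := by group
    _ = (g * y) * w * g⁻¹ := by rw [h1]
    _ = g * (y * w) * g⁻¹ := by group
    _ = g * (w * y) * g⁻¹ := by rw [h2]
    _ = g * w * (g⁻¹ * (g * y) * g⁻¹) := by group
    _ = g * w * (g⁻¹ * (y * g) * g⁻¹) := by rw [h1]
    _ = g * w * g⁻¹ * y := by group

theorem cm_map_conj_of_comm {X Y : Subgroup G} {g : G} (h : Cm X Y)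
    (hg : ∀ y ∈ Y, g * y = y * g) : Cm (X.map (MulAut.conj g).toMonoidHom) Y := by
  intro a ha y hy
  obtain ⟨x, hx, rfl⟩ := Subgroup.mem_map.1 ha
  exact (comm_conj_of_comm (hg y hy).symm (h x hx y hy).symm).symm

theorem mem_sup_of_cm {X Y : Subgroup G} (h : Cm X Y) {g : G} (hg : g ∈ X ⊔ Y) :
    ∃ x ∈ X, ∃ y ∈ Y, g = x * y := by
  let M : Subgroup G :=
    { carrier := {g | ∃ x ∈ X, ∃ y ∈ Y, g = x * y}
      mul_mem' := by
        rintro _ _ ⟨x, hx, y, hy, rfl⟩ ⟨x', hx', y', hy', rfl⟩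
        refine ⟨x * x', mul_mem hx hx', y * y', mul_mem hy hy', ?_⟩
        calc x * y * (x' * y') = x * (y * x') * y' := by group
          _ = x * (x' * y) * y' := by rw [h x' hx' y hy]
          _ = x * x' * (y * y') := by group
      one_mem' := ⟨1, one_mem _, 1, one_mem _, by simp⟩
      inv_mem' := by
        rintro _ ⟨x, hx, y, hy, rfl⟩
        refine ⟨x⁻¹, inv_mem hx, y⁻¹, inv_mem hy, ?_⟩
        calc (x * y)⁻¹ = (y * x)⁻¹ := by rw [h x hx y hy]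
          _ = x⁻¹ * y⁻¹ := by group }
  have hle : X ⊔ Y ≤ M := by
    apply sup_le
    · intro x hx; exact ⟨x, hx, 1, one_mem _, by simp⟩
    · intro y hy; exact ⟨1, one_mem _, y, hy, by simp⟩
  exact hle hg

theorem pow_card_eq_one_of_mem {X : Subgroup G} {p : ℕ} (hX : Nat.card X = p) {x : G}
    (hx : x ∈ X) : x ^ p = 1 := by
  have e := pow_card_eq_one' (G := X) (x := ⟨x, hx⟩)
  rw [hX] at e
  exact congrArg Subtype.val e

theorem pow_eq_one_of_mem_sup {X Y : Subgroup G} {p : ℕ} (hX : Nat.card X = p)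
    (hY : Nat.card Y = p) (h : Cm X Y) {g : G} (hg : g ∈ X ⊔ Y) : g ^ p = 1 := by
  obtain ⟨x, hx, y, hy, rfl⟩ := mem_sup_of_cm h hg
  rw [(show Commute x y from h x hx y hy).mul_pow, pow_card_eq_one_of_mem hX hx,
    pow_card_eq_one_of_mem hY hy, one_mul]

theorem card_sup_le [Finite G] {X Y : Subgroup G} (h : Cm X Y) :
    Nat.card ↥(X ⊔ Y) ≤ Nat.card X * Nat.card Y := by
  rw [← Nat.card_prod]
  let f : X × Y → ↥(X ⊔ Y) := fun q =>
    ⟨q.1.1 * q.2.1, mul_mem (Subgroup.mem_sup_left q.1.2) (Subgroup.mem_sup_right q.2.2)⟩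
  apply Nat.card_le_card_of_surjective f
  rintro ⟨g, hg⟩
  obtain ⟨x, hx, y, hy, rfl⟩ := mem_sup_of_cm h hg
  exact ⟨(⟨x, hx⟩, ⟨y, hy⟩), rfl⟩

theorem card_mul_le_card_sup [Finite G] {A B : Subgroup G} (h : A ⊓ B = ⊥) :
    Nat.card A * Nat.card B ≤ Nat.card ↥(A ⊔ B) := by
  rw [← Nat.card_prod]
  let f : A × B → ↥(A ⊔ B) := fun q =>
    ⟨q.1.1 * q.2.1, mul_mem (Subgroup.mem_sup_left q.1.2) (Subgroup.mem_sup_right q.2.2)⟩
  apply Nat.card_le_card_of_injective f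
  rintro ⟨⟨a, ha⟩, ⟨b, hb⟩⟩ ⟨⟨a', ha'⟩, ⟨b', hb'⟩⟩ hq
  have hq' : a * b = a' * b' := congrArg Subtype.val hq
  have hmem : a'⁻¹ * a ∈ A ⊓ B := by
    refine Subgroup.mem_inf.2 ⟨mul_mem (inv_mem ha') ha, ?_⟩
    have e : a'⁻¹ * a = b' * b⁻¹ := by
      calc a'⁻¹ * a = a'⁻¹ * (a * b) * b⁻¹ := by group
        _ = a'⁻¹ * (a' * b') * b⁻¹ := by rw [hq']
        _ = b' * b⁻¹ := by group
    rw [e]; exact mul_mem hb' (inv_mem hb)
  rw [h, Subgroup.mem_bot] at hmem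
  have ha_eq : a = a' := by
    calc a = a' * (a'⁻¹ * a) := by group
      _ = a' := by rw [hmem, mul_one]
  subst ha_eq
  have hb_eq : b = b' := mul_left_cancel hq'
  subst hb_eq
  rfl

theorem eq_of_le_of_card_prime [Finite G] {p : ℕ} (hp : p.Prime) {H X : Subgroup G}
    (hle : H ≤ X) (hne : H ≠ ⊥) (hX : Nat.card X = p) : H = X := by
  have hdvd : Nat.card H ∣ p := by rw [← hX]; exact Subgroup.card_dvd_of_le hle
  rcases (Nat.dvd_prime hp).1 hdvd with h1 | h1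
  · exact absurd (Subgroup.eq_bot_of_card_eq H h1) hne
  · exact Subgroup.eq_of_le_of_card_ge hle (by rw [h1, hX])

theorem inf_eq_bot_of_ne [Finite G] {p : ℕ} (hp : p.Prime) {X Y : Subgroup G}
    (hX : Nat.card X = p) (hY : Nat.card Y = p) (hne : X ≠ Y) : X ⊓ Y = ⊥ := by
  by_contra hbot
  have h1 : X ⊓ Y = X := eq_of_le_of_card_prime hp inf_le_left hbot hX
  have h2 : X ⊓ Y = Y := eq_of_le_of_card_prime hp inf_le_right hbot hY
  exact hne (h1.symm.trans h2)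

theorem sup_eq_of_ne [Finite G] {p : ℕ} (hp : p.Prime) {X Y A B : Subgroup G}
    (hX : Nat.card X = p) (hY : Nat.card Y = p) (hA : Nat.card A = p) (hB : Nat.card B = p)
    (h : Cm X Y) (hAle : A ≤ X ⊔ Y) (hBle : B ≤ X ⊔ Y) (hne : A ≠ B) : A ⊔ B = X ⊔ Y := by
  apply Subgroup.eq_of_le_of_card_ge (sup_le hAle hBle)
  calc Nat.card ↥(X ⊔ Y) ≤ Nat.card X * Nat.card Y := card_sup_le h
    _ = Nat.card A * Nat.card B := by rw [hX, hY, hA, hB]
    _ ≤ Nat.card ↥(A ⊔ B) := card_mul_le_card_sup (inf_eq_bot_of_ne hp hA hB hne)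

theorem card_zpowers_of_pow {p : ℕ} (hp : p.Prime) {e : G} (he : e ^ p = 1) (he1 : e ≠ 1) :
    Nat.card (Subgroup.zpowers e) = p := by
  have : Fact p.Prime := ⟨hp⟩
  rw [Nat.card_zpowers, orderOf_eq_prime he he1]

theorem zpowers_eq_of_mem [Finite G] {p : ℕ} (hp : p.Prime) {X : Subgroup G}
    (hX : Nat.card X = p) {x : G} (hx : x ∈ X) (hx1 : x ≠ 1) : Subgroup.zpowers x = X :=
  eq_of_le_of_card_prime hp (Subgroup.zpowers_le.2 hx)
    (by rw [Ne, Subgroup.zpowers_eq_bot]; exact hx1) hX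

theorem cm_zpowers {z w : G} (h : z * w = w * z) :
    Cm (Subgroup.zpowers z) (Subgroup.zpowers w) := by
  intro a ha b hb
  obtain ⟨i, rfl⟩ := Subgroup.mem_zpowers_iff.1 ha
  obtain ⟨j, rfl⟩ := Subgroup.mem_zpowers_iff.1 hb
  exact ((show Commute z w from h).zpow_zpow i j).eq

theorem cm_of_gen [Finite G] {p : ℕ} (hp : p.Prime) {Z W : Subgroup G} (hZ : Nat.card Z = p)
    {z : G} (hz : z ∈ Z) (hz1 : z ≠ 1) (h : ∀ w ∈ W, z * w = w * z) : Cm Z W := by
  rw [cm_iff_le_centralizer, ← zpowers_eq_of_mem hp hZ hz hz1, Subgroup.zpowers_le]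
  exact Subgroup.mem_centralizer_iff.2 (fun w hw => (h w hw).symm)

theorem cm_self {p : ℕ} (hp : p.Prime) {X : Subgroup G} (hX : Nat.card X = p) : Cm X X := by
  have : Fact p.Prime := ⟨hp⟩
  have : IsCyclic X := isCyclic_of_prime_card hX
  obtain ⟨g, hg⟩ := IsCyclic.exists_generator (α := X)
  intro x hx y hy
  obtain ⟨i, hi⟩ := Subgroup.mem_zpowers_iff.1 (hg ⟨x, hx⟩)
  obtain ⟨j, hj⟩ := Subgroup.mem_zpowers_iff.1 (hg ⟨y, hy⟩)
  have e := zpow_mul_comm g i j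
  rw [hi, hj] at e
  exact congrArg Subtype.val e

theorem exists_ne_one_of_card {p : ℕ} (hp : p.Prime) {X : Subgroup G} (hX : Nat.card X = p) :
    ∃ x ∈ X, x ≠ 1 := by
  by_contra hcon
  push Not at hcon
  have hbot : X = ⊥ := (Subgroup.eq_bot_iff_forall X).2 hcon
  rw [hbot, Subgroup.card_bot] at hX
  exact hp.one_lt.ne hX

theorem conj_eq_of_normalizes {p : ℕ} (hp : p.Prime) {z w : G}
    (hz : z ^ p = 1) (hw : orderOf w = p) {k : ℕ} (hk : z * w * z⁻¹ = w ^ k) :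
    z * w * z⁻¹ = w := by
  have key : ∀ n : ℕ, z ^ n * w * (z ^ n)⁻¹ = w ^ (k ^ n) := by
    intro n
    induction n with
    | zero => simp
    | succ n ih =>
      calc z ^ (n + 1) * w * (z ^ (n + 1))⁻¹ = z * (z ^ n * w * (z ^ n)⁻¹) * z⁻¹ := by
            rw [pow_succ']; group
        _ = z * w ^ (k ^ n) * z⁻¹ := by rw [ih]
        _ = (z * w * z⁻¹) ^ (k ^ n) := (conj_pow).symm
        _ = w ^ (k ^ (n + 1)) := by rw [hk, ← pow_mul, pow_succ']
  have h1 := key p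
  rw [hz] at h1
  have h2 : w ^ (k ^ p) = w ^ 1 := by rw [← h1]; simp
  rw [pow_eq_pow_iff_modEq, hw] at h2
  have : Fact p.Prime := ⟨hp⟩
  have h3 : ((k : ℕ) : ZMod p) = 1 := by
    have e := (ZMod.natCast_eq_natCast_iff _ _ _).2 h2
    rw [Nat.cast_pow, ZMod.pow_card, Nat.cast_one] at e
    exact e
  have h4 : k ≡ 1 [MOD p] := by
    rw [← ZMod.natCast_eq_natCast_iff, h3, Nat.cast_one]
  rw [hk]
  have e : w ^ k = w ^ 1 := by rw [pow_eq_pow_iff_modEq, hw]; exact h4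
  rw [e, pow_one]

theorem cm_of_map_conj_eq [Finite G] {p : ℕ} (hp : p.Prime) {Z W : Subgroup G}
    (hZ : Nat.card Z = p) (hW : Nat.card W = p) {z : G} (hz : z ∈ Z) (hz1 : z ≠ 1)
    (hmap : W.map (MulAut.conj z).toMonoidHom = W) : Cm Z W := by
  obtain ⟨w, hw, hw1⟩ := exists_ne_one_of_card hp hW
  have hzp : z ^ p = 1 := pow_card_eq_one_of_mem hZ hz
  have hwp : w ^ p = 1 := pow_card_eq_one_of_mem hW hw
  have : Fact p.Prime := ⟨hp⟩
  have hord : orderOf w = p := orderOf_eq_prime hwp hw1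
  have hWz : Subgroup.zpowers w = W := zpowers_eq_of_mem hp hW hw hw1
  have hconj : z * w * z⁻¹ ∈ Subgroup.zpowers w := by
    rw [hWz, ← hmap]
    exact Subgroup.mem_map.2 ⟨w, hw, rfl⟩
  obtain ⟨k, hk⟩ := (Submonoid.mem_powers_iff _ _).1 (mem_powers_iff_mem_zpowers.2 hconj)
  have hfix : z * w * z⁻¹ = w := conj_eq_of_normalizes hp hzp hord hk.symm
  have hzw : z * w = w * z := by
    calc z * w = z * w * z⁻¹ * z := by group
      _ = w * z := by rw [hfix]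
  rw [← zpowers_eq_of_mem hp hZ hz hz1, ← hWz]
  exact cm_zpowers hzw

end aux

/-- Let p be a prime and K a set of subgroups of order p of a finite group G, closed under conjugation, such that at least two distinct members of K commute elementwise, and whenever two distinct members X, Y of K commute: every subgroup of order p of the group XY they generate belongs to K, and every member W of K has centralizer meeting XY nontrivially. Then some member V of K commutes elementwise with every member of K and lies in O_p(G); in particular G is not simple. -/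
theorem result {G : Type*} [Group G] [Finite G]
    {p : ℕ} (hp : p.Prime) (K : Set (Subgroup G)) (hK : ∀ X ∈ K, Nat.card ↥X = p)
    (hKc : ∀ X ∈ K, ∀ g : G, X.map (MulAut.conj g).toMonoidHom ∈ K)
    (hex : ∃ X ∈ K, ∃ Y ∈ K, X ≠ Y ∧ ∀ x ∈ X, ∀ y ∈ Y, x * y = y * x)
    (ha : ∀ X ∈ K, ∀ Y ∈ K, X ≠ Y → (∀ x ∈ X, ∀ y ∈ Y, x * y = y * x) →
      ∀ Z : Subgroup G, Z ≤ X ⊔ Y → Nat.card ↥Z = p → Z ∈ K)
    (hb : ∀ X ∈ K, ∀ Y ∈ K, X ≠ Y → (∀ x ∈ X, ∀ y ∈ Y, x * y = y * x) →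
      ∀ W ∈ K, (X ⊔ Y) ⊓ Subgroup.centralizer (W : Set G) ≠ ⊥) :
    (∃ V ∈ K, (∀ W ∈ K, ∀ v ∈ V, ∀ w ∈ W, v * w = w * v) ∧ V ≤ Cfsg.pCore p G) ∧ ¬ IsSimpleGroup G := by
  classical
  have : Fact p.Prime := ⟨hp⟩
  have F1 : ∀ X ∈ K, ∀ Y ∈ K, X ≠ Y → Cm X Y → ∀ W ∈ K, ∃ Z ∈ K, Z ≤ X ⊔ Y ∧ Cm Z W := by
    intro X hX Y hY hne hcm W hW
    have hne' := hb X hX Y hY hne hcm W hW
    rw [Ne, Subgroup.eq_bot_iff_forall] at hne'
    push Not at hne'
    obtain ⟨e, he, he1⟩ := hne'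
    have heE := (Subgroup.mem_inf.1 he).1
    have heC := (Subgroup.mem_inf.1 he).2
    have hep : e ^ p = 1 := pow_eq_one_of_mem_sup (hK X hX) (hK Y hY) hcm heE
    have hZc : Nat.card (Subgroup.zpowers e) = p := card_zpowers_of_pow hp hep he1
    have hZle : Subgroup.zpowers e ≤ X ⊔ Y := Subgroup.zpowers_le.2 heE
    refine ⟨Subgroup.zpowers e, ha X hX Y hY hne hcm _ hZle hZc, hZle, ?_⟩
    exact cm_iff_le_centralizer.2 (Subgroup.zpowers_le.2 heC)
  have partner : ∀ W ∈ K, ∃ Z ∈ K, Z ≠ W ∧ Cm Z W := by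
    intro W hW
    obtain ⟨X, hX, Y, hY, hne, hcm0⟩ := hex
    have hcm : Cm X Y := hcm0
    obtain ⟨Z, hZ, hZle, hZW⟩ := F1 X hX Y hY hne hcm W hW
    by_cases hZW' : Z = W
    · have hWle : W ≤ X ⊔ Y := by rw [← hZW']; exact hZle
      by_cases hXW : X = W
      · refine ⟨Y, hY, fun h => hne (hXW.trans h.symm), ?_⟩
        rw [← hXW]; exact Cm.symm hcm
      · refine ⟨X, hX, hXW, ?_⟩
        have h1 : Cm (X ⊔ Y) X := Cm.sup_left (cm_self hp (hK X hX)) (Cm.symm hcm)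
        exact Cm.symm (Cm.mono_left h1 hWle)
    · exact ⟨Z, hZ, hZW', hZW⟩
  obtain ⟨N, hN⟩ : ∃ N : Subgroup G → Set (Subgroup G), ∀ Z Y, Y ∈ N Z ↔ (Y ∈ K ∧ Cm Y Z) :=
    ⟨fun Z => {Y | Y ∈ K ∧ Cm Y Z}, fun Z Y => Iff.rfl⟩
  have hKfin : K.Finite := Set.toFinite K
  have hKne : K.Nonempty := by
    obtain ⟨X, hX, _⟩ := hex
    exact ⟨X, hX⟩
  obtain ⟨Z₀, hZ₀, hmax⟩ := Set.exists_max_image K (fun Z => (N Z).ncard) hKfin hKne
  have hZ₀c := hK Z₀ hZ₀
  have grow : ∀ C ∈ K, ∀ W ∈ K, (∀ Y ∈ K, Cm Y Z₀ → Cm Y C) → Cm W C → ¬ Cm W Z₀ → False := by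
    intro C hC W hW hsub hWC hWZ
    have hlt : (N Z₀).ncard < (N C).ncard := by
      refine Set.ncard_lt_ncard ⟨fun Y hY => ?_, fun hsup => ?_⟩ (Set.toFinite _)
      · have hY' := (hN _ _).1 hY
        exact (hN _ _).2 ⟨hY'.1, hsub Y hY'.1 hY'.2⟩
      · exact hWZ ((hN _ _).1 (hsup ((hN _ _).2 ⟨hW, hWC⟩))).2
    exact absurd (hmax C hC) (not_le.2 hlt)
  have main : ∀ W ∈ K, Cm W Z₀ := by
    intro W hW
    by_contra hWZ
    have hWc := hK W hW
    by_cases hA : ∃ z ∈ Z₀, z ≠ 1 ∧ Cm W (W.map (MulAut.conj z).toMonoidHom)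
    · -- Case A
      obtain ⟨z, hz, hz1, hWW'⟩ := hA
      obtain ⟨W', hW'def⟩ : ∃ W', W' = W.map (MulAut.conj z).toMonoidHom := ⟨_, rfl⟩
      rw [← hW'def] at hWW'
      have hW' : W' ∈ K := by rw [hW'def]; exact hKc W hW z
      have hW'c := hK W' hW'
      have hWW'ne : W ≠ W' := by
        intro h
        exact hWZ (Cm.symm (cm_of_map_conj_eq hp hZ₀c hWc hz hz1 (hW'def.symm.trans h.symm)))
      have hW'Z : ¬ Cm W' Z₀ := by
        intro h
        apply hWZ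
        have h1 : Cm (W'.map (MulAut.conj z⁻¹).toMonoidHom) Z₀ :=
          cm_map_conj_of_comm h (fun x hx => cm_self hp hZ₀c z⁻¹ (inv_mem hz) x hx)
        refine Cm.mono_left h1 ?_
        intro w hw
        refine Subgroup.mem_map.2 ⟨z * w * z⁻¹, ?_, ?_⟩
        · rw [hW'def]; exact Subgroup.mem_map.2 ⟨w, hw, rfl⟩
        · show z⁻¹ * (z * w * z⁻¹) * z⁻¹⁻¹ = w
          group
      obtain ⟨C, hC, hCle, hCZ⟩ := F1 W hW W' hW' hWW'ne hWW' Z₀ hZ₀
      have hCc := hK C hC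
      have hCW : C ≠ W := by intro h; rw [h] at hCZ; exact hWZ hCZ
      have hCW' : C ≠ W' := by intro h; rw [h] at hCZ; exact hW'Z hCZ
      have hF1 : W ⊔ C = W ⊔ W' :=
        sup_eq_of_ne hp hWc hW'c hWc hCc hWW' le_sup_left hCle (Ne.symm hCW)
      have hzC : ∀ c ∈ C, z * c = c * z := fun c hc => (hCZ c hc z hz).symm
      have hFmap : (W ⊔ W').map (MulAut.conj z).toMonoidHom ≤ W ⊔ W' := by
        have h1 : (W ⊔ C).map (MulAut.conj z).toMonoidHom ≤ W ⊔ W' := by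
          rw [Subgroup.map_sup, ← hW'def]
          refine sup_le le_sup_right ?_
          intro a ha'
          obtain ⟨c, hc, rfl⟩ := Subgroup.mem_map.1 ha'
          have e : (MulAut.conj z).toMonoidHom c = c := by
            show z * c * z⁻¹ = c
            rw [hzC c hc]; group
          rw [e]; exact hCle hc
        rwa [hF1] at h1
      have hsub : ∀ Y ∈ K, Cm Y Z₀ → Cm Y C := by
        intro Y hY hYZ
        obtain ⟨C', hC', hC'le, hC'Y⟩ := F1 W hW W' hW' hWW'ne hWW' Y hY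
        have hC'c := hK C' hC'
        by_cases hCC' : C' = C
        · rw [← hCC']; exact Cm.symm hC'Y
        · have hzY : ∀ y ∈ Y, z * y = y * z := fun y hy => (hYZ y hy z hz).symm
          have hC''Y : Cm (C'.map (MulAut.conj z).toMonoidHom) Y :=
            cm_map_conj_of_comm hC'Y hzY
          have hC''le : C'.map (MulAut.conj z).toMonoidHom ≤ W ⊔ W' :=
            le_trans (Subgroup.map_mono hC'le) hFmap
          have hC''c : Nat.card (C'.map (MulAut.conj z).toMonoidHom) = p := by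
            rw [Subgroup.card_map_of_injective (MulAut.conj z).injective]; exact hC'c
          have hC''ne : C'.map (MulAut.conj z).toMonoidHom ≠ C' := by
            intro h
            have h1 : Cm Z₀ C' := cm_of_map_conj_eq hp hZ₀c hC'c hz hz1 h
            have h2 : C' ⊔ C = W ⊔ W' :=
              sup_eq_of_ne hp hWc hW'c hC'c hCc hWW' hC'le hCle hCC'
            have h3 : Cm (C' ⊔ C) Z₀ := Cm.sup_left (Cm.symm h1) hCZ
            rw [h2] at h3
            exact hWZ (Cm.mono_left h3 le_sup_left)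
          have h4 : C'.map (MulAut.conj z).toMonoidHom ⊔ C' = W ⊔ W' :=
            sup_eq_of_ne hp hWc hW'c hC''c hC'c hWW' hC''le hC'le hC''ne
          have h5 : Cm (C'.map (MulAut.conj z).toMonoidHom ⊔ C') Y := Cm.sup_left hC''Y hC'Y
          rw [h4] at h5
          exact Cm.symm (Cm.mono_left h5 hCle)
      have hWC : Cm W C := by
        have h1 : Cm (W ⊔ W') W := Cm.sup_left (cm_self hp hWc) (Cm.symm hWW')
        exact Cm.symm (Cm.mono_left h1 hCle)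
      exact grow C hC W hW hsub hWC hWZ
    · -- Case B
      push Not at hA
      obtain ⟨Z', hZ', hZ'ne, hZ'Z⟩ := partner Z₀ hZ₀
      have hZ'c := hK Z' hZ'
      have hZZ' : Cm Z₀ Z' := Cm.symm hZ'Z
      obtain ⟨Z₂, hZ₂, hZ₂le, hZ₂W⟩ := F1 Z₀ hZ₀ Z' hZ' (Ne.symm hZ'ne) hZZ' W hW
      have hZ₂c := hK Z₂ hZ₂
      have hZ₂ne : Z₂ ≠ Z₀ := by intro h; rw [h] at hZ₂W; exact hWZ (Cm.symm hZ₂W)
      have hEZ₀ : Cm (Z₀ ⊔ Z') Z₀ := Cm.sup_left (cm_self hp hZ₀c) hZ'Z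
      have hZ₂Z₀ : Cm Z₂ Z₀ := Cm.mono_left hEZ₀ hZ₂le
      obtain ⟨z₀, hz₀, hz₀1⟩ := exists_ne_one_of_card hp hZ₀c
      obtain ⟨z₂, hz₂, hz₂1⟩ := exists_ne_one_of_card hp hZ₂c
      have hz₁ne : z₀ * z₂ ≠ 1 := by
        intro h
        have h1 : z₂ = z₀⁻¹ := eq_inv_of_mul_eq_one_right h
        have h2 : z₂ ∈ Z₀ ⊓ Z₂ := Subgroup.mem_inf.2 ⟨by rw [h1]; exact inv_mem hz₀, hz₂⟩
        rw [inf_eq_bot_of_ne hp hZ₀c hZ₂c (Ne.symm hZ₂ne), Subgroup.mem_bot] at h2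
        exact hz₂1 h2
      have hz₁E : z₀ * z₂ ∈ Z₀ ⊔ Z' := mul_mem (Subgroup.mem_sup_left hz₀) (hZ₂le hz₂)
      have hz₁p : (z₀ * z₂) ^ p = 1 := pow_eq_one_of_mem_sup hZ₀c hZ'c hZZ' hz₁E
      obtain ⟨Z₁, hZ₁def⟩ : ∃ Z₁, Z₁ = Subgroup.zpowers (z₀ * z₂) := ⟨_, rfl⟩
      have hZ₁c : Nat.card Z₁ = p := by rw [hZ₁def]; exact card_zpowers_of_pow hp hz₁p hz₁ne
      have hZ₁le : Z₁ ≤ Z₀ ⊔ Z' := by rw [hZ₁def]; exact Subgroup.zpowers_le.2 hz₁E
      have hZ₁ : Z₁ ∈ K := ha Z₀ hZ₀ Z' hZ' (Ne.symm hZ'ne) hZZ' Z₁ hZ₁le hZ₁c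
      have hz₁Z₁ : z₀ * z₂ ∈ Z₁ := by rw [hZ₁def]; exact Subgroup.mem_zpowers _
      obtain ⟨W₁, hW₁def⟩ : ∃ W₁, W₁ = W.map (MulAut.conj z₀).toMonoidHom := ⟨_, rfl⟩
      have hWW₁ : ¬ Cm W W₁ := by rw [hW₁def]; exact hA z₀ hz₀ hz₀1
      have B1 : ∀ Y ∈ K, Cm Y W → Cm Y Z₀ → Cm Y Z₂ := by
        intro Y hY hYW hYZ
        have hYc := hK Y hY
        have hWY : W ≠ Y := by intro h; rw [← h] at hYZ; exact hWZ hYZ
        have hWYcm : Cm W Y := Cm.symm hYW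
        have hYW₁ : Cm Y W₁ := by
          rw [hW₁def]
          exact Cm.symm (cm_map_conj_of_comm hWYcm (fun y hy => (hYZ y hy z₀ hz₀).symm))
        obtain ⟨Ys, hYs, hYsle, hYsZ₁⟩ := F1 W hW Y hY hWY hWYcm Z₁ hZ₁
        have hYsc := hK Ys hYs
        have hYsW : Cm Ys W := Cm.mono_left (Cm.sup_left (cm_self hp hWc) hYW) hYsle
        have hYsW₁ : Cm Ys W₁ := by
          intro y hy w' hw'
          rw [hW₁def] at hw'
          obtain ⟨w, hw, rfl⟩ := Subgroup.mem_map.1 hw'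
          show y * (z₀ * w * z₀⁻¹) = z₀ * w * z₀⁻¹ * y
          have e1 : z₀ * w * z₀⁻¹ = (z₀ * z₂) * w * (z₀ * z₂)⁻¹ := by
            have e2 : z₂ * w = w * z₂ := hZ₂W z₂ hz₂ w hw
            calc z₀ * w * z₀⁻¹ = z₀ * (w * z₂) * z₂⁻¹ * z₀⁻¹ := by group
              _ = z₀ * (z₂ * w) * z₂⁻¹ * z₀⁻¹ := by rw [e2]
              _ = (z₀ * z₂) * w * (z₀ * z₂)⁻¹ := by group
          rw [e1]
          have h1 : y * (z₀ * z₂) = (z₀ * z₂) * y := hYsZ₁ y hy _ hz₁Z₁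
          have h2 : y * w = w * y := hYsW y hy w hw
          exact comm_conj_of_comm h1 h2
        by_cases hYYs : Ys = Y
        · rw [hYYs] at hYsZ₁
          apply Cm.symm
          apply cm_of_gen hp hZ₂c hz₂ hz₂1
          intro y hy
          have h1 : y * (z₀ * z₂) = (z₀ * z₂) * y := hYsZ₁ y hy _ hz₁Z₁
          have h2 : y * z₀ = z₀ * y := hYZ y hy z₀ hz₀
          have e : z₀ * (z₂ * y) = z₀ * (y * z₂) := by
            calc z₀ * (z₂ * y) = (z₀ * z₂) * y := by group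
              _ = y * (z₀ * z₂) := h1.symm
              _ = (y * z₀) * z₂ := by group
              _ = (z₀ * y) * z₂ := by rw [h2]
              _ = z₀ * (y * z₂) := by group
          exact mul_left_cancel e
        · exfalso
          have h1 : Ys ⊔ Y = W ⊔ Y :=
            sup_eq_of_ne hp hWc hYc hYsc hYc hWYcm hYsle le_sup_right hYYs
          have h2 : Cm (Ys ⊔ Y) W₁ := Cm.sup_left hYsW₁ hYW₁
          rw [h1] at h2
          exact hWW₁ (Cm.mono_left h2 le_sup_left)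
      have hsub : ∀ Y ∈ K, Cm Y Z₀ → Cm Y Z₂ := by
        intro Y hY hYZ
        by_cases hYZ₀ : Y = Z₀
        · rw [hYZ₀]; exact Cm.symm hZ₂Z₀
        · obtain ⟨Z₂', hZ₂', hZ₂'le, hZ₂'W⟩ :=
            F1 Z₀ hZ₀ Y hY (Ne.symm hYZ₀) (Cm.symm hYZ) W hW
          have hZ₂'c := hK Z₂' hZ₂'
          have hE'Z₀ : Cm (Z₀ ⊔ Y) Z₀ := Cm.sup_left (cm_self hp hZ₀c) hYZ
          have hZ₂'Z₀ : Cm Z₂' Z₀ := Cm.mono_left hE'Z₀ hZ₂'le
          have hZ₂'Z₂ : Cm Z₂' Z₂ := B1 Z₂' hZ₂' hZ₂'W hZ₂'Z₀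
          have hZ₂'ne : Z₂' ≠ Z₀ := by
            intro h; rw [h] at hZ₂'W; exact hWZ (Cm.symm hZ₂'W)
          have h1 : Z₂' ⊔ Z₀ = Z₀ ⊔ Y :=
            sup_eq_of_ne hp hZ₀c (hK Y hY) hZ₂'c hZ₀c (Cm.symm hYZ) hZ₂'le le_sup_left hZ₂'ne
          have h2 : Cm (Z₂' ⊔ Z₀) Z₂ := Cm.sup_left hZ₂'Z₂ (Cm.symm hZ₂Z₀)
          rw [h1] at h2
          exact Cm.mono_left h2 le_sup_right
      exact grow Z₂ hZ₂ W hW hsub (Cm.symm hZ₂W) hWZ
  have hV : ∀ W ∈ K, Cm Z₀ W := fun W hW => Cm.symm (main W hW)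
  obtain ⟨T, hTdef⟩ : ∃ T, T = Group.conjugatesOfSet (Z₀ : Set G) := ⟨_, rfl⟩
  have hTK : ∀ t ∈ T, ∃ X ∈ K, t ∈ X ∧ ∀ W ∈ K, Cm X W := by
    intro t ht
    rw [hTdef, Group.mem_conjugatesOfSet_iff] at ht
    obtain ⟨v, hv, hconj⟩ := ht
    obtain ⟨g, rfl⟩ := isConj_iff.1 hconj
    refine ⟨Z₀.map (MulAut.conj g).toMonoidHom, hKc Z₀ hZ₀ g, Subgroup.mem_map.2 ⟨v, hv, rfl⟩, ?_⟩
    intro W hW
    have h1 : Cm Z₀ (W.map (MulAut.conj g⁻¹).toMonoidHom) := hV _ (hKc W hW g⁻¹)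
    intro a ha' w hw
    obtain ⟨x, hx, rfl⟩ := Subgroup.mem_map.1 ha'
    have h2 : x * (g⁻¹ * w * g) = g⁻¹ * w * g * x := by
      have h3 : g⁻¹ * w * g ∈ W.map (MulAut.conj g⁻¹).toMonoidHom := by
        refine Subgroup.mem_map.2 ⟨w, hw, ?_⟩
        show g⁻¹ * w * g⁻¹⁻¹ = g⁻¹ * w * g
        rw [inv_inv]
      exact h1 x hx _ h3
    show g * x * g⁻¹ * w = w * (g * x * g⁻¹)
    calc g * x * g⁻¹ * w = g * (x * (g⁻¹ * w * g)) * g⁻¹ := by group
      _ = g * (g⁻¹ * w * g * x) * g⁻¹ := by rw [h2]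
      _ = w * (g * x * g⁻¹) := by group
  have hTcomm : ∀ s ∈ T, ∀ t ∈ T, s * t = t * s := by
    intro s hs t ht
    obtain ⟨X, hX, hsX, hXall⟩ := hTK s hs
    obtain ⟨Y, hY, htY, _⟩ := hTK t ht
    exact hXall Y hY s hsX t htY
  have hTp : ∀ t ∈ T, t ^ p = 1 := by
    intro t ht
    obtain ⟨X, hX, htX, _⟩ := hTK t ht
    exact pow_card_eq_one_of_mem (hK X hX) htX
  have hN1 : ∀ x ∈ Subgroup.closure T, ∀ t ∈ T, x * t = t * x := by
    intro x hx t ht
    have hle : Subgroup.closure T ≤ Subgroup.centralizer {t} := by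
      rw [Subgroup.closure_le]
      intro s hs
      refine Subgroup.mem_centralizer_iff.2 (fun h hh => ?_)
      rw [Set.mem_singleton_iff.1 hh]
      exact hTcomm t ht s hs
    exact (Subgroup.mem_centralizer_iff.1 (hle hx) t rfl).symm
  have hNcomm : ∀ x ∈ Subgroup.closure T, ∀ y ∈ Subgroup.closure T, x * y = y * x := by
    intro x hx y hy
    have hle : Subgroup.closure T ≤ Subgroup.centralizer {x} := by
      rw [Subgroup.closure_le]
      intro s hs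
      refine Subgroup.mem_centralizer_iff.2 (fun h hh => ?_)
      rw [Set.mem_singleton_iff.1 hh]
      exact hN1 x hx s hs
    exact Subgroup.mem_centralizer_iff.1 (hle hy) x rfl
  have hNp : ∀ x ∈ Subgroup.closure T, x ^ p = 1 := by
    intro x hx
    induction hx using Subgroup.closure_induction with
    | mem t ht => exact hTp t ht
    | one => exact one_pow p
    | mul a b ha' hb' iha ihb =>
      rw [(show Commute a b from hNcomm a ha' b hb').mul_pow, iha, ihb, one_mul]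
    | inv a _ iha => rw [inv_pow, iha, inv_one]
  have hNdef : Subgroup.normalClosure (Z₀ : Set G) = Subgroup.closure T := by rw [hTdef]; rfl
  have hNp' : IsPGroup p (Subgroup.normalClosure (Z₀ : Set G)) := by
    intro x
    refine ⟨1, ?_⟩
    have hx2 : x.1 ∈ Subgroup.closure T := by rw [← hNdef]; exact x.2
    have h1 := hNp x.1 hx2
    apply Subtype.ext
    rw [pow_one]
    simpa using h1
  have hNnormal : (Subgroup.normalClosure (Z₀ : Set G)).Normal := Subgroup.normalClosure_normal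
  have hVle : Z₀ ≤ Subgroup.normalClosure (Z₀ : Set G) := Subgroup.le_normalClosure
  refine ⟨⟨Z₀, hZ₀, hV, le_trans hVle (le_sSup ⟨hNnormal, hNp'⟩)⟩, ?_⟩
  intro hsimple
  obtain ⟨X, hX, Y, hY, hne, hcm⟩ := hex
  have hNtop : Subgroup.normalClosure (Z₀ : Set G) = ⊤ := by
    rcases hsimple.eq_bot_or_eq_top_of_normal _ hNnormal with h | h
    · exfalso
      obtain ⟨z, hz, hz1⟩ := exists_ne_one_of_card hp hZ₀c
      have hz' := hVle hz
      rw [h] at hz'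
      exact hz1 (Subgroup.mem_bot.1 hz')
    · exact h
  have hcommG : ∀ x y : G, x * y = y * x := by
    intro x y
    have hx : x ∈ Subgroup.closure T := by rw [← hNdef, hNtop]; exact Subgroup.mem_top x
    have hy : y ∈ Subgroup.closure T := by rw [← hNdef, hNtop]; exact Subgroup.mem_top y
    exact hNcomm x hx y hy
  have hnorm : ∀ H : Subgroup G, H.Normal := by
    intro H
    refine ⟨fun n hn g => ?_⟩
    have e : g * n * g⁻¹ = n := by rw [hcommG g n]; group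
    rw [e]; exact hn
  have htop : ∀ X ∈ K, X = ⊤ := by
    intro X hX
    rcases hsimple.eq_bot_or_eq_top_of_normal X (hnorm X) with h | h
    · exfalso
      have hc := hK X hX
      rw [h, Subgroup.card_bot] at hc
      exact hp.one_lt.ne hc
    · exact h
  exact hne ((htop X hX).trans (htop Y hY).symm)

end Cfsg.Agent.S3196
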