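import Mathlib
import Cfsg.Statements.S3201
import Cfsg.Agent.Helper18.QuatGroup

set_option autoImplicit false
open Cfsg

namespace Cfsg.Agent.S3201

open Cfsg.Agent.Helper18 Cfsg.Agent.Helper18.QuatGroup

/-- The analysis of one quaternion quotient by a central subgroup. -/
theorem key.{u} {S : Type u} [Group S] [Finite S] (hS : IsPGroup 2 S) (N : Subgroup S)
    [hN : N.Normal] (hNZ : N ≤ Subgroup.center S) (hNne : N ≠ Subgroup.center S)
    (hnc : ¬ IsMulCommutative (S ⧸ N)) (hu : ∃! x : S ⧸ N, orderOf x = 2) :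
    (∀ g ∈ Subgroup.center S, g ^ 2 ∈ N) ∧ Nat.card (Subgroup.center S) = 2 * Nat.card N ∧
    (∀ s : S, orderOf (QuotientGroup.mk' N s) = 2 → s ∈ Subgroup.center S) ∧
    ∀ α ξ : S, (∀ g : S, ∃ w ∈ Subgroup.closure ({α, ξ} : Set S), w⁻¹ * g ∈ Subgroup.center S) →
      ξ * α * ξ⁻¹ * α ∈ Subgroup.center S → ξ ^ 2 ∈ Subgroup.center S →
      ξ * α * ξ⁻¹ * α ∈ N ∧ Nat.card (S ⧸ N) = 2 * orderOf (QuotientGroup.mk' N α) ∧
        ∀ k : ℕ, orderOf (QuotientGroup.mk' N α) = 2 * k → ξ ^ 2 * (α ^ k)⁻¹ ∈ N := by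
  obtain ⟨z, hz, hzu⟩ := hu
  have hQ : IsPGroup 2 (S ⧸ N) := hS.to_quotient N
  obtain ⟨hinv, hcen, hpow, hzc⟩ := quat_facts hQ hnc z hz hzu
  have hz2 : z ^ 2 = 1 := by rw [← hz, pow_orderOf_eq_one]
  obtain ⟨π, hπ⟩ : ∃ π : S →* S ⧸ N, π = QuotientGroup.mk' N := ⟨_, rfl⟩
  rw [← hπ]
  have hπs : Function.Surjective π := by rw [hπ]; exact QuotientGroup.mk'_surjective N
  have hπk : ∀ g : S, π g = 1 ↔ g ∈ N := by
    intro g; rw [hπ]; exact QuotientGroup.eq_one_iff g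
  have hcenimg : ∀ g ∈ Subgroup.center S, π g = 1 ∨ π g = z := by
    intro g hg
    apply hcen
    intro q
    obtain ⟨h, rfl⟩ := hπs q
    rw [← map_mul, ← map_mul, Subgroup.mem_center_iff.mp hg h]
  obtain ⟨g₀, hg₀Z, hg₀N⟩ : ∃ g₀ ∈ Subgroup.center S, g₀ ∉ N := by
    by_contra hcon
    push Not at hcon
    exact hNne (le_antisymm hNZ hcon)
  have hg₀ : π g₀ = z := by
    rcases hcenimg g₀ hg₀Z with h | h
    · exact absurd ((hπk g₀).mp h) hg₀N
    · exact h
  have hmemZ : ∀ s : S, π s = z → s ∈ Subgroup.center S := by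
    intro s hs
    have h1 : π (g₀⁻¹ * s) = 1 := by rw [map_mul, map_inv, hg₀, hs, inv_mul_cancel]
    have h2 : g₀⁻¹ * s ∈ Subgroup.center S := hNZ ((hπk _).mp h1)
    have e : s = g₀ * (g₀⁻¹ * s) := by group
    rw [e]; exact Subgroup.mul_mem _ hg₀Z h2
  refine ⟨?_, ?_, ?_, ?_⟩
  · intro g hg
    rw [← hπk, map_pow]
    rcases hcenimg g hg with h | h
    · rw [h, one_pow]
    · rw [h, hz2]
  · apply le_antisymm
    · have hsub : ((Subgroup.center S : Subgroup S) : Set S) ⊆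
          (N : Set S) ∪ (fun a => g₀ * a) '' (N : Set S) := by
        intro g hg
        rcases hcenimg g hg with h | h
        · left; exact (hπk g).mp h
        · right
          refine ⟨g₀⁻¹ * g, ?_, by group⟩
          have h1 : π (g₀⁻¹ * g) = 1 := by rw [map_mul, map_inv, hg₀, h, inv_mul_cancel]
          exact (hπk _).mp h1
      have hc1 : Nat.card (Subgroup.center S) = ((Subgroup.center S : Subgroup S) : Set S).ncard :=
        Nat.card_coe_set_eq _
      have hc2 : (N : Set S).ncard = Nat.card N := (Nat.card_coe_set_eq _).symm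
      rw [hc1]
      calc ((Subgroup.center S : Subgroup S) : Set S).ncard
          ≤ ((N : Set S) ∪ (fun a => g₀ * a) '' (N : Set S)).ncard :=
            Set.ncard_le_ncard hsub (Set.toFinite _)
        _ ≤ (N : Set S).ncard + ((fun a => g₀ * a) '' (N : Set S)).ncard := Set.ncard_union_le _ _
        _ ≤ (N : Set S).ncard + (N : Set S).ncard :=
            Nat.add_le_add_left (Set.ncard_image_le (Set.toFinite _)) _
        _ = 2 * Nat.card N := by rw [hc2]; ring
    · obtain ⟨k, hk⟩ := Subgroup.card_dvd_of_le hNZ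
      have hpos : 0 < Nat.card (Subgroup.center S) := Nat.card_pos
      have hk1 : k ≠ 1 := by
        intro h
        rw [h, mul_one] at hk
        exact hNne (Subgroup.eq_of_le_of_card_ge hNZ hk.le)
      have hk0 : k ≠ 0 := by
        intro h
        rw [h, mul_zero] at hk
        omega
      rw [hk]
      calc 2 * Nat.card N = Nat.card N * 2 := by ring
        _ ≤ Nat.card N * k := Nat.mul_le_mul_left _ (by omega)
  · intro s hs
    exact hmemZ s (hzu _ hs)
  · intro α ξ hgen hd hξ2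
    have hgen' : Subgroup.closure ({π α, π ξ} : Set (S ⧸ N)) = ⊤ := by
      obtain ⟨T, hT⟩ : ∃ T : Subgroup (S ⧸ N), T = Subgroup.closure ({π α, π ξ} : Set (S ⧸ N)) :=
        ⟨_, rfl⟩
      rw [← hT]
      have hTmap : T = (Subgroup.closure ({α, ξ} : Set S)).map π := by
        rw [hT, MonoidHom.map_closure, Set.image_pair]
      have hdecomp : ∀ q : S ⧸ N, ∃ t ∈ T, q = t ∨ q = t * z := by
        intro q
        obtain ⟨g, rfl⟩ := hπs q
        obtain ⟨w, hw, hwg⟩ := hgen g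
        refine ⟨π w, by rw [hTmap]; exact Subgroup.mem_map_of_mem π hw, ?_⟩
        have e : π g = π w * π (w⁻¹ * g) := by rw [← map_mul]; congr 1; group
        rcases hcenimg _ hwg with h | h
        · left; rw [e, h, mul_one]
        · right; rw [e, h]
      by_cases hzT : z ∈ T
      · rw [eq_top_iff]
        intro q _
        obtain ⟨t, ht, h | h⟩ := hdecomp q
        · rw [h]; exact ht
        · rw [h]; exact T.mul_mem ht hzT
      · exfalso
        apply hnc
        have hT1 : ∀ t ∈ T, t = 1 := by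
          intro t ht
          by_contra h1
          exact hzT (Subgroup.zpowers_le.mpr ht (hpow t h1))
        have hall : ∀ q : S ⧸ N, q = 1 ∨ q = z := by
          intro q
          obtain ⟨t, ht, h | h⟩ := hdecomp q
          · left; rw [h, hT1 t ht]
          · right; rw [h, hT1 t ht, one_mul]
        refine ⟨⟨fun p q => ?_⟩⟩
        rcases hall p with rfl | rfl
        · simp
        · exact (hzc q).symm
    have hc : π ξ * π α * (π ξ)⁻¹ * π α = 1 ∨ π ξ * π α * (π ξ)⁻¹ * π α = z := by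
      have h1 := hcenimg _ hd
      rw [map_mul, map_mul, map_mul, map_inv] at h1
      exact h1
    have hx : (π ξ) ^ 2 = 1 ∨ (π ξ) ^ 2 = z := by
      have h1 := hcenimg _ hξ2
      rw [map_pow] at h1
      exact h1
    obtain ⟨p1, p2, p3, p4⟩ := quat_pin hQ hnc z hz hzu (π α) (π ξ) hgen' hc hx
    refine ⟨?_, p3, ?_⟩
    · rw [← hπk, map_mul, map_mul, map_mul, map_inv]; exact p1
    · intro k hk
      rw [← hπk, map_mul, map_inv, map_pow, map_pow, p2, p4 k hk, mul_inv_cancel]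

/-- Let S be a finite 2-group whose centre Z(S) has n ≥ 2 distinct maximal subgroups C₁, …, Cₙ with trivial intersection such that each quotient S/Cᵢ is a non-abelian group with exactly one involution (a generalized quaternion group). Then S is the internal direct product of an elementary abelian subgroup and a non-abelian subgroup with exactly one involution. -/
theorem result {S : Type*} [Group S] [Finite S]
    (hS : IsPGroup 2 S) (n : ℕ) (hn : 2 ≤ n) (C : Fin n → Subgroup ↥(Subgroup.center S))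
    (hCmax : ∀ i, IsCoatom (C i)) (hCinj : Function.Injective C) (hCint : ⨅ i, C i = ⊥)
    (hCq : ∀ i, ∃ (_ : ((C i).map (Subgroup.center S).subtype).Normal),
      ¬ IsMulCommutative (S ⧸ (C i).map (Subgroup.center S).subtype) ∧
      ∃! x : S ⧸ (C i).map (Subgroup.center S).subtype, orderOf x = 2) :
    ∃ E Q : Subgroup S, Cfsg.IsInternalDirectProduct E Q ⊤ ∧ Cfsg.IsElementaryAbelian 2 E ∧
      ¬ IsMulCommutative ↥Q ∧ ∃! x : ↥Q, orderOf x = 2 := by
  classical
  obtain ⟨N, hNdef⟩ : ∃ N : Fin n → Subgroup S,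
      N = fun i => (C i).map (Subgroup.center S).subtype := ⟨_, rfl⟩
  have hNZ : ∀ i, N i ≤ Subgroup.center S := by
    intro i
    rw [hNdef]
    rintro _ ⟨d, -, rfl⟩
    exact d.2
  have hNne : ∀ i, N i ≠ Subgroup.center S := by
    intro i h
    apply (hCmax i).1
    rw [eq_top_iff]
    intro d _
    have h1 : (d : S) ∈ N i := by rw [h]; exact d.2
    rw [hNdef] at h1
    obtain ⟨d', hd', e⟩ := h1
    have h2 : d' = d := Subtype.ext e
    rw [← h2]; exact hd'
  have i0 : Fin n := ⟨0, by omega⟩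
  have hNint : ∀ g : S, (∀ i, g ∈ N i) → g = 1 := by
    intro g hg
    have hgZ : g ∈ Subgroup.center S := hNZ i0 (hg _)
    have h1 : (⟨g, hgZ⟩ : Subgroup.center S) ∈ ⨅ i, C i := by
      rw [Subgroup.mem_iInf]
      intro i
      have h2 := hg i
      rw [hNdef] at h2
      obtain ⟨d', hd', e⟩ := h2
      have h3 : d' = ⟨g, hgZ⟩ := Subtype.ext e
      rw [← h3]; exact hd'
    rw [hCint, Subgroup.mem_bot] at h1
    exact congrArg Subtype.val h1
  have hkey : ∀ i, ∃ (_ : (N i).Normal), ¬ IsMulCommutative (S ⧸ N i) ∧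
      ∃! x : S ⧸ N i, orderOf x = 2 := by
    intro i
    rw [hNdef]
    exact hCq i
  have hK : ∀ i, ∃ (_ : (N i).Normal),
      (∀ g ∈ Subgroup.center S, g ^ 2 ∈ N i) ∧ Nat.card (Subgroup.center S) = 2 * Nat.card (N i) ∧
      (∀ s : S, orderOf (QuotientGroup.mk' (N i) s) = 2 → s ∈ Subgroup.center S) ∧
      ∀ α ξ : S, (∀ g : S, ∃ w ∈ Subgroup.closure ({α, ξ} : Set S), w⁻¹ * g ∈ Subgroup.center S) →
        ξ * α * ξ⁻¹ * α ∈ Subgroup.center S → ξ ^ 2 ∈ Subgroup.center S →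
        ξ * α * ξ⁻¹ * α ∈ N i ∧ Nat.card (S ⧸ N i) = 2 * orderOf (QuotientGroup.mk' (N i) α) ∧
          ∀ k : ℕ, orderOf (QuotientGroup.mk' (N i) α) = 2 * k → ξ ^ 2 * (α ^ k)⁻¹ ∈ N i := by
    intro i
    obtain ⟨hni, hnci, hui⟩ := hkey i
    exact ⟨hni, key hS (N i) (hNZ i) (hNne i) hnci hui⟩
  obtain ⟨hn0, hnc0, hu0⟩ := hkey i0
  have hf2 : Fact (Nat.Prime 2) := ⟨Nat.prime_two⟩
  obtain ⟨m, a, x, hm, hoa, hcard, hx, hxa, hx2, hcl⟩ :=
    S3202.quat_gens (hS.to_quotient (N i0)) hnc0 hu0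
  obtain ⟨α, rfl⟩ := QuotientGroup.mk'_surjective (N i0) a
  obtain ⟨ξ, rfl⟩ := QuotientGroup.mk'_surjective (N i0) x
  have hinv0 : ξ * α * ξ⁻¹ * α ∈ N i0 := by
    rw [← QuotientGroup.eq_one_iff, ← QuotientGroup.mk'_apply, map_mul, map_mul, map_mul, map_inv,
      hxa, inv_mul_cancel]
  have hgen0 : ∀ g : S, ∃ w ∈ Subgroup.closure ({α, ξ} : Set S), w⁻¹ * g ∈ N i0 := by
    intro g
    have h1 : QuotientGroup.mk' (N i0) g ∈
        (Subgroup.closure ({α, ξ} : Set S)).map (QuotientGroup.mk' (N i0)) := by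
      rw [MonoidHom.map_closure, Set.image_pair, hcl]
      exact Subgroup.mem_top _
    obtain ⟨w, hw, hwg⟩ := h1
    exact ⟨w, hw, QuotientGroup.eq.mp hwg⟩
  have hgenZ : ∀ g : S, ∃ w ∈ Subgroup.closure ({α, ξ} : Set S), w⁻¹ * g ∈ Subgroup.center S := by
    intro g
    obtain ⟨w, hw, h⟩ := hgen0 g
    exact ⟨w, hw, hNZ i0 h⟩
  have hdZ : ξ * α * ξ⁻¹ * α ∈ Subgroup.center S := hNZ i0 hinv0
  have hm1 : 2 ^ m = 2 * 2 ^ (m - 1) := by
    rw [← pow_succ']
    congr 1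
    omega
  have hξ2Z : ξ ^ 2 ∈ Subgroup.center S := by
    obtain ⟨_, -, -, k3, -⟩ := hK i0
    apply k3
    rw [map_pow, hx2]
    have e1 : (QuotientGroup.mk' (N i0) α ^ 2 ^ (m - 1)) ^ 2 = 1 := by
      rw [← pow_mul, mul_comm, ← hm1, ← hoa, pow_orderOf_eq_one]
    have e2 : QuotientGroup.mk' (N i0) α ^ 2 ^ (m - 1) ≠ 1 := by
      apply pow_ne_one_of_lt_orderOf (by positivity)
      rw [hoa, hm1]
      have : 0 < 2 ^ (m - 1) := by positivity
      omega
    exact orderOf_eq_prime e1 e2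
  have hK4 : ∀ i, ∃ (_ : (N i).Normal), ξ * α * ξ⁻¹ * α ∈ N i ∧
      Nat.card (S ⧸ N i) = 2 * orderOf (QuotientGroup.mk' (N i) α) ∧
      ∀ k : ℕ, orderOf (QuotientGroup.mk' (N i) α) = 2 * k → ξ ^ 2 * (α ^ k)⁻¹ ∈ N i := by
    intro i
    obtain ⟨hni, -, -, -, k4⟩ := hK i
    exact ⟨hni, k4 α ξ hgenZ hdZ hξ2Z⟩
  -- the relations
  have hR2 : ξ * α * ξ⁻¹ * α = 1 := by
    apply hNint
    intro i
    obtain ⟨_, h, -⟩ := hK4 i
    exact h
  have hcardN : ∀ i, Nat.card (N i) = Nat.card (N i0) := by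
    intro i
    obtain ⟨_, -, k2, -⟩ := hK i
    obtain ⟨_, -, k2', -⟩ := hK i0
    omega
  have hord : ∀ i, ∃ (_ : (N i).Normal), orderOf (QuotientGroup.mk' (N i) α) = 2 ^ m := by
    intro i
    obtain ⟨hni, -, h2, -⟩ := hK4 i
    refine ⟨hni, ?_⟩
    have e1 := Subgroup.card_eq_card_quotient_mul_card_subgroup (N i)
    have e2 := Subgroup.card_eq_card_quotient_mul_card_subgroup (N i0)
    rw [hcardN i] at e1
    have hpos : 0 < Nat.card (N i0) := Nat.card_pos
    have e3 : Nat.card (S ⧸ N i) = Nat.card (S ⧸ N i0) := by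
      have e4 : Nat.card (S ⧸ N i) * Nat.card (N i0) = Nat.card (S ⧸ N i0) * Nat.card (N i0) := by
        rw [← e1, ← e2]
      exact Nat.eq_of_mul_eq_mul_right hpos e4
    rw [e3, hcard, pow_succ'] at h2
    omega
  have hR1 : α ^ 2 ^ m = 1 := by
    apply hNint
    intro i
    obtain ⟨hni, h⟩ := hord i
    rw [← QuotientGroup.eq_one_iff, ← QuotientGroup.mk'_apply, map_pow, ← h, pow_orderOf_eq_one]
  have hR3 : ξ ^ 2 = α ^ 2 ^ (m - 1) := by
    have h1 : ξ ^ 2 * (α ^ 2 ^ (m - 1))⁻¹ = 1 := by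
      apply hNint
      intro i
      obtain ⟨hni, h⟩ := hord i
      obtain ⟨_, -, -, h3⟩ := hK4 i
      exact h3 _ (h.trans hm1)
    exact mul_inv_eq_one.mp h1
  obtain ⟨Q, hQ⟩ : ∃ Q : Subgroup S, Q = Subgroup.closure ({α, ξ} : Set S) := ⟨_, rfl⟩
  have hQcard : Nat.card Q ≤ 2 ^ (m + 1) := by
    have h1 : ξ * α * ξ⁻¹ ∈ Subgroup.zpowers α := by
      rw [eq_inv_of_mul_eq_one_left hR2]
      exact Subgroup.inv_mem _ (Subgroup.mem_zpowers α)
    have h2 : ξ ^ 2 ∈ Subgroup.zpowers α := by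
      rw [hR3]; exact Subgroup.pow_mem _ (Subgroup.mem_zpowers α) _
    have h3 := card_closure_pair_le α ξ h1 h2
    have h4 : orderOf α ≤ 2 ^ m := orderOf_le_of_pow_eq_one (by positivity) hR1
    rw [hQ, pow_succ']
    omega
  obtain ⟨φ, hφ⟩ : ∃ φ : ↥Q →* S ⧸ N i0, φ = (QuotientGroup.mk' (N i0)).comp Q.subtype :=
    ⟨_, rfl⟩
  have hφs : Function.Surjective φ := by
    intro q
    obtain ⟨g, rfl⟩ := QuotientGroup.mk'_surjective (N i0) q
    obtain ⟨w, hw, hwg⟩ := hgen0 g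
    refine ⟨⟨w, hQ ▸ hw⟩, ?_⟩
    rw [hφ]
    exact QuotientGroup.eq.mpr hwg
  have hφb : Function.Bijective φ := hφs.bijective_of_nat_card_le (by rw [hcard]; exact hQcard)
  refine ⟨N i0, Q, ⟨le_top, le_top, ?_, ?_, ?_⟩, ⟨?_, ?_⟩, ?_, ?_⟩
  · intro a ha b _
    exact (Subgroup.mem_center_iff.mp (hNZ i0 ha) b).symm
  · rw [eq_bot_iff]
    intro g hg
    obtain ⟨hgE, hgQ⟩ := Subgroup.mem_inf.mp hg
    have h1 : φ ⟨g, hgQ⟩ = φ 1 := by
      rw [map_one, hφ]
      exact (QuotientGroup.eq_one_iff g).mpr hgE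
    have h2 := hφb.1 h1
    rw [Subgroup.mem_bot]
    exact congrArg Subtype.val h2
  · rw [eq_top_iff]
    intro g _
    obtain ⟨w, hw, hwg⟩ := hgen0 g
    have e : g = (w⁻¹ * g) * w := by
      have e1 := Subgroup.mem_center_iff.mp (hNZ i0 hwg) w
      rw [← e1]; group
    rw [e]
    exact Subgroup.mul_mem_sup hwg (hQ ▸ hw)
  · refine ⟨⟨fun a b => ?_⟩⟩
    apply Subtype.ext
    exact (Subgroup.mem_center_iff.mp (hNZ i0 a.2) b.1).symm
  · intro a ha
    apply hNint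
    intro i
    obtain ⟨_, k1, -⟩ := hK i
    exact k1 a (hNZ i0 ha)
  · intro hcomm
    apply hnc0
    refine ⟨⟨fun p q => ?_⟩⟩
    obtain ⟨u, rfl⟩ := hφs p
    obtain ⟨v, rfl⟩ := hφs q
    rw [← map_mul, ← map_mul, mul_comm' u v]
  · obtain ⟨z0, hz0, hz0u⟩ := hu0
    obtain ⟨e, he⟩ : ∃ e : ↥Q ≃* S ⧸ N i0, e = MulEquiv.ofBijective φ hφb := ⟨_, rfl⟩
    refine ⟨e.symm z0, ?_, ?_⟩
    · show orderOf (e.symm z0) = 2
      rw [MulEquiv.orderOf_eq]; exact hz0
    · intro y hy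
      have h1 : orderOf (e y) = 2 := by rw [MulEquiv.orderOf_eq]; exact hy
      have h2 := hz0u _ h1
      rw [← h2, MulEquiv.symm_apply_apply]

end Cfsg.Agent.S3201
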