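import Cfsg.Statements.S3208
import Cfsg.Agent.Helper18.Normalizer
import Mathlib

set_option autoImplicit false
open Cfsg

namespace Cfsg.Agent.S3208

/-- Let j be an involution of a finite group G, H a subgroup of G, and T a Sylow 2-subgroup of H ∩ C_G(j) containing j such that ⟨j⟩ is a characteristic subgroup of T. Then T is a Sylow 2-subgroup of H. -/
theorem result {G : Type*} [Group G] [Finite G]
    (j : G) (hj : orderOf j = 2) (H T : Subgroup G) (hT : T ≤ H ⊓ Subgroup.centralizer ({j} : Set G)) (h2 : IsPGroup 2 ↥T)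
    (hSyl : ¬ 2 ∣ T.relIndex (H ⊓ Subgroup.centralizer ({j} : Set G))) (hjT : j ∈ T)
    (hchar : ((Subgroup.zpowers j).subgroupOf T).Characteristic) :
    ¬ 2 ∣ T.relIndex H := by
  classical
  have hj2 : j ^ 2 = 1 := by rw [← hj]; exact pow_orderOf_eq_one j
  have hj1 : j ≠ 1 := by
    rintro rfl
    simp at hj
  -- elements normalizing T centralize j
  have hnc : Subgroup.normalizer (T : Set G) ≤ Subgroup.centralizer ({j} : Set G) := by
    intro x hx
    rw [Subgroup.mem_normalizer_iff] at hx
    have hx' : ∀ t : G, t ∈ T → x⁻¹ * t * x ∈ T := by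
      intro t ht
      rw [hx]
      have : x * (x⁻¹ * t * x) * x⁻¹ = t := by group
      rw [this]
      exact ht
    let φ : T ≃* T :=
      { toFun := fun t => ⟨x * t * x⁻¹, (hx t).1 t.2⟩
        invFun := fun t => ⟨x⁻¹ * t * x, hx' t t.2⟩
        left_inv := by intro t; ext; simp only []; group
        right_inv := by intro t; ext; simp only []; group
        map_mul' := by intro a b; ext; simp only [Subgroup.coe_mul]; group }
    have h1 := hchar.fixed φ
    have h3 : (⟨j, hjT⟩ : T) ∈ (Subgroup.zpowers j).subgroupOf T := by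
      rw [Subgroup.mem_subgroupOf]
      exact Subgroup.mem_zpowers j
    rw [← h1, Subgroup.mem_comap, Subgroup.mem_subgroupOf] at h3
    obtain ⟨k, hk⟩ := h3
    have hk' : j ^ k = x * j * x⁻¹ := hk
    rw [Subgroup.mem_centralizer_iff]
    intro y hy
    rw [Set.mem_singleton_iff] at hy
    subst hy
    rcases Int.emod_two_eq_zero_or_one k with h0 | h0
    · exfalso
      have h4 : y ^ k = 1 := by
        rw [← Int.emod_add_mul_ediv k 2, h0, zero_add, zpow_mul, zpow_ofNat, hj2, one_zpow]
      rw [h4] at hk'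
      apply hj1
      have : y = x⁻¹ * (x * y * x⁻¹) * x := by group
      rw [this, ← hk']
      group
    · have h4 : y ^ k = y := by
        rw [← Int.emod_add_mul_ediv k 2, h0, zpow_add, zpow_one, zpow_mul, zpow_ofNat, hj2,
          one_zpow, mul_one]
      rw [h4] at hk'
      calc y * x = (x * y * x⁻¹) * x := by rw [← hk']
        _ = x * y := by group
  have heq : Subgroup.normalizer (T : Set G) ⊓ H =
      Subgroup.normalizer (T : Set G) ⊓ (H ⊓ Subgroup.centralizer ({j} : Set G)) :=
    le_antisymm (le_inf inf_le_left (le_inf inf_le_right (inf_le_left.trans hnc)))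
      (inf_le_inf_left _ inf_le_left)
  obtain ⟨n, hn⟩ := (IsPGroup.iff_card).1 h2
  have m1 := Cfsg.Agent.Helper18.relIndex_normalizer_inf_modEq T H (hT.trans inf_le_left) hn
  have m2 := Cfsg.Agent.Helper18.relIndex_normalizer_inf_modEq T _ hT hn
  rw [heq] at m1
  have m3 := m1.symm.trans m2
  intro hdvd
  exact hSyl ((Nat.ModEq.dvd_iff m3 (dvd_refl 2)).1 hdvd)

end Cfsg.Agent.S3208
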