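import Mathlib
import Cfsg.Statements.S3209
import Cfsg.Agent.Helper14.Torus

set_option autoImplicit false
open Cfsg

namespace Cfsg.Agent.S3209

open Cfsg.Agent.Helper14

section SL

variable {F : Type*} [Field F] [Fintype F]

local notation "SL2" => Matrix.SpecialLinearGroup (Fin 2) F

theorem sq_eq_one_cases (hodd : Odd (Fintype.card F)) (Y : SL2) (h : Y ^ 2 = 1) :
    Y = 1 ∨ Y = SL2Odd.negOne := by
  have h2 := SL2Conj.two_ne_zero_of_odd hodd
  have hm : (Y : Matrix (Fin 2) (Fin 2) F) ^ 2 = 1 := by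
    have h' := congrArg (fun Z : SL2 => (Z : Matrix (Fin 2) (Fin 2) F)) h
    simpa using h'
  obtain ⟨h10, h01, h00⟩ := Torus.scalar_of_sq_eq_one h2 Y hm
  have hp : (Y : Matrix (Fin 2) (Fin 2) F) 0 0 * (Y : Matrix (Fin 2) (Fin 2) F) 0 0 = 1 := by
    have hd := Y.det_coe
    rw [Matrix.det_fin_two, h10, h01, ← h00] at hd
    simpa using hd
  rcases mul_self_eq_one_iff.1 hp with h1 | h1
  · left
    apply Subtype.ext
    ext i j
    fin_cases i <;> fin_cases j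
    · simpa using h1
    · simpa using h01
    · simpa using h10
    · simpa using (h00.symm.trans h1)
  · right
    apply Subtype.ext
    rw [SL2Odd.coe_negOne]
    ext i j
    fin_cases i <;> fin_cases j
    · simpa using h1
    · simpa using h01
    · simpa using h10
    · simpa using (h00.symm.trans h1)

theorem trace_eq_zero_of_sq (Y : SL2) (h : Y ^ 2 = SL2Odd.negOne) :
    (Y : Matrix (Fin 2) (Fin 2) F).trace = 0 := by
  have hm : (Y : Matrix (Fin 2) (Fin 2) F) ^ 2 = !![-1, 0; 0, -1] := by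
    have h' := congrArg (fun Z : SL2 => (Z : Matrix (Fin 2) (Fin 2) F)) h
    simpa [SL2Odd.coe_negOne] using h'
  have hCH := SL2Conj.sq_eq Y
  rw [hm] at hCH
  by_contra ht
  have e00 := congrFun (congrFun hCH 0) 0
  have e01 := congrFun (congrFun hCH 0) 1
  simp only [Matrix.sub_apply, Matrix.smul_apply, smul_eq_mul, Matrix.one_apply_eq, ne_eq,
    zero_ne_one, not_false_eq_true, Matrix.one_apply_ne, sub_zero, Matrix.of_apply,
    Matrix.cons_val_zero, Matrix.cons_val_one] at e00 e01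
  have z00 : (Y : Matrix (Fin 2) (Fin 2) F) 0 0 = 0 := by
    have : (Y : Matrix (Fin 2) (Fin 2) F).trace * (Y : Matrix (Fin 2) (Fin 2) F) 0 0 = 0 := by
      linear_combination -e00
    rcases mul_eq_zero.1 this with h | h
    · exact absurd h ht
    · exact h
  have z01 : (Y : Matrix (Fin 2) (Fin 2) F) 0 1 = 0 := by
    rcases mul_eq_zero.1 e01.symm with h | h
    · exact absurd h ht
    · exact h
  have hd := Y.det_coe
  rw [Matrix.det_fin_two, z00, z01] at hd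
  simp at hd

theorem w_sq : (Mat2.compSL (0 : F)) ^ 2 = SL2Odd.negOne := by
  apply Subtype.ext
  rw [pow_two]
  show (Mat2.comp (0 : F) 1) * (Mat2.comp (0 : F) 1) = !![-1, 0; 0, -1]
  ext i j
  fin_cases i <;> fin_cases j <;> simp [Mat2.comp, Matrix.mul_apply, Fin.sum_univ_two]

theorem trace_w : ((Mat2.compSL (0 : F) : SL2) : Matrix (Fin 2) (Fin 2) F).trace = 0 := by
  rw [Mat2.coe_compSL, Mat2.trace_comp]

end SL

theorem factor_facts {G : Type*} [Group G] {F : Type*} [Field F] [Fintype F]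
    (hF : Odd (Fintype.card F)) (L : Subgroup G)
    (e : ↥L ≃* Matrix.SpecialLinearGroup (Fin 2) F) (j : G) (hj : orderOf j = 2) (hjL : j ∈ L) :
    (∀ a ∈ L, a ^ 2 = 1 → a = 1 ∨ a = j) ∧
    (∃ a₀ ∈ L, a₀ ^ 2 = j ∧ ∀ a ∈ L, a ^ 2 = j → ∃ g ∈ L, g * a₀ * g⁻¹ = a) := by
  classical
  have hj2 : j ^ 2 = 1 := by rw [← hj]; exact pow_orderOf_eq_one j
  have hj1 : j ≠ 1 := by
    intro h
    rw [h, orderOf_one] at hj
    norm_num at hj
  have hej : e ⟨j, hjL⟩ = SL2Odd.negOne := by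
    have h1 : (e ⟨j, hjL⟩) ^ 2 = 1 := by
      rw [← map_pow]
      have h0 : (⟨j, hjL⟩ : ↥L) ^ 2 = 1 := Subtype.ext (by simpa using hj2)
      rw [h0, map_one]
    rcases sq_eq_one_cases hF _ h1 with h | h
    · exfalso
      have h0 : (⟨j, hjL⟩ : ↥L) = 1 := e.injective (by rw [h, map_one])
      exact hj1 (congrArg Subtype.val h0)
    · exact h
  refine ⟨?_, ?_⟩
  · intro a ha ha2
    have h1 : (e ⟨a, ha⟩) ^ 2 = 1 := by
      rw [← map_pow]
      have h0 : (⟨a, ha⟩ : ↥L) ^ 2 = 1 := Subtype.ext (by simpa using ha2)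
      rw [h0, map_one]
    rcases sq_eq_one_cases hF _ h1 with h | h
    · left
      have h0 : (⟨a, ha⟩ : ↥L) = 1 := e.injective (by rw [h, map_one])
      exact congrArg Subtype.val h0
    · right
      have h0 : (⟨a, ha⟩ : ↥L) = ⟨j, hjL⟩ := e.injective (by rw [h, hej])
      exact congrArg Subtype.val h0
  · refine ⟨(e.symm (Mat2.compSL 0) : ↥L), (e.symm (Mat2.compSL 0)).2, ?_, ?_⟩
    · have h0 : (e.symm (Mat2.compSL 0)) ^ 2 = (⟨j, hjL⟩ : ↥L) := by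
        apply e.injective
        rw [map_pow, e.apply_symm_apply, w_sq, hej]
      have h0' := congrArg Subtype.val h0
      simpa using h0'
    · intro a ha ha2
      have h1 : (e ⟨a, ha⟩) ^ 2 = SL2Odd.negOne := by
        rw [← map_pow, ← hej]
        congr 1
        exact Subtype.ext (by simpa using ha2)
      have ht := trace_eq_zero_of_sq _ h1
      have hconj : IsConj (Mat2.compSL (0 : F)) (e ⟨a, ha⟩) := by
        apply SL2Conj.isConj_of_trace_eq hF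
        · rw [ht]; exact trace_w
        · rw [trace_w]
          intro h
          have h2 := SL2Conj.two_ne_zero_of_odd hF
          have h4 : (2 : F) * 2 = 0 := by linear_combination (-1 : F) * h
          exact h2 (mul_self_eq_zero.1 h4)
      obtain ⟨c, hc⟩ := isConj_iff.1 hconj
      refine ⟨(e.symm c : ↥L), (e.symm c).2, ?_⟩
      have h0 : e.symm c * e.symm (Mat2.compSL 0) * (e.symm c)⁻¹ = (⟨a, ha⟩ : ↥L) := by
        apply e.injective
        rw [map_mul, map_mul, map_inv, e.apply_symm_apply, e.apply_symm_apply, hc]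
      have h0' := congrArg Subtype.val h0
      simpa using h0'

/-- The set of products of two elementwise commuting subgroups, as a subgroup. -/
def prodSub {G : Type*} [Group G] (L₁ L₂ : Subgroup G)
    (hc : ∀ x ∈ L₁, ∀ y ∈ L₂, x * y = y * x) : Subgroup G where
  carrier := {g | ∃ a ∈ L₁, ∃ b ∈ L₂, g = a * b}
  mul_mem' := by
    rintro _ _ ⟨a, ha, b, hb, rfl⟩ ⟨a', ha', b', hb', rfl⟩
    refine ⟨a * a', L₁.mul_mem ha ha', b * b', L₂.mul_mem hb hb', ?_⟩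
    calc a * b * (a' * b') = a * (b * a') * b' := by group
      _ = a * (a' * b) * b' := by rw [hc a' ha' b hb]
      _ = a * a' * (b * b') := by group
  one_mem' := ⟨1, L₁.one_mem, 1, L₂.one_mem, by simp⟩
  inv_mem' := by
    rintro _ ⟨a, ha, b, hb, rfl⟩
    refine ⟨a⁻¹, L₁.inv_mem ha, b⁻¹, L₂.inv_mem hb, ?_⟩
    rw [mul_inv_rev]
    exact (hc a⁻¹ (L₁.inv_mem ha) b⁻¹ (L₂.inv_mem hb)).symm

/-- Let L₁ ≅ SL₂(q₁) and L₂ ≅ SL₂(q₂), q₁ and q₂ odd, be elementwise-commuting subgroups of a finite group meeting in ⟨j⟩ for an involution j. Then L₁L₂ has exactly two conjugacy classes of involutions: the central involution j, and one further class (there is an involution x ≠ j in L₁L₂, and every involution of L₁L₂ other than j is conjugate to x by an element of L₁L₂). -/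
theorem result {G : Type*} [Group G] [Finite G]
    {F₁ : Type*} [Field F₁] [Fintype F₁] {F₂ : Type*} [Field F₂] [Fintype F₂]
    (hF₁ : Odd (Fintype.card F₁)) (hF₂ : Odd (Fintype.card F₂)) (L₁ L₂ : Subgroup G)
    (e₁ : ↥L₁ ≃* Matrix.SpecialLinearGroup (Fin 2) F₁) (e₂ : ↥L₂ ≃* Matrix.SpecialLinearGroup (Fin 2) F₂)
    (hc : ∀ x ∈ L₁, ∀ y ∈ L₂, x * y = y * x) (j : G) (hj : orderOf j = 2) (hm : L₁ ⊓ L₂ = Subgroup.zpowers j) :
    ∃ x ∈ L₁ ⊔ L₂, orderOf x = 2 ∧ x ≠ j ∧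
      ∀ y ∈ L₁ ⊔ L₂, orderOf y = 2 → y = j ∨ ∃ g ∈ L₁ ⊔ L₂, g * x * g⁻¹ = y := by
  classical
  have hj2 : j ^ 2 = 1 := by rw [← hj]; exact pow_orderOf_eq_one j
  have hj1 : j ≠ 1 := by
    intro h
    rw [h, orderOf_one] at hj
    norm_num at hj
  have hjm : j ∈ L₁ ⊓ L₂ := by rw [hm]; exact Subgroup.mem_zpowers j
  have hjL1 : j ∈ L₁ := hjm.1
  have hjL2 : j ∈ L₂ := hjm.2
  have hinter : ∀ g, g ∈ L₁ → g ∈ L₂ → g = 1 ∨ g = j := by
    intro g h1 h2
    have hg : g ∈ Subgroup.zpowers j := by rw [← hm]; exact ⟨h1, h2⟩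
    obtain ⟨k, rfl⟩ := Subgroup.mem_zpowers_iff.1 hg
    have hjz : j ^ (2 : ℤ) = 1 := by
      have : j ^ (2 : ℤ) = j ^ 2 := zpow_ofNat j 2
      rw [this, hj2]
    rcases Int.even_or_odd k with ⟨m, rfl⟩ | ⟨m, rfl⟩
    · left
      rw [← two_mul, zpow_mul, hjz, one_zpow]
    · right
      rw [zpow_add, zpow_mul, hjz, one_zpow, one_mul, zpow_one]
  have hinter2 : ∀ g, g ∈ L₁ → g ∈ L₂ → g ^ 2 = 1 := by
    intro g h1 h2
    rcases hinter g h1 h2 with rfl | rfl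
    · exact one_pow 2
    · exact hj2
  obtain ⟨f1, a₀, ha₀, ha₀2, hconj1⟩ := factor_facts hF₁ L₁ e₁ j hj hjL1
  obtain ⟨f2, b₀, hb₀, hb₀2, hconj2⟩ := factor_facts hF₂ L₂ e₂ j hj hjL2
  have hsup : ∀ y ∈ L₁ ⊔ L₂, ∃ a ∈ L₁, ∃ b ∈ L₂, y = a * b := by
    intro y hy
    have hle : L₁ ⊔ L₂ ≤ prodSub L₁ L₂ hc :=
      sup_le (fun a ha => ⟨a, ha, 1, L₂.one_mem, (mul_one a).symm⟩)
        (fun b hb => ⟨1, L₁.one_mem, b, hb, (one_mul b).symm⟩)
    exact hle hy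
  have hcomm0 : Commute a₀ b₀ := hc a₀ ha₀ b₀ hb₀
  have hx2 : (a₀ * b₀) ^ 2 = 1 := by
    rw [hcomm0.mul_pow, ha₀2, hb₀2, ← pow_two, hj2]
  have hx1 : a₀ * b₀ ≠ 1 := by
    intro h
    have h1 : a₀ = b₀⁻¹ := eq_inv_of_mul_eq_one_left h
    have h2 : a₀ ∈ L₂ := by rw [h1]; exact L₂.inv_mem hb₀
    have h3 := hinter2 a₀ ha₀ h2
    rw [ha₀2] at h3
    exact hj1 h3
  have hxj : a₀ * b₀ ≠ j := by
    intro h
    have h1 : a₀ = j * b₀⁻¹ := by rw [← h, mul_inv_cancel_right]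
    have h2 : a₀ ∈ L₂ := by rw [h1]; exact L₂.mul_mem hjL2 (L₂.inv_mem hb₀)
    have h3 := hinter2 a₀ ha₀ h2
    rw [ha₀2] at h3
    exact hj1 h3
  refine ⟨a₀ * b₀, Subgroup.mul_mem _ (Subgroup.mem_sup_left ha₀) (Subgroup.mem_sup_right hb₀),
    orderOf_eq_prime hx2 hx1, hxj, ?_⟩
  intro y hy hy2o
  obtain ⟨a, ha, b, hb, rfl⟩ := hsup y hy
  have hab : Commute a b := hc a ha b hb
  have hy2 : (a * b) ^ 2 = 1 := by rw [← hy2o]; exact pow_orderOf_eq_one _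
  rw [hab.mul_pow] at hy2
  have ha2L2 : a ^ 2 ∈ L₂ := by
    have h0 : a ^ 2 = (b ^ 2)⁻¹ := eq_inv_of_mul_eq_one_left hy2
    rw [h0]; exact L₂.inv_mem (L₂.pow_mem hb 2)
  rcases hinter (a ^ 2) (L₁.pow_mem ha 2) ha2L2 with h1 | h1
  · have hb2 : b ^ 2 = 1 := by rw [h1, one_mul] at hy2; exact hy2
    rcases f1 a ha h1 with h3 | h3 <;> rcases f2 b hb hb2 with h4 | h4
    · exfalso
      rw [h3, h4, one_mul, orderOf_one] at hy2o
      norm_num at hy2o
    · left; rw [h3, h4, one_mul]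
    · left; rw [h3, h4, mul_one]
    · exfalso
      rw [h3, h4, ← pow_two, hj2, orderOf_one] at hy2o
      norm_num at hy2o
  · have hb2 : b ^ 2 = j := by
      rw [h1] at hy2
      have h0 : b ^ 2 = j⁻¹ := eq_inv_of_mul_eq_one_right hy2
      rw [h0]
      exact inv_eq_of_mul_eq_one_left (by rw [← pow_two]; exact hj2)
    obtain ⟨g₁, hg₁, e1⟩ := hconj1 a ha h1
    obtain ⟨g₂, hg₂, e2⟩ := hconj2 b hb hb2
    right
    refine ⟨g₁ * g₂, Subgroup.mul_mem _ (Subgroup.mem_sup_left hg₁) (Subgroup.mem_sup_right hg₂), ?_⟩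
    have k1 : g₂ * a₀ * g₂⁻¹ = a₀ := by
      rw [← hc a₀ ha₀ g₂ hg₂, mul_inv_cancel_right]
    have k2 : g₁ * (g₂ * b₀ * g₂⁻¹) * g₁⁻¹ = g₂ * b₀ * g₂⁻¹ := by
      rw [hc g₁ hg₁ (g₂ * b₀ * g₂⁻¹) (L₂.mul_mem (L₂.mul_mem hg₂ hb₀) (L₂.inv_mem hg₂)),
        mul_inv_cancel_right]
    calc g₁ * g₂ * (a₀ * b₀) * (g₁ * g₂)⁻¹
        = g₁ * (g₂ * a₀ * g₂⁻¹) * g₁⁻¹ * (g₁ * (g₂ * b₀ * g₂⁻¹) * g₁⁻¹) := by group
      _ = g₁ * a₀ * g₁⁻¹ * (g₂ * b₀ * g₂⁻¹) := by rw [k1, k2]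
      _ = a * b := by rw [e1, e2]

end Cfsg.Agent.S3209
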