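import Mathlib
import Cfsg.Statements.S3210
import Cfsg.Agent.Helper18.SL2Norm

set_option autoImplicit false
open Cfsg

namespace Cfsg.Agent.S3210

open Cfsg.Agent.Helper18.SL2Norm

theorem mem_conj_map {G : Type*} [Group G] (L : Subgroup G) (n y : G) :
    y ∈ L.map (MulAut.conj n).toMonoidHom ↔ ∃ x ∈ L, n * x * n⁻¹ = y := by
  rw [Subgroup.mem_map]
  rfl

theorem card_conj_map {G : Type*} [Group G] (L : Subgroup G) (n : G) :
    Nat.card (L.map (MulAut.conj n).toMonoidHom) = Nat.card L :=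
  Subgroup.card_map_of_injective (MulAut.conj n).injective

theorem map_conj_of_inv {G : Type*} [Group G] (L K : Subgroup G) (n : G)
    (h : L.map (MulAut.conj n⁻¹).toMonoidHom = K) : K.map (MulAut.conj n).toMonoidHom = L := by
  ext y
  rw [mem_conj_map]
  constructor
  · rintro ⟨k, hk, rfl⟩
    rw [← h, mem_conj_map] at hk
    obtain ⟨x, hx, rfl⟩ := hk
    have : n * (n⁻¹ * x * n⁻¹⁻¹) * n⁻¹ = x := by group
    rw [this]; exact hx
  · intro hy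
    refine ⟨n⁻¹ * y * n⁻¹⁻¹, ?_, by group⟩
    rw [← h, mem_conj_map]
    exact ⟨y, hy, rfl⟩

/-- The set of products of two elementwise commuting subgroups, as a subgroup. -/
def prodSub {G : Type*} [Group G] (L₁ L₂ : Subgroup G)
    (hc : ∀ x ∈ L₁, ∀ y ∈ L₂, x * y = y * x) : Subgroup G where
  carrier := {g | ∃ a ∈ L₁, ∃ b ∈ L₂, g = a * b}
  mul_mem' := by
    rintro _ _ ⟨a, ha, b, hb, rfl⟩ ⟨a', ha', b', hb', rfl⟩
    refine ⟨a * a', L₁.mul_mem ha ha', b * b', L₂.mul_mem hb hb', ?_⟩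
    calc a * b * (a' * b') = a * (b * a') * b' := by group
      _ = a * (a' * b) * b' := by rw [hc a' ha' b hb]
      _ = a * a' * (b * b') := by group
  one_mem' := ⟨1, L₁.one_mem, 1, L₂.one_mem, by simp⟩
  inv_mem' := by
    rintro _ ⟨a, ha, b, hb, rfl⟩
    refine ⟨a⁻¹, L₁.inv_mem ha, b⁻¹, L₂.inv_mem hb, ?_⟩
    rw [mul_inv_rev]
    exact (hc a⁻¹ (L₁.inv_mem ha) b⁻¹ (L₂.inv_mem hb)).symm

theorem mem_sup_comm {G : Type*} [Group G] (L₁ L₂ : Subgroup G)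
    (hc : ∀ x ∈ L₁, ∀ y ∈ L₂, x * y = y * x) (g : G) (hg : g ∈ L₁ ⊔ L₂) :
    ∃ a ∈ L₁, ∃ b ∈ L₂, g = a * b := by
  have h : L₁ ⊔ L₂ ≤ prodSub L₁ L₂ hc := by
    apply sup_le
    · intro a ha
      exact ⟨a, ha, 1, L₂.one_mem, by simp⟩
    · intro b hb
      exact ⟨1, L₁.one_mem, b, hb, by simp⟩
  exact h hg

theorem card_inj (q₁ q₂ : ℕ) (h1 : 1 ≤ q₁) (h2 : 1 ≤ q₂)
    (h : q₁ * (q₁ ^ 2 - 1) = q₂ * (q₂ ^ 2 - 1)) : q₁ = q₂ := by
  have key : ∀ a b : ℕ, 1 ≤ a → a < b → a * (a ^ 2 - 1) < b * (b ^ 2 - 1) := by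
    intro a b ha hab
    have h1 : a ^ 2 - 1 ≤ b ^ 2 - 1 := Nat.sub_le_sub_right (Nat.pow_le_pow_left hab.le 2) 1
    have h2 : 0 < b ^ 2 - 1 := by
      have : 2 ^ 2 ≤ b ^ 2 := Nat.pow_le_pow_left (by omega) 2
      omega
    calc a * (a ^ 2 - 1) ≤ a * (b ^ 2 - 1) := Nat.mul_le_mul_left a h1
      _ < b * (b ^ 2 - 1) := Nat.mul_lt_mul_of_pos_right hab h2
  rcases Nat.lt_trichotomy q₁ q₂ with h' | h' | h'
  · exact absurd h (key q₁ q₂ h1 h').ne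
  · exact h'
  · exact absurd h.symm (key q₂ q₁ h2 h').ne

theorem card_big (q : ℕ) (hodd : Odd q) (h1 : 1 < q) : 2 < q * (q ^ 2 - 1) := by
  have h3 : 3 ≤ q := by
    rw [Nat.odd_iff] at hodd
    omega
  have h9 : 3 ^ 2 ≤ q ^ 2 := Nat.pow_le_pow_left h3 2
  have h8 : 8 ≤ q ^ 2 - 1 := by omega
  calc 2 < 3 * 8 := by norm_num
    _ ≤ q * (q ^ 2 - 1) := Nat.mul_le_mul h3 h8

/-- a normal subgroup of the central product that is isomorphic to some `SL₂(F)` and contains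
the central involution lies in one of the two factors -/
theorem main_lemma {G : Type*} [Group G] [Finite G]
    {F₁ : Type*} [Field F₁] [Fintype F₁] {F₂ : Type*} [Field F₂] [Fintype F₂]
    {F : Type*} [Field F] [Fintype F]
    (hF₁ : Odd (Fintype.card F₁)) (hF₂ : Odd (Fintype.card F₂)) (hF : Odd (Fintype.card F))
    (L₁ L₂ : Subgroup G)
    (e₁ : ↥L₁ ≃* Matrix.SpecialLinearGroup (Fin 2) F₁)
    (e₂ : ↥L₂ ≃* Matrix.SpecialLinearGroup (Fin 2) F₂)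
    (hc : ∀ x ∈ L₁, ∀ y ∈ L₂, x * y = y * x) (j : G) (hj : orderOf j = 2)
    (hm : L₁ ⊓ L₂ = Subgroup.zpowers j)
    (X : Subgroup G) (e : ↥X ≃* Matrix.SpecialLinearGroup (Fin 2) F)
    (hXM : X ≤ L₁ ⊔ L₂) (hXn : ∀ g ∈ L₁ ⊔ L₂, ∀ x ∈ X, g * x * g⁻¹ ∈ X) (hjX : j ∈ X) :
    X ≤ L₁ ∨ X ≤ L₂ := by
  classical
  have hjm : j ∈ L₁ ⊓ L₂ := by rw [hm]; exact Subgroup.mem_zpowers j
  have hjL1 : j ∈ L₁ := hjm.1
  have hjL2 : j ∈ L₂ := hjm.2
  have hZ1 : Subgroup.zpowers j ≤ L₁ := by rw [← hm]; exact inf_le_left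
  have hZ2 : Subgroup.zpowers j ≤ L₂ := by rw [← hm]; exact inf_le_right
  have hjc1 : ∀ x ∈ L₁, j * x = x * j := fun x hx => (hc x hx j hjL2).symm
  have hjc2 : ∀ x ∈ L₂, j * x = x * j := fun x hx => hc j hjL1 x hx
  have hjcM : ∀ x ∈ L₁ ⊔ L₂, j * x = x * j := by
    intro x hx
    obtain ⟨a, ha, b, hb, rfl⟩ := mem_sup_comm L₁ L₂ hc x hx
    rw [← mul_assoc, hjc1 a ha, mul_assoc, hjc2 b hb, mul_assoc]
  obtain ⟨hP1, -, -⟩ := sn_iso_facts hF₁ L₁ e₁ j hj hjL1 hjc1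
  obtain ⟨hP2, -, -⟩ := sn_iso_facts hF₂ L₂ e₂ j hj hjL2 hjc2
  obtain ⟨-, hPX, -⟩ := sn_iso_facts hF X e j hj hjX (fun x hx => hjcM x (hXM hx))
  have hL1n : ∀ g ∈ L₁ ⊔ L₂, ∀ y ∈ L₁, g * y * g⁻¹ ∈ L₁ := by
    intro g hg y hy
    obtain ⟨a, ha, b, hb, rfl⟩ := mem_sup_comm L₁ L₂ hc g hg
    have h1 : (a * b) * y * (a * b)⁻¹ = a * y * a⁻¹ := by
      calc (a * b) * y * (a * b)⁻¹ = a * (b * y) * b⁻¹ * a⁻¹ := by group
        _ = a * (y * b) * b⁻¹ * a⁻¹ := by rw [← hc y hy b hb]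
        _ = a * y * a⁻¹ := by group
    rw [h1]
    exact L₁.mul_mem (L₁.mul_mem ha hy) (L₁.inv_mem ha)
  have hL2n : ∀ g ∈ L₁ ⊔ L₂, ∀ y ∈ L₂, g * y * g⁻¹ ∈ L₂ := by
    intro g hg y hy
    obtain ⟨a, ha, b, hb, rfl⟩ := mem_sup_comm L₁ L₂ hc g hg
    have hw : b * y * b⁻¹ ∈ L₂ := L₂.mul_mem (L₂.mul_mem hb hy) (L₂.inv_mem hb)
    have h1 : (a * b) * y * (a * b)⁻¹ = b * y * b⁻¹ := by
      calc (a * b) * y * (a * b)⁻¹ = a * (b * y * b⁻¹) * a⁻¹ := by group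
        _ = (b * y * b⁻¹) * a * a⁻¹ := by rw [hc a ha _ hw]
        _ = b * y * b⁻¹ := by group
    rw [h1]
    exact hw
  -- if `X ⊓ L₂` is central then `X ≤ L₁`
  have lemP1 : (∀ m, m ∈ X → m ∈ L₂ → m ∈ Subgroup.zpowers j) → X ≤ L₁ := by
    intro h x hx
    obtain ⟨a, ha, b, hb, rfl⟩ := mem_sup_comm L₁ L₂ hc x (hXM hx)
    have hbZ : b ∈ Subgroup.zpowers j := by
      apply hP2 b hb
      intro y hy
      have hw : b * y * b⁻¹ * y⁻¹ ∈ L₂ :=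
        L₂.mul_mem (L₂.mul_mem (L₂.mul_mem hb hy) (L₂.inv_mem hb)) (L₂.inv_mem hy)
      apply h _ _ hw
      have e1 := hc a ha _ hw
      have e2 := hc a⁻¹ (L₁.inv_mem ha) y⁻¹ (L₂.inv_mem hy)
      have h1 : b * y * b⁻¹ * y⁻¹ = (a * b) * (y * (a * b)⁻¹ * y⁻¹) := by
        calc b * y * b⁻¹ * y⁻¹ = (b * y * b⁻¹ * y⁻¹) * a * a⁻¹ := by group
          _ = a * (b * y * b⁻¹ * y⁻¹) * a⁻¹ := by rw [e1]
          _ = a * b * y * b⁻¹ * (y⁻¹ * a⁻¹) := by group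
          _ = a * b * y * b⁻¹ * (a⁻¹ * y⁻¹) := by rw [e2]
          _ = (a * b) * (y * (a * b)⁻¹ * y⁻¹) := by group
      rw [h1]
      exact X.mul_mem hx (hXn y (Subgroup.mem_sup_right hy) _ (X.inv_mem hx))
    exact L₁.mul_mem ha (hZ1 hbZ)
  -- if `X ⊓ L₁` is central then `X ≤ L₂`
  have lemP2 : (∀ m, m ∈ X → m ∈ L₁ → m ∈ Subgroup.zpowers j) → X ≤ L₂ := by
    intro h x hx
    obtain ⟨a, ha, b, hb, rfl⟩ := mem_sup_comm L₁ L₂ hc x (hXM hx)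
    have haZ : a ∈ Subgroup.zpowers j := by
      apply hP1 a ha
      intro y hy
      have hw : a * y * a⁻¹ * y⁻¹ ∈ L₁ :=
        L₁.mul_mem (L₁.mul_mem (L₁.mul_mem ha hy) (L₁.inv_mem ha)) (L₁.inv_mem hy)
      apply h _ _ hw
      have e1 := hc y hy b hb
      have h1 : a * y * a⁻¹ * y⁻¹ = (a * b) * (y * (a * b)⁻¹ * y⁻¹) := by
        calc a * y * a⁻¹ * y⁻¹ = a * (y * b) * b⁻¹ * a⁻¹ * y⁻¹ := by group
          _ = a * (b * y) * b⁻¹ * a⁻¹ * y⁻¹ := by rw [e1]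
          _ = (a * b) * (y * (a * b)⁻¹ * y⁻¹) := by group
      rw [h1]
      exact X.mul_mem hx (hXn y (Subgroup.mem_sup_left hy) _ (X.inv_mem hx))
    exact L₂.mul_mem (hZ2 haZ) hb
  have hN1n : ∀ x ∈ X, ∀ m ∈ X ⊓ L₁, x * m * x⁻¹ ∈ X ⊓ L₁ := by
    intro x hx m hm
    exact ⟨X.mul_mem (X.mul_mem hx hm.1) (X.inv_mem hx), hL1n x (hXM hx) m hm.2⟩
  have hN2n : ∀ x ∈ X, ∀ m ∈ X ⊓ L₂, x * m * x⁻¹ ∈ X ⊓ L₂ := by
    intro x hx m hm
    exact ⟨X.mul_mem (X.mul_mem hx hm.1) (X.inv_mem hx), hL2n x (hXM hx) m hm.2⟩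
  rcases hPX (X ⊓ L₁) inf_le_left hN1n with h1 | h1 | ⟨h1a, h1b⟩
  · right
    exact lemP2 (fun m hmX hmL => h1 ⟨hmX, hmL⟩)
  · left
    rw [← h1]
    exact inf_le_right
  · rcases hPX (X ⊓ L₂) inf_le_left hN2n with h2 | h2 | ⟨h2a, h2b⟩
    · left
      exact lemP1 (fun m hmX hmL => h2 ⟨hmX, hmL⟩)
    · right
      rw [← h2]
      exact inf_le_right
    · exfalso
      have hp1 : IsPGroup 2 ↥(X ⊓ L₁) := IsPGroup.of_card (n := 3) (by rw [h1b]; norm_num)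
      have hp2 : IsPGroup 2 ↥(X ⊓ L₂) := IsPGroup.of_card (n := 3) (by rw [h2b]; norm_num)
      have hnorm : X ⊓ L₁ ≤ Subgroup.normalizer ((X ⊓ L₂ : Subgroup G) : Set G) := by
        intro x hx
        rw [Subgroup.mem_normalizer_iff]
        intro m
        constructor
        · intro hm
          exact hN2n x hx.1 m hm
        · intro hm
          have h3 := hN2n x⁻¹ (X.inv_mem hx.1) _ hm
          have h4 : x⁻¹ * (x * m * x⁻¹) * x⁻¹⁻¹ = m := by group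
          rw [h4] at h3
          exact h3
      have hp := IsPGroup.to_sup_of_normal_right' hp1 hp2 hnorm
      obtain ⟨k, hk⟩ := IsPGroup.iff_card.mp hp
      have hle : X ⊓ L₁ ⊔ X ⊓ L₂ ≤ X := sup_le inf_le_left inf_le_left
      have hdvd : 2 ^ k ∣ 24 := by
        rw [← hk, ← h1a]
        exact Subgroup.card_dvd_of_le hle
      have hk3 : k ≤ 3 := by
        by_contra hcon
        push Not at hcon
        have : 2 ^ 4 ∣ 24 := (pow_dvd_pow 2 hcon).trans hdvd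
        norm_num at this
      have hcard_le : Nat.card ↥(X ⊓ L₁ ⊔ X ⊓ L₂) ≤ 8 := by
        rw [hk]
        calc 2 ^ k ≤ 2 ^ 3 := Nat.pow_le_pow_right (by norm_num) hk3
          _ = 8 := by norm_num
      have heq : X ⊓ L₁ = X ⊓ L₁ ⊔ X ⊓ L₂ :=
        Subgroup.eq_of_le_of_card_ge le_sup_left (by rw [h1b]; exact hcard_le)
      have h21 : X ⊓ L₂ ≤ X ⊓ L₁ := by
        have h5 : X ⊓ L₂ ≤ X ⊓ L₁ ⊔ X ⊓ L₂ := le_sup_right
        rw [← heq] at h5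
        exact h5
      have h2Z : X ⊓ L₂ ≤ Subgroup.zpowers j := by
        intro m hm'
        rw [← hm]
        exact ⟨(h21 hm').2, hm'.2⟩
      have h6 := Subgroup.card_le_of_le h2Z
      rw [h2b, Nat.card_zpowers, hj] at h6
      omega

/-- Let G be a finite group with subgroups L₁ ≅ SL₂(q₁) and L₂ ≅ SL₂(q₂), q₁ and q₂ odd prime powers, which commute elementwise and meet in ⟨j⟩ for an involution j, and suppose L₁L₂ has index 2 in C_G(j). Then every element n of C_G(j) outside L₁L₂ either normalizes both L₁ and L₂, or conjugates L₁ onto L₂; in the second case q₁ = q₂ and there is an element n′ of C_G(j) outside L₁L₂ conjugating L₁ onto L₂ with n′² ∈ ⟨j⟩. -/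
theorem result {G : Type*} [Group G] [Finite G]
    {F₁ : Type*} [Field F₁] [Fintype F₁] {F₂ : Type*} [Field F₂] [Fintype F₂]
    (hF₁ : Odd (Fintype.card F₁)) (hF₂ : Odd (Fintype.card F₂)) (L₁ L₂ : Subgroup G)
    (e₁ : ↥L₁ ≃* Matrix.SpecialLinearGroup (Fin 2) F₁) (e₂ : ↥L₂ ≃* Matrix.SpecialLinearGroup (Fin 2) F₂)
    (hc : ∀ x ∈ L₁, ∀ y ∈ L₂, x * y = y * x) (j : G) (hj : orderOf j = 2) (hm : L₁ ⊓ L₂ = Subgroup.zpowers j)
    (hle : L₁ ⊔ L₂ ≤ Subgroup.centralizer ({j} : Set G)) (hi : (L₁ ⊔ L₂).relIndex (Subgroup.centralizer ({j} : Set G)) = 2) (n : G) (hn : n ∈ Subgroup.centralizer ({j} : Set G)) (hn' : n ∉ L₁ ⊔ L₂) :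
    (L₁.map (MulAut.conj n).toMonoidHom = L₁ ∧ L₂.map (MulAut.conj n).toMonoidHom = L₂) ∨
      (L₁.map (MulAut.conj n).toMonoidHom = L₂ ∧ Fintype.card F₁ = Fintype.card F₂ ∧
        ∃ n' ∈ Subgroup.centralizer ({j} : Set G), n' ∉ L₁ ⊔ L₂ ∧ L₁.map (MulAut.conj n').toMonoidHom = L₂ ∧ n' ^ 2 ∈ Subgroup.zpowers j) := by
  classical
  have hjm : j ∈ L₁ ⊓ L₂ := by rw [hm]; exact Subgroup.mem_zpowers j
  have hjL1 : j ∈ L₁ := hjm.1
  have hjL2 : j ∈ L₂ := hjm.2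
  have hjc1 : ∀ x ∈ L₁, j * x = x * j := fun x hx => (hc x hx j hjL2).symm
  have hjc2 : ∀ x ∈ L₂, j * x = x * j := fun x hx => hc j hjL1 x hx
  obtain ⟨-, -, hcard1⟩ := sn_iso_facts hF₁ L₁ e₁ j hj hjL1 hjc1
  obtain ⟨-, -, hcard2⟩ := sn_iso_facts hF₂ L₂ e₂ j hj hjL2 hjc2
  -- `M = L₁ ⊔ L₂` is normal in the centralizer
  have hidx : ((L₁ ⊔ L₂).subgroupOf (Subgroup.centralizer ({j} : Set G))).index = 2 := hi
  have hMn : ∀ c ∈ Subgroup.centralizer ({j} : Set G), ∀ m ∈ L₁ ⊔ L₂, c * m * c⁻¹ ∈ L₁ ⊔ L₂ := by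
    have hnormal := Subgroup.normal_of_index_eq_two hidx
    intro c hc' m hm'
    have h1 := hnormal.conj_mem ⟨m, hle hm'⟩ (Subgroup.mem_subgroupOf.mpr hm') ⟨c, hc'⟩
    exact Subgroup.mem_subgroupOf.mp h1
  have hsq : n ^ 2 ∈ L₁ ⊔ L₂ := by
    have h1 := Subgroup.sq_mem_of_index_two hidx ⟨n, hn⟩
    exact Subgroup.mem_subgroupOf.mp h1
  have hninv : n⁻¹ ∈ Subgroup.centralizer ({j} : Set G) := Subgroup.inv_mem _ hn
  have hnj : n * j = j * n := by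
    have h1 := Subgroup.mem_centralizer_iff.mp hn j (Set.mem_singleton j)
    exact h1.symm
  have hnj' : n⁻¹ * j = j * n⁻¹ := by
    have h1 := Subgroup.mem_centralizer_iff.mp hninv j (Set.mem_singleton j)
    exact h1.symm
  have hL1n : ∀ g ∈ L₁ ⊔ L₂, ∀ y ∈ L₁, g * y * g⁻¹ ∈ L₁ := by
    intro g hg y hy
    obtain ⟨a, ha, b, hb, rfl⟩ := mem_sup_comm L₁ L₂ hc g hg
    have h1 : (a * b) * y * (a * b)⁻¹ = a * y * a⁻¹ := by
      calc (a * b) * y * (a * b)⁻¹ = a * (b * y) * b⁻¹ * a⁻¹ := by group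
        _ = a * (y * b) * b⁻¹ * a⁻¹ := by rw [← hc y hy b hb]
        _ = a * y * a⁻¹ := by group
    rw [h1]
    exact L₁.mul_mem (L₁.mul_mem ha hy) (L₁.inv_mem ha)
  have hL2n : ∀ g ∈ L₁ ⊔ L₂, ∀ y ∈ L₂, g * y * g⁻¹ ∈ L₂ := by
    intro g hg y hy
    obtain ⟨a, ha, b, hb, rfl⟩ := mem_sup_comm L₁ L₂ hc g hg
    have hw : b * y * b⁻¹ ∈ L₂ := L₂.mul_mem (L₂.mul_mem hb hy) (L₂.inv_mem hb)
    have h1 : (a * b) * y * (a * b)⁻¹ = b * y * b⁻¹ := by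
      calc (a * b) * y * (a * b)⁻¹ = a * (b * y * b⁻¹) * a⁻¹ := by group
        _ = (b * y * b⁻¹) * a * a⁻¹ := by rw [hc a ha _ hw]
        _ = b * y * b⁻¹ := by group
    rw [h1]
    exact hw
  -- the two conjugates
  obtain ⟨X, hX⟩ : ∃ X : Subgroup G, X = L₁.map (MulAut.conj n).toMonoidHom := ⟨_, rfl⟩
  obtain ⟨X', hX'⟩ : ∃ X' : Subgroup G, X' = L₂.map (MulAut.conj n⁻¹).toMonoidHom := ⟨_, rfl⟩
  have hXM : X ≤ L₁ ⊔ L₂ := by
    intro y hy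
    rw [hX] at hy
    obtain ⟨x, hx, rfl⟩ := (mem_conj_map L₁ n y).mp hy
    exact hMn n hn x (Subgroup.mem_sup_left hx)
  have hX'M : X' ≤ L₁ ⊔ L₂ := by
    intro y hy
    rw [hX'] at hy
    obtain ⟨x, hx, rfl⟩ := (mem_conj_map L₂ n⁻¹ y).mp hy
    exact hMn n⁻¹ hninv x (Subgroup.mem_sup_right hx)
  have hXn : ∀ g ∈ L₁ ⊔ L₂, ∀ x ∈ X, g * x * g⁻¹ ∈ X := by
    intro g hg y hy
    rw [hX] at hy ⊢
    obtain ⟨x, hx, rfl⟩ := (mem_conj_map L₁ n y).mp hy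
    rw [mem_conj_map]
    refine ⟨(n⁻¹ * g * n⁻¹⁻¹) * x * (n⁻¹ * g * n⁻¹⁻¹)⁻¹, hL1n _ (hMn n⁻¹ hninv g hg) x hx, ?_⟩
    group
  have hX'n : ∀ g ∈ L₁ ⊔ L₂, ∀ x ∈ X', g * x * g⁻¹ ∈ X' := by
    intro g hg y hy
    rw [hX'] at hy ⊢
    obtain ⟨x, hx, rfl⟩ := (mem_conj_map L₂ n⁻¹ y).mp hy
    rw [mem_conj_map]
    refine ⟨(n * g * n⁻¹) * x * (n * g * n⁻¹)⁻¹, hL2n _ (hMn n hn g hg) x hx, ?_⟩
    group
  have hjX : j ∈ X := by
    rw [hX, mem_conj_map]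
    refine ⟨j, hjL1, ?_⟩
    rw [hnj, mul_assoc, mul_inv_cancel, mul_one]
  have hjX' : j ∈ X' := by
    rw [hX', mem_conj_map]
    refine ⟨j, hjL2, ?_⟩
    rw [hnj', mul_assoc, mul_inv_cancel, mul_one]
  have eX : ↥X ≃* Matrix.SpecialLinearGroup (Fin 2) F₁ := by
    rw [hX]
    exact (L₁.equivMapOfInjective _ (MulAut.conj n).injective).symm.trans e₁
  have eX' : ↥X' ≃* Matrix.SpecialLinearGroup (Fin 2) F₂ := by
    rw [hX']
    exact (L₂.equivMapOfInjective _ (MulAut.conj n⁻¹).injective).symm.trans e₂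
  have hmainX := main_lemma hF₁ hF₂ hF₁ L₁ L₂ e₁ e₂ hc j hj hm X eX hXM hXn hjX
  have hmainX' := main_lemma hF₁ hF₂ hF₂ L₁ L₂ e₁ e₂ hc j hj hm X' eX' hX'M hX'n hjX'
  have hcardX : Nat.card X = Nat.card L₁ := by rw [hX]; exact card_conj_map L₁ n
  have hcardX' : Nat.card X' = Nat.card L₂ := by rw [hX']; exact card_conj_map L₂ n⁻¹
  have hbig1 : 2 < Nat.card L₁ := by
    rw [hcard1]; exact card_big _ hF₁ Fintype.one_lt_card
  have hbig2 : 2 < Nat.card L₂ := by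
    rw [hcard2]; exact card_big _ hF₂ Fintype.one_lt_card
  have hnot12 : ¬ L₁ ≤ L₂ := by
    intro h
    have h1 : L₁ ≤ Subgroup.zpowers j := by rw [← hm]; exact le_inf le_rfl h
    have h2 := Subgroup.card_le_of_le h1
    rw [Nat.card_zpowers, hj] at h2
    omega
  have hnot21 : ¬ L₂ ≤ L₁ := by
    intro h
    have h1 : L₂ ≤ Subgroup.zpowers j := by rw [← hm]; exact le_inf h le_rfl
    have h2 := Subgroup.card_le_of_le h1
    rw [Nat.card_zpowers, hj] at h2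
    omega
  rw [← hX]
  rcases hmainX with hX1 | hX2
  · -- `X ≤ L₁`
    have hXeq : X = L₁ := Subgroup.eq_of_le_of_card_ge hX1 (by rw [hcardX])
    rcases hmainX' with hX'1 | hX'2
    · exfalso
      apply hnot21
      intro y hy
      have h1 : n⁻¹ * y * n⁻¹⁻¹ ∈ X' := by
        rw [hX', mem_conj_map]
        exact ⟨y, hy, rfl⟩
      have h2 : n * (n⁻¹ * y * n⁻¹⁻¹) * n⁻¹ ∈ X := by
        rw [hX, mem_conj_map]
        exact ⟨_, hX'1 h1, rfl⟩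
      have h3 : n * (n⁻¹ * y * n⁻¹⁻¹) * n⁻¹ = y := by group
      rw [h3, hXeq] at h2
      exact h2
    · left
      have hX'eq : X' = L₂ := Subgroup.eq_of_le_of_card_ge hX'2 (by rw [hcardX'])
      exact ⟨hXeq, map_conj_of_inv L₂ L₂ n (by rw [← hX']; exact hX'eq)⟩
  · -- `X ≤ L₂`
    rcases hmainX' with hX'1 | hX'2
    · right
      have hL1X' : L₁ ≤ X' := by
        intro y hy
        have h1 : n * y * n⁻¹ ∈ X := by
          rw [hX, mem_conj_map]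
          exact ⟨y, hy, rfl⟩
        have h2 : n⁻¹ * (n * y * n⁻¹) * n⁻¹⁻¹ ∈ X' := by
          rw [hX', mem_conj_map]
          exact ⟨_, hX2 h1, rfl⟩
        have h3 : n⁻¹ * (n * y * n⁻¹) * n⁻¹⁻¹ = y := by group
        rw [h3] at h2
        exact h2
      have hX'eq : X' = L₁ := le_antisymm hX'1 hL1X'
      have hcardeq : Nat.card L₁ = Nat.card L₂ := by rw [← hcardX', hX'eq]
      have hXeq : X = L₂ := Subgroup.eq_of_le_of_card_ge hX2 (by rw [hcardX, hcardeq])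
      have hFeq : Fintype.card F₁ = Fintype.card F₂ := by
        apply card_inj _ _ Fintype.card_pos Fintype.card_pos
        rw [← hcard1, ← hcard2, hcardeq]
      -- `n` maps `L₂` into `L₁`
      have hn21 : ∀ y ∈ L₂, n * y * n⁻¹ ∈ L₁ := by
        intro y hy
        rw [← hXeq, hX, mem_conj_map] at hy
        obtain ⟨x, hx, rfl⟩ := hy
        have h1 : n * (n * x * n⁻¹) * n⁻¹ = n ^ 2 * x * (n ^ 2)⁻¹ := by
          rw [pow_two]; group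
        rw [h1]
        exact hL1n _ hsq x hx
      have hn12 : ∀ x ∈ L₁, n * x * n⁻¹ ∈ L₂ := by
        intro x hx
        rw [← hXeq, hX, mem_conj_map]
        exact ⟨x, hx, rfl⟩
      obtain ⟨a, ha, b, hb, hab⟩ := mem_sup_comm L₁ L₂ hc _ hsq
      refine ⟨hXeq, hFeq, n * a⁻¹, ?_, ?_, ?_, ?_⟩
      · exact Subgroup.mul_mem _ hn (Subgroup.inv_mem _ (hle (Subgroup.mem_sup_left ha)))
      · intro h
        apply hn'
        have h1 : n = (n * a⁻¹) * a := by group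
        rw [h1]
        exact Subgroup.mul_mem _ h (Subgroup.mem_sup_left ha)
      · ext y
        rw [mem_conj_map]
        constructor
        · rintro ⟨x, hx, rfl⟩
          have h1 : n * a⁻¹ * x * (n * a⁻¹)⁻¹ = n * (a⁻¹ * x * a) * n⁻¹ := by group
          rw [h1]
          exact hn12 _ (L₁.mul_mem (L₁.mul_mem (L₁.inv_mem ha) hx) ha)
        · intro hy
          rw [← hXeq, hX, mem_conj_map] at hy
          obtain ⟨x, hx, rfl⟩ := hy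
          refine ⟨a * x * a⁻¹, L₁.mul_mem (L₁.mul_mem ha hx) (L₁.inv_mem ha), ?_⟩
          group
      · rw [← hm]
        have hL2 : (n * a⁻¹) ^ 2 ∈ L₂ := by
          have h1 : (n * a⁻¹) ^ 2 = (n * a⁻¹ * n⁻¹) * (n ^ 2) * a⁻¹ := by
            rw [pow_two, pow_two]; group
          have h2 : a * b * a⁻¹ = b := by
            rw [hc a ha b hb, mul_assoc, mul_inv_cancel, mul_one]
          rw [h1, hab, mul_assoc, h2]
          exact L₂.mul_mem (hn12 _ (L₁.inv_mem ha)) hb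
        refine ⟨?_, hL2⟩
        have h3 : (n * a⁻¹) ^ 2 = n * (a⁻¹ * (n * a⁻¹) ^ 2 * a) * n⁻¹ := by
          rw [pow_two]; group
        have h4 : a⁻¹ * (n * a⁻¹) ^ 2 * a = (n * a⁻¹) ^ 2 := by
          rw [hc a⁻¹ (L₁.inv_mem ha) _ hL2, mul_assoc, inv_mul_cancel, mul_one]
        rw [h3, h4]
        exact hn21 _ hL2
    · exfalso
      have hX'eq : X' = L₂ := Subgroup.eq_of_le_of_card_ge hX'2 (by rw [hcardX'])
      have h22 : L₂.map (MulAut.conj n).toMonoidHom = L₂ :=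
        map_conj_of_inv L₂ L₂ n (by rw [← hX']; exact hX'eq)
      apply hnot12
      intro y hy
      have h1 : n * y * n⁻¹ ∈ X := by
        rw [hX, mem_conj_map]
        exact ⟨y, hy, rfl⟩
      have h2 := hX2 h1
      rw [← h22, mem_conj_map] at h2
      obtain ⟨x, hx, hxy⟩ := h2
      have h3 : x = y := by
        have := congrArg (fun t => n⁻¹ * t * n) hxy
        simpa [mul_assoc] using this
      rw [← h3]
      exact hx

end Cfsg.Agent.S3210
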