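import Cfsg.Statements.S3213
import Mathlib
import Cfsg.Agent.Helper18.F3Mod
import Cfsg.Agent.Helper18.SL25Elt

set_option autoImplicit false
open Cfsg

namespace Cfsg.Agent.S3213

open Cfsg.Agent.Helper18 in
theorem main5 {F : Type*} [Field F] [Fintype F] (hF : Fintype.card F = 3)
    (φ : Matrix.SpecialLinearGroup (Fin 2) (ZMod 5) →* ↥(Matrix.symplecticGroup (Fin 2) F))
    (hφ : Function.Injective φ)
    (x : Matrix.SpecialLinearGroup (Fin 2) (ZMod 5)) (hx : orderOf x = 3) :
    Module.finrank F ↥(LinearMap.ker (Matrix.toLin' ((φ x : Matrix (Fin 2 ⊕ Fin 2) (Fin 2 ⊕ Fin 2) F)) - LinearMap.id)) = 2 ∧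
      ∀ v w : Fin 2 ⊕ Fin 2 → F, (φ x : Matrix (Fin 2 ⊕ Fin 2) (Fin 2 ⊕ Fin 2) F).mulVec v = v →
        (φ x : Matrix (Fin 2 ⊕ Fin 2) (Fin 2 ⊕ Fin 2) F).mulVec w = w →
          dotProduct v ((Matrix.J (Fin 2) F).mulVec w) = 0 := by
  classical
  -- the representation
  let ρ : Matrix.SpecialLinearGroup (Fin 2) (ZMod 5) → Module.End F (Fin 2 ⊕ Fin 2 → F) :=
    fun g => Matrix.toLin' (φ g : Matrix (Fin 2 ⊕ Fin 2) (Fin 2 ⊕ Fin 2) F)
  have hρmul : ∀ g h, ρ (g * h) = ρ g * ρ h := by
    intro g h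
    show Matrix.toLin' _ = Matrix.toLin' _ * Matrix.toLin' _
    rw [map_mul, Module.End.mul_eq_comp, ← Matrix.toLin'_mul]; rfl
  have hρone : ρ 1 = 1 := by
    show Matrix.toLin' _ = 1
    rw [map_one]; exact Matrix.toLin'_one
  have hρinj : Function.Injective ρ := by
    intro g h hgh
    apply hφ
    apply Subtype.ext
    exact Matrix.toLin'.injective hgh
  -- the field
  have : Fact (Nat.Prime 3) := ⟨by norm_num⟩
  have : CharP F 3 := charP_of_card_eq_prime hF
  have h3 : (3 : F) = 0 := by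
    have := CharP.cast_eq_zero F 3
    exact_mod_cast this
  have hsq : ∀ a : F, a * a ≠ -1 := by
    intro a ha
    have h1 : a ^ 3 = a := by
      have := FiniteField.pow_card a
      rwa [hF] at this
    have h2 : a ^ 3 = -a := by
      rw [pow_succ, pow_two, ha]; ring
    have h4 : a = 0 := by
      have : (2 : F) * a = 0 := by linear_combination h2 - h1
      have h2' : (2 : F) = -1 := by linear_combination h3
      rw [h2'] at this
      simpa using this
    rw [h4] at ha
    simp at ha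
  have hV : Module.finrank F (Fin 2 ⊕ Fin 2 → F) = 4 := by
    rw [Module.finrank_fintype_fun_eq_card]; simp
  -- group elements
  have hx3 : x * x * x = 1 := by
    have := pow_orderOf_eq_one x
    rw [hx] at this
    rw [← this]; simp [pow_succ]
  have hx1 : x ≠ 1 := by
    intro h
    rw [h, orderOf_one] at hx
    omega
  obtain ⟨w, hxw, hw1, hw2, hwc⟩ := SL25Elt.exists_w x hx3 hx1
  obtain ⟨y, hy5, hy1⟩ := SL25Elt.exists_y
  have hm : ρ w * ρ w = -1 := by
    rw [← hρmul]
    apply F3Mod.eq_neg_one_of_comm hF hV (ρ y) (ρ (w * w))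
    · have hρpow : ∀ n : ℕ, ρ (y ^ n) = ρ y ^ n := by
        intro n
        induction n with
        | zero => rw [pow_zero, pow_zero, hρone]
        | succ n ih => rw [pow_succ, hρmul, ih, pow_succ]
      rw [← hρpow, hy5, hρone]
    · intro h
      rw [← hρone] at h
      exact hy1 (hρinj h)
    · rw [← hρmul, hw2, hρone]
    · intro h
      rw [← hρone] at h
      exact hw1 (hρinj h)
    · rw [← hρmul, ← hρmul, hwc]
  have hu3 : ρ x * ρ x * ρ x = 1 := by rw [← hρmul, ← hρmul, hx3, hρone]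
  have hu1 : ρ x ≠ 1 := by
    intro h
    rw [← hρone] at h
    exact hx1 (hρinj h)
  have huj : ρ x * ρ w * ρ x = ρ w := by rw [← hρmul, ← hρmul, hxw]
  refine ⟨F3Mod.finrank_ker_eq_two hsq h3 hV (ρ x) (ρ w) hu3 hu1 hm huj, ?_⟩
  intro v w' hv hw'
  have hinv : ∀ g (a b : Fin 2 ⊕ Fin 2 → F),
      Matrix.toLinearMap₂' F (Matrix.J (Fin 2) F) (ρ g a) (ρ g b)
        = Matrix.toLinearMap₂' F (Matrix.J (Fin 2) F) a b := by
    intro g a b
    have hmem := (SymplecticGroup.mem_iff').mp (φ g).2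
    rw [Matrix.toLinearMap₂'_apply', Matrix.toLinearMap₂'_apply']
    show (Matrix.toLin' _ a) ⬝ᵥ (Matrix.mulVec _ (Matrix.toLin' _ b)) = _
    rw [Matrix.toLin'_apply, Matrix.toLin'_apply, Matrix.dotProduct_mulVec,
      Matrix.vecMul_mulVec, ← Matrix.dotProduct_mulVec]
    rw [Matrix.mulVec_mulVec, hmem]
  have := F3Mod.isotropic_of_invariant hsq h3 hV (ρ x) (ρ w) hu3 hu1 hm huj
    (Matrix.toLinearMap₂' F (Matrix.J (Fin 2) F)) (hinv x) (hinv w) v w'
    (by show Matrix.toLin' _ v = v; rw [Matrix.toLin'_apply]; exact hv)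
    (by show Matrix.toLin' _ w' = w'; rw [Matrix.toLin'_apply]; exact hw')
  rw [Matrix.toLinearMap₂'_apply'] at this
  exact this


/-- Let F be the field with 3 elements and K the field with 5 elements. For every injective homomorphism φ from SL₂(K) into the symplectic group Sp₄(F) (4 × 4 matrices g with g J gᵀ = J for the standard alternating matrix J) and every element x of order 3 of SL₂(K), the vectors of F⁴ fixed by φ(x) form a 2-dimensional subspace that is totally isotropic for the alternating form defined by J. -/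
theorem result {F : Type*} [Field F] [Fintype F] (hF : Fintype.card F = 3)
    {K : Type*} [Field K] [Fintype K] (hK : Fintype.card K = 5)
    (φ : Matrix.SpecialLinearGroup (Fin 2) K →* ↥(Matrix.symplecticGroup (Fin 2) F)) (hφ : Function.Injective φ)
    (x : Matrix.SpecialLinearGroup (Fin 2) K) (hx : orderOf x = 3) :
    Module.finrank F ↥(LinearMap.ker (Matrix.toLin' ((φ x : Matrix (Fin 2 ⊕ Fin 2) (Fin 2 ⊕ Fin 2) F)) - LinearMap.id)) = 2 ∧
      ∀ v w : Fin 2 ⊕ Fin 2 → F, (φ x : Matrix (Fin 2 ⊕ Fin 2) (Fin 2 ⊕ Fin 2) F).mulVec v = v →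
        (φ x : Matrix (Fin 2 ⊕ Fin 2) (Fin 2 ⊕ Fin 2) F).mulVec w = w →
          dotProduct v ((Matrix.J (Fin 2) F).mulVec w) = 0 := by
  classical
  let e : ZMod 5 ≃+* K := ZMod.ringEquivOfPrime K (by norm_num) hK
  let ψ : Matrix.SpecialLinearGroup (Fin 2) (ZMod 5) →* Matrix.SpecialLinearGroup (Fin 2) K :=
    Matrix.SpecialLinearGroup.map (e : ZMod 5 →+* K)
  have hψ : Function.Injective ψ := by
    intro g h hgh
    apply Subtype.ext
    ext i j
    have := congrFun (congrFun (congrArg Subtype.val hgh) i) j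
    simp only [ψ, Matrix.SpecialLinearGroup.map_apply_coe, RingHom.mapMatrix_apply,
      Matrix.map_apply] at this
    exact e.injective this
  let x' : Matrix.SpecialLinearGroup (Fin 2) (ZMod 5) :=
    Matrix.SpecialLinearGroup.map (e.symm : K →+* ZMod 5) x
  have hx' : ψ x' = x := by
    apply Subtype.ext
    ext i j
    simp [ψ, x']
  have hord : orderOf x' = 3 := by
    rw [← orderOf_injective ψ hψ x', hx', hx]
  have key := main5 hF (φ.comp ψ) (hφ.comp hψ) x' hord
  rw [MonoidHom.comp_apply, hx'] at key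
  exact key

end Cfsg.Agent.S3213
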