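import Cfsg.Statements.S3215
import Mathlib
import Cfsg.Agent.Helper9.PConstr
import Cfsg.Agent.Helper9.PLocal
import Cfsg.Agent.Helper9.FStar
import Cfsg.Agent.Helper18.FpfNorm
import Cfsg.Agent.Helper1.Quat

set_option autoImplicit false
open Cfsg

namespace Cfsg.Agent.S3215

open Subgroup Cfsg.Agent.Helper9 Cfsg.Agent.Helper18.FpfNorm

/-- in a centralizer with a normal 2-complement, odd-order elements commute with the elements of
a normal 2-subgroup -/
theorem comm_of_npc {H : Type*} [Group H] [Finite H]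
    (t : H) (hnpc : Cfsg.HasNormalPComplement 2 ↥(centralizer ({t} : Set H)))
    (Y : Subgroup H) [hYn : Y.Normal] (hY : IsPGroup 2 ↥Y)
    (u : H) (hu : u ∈ centralizer ({t} : Set H)) (hodd : Odd (orderOf u)) (v : H) (hvY : v ∈ Y)
    (hvC : v ∈ centralizer ({t} : Set H)) : u * v = v * u := by
  obtain ⟨P, N, hNn, hcompl⟩ := hnpc
  have hfact : Fact (Nat.Prime 2) := ⟨Nat.prime_two⟩
  have hNodd : Odd (Nat.card ↥N) := by
    rw [← hcompl.index_eq_card]
    rw [← Nat.not_even_iff_odd, even_iff_two_dvd]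
    exact P.not_dvd_index
  obtain ⟨n, hn⟩ := (IsPGroup.iff_card).mp P.isPGroup'
  have hidx : N.index = 2 ^ n := by
    rw [hcompl.symm.index_eq_card, hn]
  -- `u` lies in `N`
  have huN : (⟨u, hu⟩ : ↥(centralizer ({t} : Set H))) ∈ N := by
    rw [← QuotientGroup.eq_one_iff, ← orderOf_eq_one_iff]
    have h1 : orderOf ((⟨u, hu⟩ : ↥(centralizer ({t} : Set H))) : ↥(centralizer ({t} : Set H)) ⧸ N) ∣
        orderOf (⟨u, hu⟩ : ↥(centralizer ({t} : Set H))) :=
      orderOf_map_dvd (QuotientGroup.mk' N) _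
    have h2 : orderOf ((⟨u, hu⟩ : ↥(centralizer ({t} : Set H))) : ↥(centralizer ({t} : Set H)) ⧸ N) ∣
        2 ^ n := by
      rw [← hidx, Subgroup.index_eq_card]
      exact orderOf_dvd_natCard _
    have h3 : orderOf (⟨u, hu⟩ : ↥(centralizer ({t} : Set H))) = orderOf u :=
      Subgroup.orderOf_mk u hu
    rw [h3] at h1
    have hcop : Nat.Coprime (orderOf u) (2 ^ n) :=
      Nat.Coprime.pow_right n (Nat.Coprime.symm (Nat.coprime_two_left.mpr hodd))
    exact Nat.eq_one_of_dvd_coprimes hcop h1 h2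
  -- the commutator lies in `N` and in `Y`
  set u' : ↥(centralizer ({t} : Set H)) := ⟨u, hu⟩ with hu'
  set v' : ↥(centralizer ({t} : Set H)) := ⟨v, hvC⟩ with hv'
  have hcN : u' * (v' * u'⁻¹ * v'⁻¹) ∈ N := N.mul_mem huN (hNn.conj_mem _ (N.inv_mem huN) v')
  have hcY : u * v * u⁻¹ * v⁻¹ ∈ Y := Y.mul_mem (hYn.conj_mem v hvY u) (Y.inv_mem hvY)
  have h1 : orderOf (u' * (v' * u'⁻¹ * v'⁻¹)) ∣ Nat.card ↥N := by
    have := orderOf_dvd_natCard (⟨_, hcN⟩ : ↥N)
    rwa [Subgroup.orderOf_mk] at this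
  have h2 : orderOf (u' * (v' * u'⁻¹ * v'⁻¹)) = orderOf (u * v * u⁻¹ * v⁻¹) := by
    rw [← Subgroup.orderOf_coe]
    congr 1
    simp only [hu', hv', Subgroup.coe_mul, Subgroup.coe_inv]
    group
  obtain ⟨j, hj⟩ := (IsPGroup.iff_orderOf.mp hY) ⟨_, hcY⟩
  rw [Subgroup.orderOf_mk] at hj
  rw [h2, hj] at h1
  have h3 : 2 ^ j = 1 := by
    have hcop : Nat.Coprime (2 ^ j) (Nat.card ↥N) :=
      Nat.Coprime.pow_left j (Nat.coprime_two_left.mpr hNodd)
    exact Nat.Coprime.eq_one_of_dvd hcop h1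
  rw [h3, orderOf_eq_one_iff] at hj
  calc u * v = (u * v * u⁻¹ * v⁻¹) * (v * u) := by group
    _ = v * u := by rw [hj, one_mul]

/-- an element of order `p` in the centre of a nontrivial `p`-subgroup -/
theorem exists_central_elt {H : Type*} [Group H] [Finite H] (p : ℕ) [Fact p.Prime]
    (Y : Subgroup H) (hY : IsPGroup p ↥Y) (hY1 : Y ≠ ⊥) :
    ∃ t : H, orderOf t = p ∧ t ∈ Y ∧ ∀ y ∈ Y, t * y = y * t := by
  have hnt : Nontrivial ↥Y := (Subgroup.nontrivial_iff_ne_bot Y).mpr hY1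
  have hZnt : Nontrivial ↥(center ↥Y) := hY.center_nontrivial
  have hZp : IsPGroup p ↥(center ↥Y) := hY.to_subgroup _
  have hdvd : p ∣ Nat.card ↥(center ↥Y) := by
    rcases hZp.card_eq_or_dvd with h1 | h1
    · exact absurd h1 (by
        have := Finite.one_lt_card (α := ↥(center ↥Y))
        omega)
    · exact h1
  obtain ⟨z, hz⟩ := exists_prime_orderOf_dvd_card' p hdvd
  refine ⟨((z : ↥Y) : H), by rw [Subgroup.orderOf_coe, Subgroup.orderOf_coe, hz], (z : ↥Y).2, ?_⟩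
  intro y hy
  have := Subgroup.mem_center_iff.mp z.2 ⟨y, hy⟩
  exact (congrArg Subtype.val this).symm

theorem exists_central_invol {H : Type*} [Group H] [Finite H] (Y : Subgroup H)
    (hY : IsPGroup 2 ↥Y) (hY1 : Y ≠ ⊥) :
    ∃ t : H, orderOf t = 2 ∧ t ∈ Y ∧ ∀ y ∈ Y, t * y = y * t :=
  haveI : Fact (Nat.Prime 2) := ⟨Nat.prime_two⟩
  exists_central_elt 2 Y hY hY1

/-- odd-order elements act without fixed points on `O₂(H)` -/
theorem fpf {H : Type*} [Group H] [Finite H]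
    (hI : ∀ t : H, orderOf t = 2 → Cfsg.HasNormalPComplement 2 ↥(centralizer ({t} : Set H)))
    (hcent : centralizer (Cfsg.pCore 2 H : Set H) ≤ Cfsg.pCore 2 H)
    (x : H) (hx : Odd (orderOf x)) (hx1 : x ≠ 1) (y : H) (hy : y ∈ Cfsg.pCore 2 H) (hy1 : y ≠ 1) :
    x * y ≠ y * x := by
  intro hxy
  have hfact : Fact (Nat.Prime 2) := ⟨Nat.prime_two⟩
  have hYp : IsPGroup 2 ↥(Cfsg.pCore 2 H) := pCore_isPGroup 2
  -- an involution in `⟨y⟩`
  have hzp : IsPGroup 2 ↥(zpowers y) := hYp.to_le (zpowers_le.mpr hy)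
  have hdvd : 2 ∣ Nat.card ↥(zpowers y) := by
    rcases hzp.card_eq_or_dvd with h1 | h1
    · exfalso
      rw [Nat.card_zpowers, orderOf_eq_one_iff] at h1
      exact hy1 h1
    · exact h1
  obtain ⟨t', ht'⟩ := exists_prime_orderOf_dvd_card' 2 hdvd
  have ht : orderOf (t' : H) = 2 := by rw [Subgroup.orderOf_coe, ht']
  have htY : (t' : H) ∈ Cfsg.pCore 2 H := (zpowers_le.mpr hy) t'.2
  have hxt : x * (t' : H) = (t' : H) * x := by
    obtain ⟨k, hk⟩ := Subgroup.mem_zpowers_iff.mp t'.2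
    rw [← hk]
    exact ((Commute.zpow_right (show Commute x y from hxy) k)).eq
  have hxC : x ∈ centralizer ({(t' : H)} : Set H) := by
    rw [Subgroup.mem_centralizer_iff]
    intro g hg
    rw [Set.mem_singleton_iff.mp hg]
    exact hxt.symm
  -- a central involution of `O₂(H)`
  have hY1 : Cfsg.pCore 2 H ≠ ⊥ := by
    intro h
    rw [h, Subgroup.mem_bot] at hy
    exact hy1 hy
  obtain ⟨t₀, ht₀, ht₀Y, ht₀c⟩ := exists_central_invol (Cfsg.pCore 2 H) hYp hY1
  have h1 : x * t₀ = t₀ * x := by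
    apply comm_of_npc (t' : H) (hI _ ht) (Cfsg.pCore 2 H) hYp x hxC hx t₀ ht₀Y
    rw [Subgroup.mem_centralizer_iff]
    intro g hg
    rw [Set.mem_singleton_iff.mp hg]
    exact (ht₀c _ htY).symm
  have hxC₀ : x ∈ centralizer ({t₀} : Set H) := by
    rw [Subgroup.mem_centralizer_iff]
    intro g hg
    rw [Set.mem_singleton_iff.mp hg]
    exact h1.symm
  have h2 : x ∈ centralizer (Cfsg.pCore 2 H : Set H) := by
    rw [Subgroup.mem_centralizer_iff]
    intro v hv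
    refine (comm_of_npc t₀ (hI _ ht₀) (Cfsg.pCore 2 H) hYp x hxC₀ hx v hv ?_).symm
    rw [Subgroup.mem_centralizer_iff]
    intro g hg
    rw [Set.mem_singleton_iff.mp hg]
    exact ht₀c v hv
  have h3 := hcent h2
  obtain ⟨j, hj⟩ := (IsPGroup.iff_orderOf.mp hYp) ⟨x, h3⟩
  rw [Subgroup.orderOf_mk] at hj
  rw [hj] at hx
  have : j = 0 := by
    by_contra hj0
    have : Even (2 ^ j) := (Nat.even_pow' hj0).mpr even_two
    exact (Nat.not_even_iff_odd.mpr hx) this
  rw [this, pow_zero, orderOf_eq_one_iff] at hj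
  exact hx1 hj

/-- commuting elements of odd prime order generate a cyclic group -/
theorem mem_zpowers_of_commute {H : Type*} [Group H] [Finite H]
    (hI : ∀ t : H, orderOf t = 2 → Cfsg.HasNormalPComplement 2 ↥(centralizer ({t} : Set H)))
    (hcent : centralizer (Cfsg.pCore 2 H : Set H) ≤ Cfsg.pCore 2 H)
    (p : ℕ) (hp : p.Prime) (hp2 : p ≠ 2) (a z : H) (hcomm : a * z = z * a) (ha : a ^ p = 1)
    (hz : z ^ p = 1) (hz1 : z ≠ 1) : a ∈ zpowers z := by
  by_contra hnot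
  have hfact : Fact (Nat.Prime 2) := ⟨Nat.prime_two⟩
  have hfactp : Fact (Nat.Prime p) := ⟨hp⟩
  have hYp : IsPGroup 2 ↥(Cfsg.pCore 2 H) := pCore_isPGroup 2
  have hY1 : Cfsg.pCore 2 H ≠ ⊥ := by
    intro h
    rw [h] at hcent
    have : z ∈ (⊥ : Subgroup H) := hcent (by
      rw [Subgroup.mem_centralizer_iff]
      intro g hg
      rw [Subgroup.coe_bot, Set.mem_singleton_iff] at hg
      rw [hg, one_mul, mul_one])
    exact hz1 (Subgroup.mem_bot.mp this)
  -- the abelian normal subgroup `V = Z(O₂(H))`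
  set V : Subgroup H := Cfsg.pCore 2 H ⊓ centralizer (Cfsg.pCore 2 H : Set H) with hV
  have hVn : V.Normal := inferInstance
  have hVle : V ≤ Cfsg.pCore 2 H := inf_le_left
  let _ : CommGroup ↥V :=
    { (inferInstance : Group ↥V) with
      mul_comm := fun v w => Subtype.ext
        (Subgroup.mem_centralizer_iff.mp (inf_le_right (a := Cfsg.pCore 2 H) w.2) v.1
          (hVle v.2)) }
  -- odd order of the relevant elements
  have hoddp : Odd p := hp.odd_of_ne_two hp2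
  have hfix : ∀ g : H, g ^ p = 1 → g ≠ 1 → ∀ v : ↥V, (MulAut.conjNormal g) v = v → v = 1 := by
    intro g hg hg1 v hv
    by_contra hv1
    have hgo : orderOf g = p := orderOf_eq_prime hg hg1
    have h1 : g * (v : H) * g⁻¹ = (v : H) := by
      have := congrArg Subtype.val hv
      rwa [MulAut.conjNormal_apply] at this
    have h2 : g * (v : H) = (v : H) * g := by
      calc g * (v : H) = (g * (v : H) * g⁻¹) * g := by group
        _ = (v : H) * g := by rw [h1]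
    exact fpf hI hcent g (by rw [hgo]; exact hoddp) hg1 (v : H) (hVle v.2)
      (fun h => hv1 (Subtype.ext h)) h2
  have hc : Commute a z := hcomm
  have key : ∀ v : ↥V, v ^ p = 1 := by
    intro v
    apply pow_eq_one_of_fpf p hp (MulAut.conjNormal a) (MulAut.conjNormal z)
    · rw [← map_mul, ← map_mul, hcomm]
    · rw [← map_pow, ha, map_one]
    · rw [← map_pow, hz, map_one]
    · intro k w hw
      rw [← map_pow, ← map_mul] at hw
      apply hfix (a * z ^ k) _ _ w hw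
      · rw [(hc.pow_right k).mul_pow, ha, ← pow_mul, mul_comm, pow_mul, hz, one_pow, one_mul]
      · intro h
        apply hnot
        have : a = (z ^ k)⁻¹ := eq_inv_of_mul_eq_one_left h
        rw [this]
        exact (zpowers z).inv_mem (Subgroup.pow_mem _ (Subgroup.mem_zpowers z) k)
    · intro w hw
      exact hfix z hz hz1 w hw
  -- but `V` is a nontrivial 2-group
  obtain ⟨t₀, ht₀, ht₀Y, ht₀c⟩ := exists_central_invol (Cfsg.pCore 2 H) hYp hY1
  have ht₀V : t₀ ∈ V := by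
    refine Subgroup.mem_inf.mpr ⟨ht₀Y, ?_⟩
    rw [Subgroup.mem_centralizer_iff]
    intro y hy
    exact (ht₀c y hy).symm
  have h1 := key ⟨t₀, ht₀V⟩
  have h2 : t₀ ^ p = 1 := congrArg Subtype.val h1
  have h3 : orderOf t₀ ∣ p := orderOf_dvd_of_pow_eq_one h2
  rw [ht₀] at h3
  exact hp2 ((Nat.prime_dvd_prime_iff_eq Nat.prime_two hp).mp h3).symm

theorem centralizer_pCore_le {H : Type*} [Group H] [Finite H] (hsol : Group.IsSolvable H)
    (hO : Cfsg.oddCore H = ⊥) : centralizer (Cfsg.pCore 2 H : Set H) ≤ Cfsg.pCore 2 H := by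
  have hfact : Fact (Nat.Prime 2) := ⟨Nat.prime_two⟩
  have hlayer : Cfsg.layer H = ⊥ := by
    rw [eq_bot_iff]
    apply sSup_le
    intro K hK
    exfalso
    exact quasi_not_solvable hK.2 inferInstance
  exact (layer_eq_bot_iff_centralizer_pCore_le 2 hO).mp hlayer

theorem pCore_quot_eq_bot {G : Type*} [Group G] [Finite G] (p : ℕ) [Fact p.Prime] :
    Cfsg.pCore p (G ⧸ Cfsg.pCore p G) = ⊥ := by
  have hp1 : IsPGroup p ↥((Cfsg.pCore p (G ⧸ Cfsg.pCore p G)).comap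
      (QuotientGroup.mk' (Cfsg.pCore p G))) := by
    apply IsPGroup.comap_of_ker_isPGroup (pCore_isPGroup p)
    rw [QuotientGroup.ker_mk']
    exact pCore_isPGroup p
  have hle := le_pCore (Subgroup.Normal.comap inferInstance _) hp1
  rw [eq_bot_iff]
  intro q hq
  obtain ⟨g, rfl⟩ := QuotientGroup.mk'_surjective _ q
  have : g ∈ Cfsg.pCore p G := hle hq
  rw [Subgroup.mem_bot]
  exact (QuotientGroup.eq_one_iff g).mpr this

/-- a normal subgroup of odd order lies in every subgroup of 2-power index -/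
theorem le_of_index_two_pow {G : Type*} [Group G] [Finite G] (K N : Subgroup G) [N.Normal]
    (k : ℕ) (hK : K.index = 2 ^ k) (hN : Odd (Nat.card ↥N)) : N ≤ K := by
  have h1 : Nat.card ↥(K ⊔ N) ∣ Nat.card ↥K * Nat.card ↥N := card_sup_dvd K N
  have h2 : K.relIndex (K ⊔ N) * Nat.card ↥K = Nat.card ↥(K ⊔ N) := by
    have e1 := Subgroup.card_mul_index (K ⊔ N)
    have e2 := Subgroup.card_mul_index K
    have e3 := Subgroup.relIndex_mul_index (le_sup_left : K ≤ K ⊔ N)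
    have hpos : 0 < (K ⊔ N).index := Nat.pos_of_ne_zero Subgroup.index_ne_zero_of_finite
    apply Nat.eq_of_mul_eq_mul_right hpos
    rw [e1, ← e2, ← e3]; ring
  have h3 : K.relIndex (K ⊔ N) ∣ Nat.card ↥N := by
    rw [← h2, mul_comm (Nat.card ↥K)] at h1
    exact Nat.dvd_of_mul_dvd_mul_right Nat.card_pos h1
  have h4 : K.relIndex (K ⊔ N) ∣ 2 ^ k := by
    rw [← hK, ← Subgroup.relIndex_mul_index (le_sup_left : K ≤ K ⊔ N)]
    exact dvd_mul_right _ _
  have h5 : K.relIndex (K ⊔ N) = 1 := by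
    have hcop : Nat.Coprime (Nat.card ↥N) (2 ^ k) :=
      Nat.Coprime.pow_right k (Nat.Coprime.symm (Nat.coprime_two_left.mpr hN))
    exact Nat.eq_one_of_dvd_coprimes hcop h3 h4
  exact le_sup_right.trans (Subgroup.relIndex_eq_one.mp h5)

/-- the commutator subgroup centralizes every cyclic normal subgroup -/
theorem commutator_le_centralizer_of_cyclic {G : Type*} [Group G] (R : Subgroup G)
    [hR : R.Normal] [hc : IsCyclic ↥R] : commutator G ≤ centralizer (R : Set G) := by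
  obtain ⟨g, hg⟩ := IsCyclic.exists_generator (α := ↥R)
  have hconj : ∀ h : G, ∃ m : ℤ, h * (g : G) * h⁻¹ = (g : G) ^ m := by
    intro h
    obtain ⟨m, hm⟩ := Subgroup.mem_zpowers_iff.mp (hg ⟨h * (g : G) * h⁻¹, hR.conj_mem _ g.2 h⟩)
    refine ⟨m, ?_⟩
    have := congrArg Subtype.val hm
    simpa using this.symm
  have hswap : ∀ h₁ h₂ : G, (h₁ * h₂) * (g : G) * (h₁ * h₂)⁻¹ = (h₂ * h₁) * (g : G) * (h₂ * h₁)⁻¹ := by
    intro h₁ h₂
    obtain ⟨m₁, hm₁⟩ := hconj h₁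
    obtain ⟨m₂, hm₂⟩ := hconj h₂
    have e1 : (h₁ * h₂) * (g : G) * (h₁ * h₂)⁻¹ = h₁ * (h₂ * (g : G) * h₂⁻¹) * h₁⁻¹ := by group
    have e2 : (h₂ * h₁) * (g : G) * (h₂ * h₁)⁻¹ = h₂ * (h₁ * (g : G) * h₁⁻¹) * h₂⁻¹ := by group
    rw [e1, e2, hm₂, hm₁, ← conj_zpow, ← conj_zpow, hm₁, hm₂, ← zpow_mul, ← zpow_mul, mul_comm]
  rw [commutator_eq_closure, Subgroup.closure_le]
  rintro c ⟨h₁, h₂, rfl⟩
  rw [commutatorElement_def]
  have hcg : (h₁ * h₂ * h₁⁻¹ * h₂⁻¹) * (g : G) = (g : G) * (h₁ * h₂ * h₁⁻¹ * h₂⁻¹) := by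
    have h1 := hswap h₁⁻¹ h₂⁻¹
    have e : (h₁ * h₂ * h₁⁻¹ * h₂⁻¹) * (g : G) * (h₁ * h₂ * h₁⁻¹ * h₂⁻¹)⁻¹ =
        (h₁ * h₂) * ((h₁⁻¹ * h₂⁻¹) * (g : G) * (h₁⁻¹ * h₂⁻¹)⁻¹) * (h₁ * h₂)⁻¹ := by group
    have e2 : (h₁ * h₂) * ((h₂⁻¹ * h₁⁻¹) * (g : G) * (h₂⁻¹ * h₁⁻¹)⁻¹) * (h₁ * h₂)⁻¹ = (g : G) := by
      group
    rw [h1, e2] at e
    calc (h₁ * h₂ * h₁⁻¹ * h₂⁻¹) * (g : G)
        = ((h₁ * h₂ * h₁⁻¹ * h₂⁻¹) * (g : G) * (h₁ * h₂ * h₁⁻¹ * h₂⁻¹)⁻¹) *
          (h₁ * h₂ * h₁⁻¹ * h₂⁻¹) := by group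
      _ = (g : G) * (h₁ * h₂ * h₁⁻¹ * h₂⁻¹) := by rw [e]
  rw [SetLike.mem_coe, Subgroup.mem_centralizer_iff]
  intro y hy
  obtain ⟨m, hm⟩ := Subgroup.mem_zpowers_iff.mp (hg ⟨y, hy⟩)
  have hy' : y = (g : G) ^ m := by
    have := congrArg Subtype.val hm
    simpa using this.symm
  rw [hy']
  exact ((Commute.zpow_right (show Commute (h₁ * h₂ * h₁⁻¹ * h₂⁻¹) (g : G) from hcg) m)).eq.symm

/-- elements of a subgroup of odd order lying in `O₂(H)` are trivial -/
theorem eq_one_of_mem_of_mem {H : Type*} [Group H] [Finite H] (X : Subgroup H)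
    (hXodd : Odd (Nat.card X)) (g : H) (hgX : g ∈ X) (hgY : g ∈ Cfsg.pCore 2 H) : g = 1 := by
  have h1 : orderOf g ∣ Nat.card ↥X := by
    have := orderOf_dvd_natCard (⟨g, hgX⟩ : ↥X)
    rwa [Subgroup.orderOf_mk] at this
  obtain ⟨j, hj⟩ := (IsPGroup.iff_orderOf.mp (pCore_isPGroup (G := H) 2)) ⟨g, hgY⟩
  rw [Subgroup.orderOf_mk] at hj
  rw [hj] at h1
  have h3 : 2 ^ j = 1 := by
    have hcop : Nat.Coprime (2 ^ j) (Nat.card ↥X) :=
      Nat.Coprime.pow_left j (Nat.coprime_two_left.mpr hXodd)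
    exact Nat.Coprime.eq_one_of_dvd hcop h1
  rwa [h3, orderOf_eq_one_iff] at hj

/-- the commuting-elements property, in the quotient by `O₂(H)`, for images of `X` -/
theorem quot_mem_zpowers {H : Type*} [Group H] [Finite H]
    (hI : ∀ t : H, orderOf t = 2 → Cfsg.HasNormalPComplement 2 ↥(centralizer ({t} : Set H)))
    (hcent : centralizer (Cfsg.pCore 2 H : Set H) ≤ Cfsg.pCore 2 H)
    (X : Subgroup H) (hXodd : Odd (Nat.card X))
    (r : ℕ) (hr : r.Prime) (hr2 : r ≠ 2) (a z : H ⧸ Cfsg.pCore 2 H)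
    (haX : a ∈ X.map (QuotientGroup.mk' (Cfsg.pCore 2 H)))
    (hzX : z ∈ X.map (QuotientGroup.mk' (Cfsg.pCore 2 H)))
    (hcomm : a * z = z * a) (ha : a ^ r = 1) (hz : z ^ r = 1) (hz1 : z ≠ 1) :
    a ∈ zpowers z := by
  obtain ⟨a₀, ha₀, rfl⟩ := haX
  obtain ⟨z₀, hz₀, rfl⟩ := hzX
  have hXY := eq_one_of_mem_of_mem X hXodd
  have hc : a₀ * z₀ = z₀ * a₀ := by
    have h1 : a₀ * z₀ * a₀⁻¹ * z₀⁻¹ ∈ X :=
      X.mul_mem (X.mul_mem (X.mul_mem ha₀ hz₀) (X.inv_mem ha₀)) (X.inv_mem hz₀)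
    have h2 : a₀ * z₀ * a₀⁻¹ * z₀⁻¹ ∈ Cfsg.pCore 2 H := by
      rw [← QuotientGroup.eq_one_iff, ← QuotientGroup.mk'_apply, map_mul, map_mul, map_mul,
        map_inv, map_inv, hcomm]
      group
    have h3 := hXY _ h1 h2
    calc a₀ * z₀ = (a₀ * z₀ * a₀⁻¹ * z₀⁻¹) * (z₀ * a₀) := by group
      _ = z₀ * a₀ := by rw [h3, one_mul]
  have ha' : a₀ ^ r = 1 := by
    apply hXY _ (X.pow_mem ha₀ r)
    rw [← QuotientGroup.eq_one_iff, ← QuotientGroup.mk'_apply, map_pow]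
    exact ha
  have hz' : z₀ ^ r = 1 := by
    apply hXY _ (X.pow_mem hz₀ r)
    rw [← QuotientGroup.eq_one_iff, ← QuotientGroup.mk'_apply, map_pow]
    exact hz
  have hz1' : z₀ ≠ 1 := by
    intro h
    apply hz1
    rw [h, map_one]
  have key := mem_zpowers_of_commute hI hcent r hr hr2 a₀ z₀ hc ha' hz' hz1'
  obtain ⟨k, hk⟩ := Subgroup.mem_zpowers_iff.mp key
  rw [Subgroup.mem_zpowers_iff]
  exact ⟨k, by rw [← hk, map_zpow]⟩

/-- the derived subgroup of `H / O₂(H)` lies in the image of the Hall subgroup -/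
theorem commutator_le_map {H : Type*} [Group H] [Finite H] (hsol : Group.IsSolvable H)
    (hI : ∀ t : H, orderOf t = 2 → Cfsg.HasNormalPComplement 2 ↥(centralizer ({t} : Set H)))
    (hcent : centralizer (Cfsg.pCore 2 H : Set H) ≤ Cfsg.pCore 2 H)
    (X : Subgroup H) (hXodd : Odd (Nat.card X)) (hXidx : ∃ k : ℕ, X.index = 2 ^ k) :
    commutator (H ⧸ Cfsg.pCore 2 H) ≤ X.map (QuotientGroup.mk' (Cfsg.pCore 2 H)) ∧
    Cfsg.fittingSubgroup (H ⧸ Cfsg.pCore 2 H) ≤ X.map (QuotientGroup.mk' (Cfsg.pCore 2 H)) ∧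
    centralizer (Cfsg.fittingSubgroup (H ⧸ Cfsg.pCore 2 H) : Set (H ⧸ Cfsg.pCore 2 H)) ≤
      Cfsg.fittingSubgroup (H ⧸ Cfsg.pCore 2 H) := by
  have hfact : Fact (Nat.Prime 2) := ⟨Nat.prime_two⟩
  obtain ⟨k, hk⟩ := hXidx
  -- the index of the image is a power of two
  have hidx : ∃ k' : ℕ, (X.map (QuotientGroup.mk' (Cfsg.pCore 2 H))).index = 2 ^ k' := by
    have h1 : (X.map (QuotientGroup.mk' (Cfsg.pCore 2 H))).index ∣ X.index :=
      Subgroup.index_map_dvd X (QuotientGroup.mk'_surjective _)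
    rw [hk] at h1
    obtain ⟨k', _, hk'⟩ := (Nat.dvd_prime_pow Nat.prime_two).mp h1
    exact ⟨k', hk'⟩
  obtain ⟨k', hk'⟩ := hidx
  -- the `r`-cores
  have hcore : ∀ r : ℕ, r.Prime → r ≠ 2 →
      Cfsg.pCore r (H ⧸ Cfsg.pCore 2 H) ≤ X.map (QuotientGroup.mk' (Cfsg.pCore 2 H)) := by
    intro r hr hr2
    have : Fact r.Prime := ⟨hr⟩
    apply le_of_index_two_pow _ _ k' hk'
    obtain ⟨n, hn⟩ := (IsPGroup.iff_card).mp (pCore_isPGroup (G := H ⧸ Cfsg.pCore 2 H) r)
    rw [hn]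
    exact (hr.odd_of_ne_two hr2).pow
  have hfit : Cfsg.fittingSubgroup (H ⧸ Cfsg.pCore 2 H) ≤
      X.map (QuotientGroup.mk' (Cfsg.pCore 2 H)) := by
    rw [fitting_eq_iSup_pCore]
    apply iSup_le
    intro r
    by_cases hr2 : (r : ℕ) = 2
    · rw [hr2, pCore_quot_eq_bot]
      exact bot_le
    · exact hcore r r.2 hr2
  have hcyc : ∀ r : ℕ, r.Prime → r ≠ 2 → IsCyclic ↥(Cfsg.pCore r (H ⧸ Cfsg.pCore 2 H)) := by
    intro r hr hr2
    have : Fact r.Prime := ⟨hr⟩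
    apply isCyclic_of_commuting r hr2 (pCore_isPGroup r)
    intro a z hcomm ha hz hz1
    have key := quot_mem_zpowers hI hcent X hXodd r hr hr2 (a : H ⧸ Cfsg.pCore 2 H)
      (z : H ⧸ Cfsg.pCore 2 H) (hcore r hr hr2 a.2) (hcore r hr hr2 z.2)
      (congrArg Subtype.val hcomm) (congrArg Subtype.val ha) (congrArg Subtype.val hz)
      (fun h => hz1 (Subtype.ext h))
    obtain ⟨m, hm⟩ := Subgroup.mem_zpowers_iff.mp key
    rw [Subgroup.mem_zpowers_iff]
    exact ⟨m, Subtype.ext (by simpa using hm)⟩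
  have hcc : commutator (H ⧸ Cfsg.pCore 2 H) ≤
      centralizer (Cfsg.fittingSubgroup (H ⧸ Cfsg.pCore 2 H) : Set (H ⧸ Cfsg.pCore 2 H)) := by
    rw [fitting_eq_iSup_pCore, Subgroup.le_centralizer_iff]
    apply iSup_le
    intro r
    rw [← Subgroup.le_centralizer_iff]
    by_cases hr2 : (r : ℕ) = 2
    · rw [hr2, pCore_quot_eq_bot]
      intro c _
      rw [Subgroup.mem_centralizer_iff]
      intro y hy
      rw [Subgroup.coe_bot, Set.mem_singleton_iff] at hy
      rw [hy, one_mul, mul_one]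
    · have := hcyc r r.2 hr2
      exact commutator_le_centralizer_of_cyclic _
  have hcf : centralizer (Cfsg.fittingSubgroup (H ⧸ Cfsg.pCore 2 H) : Set (H ⧸ Cfsg.pCore 2 H)) ≤
      Cfsg.fittingSubgroup (H ⧸ Cfsg.pCore 2 H) := by
    have hlayer : Cfsg.layer (H ⧸ Cfsg.pCore 2 H) = ⊥ := by
      rw [eq_bot_iff]
      apply sSup_le
      intro K hK
      exfalso
      exact quasi_not_solvable hK.2 inferInstance
    have h1 := centralizer_genFitting_le (G := H ⧸ Cfsg.pCore 2 H)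
    unfold Cfsg.generalizedFittingSubgroup at h1
    rw [hlayer, bot_sup_eq] at h1
    exact h1
  exact ⟨hcc.trans (hcf.trans hfit), hfit, hcf⟩

/-- an involution-like element fixes a nonidentity element of a nontrivial normal 2-subgroup -/
theorem exists_fixed {H : Type*} [Group H] [Finite H] (Y : Subgroup H) [hYn : Y.Normal]
    (hY : IsPGroup 2 ↥Y) (hY1 : Y ≠ ⊥) (u : H) (hu : u * u = 1) :
    ∃ v ∈ Y, v ≠ 1 ∧ u * v = v * u := by
  obtain ⟨z, hz, hzY, hzc⟩ := exists_central_invol Y hY hY1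
  have hz2 : z * z = 1 := by
    have := pow_orderOf_eq_one z
    rwa [hz, pow_two] at this
  have hz1 : z ≠ 1 := by
    intro h
    rw [h, orderOf_one] at hz
    omega
  have huinv : u⁻¹ = u := inv_eq_of_mul_eq_one_left hu
  by_cases hc : u * z * u⁻¹ = z
  · refine ⟨z, hzY, hz1, ?_⟩
    calc u * z = (u * z * u⁻¹) * u := by group
      _ = z * u := by rw [hc]
  · have hconjY : u * z * u⁻¹ ∈ Y := hYn.conj_mem z hzY u
    refine ⟨z * (u * z * u⁻¹), Y.mul_mem hzY hconjY, ?_, ?_⟩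
    · intro h
      apply hc
      have : u * z * u⁻¹ = z⁻¹ := eq_inv_of_mul_eq_one_right h
      rw [this]
      exact inv_eq_of_mul_eq_one_left hz2
    · have e1 : u * (z * (u * z * u⁻¹)) = (u * z * u⁻¹) * (u * u) * z * u⁻¹ := by group
      have e2 : (u * z * u⁻¹) * z = z * (u * z * u⁻¹) := (hzc _ hconjY).symm
      rw [e1, hu, mul_one, e2, huinv]

/-- no element of even order commutes with a nonidentity element of odd order -/
theorem no_even_comm {H : Type*} [Group H] [Finite H]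
    (hI : ∀ t : H, orderOf t = 2 → Cfsg.HasNormalPComplement 2 ↥(centralizer ({t} : Set H)))
    (hcent : centralizer (Cfsg.pCore 2 H : Set H) ≤ Cfsg.pCore 2 H)
    (hY1 : Cfsg.pCore 2 H ≠ ⊥)
    (w : H) (hw : Even (orderOf w)) (x₀ : H) (hx₀ : Odd (orderOf x₀)) (hx₀1 : x₀ ≠ 1)
    (hcomm : w * x₀ = x₀ * w) : False := by
  have hfact : Fact (Nat.Prime 2) := ⟨Nat.prime_two⟩
  have hYp : IsPGroup 2 ↥(Cfsg.pCore 2 H) := pCore_isPGroup 2
  have hpos : orderOf w ≠ 0 := (orderOf_pos w).ne'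
  have h2 : orderOf (w ^ (orderOf w / 2)) = 2 :=
    orderOf_pow_orderOf_div hpos (even_iff_two_dvd.mp hw)
  set u := w ^ (orderOf w / 2) with hu
  have hu2 : u * u = 1 := by
    have := pow_orderOf_eq_one u
    rwa [h2, pow_two] at this
  have hux : u * x₀ = x₀ * u := ((show Commute w x₀ from hcomm).pow_left _).eq
  obtain ⟨v, hvY, hv1, huv⟩ := exists_fixed (Cfsg.pCore 2 H) hYp hY1 u hu2
  have hxC : x₀ ∈ centralizer ({u} : Set H) := by
    rw [Subgroup.mem_centralizer_iff]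
    intro g hg
    rw [Set.mem_singleton_iff.mp hg]
    exact hux
  have hvC : v ∈ centralizer ({u} : Set H) := by
    rw [Subgroup.mem_centralizer_iff]
    intro g hg
    rw [Set.mem_singleton_iff.mp hg]
    exact huv
  have h3 := comm_of_npc u (hI u h2) (Cfsg.pCore 2 H) hYp x₀ hxC hx₀ v hvY hvC
  exact fpf hI hcent x₀ hx₀ hx₀1 v hvY hv1 h3

/-- an element of `H / O₂(H)` of odd prime order is not centralized by the image of an element
all of whose lifts have even order -/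
theorem no_lift_comm {H : Type*} [Group H] [Finite H]
    (hI : ∀ t : H, orderOf t = 2 → Cfsg.HasNormalPComplement 2 ↥(centralizer ({t} : Set H)))
    (hcent : centralizer (Cfsg.pCore 2 H : Set H) ≤ Cfsg.pCore 2 H)
    (r : ℕ) (hr : r.Prime) (hr2 : r ≠ 2) (xb : H ⧸ Cfsg.pCore 2 H) (hxb : orderOf xb = r)
    (w : H) (hcomm : (QuotientGroup.mk' (Cfsg.pCore 2 H) w) * xb =
      xb * (QuotientGroup.mk' (Cfsg.pCore 2 H) w))
    (hw : ∀ w₁ : H, QuotientGroup.mk' (Cfsg.pCore 2 H) w₁ = QuotientGroup.mk' (Cfsg.pCore 2 H) w →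
      Even (orderOf w₁)) : False := by
  have hfact : Fact (Nat.Prime 2) := ⟨Nat.prime_two⟩
  have hfactr : Fact (Nat.Prime r) := ⟨hr⟩
  have hYp : IsPGroup 2 ↥(Cfsg.pCore 2 H) := pCore_isPGroup 2
  obtain ⟨e, he⟩ := (IsPGroup.iff_card).mp hYp
  obtain ⟨g, rfl⟩ := QuotientGroup.mk'_surjective _ xb
  have hcop : Nat.Coprime (2 ^ e) r :=
    Nat.Coprime.pow_left e ((Nat.coprime_primes Nat.prime_two hr).mpr (Ne.symm hr2))
  -- the lift of order `r`
  have hgr : g ^ r ∈ Cfsg.pCore 2 H := by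
    rw [← QuotientGroup.eq_one_iff, ← QuotientGroup.mk'_apply, map_pow, ← hxb]
    exact pow_orderOf_eq_one _
  have hx₀r : (g ^ 2 ^ e) ^ r = 1 := by
    rw [← pow_mul, mul_comm, pow_mul]
    have := pow_card_eq_one' (G := ↥(Cfsg.pCore 2 H)) (x := ⟨g ^ r, hgr⟩)
    rw [he] at this
    exact congrArg Subtype.val this
  have hx₀1 : g ^ 2 ^ e ≠ 1 := by
    intro h
    have h1 : (QuotientGroup.mk' (Cfsg.pCore 2 H) g) ^ 2 ^ e = 1 := by
      rw [← map_pow, h, map_one]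
    have h2 := orderOf_dvd_of_pow_eq_one h1
    rw [hxb] at h2
    have h3 : r = 1 := Nat.eq_one_of_dvd_coprimes hcop.symm (dvd_refl r) h2
    exact hr.one_lt.ne' h3
  have hx₀o : orderOf (g ^ 2 ^ e) = r := orderOf_eq_prime hx₀r hx₀1
  have hP : IsPGroup r ↥(zpowers (g ^ 2 ^ e)) := isPGroup_zpowers_of_pow_eq_one r _ hx₀r
  have hYc : (Nat.card ↥(Cfsg.pCore 2 H)).Coprime r := by rw [he]; exact hcop
  have hmem : QuotientGroup.mk' (Cfsg.pCore 2 H) w ∈
      centralizer (((zpowers (g ^ 2 ^ e)).map (QuotientGroup.mk' (Cfsg.pCore 2 H)) :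
        Subgroup (H ⧸ Cfsg.pCore 2 H)) : Set (H ⧸ Cfsg.pCore 2 H)) := by
    rw [Subgroup.mem_centralizer_iff]
    rintro _ ⟨y, hy, rfl⟩
    obtain ⟨m, rfl⟩ := Subgroup.mem_zpowers_iff.mp hy
    rw [map_zpow, map_pow]
    have hc : Commute (QuotientGroup.mk' (Cfsg.pCore 2 H) w) (QuotientGroup.mk' (Cfsg.pCore 2 H) g) :=
      hcomm
    exact (((hc.pow_right (2 ^ e)).zpow_right m)).eq.symm
  obtain ⟨w₁, hw₁, hw₁w⟩ := Subgroup.mem_map.mp
    (centralizer_map_le_map_centralizer r (Cfsg.pCore 2 H) hYc (zpowers (g ^ 2 ^ e)) hP hmem)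
  have hY1 : Cfsg.pCore 2 H ≠ ⊥ := by
    intro h
    rw [h] at hcent
    have : g ^ 2 ^ e ∈ (⊥ : Subgroup H) := hcent (by
      rw [Subgroup.mem_centralizer_iff]
      intro y hy
      rw [Subgroup.coe_bot, Set.mem_singleton_iff] at hy
      rw [hy, one_mul, mul_one])
    exact hx₀1 (Subgroup.mem_bot.mp this)
  refine no_even_comm hI hcent hY1 w₁ (hw w₁ hw₁w) (g ^ 2 ^ e) ?_ hx₀1 ?_
  · rw [hx₀o]; exact hr.odd_of_ne_two hr2
  · exact (Subgroup.mem_centralizer_iff.mp hw₁ _ (Subgroup.mem_zpowers _)).symm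

/-- an involution acts on a normal subgroup of prime order trivially or by inversion -/
theorem conj_eq_or_inv {G : Type*} [Group G] (r : ℕ) (hr : r.Prime) (x u : G)
    (hx : orderOf x = r) (hu : u * u = 1) (hconj : u * x * u⁻¹ ∈ zpowers x) :
    u * x * u⁻¹ = x ∨ u * x * u⁻¹ = x⁻¹ := by
  have hfactr : Fact (Nat.Prime r) := ⟨hr⟩
  have hfin : IsOfFinOrder x := by
    rw [← orderOf_pos_iff, hx]; exact hr.pos
  obtain ⟨m, hm⟩ := (hfin.mem_powers_iff_mem_zpowers).mpr hconj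
  have hm' : x ^ m = u * x * u⁻¹ := hm
  have huinv : u⁻¹ = u := inv_eq_of_mul_eq_one_left hu
  have h1 : x ^ (m * m) = x ^ 1 := by
    rw [pow_one, pow_mul, hm', conj_pow, hm']
    rw [huinv]
    calc u * (u * x * u) * u = (u * u) * x * (u * u) := by group
      _ = x := by rw [hu, one_mul, mul_one]
  rw [pow_eq_pow_iff_modEq, hx] at h1
  have h2 : ((m : ZMod r) - 1) * ((m : ZMod r) + 1) = 0 := by
    have := (ZMod.natCast_eq_natCast_iff (m * m) 1 r).mpr h1
    push_cast at this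
    linear_combination this
  rcases mul_eq_zero.mp h2 with h3 | h3
  · left
    rw [← hm']
    have h4 : (m : ZMod r) = ((1 : ℕ) : ZMod r) := by
      push_cast; linear_combination h3
    have h5 := (ZMod.natCast_eq_natCast_iff m 1 r).mp h4
    rw [← hx] at h5
    have := pow_eq_pow_iff_modEq.mpr h5
    rwa [pow_one] at this
  · right
    rw [← hm']
    have h4 : ((m + 1 : ℕ) : ZMod r) = 0 := by
      push_cast; exact h3
    have h5 := (ZMod.natCast_eq_zero_iff (m + 1) r).mp h4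
    rw [← hx] at h5
    have h6 := orderOf_dvd_iff_pow_eq_one.mp h5
    rw [pow_succ] at h6
    exact eq_inv_of_mul_eq_one_left h6

/-- Let H be a finite solvable group with no nontrivial normal subgroup of odd order in which the centralizer of every involution has a normal 2-complement. Let X be a Hall 2'-subgroup of H (odd order, index a power of 2) and Y = O₂(H). Then no non-identity element of X commutes with a non-identity element of Y (so for X ≠ 1 the group XY is a Frobenius group with kernel Y), every Sylow subgroup of X is cyclic, XY is normal in H, and H/XY is a cyclic 2-group. -/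
theorem result {H : Type*} [Group H] [Finite H] (hsol : Group.IsSolvable H)
    (hO : Cfsg.oddCore H = ⊥)
    (hI : ∀ t : H, orderOf t = 2 → Cfsg.HasNormalPComplement 2 ↥(Subgroup.centralizer ({t} : Set H)))
    (X : Subgroup H) (hXodd : Odd (Nat.card X)) (hXidx : ∃ k : ℕ, X.index = 2 ^ k) :
    (∀ x ∈ X, x ≠ 1 → ∀ y ∈ Cfsg.pCore 2 H, y ≠ 1 → x * y ≠ y * x) ∧
      (∀ (p : ℕ) [Fact p.Prime] (P : Sylow p ↥X), IsCyclic ↥(P : Subgroup ↥X)) ∧
      (X ⊔ Cfsg.pCore 2 H).Normal ∧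
      ∀ hN : (X ⊔ Cfsg.pCore 2 H).Normal, IsCyclic (H ⧸ (X ⊔ Cfsg.pCore 2 H)) ∧ IsPGroup 2 (H ⧸ (X ⊔ Cfsg.pCore 2 H)) := by
  have hfact : Fact (Nat.Prime 2) := ⟨Nat.prime_two⟩
  have hcent := centralizer_pCore_le hsol hO
  have hXo : ∀ x ∈ X, Odd (orderOf x) := by
    intro x hx
    have := orderOf_dvd_natCard (⟨x, hx⟩ : ↥X)
    rw [Subgroup.orderOf_mk] at this
    exact Odd.of_dvd_nat hXodd this
  obtain ⟨hcomm, hfit, hcf⟩ := commutator_le_map hsol hI hcent X hXodd hXidx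
  have hXbn : (X.map (QuotientGroup.mk' (Cfsg.pCore 2 H))).Normal := by
    constructor
    intro n hn g
    have h1 : g * n * g⁻¹ * n⁻¹ ∈ commutator (H ⧸ Cfsg.pCore 2 H) := by
      rw [commutator_def]
      exact Subgroup.commutator_mem_commutator (Subgroup.mem_top g) (Subgroup.mem_top n)
    have h2 := Subgroup.mul_mem _ (hcomm h1) hn
    have e : g * n * g⁻¹ * n⁻¹ * n = g * n * g⁻¹ := by group
    rwa [e] at h2
  have hsup : X ⊔ Cfsg.pCore 2 H = (X.map (QuotientGroup.mk' (Cfsg.pCore 2 H))).comap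
      (QuotientGroup.mk' (Cfsg.pCore 2 H)) := by
    rw [Subgroup.comap_map_eq, QuotientGroup.ker_mk']
  have hnormal : (X ⊔ Cfsg.pCore 2 H).Normal := by
    rw [hsup]; exact Subgroup.Normal.comap hXbn _
  refine ⟨?_, ?_, hnormal, ?_⟩
  · intro x hx hx1 y hy hy1
    exact fpf hI hcent x (hXo x hx) hx1 y hy hy1
  · intro p hpf P
    by_cases hp2 : p = 2
    · subst hp2
      have hc1 : Nat.card ↥(P : Subgroup ↥X) = 1 := by
        obtain ⟨n, hn⟩ := (IsPGroup.iff_card).mp P.isPGroup'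
        have hdvd : Nat.card ↥(P : Subgroup ↥X) ∣ Nat.card ↥X := Subgroup.card_subgroup_dvd_card _
        rw [hn] at hdvd ⊢
        have hcop : Nat.Coprime (2 ^ n) (Nat.card ↥X) :=
          Nat.Coprime.pow_left n (Nat.coprime_two_left.mpr hXodd)
        exact Nat.Coprime.eq_one_of_dvd hcop hdvd
      have : Subsingleton ↥(P : Subgroup ↥X) := (Nat.card_eq_one_iff_unique.mp hc1).1
      exact isCyclic_of_subsingleton
    · apply isCyclic_of_commuting p hp2 P.isPGroup'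
      intro a z hc ha hz hz1
      have key := mem_zpowers_of_commute hI hcent p hpf.out hp2 ((a : ↥X) : H) ((z : ↥X) : H)
        (congrArg (fun t : ↥(P : Subgroup ↥X) => ((t : ↥X) : H)) hc)
        (congrArg (fun t : ↥(P : Subgroup ↥X) => ((t : ↥X) : H)) ha)
        (congrArg (fun t : ↥(P : Subgroup ↥X) => ((t : ↥X) : H)) hz)
        (fun h => hz1 (Subtype.ext (Subtype.ext h)))
      obtain ⟨m, hm⟩ := Subgroup.mem_zpowers_iff.mp key
      rw [Subgroup.mem_zpowers_iff]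
      exact ⟨m, Subtype.ext (Subtype.ext (by simpa using hm))⟩
  · intro hN
    have hQ2 : IsPGroup 2 (H ⧸ (X ⊔ Cfsg.pCore 2 H)) := by
      obtain ⟨k, hk⟩ := hXidx
      have h1 : (X ⊔ Cfsg.pCore 2 H).index ∣ 2 ^ k := by
        rw [← hk]; exact Subgroup.index_dvd_of_le le_sup_left
      obtain ⟨j, _, hj⟩ := (Nat.dvd_prime_pow Nat.prime_two).mp h1
      exact IsPGroup.of_card (n := j) (by rw [← Subgroup.index_eq_card]; exact hj)
    refine ⟨?_, hQ2⟩
    have hQcomm : ∀ a b : H ⧸ (X ⊔ Cfsg.pCore 2 H), a * b = b * a := by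
      intro a b
      obtain ⟨a, rfl⟩ := QuotientGroup.mk'_surjective _ a
      obtain ⟨b, rfl⟩ := QuotientGroup.mk'_surjective _ b
      have h1 : a * b * a⁻¹ * b⁻¹ ∈ X ⊔ Cfsg.pCore 2 H := by
        rw [hsup, Subgroup.mem_comap]
        apply hcomm
        rw [map_mul, map_mul, map_mul, map_inv, map_inv, commutator_def]
        exact Subgroup.commutator_mem_commutator (Subgroup.mem_top _) (Subgroup.mem_top _)
      have h2 := (QuotientGroup.eq_one_iff _).mpr h1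
      rw [← QuotientGroup.mk'_apply, map_mul, map_mul, map_mul, map_inv, map_inv] at h2
      calc QuotientGroup.mk' (X ⊔ Cfsg.pCore 2 H) a * QuotientGroup.mk' (X ⊔ Cfsg.pCore 2 H) b
          = (QuotientGroup.mk' (X ⊔ Cfsg.pCore 2 H) a * QuotientGroup.mk' (X ⊔ Cfsg.pCore 2 H) b *
              (QuotientGroup.mk' (X ⊔ Cfsg.pCore 2 H) a)⁻¹ *
              (QuotientGroup.mk' (X ⊔ Cfsg.pCore 2 H) b)⁻¹) *
            (QuotientGroup.mk' (X ⊔ Cfsg.pCore 2 H) b * QuotientGroup.mk' (X ⊔ Cfsg.pCore 2 H) a) := by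
            group
        _ = QuotientGroup.mk' (X ⊔ Cfsg.pCore 2 H) b * QuotientGroup.mk' (X ⊔ Cfsg.pCore 2 H) a := by
            rw [h2, one_mul]
    have hoddmem : ∀ h : H, Odd (orderOf h) → h ∈ X ⊔ Cfsg.pCore 2 H := by
      intro h hh
      rw [← QuotientGroup.eq_one_iff, ← orderOf_eq_one_iff]
      have h1 : orderOf (h : H ⧸ (X ⊔ Cfsg.pCore 2 H)) ∣ orderOf h :=
        orderOf_map_dvd (QuotientGroup.mk' _) h
      obtain ⟨j, hj⟩ := (IsPGroup.iff_orderOf.mp hQ2) (h : H ⧸ (X ⊔ Cfsg.pCore 2 H))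
      rw [hj] at h1 ⊢
      have hcop : Nat.Coprime (2 ^ j) (orderOf h) :=
        Nat.Coprime.pow_left j (Nat.coprime_two_left.mpr hh)
      exact Nat.Coprime.eq_one_of_dvd hcop h1
    apply Cfsg.Agent.Helper1.abelian_unique_cyclic 2 hQ2 _ hQcomm
    intro A B hA hB
    by_contra hAB
    have hgen : ∀ A : Subgroup (H ⧸ (X ⊔ Cfsg.pCore 2 H)), Nat.card A = 2 →
        ∃ q : H ⧸ (X ⊔ Cfsg.pCore 2 H), q ≠ 1 ∧ q * q = 1 ∧ A = zpowers q := by
      intro A hA
      have hnt : Nontrivial ↥A := by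
        rw [← Finite.one_lt_card_iff_nontrivial, hA]; norm_num
      obtain ⟨q, hq⟩ := exists_ne (1 : ↥A)
      have hq2 : (q : H ⧸ (X ⊔ Cfsg.pCore 2 H)) ^ 2 = 1 := by
        have := pow_card_eq_one' (G := ↥A) (x := q)
        rw [hA] at this
        exact congrArg Subtype.val this
      have hq1 : (q : H ⧸ (X ⊔ Cfsg.pCore 2 H)) ≠ 1 := fun h => hq (Subtype.ext h)
      refine ⟨q, hq1, by rwa [pow_two] at hq2, ?_⟩
      symm
      apply Subgroup.eq_of_le_of_card_ge (zpowers_le.mpr q.2)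
      rw [hA, Nat.card_zpowers, orderOf_eq_prime hq2 hq1]
    obtain ⟨q₁, hq₁1, hq₁2, hAq⟩ := hgen A hA
    obtain ⟨q₂, hq₂1, hq₂2, hBq⟩ := hgen B hB
    have hq12 : q₁ ≠ q₂ := by
      rintro rfl
      exact hAB (hAq.trans hBq.symm)
    -- the Fitting subgroup of the quotient is nontrivial
    have hFne : Cfsg.fittingSubgroup (H ⧸ Cfsg.pCore 2 H) ≠ ⊥ := by
      intro hF
      rw [hF] at hcf
      obtain ⟨h, rfl⟩ := QuotientGroup.mk'_surjective _ q₁
      apply hq₁1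
      have h1 : (QuotientGroup.mk' (Cfsg.pCore 2 H) h) ∈ (⊥ : Subgroup (H ⧸ Cfsg.pCore 2 H)) :=
        hcf (by
          rw [Subgroup.mem_centralizer_iff]
          intro y hy
          rw [Subgroup.coe_bot, Set.mem_singleton_iff] at hy
          rw [hy, one_mul, mul_one])
      rw [Subgroup.mem_bot, QuotientGroup.mk'_apply, QuotientGroup.eq_one_iff] at h1
      rw [QuotientGroup.mk'_apply]
      exact (QuotientGroup.eq_one_iff _).mpr (le_sup_right (a := X) h1)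
    obtain ⟨r, hrne⟩ : ∃ r : Nat.Primes, Cfsg.pCore (r : ℕ) (H ⧸ Cfsg.pCore 2 H) ≠ ⊥ := by
      by_contra hcon
      push Not at hcon
      apply hFne
      rw [fitting_eq_iSup_pCore]
      simp [hcon]
    have hr2 : (r : ℕ) ≠ 2 := by
      intro h
      rw [h, pCore_quot_eq_bot] at hrne
      exact hrne rfl
    have hfr : Fact (r : ℕ).Prime := ⟨r.2⟩
    obtain ⟨xb, hxb, hxbR, hxbc⟩ := exists_central_elt (r : ℕ)
      (Cfsg.pCore (r : ℕ) (H ⧸ Cfsg.pCore 2 H)) (pCore_isPGroup _) hrne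
    have hRX : Cfsg.pCore (r : ℕ) (H ⧸ Cfsg.pCore 2 H) ≤
        X.map (QuotientGroup.mk' (Cfsg.pCore 2 H)) := (pCore_le_fitting (r : ℕ)).trans hfit
    have hxbr : xb ^ (r : ℕ) = 1 := by rw [← hxb]; exact pow_orderOf_eq_one xb
    have hxb1 : xb ≠ 1 := by
      intro h
      rw [h, orderOf_one] at hxb
      exact r.2.one_lt.ne hxb
    have hxnorm : ∀ g : H ⧸ Cfsg.pCore 2 H, g * xb * g⁻¹ ∈ zpowers xb := by
      intro g
      have hgR : g * xb * g⁻¹ ∈ Cfsg.pCore (r : ℕ) (H ⧸ Cfsg.pCore 2 H) :=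
        (Cfsg.pCore_normal _ _).conj_mem xb hxbR g
      apply quot_mem_zpowers hI hcent X hXodd (r : ℕ) r.2 hr2 _ _ (hRX hgR) (hRX hxbR) _ _ hxbr hxb1
      · exact (hxbc _ hgR).symm
      · rw [conj_pow, hxbr]; group
    -- involutory lifts
    have hlift : ∀ q : H ⧸ (X ⊔ Cfsg.pCore 2 H), q * q = 1 →
        ∃ u : H, (QuotientGroup.mk' (X ⊔ Cfsg.pCore 2 H) u) = q ∧
          (QuotientGroup.mk' (Cfsg.pCore 2 H) u) * (QuotientGroup.mk' (Cfsg.pCore 2 H) u) = 1 := by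
      intro q hq
      obtain ⟨h, rfl⟩ := QuotientGroup.mk'_surjective _ q
      obtain ⟨e, m, hm, hn⟩ := Nat.exists_eq_two_pow_mul_odd
        (orderOf_pos (QuotientGroup.mk' (Cfsg.pCore 2 H) h)).ne'
      obtain ⟨j, rfl⟩ := hm
      refine ⟨h ^ (2 * j + 1), ?_, ?_⟩
      · rw [map_pow, pow_succ, pow_mul, pow_two, hq, one_pow, one_mul]
      · set wb := QuotientGroup.mk' (Cfsg.pCore 2 H) (h ^ (2 * j + 1)) with hwb
        have h1 : wb ^ 2 ^ e = 1 := by
          rw [hwb, map_pow, ← pow_mul, mul_comm, ← hn]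
          exact pow_orderOf_eq_one _
        have h2 : wb * wb ∈ X.map (QuotientGroup.mk' (Cfsg.pCore 2 H)) := by
          have h3 : h ^ (2 * j + 1) * h ^ (2 * j + 1) ∈ X ⊔ Cfsg.pCore 2 H := by
            rw [← QuotientGroup.eq_one_iff, ← QuotientGroup.mk'_apply, map_mul, map_pow]
            rw [pow_succ, pow_mul, pow_two, hq, one_pow, one_mul, hq]
          rw [hsup, Subgroup.mem_comap, map_mul] at h3
          exact h3
        have h4 : orderOf (wb * wb) ∣ 2 ^ e := by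
          apply orderOf_dvd_of_pow_eq_one
          rw [← pow_two, ← pow_mul, mul_comm, pow_mul, h1, one_pow]
        have h5 : orderOf (wb * wb) ∣
            Nat.card ↥(X.map (QuotientGroup.mk' (Cfsg.pCore 2 H))) := by
          have := orderOf_dvd_natCard
            (⟨_, h2⟩ : ↥(X.map (QuotientGroup.mk' (Cfsg.pCore 2 H))))
          rwa [Subgroup.orderOf_mk] at this
        have h6 : Odd (Nat.card ↥(X.map (QuotientGroup.mk' (Cfsg.pCore 2 H)))) :=
          Odd.of_dvd_nat hXodd (Subgroup.card_map_dvd X _)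
        have hcop : Nat.Coprime (2 ^ e)
            (Nat.card ↥(X.map (QuotientGroup.mk' (Cfsg.pCore 2 H)))) :=
          Nat.Coprime.pow_left e (Nat.coprime_two_left.mpr h6)
        exact orderOf_eq_one_iff.mp (Nat.eq_one_of_dvd_coprimes hcop h4 h5)
    obtain ⟨u₁, hu₁q, hu₁2⟩ := hlift q₁ hq₁2
    obtain ⟨u₂, hu₂q, hu₂2⟩ := hlift q₂ hq₂2
    have hexw : ∃ w : H, (QuotientGroup.mk' (Cfsg.pCore 2 H) w) * xb =
        xb * (QuotientGroup.mk' (Cfsg.pCore 2 H) w) ∧
        QuotientGroup.mk' (X ⊔ Cfsg.pCore 2 H) w ≠ 1 := by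
      rcases conj_eq_or_inv (r : ℕ) r.2 xb _ hxb hu₁2 (hxnorm _) with h1 | h1
      · refine ⟨u₁, ?_, by rw [hu₁q]; exact hq₁1⟩
        calc QuotientGroup.mk' (Cfsg.pCore 2 H) u₁ * xb
            = (QuotientGroup.mk' (Cfsg.pCore 2 H) u₁ * xb *
                (QuotientGroup.mk' (Cfsg.pCore 2 H) u₁)⁻¹) *
              QuotientGroup.mk' (Cfsg.pCore 2 H) u₁ := by group
          _ = xb * QuotientGroup.mk' (Cfsg.pCore 2 H) u₁ := by rw [h1]
      · rcases conj_eq_or_inv (r : ℕ) r.2 xb _ hxb hu₂2 (hxnorm _) with h2 | h2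
        · refine ⟨u₂, ?_, by rw [hu₂q]; exact hq₂1⟩
          calc QuotientGroup.mk' (Cfsg.pCore 2 H) u₂ * xb
              = (QuotientGroup.mk' (Cfsg.pCore 2 H) u₂ * xb *
                  (QuotientGroup.mk' (Cfsg.pCore 2 H) u₂)⁻¹) *
                QuotientGroup.mk' (Cfsg.pCore 2 H) u₂ := by group
            _ = xb * QuotientGroup.mk' (Cfsg.pCore 2 H) u₂ := by rw [h2]
        · refine ⟨u₁ * u₂, ?_, ?_⟩
          · rw [map_mul]
            have e : (QuotientGroup.mk' (Cfsg.pCore 2 H) u₁ * QuotientGroup.mk' (Cfsg.pCore 2 H) u₂) *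
                xb * (QuotientGroup.mk' (Cfsg.pCore 2 H) u₁ *
                  QuotientGroup.mk' (Cfsg.pCore 2 H) u₂)⁻¹ = xb := by
              calc (QuotientGroup.mk' (Cfsg.pCore 2 H) u₁ * QuotientGroup.mk' (Cfsg.pCore 2 H) u₂) *
                    xb * (QuotientGroup.mk' (Cfsg.pCore 2 H) u₁ *
                      QuotientGroup.mk' (Cfsg.pCore 2 H) u₂)⁻¹
                  = QuotientGroup.mk' (Cfsg.pCore 2 H) u₁ *
                    (QuotientGroup.mk' (Cfsg.pCore 2 H) u₂ * xb *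
                      (QuotientGroup.mk' (Cfsg.pCore 2 H) u₂)⁻¹) *
                    (QuotientGroup.mk' (Cfsg.pCore 2 H) u₁)⁻¹ := by group
                _ = QuotientGroup.mk' (Cfsg.pCore 2 H) u₁ * xb⁻¹ *
                    (QuotientGroup.mk' (Cfsg.pCore 2 H) u₁)⁻¹ := by rw [h2]
                _ = (QuotientGroup.mk' (Cfsg.pCore 2 H) u₁ * xb *
                    (QuotientGroup.mk' (Cfsg.pCore 2 H) u₁)⁻¹)⁻¹ := by group
                _ = xb := by rw [h1, inv_inv]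
            calc (QuotientGroup.mk' (Cfsg.pCore 2 H) u₁ * QuotientGroup.mk' (Cfsg.pCore 2 H) u₂) * xb
                = ((QuotientGroup.mk' (Cfsg.pCore 2 H) u₁ * QuotientGroup.mk' (Cfsg.pCore 2 H) u₂) *
                    xb * (QuotientGroup.mk' (Cfsg.pCore 2 H) u₁ *
                      QuotientGroup.mk' (Cfsg.pCore 2 H) u₂)⁻¹) *
                  (QuotientGroup.mk' (Cfsg.pCore 2 H) u₁ *
                    QuotientGroup.mk' (Cfsg.pCore 2 H) u₂) := by group
              _ = xb * (QuotientGroup.mk' (Cfsg.pCore 2 H) u₁ *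
                    QuotientGroup.mk' (Cfsg.pCore 2 H) u₂) := by rw [e]
          · rw [map_mul, hu₁q, hu₂q]
            intro h
            apply hq12
            have : q₁ = q₂⁻¹ := eq_inv_of_mul_eq_one_left h
            rw [this]
            exact inv_eq_of_mul_eq_one_left hq₂2
    obtain ⟨w, hwx, hwq⟩ := hexw
    apply no_lift_comm hI hcent (r : ℕ) r.2 hr2 xb hxb w hwx
    intro w₁ hw₁
    by_contra hev
    rw [Nat.not_even_iff_odd] at hev
    have h1 := hoddmem w₁ hev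
    apply hwq
    have h2 : w₁⁻¹ * w ∈ Cfsg.pCore 2 H := by
      rw [← QuotientGroup.eq_one_iff, ← QuotientGroup.mk'_apply, map_mul, map_inv, hw₁]
      group
    have h3 : w ∈ X ⊔ Cfsg.pCore 2 H := by
      have := Subgroup.mul_mem _ h1 (le_sup_right (a := X) h2)
      rwa [mul_inv_cancel_left] at this
    rw [QuotientGroup.mk'_apply]
    exact (QuotientGroup.eq_one_iff _).mpr h3

end Cfsg.Agent.S3215
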