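import Cfsg.Statements.S3224
import Mathlib
import Cfsg.Agent.S0112
import Cfsg.Agent.S0113
import Cfsg.Agent.Helper8.QDLift
import Cfsg.Agent.Helper24.MaxClassDihedral

set_option autoImplicit false
open Cfsg

namespace Cfsg.Agent.S3224

theorem mem_cent_single {G : Type*} [Group G] {x g : G} :
    g ∈ Subgroup.centralizer ({x} : Set G) ↔ x * g = g * x := by
  rw [Subgroup.mem_centralizer_iff]
  constructor
  · intro h; exact h x rfl
  · intro h y hy; rw [Set.mem_singleton_iff.1 hy]; exact h

theorem invol_zpowers {G : Type*} [Group G] [Finite G] {c : G} {j : ℕ}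
    (hc : orderOf c = 2 ^ (j + 1)) {u : G}
    (hu : u ∈ Subgroup.zpowers c) (hu2 : u * u = 1) : u = 1 ∨ u = c ^ (2 ^ j) := by
  obtain ⟨i, rfl⟩ := (Submonoid.mem_powers_iff _ _).1 (mem_powers_iff_mem_zpowers.2 hu)
  have h1 : c ^ (2 * i) = 1 := by rw [two_mul, pow_add]; exact hu2
  have h2 : 2 ^ (j + 1) ∣ 2 * i := by rw [← hc]; exact orderOf_dvd_of_pow_eq_one h1
  have h2' : 2 * 2 ^ j ∣ 2 * i := by rw [← pow_succ']; exact h2
  have h3 : 2 ^ j ∣ i := Nat.dvd_of_mul_dvd_mul_left (by norm_num) h2'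
  obtain ⟨s, rfl⟩ := h3
  rw [pow_mul]
  have he : (c ^ 2 ^ j) ^ 2 = 1 := by
    rw [← pow_mul, ← pow_succ, ← hc]; exact pow_orderOf_eq_one c
  rcases Nat.even_or_odd' s with ⟨t, rfl | rfl⟩
  · left; rw [pow_mul, he, one_pow]
  · right; rw [pow_succ, pow_mul, he, one_pow, one_mul]

/-- A finite 2-group containing an involution whose centralizer has order 4 is dihedral, quasi-dihedral (semidihedral), or of order 4. -/
theorem result {S : Type*} [Group S] [Finite S] (hS : IsPGroup 2 S)
    (x : S) (hx : orderOf x = 2) (hC : Nat.card ↥(Subgroup.centralizer ({x} : Set S)) = 4) :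
    (∃ n : ℕ, Nonempty (S ≃* DihedralGroup n)) ∨ Cfsg.IsQuasiDihedral S ∨ Nat.card S = 4 := by
  classical
  have h2 : Fact (Nat.Prime 2) := ⟨Nat.prime_two⟩
  obtain ⟨n, hn⟩ := IsPGroup.iff_card.1 hS
  obtain ⟨A, hAdef⟩ : ∃ A, A = Subgroup.centralizer ({x} : Set S) := ⟨_, rfl⟩
  rw [← hAdef] at hC
  have hAmem : ∀ g, g ∈ A ↔ x * g = g * x := by intro g; rw [hAdef]; exact mem_cent_single
  have hxA : x ∈ A := (hAmem x).2 rfl
  have hxx : x * x = 1 := by rw [← pow_two, ← hx]; exact pow_orderOf_eq_one x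
  have hx1 : x ≠ 1 := by
    intro h; rw [h, orderOf_one] at hx; norm_num at hx
  have hxi : x⁻¹ = x := inv_eq_of_mul_eq_one_left hxx
  have hle : 4 ≤ 2 ^ n := by
    rw [← hn, ← hC]; exact Subgroup.card_le_card_group A
  by_cases hn3 : n < 3
  · right; right
    rw [hn]
    interval_cases n
    · norm_num at hle
    · norm_num at hle
    · norm_num
  push Not at hn3
  have hAcomm : ∀ a b : A, a * b = b * a :=
    isMulCommutative_iff.1
      (IsPGroup.isMulCommutative_of_card_eq_prime_sq (p := 2) (by rw [hC]; norm_num))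
  have hCA : Subgroup.centralizer (A : Set S) = A := by
    ext g
    rw [Subgroup.mem_centralizer_iff]
    constructor
    · intro hg
      exact (hAmem g).2 (hg x hxA)
    · intro hg a ha
      exact congrArg Subtype.val (hAcomm ⟨a, ha⟩ ⟨g, hg⟩)
  have hclass := Cfsg.Agent.S0112.result (p := 2) n hn A (by rw [hC]; norm_num) hCA
  obtain ⟨C, hCcyc, hCidx⟩ := Cfsg.Agent.S0113.result n hn3 hn hclass
  obtain ⟨c, hc⟩ := (Subgroup.isCyclic_iff_exists_zpowers_eq_top C).1 hCcyc
  have hCcard : Nat.card C * 2 = 2 ^ n := by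
    have e := Subgroup.card_mul_index C
    rw [hCidx, hn] at e; exact e
  obtain ⟨j, rfl⟩ : ∃ j, n = j + 2 := ⟨n - 2, by omega⟩
  have hCcard' : Nat.card C = 2 ^ (j + 1) := by
    have e : Nat.card C * 2 = 2 ^ (j + 1) * 2 := by rw [hCcard]; ring
    exact Nat.eq_of_mul_eq_mul_right (by norm_num) e
  have hcord : orderOf c = 2 ^ (j + 1) := by rw [← Nat.card_zpowers, hc, hCcard']
  have hCn : C.Normal := Subgroup.normal_of_index_eq_two hCidx
  obtain ⟨e, hedef⟩ : ∃ e, e = c ^ (2 ^ j) := ⟨_, rfl⟩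
  have hcC : c ∈ C := by rw [← hc]; exact Subgroup.mem_zpowers c
  have heC : e ∈ C := by rw [hedef]; exact pow_mem hcC _
  have hee : e * e = 1 := by
    rw [hedef, ← pow_add, ← two_mul, ← pow_succ', ← hcord]; exact pow_orderOf_eq_one c
  have he1 : e ≠ 1 := by
    rw [hedef]
    intro h
    have h3 := orderOf_dvd_of_pow_eq_one h
    rw [hcord] at h3
    have h4 := Nat.le_of_dvd (by positivity) h3
    rw [pow_succ] at h4
    have h5 : 0 < 2 ^ j := by positivity
    omega
  have hinv : ∀ u ∈ C, u * u = 1 → u = 1 ∨ u = e := by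
    intro u hu hu2
    rw [← hc] at hu
    rw [hedef]
    exact invol_zpowers hcord hu hu2
  have hec : e * c = c * e := by rw [hedef]; exact (Commute.pow_self c _).eq
  have hecent : ∀ g : S, g * e = e * g := by
    intro g
    have h1 : g * e * g⁻¹ ∈ C := hCn.conj_mem e heC g
    have h2 : (g * e * g⁻¹) * (g * e * g⁻¹) = 1 := by
      calc (g * e * g⁻¹) * (g * e * g⁻¹) = g * (e * e) * g⁻¹ := by group
        _ = 1 := by rw [hee]; group
    rcases hinv _ h1 h2 with h3 | h3
    · exfalso
      apply he1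
      calc e = g⁻¹ * (g * e * g⁻¹) * g := by group
        _ = 1 := by rw [h3]; group
    · calc g * e = (g * e * g⁻¹) * g := by group
        _ = e * g := by rw [h3]
  have hj1 : 1 ≤ j := by omega
  have hxC : x ∉ C := by
    intro hxC
    rcases hinv x hxC hxx with h | h
    · exact hx1 h
    · have hAtop : A = ⊤ := by
        rw [eq_top_iff]
        intro g _
        rw [hAmem, h]
        exact (hecent g).symm
      rw [hAtop, Subgroup.card_top, hn] at hC
      have h5 : 2 ^ (j + 2) = 4 * 2 ^ j := by ring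
      have h6 : 2 ≤ 2 ^ j := by
        calc 2 = 2 ^ 1 := by norm_num
          _ ≤ 2 ^ j := Nat.pow_le_pow_right (by norm_num) hj1
      omega
  obtain ⟨d, hddef⟩ : ∃ d, d = x * c * x⁻¹ := ⟨_, rfl⟩
  have hdC : d ∈ C := by rw [hddef]; exact hCn.conj_mem c hcC x
  have hdz : d ∈ Subgroup.zpowers c := by rw [hc]; exact hdC
  obtain ⟨r, hr⟩ := (Submonoid.mem_powers_iff _ _).1 (mem_powers_iff_mem_zpowers.2 hdz)
  have hr2 : r ^ 2 ≡ 1 [MOD 2 ^ (j + 1)] := by
    have h1 : c ^ (r ^ 2) = c ^ 1 := by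
      rw [pow_one, pow_two, pow_mul, hr, hddef, conj_pow, hr, hddef]
      rw [hxi]
      calc x * (x * c * x) * x = (x * x) * c * (x * x) := by group
        _ = c := by rw [hxx]; group
    rw [pow_eq_pow_iff_modEq, hcord] at h1
    exact h1
  have hcd : c * d = d * c := by rw [← hr]; exact (Commute.pow_self c r).eq.symm
  have hd_cases : d = c ∨ d = e * c ∨ d = c⁻¹ ∨ d = e * c⁻¹ := by
    rcases Cfsg.Agent.Helper24.two_pow_dvd_of_sq_modEq_one hr2 with h | h
    · have h1 : c ^ (2 * r) = c ^ 2 := by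
        rw [pow_eq_pow_iff_modEq, hcord, pow_succ']
        exact Nat.ModEq.mul_left' 2 h
      have h2 : (d * c⁻¹) * (d * c⁻¹) = 1 := by
        have hdd : d * d = c * c := by
          rw [← hr, ← pow_add, ← two_mul, h1, pow_two]
        have hcd' : c⁻¹ * d = d * c⁻¹ := by
          calc c⁻¹ * d = c⁻¹ * (d * c) * c⁻¹ := by group
            _ = c⁻¹ * (c * d) * c⁻¹ := by rw [hcd]
            _ = d * c⁻¹ := by group
        calc (d * c⁻¹) * (d * c⁻¹) = d * (c⁻¹ * d) * c⁻¹ := by group
          _ = d * (d * c⁻¹) * c⁻¹ := by rw [hcd']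
          _ = (d * d) * c⁻¹ * c⁻¹ := by group
          _ = 1 := by rw [hdd]; group
      rcases hinv _ (mul_mem hdC (inv_mem hcC)) h2 with h3 | h3
      · left
        calc d = (d * c⁻¹) * c := by group
          _ = c := by rw [h3, one_mul]
      · right; left
        calc d = (d * c⁻¹) * c := by group
          _ = e * c := by rw [h3]
    · have h1 : c ^ (2 * (r + 1)) = 1 := by
        apply orderOf_dvd_iff_pow_eq_one.1
        rw [hcord, pow_succ']
        exact Nat.mul_dvd_mul_left 2 h
      have h2 : (d * c) * (d * c) = 1 := by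
        rw [← hr, ← pow_succ, ← pow_add, ← two_mul]; exact h1
      rcases hinv _ (mul_mem hdC hcC) h2 with h3 | h3
      · right; right; left
        calc d = (d * c) * c⁻¹ := by group
          _ = c⁻¹ := by rw [h3, one_mul]
      · right; right; right
        calc d = (d * c) * c⁻¹ := by group
          _ = e * c⁻¹ := by rw [h3]
  have hcase1 : d = c → False := by
    intro h
    have hcA : c ∈ A := by
      rw [hAmem]
      calc x * c = (x * c * x⁻¹) * x := by group
        _ = c * x := by rw [← hddef, h]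
    have hCA' : C ≤ A := by rw [← hc]; exact Subgroup.zpowers_le.2 hcA
    have h3 : C = A := Subgroup.eq_of_le_of_card_ge hCA' (by
      rw [hC, hCcard']
      calc 4 = 2 ^ 2 := by norm_num
        _ ≤ 2 ^ (j + 1) := Nat.pow_le_pow_right (by norm_num) (by omega))
    exact hxC (by rw [h3]; exact hxA)
  have hcase3 : d = c⁻¹ → ∃ n : ℕ, Nonempty (S ≃* DihedralGroup n) := by
    intro h
    have hab : x * c * x⁻¹ = c⁻¹ := by rw [← hddef, h]
    have hcm : c ^ (2 ^ (j + 1)) = 1 := by rw [← hcord]; exact pow_orderOf_eq_one c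
    have hxz : x ∉ Subgroup.zpowers c := by rw [hc]; exact hxC
    have hinj : Function.Injective (Cfsg.Agent.Helper8.dihLift (2 ^ (j + 1)) c hcm x hxx hab) :=
      Cfsg.Agent.Helper8.dihLift_injective (2 ^ (j + 1)) c hcm x hxx hab hcord hxz
    have hbij : Function.Bijective (Cfsg.Agent.Helper8.dihLift (2 ^ (j + 1)) c hcm x hxx hab) := by
      apply Function.Injective.bijective_of_nat_card_le hinj
      rw [hn, DihedralGroup.nat_card]
      exact le_of_eq (by ring)
    exact ⟨2 ^ (j + 1), ⟨(MulEquiv.ofBijective _ hbij).symm⟩⟩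
  have hcase4 : 2 ≤ j → d = e * c⁻¹ → Cfsg.IsQuasiDihedral S := by
    intro hj h
    refine ⟨j + 1, by omega, hn, c, x, hcord, hx, ?_⟩
    rw [← hddef, h, hedef]
    have e1 : j + 1 - 1 = j := by omega
    rw [e1]
    have hpos : 1 ≤ 2 ^ j := Nat.one_le_two_pow
    have e2 : c ^ (2 ^ j - 1) * c = c ^ (2 ^ j) := by
      rw [← pow_succ, Nat.sub_add_cancel hpos]
    rw [← e2]; group
  have hcase2 : 2 ≤ j → d = e * c → False := by
    intro hj h
    have hc2 : x * (c ^ 2) * x⁻¹ = c ^ 2 := by
      rw [← conj_pow, ← hddef, h, pow_two, pow_two]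
      calc e * c * (e * c) = e * (c * e) * c := by group
        _ = e * (e * c) * c := by rw [hec]
        _ = (e * e) * (c * c) := by group
        _ = c * c := by rw [hee, one_mul]
    have hc2A : c ^ 2 ∈ A := by
      rw [hAmem]
      calc x * c ^ 2 = (x * c ^ 2 * x⁻¹) * x := by group
        _ = c ^ 2 * x := by rw [hc2]
    have hle' : Subgroup.zpowers (c ^ 2) ≤ A := Subgroup.zpowers_le.2 hc2A
    have hord2 : orderOf (c ^ 2) = 2 ^ j := by
      rw [orderOf_pow_of_dvd (by norm_num) (by rw [hcord, pow_succ]; exact dvd_mul_left 2 _),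
        hcord, pow_succ, Nat.mul_div_cancel _ (by norm_num)]
    have h3 : Subgroup.zpowers (c ^ 2) = A := Subgroup.eq_of_le_of_card_ge hle' (by
      rw [hC, Nat.card_zpowers, hord2]
      calc 4 = 2 ^ 2 := by norm_num
        _ ≤ 2 ^ j := Nat.pow_le_pow_right (by norm_num) hj)
    have hxz : x ∈ Subgroup.zpowers (c ^ 2) := by rw [h3]; exact hxA
    exact hxC ((Subgroup.zpowers_le.2 (pow_mem hcC 2)) hxz)
  rcases hd_cases with h | h | h | h
  · exact (hcase1 h).elim
  · by_cases hj : 2 ≤ j
    · exact (hcase2 hj h).elim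
    · have hj1' : j = 1 := by omega
      left
      apply hcase3
      rw [h, hedef, hj1', pow_one]
      have hc4 : c ^ 4 = 1 := by
        have h5 := pow_orderOf_eq_one c
        rw [hcord, hj1'] at h5
        exact h5
      rw [eq_inv_iff_mul_eq_one]
      calc c ^ 2 * c * c = c ^ 4 := by group
        _ = 1 := hc4
  · left; exact hcase3 h
  · by_cases hj : 2 ≤ j
    · right; left; exact hcase4 hj h
    · have hj1' : j = 1 := by omega
      exfalso
      apply hcase1
      rw [h, hedef, hj1', pow_one, pow_two]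
      group

end Cfsg.Agent.S3224
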