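import Cfsg.Statements.S3225
import Mathlib

set_option autoImplicit false
open Cfsg

namespace Cfsg.Agent.S3225

open MulAction

theorem result {G : Type*} [Group G] [Finite G] (hev : Even (Nat.card G))
    (hG : ∀ H : Subgroup G, H.index ≠ 2) (S : Sylow 2 G) (M : Subgroup G) (hMS : M ≤ (S : Subgroup G)) (hM : M.relIndex (S : Subgroup G) = 2)
    (n : ℕ) (hn : 1 ≤ n) (hord : ∀ y ∈ (S : Subgroup G), y ∉ M → 2 ^ (n - 1) < orderOf y)
    (x : G) (hx : x ∈ (S : Subgroup G)) (hxn : orderOf x = 2 ^ n) :
    ∃ g : G, g * x * g⁻¹ ∈ M := by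
  classical
  by_contra hcon
  push Not at hcon
  have hidx : (M.subgroupOf (S : Subgroup G)).index = 2 := hM
  let ϕ : (S : Subgroup G) →* ℤˣ :=
    { toFun := fun s => if (s : G) ∈ M then 1 else -1
      map_one' := by simp [M.one_mem]
      map_mul' := by
        intro a b
        have := Subgroup.mul_mem_iff_of_index_two hidx (a := a) (b := b)
        simp only [Subgroup.mem_subgroupOf, Subgroup.coe_mul] at this
        by_cases ha : (a : G) ∈ M <;> by_cases hb : (b : G) ∈ M <;> simp [this, ha, hb] }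
  have hϕ : ∀ s : (S : Subgroup G), ϕ s = if (s : G) ∈ M then 1 else -1 := fun s => rfl
  have : Fintype (Quotient (orbitRel (Subgroup.zpowers x) (G ⧸ (S : Subgroup G)))) :=
    Fintype.ofFinite _
  have key := MonoidHom.transfer_eq_prod_quotient_orbitRel_zpowers_quot ϕ x
  have hsum := Subgroup.index_eq_sum_minimalPeriod (S : Subgroup G) x
  have hconjpow : ∀ (g y : G) (m : ℕ), (g⁻¹ * y * g) ^ m = g⁻¹ * y ^ m * g := by
    intro g y m
    have := conj_pow (a := g⁻¹) (b := y) (i := m)
    simpa using this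
  have hterm : ∀ q : Quotient (orbitRel (Subgroup.zpowers x) (G ⧸ (S : Subgroup G))),
      ϕ ⟨q.out.out⁻¹ * x ^ Function.minimalPeriod (x • ·) q.out * q.out.out,
            QuotientGroup.out_conj_pow_minimalPeriod_mem (S : Subgroup G) x q.out⟩
        = (-1) ^ (Function.minimalPeriod (x • ·) q.out) := by
    intro q
    have hmem := QuotientGroup.out_conj_pow_minimalPeriod_mem (S : Subgroup G) x q.out
    have hkdvd : Function.minimalPeriod (x • ·) q.out ∣ 2 ^ n := by
      apply Function.IsPeriodicPt.minimalPeriod_dvd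
      have : (x • · : G ⧸ (S : Subgroup G) → G ⧸ (S : Subgroup G))^[2 ^ n] = ((x ^ (2 ^ n)) • ·) := by
        rw [smul_iterate]
      rw [Function.IsPeriodicPt, Function.IsFixedPt, this, ← hxn, pow_orderOf_eq_one]
      simp
    obtain ⟨a, ha, hka⟩ := (Nat.dvd_prime_pow Nat.prime_two).1 hkdvd
    rw [hϕ]
    dsimp only
    rw [hka] at hmem
    simp only [hka]
    rcases Nat.eq_zero_or_pos a with rfl | hapos
    · simp only [pow_zero, pow_one]
      rw [if_neg]
      have := hcon (q.out.out⁻¹)
      simpa using this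
    · rw [if_pos]
      · rw [Even.neg_pow (Nat.even_pow.2 ⟨even_two, hapos.ne'⟩), one_pow]
      · by_contra hnot
        have h1 := hord _ hmem hnot
        have h2 : orderOf (q.out.out⁻¹ * x ^ 2 ^ a * q.out.out) ∣ 2 ^ (n - a) := by
          apply orderOf_dvd_of_pow_eq_one
          rw [hconjpow, ← pow_mul, ← pow_add, Nat.add_sub_cancel' ha, ← hxn, pow_orderOf_eq_one]
          simp
        have h3 := Nat.le_of_dvd (by positivity) h2
        have h4 : 2 ^ (n - a) ≤ 2 ^ (n - 1) := Nat.pow_le_pow_right (by norm_num) (by omega)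
        omega
  have hodd : Odd (S : Subgroup G).index := by
    rw [← Nat.not_even_iff_odd, even_iff_two_dvd]
    exact S.not_dvd_index
  have hV : MonoidHom.transfer ϕ x = -1 := by
    rw [key, Finset.prod_congr rfl (fun q _ => hterm q), Finset.prod_pow_eq_pow_sum, ← hsum,
      hodd.neg_one_pow]
  have hsurj : Function.Surjective (MonoidHom.transfer ϕ) := by
    intro u
    rcases Int.units_eq_one_or u with rfl | rfl
    · exact ⟨1, map_one _⟩
    · exact ⟨x, hV⟩
  apply hG (MonoidHom.transfer ϕ).ker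
  rw [Subgroup.index_ker, MonoidHom.range_eq_top.2 hsurj]
  simp [Nat.card_eq_fintype_card]

end Cfsg.Agent.S3225
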