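import Cfsg.Statements.S3247
import Mathlib
import Cfsg.Agent.Helper18.PConstrLocal

set_option autoImplicit false
open Cfsg

namespace Cfsg.Agent.S3247

open Subgroup Cfsg.Agent.Helper9 Cfsg.Agent.Helper18.PConstrLocal

/-- the normalizer of a `p`-subgroup `T ≤ M₀`, intersected with `M₀`, has trivial `p`-layer
when `M₀` has -/
theorem sub_local {G : Type*} [Group G] [Finite G] (p : ℕ) [Fact p.Prime] (M₀ T : Subgroup G)
    (hT : IsPGroup p ↥T) (hTM : T ≤ M₀) (hL : Cfsg.pLayer p ↥M₀ = ⊥) :
    Cfsg.pLayer p ↥((normalizer (T : Set G)).subgroupOf M₀) = ⊥ := by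
  have hP : IsPGroup p ↥(T.subgroupOf M₀) := hT.comap_subtype
  have hPM : T.subgroupOf M₀ ≤ (normalizer (T : Set G)).subgroupOf M₀ := by
    intro x hx
    rw [Subgroup.mem_subgroupOf] at hx ⊢
    exact Subgroup.le_normalizer hx
  have hMP : (normalizer (T : Set G)).subgroupOf M₀ ≤
      normalizer ((T.subgroupOf M₀ : Subgroup ↥M₀) : Set ↥M₀) := by
    intro x hx
    rw [Subgroup.mem_subgroupOf, Subgroup.mem_normalizer_iff] at hx
    rw [Subgroup.mem_normalizer_iff]
    intro t
    rw [Subgroup.mem_subgroupOf, Subgroup.mem_subgroupOf]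
    exact hx t.1
  have hNle : normalizer ((T.subgroupOf M₀ : Subgroup ↥M₀) : Set ↥M₀) ≤
      (normalizer (T : Set G)).subgroupOf M₀ := by
    intro x hx
    rw [Subgroup.mem_normalizer_iff] at hx
    rw [Subgroup.mem_subgroupOf, Subgroup.mem_normalizer_iff]
    intro t
    constructor
    · intro ht
      have := (hx ⟨t, hTM ht⟩).mp (by rw [Subgroup.mem_subgroupOf]; exact ht)
      rw [Subgroup.mem_subgroupOf] at this
      exact this
    · intro ht
      have htM : t ∈ M₀ := by
        have h1 : (x : G)⁻¹ * ((x : G) * t * (x : G)⁻¹) * (x : G) ∈ M₀ :=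
          M₀.mul_mem (M₀.mul_mem (M₀.inv_mem x.2) (hTM ht)) x.2
        have e : (x : G)⁻¹ * ((x : G) * t * (x : G)⁻¹) * (x : G) = t := by group
        rwa [e] at h1
      have := (hx ⟨t, htM⟩).mpr (by rw [Subgroup.mem_subgroupOf]; exact ht)
      rw [Subgroup.mem_subgroupOf] at this
      exact this
  have hcent := (centralizer_map_le_map_centralizer p (Cfsg.pPrimeCore p ↥M₀)
    (pPrimeCore_coprime p) (T.subgroupOf M₀) hP).trans
    (Subgroup.map_mono ((Subgroup.centralizer_le_normalizer _).trans hNle))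
  exact (pLayer_eq_bot_of_local p hL (T.subgroupOf M₀) _ hP hPM hMP hcent).1

/-- the two ways of viewing an intersection -/
def swapEquiv {G : Type*} [Group G] (N C : Subgroup G) :
    ↥(N.subgroupOf C) ≃* ↥(C.subgroupOf N) where
  toFun y := ⟨⟨y.1.1, Subgroup.mem_subgroupOf.mp y.2⟩, Subgroup.mem_subgroupOf.mpr y.1.2⟩
  invFun y := ⟨⟨y.1.1, Subgroup.mem_subgroupOf.mp y.2⟩, Subgroup.mem_subgroupOf.mpr y.1.2⟩
  left_inv _ := rfl
  right_inv _ := rfl
  map_mul' _ _ := rfl

/-- Let G be a finite group and p a prime; here a p-local subgroup means the normalizer of a nontrivial p-subgroup, other than G itself. If every p-local subgroup of G that is maximal among p-local subgroups is p-constrained, or if the centralizer of every element of order p of G is p-constrained, then every p-local subgroup of G is p-constrained. -/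
theorem result {G : Type*} [Group G] [Finite G] (p : ℕ) [hp : Fact p.Prime]
    (h : (∀ M : Subgroup G, (∃ T : Subgroup G, IsPGroup p ↥T ∧ T ≠ ⊥ ∧ M = Subgroup.normalizer (T : Set G)) → M ≠ ⊤ →
        (∀ M' : Subgroup G, (∃ T' : Subgroup G, IsPGroup p ↥T' ∧ T' ≠ ⊥ ∧ M' = Subgroup.normalizer (T' : Set G)) → M' ≠ ⊤ → M ≤ M' → M = M') →
        Cfsg.IsPConstrained p ↥M) ∨
      (∀ x : G, orderOf x = p → Cfsg.IsPConstrained p ↥(Subgroup.centralizer ({x} : Set G))))
    (T : Subgroup G) (hT : IsPGroup p ↥T) (hT1 : T ≠ ⊥) (hTG : Subgroup.normalizer (T : Set G) ≠ ⊤) :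
    Cfsg.IsPConstrained p ↥(Subgroup.normalizer (T : Set G)) := by
  rw [pConstrained_iff_pLayer_eq_bot]
  rcases h with h | h
  · -- a maximal `p`-local above the normalizer
    obtain ⟨M₀, hNM, hmax⟩ := Set.Finite.exists_le_maximal
      (s := {M : Subgroup G | (∃ T : Subgroup G, IsPGroup p ↥T ∧ T ≠ ⊥ ∧
        M = Subgroup.normalizer (T : Set G)) ∧ M ≠ ⊤}) (Set.toFinite _)
      (a := Subgroup.normalizer (T : Set G)) ⟨⟨T, hT, hT1, rfl⟩, hTG⟩
    have hM₀ := hmax.prop
    have hc := h M₀ hM₀.1 hM₀.2 (fun M' h1 h2 h3 => le_antisymm h3 (hmax.le_of_ge ⟨h1, h2⟩ h3))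
    rw [pConstrained_iff_pLayer_eq_bot] at hc
    have h1 := sub_local p M₀ T hT (Subgroup.le_normalizer.trans hNM) hc
    exact pLayer_eq_bot_of_equiv p (Subgroup.subgroupOfEquivOfLe hNM) h1
  · -- an element of order `p` in the centre of `T`
    have hTnt : Nontrivial ↥T := (Subgroup.nontrivial_iff_ne_bot T).mpr hT1
    have hZnt : Nontrivial ↥(center ↥T) := hT.center_nontrivial
    have hZp : IsPGroup p ↥(center ↥T) := hT.to_subgroup _
    have hdvd : p ∣ Nat.card ↥(center ↥T) := by
      rcases hZp.card_eq_or_dvd with h1 | h1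
      · exact absurd h1 (by
          have := Finite.one_lt_card (α := ↥(center ↥T))
          omega)
      · exact h1
    obtain ⟨z, hz⟩ := exists_prime_orderOf_dvd_card' p hdvd
    set x : G := ((z : ↥T) : G) with hxdef
    have hxo : orderOf x = p := by
      rw [hxdef, Subgroup.orderOf_coe, Subgroup.orderOf_coe, hz]
    have hxT : x ∈ T := (z : ↥T).2
    have hTC : T ≤ centralizer ({x} : Set G) := by
      intro t ht
      rw [Subgroup.mem_centralizer_iff]
      intro y hy
      rw [Set.mem_singleton_iff.mp hy]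
      have := Subgroup.mem_center_iff.mp z.2 ⟨t, ht⟩
      exact (congrArg Subtype.val this).symm
    have hc := h x hxo
    rw [pConstrained_iff_pLayer_eq_bot] at hc
    have h1 := sub_local p (centralizer ({x} : Set G)) T hT hTC hc
    have h2 := pLayer_eq_bot_of_equiv p (swapEquiv (normalizer (T : Set G)) (centralizer ({x} : Set G))) h1
    have hxN : x ∈ normalizer (T : Set G) := Subgroup.le_normalizer hxT
    refine pLayer_eq_bot_of_centralizer p (⟨x, hxN⟩ : ↥(normalizer (T : Set G))) ?_
      ((centralizer ({x} : Set G)).subgroupOf (normalizer (T : Set G))) ?_ h2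
    · have hn : (T.subgroupOf (normalizer (T : Set G))).Normal := Subgroup.normal_in_normalizer
      exact le_pCore hn hT.comap_subtype (Subgroup.mem_subgroupOf.mpr hxT)
    · intro c hc
      rw [Subgroup.mem_subgroupOf, Subgroup.mem_centralizer_iff]
      intro y hy
      rw [Set.mem_singleton_iff.mp hy]
      have := Subgroup.mem_centralizer_iff.mp hc ⟨x, hxN⟩ (Subgroup.mem_zpowers _)
      exact congrArg Subtype.val this

end Cfsg.Agent.S3247
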