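import Cfsg.Statements.S3276
import Cfsg.Agent.Helper18.Involution
import Mathlib

set_option autoImplicit false
open Cfsg

namespace Cfsg.Agent.S3276

/-- Let x and y be commuting, non-conjugate involutions of a finite group G, and suppose that for every involution u commuting with x, each conjugate of y that commutes with u also commutes with y. Then the normal closure of y is a proper, normal, elementary abelian 2-subgroup of G; and if y is the only involution of that normal closure commuting with x, it has order at most 4. -/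
theorem result {G : Type*} [Group G] [Finite G] (x y : G) (hx : orderOf x = 2) (hy : orderOf y = 2)
    (hxy : Commute x y) (hnc : ¬ IsConj x y)
    (hstar : ∀ u : G, orderOf u = 2 → Commute u x → ∀ g : G, Commute (g * y * g⁻¹) u → Commute (g * y * g⁻¹) y) :
    Subgroup.normalClosure ({y} : Set G) ≠ ⊤ ∧ Cfsg.IsElementaryAbelian 2 (Subgroup.normalClosure ({y} : Set G)) ∧
      ((∀ u ∈ Subgroup.normalClosure ({y} : Set G), orderOf u = 2 → Commute u x → u = y) →
        Nat.card ↥(Subgroup.normalClosure ({y} : Set G)) ≤ 4) := by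
  classical
  have hx2 : x * x = 1 := by
    have := pow_orderOf_eq_one x
    rwa [hx, pow_two] at this
  have hy2 : y * y = 1 := by
    have := pow_orderOf_eq_one y
    rwa [hy, pow_two] at this
  have hxinv : x⁻¹ = x := inv_eq_of_mul_eq_one_left hx2
  have hx1 : x ≠ 1 := by
    rintro rfl
    simp at hx
  -- every conjugate of y commutes with y
  have hcy : ∀ g : G, Commute (g * y * g⁻¹) y := by
    intro g
    have hw : orderOf (g * y * g⁻¹) = 2 := by
      have := orderOf_injective (MulAut.conj g).toMonoidHom (MulAut.conj g).injective y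
      simpa [hy] using this
    have hncw : ¬ IsConj x (g * y * g⁻¹) := by
      intro h
      apply hnc
      exact h.trans (isConj_iff.2 ⟨g⁻¹, by group⟩)
    obtain ⟨z, hz2, hzx, hzw, -⟩ :=
      Cfsg.Agent.Helper18.exists_involution_commute_of_not_isConj x (g * y * g⁻¹) hx hw hncw
    exact hstar z hz2 hzx g hzw.symm
  -- any two conjugates of y commute
  have hcc : ∀ a ∈ Group.conjugatesOfSet ({y} : Set G), ∀ b ∈ Group.conjugatesOfSet ({y} : Set G),
      a * b = b * a := by
    intro a ha b hb
    rw [Group.mem_conjugatesOfSet_iff] at ha hb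
    obtain ⟨y', hy', hya⟩ := ha
    obtain ⟨y'', hy'', hyb⟩ := hb
    rw [Set.mem_singleton_iff] at hy' hy''
    rw [hy'] at hya
    rw [hy''] at hyb
    obtain ⟨c, rfl⟩ := isConj_iff.1 hya
    obtain ⟨d, rfl⟩ := isConj_iff.1 hyb
    have h1 := hcy (c⁻¹ * d)
    have h2 : c * y * c⁻¹ * (d * y * d⁻¹) = c * (y * (c⁻¹ * d * y * (c⁻¹ * d)⁻¹)) * c⁻¹ := by group
    have h3 : d * y * d⁻¹ * (c * y * c⁻¹) = c * ((c⁻¹ * d * y * (c⁻¹ * d)⁻¹) * y) * c⁻¹ := by group
    rw [h2, h3, h1.eq]
  set Y := Subgroup.normalClosure ({y} : Set G) with hY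
  have hYcomm : IsMulCommutative Y := Subgroup.isMulCommutative_closure hcc
  have hYc : ∀ a ∈ Y, ∀ b ∈ Y, a * b = b * a := by
    intro a ha b hb
    exact congrArg Subtype.val (hYcomm.is_comm.comm ⟨a, ha⟩ ⟨b, hb⟩)
  have hYsq : ∀ a ∈ Y, a ^ 2 = 1 := by
    intro a ha
    induction ha using Subgroup.closure_induction with
    | mem a ha =>
      rw [Group.mem_conjugatesOfSet_iff] at ha
      obtain ⟨y', hy', hya⟩ := ha
      rw [Set.mem_singleton_iff] at hy'
      rw [hy'] at hya
      obtain ⟨c, rfl⟩ := isConj_iff.1 hya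
      rw [conj_pow, pow_two, hy2]
      group
    | one => simp
    | mul a b ha hb iha ihb =>
      have hab : Commute a b := hYc a ha b hb
      rw [hab.mul_pow, iha, ihb, one_mul]
    | inv a ha iha => rw [inv_pow, iha, inv_one]
  have hYn : Y.Normal := Subgroup.normalClosure_normal
  have hyY : y ∈ Y := Subgroup.subset_normalClosure (Set.mem_singleton y)
  refine ⟨?_, ⟨hYcomm, hYsq⟩, ?_⟩
  · intro htop
    have hall : ∀ a b : G, a * b = b * a := by
      intro a b
      exact hYc a (by rw [htop]; trivial) b (by rw [htop]; trivial)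
    have hzn : (Subgroup.zpowers y).Normal := by
      constructor
      intro n hn g
      rw [hall g n, mul_assoc, mul_inv_cancel, mul_one]
      exact hn
    have hle : Y ≤ Subgroup.zpowers y := by
      apply Subgroup.normalClosure_le_normal
      rw [Set.singleton_subset_iff]
      exact Subgroup.mem_zpowers y
    have hxz : x ∈ Subgroup.zpowers y := hle (by rw [htop]; trivial)
    obtain ⟨k, hk⟩ := hxz
    have hk' : y ^ k = x := hk
    rcases Int.emod_two_eq_zero_or_one k with h0 | h0
    · apply hx1
      rw [← hk', ← Int.emod_add_mul_ediv k 2, h0, zero_add, zpow_mul, zpow_ofNat, pow_two, hy2,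
        one_zpow]
    · apply hnc
      have : x = y := by
        rw [← hk', ← Int.emod_add_mul_ediv k 2, h0, zpow_add, zpow_one, zpow_mul, zpow_ofNat,
          pow_two, hy2, one_zpow, mul_one]
      rw [this]
  · intro huniq
    -- elements of Y commuting with x are 1 or y
    have hCx : ∀ u ∈ Y, u * x = x * u → u = 1 ∨ u = y := by
      intro u hu hux
      by_cases h1 : u = 1
      · exact Or.inl h1
      · right
        have : orderOf u = 2 := orderOf_eq_prime (hYsq u hu) h1
        exact huniq u hu this hux
    have hconjY : ∀ a : Y, x * (a : G) * x⁻¹ ∈ Y := fun a => hYn.conj_mem a a.2 x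
    let φ : Y →* Y :=
      { toFun := fun a => ⟨(a : G) * (x * (a : G) * x⁻¹), Y.mul_mem a.2 (hconjY a)⟩
        map_one' := by
          apply Subtype.ext
          simp
        map_mul' := by
          intro a b
          apply Subtype.ext
          show ((a : G) * (b : G)) * (x * ((a : G) * (b : G)) * x⁻¹) =
            ((a : G) * (x * (a : G) * x⁻¹)) * ((b : G) * (x * (b : G) * x⁻¹))
          have h1 := hYc b b.2 _ (hconjY a)
          calc ((a : G) * (b : G)) * (x * ((a : G) * (b : G)) * x⁻¹)
              = (a : G) * ((b : G) * (x * (a : G) * x⁻¹)) * (x * (b : G) * x⁻¹) := by group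
            _ = (a : G) * ((x * (a : G) * x⁻¹) * (b : G)) * (x * (b : G) * x⁻¹) := by rw [h1]
            _ = ((a : G) * (x * (a : G) * x⁻¹)) * ((b : G) * (x * (b : G) * x⁻¹)) := by group }
    have hφ : ∀ a : Y, ((φ a : Y) : G) = (a : G) * (x * (a : G) * x⁻¹) := fun a => rfl
    let yY : Y := ⟨y, hyY⟩
    have hzcard : Nat.card (Subgroup.zpowers yY) = 2 := by
      rw [Nat.card_zpowers]
      have : orderOf yY = orderOf y := Subgroup.orderOf_mk y hyY
      rw [this, hy]
    have hmemz : ∀ u : Y, ((u : G) = 1 ∨ (u : G) = y) → u ∈ Subgroup.zpowers yY := by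
      intro u hu
      rcases hu with h | h
      · have : u = 1 := Subtype.ext h
        rw [this]
        exact Subgroup.one_mem _
      · have : u = yY := Subtype.ext h
        rw [this]
        exact Subgroup.mem_zpowers _
    have hker : φ.ker ≤ Subgroup.zpowers yY := by
      intro a ha
      apply hmemz
      apply hCx a a.2
      have h1 : (a : G) * (x * (a : G) * x⁻¹) = 1 := by
        rw [← hφ, MonoidHom.mem_ker.1 ha]
        rfl
      have h2 : (a : G) * (a : G) = 1 := by
        rw [← pow_two]
        exact hYsq a a.2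
      have h3 : x * (a : G) * x⁻¹ = (a : G) := by
        have h4 : x * (a : G) * x⁻¹ = (a : G)⁻¹ := (inv_eq_of_mul_eq_one_right h1).symm
        rw [h4]
        exact inv_eq_of_mul_eq_one_left h2
      calc (a : G) * x = (x * (a : G) * x⁻¹) * x := by rw [h3]
        _ = x * (a : G) := by group
    have hrange : φ.range ≤ Subgroup.zpowers yY := by
      rintro _ ⟨a, rfl⟩
      apply hmemz
      apply hCx _ (φ a).2
      rw [hφ]
      have h1 := hYc a a.2 _ (hconjY a)
      calc (a : G) * (x * (a : G) * x⁻¹) * x = (x * (a : G) * x⁻¹) * (a : G) * x := by rw [h1]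
        _ = x * ((a : G) * (x * (a : G) * x)) := by rw [hxinv]; group
        _ = x * ((a : G) * (x * (a : G) * x⁻¹)) := by rw [hxinv]
    have h1 : Nat.card Y = Nat.card φ.ker * Nat.card φ.range := by
      rw [← Subgroup.index_ker, Subgroup.card_mul_index]
    have h2 : Nat.card φ.ker ≤ 2 := hzcard ▸ Subgroup.card_le_of_le hker
    have h3 : Nat.card φ.range ≤ 2 := hzcard ▸ Subgroup.card_le_of_le hrange
    rw [h1]
    calc Nat.card φ.ker * Nat.card φ.range ≤ 2 * 2 := Nat.mul_le_mul h2 h3
      _ = 4 := by norm_num

end Cfsg.Agent.S3276
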