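import Cfsg.Statements.S3277
import Mathlib
import Cfsg.Agent.S1229
import Cfsg.Agent.Helper8.Dihedral
import Cfsg.Agent.Helper8.StronglyEmbedded

set_option autoImplicit false
open Cfsg
set_option maxHeartbeats 1600000

namespace Cfsg.Agent.S3277

section aux

variable {G : Type*} [Group G]

-- conjugating a centralising element back
theorem conj_mem_cent {x k t c : G} (ht : k * x * k⁻¹ = t)
    (hc : c ∈ Subgroup.centralizer ({t} : Set G)) :
    k⁻¹ * c * k ∈ Subgroup.centralizer ({x} : Set G) := by
  rw [Subgroup.mem_centralizer_iff] at hc ⊢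
  intro h hh
  rw [Set.mem_singleton_iff] at hh
  rw [hh]
  have h1 : t * c = c * t := hc t rfl
  rw [← ht] at h1
  calc x * (k⁻¹ * c * k) = k⁻¹ * (k * x * k⁻¹ * c) * k := by group
    _ = k⁻¹ * (c * (k * x * k⁻¹)) * k := by rw [h1]
    _ = k⁻¹ * c * k * x := by group

end aux

/-- Let G be a finite group containing an involution whose centralizer is elementary abelian of order 4. If G has no normal 2-complement and no normal elementary abelian 2-subgroup of order 2 or 4, then G is isomorphic to the alternating group of degree 5 (that is, to PSL(2, 5)). -/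
theorem result {G : Type*} [Group G] [Finite G] (x : G) (hx : orderOf x = 2)
    (hC4 : Nat.card ↥(Subgroup.centralizer ({x} : Set G)) = 4) (hCe : ∀ c ∈ Subgroup.centralizer ({x} : Set G), c ^ 2 = 1)
    (hnc : ¬ Cfsg.HasNormalPComplement 2 G)
    (hne : ∀ E : Subgroup G, E.Normal → Cfsg.IsElementaryAbelian 2 E → Nat.card ↥E ≠ 2 ∧ Nat.card ↥E ≠ 4) :
    Nonempty (G ≃* ↥(alternatingGroup (Fin 5))) := by
  classical
  obtain ⟨S, hS⟩ : ∃ S : Subgroup G, S = Subgroup.centralizer ({x} : Set G) := ⟨_, rfl⟩
  rw [← hS] at hC4 hCe
  have hx1 : x ≠ 1 := by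
    intro h; rw [h, orderOf_one] at hx; omega
  have hxx : x * x = 1 := by
    have h := pow_orderOf_eq_one x
    rw [hx, sq] at h; exact h
  have hxi : x⁻¹ = x := inv_eq_of_mul_eq_one_left hxx
  have hmemS : ∀ c : G, c ∈ S ↔ x * c = c * x := by
    intro c
    rw [hS, Subgroup.mem_centralizer_iff]
    constructor
    · intro h; exact h x rfl
    · intro h y hy
      rw [Set.mem_singleton_iff] at hy
      rw [hy]; exact h
  have hxS : x ∈ S := (hmemS x).mpr rfl
  have hSsq : ∀ c ∈ S, c * c = 1 := by
    intro c hc; rw [← sq]; exact hCe c hc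
  have hSinv : ∀ c ∈ S, c⁻¹ = c := fun c hc => inv_eq_of_mul_eq_one_left (hSsq c hc)
  have hScomm : ∀ a ∈ S, ∀ b ∈ S, a * b = b * a := by
    intro a ha b hb
    have h3 := hSinv (a * b) (S.mul_mem ha hb)
    rw [mul_inv_rev, hSinv a ha, hSinv b hb] at h3
    exact h3.symm
  have hconjS : ∀ {k t c : G}, k * x * k⁻¹ = t → c ∈ Subgroup.centralizer ({t} : Set G) →
      k⁻¹ * c * k ∈ S := by
    intro k t c ht hc
    rw [hS]; exact conj_mem_cent ht hc
  have hDne : ∀ y : G, (∃ g : G, g * x * g⁻¹ = y) → y ≠ 1 := by
    rintro y ⟨g, rfl⟩ h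
    apply hx1
    have e : x = g⁻¹ * (g * x * g⁻¹) * g := by group
    rw [e, h]; group
  -- if y in S is conjugate to x then C(y) = S
  have hDcent : ∀ y ∈ S, (∃ g : G, g * x * g⁻¹ = y) → ∀ c : G, y * c = c * y → c ∈ S := by
    intro y hy ⟨k, hk⟩ c hc
    have hle : S ≤ Subgroup.centralizer ({y} : Set G) := by
      intro s hs
      rw [Subgroup.mem_centralizer_iff]
      intro h hh
      rw [Set.mem_singleton_iff] at hh
      rw [hh]; exact hScomm y hy s hs
    have hcard : Nat.card (Subgroup.centralizer ({y} : Set G)) ≤ Nat.card S := by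
      apply Nat.card_le_card_of_injective
        (fun c : Subgroup.centralizer ({y} : Set G) => (⟨k⁻¹ * c * k, hconjS hk c.2⟩ : S))
      intro a b hab
      have h1 : k⁻¹ * (a : G) * k = k⁻¹ * (b : G) * k := congrArg Subtype.val hab
      apply Subtype.ext
      have h2 : (a : G) = k * (k⁻¹ * a * k) * k⁻¹ := by group
      rw [h2, h1]; group
    have heq := Subgroup.eq_of_le_of_card_ge hle hcard
    rw [heq, Subgroup.mem_centralizer_iff]
    intro h hh
    rw [Set.mem_singleton_iff] at hh
    rw [hh]; exact hc
  -- enumeration of S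
  have henum : ∀ z ∈ S, z ≠ 1 → z ≠ x → ∀ s ∈ S, s = 1 ∨ s = x ∨ s = z ∨ s = x * z := by
    intro z hz hz1 hzx s hs
    have hxz1 : x * z ≠ 1 := by
      intro h
      apply hzx
      have h' : z = x⁻¹ := eq_inv_of_mul_eq_one_right h
      rw [h', hxi]
    have e1 : (1 : G) ≠ x := hx1.symm
    have e2 : (1 : G) ≠ z := hz1.symm
    have e3 : (1 : G) ≠ x * z := hxz1.symm
    have e5 : x ≠ z := hzx.symm
    have e6 : x ≠ x * z := fun h => hz1 (left_eq_mul.mp h)
    have e8 : z ≠ x * z := fun h => hx1 (right_eq_mul.mp h)
    have hA : ({1, x, z, x * z} : Set G).ncard = 4 := by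
      rw [Set.ncard_insert_of_notMem, Set.ncard_insert_of_notMem, Set.ncard_pair e8]
      · intro hm
        rcases hm with h | h
        · exact e5 h
        · exact e6 h
      · intro hm
        rcases hm with h | h | h
        · exact e1 h
        · exact e2 h
        · exact e3 h
    have hsub : ({1, x, z, x * z} : Set G) ⊆ (S : Set G) := by
      intro a ha
      rcases ha with rfl | rfl | rfl | rfl
      · exact S.one_mem
      · exact hxS
      · exact hz
      · exact S.mul_mem hxS hz
    have hScard : (S : Set G).ncard = 4 := by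
      rw [← Nat.card_coe_set_eq]; exact hC4
    have heq := Set.eq_of_subset_of_ncard_le hsub (by rw [hA, hScard]) (Set.toFinite _)
    have hs' : s ∈ ({1, x, z, x * z} : Set G) := by rw [heq]; exact hs
    rcases hs' with h | h | h | h
    · exact Or.inl h
    · exact Or.inr (Or.inl h)
    · exact Or.inr (Or.inr (Or.inl h))
    · exact Or.inr (Or.inr (Or.inr h))
  have hSp : IsPGroup 2 S := IsPGroup.of_card (n := 2) (by rw [hC4]; norm_num)
  by_cases hall : ∀ s ∈ S, s ≠ 1 → ∃ g : G, g * x * g⁻¹ = s
  · -- Case I: all involutions of S are conjugate to x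
    obtain ⟨P, hSP⟩ := hSp.exists_le_sylow
    have hxP : x ∈ (P : Subgroup G) := hSP hxS
    haveI : Nontrivial (P : Subgroup G) :=
      ⟨⟨⟨x, hxP⟩, 1, fun h => hx1 (congrArg Subtype.val h)⟩⟩
    haveI := IsPGroup.center_nontrivial P.isPGroup'
    obtain ⟨z₀, hz₀⟩ := exists_ne (1 : Subgroup.center (P : Subgroup G))
    obtain ⟨z1, hz1def⟩ : ∃ z1 : G, z1 = ((z₀ : (P : Subgroup G)) : G) := ⟨_, rfl⟩
    have hz1ne : z1 ≠ 1 := by
      intro h
      apply hz₀
      apply Subtype.ext
      apply Subtype.ext
      rw [← hz1def]; exact h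
    have hz1comm : ∀ q ∈ (P : Subgroup G), q * z1 = z1 * q := by
      intro q hq
      have h := Subgroup.mem_center_iff.mp z₀.2 ⟨q, hq⟩
      rw [hz1def]
      exact congrArg Subtype.val h
    have hz1S : z1 ∈ S := (hmemS z1).mpr (hz1comm x hxP)
    have hz1D := hall z1 hz1S hz1ne
    have hPS : (P : Subgroup G) ≤ S := by
      intro q hq
      exact hDcent z1 hz1S hz1D q (hz1comm q hq).symm
    have hSeqP : S = (P : Subgroup G) := le_antisymm hSP hPS
    have hmemP : ∀ q : G, q ∈ (P : Subgroup G) → q ∈ S := fun q hq => hPS hq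
    have hncy : ¬ IsCyclic (P : Subgroup G) := by
      intro hcyc
      have h1 : Monoid.exponent (P : Subgroup G) = Nat.card (P : Subgroup G) :=
        IsCyclic.exponent_eq_card
      have h2 : Monoid.exponent (P : Subgroup G) ∣ 2 := by
        apply Monoid.exponent_dvd_of_forall_pow_eq_one
        intro g
        apply Subtype.ext
        have h := hCe (g : G) (hmemP _ g.2)
        simpa using h
      rw [h1, ← hSeqP, hC4] at h2
      omega
    have hnn : ¬ (P : Subgroup G).Normal := by
      intro hn
      have h := hne (P : Subgroup G) hn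
        ⟨⟨⟨fun a b => Subtype.ext (hScomm a (hmemP _ a.2) b (hmemP _ b.2))⟩⟩,
          fun a ha => hCe a (hmemP _ ha)⟩
      rw [← hSeqP] at h
      exact h.2 hC4
    have hCall : ∀ t : G, orderOf t = 2 →
        IsMulCommutative (Subgroup.centralizer ({t} : Set G)) ∧
          ∀ c ∈ Subgroup.centralizer ({t} : Set G), c ^ 2 = 1 := by
      intro t ht
      have htp : IsPGroup 2 (Subgroup.zpowers t) :=
        IsPGroup.of_card (n := 1) (by rw [Nat.card_zpowers, ht]; norm_num)
      obtain ⟨Q, hQ⟩ := htp.exists_le_sylow
      obtain ⟨c, hc⟩ := MulAction.exists_smul_eq G Q P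
      have h1 : t ∈ (Q : Subgroup G) := hQ (Subgroup.mem_zpowers t)
      have h2 : c * t * c⁻¹ ∈ (P : Subgroup G) := by
        rw [← hc]
        exact Subgroup.smul_mem_pointwise_smul _ (MulAut.conj c) (Q : Subgroup G) h1
      have ht1 : c * t * c⁻¹ ≠ 1 := by
        intro h
        have e : t = 1 := by
          calc t = c⁻¹ * (c * t * c⁻¹) * c := by group
            _ = 1 := by rw [h]; group
        rw [e, orderOf_one] at ht; omega
      obtain ⟨g, hg⟩ := hall _ (hmemP _ h2) ht1
      obtain ⟨k, hkdef⟩ : ∃ k : G, k = c⁻¹ * g := ⟨_, rfl⟩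
      have hk : k * x * k⁻¹ = t := by
        rw [hkdef]
        calc (c⁻¹ * g) * x * (c⁻¹ * g)⁻¹ = c⁻¹ * (g * x * g⁻¹) * c := by group
          _ = c⁻¹ * (c * t * c⁻¹) * c := by rw [hg]
          _ = t := by group
      refine ⟨⟨⟨fun a b => Subtype.ext ?_⟩⟩, ?_⟩
      · have ha := hconjS hk a.2
        have hb := hconjS hk b.2
        have hab := hScomm _ ha _ hb
        show (a : G) * (b : G) = (b : G) * (a : G)
        calc (a : G) * b = k * ((k⁻¹ * a * k) * (k⁻¹ * b * k)) * k⁻¹ := by group
          _ = k * ((k⁻¹ * b * k) * (k⁻¹ * a * k)) * k⁻¹ := by rw [hab]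
          _ = b * a := by group
      · intro d hd
        have hd' := hconjS hk hd
        have h := hSsq _ hd'
        rw [sq]
        calc d * d = k * ((k⁻¹ * d * k) * (k⁻¹ * d * k)) * k⁻¹ := by group
          _ = 1 := by rw [h]; group
    obtain ⟨h3t, hfix, hreg⟩ := Cfsg.Agent.S1229.result P hncy hnn hCall
    obtain ⟨H, hH⟩ : ∃ H : Subgroup G, H = Subgroup.normalizer ((P : Subgroup G) : Set G) :=
      ⟨_, rfl⟩
    rw [← hH] at h3t hfix hreg
    have hPH : (P : Subgroup G) ≤ H := by rw [hH]; exact Subgroup.le_normalizer
    have hHne : ∃ g : G, g ∉ H := by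
      by_contra hcon
      push Not at hcon
      apply hnn
      have htop : Subgroup.normalizer ((P : Subgroup G) : Set G) = ⊤ := by
        rw [← hH]; exact eq_top_iff.mpr (fun g _ => hcon g)
      exact Subgroup.normalizer_eq_top_iff.mp htop
    obtain ⟨g₀, hg₀⟩ := hHne
    obtain ⟨x₀, hx₀⟩ : ∃ x₀ : G ⧸ H, x₀ = QuotientGroup.mk g₀ := ⟨_, rfl⟩
    have hx₀ne : x₀ ≠ QuotientGroup.mk 1 := by
      intro h
      apply hg₀
      rw [hx₀] at h
      have h' := QuotientGroup.eq.mp h
      have h'' := H.inv_mem h'
      simpa using h''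
    have hPfix : ∀ t ∈ (P : Subgroup G),
        t • (QuotientGroup.mk 1 : G ⧸ H) = QuotientGroup.mk 1 := by
      intro t ht
      rw [Cfsg.Agent.Helper8.smul_mk_eq_iff]
      simpa using hPH ht
    have hmove : ∀ t ∈ (P : Subgroup G), t • x₀ ≠ QuotientGroup.mk 1 := by
      intro t ht h
      apply hx₀ne
      have h2 : x₀ = t⁻¹ • (t • x₀) := by rw [inv_smul_smul]
      rw [h2, h]
      exact hPfix _ ((P : Subgroup G).inv_mem ht)
    have h5 : Nat.card (G ⧸ H) = 5 := by
      let f : Option (P : Subgroup G) → G ⧸ H := fun o =>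
        o.elim (QuotientGroup.mk 1) (fun t => (t : G) • x₀)
      have hf : Function.Bijective f := by
        constructor
        · intro a b hab
          cases a with
          | none =>
            cases b with
            | none => rfl
            | some t =>
              exfalso
              have h1 : (QuotientGroup.mk 1 : G ⧸ H) = (t : G) • x₀ := hab
              exact hmove _ t.2 h1.symm
          | some t =>
            cases b with
            | none =>
              exfalso
              have h1 : (t : G) • x₀ = (QuotientGroup.mk 1 : G ⧸ H) := hab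
              exact hmove _ t.2 h1
            | some t' =>
              have h1 : (t : G) • x₀ = (t' : G) • x₀ := hab
              obtain ⟨u, -, huniq⟩ := hreg x₀ ((t' : G) • x₀) hx₀ne (hmove _ t'.2)
              have e1 := huniq (t : G) ⟨t.2, h1⟩
              have e2 := huniq (t' : G) ⟨t'.2, rfl⟩
              congr 1
              exact Subtype.ext (e1.trans e2.symm)
        · intro y
          by_cases hy : y = QuotientGroup.mk 1
          · exact ⟨none, hy.symm⟩
          · obtain ⟨u, ⟨huP, hu⟩, -⟩ := hreg x₀ y hx₀ne hy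
            exact ⟨some ⟨u, huP⟩, hu⟩
      have h := Nat.card_congr (Equiv.ofBijective f hf)
      rw [Finite.card_option, ← hSeqP, hC4] at h
      exact h.symm
    haveI : Fintype (G ⧸ H) := Fintype.ofFinite _
    have h5' : Fintype.card (G ⧸ H) = 5 := by rw [← Nat.card_eq_fintype_card]; exact h5
    obtain ⟨p⟩ : Nonempty (Fin 3 ↪ G ⧸ H) :=
      Function.Embedding.nonempty_of_card_le (by rw [h5', Fintype.card_fin]; norm_num)
    have hp01 : p 0 ≠ p 1 := fun h => absurd (p.injective h) (by decide)
    have hp02 : p 0 ≠ p 2 := fun h => absurd (p.injective h) (by decide)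
    have hp12 : p 1 ≠ p 2 := fun h => absurd (p.injective h) (by decide)
    have h60 : Nat.card G = 60 := by
      let Φ : G → (Fin 3 ↪ G ⧸ H) := fun g =>
        ⟨fun i => g • p i, fun i j hij => p.injective (MulAction.injective g hij)⟩
      have hΦ : Function.Bijective Φ := by
        constructor
        · intro g g' hgg
          have hi : ∀ i, g • p i = g' • p i := fun i => congrFun (congrArg DFunLike.coe hgg) i
          have hfix' : ∀ i, (g⁻¹ * g') • p i = p i := by
            intro i
            rw [mul_smul, ← hi i, inv_smul_smul]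
          have h := hfix (g⁻¹ * g') (p 0) (p 1) (p 2) hp01 hp02 hp12 (hfix' 0) (hfix' 1) (hfix' 2)
          exact inv_mul_eq_one.mp h
        · intro q
          have hq01 : q 0 ≠ q 1 := fun h => absurd (q.injective h) (by decide)
          have hq02 : q 0 ≠ q 2 := fun h => absurd (q.injective h) (by decide)
          have hq12 : q 1 ≠ q 2 := fun h => absurd (q.injective h) (by decide)
          obtain ⟨g, h0, h1, h2⟩ :=
            h3t (p 0) (p 1) (p 2) (q 0) (q 1) (q 2) hp01 hp02 hp12 hq01 hq02 hq12
          refine ⟨g, ?_⟩
          ext i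
          fin_cases i
          · exact h0
          · exact h1
          · exact h2
      rw [Nat.card_congr (Equiv.ofBijective Φ hΦ), Nat.card_eq_fintype_card,
        Fintype.card_embedding_eq, h5', Fintype.card_fin]
      rfl
    obtain ⟨e⟩ : Nonempty (G ⧸ H ≃ Fin 5) := ⟨Fintype.equivFinOfCardEq h5'⟩
    let ψ : G →* Equiv.Perm (Fin 5) :=
      (e.permCongrHom).toMonoidHom.comp (MulAction.toPermHom G (G ⧸ H))
    have hψ : Function.Injective ψ := by
      rw [injective_iff_map_eq_one]
      intro g hg
      have h1 : MulAction.toPermHom G (G ⧸ H) g = 1 := by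
        have h : e.permCongrHom (MulAction.toPermHom G (G ⧸ H) g) = e.permCongrHom 1 := by
          rw [map_one]; exact hg
        exact e.permCongrHom.injective h
      have h2 : ∀ y : G ⧸ H, g • y = y := by
        intro y
        have h := congrArg (fun σ : Equiv.Perm (G ⧸ H) => σ y) h1
        simpa using h
      exact hfix g (p 0) (p 1) (p 2) hp01 hp02 hp12 (h2 _) (h2 _) (h2 _)
    have hrange : ψ.range = alternatingGroup (Fin 5) := by
      apply Equiv.Perm.eq_alternatingGroup_of_index_eq_two
      have h1 : Nat.card ψ.range = 60 := by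
        rw [← Nat.card_congr (MonoidHom.ofInjective hψ).toEquiv]; exact h60
      have h2 := Subgroup.card_mul_index ψ.range
      rw [h1, Nat.card_perm, Nat.card_fin] at h2
      have h3 : (5 : ℕ).factorial = 120 := by decide
      omega
    exact ⟨(MonoidHom.ofInjective hψ).trans (MulEquiv.subgroupCongr hrange)⟩
  · push Not at hall
    obtain ⟨z, hzS, hz1, hzD⟩ := hall
    have hzx : z ≠ x := fun h => hzD 1 (by rw [h]; group)
    have hzz : z * z = 1 := hSsq z hzS
    have hen := henum z hzS hz1 hzx
    by_cases hxzD : ∃ g : G, g * x * g⁻¹ = x * z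
    · -- Case II.1
      have hxzS : x * z ∈ S := S.mul_mem hxS hzS
      have hkey : ∀ w : G, (∃ g : G, g * z * g⁻¹ = w) → w * z = z * w := by
        rintro w ⟨g₁, hw⟩
        have hww : w * w = 1 := by
          rw [← hw]
          calc g₁ * z * g₁⁻¹ * (g₁ * z * g₁⁻¹) = g₁ * (z * z) * g₁⁻¹ := by group
            _ = 1 := by rw [hzz]; group
        have hwD : ∀ r : G, r * w * r⁻¹ ≠ x := by
          intro r h
          apply hzD ((r * g₁)⁻¹)
          rw [← h, ← hw]; group
        have hfin : 0 < orderOf (w * x) := orderOf_pos _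
        rcases Cfsg.Agent.Helper8.invol_dichotomy hww hxx hfin with
          ⟨j, hj, hconj, -⟩ | ⟨k, hk, hc1, hcc, hcw, hcx⟩
        · exact absurd hconj (hwD _)
        · obtain ⟨c, hc⟩ : ∃ c : G, c = (w * x) ^ k := ⟨_, rfl⟩
          rw [← hc] at hc1 hcc hcw hcx
          have hcS : c ∈ S := (hmemS c).mpr hcx
          rcases hen c hcS with h | h | h | h
          · exact absurd h hc1
          · have hwS : w ∈ S := by
              rw [hmemS]; rw [h] at hcw; exact hcw.symm
            exact hScomm w hwS z hzS
          · rw [h] at hcw; exact hcw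
          · have hwS : w ∈ S := hDcent (x * z) hxzS hxzD w (by rw [h] at hcw; exact hcw.symm)
            exact hScomm w hwS z hzS
      have hcomm : ∀ a ∈ Group.conjugatesOfSet ({z} : Set G),
          ∀ b ∈ Group.conjugatesOfSet ({z} : Set G), a * b = b * a := by
        intro a ha b hb
        obtain ⟨z', hz', hconj⟩ := Group.mem_conjugatesOfSet_iff.mp ha
        rw [Set.mem_singleton_iff] at hz'
        rw [hz'] at hconj
        obtain ⟨g₁, hg₁⟩ := isConj_iff.mp hconj
        obtain ⟨z'', hz'', hconj'⟩ := Group.mem_conjugatesOfSet_iff.mp hb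
        rw [Set.mem_singleton_iff] at hz''
        rw [hz''] at hconj'
        obtain ⟨g₂, hg₂⟩ := isConj_iff.mp hconj'
        have h := hkey (g₂⁻¹ * a * g₂) ⟨g₂⁻¹ * g₁, by rw [← hg₁]; group⟩
        rw [← hg₂]
        calc a * (g₂ * z * g₂⁻¹) = g₂ * (g₂⁻¹ * a * g₂ * z) * g₂⁻¹ := by group
          _ = g₂ * (z * (g₂⁻¹ * a * g₂)) * g₂⁻¹ := by rw [h]
          _ = g₂ * z * g₂⁻¹ * a := by group
      obtain ⟨T, hT⟩ : ∃ T : Subgroup G, T = Subgroup.normalClosure ({z} : Set G) := ⟨_, rfl⟩
      have hTn : T.Normal := by rw [hT]; exact Subgroup.normalClosure_normal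
      have hTc : IsMulCommutative T := by
        rw [hT]; exact Subgroup.isMulCommutative_closure hcomm
      have hzT : z ∈ T := by
        rw [hT]; exact Subgroup.subset_normalClosure (Set.mem_singleton z)
      have hTcomm : ∀ a ∈ T, ∀ b ∈ T, a * b = b * a := fun a ha b hb =>
        congrArg Subtype.val (hTc.is_comm.comm ⟨a, ha⟩ ⟨b, hb⟩)
      have hTsq : ∀ a ∈ T, a ^ 2 = 1 := by
        intro a ha
        have ha' : a ∈ Subgroup.closure (Group.conjugatesOfSet ({z} : Set G)) := by
          rw [hT] at ha; exact ha
        have hclT : ∀ b, b ∈ Subgroup.closure (Group.conjugatesOfSet ({z} : Set G)) → b ∈ T := by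
          intro b hb; rw [hT]; exact hb
        induction ha' using Subgroup.closure_induction with
        | mem b hb =>
          obtain ⟨z', hz', hconj⟩ := Group.mem_conjugatesOfSet_iff.mp hb
          rw [Set.mem_singleton_iff] at hz'
          rw [hz'] at hconj
          obtain ⟨g, hg⟩ := isConj_iff.mp hconj
          rw [← hg, sq]
          calc g * z * g⁻¹ * (g * z * g⁻¹) = g * (z * z) * g⁻¹ := by group
            _ = 1 := by rw [hzz]; group
        | one => exact one_pow 2
        | mul b c hb hc ihb ihc =>
          have hbc : Commute b c := hTcomm b (hclT b hb) c (hclT c hc)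
          rw [hbc.mul_pow, ihb (hclT b hb), ihc (hclT c hc), one_mul]
        | inv b hb ihb => rw [inv_pow, ihb (hclT b hb), inv_one]
      obtain ⟨hne2, hne4⟩ := hne T hTn ⟨hTc, hTsq⟩
      -- conjugates of x under T
      have hTx : ∀ t ∈ T, t * x * t⁻¹ = x ∨ t * x * t⁻¹ = x * z := by
        intro t ht
        obtain ⟨y, hy⟩ : ∃ y : G, y = t * x * t⁻¹ := ⟨_, rfl⟩
        rw [← hy]
        have hq : x * t * x⁻¹ * t⁻¹ ∈ T := T.mul_mem (hTn.conj_mem t ht x) (T.inv_mem ht)
        have hq2 := hTsq _ hq
        have hxy : x * t * x⁻¹ * t⁻¹ = x * y := by rw [hy, hxi]; group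
        rw [hxy, sq] at hq2
        have hyy : y * y = 1 := by
          rw [hy]
          calc t * x * t⁻¹ * (t * x * t⁻¹) = t * (x * x) * t⁻¹ := by group
            _ = 1 := by rw [hxx]; group
        have hyS : y ∈ S := by
          rw [hmemS]
          have h1 : (x * y)⁻¹ = x * y := inv_eq_of_mul_eq_one_left hq2
          rw [mul_inv_rev, hxi, inv_eq_of_mul_eq_one_left hyy] at h1
          exact h1.symm
        rcases hen y hyS with h | h | h | h
        · exact absurd h (hDne y ⟨t, hy.symm⟩)
        · exact Or.inl h
        · exact absurd (hy.symm.trans h) (hzD t)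
        · exact Or.inr h
      have hTS : ∀ t ∈ T, x * t = t * x → t = 1 ∨ t = z ∨ x ∈ T := by
        intro t ht hcomm'
        have htS : t ∈ S := (hmemS t).mpr hcomm'
        rcases hen t htS with h | h | h | h
        · exact Or.inl h
        · right; right; rw [← h]; exact ht
        · exact Or.inr (Or.inl h)
        · right; right
          have e : x = t * z := by rw [h, mul_assoc, hzz, mul_one]
          rw [e]; exact T.mul_mem ht hzT
      have hTle : Nat.card T ≤ 4 := by
        by_cases hxT : x ∈ T
        · have hle : T ≤ S := fun t ht => (hmemS t).mpr (hTcomm x hxT t ht)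
          have h := Subgroup.card_le_of_le hle
          rw [hC4] at h; exact h
        · obtain ⟨t₀, ht₀, hcov⟩ : ∃ t₀ ∈ T, ∀ t ∈ T, t = 1 ∨ t = z ∨ t = t₀ ∨ t = t₀ * z := by
            by_cases hmove : ∃ t₀ ∈ T, t₀ * x * t₀⁻¹ = x * z
            · obtain ⟨t₀, ht₀, hm⟩ := hmove
              refine ⟨t₀, ht₀, ?_⟩
              intro t ht
              rcases hTx t ht with h | h
              · have hc : x * t = t * x := by
                  calc x * t = (t * x * t⁻¹) * t := by rw [h]
                    _ = t * x := by group
                rcases hTS t ht hc with h' | h' | h'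
                · exact Or.inl h'
                · exact Or.inr (Or.inl h')
                · exact absurd h' hxT
              · have hc : x * (t₀⁻¹ * t) = (t₀⁻¹ * t) * x := by
                  have e : t * x * t⁻¹ = t₀ * x * t₀⁻¹ := h.trans hm.symm
                  calc x * (t₀⁻¹ * t) = t₀⁻¹ * (t₀ * x * t₀⁻¹) * t := by group
                    _ = t₀⁻¹ * (t * x * t⁻¹) * t := by rw [e]
                    _ = (t₀⁻¹ * t) * x := by group
                rcases hTS (t₀⁻¹ * t) (T.mul_mem (T.inv_mem ht₀) ht) hc with h' | h' | h'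
                · right; right; left
                  exact (inv_mul_eq_one.mp h').symm
                · right; right; right
                  exact inv_mul_eq_iff_eq_mul.mp h'
                · exact absurd h' hxT
            · push Not at hmove
              refine ⟨1, T.one_mem, ?_⟩
              intro t ht
              rcases hTx t ht with h | h
              · have hc : x * t = t * x := by
                  calc x * t = (t * x * t⁻¹) * t := by rw [h]
                    _ = t * x := by group
                rcases hTS t ht hc with h' | h' | h'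
                · exact Or.inl h'
                · exact Or.inr (Or.inl h')
                · exact absurd h' hxT
              · exact absurd h (hmove t ht)
          have hsub : (T : Set G) ⊆ ({1, z, t₀, t₀ * z} : Set G) := by
            intro t ht
            rcases hcov t ht with h | h | h | h
            · left; exact h
            · right; left; exact h
            · right; right; left; exact h
            · right; right; right; exact h
          have h1 : Nat.card T = (T : Set G).ncard := Nat.card_coe_set_eq _
          have h2 := Set.ncard_le_ncard hsub (Set.toFinite _)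
          have a1 := Set.ncard_insert_le (1 : G) ({z, t₀, t₀ * z} : Set G)
          have a2 := Set.ncard_insert_le z ({t₀, t₀ * z} : Set G)
          have a3 := Set.ncard_insert_le t₀ ({t₀ * z} : Set G)
          have a4 := Set.ncard_singleton (t₀ * z)
          omega
      have hT2 : 2 ≤ Nat.card T := by
        haveI : Nontrivial T :=
          ⟨⟨⟨1, T.one_mem⟩, ⟨z, hzT⟩, fun h => hz1 (congrArg Subtype.val h).symm⟩⟩
        exact Finite.one_lt_card
      have hT3 : Nat.card T ≠ 3 := by
        intro h3
        have hz2 : orderOf z = 2 := orderOf_eq_prime (by rw [sq]; exact hzz) hz1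
        have h := Subgroup.orderOf_dvd_natCard T hzT
        rw [hz2, h3] at h
        omega
      omega
    · -- Case II.2: x is the only conjugate of x in S
      push Not at hxzD
      have honly : ∀ s ∈ S, (∃ g : G, g * x * g⁻¹ = s) → s = x := by
        intro s hs hD
        rcases hen s hs with h | h | h | h
        · exact absurd h (hDne s hD)
        · exact h
        · obtain ⟨g, hg⟩ := hD; exact absurd (hg.trans h) (hzD g)
        · obtain ⟨g, hg⟩ := hD; exact absurd (hg.trans h) (hxzD g)
      have hNS : Subgroup.normalizer (S : Set G) ≤ S := by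
        intro g hg
        rw [Subgroup.mem_normalizer_iff] at hg
        have h1 : g * x * g⁻¹ ∈ S := (hg x).mp hxS
        have h2 := honly _ h1 ⟨g, rfl⟩
        rw [hmemS]
        calc x * g = (g * x * g⁻¹) * g := by rw [h2]
          _ = g * x := by group
      have h8 : ¬ (2 ^ (2 + 1) ∣ Nat.card G) := by
        intro hdvd
        have h := Sylow.prime_dvd_card_quotient_normalizer (p := 2) (n := 2) hdvd (H := S)
          (by rw [hC4]; norm_num)
        have htop : S.comap (Subgroup.normalizer (S : Set G)).subtype = ⊤ := by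
          rw [eq_top_iff]
          intro a _
          exact hNS a.2
        rw [htop] at h
        have h1 : Nat.card (↥(Subgroup.normalizer (S : Set G)) ⧸
            (⊤ : Subgroup ↥(Subgroup.normalizer (S : Set G)))) = 1 := by
          rw [← Subgroup.index_eq_card, Subgroup.index_top]
        rw [h1] at h
        omega
      obtain ⟨P, hSP⟩ := hSp.exists_le_sylow
      have hPcard : Nat.card P = 4 := by
        have h1 := P.card_eq_multiplicity
        have h2 : (Nat.card G).factorization 2 = 2 := by
          have hpos : Nat.card G ≠ 0 := Nat.card_pos.ne'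
          have ha : 2 ≤ (Nat.card G).factorization 2 := by
            rw [← Nat.Prime.pow_dvd_iff_le_factorization Nat.prime_two hpos]
            have h3 := Subgroup.card_subgroup_dvd_card S
            rw [hC4] at h3
            exact h3
          have hb : ¬ 3 ≤ (Nat.card G).factorization 2 := by
            rw [← Nat.Prime.pow_dvd_iff_le_factorization Nat.prime_two hpos]
            exact h8
          omega
        rw [h1, h2]; norm_num
      have hSeqP : S = (P : Subgroup G) :=
        Subgroup.eq_of_le_of_card_ge hSP (by rw [hPcard, hC4])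
      exfalso
      apply hnc
      have hP : Subgroup.normalizer ((P : Subgroup G) : Set G)
          ≤ Subgroup.centralizer ((P : Subgroup G) : Set G) := by
        rw [← hSeqP]
        intro g hg
        have hgS := hNS hg
        rw [Subgroup.mem_centralizer_iff]
        intro h hh
        exact hScomm h hh g hgS
      exact ⟨P, (MonoidHom.transferSylow P hP).ker, inferInstance,
        MonoidHom.ker_transferSylow_isComplement' P hP⟩

end Cfsg.Agent.S3277
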