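import Cfsg.Statements.S3305
import Mathlib

set_option autoImplicit false
open Cfsg

namespace Cfsg.Agent.S3305

/-- If any two distinct Sylow 2-subgroups of the finite group G intersect in a cyclic group, then the same holds in every quotient group G/H, H a normal subgroup of G. -/
theorem result {G : Type*} [Group G] [Finite G]
    (hC : ∀ S T : Sylow 2 G, S ≠ T → IsCyclic ↥((S : Subgroup G) ⊓ (T : Subgroup G))) (H : Subgroup G) [H.Normal] :
    ∀ S T : Sylow 2 (G ⧸ H), S ≠ T → IsCyclic ↥((S : Subgroup (G ⧸ H)) ⊓ (T : Subgroup (G ⧸ H))) := by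
  intro S T hST
  have : Fact (Nat.Prime 2) := ⟨Nat.prime_two⟩
  have hπs : Function.Surjective (QuotientGroup.mk' H) := QuotientGroup.mk'_surjective H
  obtain ⟨S₀, rfl⟩ := Sylow.mapSurjective_surjective hπs 2 S
  obtain ⟨T₀, rfl⟩ := Sylow.mapSurjective_surjective hπs 2 T
  set π := QuotientGroup.mk' H with hπ
  set D₁ : Subgroup G := (S₀ : Subgroup G) ⊓ ((T₀ : Subgroup G).map π).comap π with hD₁
  have hD₁S : D₁ ≤ S₀ := inf_le_left
  have hD₁p : IsPGroup 2 D₁ := S₀.isPGroup'.to_le hD₁S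
  set L : Subgroup G := (T₀ : Subgroup G) ⊔ H with hL
  have hTL : (T₀ : Subgroup G) ≤ L := le_sup_left
  have hHL : H ≤ L := le_sup_right
  have hD₁L : D₁ ≤ L := by
    intro x hx
    have h1 : π x ∈ (T₀ : Subgroup G).map π := hx.2
    obtain ⟨t, ht, hte⟩ := h1
    have h2 : t⁻¹ * x ∈ H := by
      rw [← QuotientGroup.eq]; exact hte
    have h3 : x = t * (t⁻¹ * x) := by group
    rw [h3]
    exact mul_mem (hTL ht) (hHL h2)
  have hLπ : ∀ x ∈ L, π x ∈ (T₀ : Subgroup G).map π := by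
    intro x hx
    have : L.map π ≤ (T₀ : Subgroup G).map π := by
      rw [hL, Subgroup.map_sup]
      have : H.map π = ⊥ := (Subgroup.map_eq_bot_iff _).mpr (by rw [hπ, QuotientGroup.ker_mk'])
      rw [this, sup_bot_eq]
    exact this (Subgroup.mem_map_of_mem π hx)
  obtain ⟨Q, hQ⟩ := (hD₁p.comap_subtype (K := L)).exists_le_sylow
  obtain ⟨x, hx⟩ := MulAction.exists_smul_eq L (T₀.subtype hTL) Q
  rw [Sylow.smul_subtype] at hx
  set T₁ : Sylow 2 G := x • T₀ with hT₁
  have hD₁T₁ : D₁ ≤ T₁ := by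
    intro d hd
    have h1 : (⟨d, hD₁L hd⟩ : L) ∈ D₁.subgroupOf L := by
      rw [Subgroup.mem_subgroupOf]; exact hd
    have h2 := hQ h1
    rw [← hx] at h2
    exact h2
  have hT₁π : (T₁ : Subgroup G).map π ≤ (T₀ : Subgroup G).map π := by
    rintro _ ⟨y, hy, rfl⟩
    have hy' : y ∈ (((x : G) • T₀ : Sylow 2 G) : Subgroup G) := hy
    rw [Sylow.coe_subgroup_smul, Subgroup.mem_pointwise_smul_iff_inv_smul_mem, MulAut.smul_def,
      MulAut.conj_inv_apply] at hy'
    have h3 : π y = π x * π ((x : G)⁻¹ * y * x) * (π x)⁻¹ := by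
      simp only [map_mul, map_inv]; group
    rw [h3]
    exact mul_mem (mul_mem (hLπ x x.2) (Subgroup.mem_map_of_mem π hy')) (inv_mem (hLπ x x.2))
  by_cases hST₁ : S₀ = T₁
  · exfalso
    apply hST
    apply Sylow.ext
    rw [Sylow.coe_mapSurjective, Sylow.coe_mapSurjective, hST₁]
    have := (T₁.mapSurjective hπs).is_maximal' (T₀.mapSurjective hπs).isPGroup' hT₁π
    exact this.symm
  · have hcyc : IsCyclic ↥((S₀ : Subgroup G) ⊓ (T₁ : Subgroup G)) := hC S₀ T₁ hST₁
    have hcyc₁ : IsCyclic ↥D₁ := Subgroup.isCyclic_of_le (le_inf hD₁S hD₁T₁)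
    have hcyc₂ : IsCyclic ↥(D₁.map π) :=
      isCyclic_of_surjective (π.subgroupMap D₁) (π.subgroupMap_surjective D₁)
    refine Subgroup.isCyclic_of_le (H' := D₁.map π) ?_
    rintro y ⟨hyS, hyT⟩
    obtain ⟨s, hs, rfl⟩ := hyS
    exact Subgroup.mem_map_of_mem π ⟨hs, hyT⟩

end Cfsg.Agent.S3305
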