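import Cfsg.Statements.S3349
import Mathlib

set_option autoImplicit false
open Cfsg

namespace Cfsg.Agent.S3349

open scoped commutatorElement

/-- Let Q be a finite extraspecial p-group and α an automorphism of Q fixing every element of some maximal abelian subgroup of Q. Then the order of α is a power of p. -/
theorem result {Q : Type*} [Group Q] [Finite Q]
    (p : ℕ) [Fact p.Prime] (hQ : Cfsg.IsExtraspecial p Q) (α : MulAut Q)
    (A : Subgroup Q) (hA : IsMulCommutative A) (hmax : ∀ B : Subgroup Q, A ≤ B → IsMulCommutative B → B = A)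
    (hfix : ∀ a ∈ A, α a = a) :
    ∃ k : ℕ, orderOf α = p ^ k := by
  classical
  obtain ⟨⟨hPG, -, hcomm⟩, -⟩ := hQ
  obtain ⟨n, hn⟩ := (IsPGroup.iff_card).1 hPG
  have hAc : ∀ a ∈ A, ∀ b ∈ A, a * b = b * a := by
    intro a ha b hb
    exact congrArg Subtype.val (hA.is_comm.comm ⟨a, ha⟩ ⟨b, hb⟩)
  -- elements commuting with A lie in A
  have hCA : ∀ x : Q, (∀ a ∈ A, a * x = x * a) → x ∈ A := by
    intro x hx
    have hc : IsMulCommutative (Subgroup.closure ((A : Set Q) ∪ {x})) := by
      apply Subgroup.isMulCommutative_closure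
      intro a ha b hb
      rcases ha with ha | ha <;> rcases hb with hb | hb
      · exact hAc a ha b hb
      · rw [Set.mem_singleton_iff] at hb; subst hb; exact hx a ha
      · rw [Set.mem_singleton_iff] at ha; subst ha; exact (hx b hb).symm
      · rw [Set.mem_singleton_iff] at ha hb; subst ha; subst hb; rfl
    have hle : A ≤ Subgroup.closure ((A : Set Q) ∪ {x}) := by
      intro a ha
      exact Subgroup.subset_closure (Or.inl ha)
    have := hmax _ hle hc
    rw [← this]
    exact Subgroup.subset_closure (Or.inr rfl)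
  have hZA : Subgroup.center Q ≤ A := by
    intro z hz
    apply hCA
    intro a _
    exact (Subgroup.mem_center_iff.1 hz a)
  have hcA : ∀ x : Q, x⁻¹ * α x ∈ A := by
    intro x
    apply hCA
    intro a ha
    have h1 : ⁅x, a⁆ ∈ A := by
      apply hZA
      rw [← hcomm]
      exact Subgroup.commutator_mem_commutator (Subgroup.mem_top x) (Subgroup.mem_top a)
    have h2 := hfix _ h1
    rw [map_commutatorElement, hfix a ha, commutatorElement_def, commutatorElement_def] at h2
    have h3 : α x * a * (α x)⁻¹ = x * a * x⁻¹ := by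
      have := congrArg (· * a) h2
      simpa using this
    calc a * (x⁻¹ * α x) = x⁻¹ * (x * a * x⁻¹) * α x := by group
      _ = x⁻¹ * (α x * a * (α x)⁻¹) * α x := by rw [h3]
      _ = x⁻¹ * α x * a := by group
  have hpow : ∀ (k : ℕ) (x : Q), (α ^ k) x = x * (x⁻¹ * α x) ^ k := by
    intro k
    induction k with
    | zero => intro x; simp
    | succ k ih =>
      intro x
      rw [pow_succ', MulAut.mul_apply, ih, map_mul, map_pow, hfix _ (hcA x), pow_succ',
        ← mul_assoc x, mul_inv_cancel_left]
  have hone : α ^ Nat.card Q = 1 := by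
    ext x
    rw [hpow, pow_card_eq_one', mul_one]
    rfl
  have hdvd : orderOf α ∣ p ^ n := by
    rw [← hn]
    exact orderOf_dvd_of_pow_eq_one hone
  obtain ⟨k, -, hk⟩ := (Nat.dvd_prime_pow (Fact.out : p.Prime)).1 hdvd
  exact ⟨k, hk⟩

end Cfsg.Agent.S3349
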