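import Mathlib
import Cfsg.Statements.S3378
import Cfsg.Agent.Helper18.Small
import Cfsg.Agent.Helper18.SL25Iso
import Cfsg.Agent.Helper1.Frob
import Cfsg.Agent.S0494
import Cfsg.Agent.S3377
-- import your own Cfsg.Agent.* helpers here

set_option autoImplicit false
open Cfsg

namespace Cfsg.Agent.S3378

open Cfsg.Agent.Helper18 Cfsg.Agent.Helper18.Small
open scoped Pointwise

theorem q1 : ∀ q : QuaternionGroup 2, q ^ 2 = 1 → q = 1 ∨ q = QuaternionGroup.a 2 := by decide
theorem q2 : ∀ q : QuaternionGroup 2, q ≠ 1 →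
    q = QuaternionGroup.a 2 ∨ q ^ 2 = QuaternionGroup.a 2 := by decide
theorem q3 : ∀ q : QuaternionGroup 2, q * QuaternionGroup.a 2 = QuaternionGroup.a 2 * q := by
  decide
theorem q4 : (QuaternionGroup.a 2 : QuaternionGroup 2) ≠ 1 := by decide
theorem q5 : (QuaternionGroup.a 2 : QuaternionGroup 2) ^ 2 = 1 := by decide

/-- A subgroup of Alt(5) containing both standard generators is everything. -/
theorem alt_top (R : Subgroup (alternatingGroup (Fin 5))) (hAR : S3377.gA ∈ R)
    (hBR : S3377.gB ∈ R) : R = ⊤ := by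
  have hc60 : Nat.card (alternatingGroup (Fin 5)) = 60 := by
    rw [nat_card_alternatingGroup]
    simp [Nat.factorial]
  have hABR : S3377.gA * S3377.gB ∈ R := R.mul_mem hAR hBR
  have oA : orderOf S3377.gA = 3 := by
    have : Fact (Nat.Prime 3) := ⟨by norm_num⟩
    exact orderOf_eq_prime S3377.gA_pow S3377.gA_ne
  have oB : orderOf S3377.gB = 5 := by
    have : Fact (Nat.Prime 5) := ⟨by norm_num⟩
    exact orderOf_eq_prime S3377.gB_pow S3377.gB_ne
  have oAB : orderOf (S3377.gA * S3377.gB) = 2 := by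
    have : Fact (Nat.Prime 2) := ⟨by norm_num⟩
    exact orderOf_eq_prime S3377.gAB_pow S3377.gAB_ne
  have d3 : 3 ∣ Nat.card R := by
    have h := Subgroup.orderOf_dvd_natCard R hAR
    rw [oA] at h; exact h
  have d5 : 5 ∣ Nat.card R := by
    have h := Subgroup.orderOf_dvd_natCard R hBR
    rw [oB] at h; exact h
  have d2 : 2 ∣ Nat.card R := by
    have h := Subgroup.orderOf_dvd_natCard R hABR
    rw [oAB] at h; exact h
  have d15 : 15 ∣ Nat.card R :=
    Nat.Coprime.mul_dvd_of_dvd_of_dvd (by norm_num : Nat.Coprime 3 5) d3 d5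
  have d30 : 30 ∣ Nat.card R :=
    Nat.Coprime.mul_dvd_of_dvd_of_dvd (by norm_num : Nat.Coprime 2 15) d2 d15
  have hidx : Nat.card R * R.index = 60 := by rw [Subgroup.card_mul_index, hc60]
  obtain ⟨m, hm⟩ := d30
  have h1 : 30 * (m * R.index) = 30 * 2 := by rw [← mul_assoc, ← hm]; exact hidx
  have h2 : m * R.index = 2 := Nat.eq_of_mul_eq_mul_left (by norm_num) h1
  have h3 : R.index ∣ 2 := ⟨m, by rw [mul_comm]; exact h2.symm⟩
  rcases (Nat.dvd_prime Nat.prime_two).1 h3 with h4 | h4
  · exact Subgroup.index_eq_one.1 h4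
  · have hn : R.Normal := Subgroup.normal_of_index_eq_two h4
    have hsim : IsSimpleGroup (alternatingGroup (Fin 5)) :=
      alternatingGroup.isSimpleGroup (by simp)
    refine (IsSimpleGroup.eq_bot_or_eq_top_of_normal R hn).resolve_left ?_
    intro hb
    rw [hb, Subgroup.card_bot] at d3
    norm_num at d3

/-- The elements of the group generated by an involution. -/
theorem zpowers_invol {G : Type*} [Group G] {t : G} (ht : t ^ 2 = 1) :
    ∀ n ∈ Subgroup.zpowers t, n = 1 ∨ n = t := by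
  intro n hn
  obtain ⟨k, rfl⟩ := Subgroup.mem_zpowers_iff.mp hn
  obtain ⟨m, hm | hm⟩ := Int.even_or_odd' k
  · left
    rw [hm, zpow_mul, zpow_ofNat, ht, one_zpow]
  · right
    rw [hm, zpow_add, zpow_mul, zpow_ofNat, ht, one_zpow, one_mul, zpow_one]

/-- The data of a quaternion subgroup of order 8. -/
theorem sylow_data {G : Type*} [Group G] (P : Subgroup G) (e : P ≃* QuaternionGroup 2) :
    ∃ z : G, z ∈ P ∧ z ≠ 1 ∧ z ^ 2 = 1 ∧ (∀ t ∈ P, t ^ 2 = 1 → t = 1 ∨ t = z) ∧
      (∀ p ∈ P, p ≠ 1 → p = z ∨ p ^ 2 = z) ∧ (∀ p ∈ P, p * z = z * p) ∧ Nat.card P = 8 := by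
  obtain ⟨w, hw⟩ : ∃ w : P, w = e.symm (QuaternionGroup.a 2) := ⟨_, rfl⟩
  have hew : e w = QuaternionGroup.a 2 := by rw [hw, e.apply_symm_apply]
  refine ⟨(w : G), w.2, ?_, ?_, ?_, ?_, ?_, ?_⟩
  · intro h
    have h1 : w = 1 := Subtype.ext h
    rw [h1, map_one] at hew
    exact q4 hew.symm
  · have h1 : w ^ 2 = 1 := by
      apply e.injective
      rw [map_pow, hew, map_one]; exact q5
    have h2 := congrArg (Subtype.val) h1
    simpa using h2
  · intro t ht ht2
    have h1 : (e ⟨t, ht⟩) ^ 2 = 1 := by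
      rw [← map_pow, ← map_one e]
      congr 1
      exact Subtype.ext (by simpa using ht2)
    rcases q1 _ h1 with h | h
    · left
      have : (⟨t, ht⟩ : P) = 1 := e.injective (by rw [h, map_one])
      exact congrArg Subtype.val this
    · right
      have : (⟨t, ht⟩ : P) = w := e.injective (by rw [h, hew])
      exact congrArg Subtype.val this
  · intro p hp hp1
    have h1 : e ⟨p, hp⟩ ≠ 1 := by
      intro h
      apply hp1
      have : (⟨p, hp⟩ : P) = 1 := e.injective (by rw [h, map_one])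
      exact congrArg Subtype.val this
    rcases q2 _ h1 with h | h
    · left
      have : (⟨p, hp⟩ : P) = w := e.injective (by rw [h, hew])
      exact congrArg Subtype.val this
    · right
      have : (⟨p, hp⟩ : P) ^ 2 = w := e.injective (by rw [map_pow, h, hew])
      have h2 := congrArg Subtype.val this
      simpa using h2
  · intro p hp
    have : (⟨p, hp⟩ : P) * w = w * ⟨p, hp⟩ := e.injective (by rw [map_mul, map_mul, hew]; exact q3 _)
    have h2 := congrArg Subtype.val this
    simpa using h2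
  · rw [Nat.card_congr e.toEquiv, Nat.card_eq_fintype_card, QuaternionGroup.card]

/-- Every involution is conjugate to the involution of a fixed Sylow 2-subgroup. -/
theorem invol_conj {G : Type*} [Group G] [Finite G] (P : Sylow 2 G) (z : G)
    (hP1 : ∀ t ∈ (P : Subgroup G), t ^ 2 = 1 → t = 1 ∨ t = z) (t : G) (ht : t ^ 2 = 1)
    (ht1 : t ≠ 1) : ∃ g : G, g * t * g⁻¹ = z := by
  have : Fact (Nat.Prime 2) := ⟨Nat.prime_two⟩
  have hp : IsPGroup 2 (Subgroup.zpowers t) := by
    apply IsPGroup.of_card (n := 1)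
    rw [Nat.card_zpowers, pow_one]
    exact orderOf_eq_prime ht ht1
  obtain ⟨Q, hQ⟩ := hp.exists_le_sylow
  obtain ⟨g, hg⟩ := MulAction.exists_smul_eq G Q P
  refine ⟨g, ?_⟩
  have h1 : g * t * g⁻¹ ∈ (P : Subgroup G) := by
    rw [← hg, Sylow.coe_subgroup_smul, Subgroup.mem_pointwise_smul_iff_inv_smul_mem]
    have h2 : t ∈ (Q : Subgroup G) := hQ (Subgroup.mem_zpowers t)
    simpa [MulAut.smul_def, mul_assoc] using h2
  have h3 : (g * t * g⁻¹) ^ 2 = 1 := by
    rw [conj_pow, ht, mul_one, mul_inv_cancel]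
  rcases hP1 _ h1 h3 with h | h
  · exfalso
    apply ht1
    have : t = g⁻¹ * (g * t * g⁻¹) * g := by group
    rw [this, h]; group
  · exact h

/-- The involution of a Sylow 2-subgroup is central. -/
theorem central_invol.{u} (G : Type u) [Group G] [Finite G] (hc : Nat.card G = 120)
    (hns : ¬ Group.IsSolvable G) (P : Sylow 2 G) (z : G) (hz1 : z ≠ 1) (hz2 : z ^ 2 = 1)
    (hP1 : ∀ t ∈ (P : Subgroup G), t ^ 2 = 1 → t = 1 ∨ t = z)
    (hP2 : ∀ p ∈ (P : Subgroup G), p ≠ 1 → p = z ∨ p ^ 2 = z)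
    (hP3 : ∀ p ∈ (P : Subgroup G), p * z = z * p)
    (hP8 : Nat.card (P : Subgroup G) = 8) : ∀ g : G, g * z = z * g := by
  classical
  have hconj : ∀ t : G, t ^ 2 = 1 → t ≠ 1 → ∃ g : G, g * t * g⁻¹ = z := invol_conj P z hP1
  obtain ⟨C, hC⟩ : ∃ C : Subgroup G, C = Subgroup.centralizer {z} := ⟨_, rfl⟩
  have hmemC : ∀ g : G, g ∈ C ↔ g * z = z * g := by
    intro g
    rw [hC, Subgroup.mem_centralizer_iff]
    constructor
    · intro h; exact (h z rfl).symm
    · intro h y hy
      rw [Set.mem_singleton_iff] at hy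
      rw [hy]; exact h.symm
  have hPC : (P : Subgroup G) ≤ C := fun p hp => (hmemC p).mpr (hP3 p hp)
  have hd1 : 8 ∣ Nat.card C := hP8 ▸ Subgroup.card_dvd_of_le hPC
  have hd2 : Nat.card C ∣ 120 := hc ▸ Subgroup.card_subgroup_dvd_card C
  have hcases : Nat.card C = 8 ∨ Nat.card C = 24 ∨ Nat.card C = 40 ∨ Nat.card C = 120 := by
    obtain ⟨m, hm⟩ := hd1
    rw [hm] at hd2 ⊢
    have hm15 : m ∣ 15 := by
      have : 8 * m ∣ 8 * 15 := hd2
      exact (Nat.mul_dvd_mul_iff_left (by norm_num)).mp this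
    have hmem : m ∈ Nat.divisors 15 := Nat.mem_divisors.mpr ⟨hm15, by norm_num⟩
    have h15 : Nat.divisors 15 = {1, 3, 5, 15} := by decide
    rw [h15] at hmem
    simp only [Finset.mem_insert, Finset.mem_singleton] at hmem
    rcases hmem with rfl | rfl | rfl | rfl <;> simp
  have hidx : Nat.card C * C.index = 120 := by rw [Subgroup.card_mul_index, hc]
  -- the normal core of the centralizer
  obtain ⟨K, hK⟩ : ∃ K : Subgroup G, K = C.normalCore := ⟨_, rfl⟩
  have hKn : K.Normal := by rw [hK]; infer_instance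
  have hKC : K ≤ C := by rw [hK]; exact Subgroup.normalCore_le C
  have hKidx : Nat.card K * K.index = 120 := by rw [Subgroup.card_mul_index, hc]
  have hKle : K.index ≤ (C.index).factorial := by
    rw [hK, Subgroup.normalCore_eq_ker, Subgroup.index_ker]
    have h1 : Nat.card (Equiv.Perm (G ⧸ C)) = (C.index).factorial := by
      rw [Nat.card_perm, Subgroup.index_eq_card]
    rw [← h1]
    exact Subgroup.card_le_card_group _
  have hsolv : Nat.card C < 60 → K.index < 60 → False := by
    intro h1 h2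
    apply hns
    have h3 : Nat.card K < 60 := lt_of_le_of_lt (Subgroup.card_le_of_le hKC) h1
    have h4 : Nat.card (G ⧸ K) < 60 := by rw [← Subgroup.index_eq_card]; exact h2
    exact solvable_of_normal K (solvable_of_card_lt_sixty _ K rfl h3)
      (solvable_of_card_lt_sixty _ (G ⧸ K) rfl h4)
  have hcentral : Nat.card C = 120 := by
    rcases hcases with h8 | h24 | h40 | h120
    · exfalso
      have hCP : (P : Subgroup G) = C := Subgroup.eq_of_le_of_card_ge hPC (by rw [h8, hP8])
      have hTI : ∀ g : G, g ∉ C → C ⊓ MulAut.conj g • C = ⊥ := by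
        intro g hg
        rw [eq_bot_iff]
        intro c hc'
        rw [Subgroup.mem_inf, Helper1.mem_conj_smul] at hc'
        obtain ⟨hc1, hc2⟩ := hc'
        rw [Subgroup.mem_bot]
        by_contra hne
        have hzc : g⁻¹ * z * g ∈ C := by
          rcases hP2 c (hCP ▸ hc1) hne with h | h
          · rw [← h]; exact hc2
          · have h5 : g⁻¹ * z * g = (g⁻¹ * c * g) ^ 2 := by
              rw [← h]; simp only [pow_two]; group
            rw [h5]; exact C.pow_mem hc2 2
        have hinv : (g⁻¹ * z * g) ^ 2 = 1 := by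
          have h5 : (g⁻¹ * z * g) ^ 2 = g⁻¹ * z ^ 2 * g := by
            simp only [pow_two]; group
          rw [h5, hz2]; group
        rcases hP1 _ (hCP ▸ hzc) hinv with h | h
        · apply hz1
          have h5 : z = g * (g⁻¹ * z * g) * g⁻¹ := by group
          rw [h5, h]; group
        · apply hg
          rw [hmemC]
          have h5 : g * z = g * (g⁻¹ * z * g) := by rw [h]
          rw [h5]; group
      have hmod := Helper1.index_mod_card C hTI
      have hi : C.index = 15 := by rw [h8] at hidx; omega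
      rw [hi, h8] at hmod
      norm_num at hmod
    · exfalso
      have hi : C.index = 5 := by rw [h24] at hidx; omega
      rw [hi] at hKle
      have hK120 : K.index ≤ 120 := hKle
      by_cases hKb : K = ⊥
      · -- the group would be the symmetric group of degree five
        obtain ⟨φ, hφ⟩ : ∃ φ : G →* Equiv.Perm (G ⧸ C), φ = MulAction.toPermHom G (G ⧸ C) :=
          ⟨_, rfl⟩
        have hφinj : Function.Injective φ := by
          rw [← MonoidHom.ker_eq_bot_iff, hφ, ← Subgroup.normalCore_eq_ker, ← hK, hKb]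
        have h5 : Nat.card (G ⧸ C) = 5 := by rw [← Subgroup.index_eq_card]; exact hi
        obtain ⟨ε⟩ : Nonempty ((G ⧸ C) ≃ Fin 5) := ⟨Finite.equivFinOfCardEq h5⟩
        obtain ⟨ψ, hψ⟩ : ∃ ψ : G →* Equiv.Perm (Fin 5),
            ψ = (Equiv.permCongrHom ε).toMonoidHom.comp φ := ⟨_, rfl⟩
        have hψinj : Function.Injective ψ := by
          rw [hψ]
          exact (Equiv.permCongrHom ε).injective.comp hφinj
        have hψbij : Function.Bijective ψ := by
          apply hψinj.bijective_of_nat_card_le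
          rw [hc, Nat.card_perm]
          simp [Nat.factorial]
        obtain ⟨s, hs⟩ := hψbij.2 (Equiv.swap (0 : Fin 5) 1)
        obtain ⟨t, ht⟩ := hψbij.2 (Equiv.swap (0 : Fin 5) 1 * Equiv.swap 2 3)
        have hs2 : s ^ 2 = 1 := by
          apply hψinj
          rw [map_pow, hs, map_one]; decide
        have ht2 : t ^ 2 = 1 := by
          apply hψinj
          rw [map_pow, ht, map_one]; decide
        have hs1 : s ≠ 1 := by
          intro h
          rw [h, map_one] at hs
          revert hs; decide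
        have ht1 : t ≠ 1 := by
          intro h
          rw [h, map_one] at ht
          revert ht; decide
        obtain ⟨g1, hg1⟩ := hconj s hs2 hs1
        obtain ⟨g2, hg2⟩ := hconj t ht2 ht1
        have h6 : ψ (g1 * s * g1⁻¹) = ψ (g2 * t * g2⁻¹) := by rw [hg1, hg2]
        rw [map_mul, map_mul, map_mul, map_mul, map_inv, map_inv, hs, ht] at h6
        have h7 := congrArg Equiv.Perm.sign h6
        rw [map_mul, map_mul, map_mul, map_mul, map_inv, map_inv, mul_inv_cancel_comm,
          mul_inv_cancel_comm, map_mul] at h7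
        revert h7; decide
      · have hKgt : 1 < Nat.card K := by
          rw [Finite.one_lt_card_iff_nontrivial]
          exact (Subgroup.nontrivial_iff_ne_bot K).mpr hKb
        have hK60 : ¬ K.index < 60 := fun h => hsolv (by omega) h
        have hK2 : Nat.card K = 2 := by
          push Not at hK60
          nlinarith
        obtain ⟨⟨t, htK⟩, ht1'⟩ := (Subgroup.ne_bot_iff_exists_ne_one).mp hKb
        have ht1 : t ≠ 1 := fun h => ht1' (Subtype.ext h)
        have ht2 : t ^ 2 = 1 := by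
          rw [← orderOf_dvd_iff_pow_eq_one, ← hK2]
          exact Subgroup.orderOf_dvd_natCard K htK
        have hzt : Subgroup.zpowers t = K := by
          apply Subgroup.eq_of_le_of_card_ge (Subgroup.zpowers_le.mpr htK)
          rw [Nat.card_zpowers, hK2]
          have : Fact (Nat.Prime 2) := ⟨Nat.prime_two⟩
          exact (orderOf_eq_prime ht2 ht1).ge
        have htc : ∀ g : G, g * t * g⁻¹ = t := by
          intro g
          have h1 : g * t * g⁻¹ ∈ Subgroup.zpowers t := by
            rw [hzt]; exact hKn.conj_mem t htK g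
          rcases zpowers_invol ht2 _ h1 with h | h
          · exfalso
            apply ht1
            have h5 : t = g⁻¹ * (g * t * g⁻¹) * g := by group
            rw [h5, h]; group
          · exact h
        obtain ⟨g0, hg0⟩ := hconj t ht2 ht1
        have htz : t = z := by rw [← hg0]; exact (htc g0).symm
        have hCtop : C = ⊤ := by
          rw [eq_top_iff]
          intro g _
          rw [hmemC]
          have h5 := htc g
          rw [htz] at h5
          have h6 : g * z = (g * z * g⁻¹) * g := by group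
          rw [h6, h5]
        rw [hCtop, Subgroup.card_top, hc] at h24
        omega
    · exfalso
      have hi : C.index = 3 := by rw [h40] at hidx; omega
      rw [hi] at hKle
      have h6 : K.index ≤ 6 := hKle
      exact hsolv (by omega) (by omega)
    · exact h120
  have hCtop : C = ⊤ := (Subgroup.card_eq_iff_eq_top C).mp (by rw [hcentral, hc])
  intro g
  rw [← hmemC, hCtop]
  exact Subgroup.mem_top g

/-- The first half of the statement. -/
theorem main.{u} (G : Type u) [Group G] [Finite G] (hc : Nat.card G = 120)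
    (hns : ¬ Group.IsSolvable G)
    (hQ : ∀ P : Sylow 2 G, Nonempty ((P : Subgroup G) ≃* QuaternionGroup 2)) :
    Nonempty (G ≃* Matrix.SpecialLinearGroup (Fin 2) (ZMod 5)) := by
  classical
  have hf2 : Fact (Nat.Prime 2) := ⟨Nat.prime_two⟩
  obtain ⟨P⟩ : Nonempty (Sylow 2 G) := inferInstance
  obtain ⟨e⟩ := hQ P
  obtain ⟨z, hzP, hz1, hz2, hP1, hP2, hP3, hP8⟩ := sylow_data (P : Subgroup G) e
  have hconj : ∀ t : G, t ^ 2 = 1 → t ≠ 1 → ∃ g : G, g * t * g⁻¹ = z := invol_conj P z hP1
  have hzc : ∀ g : G, g * z = z * g := central_invol G hc hns P z hz1 hz2 hP1 hP2 hP3 hP8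
  obtain ⟨Z, hZ⟩ : ∃ Z : Subgroup G, Z = Subgroup.zpowers z := ⟨_, rfl⟩
  have hZmem : ∀ n ∈ Z, n = 1 ∨ n = z := by rw [hZ]; exact zpowers_invol hz2
  have hzZ : z ∈ Z := by rw [hZ]; exact Subgroup.mem_zpowers z
  have hZn : Z.Normal := by
    constructor
    intro n hn g
    rcases hZmem n hn with h | h
    · rw [h, mul_one, mul_inv_cancel]; exact Z.one_mem
    · rw [h, hzc g, mul_inv_cancel_right]; exact hzZ
  have hZ2 : Nat.card Z = 2 := by
    rw [hZ, Nat.card_zpowers]
    exact orderOf_eq_prime hz2 hz1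
  have hQ60 : Nat.card (G ⧸ Z) = 60 := by
    have h1 := Subgroup.card_mul_index Z
    rw [hZ2, hc, Subgroup.index_eq_card] at h1
    omega
  have hQns : ¬ Group.IsSolvable (G ⧸ Z) := by
    intro h
    exact hns (solvable_of_normal Z (solvable_of_card_lt_sixty _ Z rfl (by omega)) h)
  have hQs : IsSimpleGroup (G ⧸ Z) := simple_of_card_sixty hQ60 hQns
  obtain ⟨e₂⟩ := Cfsg.Agent.S0494.result hQ60
  obtain ⟨π, hπ⟩ : ∃ π : G →* alternatingGroup (Fin 5),
      π = e₂.toMonoidHom.comp (QuotientGroup.mk' Z) := ⟨_, rfl⟩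
  have hπs : Function.Surjective π := by
    rw [hπ]
    exact e₂.surjective.comp (QuotientGroup.mk'_surjective Z)
  have hπk : ∀ g : G, π g = 1 → g = 1 ∨ g = z := by
    intro g hg
    apply hZmem
    rw [hπ] at hg
    have h1 : e₂ (QuotientGroup.mk' Z g) = 1 := hg
    have h2 : QuotientGroup.mk' Z g = 1 := e₂.injective (by rw [h1, map_one])
    exact (QuotientGroup.eq_one_iff g).mp h2
  have hπz : π z = 1 := by
    rw [hπ]
    have h1 : QuotientGroup.mk' Z z = 1 := (QuotientGroup.eq_one_iff z).mpr hzZ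
    show e₂ (QuotientGroup.mk' Z z) = 1
    rw [h1, map_one]
  have hπk2 : ∀ g : G, π g = 1 → g ^ 2 = 1 := by
    intro g hg
    rcases hπk g hg with h | h
    · rw [h, one_pow]
    · rw [h, hz2]
  obtain ⟨a₀, ha₀⟩ := hπs S3377.gA
  obtain ⟨b₀, hb₀⟩ := hπs S3377.gB
  obtain ⟨x, hx⟩ : ∃ x : G, x = a₀ ^ 4 := ⟨_, rfl⟩
  obtain ⟨y, hy⟩ : ∃ y : G, y = b₀ ^ 6 := ⟨_, rfl⟩
  have hx3 : x ^ 3 = 1 := by
    have h1 : (a₀ ^ 3) ^ 2 = 1 := hπk2 _ (by rw [map_pow, ha₀, S3377.gA_pow])
    rw [hx, ← pow_mul]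
    have h2 : a₀ ^ (4 * 3) = ((a₀ ^ 3) ^ 2) ^ 2 := by rw [← pow_mul, ← pow_mul]
    rw [h2, h1, one_pow]
  have hy5 : y ^ 5 = 1 := by
    have h1 : (b₀ ^ 5) ^ 2 = 1 := hπk2 _ (by rw [map_pow, hb₀, S3377.gB_pow])
    rw [hy, ← pow_mul]
    have h2 : b₀ ^ (6 * 5) = ((b₀ ^ 5) ^ 2) ^ 3 := by rw [← pow_mul, ← pow_mul]
    rw [h2, h1, one_pow]
  have hπx : π x = S3377.gA := by
    rw [hx, map_pow, ha₀]
    have h1 : S3377.gA ^ 4 = S3377.gA ^ 3 * S3377.gA := pow_succ _ 3
    rw [h1, S3377.gA_pow, one_mul]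
  have hπy : π y = S3377.gB := by
    rw [hy, map_pow, hb₀]
    have h1 : S3377.gB ^ 6 = S3377.gB ^ 5 * S3377.gB := pow_succ _ 5
    rw [h1, S3377.gB_pow, one_mul]
  have hxyz : (x * y) ^ 2 = z := by
    have h1 : π ((x * y) ^ 2) = 1 := by rw [map_pow, map_mul, hπx, hπy, S3377.gAB_pow]
    rcases hπk _ h1 with h | h
    · exfalso
      have h2 : x * y ≠ 1 := by
        intro h3
        have h4 : π (x * y) = 1 := by rw [h3, map_one]
        rw [map_mul, hπx, hπy] at h4
        exact S3377.gAB_ne h4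
      obtain ⟨g, hg⟩ := hconj (x * y) h h2
      have h3 : x * y = z := by
        have h4 : x * y = g⁻¹ * (g * (x * y) * g⁻¹) * g := by group
        rw [h4, hg, mul_assoc, ← hzc g, inv_mul_cancel_left]
      have h4 : π (x * y) = 1 := by rw [h3, hπz]
      rw [map_mul, hπx, hπy] at h4
      exact S3377.gAB_ne h4
    · exact h
  obtain ⟨φ, hφx, hφy, hφz⟩ := SL25Iso.exists_hom x y z hx3 hy5 hz2 (hzc x).symm (hzc y).symm hxyz
  have hφs : Function.Surjective φ := by
    rw [← MonoidHom.range_eq_top, eq_top_iff]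
    obtain ⟨R, hR⟩ : ∃ R : Subgroup G, R = φ.range := ⟨_, rfl⟩
    rw [← hR]
    have hxR : x ∈ R := by rw [hR]; exact ⟨_, hφx⟩
    have hyR : y ∈ R := by rw [hR]; exact ⟨_, hφy⟩
    have hzR : z ∈ R := by rw [hR]; exact ⟨_, hφz⟩
    have hT : R.map π = ⊤ := by
      apply alt_top
      · exact ⟨x, hxR, hπx⟩
      · exact ⟨y, hyR, hπy⟩
    intro g _
    have h1 : π g ∈ R.map π := by rw [hT]; exact Subgroup.mem_top _
    obtain ⟨r, hr, hrg⟩ := h1
    have h2 : π (r⁻¹ * g) = 1 := by rw [map_mul, map_inv, hrg, inv_mul_cancel]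
    have h3 : r⁻¹ * g ∈ R := by
      rcases hπk _ h2 with h | h
      · rw [h]; exact R.one_mem
      · rw [h]; exact hzR
    have h4 : g = r * (r⁻¹ * g) := by group
    rw [h4]; exact R.mul_mem hr h3
  have hφb := SL25Iso.bijective_of_surjective φ hφs (by rw [hc])
  obtain ⟨e₃, -⟩ := SL25Iso.exists_iso
  exact ⟨(MulEquiv.ofBijective φ hφb).symm.trans e₃⟩

/-- Every non-solvable group of order 120 whose Sylow 2-subgroups are quaternion of order 8 is isomorphic to SL(2,5), and SL(2,5) has the presentation ⟨x, y, z | x³ = y⁵ = z² = 1, z⁻¹xz = x, z⁻¹yz = y, (xy)² = z⟩. -/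
theorem result :
    (∀ (G : Type*) [Group G] [Finite G], Nat.card G = 120 → ¬ Group.IsSolvable G →
      (∀ P : Sylow 2 G, Nonempty ((P : Subgroup G) ≃* QuaternionGroup 2)) →
      Nonempty (G ≃* Matrix.SpecialLinearGroup (Fin 2) (ZMod 5))) ∧
    Nonempty (PresentedGroup ({FreeGroup.of (0 : Fin 3) ^ 3, FreeGroup.of (1 : Fin 3) ^ 5, FreeGroup.of (2 : Fin 3) ^ 2,
        (FreeGroup.of (2 : Fin 3))⁻¹ * FreeGroup.of 0 * FreeGroup.of 2 * (FreeGroup.of (0 : Fin 3))⁻¹,
        (FreeGroup.of (2 : Fin 3))⁻¹ * FreeGroup.of 1 * FreeGroup.of 2 * (FreeGroup.of (1 : Fin 3))⁻¹,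
        (FreeGroup.of (0 : Fin 3) * FreeGroup.of 1) ^ 2 * (FreeGroup.of (2 : Fin 3))⁻¹} : Set (FreeGroup (Fin 3)))
      ≃* Matrix.SpecialLinearGroup (Fin 2) (ZMod 5)) := by
  refine ⟨fun G _ _ hc hns hQ => main G hc hns hQ, ?_⟩
  obtain ⟨e₃, -⟩ := SL25Iso.exists_iso
  exact ⟨e₃⟩

end Cfsg.Agent.S3378
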