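import Cfsg.Statements.S3389
import Cfsg.Agent.Helper19.Fixity

set_option autoImplicit false
open Cfsg

namespace Cfsg.Agent.S3389

/-- Let G be a finite group acting faithfully and transitively on a finite set Ω with fixity k ≥ 1: every non-identity element fixes at most k points and some non-identity element fixes exactly k points. Then |Z(G)| divides k; if k = 2 then |G| is even; and for every prime p > k dividing |G| and every point α, either p does not divide |G_α| or G_α contains a Sylow p-subgroup of G. -/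
theorem result {G : Type*} [Group G] [Finite G] {Ω : Type*} [Fintype Ω] [MulAction G Ω] [FaithfulSMul G Ω]
    (htr : MulAction.IsPretransitive G Ω) (k : ℕ) (hk : 1 ≤ k)
    (hfix : ∀ g : G, g ≠ 1 → Nat.card (MulAction.fixedBy Ω g) ≤ k) (hex : ∃ g : G, g ≠ 1 ∧ Nat.card (MulAction.fixedBy Ω g) = k) :
    Nat.card (Subgroup.center G) ∣ k ∧ (k = 2 → 2 ∣ Nat.card G) ∧
      ∀ (p : ℕ), p.Prime → k < p → p ∣ Nat.card G → ∀ α : Ω,
        ¬ p ∣ Nat.card (MulAction.stabilizer G α) ∨ ¬ p ∣ (MulAction.stabilizer G α).index := by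
  classical
  refine ⟨?_, ?_, ?_⟩
  · obtain ⟨g, hg1, hg2⟩ := hex
    rw [← hg2]
    exact Cfsg.Agent.Helper19.center_card_dvd_fixedBy htr g
  · intro hk2
    subst hk2
    obtain ⟨g, hg1, hg2⟩ := hex
    exact Cfsg.Agent.Helper19.even_of_fixity_two htr
      (fun g hg => by rw [← Nat.card_coe_set_eq]; exact hfix g hg)
      ⟨g, hg1, by rw [← Nat.card_coe_set_eq]; exact hg2⟩
  · intro p hp hkp _ α
    by_contra hcon
    rcases not_or.mp hcon with ⟨h1, h2⟩
    exact Cfsg.Agent.Helper19.fixity_prime htr k hfix p hp hkp α (not_not.mp h1) (not_not.mp h2)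

end Cfsg.Agent.S3389
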