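import Cfsg.Statements.S3495
import Cfsg.Agent.Helper19.Manning

set_option autoImplicit false
open Cfsg

namespace Cfsg.Agent.S3495

/-- Let a finite group G act faithfully and primitively on a finite set Ω with non-trivial point stabilizers, each acting primitively on every one of its orbits (an extremely primitive group), and suppose G has an elementary abelian normal p-subgroup N acting regularly on Ω (affine type). Then every non-trivial subgroup M of a point stabilizer G_α that is normal in G_α has the same orbits on Ω as G_α, and normalizes no subgroup of N other than 1 and N. -/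
theorem result {G : Type*} [Group G] [Finite G] {Ω : Type*} [Fintype Ω] [MulAction G Ω] [FaithfulSMul G Ω] (hprim : MulAction.IsPreprimitive G Ω) (hH : ∀ α : Ω, MulAction.stabilizer G α ≠ ⊥) (hep : ∀ (α : Ω) (ω : Ω), MulAction.IsPreprimitive (MulAction.stabilizer G α) (MulAction.orbit (MulAction.stabilizer G α) ω))
    (N : Subgroup G) [N.Normal] (hNc : IsMulCommutative N) (p : ℕ) (hp : p.Prime) (hNp : ∀ n ∈ N, n ^ p = 1)
    (hNtr : MulAction.IsPretransitive N Ω) (hNreg : ∀ ω : Ω, MulAction.stabilizer N ω = ⊥) (α : Ω) (M : Subgroup G) (hM : M ≠ ⊥) (hMle : M ≤ MulAction.stabilizer G α)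
    (hMn : MulAction.stabilizer G α ≤ Subgroup.normalizer (M : Set G)) :
    (∀ ω : Ω, MulAction.orbit M ω = MulAction.orbit (MulAction.stabilizer G α) ω) ∧
    (∀ L : Subgroup G, L ≤ N → M ≤ Subgroup.normalizer (L : Set G) → L = ⊥ ∨ L = N) := by
  classical
  have hman : ∀ ω : Ω, ω ≠ α → ∀ h : G, h • α = α →
      (∀ x ∈ MulAction.orbit (MulAction.stabilizer G α) ω, h • x = x) → h = 1 :=
    fun ω hω h hα hfix => Cfsg.Agent.Helper19.manning hprim hH hep α ω hω h hα hfix
  have part1 : ∀ ω : Ω, MulAction.orbit M ω = MulAction.orbit (MulAction.stabilizer G α) ω := by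
    intro ω
    have hsub : MulAction.orbit M ω ⊆ MulAction.orbit (MulAction.stabilizer G α) ω := by
      intro y hy
      rw [Cfsg.Agent.Helper19.mem_orbit_subgroup] at hy ⊢
      obtain ⟨x, hx, rfl⟩ := hy
      exact ⟨x, hMle hx, rfl⟩
    by_cases hmove : ∃ m ∈ M, m • ω ≠ ω
    · apply Set.Subset.antisymm hsub
      intro y hy
      rw [Cfsg.Agent.Helper19.mem_orbit_subgroup] at hy ⊢
      obtain ⟨x, hx, rfl⟩ := hy
      exact Cfsg.Agent.Helper19.normal_transitive_on_orbit hep α ω M hMle hMn hmove x hx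
    · have hfixω : ∀ m ∈ M, m • ω = ω := by
        intro m hm
        by_contra hne
        exact hmove ⟨m, hm, hne⟩
      by_cases hω : ω = α
      · rw [hω]
        ext y
        rw [Cfsg.Agent.Helper19.mem_orbit_subgroup, Cfsg.Agent.Helper19.mem_orbit_subgroup]
        constructor
        · rintro ⟨x, hx, rfl⟩; exact ⟨x, hMle hx, rfl⟩
        · rintro ⟨x, hx, rfl⟩
          exact ⟨1, one_mem _, by rw [one_smul]; exact (MulAction.mem_stabilizer_iff.mp hx).symm⟩
      · exfalso
        apply hM
        rw [eq_bot_iff]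
        intro m hm
        rw [Subgroup.mem_bot]
        apply hman ω hω m (hMle hm)
        intro y hy
        rw [Cfsg.Agent.Helper19.mem_orbit_subgroup] at hy
        obtain ⟨x, hx, rfl⟩ := hy
        have h1 : x⁻¹ * m * x ∈ M := by
          have h2 := (Subgroup.mem_normalizer_iff.mp (hMn (inv_mem hx))) m
          rw [inv_inv] at h2
          exact h2.mp hm
        have h3 := hfixω _ h1
        rw [mul_smul, mul_smul, inv_smul_eq_iff] at h3
        exact h3
  refine ⟨part1, ?_⟩
  intro L hLN hML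
  by_cases hL : L = ⊥
  · exact Or.inl hL
  right
  have hNnorm : N.Normal := inferInstance
  have hconjα : ∀ x ∈ MulAction.stabilizer G α, ∀ l ∈ L, x * l * x⁻¹ ∈ L := by
    intro x hx l hl
    have hxα : x • α = α := hx
    have hxα' : x⁻¹ • α = α := by rw [inv_smul_eq_iff, hxα]
    have h1 : x • (l • α) ∈ MulAction.orbit M (l • α) := by
      rw [part1 (l • α), Cfsg.Agent.Helper19.mem_orbit_subgroup]
      exact ⟨x, hx, rfl⟩
    rw [Cfsg.Agent.Helper19.mem_orbit_subgroup] at h1
    obtain ⟨m, hm, hmx⟩ := h1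
    have hmα : m • α = α := hMle hm
    have hmα' : m⁻¹ • α = α := by rw [inv_smul_eq_iff, hmα]
    have hN1 : x * l * x⁻¹ ∈ N := hNnorm.conj_mem l (hLN hl) x
    have hN2 : m * l * m⁻¹ ∈ N := hNnorm.conj_mem l (hLN hl) m
    have heq : x * l * x⁻¹ = m * l * m⁻¹ := by
      apply Cfsg.Agent.Helper19.eq_of_smul_eq_of_regular hNreg hN1 hN2 (ω := α)
      rw [mul_smul, mul_smul, hxα', mul_smul, mul_smul, hmα', hmx]
    rw [heq]
    exact (Subgroup.mem_normalizer_iff.mp (hML hm) l).mp hl
  have hconjN : ∀ n ∈ N, ∀ l ∈ L, n * l * n⁻¹ = l := by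
    intro n hn l hl
    have h1 : (⟨n, hn⟩ : N) * ⟨l, hLN hl⟩ = ⟨l, hLN hl⟩ * ⟨n, hn⟩ := hNc.is_comm.comm _ _
    have h2 : n * l = l * n := congrArg Subtype.val h1
    rw [h2, mul_inv_cancel_right]
  have hLnorm : L.Normal := by
    constructor
    intro l hl g
    obtain ⟨n, hn⟩ := hNtr.exists_smul_eq α (g • α)
    have hn' : (n : G) • α = g • α := hn
    have hy : (n : G)⁻¹ * g ∈ MulAction.stabilizer G α := by
      rw [MulAction.mem_stabilizer_iff, mul_smul, ← hn', inv_smul_smul]
    have h1 := hconjα _ hy l hl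
    have h2 := hconjN (n : G) n.2 _ h1
    have h3 : g * l * g⁻¹ = (n : G) * ((n : G)⁻¹ * g * l * ((n : G)⁻¹ * g)⁻¹) * (n : G)⁻¹ := by
      group
    rw [h3, h2]; exact h1
  have hq : MulAction.IsQuasiPreprimitive G Ω := inferInstance
  have hne : MulAction.fixedPoints L Ω ≠ Set.univ := by
    intro hall
    apply hL
    rw [eq_bot_iff]
    intro l hl
    rw [Subgroup.mem_bot]
    apply FaithfulSMul.eq_of_smul_eq_smul (α := Ω)
    intro τ
    have hmem : τ ∈ MulAction.fixedPoints L Ω := by rw [hall]; trivial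
    have h1 : l • τ = τ := hmem ⟨l, hl⟩
    rw [one_smul]; exact h1
  have htr := hq.isPretransitive_of_normal hne
  apply le_antisymm hLN
  intro n hn
  obtain ⟨l, hl⟩ := htr.exists_smul_eq α (n • α)
  have hl' : (l : G) • α = n • α := hl
  have h5 := Cfsg.Agent.Helper19.eq_of_smul_eq_of_regular hNreg (hLN l.2) hn hl'
  rw [← h5]; exact l.2

end Cfsg.Agent.S3495
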