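import Cfsg.Statements.S3497
import Cfsg.Agent.Helper19.Manning
import Cfsg.Agent.Helper19.PrimFaith
import Cfsg.Agent.Helper19.ConjRep
import Cfsg.Agent.Helper19.Derange2

set_option autoImplicit false
open Cfsg

namespace Cfsg.Agent.S3497

/-- Restrictions on the point stabilizer of an extremely primitive group. Let a finite group G act faithfully and primitively on a finite set Ω with point stabilizers H = G_α whose order is neither 1 nor a prime, each acting primitively on every one of its orbits. Then H has trivial center, the Fitting subgroup F(H) is an elementary abelian p-group for some prime p, and if F(H) ≠ 1 has order p ^ e then p ^ e divides the number of points minus one and H / F(H) embeds in GL_e(p) (there is a homomorphism from H to GL_e(p) with kernel exactly F(H)). -/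
theorem result {G : Type*} [Group G] [Finite G] {Ω : Type*} [Fintype Ω] [MulAction G Ω] [FaithfulSMul G Ω] (hprim : MulAction.IsPreprimitive G Ω) (hep : ∀ (α : Ω) (ω : Ω), MulAction.IsPreprimitive (MulAction.stabilizer G α) (MulAction.orbit (MulAction.stabilizer G α) ω)) (α : Ω)
    (hH1 : MulAction.stabilizer G α ≠ ⊥) (hHp : ¬ (Nat.card (MulAction.stabilizer G α)).Prime) :
    Subgroup.center (MulAction.stabilizer G α) = ⊥ ∧
    IsMulCommutative (Cfsg.fittingSubgroup (MulAction.stabilizer G α)) ∧
    ∃ p e : ℕ, p.Prime ∧ Nat.card (Cfsg.fittingSubgroup (MulAction.stabilizer G α)) = p ^ e ∧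
      (∀ x ∈ Cfsg.fittingSubgroup (MulAction.stabilizer G α), x ^ p = 1) ∧
      (Cfsg.fittingSubgroup (MulAction.stabilizer G α) ≠ ⊥ →
        p ^ e ∣ Fintype.card Ω - 1 ∧
        ∃ φ : MulAction.stabilizer G α →* GL (Fin e) (ZMod p), φ.ker = Cfsg.fittingSubgroup (MulAction.stabilizer G α)) := by
  classical
  have htr : MulAction.IsPretransitive G Ω := hprim.toIsPretransitive
  have hH : ∀ β : Ω, MulAction.stabilizer G β ≠ ⊥ := by
    intro β hβ
    have h1 := Cfsg.Agent.Helper19.card_stabilizer_eq htr α β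
    rw [hβ, Subgroup.card_bot] at h1
    exact hH1 (Subgroup.eq_bot_of_card_eq _ h1)
  have hfaith : ∀ ω : Ω, ω ≠ α → FaithfulSMul (MulAction.stabilizer G α)
      (MulAction.orbit (MulAction.stabilizer G α) ω) := by
    intro ω hω
    constructor
    intro a b hab
    have h1 : ((a⁻¹ * b : MulAction.stabilizer G α) : G) = 1 := by
      apply Cfsg.Agent.Helper19.manning hprim hH hep α ω hω
        ((a⁻¹ * b : MulAction.stabilizer G α) : G) (a⁻¹ * b).2
      intro x hx
      have h2 := hab ⟨x, hx⟩
      have h3 : a • x = b • x := congrArg Subtype.val h2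
      show (a⁻¹ * b) • x = x
      rw [mul_smul, ← h3, inv_smul_smul]
    have h4 : a⁻¹ * b = 1 := Subtype.ext h1
    exact inv_mul_eq_one.mp h4
  obtain ⟨h0, hh0⟩ := Subgroup.ne_bot_iff_exists_ne_one.mp hH1
  have hh01 : (h0 : G) ≠ 1 := fun h => hh0 (Subtype.ext h)
  obtain ⟨ω0, hω0⟩ : ∃ ω : Ω, (h0 : G) • ω ≠ ω := by
    by_contra hall
    push Not at hall
    exact hh01 (FaithfulSMul.eq_of_smul_eq_smul (α := Ω) (fun τ => by rw [hall τ, one_smul]))
  have hω0α : ω0 ≠ α := by
    rintro rfl
    exact hω0 h0.2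
  have hf0 := hfaith ω0 hω0α
  obtain ⟨hcenter, hcomm, p, hp, hexp, hreg⟩ :=
    Cfsg.Agent.Helper19.pf_main (H := MulAction.stabilizer G α)
      (Δ := MulAction.orbit (MulAction.stabilizer G α) ω0) (hep α ω0) hHp
  have hpf : Fact p.Prime := ⟨hp⟩
  refine ⟨hcenter, ⟨⟨fun a b => Subtype.ext (hcomm a a.2 b b.2)⟩⟩, ?_⟩
  have hpg : IsPGroup p (Cfsg.fittingSubgroup (MulAction.stabilizer G α)) := by
    intro g
    refine ⟨1, ?_⟩
    rw [pow_one]
    apply Subtype.ext
    rw [Subgroup.coe_pow]
    exact hexp g g.2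
  obtain ⟨e, he⟩ := IsPGroup.iff_card.mp hpg
  refine ⟨p, e, hp, he, hexp, ?_⟩
  intro hFne
  constructor
  · have horb : ∀ ω : Ω, ω ≠ α →
        Nat.card (MulAction.orbit (MulAction.stabilizer G α) ω) = p ^ e := by
      intro ω hω
      have hfω := hfaith ω hω
      obtain ⟨-, -, -, -, -, hreg'⟩ :=
        Cfsg.Agent.Helper19.pf_main (H := MulAction.stabilizer G α)
          (Δ := MulAction.orbit (MulAction.stabilizer G α) ω) (hep α ω) hHp
      obtain ⟨-, htrF, hfreeF, -⟩ := hreg' hFne
      rw [← he]
      symm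
      apply Nat.card_congr
      refine Equiv.ofBijective
        (fun f : Cfsg.fittingSubgroup (MulAction.stabilizer G α) =>
          (f : MulAction.stabilizer G α) •
            (⟨ω, MulAction.mem_orbit_self ω⟩ : MulAction.orbit (MulAction.stabilizer G α) ω))
        ⟨?_, ?_⟩
      · intro f1 f2 h12
        have h12' : (f1 : MulAction.stabilizer G α) •
              (⟨ω, MulAction.mem_orbit_self ω⟩ : MulAction.orbit (MulAction.stabilizer G α) ω)
            = (f2 : MulAction.stabilizer G α) • ⟨ω, MulAction.mem_orbit_self ω⟩ := h12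
        have h1 : ((f2 : MulAction.stabilizer G α)⁻¹ * f1) •
              (⟨ω, MulAction.mem_orbit_self ω⟩ : MulAction.orbit (MulAction.stabilizer G α) ω)
            = ⟨ω, MulAction.mem_orbit_self ω⟩ := by
          rw [mul_smul, h12', inv_smul_smul]
        have h2 := hfreeF _ (mul_mem (inv_mem f2.2) f1.2) _ h1
        exact Subtype.ext (inv_mul_eq_one.mp h2).symm
      · intro y
        obtain ⟨n, hn, hny⟩ := htrF ⟨ω, MulAction.mem_orbit_self ω⟩ y
        exact ⟨⟨n, hn⟩, hny⟩
    have h1 : p ^ e ∣ Nat.card (SubMulAction.ofStabilizer G α) := by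
      apply Cfsg.Agent.Helper19.dvd_card_of_dvd_orbits (S := MulAction.stabilizer G α)
      intro y
      have hy : (y : Ω) ≠ α := y.2
      have h2 : Nat.card (MulAction.orbit (MulAction.stabilizer G α) y)
          = Nat.card (MulAction.orbit (MulAction.stabilizer G α) (y : Ω)) := by
        rw [Nat.card_coe_set_eq, Nat.card_coe_set_eq]
        have h3 : MulAction.orbit (MulAction.stabilizer G α) (y : Ω)
            = Subtype.val '' (MulAction.orbit (MulAction.stabilizer G α) y) := by
          ext z
          constructor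
          · rintro ⟨h, rfl⟩
            exact ⟨h • y, ⟨h, rfl⟩, rfl⟩
          · rintro ⟨y', ⟨h, rfl⟩, rfl⟩
            exact ⟨h, rfl⟩
        rw [h3, Set.ncard_image_of_injective _ Subtype.val_injective]
      exact dvd_of_eq (h2.trans (horb _ hy)).symm
    rw [SubMulAction.nat_card_ofStabilizer_eq, Nat.card_eq_fintype_card] at h1
    exact h1
  · obtain ⟨hFn, htrF, hfreeF, hcent⟩ := hreg hFne
    obtain ⟨θ⟩ := Cfsg.Agent.Helper19.exists_mulEquiv_zmod_pow
      (A := Cfsg.fittingSubgroup (MulAction.stabilizer G α)) p e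
      (fun a b => Subtype.ext (hcomm a a.2 b b.2))
      (fun a => Subtype.ext (by rw [Subgroup.coe_pow]; exact hexp a a.2)) he
    obtain ⟨φ, hφ⟩ := Cfsg.Agent.Helper19.exists_conj_rep
      (Cfsg.fittingSubgroup (MulAction.stabilizer G α)) p e θ
    refine ⟨φ, ?_⟩
    ext h
    rw [MonoidHom.mem_ker, hφ]
    constructor
    · intro hall
      apply hcent
      intro n hn
      have h5 := hall n hn
      calc h * n = h * n * h⁻¹ * h := by group
        _ = n * h := by rw [h5]
    · intro hh f hf
      rw [hcomm h hh f hf, mul_inv_cancel_right]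

end Cfsg.Agent.S3497
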