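import Cfsg.Statements.S3498
import Cfsg.Agent.Helper19.MaxPrime

set_option autoImplicit false
open Cfsg

namespace Cfsg.Agent.S3498

/-- A maximal subgroup of a finite almost simple group does not have prime order. Here G is almost simple in the sense that it has a non-abelian simple normal subgroup T with trivial centralizer. -/
theorem result {G : Type*} [Group G] [Finite G] (T : Subgroup G) [T.Normal] (hT : IsSimpleGroup T) (hTc : ¬ IsMulCommutative T)
    (hC : Subgroup.centralizer (T : Set G) = ⊥) (H : Subgroup G) (hmax : IsCoatom H) : ¬ (Nat.card H).Prime := by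
  classical
  intro hr
  have hrf : Fact (Nat.card H).Prime := ⟨hr⟩
  have hTnc : ¬ ∀ a b : T, a * b = b * a := fun h => hTc ⟨⟨h⟩⟩
  by_cases hHT : H ≤ T
  · rcases hmax.le_iff.mp hHT with htop | hTH
    · subst htop
      have hnt : Nontrivial G := by
        have : Nontrivial (⊤ : Subgroup G) := hT.toNontrivial
        exact (Subtype.val_injective (p := fun x => x ∈ (⊤ : Subgroup G))).nontrivial
      have hG : IsSimpleGroup G :=
        IsSimpleGroup.isSimpleGroup_of_surjective (Subgroup.topEquiv (G := G)).toMonoidHom
          Subgroup.topEquiv.surjective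
      exact Cfsg.Agent.Helper19.not_prime_card_coatom_of_simple hG
        (fun h => hTnc (fun a b => Subtype.ext (h a b))) H hmax hr
    · apply hTc
      have : IsCyclic T := isCyclic_of_prime_card (p := Nat.card H) (by rw [hTH])
      exact IsCyclic.isMulCommutative
  · exact Cfsg.Agent.Helper19.not_prime_card_coatom_of_not_le T hT hTnc H hmax hHT hr

end Cfsg.Agent.S3498
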