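import Cfsg.Statements.S3504
import Cfsg.Agent.Helper19.FpfPrime

set_option autoImplicit false
open Cfsg

namespace Cfsg.Agent.S3504

/-- For n ≥ 5, the fixed-point-free permutations of prime order in the symmetric group of degree n form a single conjugacy class if and only if n is a prime power. -/
theorem result (n : ℕ) (hn : 5 ≤ n) :
    Nat.card {c : ConjClasses (Equiv.Perm (Fin n)) // ∃ g : Equiv.Perm (Fin n), ConjClasses.mk g = c ∧ (orderOf g).Prime ∧ ∀ i : Fin n, g i ≠ i} = 1 ↔ IsPrimePow n := by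
  classical
  rw [Nat.card_eq_one_iff_unique]
  constructor
  · rintro ⟨hsub, -⟩
    rw [isPrimePow_iff_unique_prime_dvd]
    have hn1 : n ≠ 1 := by omega
    obtain ⟨r1, hr1, hr1n⟩ := Nat.exists_prime_and_dvd hn1
    refine ⟨r1, ⟨hr1, hr1n⟩, ?_⟩
    rintro r2 ⟨hr2, hr2n⟩
    obtain ⟨g1, hg1, hf1⟩ := Cfsg.Agent.Helper19.exists_fpf_prime hr1 hr1n (by omega)
    obtain ⟨g2, hg2, hf2⟩ := Cfsg.Agent.Helper19.exists_fpf_prime hr2 hr2n (by omega)
    have h := hsub.elim ⟨ConjClasses.mk g1, g1, rfl, by rw [hg1]; exact hr1, hf1⟩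
      ⟨ConjClasses.mk g2, g2, rfl, by rw [hg2]; exact hr2, hf2⟩
    have h' : ConjClasses.mk g1 = ConjClasses.mk g2 := congrArg Subtype.val h
    rw [ConjClasses.mk_eq_mk_iff_isConj, Equiv.Perm.isConj_iff_cycleType_eq] at h'
    have h3 : orderOf g1 = orderOf g2 := by
      rw [← Equiv.Perm.lcm_cycleType, ← Equiv.Perm.lcm_cycleType, h']
    rw [hg1, hg2] at h3
    exact h3.symm
  · intro hpp
    rw [isPrimePow_nat_iff] at hpp
    obtain ⟨q, k, hq, hk, rfl⟩ := hpp
    constructor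
    · constructor
      rintro ⟨c, g, rfl, hg, hf⟩ ⟨c', g', rfl, hg', hf'⟩
      apply Subtype.ext
      show ConjClasses.mk g = ConjClasses.mk g'
      rw [ConjClasses.mk_eq_mk_iff_isConj, Equiv.Perm.isConj_iff_cycleType_eq]
      obtain ⟨hd, hc⟩ := Cfsg.Agent.Helper19.cycleType_fpf_prime g hg hf
      obtain ⟨hd', hc'⟩ := Cfsg.Agent.Helper19.cycleType_fpf_prime g' hg' hf'
      have e : orderOf g = q := (Nat.prime_dvd_prime_iff_eq hg hq).mp (hg.dvd_of_dvd_pow hd)
      have e' : orderOf g' = q :=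
        (Nat.prime_dvd_prime_iff_eq hg' hq).mp (hg'.dvd_of_dvd_pow hd')
      rw [hc, hc', e, e']
    · obtain ⟨g, hg, hf⟩ := Cfsg.Agent.Helper19.exists_fpf_prime hq
        (dvd_pow_self q (ne_of_gt hk)) (pow_pos hq.pos k)
      exact ⟨⟨ConjClasses.mk g, g, rfl, by rw [hg]; exact hq, hf⟩⟩

end Cfsg.Agent.S3504
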