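import Cfsg.Statements.S3508
import Cfsg.Agent.Helper19.AffOrder

set_option autoImplicit false
open Cfsg

namespace Cfsg.Agent.S3508

/-- Let a finite group G act faithfully on a set Ω with p ^ m points (p prime) and have an elementary abelian normal p-subgroup N acting regularly on Ω (so G is a group of affine transformations of an m-dimensional space over the field with p elements). If G contains an element of order p ^ r with r ≥ 1, then p ^ (r − 1) ≤ m. In particular an element of order p ^ m forces m ≤ 2, and m ≤ 1 when p is odd. -/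
theorem result {G : Type*} [Group G] [Finite G] {Ω : Type*} [Fintype Ω] [MulAction G Ω] [FaithfulSMul G Ω] (p m : ℕ) (hp : p.Prime) (hcard : Fintype.card Ω = p ^ m)
    (N : Subgroup G) [N.Normal] (hNc : IsMulCommutative N) (hNp : ∀ n ∈ N, n ^ p = 1)
    (hNtr : MulAction.IsPretransitive N Ω) (hNreg : ∀ ω : Ω, MulAction.stabilizer N ω = ⊥)
    (g : G) (r : ℕ) (hr : 1 ≤ r) (hg : orderOf g = p ^ r) :
    p ^ (r - 1) ≤ m ∧ (r = m → m ≤ 2 ∧ (2 < p → m ≤ 1)) := by
  classical
  have hpf : Fact p.Prime := ⟨hp⟩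
  have hNc' : IsMulCommutative N := hNc
  have hcard' : Nat.card Ω = p ^ m := by rw [Nat.card_eq_fintype_card, hcard]
  have hm : m ≠ 0 := by
    rintro rfl
    have hsub : Subsingleton Ω := by
      rw [pow_zero] at hcard
      exact Fintype.card_le_one_iff_subsingleton.mp hcard.le
    have hg1 : g = 1 := by
      apply FaithfulSMul.eq_of_smul_eq_smul (α := Ω)
      intro ω; exact Subsingleton.elim _ _
    rw [hg1, orderOf_one] at hg
    have : 1 < p ^ r := Nat.one_lt_pow (by omega) hp.one_lt
    omega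
  have hgpow : g ^ (p ^ r) = 1 := by rw [← hg]; exact pow_orderOf_eq_one g
  have hlt : m < p ^ (Nat.log p m + 1) := Nat.lt_pow_succ_log_self hp.one_lt m
  have hkey := Cfsg.Agent.Helper19.affine_pow_eq_one p m hcard' N hNp hNtr hNreg g r hgpow
    (Nat.log p m + 1) hlt
  have hdvd : p ^ r ∣ p ^ (Nat.log p m + 1) := by
    rw [← hg]; exact orderOf_dvd_of_pow_eq_one hkey
  have hrle : r ≤ Nat.log p m + 1 := (Nat.pow_dvd_pow_iff_le_right hp.one_lt).mp hdvd
  have h1 : p ^ (r - 1) ≤ m := by
    calc p ^ (r - 1) ≤ p ^ (Nat.log p m) := Nat.pow_le_pow_right hp.pos (by omega)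
      _ ≤ m := Nat.pow_log_le_self p hm
  refine ⟨h1, fun hrm => ?_⟩
  rw [hrm] at h1
  have aux2 : ∀ j : ℕ, j + 3 < 2 ^ (j + 2) := by
    intro j
    induction j with
    | zero => norm_num
    | succ j ih =>
      have : 2 ^ (j + 1 + 2) = 2 * 2 ^ (j + 2) := by ring
      omega
  have aux3 : ∀ j : ℕ, j + 2 < 3 ^ (j + 1) := by
    intro j
    induction j with
    | zero => norm_num
    | succ j ih =>
      have : 3 ^ (j + 1 + 1) = 3 * 3 ^ (j + 1) := by ring
      omega
  constructor
  · by_contra hcon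
    have h2 := aux2 (m - 3)
    rw [show m - 3 + 2 = m - 1 by omega, show m - 3 + 3 = m by omega] at h2
    have h3 : 2 ^ (m - 1) ≤ p ^ (m - 1) := Nat.pow_le_pow_left hp.two_le _
    omega
  · intro hp2
    by_contra hcon
    have h2 := aux3 (m - 2)
    rw [show m - 2 + 1 = m - 1 by omega, show m - 2 + 2 = m by omega] at h2
    have h3 : 3 ^ (m - 1) ≤ p ^ (m - 1) := Nat.pow_le_pow_left (by omega) _
    omega

end Cfsg.Agent.S3508
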