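import Cfsg.Statements.S3511
-- import your own Cfsg.Agent.* helpers here

set_option autoImplicit false
open Cfsg

namespace Cfsg.Agent.S3511

/-- Let a finite group G act faithfully on a set Ω. If every element of G of square-free order has a regular cycle (an orbit of the cyclic group it generates with trivial stabilizer), then every element of G has a regular cycle. -/
theorem result {G : Type*} [Group G] [Finite G] {Ω : Type*} [MulAction G Ω] [FaithfulSMul G Ω]
    (h : ∀ g : G, Squarefree (orderOf g) → ∃ ω : Ω, MulAction.stabilizer (Subgroup.zpowers g) ω = ⊥) (g : G) :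
    ∃ ω : Ω, MulAction.stabilizer (Subgroup.zpowers g) ω = ⊥ := by
  classical
  have hn : 0 < orderOf g := orderOf_pos g
  set n := orderOf g with hndef
  set r := ∏ p ∈ n.primeFactors, p with hrdef
  have hr_dvd : r ∣ n := Nat.prod_primeFactors_dvd n
  have hr_sq : Squarefree r := by
    refine Finset.squarefree_prod_of_pairwise_isCoprime (fun p hp q hq hpq => ?_)
      (fun p hp => (Nat.prime_of_mem_primeFactors hp).squarefree)
    simp only [Function.onFun, ← Nat.coprime_iff_isRelPrime]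
    exact (Nat.coprime_primes (Nat.prime_of_mem_primeFactors hp)
      (Nat.prime_of_mem_primeFactors hq)).mpr hpq
  have hrpos : 0 < r := Nat.pos_of_dvd_of_pos hr_dvd hn
  set k := n / r with hkdef
  have hk_mul : k * r = n := Nat.div_mul_cancel hr_dvd
  have hkne : k ≠ 0 := by
    rintro h0
    rw [h0, zero_mul] at hk_mul
    omega
  set x := g ^ k with hxdef
  have hx : orderOf x = r := by
    rw [hxdef, orderOf_pow_of_dvd hkne ⟨r, hk_mul.symm⟩, ← hndef]
    exact Nat.div_eq_of_eq_mul_right (Nat.pos_of_ne_zero hkne) hk_mul.symm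
  obtain ⟨ω, hω⟩ := h x (by rw [hx]; exact hr_sq)
  refine ⟨ω, ?_⟩
  rw [Subgroup.eq_bot_iff_forall]
  rintro ⟨s, hs⟩ hsω
  by_contra hne
  have hs1 : s ≠ 1 := fun h1 => hne (Subtype.ext h1)
  have hsω' : s • ω = ω := hsω
  obtain ⟨i, rfl⟩ : ∃ i : ℕ, g ^ i = s := by
    have := (mem_powers_iff_mem_zpowers (x := g)).2 hs
    exact this
  set d := orderOf (g ^ i) with hddef
  have hd1 : d ≠ 1 := by
    rw [Ne, orderOf_eq_one_iff]; exact hs1
  obtain ⟨q, hq, hqd⟩ := Nat.exists_prime_and_dvd hd1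
  have hdpos : 0 < d := orderOf_pos _
  set j := i * (d / q) with hjdef
  have hy_q : (g ^ j) ^ q = 1 := by
    rw [hjdef, ← pow_mul, mul_assoc, Nat.div_mul_cancel hqd, pow_mul]
    exact pow_orderOf_eq_one _
  have hy_ne : g ^ j ≠ 1 := by
    rw [hjdef, pow_mul]
    intro h1
    have h2 := orderOf_dvd_of_pow_eq_one h1
    have h3 : d ≤ d / q := Nat.le_of_dvd (Nat.div_pos (Nat.le_of_dvd hdpos hqd) hq.pos) h2
    have h4 : d / q < d := Nat.div_lt_self hdpos hq.one_lt
    omega
  have hy_fix : g ^ j • ω = ω := by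
    rw [hjdef, pow_mul]
    have : g ^ i ∈ MulAction.stabilizer G ω := hsω'
    exact (MulAction.stabilizer G ω).pow_mem this _
  have h1 : n ∣ j * q := by
    rw [← pow_mul] at hy_q
    exact orderOf_dvd_of_pow_eq_one hy_q
  have hqn : q ∣ n := hqd.trans (orderOf_pow_dvd i)
  have hqr : q ∣ r := Finset.dvd_prod_of_mem _ (Nat.mem_primeFactors.2 ⟨hq, hqn, hn.ne'⟩)
  obtain ⟨r', hr'⟩ := hqr
  have h2 : k * r' ∣ j := by
    have h3 : k * r' * q ∣ j * q := by
      have h4 : k * r' * q = n := by rw [← hk_mul, hr']; ring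
      rw [h4]; exact h1
    exact Nat.dvd_of_mul_dvd_mul_right hq.pos h3
  obtain ⟨t, ht⟩ := (Dvd.intro _ rfl : k ∣ k * r').trans h2
  have hmem : (⟨x ^ t, Subgroup.pow_mem _ (Subgroup.mem_zpowers x) t⟩ : Subgroup.zpowers x) ∈
      MulAction.stabilizer (Subgroup.zpowers x) ω := by
    rw [MulAction.mem_stabilizer_iff]
    show x ^ t • ω = ω
    rw [hxdef, ← pow_mul, ← ht]
    exact hy_fix
  rw [hω, Subgroup.mem_bot] at hmem
  have hxt : x ^ t = 1 := congrArg Subtype.val hmem
  apply hy_ne
  rw [ht, pow_mul]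
  exact hxt

end Cfsg.Agent.S3511
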