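import Cfsg.Statements.S3514
import Cfsg.Agent.Helper19.OrbitCard
import Cfsg.Agent.Helper4.CardMul

set_option autoImplicit false
open Cfsg

namespace Cfsg.Agent.S3514

/-- Let p be a prime, V a finite vector space over the field with p elements, and H a group of linear transformations of V all of whose orbits on V have size coprime to p. (i) Every normal subgroup K of H has all its orbits on V of size coprime to p. (ii) If N is a group of linear transformations of V of order coprime to p that is normalized by H, then the group generated by N and H has all its orbits on V of size coprime to p. -/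
theorem result (p : ℕ) [Fact p.Prime] {V : Type*} [AddCommGroup V] [Module (ZMod p) V] [Finite V]
    (H : Subgroup (V ≃ₗ[ZMod p] V)) (hH : ∀ v : V, ¬ p ∣ Nat.card {u : V | ∃ h ∈ H, h v = u}) :
    (∀ K : Subgroup (V ≃ₗ[ZMod p] V), K ≤ H → H ≤ Subgroup.normalizer (K : Set (V ≃ₗ[ZMod p] V)) →
        ∀ v : V, ¬ p ∣ Nat.card {u : V | ∃ k ∈ K, k v = u}) ∧
    (∀ N : Subgroup (V ≃ₗ[ZMod p] V), ¬ p ∣ Nat.card N → H ≤ Subgroup.normalizer (N : Set (V ≃ₗ[ZMod p] V)) →
        ∀ v : V, ¬ p ∣ Nat.card {u : V | ∃ x ∈ N ⊔ H, x v = u}) := by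
  classical
  have hfin : Finite (V ≃ₗ[ZMod p] V) :=
    Finite.of_injective (fun f => (f : V → V)) DFunLike.coe_injective
  have hp : p.Prime := Fact.out
  have orb : ∀ (K : Subgroup (V ≃ₗ[ZMod p] V)) (v : V),
      Nat.card {u : V | ∃ k ∈ K, k v = u}
        * Nat.card ↥(K ⊓ MulAction.stabilizer (V ≃ₗ[ZMod p] V) v) = Nat.card K :=
    fun K v => Cfsg.Agent.Helper19.orbit_card_mul K v
  refine ⟨fun K hKH hN v hdvd => hH v ?_, fun N hN hHN v hdvd => ?_⟩
  · have hT : H ⊓ MulAction.stabilizer (V ≃ₗ[ZMod p] V) v ≤ Subgroup.normalizer (K : Set _) :=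
      inf_le_left.trans hN
    have h1 := Cfsg.Agent.Helper4.card_sup_mul_card_inf
      (H ⊓ MulAction.stabilizer (V ≃ₗ[ZMod p] V) v) K hT
    have h2 : (H ⊓ MulAction.stabilizer (V ≃ₗ[ZMod p] V) v) ⊓ K
        = K ⊓ MulAction.stabilizer (V ≃ₗ[ZMod p] V) v := by
      rw [inf_comm, ← inf_assoc, inf_eq_left.mpr hKH]
    rw [h2] at h1
    have h3 := orb K v
    have h4 := orb H v
    have h5 : Nat.card ↥((H ⊓ MulAction.stabilizer (V ≃ₗ[ZMod p] V) v) ⊔ K) ∣ Nat.card H :=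
      Subgroup.card_dvd_of_le (sup_le inf_le_left hKH)
    have hpos : 0 < Nat.card ↥(K ⊓ MulAction.stabilizer (V ≃ₗ[ZMod p] V) v) := Nat.card_pos
    have hpos2 : 0 < Nat.card ↥(H ⊓ MulAction.stabilizer (V ≃ₗ[ZMod p] V) v) := Nat.card_pos
    have h6 : Nat.card ↥((H ⊓ MulAction.stabilizer (V ≃ₗ[ZMod p] V) v) ⊔ K)
        = Nat.card ↥(H ⊓ MulAction.stabilizer (V ≃ₗ[ZMod p] V) v)
          * Nat.card {u : V | ∃ k ∈ K, k v = u} := by
      apply Nat.eq_of_mul_eq_mul_right hpos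
      rw [h1, ← h3]; ring
    rw [h6, ← h4] at h5
    have h7 : Nat.card {u : V | ∃ k ∈ K, k v = u} ∣ Nat.card {u : V | ∃ h ∈ H, h v = u} := by
      rw [mul_comm] at h5
      exact (Nat.mul_dvd_mul_iff_right hpos2).mp h5
    exact hdvd.trans h7
  · have h1 := Cfsg.Agent.Helper4.card_sup_mul_card_inf H N hHN
    have h3 := orb (N ⊔ H) v
    have h4 := orb H v
    have h5 : Nat.card ↥(H ⊓ MulAction.stabilizer (V ≃ₗ[ZMod p] V) v)
        ∣ Nat.card ↥((N ⊔ H) ⊓ MulAction.stabilizer (V ≃ₗ[ZMod p] V) v) :=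
      Subgroup.card_dvd_of_le (inf_le_inf_right _ le_sup_right)
    obtain ⟨c, hc⟩ := h5
    rw [sup_comm] at h1
    have hpos2 : 0 < Nat.card ↥(H ⊓ MulAction.stabilizer (V ≃ₗ[ZMod p] V) v) := Nat.card_pos
    have h6 : Nat.card {u : V | ∃ x ∈ N ⊔ H, x v = u} * (c * Nat.card ↥(H ⊓ N))
        = Nat.card {u : V | ∃ h ∈ H, h v = u} * Nat.card N := by
      apply Nat.eq_of_mul_eq_mul_right hpos2
      calc Nat.card {u : V | ∃ x ∈ N ⊔ H, x v = u} * (c * Nat.card ↥(H ⊓ N))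
            * Nat.card ↥(H ⊓ MulAction.stabilizer (V ≃ₗ[ZMod p] V) v)
          = (Nat.card {u : V | ∃ x ∈ N ⊔ H, x v = u}
              * Nat.card ↥((N ⊔ H) ⊓ MulAction.stabilizer (V ≃ₗ[ZMod p] V) v))
              * Nat.card ↥(H ⊓ N) := by rw [hc]; ring
        _ = Nat.card ↥(N ⊔ H) * Nat.card ↥(H ⊓ N) := by rw [h3]
        _ = Nat.card H * Nat.card N := h1
        _ = Nat.card {u : V | ∃ h ∈ H, h v = u} * Nat.card N
            * Nat.card ↥(H ⊓ MulAction.stabilizer (V ≃ₗ[ZMod p] V) v) := by rw [← h4]; ring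
    have h7 : p ∣ Nat.card {u : V | ∃ h ∈ H, h v = u} * Nat.card N := by
      rw [← h6]; exact Dvd.dvd.mul_right hdvd _
    rcases (Nat.Prime.dvd_mul hp).mp h7 with h | h
    · exact hH v h
    · exact hN h

end Cfsg.Agent.S3514
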