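import Cfsg.Statements.S3515
import Cfsg.Agent.Helper19.AffClosure
import Cfsg.Agent.Helper19.PermAgree

set_option autoImplicit false
open Cfsg

namespace Cfsg.Agent.S3515

/-- Every primitive affine permutation group of degree p² is 3-closed. Let p be a prime and G a group of permutations of the plane V = F_p² consisting of affine maps x ↦ Ax + b, containing all translations, and acting primitively on V. Then any permutation σ of V that agrees on every triple of points with some element of G (σ preserves every G-orbit on ordered triples) already lies in G. -/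
theorem result (p : ℕ) [Fact p.Prime] (G : Subgroup (Equiv.Perm (Fin 2 → ZMod p)))
    (haff : (G : Set (Equiv.Perm (Fin 2 → ZMod p))) ⊆ {τ : Equiv.Perm (Fin 2 → ZMod p) | ∃ (A : (Fin 2 → ZMod p) ≃ₗ[ZMod p] (Fin 2 → ZMod p)) (b : Fin 2 → ZMod p), ∀ x, τ x = A x + b})
    (htrans : ∀ b : Fin 2 → ZMod p, ∃ g ∈ G, ∀ x, g x = x + b) (hprim : MulAction.IsPreprimitive G (Fin 2 → ZMod p))
    (σ : Equiv.Perm (Fin 2 → ZMod p)) (hσ : (∀ t : Fin 3 → (Fin 2 → ZMod p), ∃ g ∈ G, ∀ i, σ (t i) = g (t i))) : σ ∈ G := by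
  classical
  by_cases hp2 : p = 2
  · subst hp2
    obtain ⟨g, hg, hgt⟩ := hσ ![0, Pi.single 0 1, Pi.single 1 1]
    have hσg : σ = g := by
      apply Cfsg.Agent.Helper19.perm_eq_of_agree_off_one σ g (fun _ => 1)
      intro x hx
      rcases Cfsg.Agent.Helper19.f2_plane_cases x with rfl | rfl | rfl | rfl
      · exact hgt 0
      · exact hgt 1
      · exact hgt 2
      · exact absurd rfl hx
    rw [hσg]; exact hg
  · obtain ⟨A, b, hAb⟩ := Cfsg.Agent.Helper19.affine_of_midpoint hp2 σ (by
      intro x y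
      obtain ⟨g, hg, hgt⟩ := hσ ![x, y, (2 : ZMod p)⁻¹ • (x + y)]
      obtain ⟨A, b, hAb⟩ := haff hg
      have h0 : σ x = g x := hgt 0
      have h1 : σ y = g y := hgt 1
      have h2 : σ ((2 : ZMod p)⁻¹ • (x + y)) = g ((2 : ZMod p)⁻¹ • (x + y)) := hgt 2
      exact ⟨A, b, by rw [h0, hAb], by rw [h1, hAb], by rw [h2, hAb]⟩)
    obtain ⟨g, hg, hgt⟩ := hσ ![0, Pi.single 0 1, Pi.single 1 1]
    obtain ⟨B, c, hBc⟩ := haff hg
    have h0 : σ 0 = g 0 := hgt 0
    have h1 : σ (Pi.single 0 1) = g (Pi.single 0 1) := hgt 1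
    have h2 : σ (Pi.single 1 1) = g (Pi.single 1 1) := hgt 2
    rw [hAb, hBc, map_zero, map_zero, zero_add, zero_add] at h0
    rw [hAb, hBc, h0] at h1 h2
    have e1 : A (Pi.single 0 1) = B (Pi.single 0 1) := add_right_cancel h1
    have e2 : A (Pi.single 1 1) = B (Pi.single 1 1) := add_right_cancel h2
    have hAB : (A : (Fin 2 → ZMod p) →ₗ[ZMod p] (Fin 2 → ZMod p)) = B := by
      apply (Pi.basisFun (ZMod p) (Fin 2)).ext
      intro i
      fin_cases i
      · simpa using e1
      · simpa using e2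
    have hσg : σ = g := by
      ext1 x
      have hx : A x = B x := LinearMap.congr_fun hAB x
      rw [hAb, hBc, h0, hx]
    rw [hσg]; exact hg

end Cfsg.Agent.S3515
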