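import Cfsg.Statements.S3516
import Cfsg.Agent.Helper19.AffClosure

set_option autoImplicit false
open Cfsg

namespace Cfsg.Agent.S3516

/-- Let p be an odd prime, d ≥ 3, and G a group of affine permutations x ↦ Ax + b of V = F_p^d containing all translations and all maps x ↦ Ax with A of determinant 1. Then the 3-closure of G is the full affine group: a permutation σ of V agrees on every triple of points with some element of G if and only if σ is an affine map. -/
theorem result (p : ℕ) [Fact p.Prime] (hp : p ≠ 2) (d : ℕ) (hd : 3 ≤ d) (G : Subgroup (Equiv.Perm (Fin d → ZMod p)))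
    (haff : (G : Set (Equiv.Perm (Fin d → ZMod p))) ⊆ {τ : Equiv.Perm (Fin d → ZMod p) | ∃ (A : (Fin d → ZMod p) ≃ₗ[ZMod p] (Fin d → ZMod p)) (b : Fin d → ZMod p), ∀ x, τ x = A x + b})
    (htrans : ∀ b : Fin d → ZMod p, ∃ g ∈ G, ∀ x, g x = x + b)
    (hsl : ∀ A : (Fin d → ZMod p) ≃ₗ[ZMod p] (Fin d → ZMod p), LinearMap.det (A : (Fin d → ZMod p) →ₗ[ZMod p] (Fin d → ZMod p)) = 1 → ∃ g ∈ G, ∀ x, g x = A x)
    (σ : Equiv.Perm (Fin d → ZMod p)) :
    (∀ t : Fin 3 → (Fin d → ZMod p), ∃ g ∈ G, ∀ i, σ (t i) = g (t i)) ↔ σ ∈ {τ : Equiv.Perm (Fin d → ZMod p) | ∃ (A : (Fin d → ZMod p) ≃ₗ[ZMod p] (Fin d → ZMod p)) (b : Fin d → ZMod p), ∀ x, τ x = A x + b} := by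
  classical
  constructor
  · intro h
    apply Cfsg.Agent.Helper19.affine_of_midpoint hp σ
    intro x y
    obtain ⟨g, hg, hgt⟩ := h ![x, y, (2 : ZMod p)⁻¹ • (x + y)]
    obtain ⟨A, b, hAb⟩ := haff hg
    have h0 : σ x = g x := hgt 0
    have h1 : σ y = g y := hgt 1
    have h2 : σ ((2 : ZMod p)⁻¹ • (x + y)) = g ((2 : ZMod p)⁻¹ • (x + y)) := hgt 2
    exact ⟨A, b, by rw [h0, hAb], by rw [h1, hAb], by rw [h2, hAb]⟩
  · rintro ⟨A, b, hAb⟩ t
    have hWne : Submodule.span (ZMod p)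
        ((({t 1 - t 0, t 2 - t 0} : Finset (Fin d → ZMod p)) : Set (Fin d → ZMod p))) ≠ ⊤ := by
      intro htop
      have h1 : Module.finrank (ZMod p) (Submodule.span (ZMod p)
          ((({t 1 - t 0, t 2 - t 0} : Finset (Fin d → ZMod p)) : Set (Fin d → ZMod p)))) ≤ 2 :=
        (finrank_span_finset_le_card _).trans Finset.card_le_two
      rw [htop, finrank_top, Module.finrank_fin_fun] at h1
      omega
    obtain ⟨B, hB1, hBW⟩ := Cfsg.Agent.Helper19.exists_det_one_agree A _ hWne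
    obtain ⟨g1, hg1, hg1x⟩ := hsl B hB1
    obtain ⟨g2, hg2, hg2x⟩ := htrans (A (t 0) + b - B (t 0))
    refine ⟨g2 * g1, G.mul_mem hg2 hg1, fun i => ?_⟩
    rw [Equiv.Perm.mul_apply, hg1x, hg2x, hAb]
    have hi : t i - t 0 ∈ Submodule.span (ZMod p)
        ((({t 1 - t 0, t 2 - t 0} : Finset (Fin d → ZMod p)) : Set (Fin d → ZMod p))) := by
      fin_cases i
      · simp
      · exact Submodule.subset_span (by simp)
      · exact Submodule.subset_span (by simp)
    have h3 := hBW _ hi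
    rw [map_sub, map_sub] at h3
    calc A (t i) + b = (A (t i) - A (t 0)) + (A (t 0) + b) := by abel
      _ = (B (t i) - B (t 0)) + (A (t 0) + b) := by rw [h3]
      _ = B (t i) + (A (t 0) + b - B (t 0)) := by abel

end Cfsg.Agent.S3516
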