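import Cfsg.Statements.S3517
import Cfsg.Agent.Helper19.LinExt

set_option autoImplicit false
open Cfsg

namespace Cfsg.Agent.S3517

/-- For d ≥ 3, the 3-closure of the affine group AGL_d(2) acting on F_2^d is the full symmetric group: every permutation of F_2^d agrees on every ordered triple of points with some affine map (AGL_d(2) is 3-transitive). -/
theorem result (d : ℕ) (hd : 3 ≤ d) (σ : Equiv.Perm (Fin d → ZMod 2)) (t : Fin 3 → (Fin d → ZMod 2)) :
    ∃ (A : (Fin d → ZMod 2) ≃ₗ[ZMod 2] (Fin d → ZMod 2)) (b : Fin d → ZMod 2), ∀ i, σ (t i) = A (t i) + b := by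
  classical
  have key : ∃ A : (Fin d → ZMod 2) ≃ₗ[ZMod 2] (Fin d → ZMod 2),
      A (t 1 - t 0) = σ (t 1) - σ (t 0) ∧ A (t 2 - t 0) = σ (t 2) - σ (t 0) := by
    apply Cfsg.Agent.Helper19.exists_equiv_pair
    · rw [sub_eq_zero, sub_eq_zero, σ.injective.eq_iff]
    · rw [sub_eq_zero, sub_eq_zero, σ.injective.eq_iff]
    · rw [sub_left_inj, sub_left_inj, σ.injective.eq_iff]
  obtain ⟨A, h1, h2⟩ := key
  rw [map_sub] at h1 h2
  refine ⟨A, σ (t 0) - A (t 0), fun i => ?_⟩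
  fin_cases i
  · show σ (t 0) = A (t 0) + (σ (t 0) - A (t 0))
    abel
  · show σ (t 1) = A (t 1) + (σ (t 0) - A (t 0))
    calc σ (t 1) = (σ (t 1) - σ (t 0)) + σ (t 0) := by abel
      _ = (A (t 1) - A (t 0)) + σ (t 0) := by rw [h1]
      _ = A (t 1) + (σ (t 0) - A (t 0)) := by abel
  · show σ (t 2) = A (t 2) + (σ (t 0) - A (t 0))
    calc σ (t 2) = (σ (t 2) - σ (t 0)) + σ (t 0) := by abel
      _ = (A (t 2) - A (t 0)) + σ (t 0) := by rw [h2]
      _ = A (t 2) + (σ (t 0) - A (t 0)) := by abel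

end Cfsg.Agent.S3517
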