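import Cfsg.Statements.S3560
import Cfsg.Agent.Helper19.Hamming

set_option autoImplicit false
open Cfsg

namespace Cfsg.Agent.S3560

/-- Let K be a finite group isomorphic to a direct product of r ≥ 2 groups all of the same order m ≥ 3. Then K is not a B-group: there is a primitive but not doubly transitive permutation group (on some finite set) containing a regular subgroup isomorphic to K. -/
theorem result {K : Type*} [Group K] [Finite K] {ι : Type*} [Fintype ι] (F : ι → Type*) [∀ i, Group (F i)]
    (hr : 2 ≤ Fintype.card ι) (m : ℕ) (hm : 3 ≤ m) (hcard : ∀ i, Nat.card (F i) = m) (e : K ≃* (∀ i, F i)) :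
    ∃ (n : ℕ) (G R : Subgroup (Equiv.Perm (Fin n))), R ≤ G ∧ Nonempty (↥R ≃* K) ∧
      MulAction.IsPretransitive ↥R (Fin n) ∧ (∀ a : Fin n, MulAction.stabilizer ↥R a = ⊥) ∧
      MulAction.IsPreprimitive ↥G (Fin n) ∧ ¬ MulAction.IsMultiplyPretransitive ↥G (Fin n) 2 := by
  have hfin : ∀ i, Finite (F i) := fun i =>
    Nat.finite_of_card_ne_zero (by rw [hcard i]; omega)
  obtain ⟨G', R', hle, hK, htr, hreg, hprim, h2⟩ := Helper19.hamming_example F hr m hm hcard
  have hK' : Nonempty (R' ≃* K) := by
    obtain ⟨f⟩ := hK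
    exact ⟨f.trans e.symm⟩
  exact Helper19.transport_to_fin G' R' hle hK' htr hreg hprim h2

end Cfsg.Agent.S3560
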