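import Cfsg.Statements.S3573
import Cfsg.Agent.Helper19.PrimeOrbits

set_option autoImplicit false
open Cfsg

namespace Cfsg.Agent.S3573

/-- Let 1 ≤ k with 2k < n and consider the symmetric group of degree n acting on the k-subsets of an n-set. Let r be a prime dividing the number C(n,k) of k-subsets. If r is odd, then every permutation of order r fixes some k-subset if and only if r ≤ k and the remainder of k modulo r is at most the remainder of n modulo r. If r = 2, then every involution fixes some k-subset if and only if k is even or n is odd. -/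
theorem result (n k : ℕ) (hk : 1 ≤ k) (hkn : 2 * k < n) (r : ℕ) (hr : r.Prime) (hrd : r ∣ Nat.choose n k) :
    (r ≠ 2 → ((∀ σ : Equiv.Perm (Fin n), orderOf σ = r → ∃ s : Finset (Fin n), s.card = k ∧ s.image σ = s) ↔
      (r ≤ k ∧ k % r ≤ n % r))) ∧
    (r = 2 → ((∀ σ : Equiv.Perm (Fin n), orderOf σ = 2 → ∃ s : Finset (Fin n), s.card = k ∧ s.image σ = s) ↔
      (Even k ∨ Odd n))) := by
  classical
  have hkn' : k ≤ n := by omega
  have hcpos : 0 < Nat.choose n k := Nat.choose_pos hkn'
  have hrn : r ≤ n := by
    have h2 : Nat.choose n k ∣ n.factorial :=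
      ⟨k.factorial * (n - k).factorial, by
        rw [← mul_assoc]; exact (Nat.choose_mul_factorial_mul_factorial hkn').symm⟩
    exact (Nat.Prime.dvd_factorial hr).mp (hrd.trans h2)
  have core : (∀ σ : Equiv.Perm (Fin n), orderOf σ = r →
      ∃ s : Finset (Fin n), s.card = k ∧ s.image σ = s) ↔ k % r ≤ n % r := by
    constructor
    · intro h
      obtain ⟨σ, hσ, hmod⟩ := Cfsg.Agent.Helper19.exists_perm_invariant_mod hr hrn
      obtain ⟨s, hsk, hsi⟩ := h σ hσ
      rw [← hsk]; exact hmod s hsi
    · intro hmod σ hσ
      exact Cfsg.Agent.Helper19.exists_invariant_card hr hσ k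
        (by rw [Fintype.card_fin]; exact hkn') (by rw [Fintype.card_fin]; exact hmod)
  constructor
  · intro _
    rw [core]
    constructor
    · intro hmod
      exact ⟨Cfsg.Agent.Helper19.le_of_dvd_choose_of_mod_le hr hrd hmod, hmod⟩
    · exact fun h => h.2
  · intro hr2
    subst hr2
    rw [core, Nat.even_iff, Nat.odd_iff]
    omega

end Cfsg.Agent.S3573
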