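import Cfsg.Statements.S3633
import Cfsg.Agent.Helper19.SolvPrimes

set_option autoImplicit false
open Cfsg

namespace Cfsg.Agent.S3633

/-- Let G be a finite group and ρ a set of at least three prime divisors of the order of G that are pairwise non-adjacent in the prime graph (no element of order rs for distinct r, s ∈ ρ). Then at most one prime of ρ divides the order of any given solvable normal subgroup of G; in particular G is not solvable. -/
theorem result {G : Type*} [Group G] [Finite G] (ρ : Finset ℕ) (hρ : 3 ≤ ρ.card) (hc : ((∀ r ∈ ρ, r.Prime ∧ r ∣ Nat.card G) ∧ (∀ r ∈ ρ, ∀ s ∈ ρ, r ≠ s → ¬ ∃ x : G, orderOf x = r * s)))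
    (K : Subgroup G) [K.Normal] (hK : Group.IsSolvable ↥K) :
    (∀ r ∈ ρ, ∀ s ∈ ρ, r ∣ Nat.card ↥K → s ∣ Nat.card ↥K → r = s) ∧ ¬ Group.IsSolvable G := by
  have key : ∀ r ∈ ρ, ∀ s ∈ ρ, ∀ t ∈ ρ, r ≠ s → r ≠ t → s ≠ t →
      ¬ Cfsg.Agent.Helper19.Tri G r s t := by
    intro r hr s hs t ht hrs hrt hst h
    rcases h with h | h | h
    · exact hc.2 r hr s hs hrs h
    · exact hc.2 r hr t ht hrt h
    · exact hc.2 s hs t ht hst h
  constructor
  · intro r hr s hs hrK hsK
    by_contra hrs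
    have hcard : 1 ≤ ((ρ.erase r).erase s).card := by
      rw [Finset.card_erase_of_mem (Finset.mem_erase.2 ⟨Ne.symm hrs, hs⟩),
        Finset.card_erase_of_mem hr]
      omega
    obtain ⟨t, ht⟩ := Finset.card_pos.1 hcard
    rw [Finset.mem_erase, Finset.mem_erase] at ht
    obtain ⟨hts, htr, htρ⟩ := ht
    exact key r hr s hs t htρ hrs (Ne.symm htr) (Ne.symm hts)
      (Cfsg.Agent.Helper19.tri_of_solvable_normal K hK (hc.1 r hr).1 (hc.1 s hs).1
        (hc.1 t htρ).1 hrs (Ne.symm htr) (Ne.symm hts) hrK hsK (hc.1 t htρ).2)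
  · intro hG
    obtain ⟨r, hr, s, hs, t, ht, hrs, hrt, hst⟩ := Finset.two_lt_card.1 hρ
    have hT : Group.IsSolvable (⊤ : Subgroup G) :=
      Group.isSolvable_of_isSolvable_injective (Subgroup.subtype_injective _)
    have e : Nat.card (⊤ : Subgroup G) = Nat.card G := Subgroup.card_top
    exact key r hr s hs t ht hrs hrt hst
      (Cfsg.Agent.Helper19.tri_of_solvable_normal (⊤ : Subgroup G) hT (hc.1 r hr).1
        (hc.1 s hs).1 (hc.1 t ht).1 hrs hrt hst (by rw [e]; exact (hc.1 r hr).2)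
        (by rw [e]; exact (hc.1 s hs).2) (hc.1 t ht).2)

end Cfsg.Agent.S3633
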