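import Cfsg.Statements.S3678
import Cfsg.Agent.Helper19.PrimeGraph

set_option autoImplicit false
open Cfsg

namespace Cfsg.Agent.S3678

/-- The prime graph of a finite group has the prime divisors of its order as vertices, two distinct primes p, q being joined when the group has an element of order pq; two groups have the same prime graph when they have the same prime divisors and the same joined pairs. Let F be the field with 7 elements. There are finite groups of arbitrarily large order with the same prime graph as PSL(2,F) (the graph on {2, 3, 7} with no edges, which is also the prime graph of PSL(2,8)). -/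
theorem result {F : Type*} [Field F] [Fintype F] (hF : Fintype.card F = 7) (N : ℕ) :
    ∃ (H : Type) (_ : Group H) (_ : Finite H), N < Nat.card H ∧
      ((∀ p : ℕ, p.Prime → (p ∣ Nat.card (Matrix.ProjectiveSpecialLinearGroup (Fin 2) F) ↔ p ∣ Nat.card H)) ∧
      (∀ p q : ℕ, p.Prime → q.Prime → p ≠ q → ((∃ g : (Matrix.ProjectiveSpecialLinearGroup (Fin 2) F), orderOf g = p * q) ↔ (∃ g : H, orderOf g = p * q)))) := by
  have : Fact (Nat.Prime 2) := ⟨by norm_num⟩
  obtain ⟨K, hK1, hK2, hK⟩ := Cfsg.Agent.Helper19.exists_field_card 2 3 (by norm_num)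
  have hK8 : Fintype.card K = 8 := by rw [hK]; norm_num
  obtain ⟨H, hG, hFin, hN, hspec⟩ := Cfsg.Agent.Helper19.affGroup_large_isospectral (F := K) N
  have hfin : Finite H := Finite.of_fintype H
  refine ⟨H, hG, hfin, ?_, ?_, ?_⟩
  · rw [Nat.card_eq_fintype_card]; exact hN
  · intro p hp
    rw [(Cfsg.Agent.Helper19.psl7_primeGraph hF).1 p hp,
      (Cfsg.Agent.Helper19.aff8_primeGraph hK8 hspec).1 p hp]
  · intro p q hp hq hpq
    exact iff_of_false ((Cfsg.Agent.Helper19.psl7_primeGraph hF).2 p q hp hq hpq)
      ((Cfsg.Agent.Helper19.aff8_primeGraph hK8 hspec).2 p q hp hq hpq)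

end Cfsg.Agent.S3678
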