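import Cfsg.Statements.S3680
import Cfsg.Agent.Helper19.Socle

set_option autoImplicit false
open Cfsg

namespace Cfsg.Agent.S3680

/-- The socle of a finite primitive permutation group. Let a finite group G act faithfully and primitively on a set Ω, and let N be the subgroup generated by the minimal normal subgroups of G. Then either N is an elementary abelian p-group for some prime p and acts regularly on Ω (transitively with trivial point stabilizers), or N is isomorphic to a direct product of m ≥ 1 copies of a non-abelian simple group. -/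
theorem result {G Ω : Type*} [Group G] [Finite G] [MulAction G Ω] [FaithfulSMul G Ω] [Finite Ω]
    (hprim : MulAction.IsPreprimitive G Ω) (N : Subgroup G)
    (hN : N = sSup {V : Subgroup G | V.Normal ∧ V ≠ ⊥ ∧ ∀ M : Subgroup G, M.Normal → M ≤ V → M = ⊥ ∨ M = V}) :
    (∃ p : ℕ, p.Prime ∧ IsMulCommutative N ∧ (∀ x : N, x ^ p = 1) ∧
      MulAction.IsPretransitive N Ω ∧ ∀ ω : Ω, MulAction.stabilizer N ω = ⊥) ∨
    (∃ (T : Type) (_ : Group T) (m : ℕ), 1 ≤ m ∧ IsSimpleGroup T ∧ ¬ IsMulCommutative T ∧ Nonempty (N ≃* (Fin m → T))) := by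
  classical
  by_cases hex : ∃ M : Subgroup G, Cfsg.Agent.Helper19.IsMinNormal M
  · obtain ⟨M, hM⟩ := hex
    by_cases hab : ∀ a ∈ M, ∀ b ∈ M, a * b = b * a
    · left
      obtain ⟨p, hp, hcomm, hexp, htr, hfree⟩ :=
        Cfsg.Agent.Helper19.socle_abelian hprim N hN M hM hab
      refine ⟨p, hp, ⟨⟨fun a b => Subtype.ext (hcomm a a.2 b b.2)⟩⟩,
        fun x => Subtype.ext (by rw [Subgroup.coe_pow]; exact hexp x x.2),
        ⟨fun x y => ?_⟩, fun ω => ?_⟩
      · obtain ⟨n, hn, hnx⟩ := htr x y
        exact ⟨⟨n, hn⟩, hnx⟩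
      · rw [eq_bot_iff]
        intro n hn
        rw [Subgroup.mem_bot]
        exact Subtype.ext (hfree n n.2 ω hn)
    · right
      obtain ⟨S, ι, hιf, hιn, hSs, hSnab, ⟨eN⟩⟩ :=
        Cfsg.Agent.Helper19.socle_nonabelian hprim N hN M hM hab
      obtain ⟨T, hT, ⟨eT⟩⟩ := Cfsg.Agent.Helper19.exists_type_zero_group S
      refine ⟨T, hT, Fintype.card ι, Fintype.card_pos, ?_, ?_, ⟨?_⟩⟩
      · exact (eT.isSimpleGroup_congr).mp hSs
      · intro hc
        apply hSnab
        intro a b
        have h1 := hc.is_comm.comm (eT a) (eT b)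
        rw [← map_mul, ← map_mul] at h1
        exact eT.injective h1
      · exact eN.trans ((Cfsg.Agent.Helper19.piCongrIdx S (Fintype.equivFin ι)).trans
          (MulEquiv.piCongrRight (fun _ => eT)))
  · left
    have hsub : Subsingleton G := by
      by_contra hns
      rw [not_subsingleton_iff_nontrivial] at hns
      exact hex Cfsg.Agent.Helper19.exists_minNormal
    refine ⟨2, Nat.prime_two, ⟨⟨fun a b => Subsingleton.elim _ _⟩⟩,
      fun x => Subsingleton.elim _ _, ⟨fun x y => ?_⟩, fun ω => ?_⟩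
    · obtain ⟨g, hg⟩ := hprim.toIsPretransitive.exists_smul_eq x y
      refine ⟨1, ?_⟩
      rw [one_smul, ← hg, Subsingleton.elim g 1, one_smul]
    · rw [eq_bot_iff]
      intro n _
      rw [Subgroup.mem_bot]
      exact Subsingleton.elim _ _

end Cfsg.Agent.S3680
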