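import Cfsg.Statements.S3683
-- import your own Cfsg.Agent.* helpers here

set_option autoImplicit false
open Cfsg

namespace Cfsg.Agent.S3683

/-- Let a finite group G act faithfully and primitively on a set Ω, and suppose the stabilizer of a point a fixes a second point b ≠ a (a suborbit of length 1 other than {a}). Then the stabilizer of a is trivial and G is cyclic of prime order. -/
theorem result {G Ω : Type*} [Group G] [Finite G] [MulAction G Ω] [FaithfulSMul G Ω] [Finite Ω]
    (hprim : MulAction.IsPreprimitive G Ω) (a b : Ω) (hab : a ≠ b) (hfix : ∀ g : G, g • a = a → g • b = b) :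
    MulAction.stabilizer G a = ⊥ ∧ IsCyclic G ∧ (Nat.card G).Prime := by
  classical
  have : MulAction.IsPretransitive G Ω := hprim.toIsPretransitive
  have : Nontrivial Ω := ⟨⟨a, b, hab⟩⟩
  have hcoa : IsCoatom (MulAction.stabilizer G a) :=
    MulAction.IsPreprimitive.isCoatom_stabilizer_of_isPreprimitive G a
  have hcob : IsCoatom (MulAction.stabilizer G b) :=
    MulAction.IsPreprimitive.isCoatom_stabilizer_of_isPreprimitive G b
  have hle : MulAction.stabilizer G a ≤ MulAction.stabilizer G b := fun g hg => hfix g hg
  have heq : MulAction.stabilizer G b = MulAction.stabilizer G a :=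
    (hcoa.le_iff_eq hcob.1).1 hle
  obtain ⟨g, hg⟩ := MulAction.exists_smul_eq G a b
  have hgN : g ∈ Subgroup.normalizer ((MulAction.stabilizer G a : Subgroup G) : Set G) := by
    rw [Subgroup.mem_normalizer_iff_map_conj_eq]
    have := MulAction.stabilizer_smul_eq_stabilizer_map_conj g a
    rw [hg, heq] at this
    exact this.symm
  have hgH : g ∉ MulAction.stabilizer G a := by
    intro h
    have : g • a = a := h
    rw [hg] at this
    exact hab this.symm
  have hNtop : Subgroup.normalizer ((MulAction.stabilizer G a : Subgroup G) : Set G) = ⊤ := by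
    rcases hcoa.le_iff.1 (Subgroup.le_normalizer (H := MulAction.stabilizer G a)) with h | h
    · exact h
    · exact absurd (h ▸ hgN) hgH
  have hnormal : (MulAction.stabilizer G a).Normal := Subgroup.normalizer_eq_top_iff.1 hNtop
  have hbot : MulAction.stabilizer G a = ⊥ := by
    rw [Subgroup.eq_bot_iff_forall]
    intro h hh
    apply FaithfulSMul.eq_of_smul_eq_smul (α := Ω)
    intro c
    obtain ⟨k, rfl⟩ := MulAction.exists_smul_eq G a c
    have h1 : MulAction.stabilizer G (k • a) = MulAction.stabilizer G a := by
      rw [MulAction.stabilizer_smul_eq_stabilizer_map_conj]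
      exact Subgroup.Normal.map_conj_eq _ k
    have h2 : h ∈ MulAction.stabilizer G (k • a) := by rw [h1]; exact hh
    rw [one_smul]
    exact h2
  refine ⟨hbot, ?_⟩
  rw [hbot] at hcoa
  have hnt : Nontrivial G := by
    by_contra hnt
    rw [not_nontrivial_iff_subsingleton] at hnt
    exact hcoa.1 (Subsingleton.elim _ _)
  have hcard : Nat.card G ≠ 1 := by
    intro h1
    have := (Nat.card_eq_one_iff_unique.1 h1).1
    exact not_subsingleton G this
  obtain ⟨p, hp, hpd⟩ := Nat.exists_prime_and_dvd hcard
  have : Fact p.Prime := ⟨hp⟩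
  obtain ⟨x, hx⟩ := exists_prime_orderOf_dvd_card' (G := G) p hpd
  have hx1 : x ≠ 1 := by
    rintro rfl
    rw [orderOf_one] at hx
    exact hp.ne_one hx.symm
  have hz : Subgroup.zpowers x = ⊤ := by
    apply hcoa.2
    rw [bot_lt_iff_ne_bot]
    intro hb
    apply hx1
    have : x ∈ Subgroup.zpowers x := Subgroup.mem_zpowers x
    rw [hb] at this
    exact this
  refine ⟨isCyclic_iff_exists_zpowers_eq_top.2 ⟨x, hz⟩, ?_⟩
  rw [← orderOf_eq_card_of_zpowers_eq_top hz, hx]
  exact hp

end Cfsg.Agent.S3683
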