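import Cfsg.Statements.S3696

set_option autoImplicit false
open Cfsg

namespace Cfsg.Agent.S3696

universe u

theorem amgm2 (a b x y : ℕ) (ha : 0 < a) (hb : 0 < b) :
    x ^ a * y ^ b * (a + b) ^ (a + b) ≤ (x + y) ^ (a + b) * (a ^ a * b ^ b) := by
  have haR : (0 : ℝ) < a := by exact_mod_cast ha
  have hbR : (0 : ℝ) < b := by exact_mod_cast hb
  have habR : (0 : ℝ) < (a : ℝ) + b := by positivity
  have key : ((x : ℝ) / a) ^ a * ((y : ℝ) / b) ^ b ≤ (((x : ℝ) + y) / (a + b)) ^ (a + b) := by
    have h := Real.geom_mean_le_arith_mean2_weighted (w₁ := (a : ℝ) / (a + b))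
      (w₂ := (b : ℝ) / (a + b)) (p₁ := (x : ℝ) / a) (p₂ := (y : ℝ) / b)
      (by positivity) (by positivity) (by positivity) (by positivity) (by field_simp)
    have h2 : ((a : ℝ) / (a + b)) * ((x : ℝ) / a) + ((b : ℝ) / (a + b)) * ((y : ℝ) / b)
        = ((x : ℝ) + y) / (a + b) := by field_simp
    rw [h2] at h
    have h3 := pow_le_pow_left₀ (by positivity) h (a + b)
    have h4 : (((x : ℝ) / a) ^ ((a : ℝ) / (a + b)) * ((y : ℝ) / b) ^ ((b : ℝ) / (a + b))) ^ (a + b)
        = ((x : ℝ) / a) ^ a * ((y : ℝ) / b) ^ b := by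
      rw [mul_pow, ← Real.rpow_natCast, ← Real.rpow_natCast, ← Real.rpow_mul (by positivity),
        ← Real.rpow_mul (by positivity)]
      have e1 : (a : ℝ) / (a + b) * ((a + b : ℕ) : ℝ) = a := by push_cast; field_simp
      have e2 : (b : ℝ) / (a + b) * ((a + b : ℕ) : ℝ) = b := by push_cast; field_simp
      rw [e1, e2, Real.rpow_natCast, Real.rpow_natCast]
    rw [h4] at h3
    exact h3
  rw [div_pow, div_pow, div_pow] at key
  have h5 : ((x : ℝ) ^ a * (y : ℝ) ^ b) * ((a : ℝ) + b) ^ (a + b)
      ≤ ((x : ℝ) + y) ^ (a + b) * ((a : ℝ) ^ a * (b : ℝ) ^ b) := by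
    rw [div_mul_div_comm, div_le_div_iff₀ (by positivity) (by positivity)] at key
    exact key
  exact_mod_cast h5

theorem ineq_main (a b x y Bc : ℕ) (ha : 0 < a) (hx : 2 ^ a ≤ x) (hB : Bc * b ^ b ≤ y ^ b) :
    (Bc * x) * (a + b) ^ (a + b) ≤ (x + y) ^ (a + b) := by
  have h1 : x * a ^ a ≤ x ^ a := by
    obtain ⟨c, rfl⟩ : ∃ c, a = c + 1 := ⟨a - 1, by omega⟩
    have hc : c + 1 ≤ 2 ^ c := Nat.lt_two_pow_self
    have h2 : (c + 1) ^ (c + 1) ≤ x ^ c := by
      calc (c + 1) ^ (c + 1) ≤ (2 ^ c) ^ (c + 1) := Nat.pow_le_pow_left hc _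
        _ = (2 ^ (c + 1)) ^ c := by rw [← pow_mul, ← pow_mul, mul_comm]
        _ ≤ x ^ c := Nat.pow_le_pow_left hx _
    calc x * (c + 1) ^ (c + 1) ≤ x * x ^ c := Nat.mul_le_mul_left _ h2
      _ = x ^ (c + 1) := by rw [pow_succ, mul_comm]
  rcases Nat.eq_zero_or_pos b with hb | hb
  · subst hb
    simp only [pow_zero, mul_one, add_zero] at hB ⊢
    calc Bc * x * a ^ a ≤ 1 * x * a ^ a := by gcongr
      _ = x * a ^ a := by rw [one_mul]
      _ ≤ x ^ a := h1
      _ ≤ (x + y) ^ a := Nat.pow_le_pow_left (Nat.le_add_right _ _) _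
  · have h3 := amgm2 a b x y ha hb
    have hpos : 0 < a ^ a * b ^ b := by positivity
    refine Nat.le_of_mul_le_mul_right ?_ hpos
    calc Bc * x * (a + b) ^ (a + b) * (a ^ a * b ^ b)
        = (x * a ^ a) * (Bc * b ^ b) * (a + b) ^ (a + b) := by ring
      _ ≤ x ^ a * y ^ b * (a + b) ^ (a + b) := by gcongr
      _ ≤ (x + y) ^ (a + b) * (a ^ a * b ^ b) := h3

theorem gen {X : Type u} [DecidableEq X] (p : ℕ) (hp : p.Prime) :
    ∀ (N : ℕ) (A : Type u) [Group A] [Finite A] [MulAction A X] (S : Finset X),
    Nat.card A ≤ N → (∀ a b : A, a * b = b * a) → IsPGroup p A →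
    (∀ a : A, ∀ x ∈ S, a • x ∈ S) → (∀ a : A, (∀ x ∈ S, a • x = x) → a = 1) →
    ∀ k, Nat.card {x : A // x ^ p = 1} = p ^ k → Nat.card A * k ^ k ≤ S.card ^ k := by
  classical
  intro N
  induction N with
  | zero =>
    intro A _ _ _ S hN
    exact absurd hN (by have := Nat.card_pos (α := A); omega)
  | succ N ih =>
    intro A _ _ _ S hN hcomm hA hinv hfaith k hk
    haveI : Fact p.Prime := ⟨hp⟩
    by_cases htriv : Nat.card A = 1
    · have hk0 : k = 0 := by
        by_contra hk0
        have hsub : Subsingleton A := (Nat.card_eq_one_iff_unique.1 htriv).1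
        have h1 : Nat.card {x : A // x ^ p = 1} = 1 := by
          rw [Nat.card_eq_one_iff_unique]
          exact ⟨inferInstance, ⟨⟨1, one_pow p⟩⟩⟩
        rw [h1] at hk
        have : 1 < p ^ k := Nat.one_lt_pow hk0 hp.one_lt
        omega
      subst hk0
      simp [htriv]
    · have hpdvd : p ∣ Nat.card A := by
        obtain ⟨m, hm⟩ := IsPGroup.iff_card.1 hA
        rw [hm]
        have : m ≠ 0 := by rintro rfl; exact htriv (by simpa using hm)
        exact dvd_pow_self p this
      obtain ⟨s, hs⟩ := exists_prime_orderOf_dvd_card' p hpdvd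
      have hs1 : s ≠ 1 := by
        rintro rfl; rw [orderOf_one] at hs; exact hp.one_lt.ne hs
      have hsp : s ^ p = 1 := by rw [← hs]; exact pow_orderOf_eq_one s
      have hex : ∃ x₁ ∈ S, s • x₁ ≠ x₁ := by
        by_contra hcon
        push Not at hcon
        exact hs1 (hfaith s hcon)
      obtain ⟨x₁, hx₁S, hsx₁⟩ := hex
      obtain ⟨B, hBdef⟩ : ∃ B : Subgroup A, B = MulAction.stabilizer A x₁ := ⟨_, rfl⟩
      have hsB : s ∉ B := by rw [hBdef, MulAction.mem_stabilizer_iff]; exact hsx₁
      obtain ⟨T, hT⟩ : ∃ T : Subgroup A, ∀ a, a ∈ T ↔ a ^ p = 1 :=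
        ⟨{ carrier := {a | a ^ p = 1}
           mul_mem' := by
            intro a b ha hb
            simp only [Set.mem_ofPred_eq] at *
            rw [Commute.mul_pow (hcomm a b), ha, hb, one_mul]
           one_mem' := one_pow p
           inv_mem' := by
            intro a ha
            simp only [Set.mem_ofPred_eq] at *
            rw [inv_pow, ha, inv_one] }, fun a => Iff.rfl⟩
      have hTcard : Nat.card T = p ^ k := by
        rw [← hk]
        exact Nat.card_congr (Equiv.subtypeEquivRight hT)
      have hdvd : Nat.card ↥(T ⊓ B) ∣ p ^ k := by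
        rw [← hTcard]; exact Subgroup.card_dvd_of_le inf_le_left
      obtain ⟨k', hk'le, hk'⟩ := (Nat.dvd_prime_pow hp).1 hdvd
      have hk'lt : k' < k := by
        rcases Nat.lt_or_ge k' k with h | h
        · exact h
        · exfalso
          have hkk : k' = k := le_antisymm hk'le h
          have : T ⊓ B = T := Subgroup.eq_of_le_of_card_ge inf_le_left (by rw [hTcard, hk', hkk])
          have hsT : s ∈ T := (hT s).2 hsp
          rw [← this] at hsT
          exact hsB hsT.2
      -- index estimate
      have hidx : p ^ k ≤ p ^ k' * B.index := by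
        have h1 := Subgroup.index_inf_le (H := T) (K := B)
        have h2 := Subgroup.card_mul_index (T ⊓ B)
        have h3 := Subgroup.card_mul_index T
        have hTi : 0 < T.index := Nat.pos_of_ne_zero Subgroup.index_ne_zero_of_finite
        rw [hk'] at h2
        rw [hTcard] at h3
        have h4 : p ^ k * T.index ≤ p ^ k' * B.index * T.index := by
          calc p ^ k * T.index = p ^ k' * (T ⊓ B).index := by rw [h3, h2]
            _ ≤ p ^ k' * (T.index * B.index) := Nat.mul_le_mul_left _ h1
            _ = p ^ k' * B.index * T.index := by ring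
        exact Nat.le_of_mul_le_mul_right h4 hTi
      -- orbit
      have horbS : ∀ x, x ∈ MulAction.orbit A x₁ → x ∈ S := by
        rintro x ⟨a, rfl⟩
        exact hinv a x₁ hx₁S
      obtain ⟨O, hO⟩ : ∃ O : Finset X, ∀ x, x ∈ O ↔ x ∈ MulAction.orbit A x₁ :=
        ⟨S.filter (fun x => x ∈ MulAction.orbit A x₁), fun x => by
          rw [Finset.mem_filter]
          exact ⟨fun h => h.2, fun h => ⟨horbS x h, h⟩⟩⟩
      have hOcard : O.card = B.index := by
        rw [hBdef, MulAction.index_stabilizer, ← Set.ncard_coe_finset]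
        congr 1
        ext x
        exact hO x
      have hOS : O ⊆ S := fun x hx => horbS x ((hO x).1 hx)
      have hScard : (S \ O).card + O.card = S.card := Finset.card_sdiff_add_card_eq_card hOS
      -- B fixes O pointwise
      have hBfix : ∀ b : B, ∀ x ∈ O, (b : A) • x = x := by
        intro b x hx
        obtain ⟨a, rfl⟩ := (hO x).1 hx
        have hb : (b : A) • x₁ = x₁ := by
          have hb2 : (b : A) ∈ MulAction.stabilizer A x₁ := hBdef ▸ b.2
          exact MulAction.mem_stabilizer_iff.1 hb2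
        show (b : A) • (a • x₁) = a • x₁
        rw [← mul_smul, hcomm, mul_smul, hb]
      have hinvB : ∀ b : B, ∀ x ∈ S \ O, b • x ∈ S \ O := by
        intro b x hx
        rw [Finset.mem_sdiff] at hx ⊢
        refine ⟨hinv (b : A) x hx.1, fun hbx => hx.2 ?_⟩
        have h1 := hBfix b⁻¹ _ hbx
        have h2 : ((b⁻¹ : B) : A) • (b • x) = x := by
          show ((b⁻¹ : B) : A) • ((b : A) • x) = x
          rw [Subgroup.coe_inv, inv_smul_smul]
        rw [h2] at h1
        rw [h1]
        exact hbx
      have hfaithB : ∀ b : B, (∀ x ∈ S \ O, b • x = x) → b = 1 := by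
        intro b hb
        have : (b : A) = 1 := by
          apply hfaith
          intro x hx
          by_cases hxO : x ∈ O
          · exact hBfix b x hxO
          · exact hb x (Finset.mem_sdiff.2 ⟨hx, hxO⟩)
        exact Subtype.ext this
      have hcardB : Nat.card B ≤ N := by
        have hlt : Nat.card B < Nat.card A := by
          have h2 := Subgroup.card_mul_index B
          have hne : B.index ≠ 1 := by
            intro h1
            rw [Subgroup.index_eq_one] at h1
            exact hsB (h1 ▸ Subgroup.mem_top s)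
          have hpos : 0 < Nat.card B := Nat.card_pos
          have hipos : 0 < B.index := Nat.pos_of_ne_zero Subgroup.index_ne_zero_of_finite
          have : 2 ≤ B.index := by omega
          nlinarith
        omega
      have hkB : Nat.card {x : ↥B // x ^ p = 1} = p ^ k' := by
        rw [← hk']
        refine Nat.card_congr ⟨fun b => ⟨b.1.1, ⟨(hT _).2 ?_, b.1.2⟩⟩,
          fun c => ⟨⟨c.1, (Subgroup.mem_inf.1 c.2).2⟩, ?_⟩, ?_, ?_⟩
        · have := congrArg Subtype.val b.2
          simpa using this
        · apply Subtype.ext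
          have := (hT c.1).1 (Subgroup.mem_inf.1 c.2).1
          simpa using this
        · intro b; rfl
        · intro c; rfl
      have ihB := ih ↥B (S \ O) hcardB (fun a b => Subtype.ext (hcomm a b)) (hA.to_subgroup B)
        hinvB hfaithB k' hkB
      have h2a : 2 ^ (k - k') ≤ B.index := by
        have h1 : p ^ (k - k') * p ^ k' ≤ B.index * p ^ k' := by
          rw [← pow_add, Nat.sub_add_cancel hk'le, mul_comm B.index]
          exact hidx
        have h2 : p ^ (k - k') ≤ B.index := Nat.le_of_mul_le_mul_right h1 (pow_pos hp.pos _)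
        exact le_trans (Nat.pow_le_pow_left hp.two_le _) h2
      have hfin := ineq_main (k - k') k' B.index (S \ O).card (Nat.card B) (by omega) h2a ihB
      rw [Nat.sub_add_cancel hk'le, Subgroup.card_mul_index, ← hOcard, add_comm, hScard] at hfin
      exact hfin

/-- Let p be a prime, Ω a finite set with n ≥ p elements, and A an abelian p-subgroup of the symmetric group on Ω whose elements of order dividing p number p^k (so k is the rank of A). Then |A| · k^k ≤ n^k, that is, |A| ≤ (n/k)^k. -/
theorem result {Ω : Type*} [Fintype Ω] [DecidableEq Ω]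
    (p : ℕ) (hp : p.Prime) (hn : p ≤ Fintype.card Ω) (A : Subgroup (Equiv.Perm Ω)) (hA : IsPGroup p A) (hab : IsMulCommutative A)
    (k : ℕ) (hk : Nat.card {x : A // x ^ p = 1} = p ^ k) :
    Nat.card A * k ^ k ≤ Fintype.card Ω ^ k := by
  classical
have h := gen (X := Ω) p hp (Nat.card A) (↥A) (Finset.univ : Finset Ω) le_rfl
  (fun a b => hab.is_comm.comm a b) hA (fun a x _ => Finset.mem_univ _)
  (fun a ha => by
    apply Subtype.ext
    apply Equiv.ext
    intro x
    exact ha x (Finset.mem_univ x)) k hk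
rw [Finset.card_univ] at h
exact h

end Cfsg.Agent.S3696
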