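import Cfsg.Statements.S3803
import Mathlib
import Cfsg.Agent.Helper20.Conj
import Cfsg.Agent.Helper20.SylowAux
import Cfsg.Agent.Helper27.CoprimeAut
import Cfsg.Agent.Helper21.Cyc
import Cfsg.Agent.S0026

set_option autoImplicit false
open Cfsg

namespace Cfsg.Agent.S3803

/-- Between a subgroup `H` of order `p^j` and a `p`-subgroup `F` of order `p^n`, there is a
subgroup of each intermediate order. -/
theorem exists_between {X : Type*} [Group X] [Finite X] {p : ℕ} [Fact p.Prime] (H F : Subgroup X)
    (hHF : H ≤ F) {j m n : ℕ} (hH : Nat.card H = p ^ j) (hF : Nat.card F = p ^ n) (hjm : j ≤ m)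
    (hmn : m ≤ n) :
    ∃ K : Subgroup X, H ≤ K ∧ K ≤ F ∧ Nat.card K = p ^ m := by
  have hdvd : p ^ m ∣ Nat.card F := by rw [hF]; exact pow_dvd_pow p hmn
  have hH' : Nat.card (H.subgroupOf F) = p ^ j := by
    rw [← hH]
    exact Nat.card_congr (Subgroup.subgroupOfEquivOfLe hHF).toEquiv
  obtain ⟨K, hK, hle⟩ := Sylow.exists_subgroup_card_pow_prime_le p hdvd (H.subgroupOf F) hH' hjm
  refine ⟨K.map F.subtype, ?_, ?_, ?_⟩
  · have h1 := Subgroup.map_mono (f := F.subtype) hle
    rwa [Subgroup.map_subgroupOf_eq_of_le hHF] at h1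
  · exact Subgroup.map_subtype_le K
  · rw [← hK]
    exact Nat.card_congr (Subgroup.equivMapOfInjective K F.subtype F.subtype_injective).toEquiv.symm

theorem conj_mem_iff {X : Type*} [Group X] (K : Subgroup X) (a y : X)
    (ha : a ∈ Subgroup.normalizer (K : Set X)) : a * y * a⁻¹ ∈ K ↔ y ∈ K := by
  have h := Subgroup.mem_normalizer_iff.mp ha y
  exact h.symm

/-- A `2`-group `F` of order `2^(k+1)`, normalised by the odd-order group `A` together with all
its subgroups of order `2^k`, is centralised by `A`. -/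
theorem centralizes_of_max_invariant {X : Type*} [Group X] [Finite X] (F A : Subgroup X) (k : ℕ)
    (hF : Nat.card F = 2 ^ (k + 1)) (hA : Odd (Nat.card A))
    (hAF : A ≤ Subgroup.normalizer (F : Set X))
    (hinv : ∀ M : Subgroup X, M ≤ F → Nat.card M = 2 ^ k → A ≤ Subgroup.normalizer (M : Set X)) :
    F ≤ Subgroup.centralizer (A : Set X) := by
  haveI : Fact (Nat.Prime 2) := ⟨Nat.prime_two⟩
  have hFp : IsPGroup 2 F := IsPGroup.of_card hF
  have hcop : (Nat.card A).Coprime (Nat.card F) := by
    rw [hF]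
    exact Nat.Coprime.pow_right _ (Nat.coprime_two_right.mpr hA)
  haveI : Group.IsNilpotent F := hFp.isNilpotent
  have hsolv : Group.IsSolvable F := inferInstance
  have h26 := Cfsg.Agent.S0026.result A F hAF hcop (Or.inr hsolv)
  by_contra hne
  have hlt : F ⊓ Subgroup.centralizer (A : Set X) < F :=
    lt_of_le_of_ne inf_le_left (fun h => hne (inf_eq_left.mp h))
  have hCp : IsPGroup 2 ↥(F ⊓ Subgroup.centralizer (A : Set X)) := hFp.to_le inf_le_left
  obtain ⟨j, hj⟩ := (IsPGroup.iff_card).mp hCp
  have hjk : j ≤ k := by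
    by_contra hcon
    push Not at hcon
    have h1 : Nat.card F ≤ Nat.card ↥(F ⊓ Subgroup.centralizer (A : Set X)) := by
      rw [hF, hj]; exact Nat.pow_le_pow_right (by norm_num) hcon
    exact hlt.ne (Subgroup.eq_of_le_of_card_ge inf_le_left h1)
  obtain ⟨M, hCM, hMF, hM⟩ := exists_between (p := 2) _ F inf_le_left hj hF hjk (Nat.le_succ k)
  have hAM := hinv M hMF hM
  have hidx : (M.subgroupOf F).index = 2 := by
    have h1 := Cfsg.Agent.Helper20.card_mul_relIndex_of_le hMF
    rw [hM, hF, pow_succ] at h1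
    have h2 : M.relIndex F = 2 := Nat.eq_of_mul_eq_mul_left (by positivity) h1
    exact h2
  have hcomm : ⁅F, A⁆ ≤ M := by
    rw [Subgroup.commutator_le]
    intro f hf a ha
    have ha' := hAF ha
    have hg : a * f⁻¹ * a⁻¹ ∈ F := (conj_mem_iff F a f⁻¹ ha').mpr (inv_mem hf)
    have h1 := Subgroup.mul_mem_iff_of_index_two hidx (a := (⟨f, hf⟩ : F))
      (b := ⟨a * f⁻¹ * a⁻¹, hg⟩)
    have hiff : f ∈ M ↔ a * f⁻¹ * a⁻¹ ∈ M := by
      rw [conj_mem_iff M a f⁻¹ (hAM ha), inv_mem_iff]
    have h2 : f * (a * f⁻¹ * a⁻¹) ∈ M := h1.mpr hiff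
    have h3 : f * a * f⁻¹ * a⁻¹ = f * (a * f⁻¹ * a⁻¹) := by group
    rw [commutatorElement_def, h3]
    exact h2
  have hle : F ≤ M := le_trans h26.symm.le (sup_le hcomm hCM)
  have h4 : Nat.card F ≤ Nat.card M := Subgroup.card_le_of_le hle
  rw [hF, hM] at h4
  have h5 : 2 ^ k < 2 ^ (k + 1) := Nat.pow_lt_pow_right (by norm_num) (Nat.lt_succ_self k)
  omega

/-- An odd-order element normalising a `2`-subgroup of a cyclic group centralises it. -/
theorem commute_of_le_zpowers {X : Type*} [Group X] [Finite X] (E : Subgroup X) (y a : X) (k : ℕ)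
    (hE : Nat.card E = 2 ^ k) (hEy : E ≤ Subgroup.zpowers y)
    (ha : a ∈ Subgroup.normalizer (E : Set X)) (hodd : (orderOf a).Coprime 2) :
    ∀ x ∈ E, a * x * a⁻¹ = x := by
  haveI : IsCyclic ↥E := Subgroup.isCyclic_of_le hEy
  obtain ⟨g, hg⟩ := IsCyclic.exists_generator (α := ↥E)
  have hEz : Subgroup.zpowers (g : X) = E := by
    apply le_antisymm
    · exact (Subgroup.zpowers_le).mpr g.2
    · intro e he
      obtain ⟨i, hi⟩ := Subgroup.mem_zpowers_iff.mp (hg ⟨e, he⟩)
      rw [Subgroup.mem_zpowers_iff]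
      refine ⟨i, ?_⟩
      have h1 := congrArg Subtype.val hi
      simpa using h1
  have hord : orderOf (g : X) = 2 ^ k := by
    have h0 : Nat.card (Subgroup.zpowers (g : X)) = 2 ^ k := by rw [hEz]; exact hE
    rwa [Nat.card_zpowers] at h0
  have hcomm : (g : X) * a = a * (g : X) :=
    Cfsg.Agent.Helper21.commute_of_odd_normalizes_two_zpowers hord (by rw [hEz]; exact ha) hodd
  intro x hx
  rw [← hEz] at hx
  obtain ⟨i, rfl⟩ := Subgroup.mem_zpowers_iff.mp hx
  have h2 : Commute a ((g : X) ^ i) :=
    Commute.zpow_right (show Commute a (g : X) from hcomm.symm) i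
  rw [h2.eq, mul_inv_cancel_right]

/-- Let P be a 2-subgroup and A a subgroup of odd order of a finite group, with A normalizing P. Let D ≤ P with 1 < |D| < |P|. If every subgroup of P of order |D|, and also every subgroup of P of order 4 in case |D| = 2, is normalized by A, then A centralizes P. -/
theorem result {X : Type*} [Group X] [Finite X] (P A D : Subgroup X) (hP : IsPGroup 2 P) (hA : Odd (Nat.card A))
    (hAP : A ≤ Subgroup.normalizer (P : Set X)) (hDP : D ≤ P) (hD1 : 1 < Nat.card D) (hD2 : Nat.card D < Nat.card P)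
    (hinv : ∀ E : Subgroup X, E ≤ P → (Nat.card E = Nat.card D ∨ (Nat.card D = 2 ∧ Nat.card E = 4)) → A ≤ Subgroup.normalizer (E : Set X)) :
    A ≤ Subgroup.centralizer (P : Set X) := by
  classical
  haveI : Fact (Nat.Prime 2) := ⟨Nat.prime_two⟩
  obtain ⟨n, hn⟩ := (IsPGroup.iff_card).mp hP
  have hDp : IsPGroup 2 D := hP.to_le hDP
  obtain ⟨k, hk⟩ := (IsPGroup.iff_card).mp hDp
  have hk1 : 1 ≤ k := by
    rcases Nat.eq_zero_or_pos k with h0 | h0
    · rw [hk, h0] at hD1; simp at hD1
    · exact h0
  have hkn : k < n := by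
    rw [hk, hn] at hD2
    exact (Nat.pow_lt_pow_iff_right (by norm_num)).mp hD2
  have hodd : ∀ a ∈ A, (orderOf a).Coprime 2 := by
    intro a ha
    have h1 : orderOf (⟨a, ha⟩ : A) ∣ Nat.card A := orderOf_dvd_natCard _
    rw [Subgroup.orderOf_mk] at h1
    exact Nat.Coprime.coprime_dvd_left h1 (Nat.coprime_two_right.mpr hA)
  have hinvk : ∀ M : Subgroup X, M ≤ P → Nat.card M = 2 ^ k →
      A ≤ Subgroup.normalizer (M : Set X) := by
    intro M hMP hM
    exact hinv M hMP (Or.inl (by rw [hM, hk]))
  have hmain : ∀ a ∈ A, ∀ x ∈ P, x ^ 4 = 1 → a * x * a⁻¹ = x := by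
    intro a ha x hx hx4
    have hord : orderOf x ∣ 2 ^ 2 := orderOf_dvd_of_pow_eq_one hx4
    obtain ⟨j, hj2, hj⟩ := (Nat.dvd_prime_pow Nat.prime_two).mp hord
    have hcardz : Nat.card (Subgroup.zpowers x) = 2 ^ j := by rw [Nat.card_zpowers, hj]
    have hzP : Subgroup.zpowers x ≤ P := Subgroup.zpowers_le.mpr hx
    rcases Nat.lt_or_ge k 2 with hk2 | hk2
    · have hk1' : k = 1 := by omega
      rcases Nat.eq_zero_or_pos j with hj0 | hjpos
      · rw [hj0, pow_zero, orderOf_eq_one_iff] at hj
        rw [hj]; group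
      · have hnorm : a ∈ Subgroup.normalizer ((Subgroup.zpowers x : Subgroup X) : Set X) := by
          refine hinv (Subgroup.zpowers x) hzP ?_ ha
          rcases Nat.lt_or_ge j 2 with h | h
          · left
            have hj1 : j = 1 := by omega
            rw [hcardz, hk, hj1, hk1']
          · right
            have hj2' : j = 2 := by omega
            refine ⟨by rw [hk, hk1']; norm_num, ?_⟩
            rw [hcardz, hj2']; norm_num
        have h1 := Cfsg.Agent.Helper21.commute_of_odd_normalizes_two_zpowers hj hnorm (hodd a ha)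
        rw [← h1, mul_inv_cancel_right]
    · obtain ⟨E, hzE, hEP, hE⟩ := exists_between (p := 2) (Subgroup.zpowers x) P hzP hcardz hn
        (le_trans hj2 hk2) hkn.le
      obtain ⟨F, hEF, hFP, hF⟩ := exists_between (p := 2) E P hEP hE hn (Nat.le_succ k) hkn
      have hxE : x ∈ E := hzE (Subgroup.mem_zpowers x)
      by_cases hex : ∃ E' : Subgroup X, E' ≤ F ∧ Nat.card E' = 2 ^ k ∧ E' ≠ E
      · obtain ⟨E', hE'F, hE', hne⟩ := hex
        have hsup : E ⊔ E' = F := by
          apply Subgroup.eq_of_le_of_card_ge (sup_le hEF hE'F)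
          have hlt : E < E ⊔ E' := by
            refine lt_of_le_of_ne le_sup_left ?_
            intro heq
            have hle : E' ≤ E := le_sup_right.trans heq.symm.le
            exact hne (Subgroup.eq_of_le_of_card_ge hle (by rw [hE, hE']))
          have hSp : IsPGroup 2 ↥(E ⊔ E') := hP.to_le ((sup_le hEF hE'F).trans hFP)
          obtain ⟨i, hi⟩ := (IsPGroup.iff_card).mp hSp
          have hki : k < i := by
            by_contra hcon
            push Not at hcon
            have h1 : Nat.card ↥(E ⊔ E') ≤ Nat.card E := by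
              rw [hi, hE]; exact Nat.pow_le_pow_right (by norm_num) hcon
            exact hlt.ne (Subgroup.eq_of_le_of_card_ge le_sup_left h1)
          rw [hF, hi]
          exact Nat.pow_le_pow_right (by norm_num) hki
        have hAF : A ≤ Subgroup.normalizer (F : Set X) := by
          intro b hb
          rw [Cfsg.Agent.Helper20.mem_normalizer_iff_map_conj, ← hsup, Subgroup.map_sup,
            Cfsg.Agent.Helper20.map_conj_eq_of_mem_normalizer E b (hinvk E hEP hE hb),
            Cfsg.Agent.Helper20.map_conj_eq_of_mem_normalizer E' b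
              (hinvk E' (hE'F.trans hFP) hE' hb)]
        have hcent := centralizes_of_max_invariant F A k hF hA hAF
          (fun M hMF hM => hinvk M (hMF.trans hFP) hM)
        have hxc := hcent (hEF hxE)
        rw [Subgroup.mem_centralizer_iff] at hxc
        have h5 := hxc a ha
        rw [h5, mul_inv_cancel_right]
      · push Not at hex
        have hEltF : ∃ y ∈ F, y ∉ E := by
          by_contra hcon
          push Not at hcon
          have hFE : F ≤ E := fun y hy => hcon y hy
          have h4 := Subgroup.card_le_of_le hFE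
          rw [hF, hE] at h4
          have h5 : 2 ^ k < 2 ^ (k + 1) := Nat.pow_lt_pow_right (by norm_num) (Nat.lt_succ_self k)
          omega
        obtain ⟨y, hyF, hyE⟩ := hEltF
        have hzy : Subgroup.zpowers y ≤ F := Subgroup.zpowers_le.mpr hyF
        have hFy : F ≤ Subgroup.zpowers y := by
          by_contra hcon
          have hYp : IsPGroup 2 ↥(Subgroup.zpowers y) := hP.to_le (hzy.trans hFP)
          obtain ⟨i, hi⟩ := (IsPGroup.iff_card).mp hYp
          have hik : i ≤ k := by
            by_contra hcon2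
            push Not at hcon2
            have h1 : Nat.card F ≤ Nat.card ↥(Subgroup.zpowers y) := by
              rw [hF, hi]; exact Nat.pow_le_pow_right (by norm_num) hcon2
            exact hcon (Subgroup.eq_of_le_of_card_ge hzy h1).symm.le
          obtain ⟨M, hyM, hMF, hM⟩ := exists_between (p := 2) (Subgroup.zpowers y) F hzy hi hF hik
            (Nat.le_succ k)
          have hME : M = E := hex M hMF hM
          exact hyE (hME ▸ hyM (Subgroup.mem_zpowers y))
        exact commute_of_le_zpowers E y a k hE (hEF.trans hFy) (hinvk E hEP hE ha) (hodd a ha)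
          x hxE
  intro a ha
  rw [Subgroup.mem_centralizer_iff]
  intro x hx
  have hm : (MulAut.conj a) ^ (orderOf a) = 1 := by
    rw [← map_pow, pow_orderOf_eq_one, map_one]
  have hinvP : ∀ y ∈ P, (MulAut.conj a) y ∈ P := by
    intro y hy
    rw [MulAut.conj_apply]
    exact (conj_mem_iff P a y (hAP ha)).mpr hy
  have hfix2 : ∀ y ∈ P, y ^ 2 = 1 → (MulAut.conj a) y = y := by
    intro y hy hy2
    rw [MulAut.conj_apply]
    apply hmain a ha y hy
    have h6 : y ^ 4 = (y ^ 2) ^ 2 := by rw [← pow_mul]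
    rw [h6, hy2, one_pow]
  have hfix4 : (2 = 2) → ∀ y ∈ P, y ^ 4 = 1 → (MulAut.conj a) y = y := by
    intro _ y hy hy4
    rw [MulAut.conj_apply]
    exact hmain a ha y hy hy4
  have h := Cfsg.Agent.Helper27.aut_fix_of_fix_small_sub P hP (MulAut.conj a) hm (hodd a ha)
    hinvP hfix2 hfix4 x hx
  rw [MulAut.conj_apply] at h
  calc x * a = (a * x * a⁻¹) * a := by rw [h]
    _ = a * x := by group

end Cfsg.Agent.S3803
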