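import Cfsg.Statements.S3773
import Mathlib
import Cfsg.Agent.Lead.PGroup
import Cfsg.Agent.Helper21.Frattini
import Cfsg.Agent.Helper19.ConjRep
import Cfsg.Agent.Helper20.SylowAux
import Cfsg.Agent.S3803

set_option autoImplicit false
open Cfsg

namespace Cfsg.Agent.S3773

open scoped commutatorElement

theorem sq_pow_two (a m : ℕ) (h : a * a = 2 ^ m) : ∃ t, a = 2 ^ t ∧ m = 2 * t := by
  have hdvd : a ∣ 2 ^ m := ⟨a, h.symm⟩
  obtain ⟨t, _, rfl⟩ := (Nat.dvd_prime_pow Nat.prime_two).mp hdvd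
  refine ⟨t, rfl, ?_⟩
  rw [← pow_add] at h
  have h1 := Nat.pow_right_injective (le_refl 2) h
  omega

/-- The sum of a `±1`-valued homomorphism over a finite group. -/
theorem sum_hom_units {Γ : Type*} [Group Γ] [Fintype Γ] (ψ : Γ →* ℤˣ) :
    (∑ x : Γ, ((ψ x : ℤˣ) : ℤ)) = if ψ = 1 then (Fintype.card Γ : ℤ) else 0 := by
  by_cases h : ψ = 1
  · rw [if_pos h, h]
    simp
  · rw [if_neg h]
    obtain ⟨x₀, hx₀⟩ : ∃ x₀, ψ x₀ ≠ 1 := by
      by_contra hno
      push Not at hno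
      exact h (MonoidHom.ext (fun x => by rw [hno x, MonoidHom.one_apply]))
    have hx₀' : ψ x₀ = -1 := (Int.units_eq_one_or (ψ x₀)).resolve_left hx₀
    have h2 : ∑ x : Γ, ((ψ x : ℤˣ) : ℤ) = ∑ x : Γ, ((ψ (x₀ * x) : ℤˣ) : ℤ) :=
      (Fintype.sum_equiv (Equiv.mulLeft x₀) (fun x => ((ψ (x₀ * x) : ℤˣ) : ℤ))
        (fun x => ((ψ x : ℤˣ) : ℤ)) (fun x => rfl)).symm
    have h3 : ∀ x : Γ, ((ψ (x₀ * x) : ℤˣ) : ℤ) = - ((ψ x : ℤˣ) : ℤ) := by
      intro x
      rw [map_mul, hx₀']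
      simp
    rw [Finset.sum_congr rfl (fun x _ => h3 x), Finset.sum_neg_distrib] at h2
    linarith

theorem zmod2_sign : ∀ u v : ZMod 2, (if u + v = 0 then (1 : ℤˣ) else -1) =
    (if u = 0 then (1 : ℤˣ) else -1) * (if v = 0 then 1 else -1) := by
  decide

/-- Characters with values `±1` separate the points of an elementary abelian `2`-group. -/
theorem exists_char (e : ℕ) (a : Multiplicative (Fin e → ZMod 2)) (ha : a ≠ 1) :
    ∃ μ : Multiplicative (Fin e → ZMod 2) →* ℤˣ, μ a ≠ 1 := by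
  obtain ⟨i, hi⟩ : ∃ i, (Multiplicative.toAdd a) i ≠ 0 := by
    by_contra hno
    push Not at hno
    apply ha
    have h1 : Multiplicative.toAdd a = 0 := funext hno
    have h2 := congrArg Multiplicative.ofAdd h1
    simpa using h2
  refine ⟨MonoidHom.mk' (fun b => if (Multiplicative.toAdd b) i = 0 then (1 : ℤˣ) else -1) ?_, ?_⟩
  · intro b b'
    show (if (Multiplicative.toAdd (b * b')) i = 0 then (1 : ℤˣ) else -1) = _
    rw [toAdd_mul, Pi.add_apply]
    exact zmod2_sign _ _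
  · show (if (Multiplicative.toAdd a) i = 0 then (1 : ℤˣ) else -1) ≠ 1
    rw [if_neg hi]
    decide

/-- The key divisibility: character sums of a "quadratic map" on a `2`-group. -/
theorem quad_div {Γ : Type*} [Group Γ] [Finite Γ] (hΓ : IsPGroup 2 Γ) (e : ℕ)
    (q : Γ → Multiplicative (Fin e → ZMod 2)) (c : Γ → Γ → Multiplicative (Fin e → ZMod 2))
    (hq : ∀ x w : Γ, q (x * w) = q x * q w * c w x)
    (hc1 : ∀ w x x' : Γ, c w (x * x') = c w x * c w x')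
    (hc2 : ∀ w w' x : Γ, c (w * w') x = c w x * c w' x)
    (Z₁ : Subgroup Γ) (hZ : ∀ w ∈ Z₁, ∀ x : Γ, c w x = 1)
    (k g z : ℕ) (hg : Nat.card Γ = 2 ^ g) (hz : Nat.card Z₁ = 2 ^ z) (hk : 2 * k ≤ g + z + 1) :
    (2 ^ k : ℤ) ∣ (2 ^ e : ℤ) * (Nat.card {x : Γ // q x = 1} : ℤ) := by
  classical
  haveI : Fintype Γ := Fintype.ofFinite Γ
  haveI : Fact (Nat.Prime 2) := ⟨Nat.prime_two⟩
  haveI : Fintype (Multiplicative (Fin e → ZMod 2) →* ℤˣ) := Fintype.ofFinite _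
  have step1 : ∀ μ : Multiplicative (Fin e → ZMod 2) →* ℤˣ,
      (2 ^ k : ℤ) ∣ ∑ x : Γ, ((μ (q x) : ℤˣ) : ℤ) := by
    intro μ
    let ψ : Γ → (Γ →* ℤˣ) := fun w =>
      MonoidHom.mk' (fun x => μ (c w x)) (fun a b => by rw [hc1, map_mul])
    have hψ : ∀ w x, ψ w x = μ (c w x) := fun w x => rfl
    let Ψ : Γ →* (Γ →* ℤˣ) := MonoidHom.mk' ψ (fun w w' => MonoidHom.ext (fun x => by
      rw [MonoidHom.mul_apply, hψ, hψ, hψ, hc2, map_mul]))
    have hΨ : ∀ w, Ψ w = ψ w := fun w => rfl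
    have hZR : Z₁ ≤ Ψ.ker := by
      intro w hw
      rw [MonoidHom.mem_ker]
      apply MonoidHom.ext
      intro x
      rw [hΨ, hψ, hZ w hw x, map_one, MonoidHom.one_apply]
    have hin : ∀ w : Γ, ∑ x : Γ, ((μ (c w x) : ℤˣ) : ℤ) =
        if w ∈ Ψ.ker then (Fintype.card Γ : ℤ) else 0 := by
      intro w
      have h1 : ∑ x : Γ, ((μ (c w x) : ℤˣ) : ℤ) =
          if ψ w = 1 then (Fintype.card Γ : ℤ) else 0 := sum_hom_units (ψ w)
      have h2 : (ψ w = 1) ↔ w ∈ Ψ.ker := by rw [MonoidHom.mem_ker, hΨ]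
      by_cases hw : w ∈ Ψ.ker
      · rw [if_pos hw]
        rw [if_pos (h2.mpr hw)] at h1
        exact h1
      · rw [if_neg hw]
        rw [if_neg (fun h => hw (h2.mp h))] at h1
        exact h1
    let θ : Ψ.ker →* ℤˣ := MonoidHom.mk' (fun w => μ (q (w : Γ))) (fun a b => by
      have h1 : μ (c (b : Γ) (a : Γ)) = 1 := by
        have h2 : Ψ (b : Γ) = 1 := MonoidHom.mem_ker.mp b.2
        have h3 : ψ (b : Γ) (a : Γ) = 1 := by rw [← hΨ, h2, MonoidHom.one_apply]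
        exact h3
      show μ (q ((a : Γ) * (b : Γ))) = μ (q (a : Γ)) * μ (q (b : Γ))
      rw [hq, map_mul, map_mul, h1, mul_one])
    have hθsum : ∑ w : Ψ.ker, ((μ (q (w : Γ)) : ℤˣ) : ℤ) =
        if θ = 1 then (Fintype.card Ψ.ker : ℤ) else 0 := sum_hom_units θ
    have hT : (∑ w : Γ, (if w ∈ Ψ.ker then ((μ (q w) : ℤˣ) : ℤ) else 0)) =
        ∑ w : Ψ.ker, ((μ (q (w : Γ)) : ℤˣ) : ℤ) := by
      rw [← Finset.sum_filter]
      exact Finset.sum_subtype (Finset.univ.filter (fun w => w ∈ Ψ.ker)) (fun x => by simp)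
        (fun w => ((μ (q w) : ℤˣ) : ℤ))
    have hS2 : (∑ x : Γ, ((μ (q x) : ℤˣ) : ℤ)) * (∑ x : Γ, ((μ (q x) : ℤˣ) : ℤ)) =
        (Fintype.card Γ : ℤ) * ∑ w : Ψ.ker, ((μ (q (w : Γ)) : ℤˣ) : ℤ) := by
      rw [← hT, Finset.sum_mul_sum]
      have h1 : ∀ x : Γ, ∑ y : Γ, ((μ (q x) : ℤˣ) : ℤ) * ((μ (q y) : ℤˣ) : ℤ) =
          ∑ w : Γ, ((μ (q w) : ℤˣ) : ℤ) * ((μ (c w x) : ℤˣ) : ℤ) := by
        intro x
        have h2 : ∑ y : Γ, ((μ (q x) : ℤˣ) : ℤ) * ((μ (q y) : ℤˣ) : ℤ) =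
            ∑ w : Γ, ((μ (q x) : ℤˣ) : ℤ) * ((μ (q (x * w)) : ℤˣ) : ℤ) :=
          (Fintype.sum_equiv (Equiv.mulLeft x)
            (fun w => ((μ (q x) : ℤˣ) : ℤ) * ((μ (q (x * w)) : ℤˣ) : ℤ))
            (fun y => ((μ (q x) : ℤˣ) : ℤ) * ((μ (q y) : ℤˣ) : ℤ)) (fun w => rfl)).symm
        rw [h2]
        apply Finset.sum_congr rfl
        intro w _
        rw [hq, map_mul, map_mul, Units.val_mul, Units.val_mul]
        have h3 : ((μ (q x) : ℤˣ) : ℤ) * ((μ (q x) : ℤˣ) : ℤ) = 1 := by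
          rw [← Units.val_mul, Int.units_mul_self, Units.val_one]
        calc ((μ (q x) : ℤˣ) : ℤ) *
              (((μ (q x) : ℤˣ) : ℤ) * ((μ (q w) : ℤˣ) : ℤ) * ((μ (c w x) : ℤˣ) : ℤ))
            = (((μ (q x) : ℤˣ) : ℤ) * ((μ (q x) : ℤˣ) : ℤ)) *
              (((μ (q w) : ℤˣ) : ℤ) * ((μ (c w x) : ℤˣ) : ℤ)) := by ring
          _ = ((μ (q w) : ℤˣ) : ℤ) * ((μ (c w x) : ℤˣ) : ℤ) := by rw [h3, one_mul]
      rw [Finset.sum_congr rfl (fun x _ => h1 x), Finset.sum_comm, Finset.mul_sum]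
      apply Finset.sum_congr rfl
      intro w _
      rw [← Finset.mul_sum, hin w]
      by_cases hw : w ∈ Ψ.ker
      · rw [if_pos hw, if_pos hw]; ring
      · rw [if_neg hw, if_neg hw]; ring
    obtain ⟨r, hr⟩ := IsPGroup.iff_card.mp (hΓ.to_subgroup Ψ.ker)
    have hzr : z ≤ r := by
      have h1 : Nat.card Z₁ ∣ Nat.card Ψ.ker := Subgroup.card_dvd_of_le hZR
      rw [hz, hr] at h1
      exact (Nat.pow_dvd_pow_iff_le_right (by norm_num : 1 < 2)).mp h1
    by_cases hθ1 : θ = 1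
    · rw [if_pos hθ1] at hθsum
      have hSS : (∑ x : Γ, ((μ (q x) : ℤˣ) : ℤ)) * (∑ x : Γ, ((μ (q x) : ℤˣ) : ℤ)) =
          2 ^ (g + r) := by
        rw [hS2, hθsum, ← Nat.card_eq_fintype_card, ← Nat.card_eq_fintype_card, hg, hr, pow_add]
        push_cast
        ring
      have hnat : (Int.natAbs (∑ x : Γ, ((μ (q x) : ℤˣ) : ℤ))) *
          (Int.natAbs (∑ x : Γ, ((μ (q x) : ℤˣ) : ℤ))) = 2 ^ (g + r) := by
        have h1 := Int.natAbs_mul_self' (∑ x : Γ, ((μ (q x) : ℤˣ) : ℤ))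
        rw [hSS] at h1
        exact_mod_cast h1
      obtain ⟨t, ht, hgt⟩ := sq_pow_two _ _ hnat
      have hkt : k ≤ t := by omega
      have h2 : (2 ^ k : ℤ) ∣ ((Int.natAbs (∑ x : Γ, ((μ (q x) : ℤˣ) : ℤ)) : ℕ) : ℤ) := by
        rw [ht]
        push_cast
        exact pow_dvd_pow 2 hkt
      exact Int.dvd_natAbs.mp h2
    · rw [if_neg hθ1] at hθsum
      have hS0 : (∑ x : Γ, ((μ (q x) : ℤˣ) : ℤ)) = 0 := by
        have h1 : (∑ x : Γ, ((μ (q x) : ℤˣ) : ℤ)) * (∑ x : Γ, ((μ (q x) : ℤˣ) : ℤ)) = 0 := by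
          rw [hS2, hθsum, mul_zero]
        exact mul_self_eq_zero.mp h1
      rw [hS0]
      exact dvd_zero _
  have hsep : ∀ a : Multiplicative (Fin e → ZMod 2),
      ∑ μ : Multiplicative (Fin e → ZMod 2) →* ℤˣ, ((μ a : ℤˣ) : ℤ) =
      if a = 1 then (Fintype.card (Multiplicative (Fin e → ZMod 2) →* ℤˣ) : ℤ) else 0 := by
    intro a
    let ev : (Multiplicative (Fin e → ZMod 2) →* ℤˣ) →* ℤˣ :=
      MonoidHom.mk' (fun μ => μ a) (fun μ ν => rfl)
    have hev : ∀ μ, ev μ = μ a := fun μ => rfl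
    have h1 : ∑ μ : Multiplicative (Fin e → ZMod 2) →* ℤˣ, ((μ a : ℤˣ) : ℤ) =
        if ev = 1 then (Fintype.card (Multiplicative (Fin e → ZMod 2) →* ℤˣ) : ℤ) else 0 :=
      sum_hom_units ev
    have h2 : ev = 1 ↔ a = 1 := by
      constructor
      · intro h
        by_contra ha
        obtain ⟨μ, hμ⟩ := exists_char e a ha
        apply hμ
        have h3 := DFunLike.congr_fun h μ
        rw [hev, MonoidHom.one_apply] at h3
        exact h3
      · intro h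
        apply MonoidHom.ext
        intro μ
        rw [hev, h, map_one, MonoidHom.one_apply]
    by_cases ha : a = 1
    · rw [if_pos ha]
      rw [if_pos (h2.mpr ha)] at h1
      exact h1
    · rw [if_neg ha]
      rw [if_neg (fun h => ha (h2.mp h))] at h1
      exact h1
  have hcardM : (Fintype.card (Multiplicative (Fin e → ZMod 2) →* ℤˣ) : ℤ) = 2 ^ e := by
    have h1 : ∑ a : Multiplicative (Fin e → ZMod 2),
        ∑ μ : Multiplicative (Fin e → ZMod 2) →* ℤˣ, ((μ a : ℤˣ) : ℤ) =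
        (Fintype.card (Multiplicative (Fin e → ZMod 2) →* ℤˣ) : ℤ) := by
      rw [Finset.sum_congr rfl (fun a _ => hsep a), Finset.sum_ite_eq']
      simp
    have h2 : ∑ a : Multiplicative (Fin e → ZMod 2),
        ∑ μ : Multiplicative (Fin e → ZMod 2) →* ℤˣ, ((μ a : ℤˣ) : ℤ) =
        (Fintype.card (Multiplicative (Fin e → ZMod 2)) : ℤ) := by
      rw [Finset.sum_comm, Finset.sum_congr rfl (fun μ _ => sum_hom_units μ),
        Finset.sum_ite_eq']
      simp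
    rw [← h1, h2]
    simp [ZMod.card]
  have hfour : ∑ μ : Multiplicative (Fin e → ZMod 2) →* ℤˣ, ∑ x : Γ, ((μ (q x) : ℤˣ) : ℤ) =
      (2 ^ e : ℤ) * (Nat.card {x : Γ // q x = 1} : ℤ) := by
    have hcj : Nat.card {x : Γ // q x = 1} = (Finset.univ.filter (fun x : Γ => q x = 1)).card := by
      rw [Nat.card_eq_fintype_card]
      exact Fintype.card_of_subtype _ (fun x => by simp)
    rw [Finset.sum_comm, Finset.sum_congr rfl (fun x _ => hsep (q x)), hcardM, hcj,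
      ← Finset.sum_filter, Finset.sum_const, nsmul_eq_mul, mul_comm]
  rw [← hfour]
  exact Finset.dvd_sum (fun μ _ => step1 μ)

theorem comm_mul_right {Γ : Type*} [Group Γ]
    (hc : ∀ w x : Γ, w⁻¹ * x⁻¹ * w * x ∈ Subgroup.center Γ) (w x x' : Γ) :
    w⁻¹ * (x * x')⁻¹ * w * (x * x') = (w⁻¹ * x⁻¹ * w * x) * (w⁻¹ * x'⁻¹ * w * x') := by
  obtain ⟨c, hcdef⟩ : ∃ c : Γ, c = w⁻¹ * x⁻¹ * w * x := ⟨_, rfl⟩
  have hcc : c * x' = x' * c := (Subgroup.mem_center_iff.mp (hcdef ▸ hc w x) x').symm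
  have hcc2 : c * (w⁻¹ * x'⁻¹ * w * x') = (w⁻¹ * x'⁻¹ * w * x') * c :=
    (Subgroup.mem_center_iff.mp (hcdef ▸ hc w x) _).symm
  rw [← hcdef]
  calc w⁻¹ * (x * x')⁻¹ * w * (x * x') = w⁻¹ * x'⁻¹ * w * (c * x') := by rw [hcdef]; group
    _ = w⁻¹ * x'⁻¹ * w * (x' * c) := by rw [hcc]
    _ = (w⁻¹ * x'⁻¹ * w * x') * c := by group
    _ = c * (w⁻¹ * x'⁻¹ * w * x') := hcc2.symm

theorem comm_mul_left {Γ : Type*} [Group Γ]
    (hc : ∀ w x : Γ, w⁻¹ * x⁻¹ * w * x ∈ Subgroup.center Γ) (w w' x : Γ) :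
    (w * w')⁻¹ * x⁻¹ * (w * w') * x = (w⁻¹ * x⁻¹ * w * x) * (w'⁻¹ * x⁻¹ * w' * x) := by
  obtain ⟨c, hcdef⟩ : ∃ c : Γ, c = w⁻¹ * x⁻¹ * w * x := ⟨_, rfl⟩
  have hcc : w'⁻¹ * c = c * w'⁻¹ := Subgroup.mem_center_iff.mp (hcdef ▸ hc w x) w'⁻¹
  rw [← hcdef]
  calc (w * w')⁻¹ * x⁻¹ * (w * w') * x = (w'⁻¹ * c) * x⁻¹ * w' * x := by rw [hcdef]; group
    _ = (c * w'⁻¹) * x⁻¹ * w' * x := by rw [hcc]
    _ = c * (w'⁻¹ * x⁻¹ * w' * x) := by group

theorem sq_mul {Γ : Type*} [Group Γ]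
    (hc : ∀ w x : Γ, w⁻¹ * x⁻¹ * w * x ∈ Subgroup.center Γ) (x w : Γ) :
    (x * w) ^ 2 = x ^ 2 * w ^ 2 * (w⁻¹ * x⁻¹ * w * x) := by
  obtain ⟨c, hcdef⟩ : ∃ c : Γ, c = w⁻¹ * x⁻¹ * w * x := ⟨_, rfl⟩
  have hwx : w * x = x * w * c := by rw [hcdef]; group
  have hcw : c * w = w * c := (Subgroup.mem_center_iff.mp (hcdef ▸ hc w x) w).symm
  rw [← hcdef]
  calc (x * w) ^ 2 = x * (w * x) * w := by rw [pow_two]; group
    _ = x * (x * w * c) * w := by rw [hwx]
    _ = x * x * w * (c * w) := by group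
    _ = x * x * w * (w * c) := by rw [hcw]
    _ = x ^ 2 * w ^ 2 * c := by rw [pow_two, pow_two]; group

/-- The numerical consequence of `quad_div` for a group with a central elementary abelian
subgroup containing all squares and commutators. -/
theorem app {Γ : Type*} [Group Γ] [Finite Γ] (hΓ : IsPGroup 2 Γ) (H Z₁ : Subgroup Γ)
    (hHc : H ≤ Subgroup.center Γ) (hH2 : ∀ a ∈ H, a ^ 2 = 1) (hsq : ∀ x : Γ, x ^ 2 ∈ H)
    (hcm : ∀ w x : Γ, w⁻¹ * x⁻¹ * w * x ∈ H) (hZc : Z₁ ≤ Subgroup.center Γ)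
    (g h z n : ℕ) (hg : Nat.card Γ = 2 ^ g) (hh : Nat.card H = 2 ^ h)
    (hz : Nat.card Z₁ = 2 ^ z) (hn : Nat.card {x : Γ // x ^ 2 = 1} = 2 ^ n) :
    g + z ≤ 2 * h + 2 * n := by
  haveI : Fact (Nat.Prime 2) := ⟨Nat.prime_two⟩
  have hc : ∀ w x : Γ, w⁻¹ * x⁻¹ * w * x ∈ Subgroup.center Γ := fun w x => hHc (hcm w x)
  obtain ⟨φ⟩ := Cfsg.Agent.Helper19.exists_mulEquiv_zmod_pow (A := H) 2 h
    (fun a b => Subtype.ext (Subgroup.mem_center_iff.mp (hHc b.2) a))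
    (fun a => Subtype.ext (hH2 a a.2)) hh
  have key := quad_div hΓ h (fun x => φ ⟨x ^ 2, hsq x⟩)
    (fun w x => φ ⟨w⁻¹ * x⁻¹ * w * x, hcm w x⟩)
    (by
      intro x w
      show φ ⟨(x * w) ^ 2, hsq (x * w)⟩ =
        φ ⟨x ^ 2, hsq x⟩ * φ ⟨w ^ 2, hsq w⟩ * φ ⟨w⁻¹ * x⁻¹ * w * x, hcm w x⟩
      rw [← map_mul, ← map_mul]
      congr 1
      exact Subtype.ext (sq_mul hc x w))
    (by
      intro w x x'
      show φ ⟨w⁻¹ * (x * x')⁻¹ * w * (x * x'), hcm w (x * x')⟩ =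
        φ ⟨w⁻¹ * x⁻¹ * w * x, hcm w x⟩ * φ ⟨w⁻¹ * x'⁻¹ * w * x', hcm w x'⟩
      rw [← map_mul]
      congr 1
      exact Subtype.ext (comm_mul_right hc w x x'))
    (by
      intro w w' x
      show φ ⟨(w * w')⁻¹ * x⁻¹ * (w * w') * x, hcm (w * w') x⟩ =
        φ ⟨w⁻¹ * x⁻¹ * w * x, hcm w x⟩ * φ ⟨w'⁻¹ * x⁻¹ * w' * x, hcm w' x⟩
      rw [← map_mul]
      congr 1
      exact Subtype.ext (comm_mul_left hc w w' x))
    Z₁
    (by
      intro w hw x
      have h1 : w⁻¹ * x⁻¹ * w * x = 1 := by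
        have h3 : x⁻¹ * w = w * x⁻¹ := Subgroup.mem_center_iff.mp (hZc hw) x⁻¹
        calc w⁻¹ * x⁻¹ * w * x = w⁻¹ * (x⁻¹ * w) * x := by group
          _ = w⁻¹ * (w * x⁻¹) * x := by rw [h3]
          _ = 1 := by group
      have h2 : (⟨w⁻¹ * x⁻¹ * w * x, hcm w x⟩ : H) = 1 := Subtype.ext h1
      show φ ⟨w⁻¹ * x⁻¹ * w * x, hcm w x⟩ = 1
      rw [h2, map_one])
    ((g + z + 1) / 2) g z hg hz (by omega)
  have hcard : Nat.card {x : Γ // φ ⟨x ^ 2, hsq x⟩ = 1} = 2 ^ n := by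
    rw [← hn]
    apply Nat.card_congr
    apply Equiv.subtypeEquivRight
    intro x
    rw [MulEquiv.map_eq_one_iff]
    constructor
    · intro hx
      exact congrArg Subtype.val hx
    · intro hx
      exact Subtype.ext hx
  rw [hcard] at key
  have key' : 2 ^ ((g + z + 1) / 2) ∣ 2 ^ (h + n) := by
    rw [pow_add]
    exact_mod_cast key
  have h5 := (Nat.pow_dvd_pow_iff_le_right (by norm_num : 1 < 2)).mp key'
  omega

/-- The subgroup of elements of square one, when these are closed under products. -/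
def invSub {G : Type*} [Group G]
    (h : ∀ x y : G, x ^ 2 = 1 → y ^ 2 = 1 → (x * y) ^ 2 = 1) : Subgroup G where
  carrier := {x | x ^ 2 = 1}
  mul_mem' := fun {a b} ha hb => h a b ha hb
  one_mem' := one_pow 2
  inv_mem' := by
    intro a ha
    show a⁻¹ ^ 2 = 1
    rw [inv_pow, show a ^ 2 = 1 from ha, inv_one]

/-- The subgroup of elements whose square lies in `K`. -/
def sqSub {G : Type*} [Group G] (K : Subgroup G)
    (hc : ∀ w x : G, w⁻¹ * x⁻¹ * w * x ∈ Subgroup.center G)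
    (hcK : ∀ w x : G, w⁻¹ * x⁻¹ * w * x ∈ K) : Subgroup G where
  carrier := {x | x ^ 2 ∈ K}
  mul_mem' := by
    intro a b ha hb
    show (a * b) ^ 2 ∈ K
    rw [sq_mul hc a b]
    exact K.mul_mem (K.mul_mem ha hb) (hcK b a)
  one_mem' := by
    show (1 : G) ^ 2 ∈ K
    rw [one_pow]
    exact K.one_mem
  inv_mem' := by
    intro a ha
    show a⁻¹ ^ 2 ∈ K
    rw [inv_pow]
    exact K.inv_mem ha

/-- Let G be a finite 2-group of nilpotency class at most 2 and exponent dividing 4 in which the elements x with x² = 1 form a subgroup N. Then |G| ≤ |N|³, and |G| < |N|³ unless G is special. -/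
theorem result {G : Type*} [Group G] [Finite G] (hG : IsPGroup 2 G) (hcl : (⊤ : Subgroup G).lowerCentralSeries 2 = ⊥) (hexp : ∀ x : G, x ^ 4 = 1) (hN : ∀ x y : G, x ^ 2 = 1 → y ^ 2 = 1 → (x * y) ^ 2 = 1) : Nat.card G ≤ Nat.card {x : G // x ^ 2 = 1} ^ 3 ∧ (¬ Cfsg.IsSpecial 2 G → Nat.card G < Nat.card {x : G // x ^ 2 = 1} ^ 3) := by
  classical
  haveI : Fact (Nat.Prime 2) := ⟨Nat.prime_two⟩
  have hc : ∀ w x : G, w⁻¹ * x⁻¹ * w * x ∈ Subgroup.center G := by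
    intro w x
    rw [Subgroup.mem_center_iff]
    intro g
    have h1 : ⁅⁅w⁻¹, x⁻¹⁆, g⁆ ∈ (⊤ : Subgroup G).lowerCentralSeries 2 :=
      Subgroup.commutator_mem_commutator
        (Subgroup.commutator_mem_commutator (Subgroup.mem_top _) (Subgroup.mem_top _))
        (Subgroup.mem_top _)
    rw [hcl, Subgroup.mem_bot, commutatorElement_eq_one_iff_commute] at h1
    have h2 : ⁅w⁻¹, x⁻¹⁆ = w⁻¹ * x⁻¹ * w * x := by
      rw [commutatorElement_def, inv_inv, inv_inv]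
    rw [h2] at h1
    exact h1.eq.symm
  have hsq1 : ∀ x : G, (x ^ 2) ^ 2 = 1 := fun x => by rw [← pow_mul]; exact hexp x
  have hc2 : ∀ w x : G, (w⁻¹ * x⁻¹ * w * x) ^ 2 = 1 := by
    intro w x
    have h1 : (x * w) ^ 2 = x ^ 2 * w ^ 2 * (w⁻¹ * x⁻¹ * w * x) := sq_mul hc x w
    have h2 : w⁻¹ * x⁻¹ * w * x = (x ^ 2 * w ^ 2)⁻¹ * (x * w) ^ 2 := by rw [h1]; group
    have h3 : ((x ^ 2 * w ^ 2)⁻¹) ^ 2 = 1 := by
      rw [inv_pow, hN _ _ (hsq1 x) (hsq1 w), inv_one]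
    rw [h2]
    exact hN _ _ h3 (hsq1 (x * w))
  have hsqc : ∀ x : G, x ^ 2 ∈ Subgroup.center G := by
    intro x
    rw [Subgroup.mem_center_iff]
    intro g
    have h1 := comm_mul_right hc g x x
    have h2 : (g⁻¹ * x⁻¹ * g * x) * (g⁻¹ * x⁻¹ * g * x) = 1 := by
      rw [← pow_two]; exact hc2 g x
    rw [h2] at h1
    calc g * x ^ 2 = (x * x) * g * (g⁻¹ * (x * x)⁻¹ * g * (x * x)) := by rw [pow_two]; group
      _ = x ^ 2 * g := by rw [h1, mul_one, pow_two]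
  have hNcard : Nat.card (invSub hN) = Nat.card {x : G // x ^ 2 = 1} :=
    Nat.card_congr (Equiv.subtypeEquivRight (fun x => Iff.rfl))
  obtain ⟨g, hg⟩ := IsPGroup.iff_card.mp hG
  obtain ⟨n, hn⟩ := IsPGroup.iff_card.mp (hG.to_subgroup (invSub hN))
  obtain ⟨n₀, hn₀⟩ := IsPGroup.iff_card.mp (hG.to_subgroup (invSub hN ⊓ Subgroup.center G))
  have hn' : Nat.card {x : G // x ^ 2 = 1} = 2 ^ n := by rw [← hNcard, hn]
  have hn₀n : n₀ ≤ n := by
    have h1 : Nat.card (invSub hN ⊓ Subgroup.center G : Subgroup G) ≤ Nat.card (invSub hN) :=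
      Subgroup.card_le_of_le inf_le_left
    rw [hn₀, hn] at h1
    exact (Nat.pow_le_pow_iff_right (by norm_num : 1 < 2)).mp h1
  have happ1 := app hG (invSub hN ⊓ Subgroup.center G) (invSub hN ⊓ Subgroup.center G)
    inf_le_right (fun a ha => (Subgroup.mem_inf.mp ha).1)
    (fun x => Subgroup.mem_inf.mpr ⟨hsq1 x, hsqc x⟩)
    (fun w x => Subgroup.mem_inf.mpr ⟨hc2 w x, hc w x⟩) inf_le_right g n₀ n₀ n hg hn₀ hn₀ hn'
  have hfirst : Nat.card G ≤ Nat.card {x : G // x ^ 2 = 1} ^ 3 := by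
    rw [hg, hn', ← pow_mul]
    exact Nat.pow_le_pow_right (by norm_num) (by omega)
  refine ⟨hfirst, ?_⟩
  intro hns
  by_contra hlt
  push Not at hlt
  apply hns
  have hg3' : 3 * n ≤ g := by
    rw [hg, hn', ← pow_mul] at hlt
    have h1 := (Nat.pow_le_pow_iff_right (by norm_num : 1 < 2)).mp hlt
    omega
  have hn₀eq : n₀ = n := by omega
  have hNc : invSub hN ≤ Subgroup.center G := by
    have h1 : invSub hN ⊓ Subgroup.center G = invSub hN :=
      Subgroup.eq_of_le_of_card_ge inf_le_left (by rw [hn₀, hn, hn₀eq])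
    rw [← h1]
    exact inf_le_right
  obtain ⟨z, hz⟩ := IsPGroup.iff_card.mp (hG.to_subgroup (Subgroup.center G))
  have happ2 := app hG (invSub hN ⊓ Subgroup.center G) (Subgroup.center G)
    inf_le_right (fun a ha => (Subgroup.mem_inf.mp ha).1)
    (fun x => Subgroup.mem_inf.mpr ⟨hsq1 x, hsqc x⟩)
    (fun w x => Subgroup.mem_inf.mpr ⟨hc2 w x, hc w x⟩) le_rfl g n₀ z n hg hn₀ hz hn'
  have hzn : z ≤ n := by omega
  have hcN : invSub hN = Subgroup.center G :=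
    Subgroup.eq_of_le_of_card_ge hNc
      (by rw [hz, hn]; exact Nat.pow_le_pow_right (by norm_num) hzn)
  have hcomel : ∀ w x : G, w⁻¹ * x⁻¹ * w * x ∈ commutator G := by
    intro w x
    have h1 : ⁅w⁻¹, x⁻¹⁆ ∈ (⁅(⊤ : Subgroup G), ⊤⁆ : Subgroup G) :=
      Subgroup.commutator_mem_commutator (Subgroup.mem_top _) (Subgroup.mem_top _)
    have h2 : ⁅w⁻¹, x⁻¹⁆ = w⁻¹ * x⁻¹ * w * x := by
      rw [commutatorElement_def, inv_inv, inv_inv]
    rw [← h2]
    exact h1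
  have hcomle : commutator G ≤ invSub hN := by
    show (⁅(⊤ : Subgroup G), ⊤⁆ : Subgroup G) ≤ invSub hN
    rw [Subgroup.commutator_le]
    intro a _ b _
    have h2 : ⁅a, b⁆ = a⁻¹⁻¹ * b⁻¹⁻¹ * a⁻¹ * b⁻¹ := by
      rw [commutatorElement_def, inv_inv, inv_inv]
    rw [h2]
    exact hc2 a⁻¹ b⁻¹
  have hcomeq : commutator G = invSub hN := by
    by_contra hne
    obtain ⟨a, ha⟩ := IsPGroup.iff_card.mp (hG.to_subgroup (commutator G))
    have han : a < n := by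
      by_contra h
      push Not at h
      exact hne (Subgroup.eq_of_le_of_card_ge hcomle
        (by rw [ha, hn]; exact Nat.pow_le_pow_right (by norm_num) h))
    have hn1 : 1 ≤ n := by omega
    obtain ⟨K, hcK, hKN, hKc⟩ := Cfsg.Agent.S3803.exists_between (commutator G) (invSub hN)
      hcomle ha hn (by omega : a ≤ n - 1) (by omega : n - 1 ≤ n)
    have hcK' : ∀ w x : G, w⁻¹ * x⁻¹ * w * x ∈ K := fun w x => hcK (hcomel w x)
    obtain ⟨G₁, hG₁def⟩ : ∃ G₁ : Subgroup G, G₁ = sqSub K hc hcK' := ⟨_, rfl⟩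
    have hG₁mem : ∀ x : G, x ∈ G₁ ↔ x ^ 2 ∈ K := fun x => by rw [hG₁def]; exact Iff.rfl
    have hNG₁ : invSub hN ≤ G₁ := by
      intro x hx
      rw [hG₁mem]
      have hx' : x ^ 2 = 1 := hx
      rw [hx']
      exact K.one_mem
    have hKG₁ : K ≤ G₁ := hKN.trans hNG₁
    have hrel : (K.subgroupOf (invSub hN)).index = 2 := by
      have h1 : Nat.card K * (K.subgroupOf (invSub hN)).index = Nat.card (invSub hN) :=
        Cfsg.Agent.Helper20.card_mul_relIndex_of_le hKN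
      rw [hKc, hn] at h1
      have h2 : 2 ^ n = 2 ^ (n - 1) * 2 := by
        rw [← pow_succ]
        congr 1
        omega
      rw [h2] at h1
      exact Nat.eq_of_mul_eq_mul_left (by positivity) h1
    have hidx : Nat.card G ≤ 2 * Nat.card G₁ := by
      by_cases htop : G₁ = ⊤
      · rw [htop, Subgroup.card_top]
        omega
      · obtain ⟨t, ht⟩ : ∃ t : G, t ∉ G₁ := by
          by_contra hno
          push Not at hno
          exact htop (eq_top_iff.mpr (fun x _ => hno x))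
        have h2 : G₁.index = 2 := by
          rw [Subgroup.index_eq_two_iff]
          refine ⟨t, fun b => ?_⟩
          by_cases hb : b ∈ G₁
          · refine Or.inr ⟨hb, ?_⟩
            intro hbt
            apply ht
            have h3 : t = b⁻¹ * (b * t) := by group
            rw [h3]
            exact G₁.mul_mem (G₁.inv_mem hb) hbt
          · refine Or.inl ⟨?_, hb⟩
            rw [hG₁mem, sq_mul hc b t]
            refine K.mul_mem ?_ (hcK' t b)
            have hb2 : b ^ 2 ∉ K := fun h => hb ((hG₁mem b).mpr h)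
            have ht2 : t ^ 2 ∉ K := fun h => ht ((hG₁mem t).mpr h)
            have h4 := (Subgroup.mul_mem_iff_of_index_two hrel
              (a := (⟨b ^ 2, hsq1 b⟩ : invSub hN)) (b := (⟨t ^ 2, hsq1 t⟩ : invSub hN))).mpr
              ⟨fun h => absurd (Subgroup.mem_subgroupOf.mp h) hb2,
                fun h => absurd (Subgroup.mem_subgroupOf.mp h) ht2⟩
            exact Subgroup.mem_subgroupOf.mp h4
        have h5 := Subgroup.card_mul_index G₁
        rw [h2] at h5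
        omega
    obtain ⟨g₁, hg₁⟩ := IsPGroup.iff_card.mp (hG.to_subgroup G₁)
    have hgg₁ : g ≤ g₁ + 1 := by
      rw [hg, hg₁] at hidx
      have h1 : 2 ^ g ≤ 2 ^ (g₁ + 1) := by rw [pow_succ]; omega
      exact (Nat.pow_le_pow_iff_right (by norm_num : 1 < 2)).mp h1
    have happ3 := app (hG.to_subgroup G₁) (K.subgroupOf G₁) ((invSub hN).subgroupOf G₁)
      (by
        intro a ha
        rw [Subgroup.mem_center_iff]
        intro y
        apply Subtype.ext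
        exact Subgroup.mem_center_iff.mp (hNc (hKN (Subgroup.mem_subgroupOf.mp ha))) (y : G))
      (by
        intro a ha
        apply Subtype.ext
        exact hKN (Subgroup.mem_subgroupOf.mp ha))
      (by
        intro x
        rw [Subgroup.mem_subgroupOf]
        exact (hG₁mem (x : G)).mp x.2)
      (by
        intro w x
        rw [Subgroup.mem_subgroupOf]
        exact hcK' (w : G) (x : G))
      (by
        intro a ha
        rw [Subgroup.mem_center_iff]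
        intro y
        apply Subtype.ext
        exact Subgroup.mem_center_iff.mp (hNc (Subgroup.mem_subgroupOf.mp ha)) (y : G))
      g₁ (n - 1) n n hg₁
      (by rw [Nat.card_congr (Subgroup.subgroupOfEquivOfLe hKG₁).toEquiv, hKc])
      (by rw [Nat.card_congr (Subgroup.subgroupOfEquivOfLe hNG₁).toEquiv, hn])
      (by
        rw [← hn, ← Nat.card_congr (Subgroup.subgroupOfEquivOfLe hNG₁).toEquiv]
        apply Nat.card_congr
        apply Equiv.subtypeEquivRight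
        intro x
        rw [Subgroup.mem_subgroupOf]
        constructor
        · intro hx
          exact congrArg Subtype.val hx
        · intro hx
          exact Subtype.ext hx)
    omega
  have hfr1 : frattini G ≤ Subgroup.center G :=
    Cfsg.Agent.Helper21.frattini_le_of_sq_mem (Subgroup.center G) hsqc
  have hfr2 : Subgroup.center G ≤ frattini G := by
    rw [← hcN, ← hcomeq]
    exact Cfsg.Agent.Lead.commutator_le_frattini hG
  exact ⟨hG, le_antisymm hfr1 hfr2, hcomeq.trans hcN⟩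

end Cfsg.Agent.S3773
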