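import Cfsg.Statements.S3815

set_option autoImplicit false
open Cfsg

namespace Cfsg.Agent.S3815

theorem orderOf_conj_aux {G : Type*} [Group G] (g x : G) : orderOf (g * x * g⁻¹) = orderOf x := by
  have := MulEquiv.orderOf_eq (MulAut.conj g) x
  simpa [MulAut.conj_apply] using this

/-- Let G be a finite group, p a prime and d ∈ G an element of order prime to p. If dg has order prime to p for every element g ∈ G of order prime to p, then d ∈ O_{p'}(G). -/
theorem result {G : Type*} [Group G] [Finite G] {p : ℕ} [Fact p.Prime]
    (d : G) (hd : (orderOf d).Coprime p)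
    (h : ∀ g : G, (orderOf g).Coprime p → (orderOf (d * g)).Coprime p) :
    d ∈ Cfsg.pPrimeCore p G := by
  classical
  let D : Submonoid G :=
    { carrier := {e : G | ∀ g : G, (orderOf g).Coprime p → (orderOf (e * g)).Coprime p}
      mul_mem' := by
        intro a b ha hb g hg
        rw [mul_assoc]
        exact ha _ (hb g hg)
      one_mem' := by
        intro g hg
        simpa using hg }
  have hDsub : ∀ e ∈ D, (orderOf e).Coprime p := by
    intro e he
    have := he 1 (by simp)
    simpa using this
  let DS : Subgroup G :=
    { D with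
      inv_mem' := by
        intro a ha
        have hfin : IsOfFinOrder a := isOfFinOrder_of_finite a
        obtain ⟨n, hn, hpow⟩ := hfin.exists_pow_eq_one
        have : a⁻¹ = a ^ (n - 1) := by
          rw [inv_eq_iff_mul_eq_one, ← pow_succ']
          have : n - 1 + 1 = n := by omega
          rw [this, hpow]
        show a⁻¹ ∈ D
        rw [this]
        exact pow_mem ha _ }
  have hDS_mem : ∀ e, e ∈ DS ↔ ∀ g : G, (orderOf g).Coprime p → (orderOf (e * g)).Coprime p := by
    intro e; rfl
  have hnormal : DS.Normal := by
    constructor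
    intro n hn g
    rw [hDS_mem] at hn ⊢
    intro x hx
    have h1 : (orderOf (g⁻¹ * x * g)).Coprime p := by
      have : orderOf (g⁻¹ * x * g) = orderOf x := by
        have := orderOf_conj_aux (g⁻¹) x
        simpa using this
      rw [this]; exact hx
    have h2 := hn _ h1
    have : g * n * g⁻¹ * x = g * (n * (g⁻¹ * x * g)) * g⁻¹ := by group
    rw [this, orderOf_conj_aux]
    exact h2
  have hcard : (Nat.card DS).Coprime p := by
    rw [Nat.coprime_comm, Nat.Prime.coprime_iff_not_dvd (Fact.out)]
    intro hdvd
    obtain ⟨x, hx⟩ := exists_prime_orderOf_dvd_card' p hdvd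
    have hx' : orderOf (x : G) = p := by
      rw [Subgroup.orderOf_coe]; exact hx
    have := hDsub (x : G) x.2
    rw [hx'] at this
    exact (Fact.out : p.Prime).one_lt.ne' (Nat.coprime_self p |>.mp this)
  have hdD : d ∈ DS := by
    rw [hDS_mem]; exact h
  exact (le_sSup (show DS ∈ {N : Subgroup G | N.Normal ∧ (Nat.card N).Coprime p} from ⟨hnormal, hcard⟩)) hdD

end Cfsg.Agent.S3815
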