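import Cfsg.Statements.S3819
import Mathlib
import Cfsg.Agent.Helper9.PLocal
import Cfsg.Agent.Helper10.BalMain
import Cfsg.Agent.S0026
-- import your own Cfsg.Agent.* helpers here

set_option autoImplicit false
open Cfsg

namespace Cfsg.Agent.S3819



/-- Let G be a finite group with Sylow p-subgroup P and H = O_{p'}(G), and suppose G = PH and the commutator subgroup [H, P] is solvable. Let q be a prime and z an element of q-power order of C_H(P). Then (O_{q'}(C_H(z)) ∩ O_{q'}(C_H(P))) · [O_{q'}(C_H(z)), P] ≤ O_{q'}(H). -/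
theorem result {G : Type*} [Group G] [Finite G] {p : ℕ} [Fact p.Prime]
    (P : Sylow p G) (hPH : Cfsg.pPrimeCore p G ⊔ (P : Subgroup G) = ⊤)
    (hsol : Group.IsSolvable ↥⁅Cfsg.pPrimeCore p G, (P : Subgroup G)⁆)
    {q : ℕ} [Fact q.Prime] (z : G) (hzH : z ∈ Cfsg.pPrimeCore p G) (hzP : z ∈ Subgroup.centralizer ((P : Subgroup G) : Set G))
    (hz : ∃ k : ℕ, orderOf z = q ^ k) :
    ((Cfsg.pPrimeCore q ↥(Cfsg.pPrimeCore p G ⊓ Subgroup.centralizer ({z} : Set G))).map
        (Cfsg.pPrimeCore p G ⊓ Subgroup.centralizer ({z} : Set G)).subtype ⊓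
      (Cfsg.pPrimeCore q ↥(Cfsg.pPrimeCore p G ⊓ Subgroup.centralizer ((P : Subgroup G) : Set G))).map
        (Cfsg.pPrimeCore p G ⊓ Subgroup.centralizer ((P : Subgroup G) : Set G)).subtype) ⊔
    ⁅(Cfsg.pPrimeCore q ↥(Cfsg.pPrimeCore p G ⊓ Subgroup.centralizer ({z} : Set G))).map
        (Cfsg.pPrimeCore p G ⊓ Subgroup.centralizer ({z} : Set G)).subtype, (P : Subgroup G)⁆ ≤
    (Cfsg.pPrimeCore q ↥(Cfsg.pPrimeCore p G)).map (Cfsg.pPrimeCore p G).subtype := by
  have hz' : ∃ k : ℕ, z ^ q ^ k = 1 := by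
    obtain ⟨k, hk⟩ := hz
    exact ⟨k, by rw [← hk]; exact pow_orderOf_eq_one z⟩
  have hcop : (Nat.card ↥(P : Subgroup G)).Coprime (Nat.card ↥(Cfsg.pPrimeCore p G)) := by
    obtain ⟨n, hn⟩ := (P.2).exists_card_eq
    rw [hn]
    exact Nat.Coprime.pow_left n (Cfsg.Agent.Helper9.pPrimeCore_coprime p).symm
  have hnorm : (P : Subgroup G) ≤ Subgroup.normalizer ((Cfsg.pPrimeCore p G : Subgroup G) : Set G) :=
    Cfsg.Agent.Helper9.le_normalizer_of_conj_inv _ _
      (fun b _ w hw => (inferInstance : (Cfsg.pPrimeCore p G).Normal).conj_mem w hw b)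
  have hPsol : Group.IsSolvable ↥(P : Subgroup G) := by
    have := (P.2).isNilpotent
    infer_instance
  have hdec := Cfsg.Agent.S0026.result (P : Subgroup G) (Cfsg.pPrimeCore p G) hnorm hcop (Or.inl hPsol)
  exact Cfsg.Agent.Helper10.core_control q (Cfsg.pPrimeCore p G) (P : Subgroup G) _ _ _ _ _ z
    rfl rfl rfl rfl rfl hdec hsol hzH hzP hz'

end Cfsg.Agent.S3819
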