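import Cfsg.Statements.S3821
import Mathlib
import Cfsg.Agent.Helper20.Conj

set_option autoImplicit false
open Cfsg

namespace Cfsg.Agent.S3821

open Cfsg.Agent.Helper20

/-- Let A be a normal subgroup of the finite group G and H a subgroup of A. Then H is pronormal in G (H and gHg⁻¹ conjugate inside ⟨H, gHg⁻¹⟩ for every g ∈ G) if and only if H is pronormal in A and G = A · N_G(H). -/
theorem result {G : Type*} [Group G] [Finite G] (A H : Subgroup G) [A.Normal] (hHA : H ≤ A) :
    Cfsg.IsPronormal H ↔ (Cfsg.IsPronormal (H.subgroupOf A) ∧ A ⊔ Subgroup.normalizer (H : Set G) = ⊤) := by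
  constructor
  · intro hH
    constructor
    · intro a
      obtain ⟨x, hx, hxe⟩ := hH (a : G)
      have hHa : H.map (MulAut.conj (a : G)).toMonoidHom ≤ A := map_conj_le_of_mem _ _ _ hHA a.2
      have hxA : x ∈ A := (sup_le hHA hHa) hx
      refine ⟨⟨x, hxA⟩, ?_, ?_⟩
      · rw [subgroupOf_map_conj, ← Subgroup.subgroupOf_sup hHA hHa, Subgroup.mem_subgroupOf]
        exact hx
      · rw [subgroupOf_map_conj, subgroupOf_map_conj]
        simp only
        rw [hxe]
    · rw [eq_top_iff]
      intro g _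
      obtain ⟨x, hx, hxe⟩ := hH g
      have hHg : H.map (MulAut.conj g).toMonoidHom ≤ A := by
        intro y hy
        rw [mem_map_conj] at hy
        have h1 := hHA hy
        have : y = g * (g⁻¹ * y * g) * g⁻¹ := by group
        rw [this]
        exact ‹A.Normal›.conj_mem _ h1 g
      have hxA : x ∈ A := (sup_le hHA hHg) hx
      have hn : x⁻¹ * g ∈ Subgroup.normalizer (H : Set G) := by
        apply mem_normalizer_of_map_conj_eq
        rw [← map_conj_mul, hxe, map_conj_mul, inv_mul_cancel, map_conj_one]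
      have : g = x * (x⁻¹ * g) := by group
      rw [this]
      exact Subgroup.mul_mem_sup hxA hn
  · rintro ⟨hpro, htop⟩ g
    have hg : g ∈ A ⊔ Subgroup.normalizer (H : Set G) := by rw [htop]; trivial
    rw [Subgroup.mem_sup_of_normal_left] at hg
    obtain ⟨a, ha, n, hn, rfl⟩ := hg
    have hgn : H.map (MulAut.conj (a * n)).toMonoidHom = H.map (MulAut.conj a).toMonoidHom := by
      rw [← map_conj_mul, map_conj_eq_of_mem_normalizer H n hn]
    rw [hgn]
    obtain ⟨x, hx, hxe⟩ := hpro ⟨a, ha⟩
    have hHa : H.map (MulAut.conj a).toMonoidHom ≤ A := map_conj_le_of_mem _ _ _ hHA ha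
    rw [subgroupOf_map_conj, subgroupOf_map_conj] at hxe
    rw [subgroupOf_map_conj, ← Subgroup.subgroupOf_sup hHA hHa, Subgroup.mem_subgroupOf] at hx
    have hHx : H.map (MulAut.conj (x : G)).toMonoidHom ≤ A := map_conj_le_of_mem _ _ _ hHA x.2
    refine ⟨(x : G), hx, ?_⟩
    rw [Subgroup.subgroupOf_inj, inf_of_le_left hHa, inf_of_le_left hHx] at hxe
    exact hxe

end Cfsg.Agent.S3821
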