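import Cfsg.Statements.S3825
import Mathlib

set_option autoImplicit false
open Cfsg

namespace Cfsg.Agent.S3825

/-- Let U be a subgroup of a finite group H and w an involution of H normalizing U and commuting with exactly two elements of U, the identity and y. If V is a non-cyclic elementary abelian 2-subgroup of U containing y which is normal in U and invariant under w, then V is a Sylow 2-subgroup of U, V has order 4, and U/V is abelian. -/
theorem result {H : Type*} [Group H] [Finite H] (U : Subgroup H) (w : H) (hw : orderOf w = 2)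
    (hwU : w ∈ Subgroup.normalizer (U : Set H)) (y : H) (hy : y ≠ 1) (hyU : y ∈ U)
    (hfix : ∀ u ∈ U, w * u * w⁻¹ = u ↔ (u = 1 ∨ u = y))
    (V : Subgroup H) (hVU : V ≤ U) (hVn : (V.subgroupOf U).Normal) (hVw : ∀ v ∈ V, w * v * w⁻¹ ∈ V)
    (hVe : Cfsg.IsElementaryAbelian 2 V) (hVc : ¬ IsCyclic ↥V) (hyV : y ∈ V) :
    ¬ 2 ∣ V.relIndex U ∧ Nat.card ↥V = 4 ∧ ⁅U, U⁆ ≤ V := by
  classical
  obtain ⟨hVab, hVexp⟩ := hVe
  have hw2 : w * w = 1 := by rw [← pow_two, ← hw, pow_orderOf_eq_one]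
  have hwinv : w⁻¹ = w := inv_eq_of_mul_eq_one_left hw2
  have hττ : ∀ x : H, w * (w * x * w⁻¹) * w⁻¹ = x := by
    intro x
    rw [hwinv]
    calc w * (w * x * w) * w = (w * w) * x * (w * w) := by simp only [mul_assoc]
      _ = x := by rw [hw2, one_mul, mul_one]
  have hτU : ∀ u ∈ U, w * u * w⁻¹ ∈ U :=
    fun u hu => ((Subgroup.mem_normalizer_iff.1 hwU) u).1 hu
  have hy2 : y * y = 1 := by rw [← pow_two]; exact hVexp y hyV
  have hVcomm : ∀ a ∈ V, ∀ b ∈ V, a * b = b * a := by
    intro a ha b hb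
    have := hVab.is_comm.comm ⟨a, ha⟩ ⟨b, hb⟩
    exact congrArg Subtype.val this
  have hinvV : ∀ a ∈ V, a⁻¹ = a := by
    intro a ha
    have := hVexp a ha
    rw [pow_two] at this
    exact inv_eq_of_mul_eq_one_left this
  let ψ : V →* V :=
    { toFun := fun x => ⟨x * (w * x * w⁻¹), V.mul_mem x.2 (hVw x x.2)⟩
      map_one' := by ext; simp
      map_mul' := by
        intro a b
        ext
        show (a:H) * b * (w * (a * b) * w⁻¹) = a * (w * a * w⁻¹) * (b * (w * b * w⁻¹))
        have h1 := hVcomm b b.2 (w * a * w⁻¹) (hVw a a.2)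
        calc (a:H) * b * (w * (a * b) * w⁻¹)
            = a * (b * (w * a * w⁻¹)) * (w * b * w⁻¹) := by group
          _ = a * (w * a * w⁻¹) * (b * (w * b * w⁻¹)) := by rw [h1]; group }
  have hψ : ∀ x : V, ((ψ x : V) : H) = x * (w * x * w⁻¹) := fun x => rfl
  have hψfix : ∀ x : V, (ψ x : H) = 1 ∨ (ψ x : H) = y := by
    intro x
    apply (hfix _ (hVU (ψ x).2)).1
    rw [hψ]
    calc w * ((x:H) * (w * x * w⁻¹)) * w⁻¹
        = (w * x * w⁻¹) * (w * (w * x * w⁻¹) * w⁻¹) := by group
      _ = (w * x * w⁻¹) * x := by rw [hττ]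
      _ = x * (w * x * w⁻¹) := hVcomm _ (hVw x x.2) _ x.2
  have hker : ∀ x : V, ψ x = 1 ↔ ((x:H) = 1 ∨ (x:H) = y) := by
    intro x
    rw [Subtype.ext_iff, hψ, Subgroup.coe_one, ← hfix x (hVU x.2)]
    constructor
    · intro h
      have : w * x * w⁻¹ = (x:H)⁻¹ := (inv_eq_of_mul_eq_one_right h).symm
      rw [this, hinvV x x.2]
    · intro h
      rw [h, ← pow_two]; exact hVexp x x.2
  have hy'ord : orderOf (⟨y, hyV⟩ : V) = 2 := by
    apply orderOf_eq_prime
    · ext; simp [pow_two, hy2]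
    · intro h; exact hy (congrArg Subtype.val h)
  have hkereq : ψ.ker = Subgroup.zpowers (⟨y, hyV⟩ : V) := by
    apply le_antisymm
    · intro x hx
      rw [MonoidHom.mem_ker, hker] at hx
      rcases hx with h | h
      · have : x = 1 := Subtype.ext h
        rw [this]; exact Subgroup.one_mem _
      · have : x = ⟨y, hyV⟩ := Subtype.ext h
        rw [this]; exact Subgroup.mem_zpowers _
    · rw [Subgroup.zpowers_le, MonoidHom.mem_ker, hker]
      right; rfl
  have hkercard : Nat.card ψ.ker = 2 := by rw [hkereq, Nat.card_zpowers, hy'ord]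
  have hrange_le : ψ.range ≤ Subgroup.zpowers (⟨y, hyV⟩ : V) := by
    rintro _ ⟨x, rfl⟩
    rcases hψfix x with h | h
    · have : ψ x = 1 := Subtype.ext h
      rw [this]; exact Subgroup.one_mem _
    · have : ψ x = ⟨y, hyV⟩ := Subtype.ext h
      rw [this]; exact Subgroup.mem_zpowers _
  have hcardV : Nat.card V = 2 * Nat.card ψ.range := by
    rw [← hkercard, ← Subgroup.index_ker, Subgroup.card_mul_index]
  have hrange_card : Nat.card ψ.range = 2 := by
    have h1 : Nat.card ψ.range ≤ 2 := by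
      have := Subgroup.card_le_of_le hrange_le
      rwa [Nat.card_zpowers, hy'ord] at this
    have h2 : 0 < Nat.card ψ.range := Nat.card_pos
    have h3 : Nat.card ψ.range ≠ 1 := by
      intro h
      rw [h] at hcardV
      apply hVc
      have : Fact (Nat.Prime 2) := ⟨Nat.prime_two⟩
      exact isCyclic_of_prime_card (p := 2) (by rw [hcardV])
    omega
  have hV4 : Nat.card V = 4 := by rw [hcardV, hrange_card]
  have hrange_eq : ψ.range = Subgroup.zpowers (⟨y, hyV⟩ : V) :=
    Subgroup.eq_of_le_of_card_ge hrange_le (by rw [hrange_card, Nat.card_zpowers, hy'ord])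
  obtain ⟨v', hv'⟩ : ∃ v' : V, ψ v' = ⟨y, hyV⟩ := by
    have : (⟨y, hyV⟩ : V) ∈ ψ.range := by rw [hrange_eq]; exact Subgroup.mem_zpowers _
    exact this
  have hv'eq : (v' : H) * (w * v' * w⁻¹) = y := by
    have := congrArg Subtype.val hv'
    rwa [hψ] at this
  have hkey : ∀ u ∈ U, u⁻¹ * (w * u * w⁻¹) ∈ V → u ∈ V := by
    intro u hu hv
    obtain ⟨v, hvdef⟩ : ∃ v, v = u⁻¹ * (w * u * w⁻¹) := ⟨_, rfl⟩
    rw [← hvdef] at hv
    have hτu : w * u * w⁻¹ = u * v := by rw [hvdef]; group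
    have hτv : w * v * w⁻¹ = v := by
      have h1 : w * (u * v) * w⁻¹ = u := by rw [← hτu, hττ]
      have h2 : w * (u * v) * w⁻¹ = (w * u * w⁻¹) * (w * v * w⁻¹) := by group
      rw [h2, hτu] at h1
      have h3 : v * (w * v * w⁻¹) = 1 := by
        have : u * (v * (w * v * w⁻¹)) = u * 1 := by rw [mul_one, ← mul_assoc]; exact h1
        exact mul_left_cancel this
      have h4 : w * v * w⁻¹ = v⁻¹ := (inv_eq_of_mul_eq_one_right h3).symm
      rw [h4, hinvV v hv]
    rcases (hfix v (hVU hv)).1 hτv with h1 | h1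
    · rw [h1, mul_one] at hτu
      rcases (hfix u hu).1 hτu with h | h
      · rw [h]; exact V.one_mem
      · rw [h]; exact hyV
    · rw [h1] at hτu
      have hτv' : w * v' * w⁻¹ = (v' : H) * y := by
        have : w * v' * w⁻¹ = (v' : H)⁻¹ * y := by rw [← hv'eq]; group
        rw [this, hinvV v' v'.2]
      have hfixed : w * (u * v') * w⁻¹ = u * v' := by
        calc w * (u * v') * w⁻¹ = (w * u * w⁻¹) * (w * v' * w⁻¹) := by group
          _ = u * y * (v' * y) := by rw [hτu, hτv']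
          _ = u * (y * (v' * y)) := by group
          _ = u * ((v' * y) * y) := by rw [hVcomm y hyV (v' * y) (V.mul_mem v'.2 hyV)]
          _ = u * (v' * (y * y)) := by group
          _ = u * v' := by rw [hy2, mul_one]
      have huv'U : u * v' ∈ U := U.mul_mem hu (hVU v'.2)
      have huv'V : u * (v' : H) ∈ V := by
        rcases (hfix _ huv'U).1 hfixed with h | h
        · rw [h]; exact V.one_mem
        · rw [h]; exact hyV
      have := V.mul_mem huv'V (V.inv_mem v'.2)
      simpa using this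
  let f : U →* U :=
    { toFun := fun u => ⟨w * u * w⁻¹, hτU u u.2⟩
      map_one' := by ext; simp
      map_mul' := by intro a b; ext; simp }
  have hf : ∀ u : U, ((f u : U) : H) = w * u * w⁻¹ := fun u => rfl
  have hfV : V.subgroupOf U ≤ (V.subgroupOf U).comap f := by
    intro u hu
    rw [Subgroup.mem_comap, Subgroup.mem_subgroupOf, hf]
    exact hVw u (Subgroup.mem_subgroupOf.1 hu)
  let φ : (U ⧸ V.subgroupOf U) →* (U ⧸ V.subgroupOf U) := QuotientGroup.map _ _ f hfV
  have hφmk : ∀ u : U, φ (QuotientGroup.mk u) = QuotientGroup.mk (f u) := fun u => rfl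
  have hfpf : MonoidHom.FixedPointFree φ := by
    intro q hq
    obtain ⟨u, rfl⟩ := QuotientGroup.mk_surjective q
    rw [hφmk, eq_comm, QuotientGroup.eq] at hq
    rw [QuotientGroup.eq_one_iff, Subgroup.mem_subgroupOf]
    apply hkey u u.2
    have := Subgroup.mem_subgroupOf.1 hq
    simpa [hf] using this
  have hinvol : Function.Involutive φ := by
    intro q
    obtain ⟨u, rfl⟩ := QuotientGroup.mk_surjective q
    rw [hφmk, hφmk]
    congr 1
    ext
    rw [hf, hf]; exact hττ u
  refine ⟨?_, hV4, ?_⟩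
  · have hodd := hfpf.odd_card_of_involutive hinvol
    rw [← Nat.not_even_iff_odd, even_iff_two_dvd] at hodd
    intro h
    apply hodd
    rw [← Subgroup.index_eq_card]
    exact h
  · rw [Subgroup.commutator_le]
    intro g₁ hg₁ g₂ hg₂
    have hc := hfpf.commute_all_of_involutive hinvol
      (QuotientGroup.mk (⟨g₂, hg₂⟩ : U)⁻¹) (QuotientGroup.mk (⟨g₁, hg₁⟩ : U)⁻¹)
    have h1 : (QuotientGroup.mk ((⟨g₂, hg₂⟩ : U)⁻¹ * (⟨g₁, hg₁⟩ : U)⁻¹) : U ⧸ V.subgroupOf U)
        = QuotientGroup.mk ((⟨g₁, hg₁⟩ : U)⁻¹ * (⟨g₂, hg₂⟩ : U)⁻¹) := by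
      rw [QuotientGroup.mk_mul, QuotientGroup.mk_mul]; exact hc.eq
    rw [QuotientGroup.eq, Subgroup.mem_subgroupOf] at h1
    have h2 : g₁ * g₂ * g₁⁻¹ * g₂⁻¹ ∈ V := by
      simpa [mul_assoc] using h1
    exact h2

end Cfsg.Agent.S3825
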