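import Cfsg.Statements.S3838
import Mathlib
import Cfsg.Agent.Lead.Frobenius
import Cfsg.Agent.Helper1.Coprime
import Cfsg.Agent.Helper20.Conj
import Cfsg.Agent.Helper20.SylowAux
import Cfsg.Agent.Helper21.Primary
import Cfsg.Agent.Helper21.CoprimeAbelian
import Cfsg.Agent.Helper9.PLocal

set_option autoImplicit false
open Cfsg

namespace Cfsg.Agent.S3838

open scoped Pointwise commutatorElement

/-- A special case of Tate's theorem: if `Q` is a normal subgroup of `Γ` consisting of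
non-generators of the Sylow `p`-subgroup `P`, and `N_Γ(P)` acts trivially on `P/Q`,
then `Γ` has a normal `p`-complement. -/
theorem tate_special {Γ : Type*} [Group Γ] [Finite Γ] {p : ℕ} [Fact p.Prime] (P : Sylow p Γ)
    (Q : Subgroup Γ) [hQn : Q.Normal] (hQP : Q ≤ (P : Subgroup Γ))
    (hfrat : ∀ U : Subgroup Γ, U ≤ (P : Subgroup Γ) →
      (∀ s ∈ (P : Subgroup Γ), ∃ d ∈ Q, ∃ u ∈ U, s = d * u) → (P : Subgroup Γ) ≤ U)
    (hnc : ∀ n ∈ Subgroup.normalizer ((P : Subgroup Γ) : Set Γ), ∀ x ∈ (P : Subgroup Γ),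
      n * x * n⁻¹ * x⁻¹ ∈ Q) :
    Cfsg.HasNormalPComplement p Γ := by
  classical
  have hp := (Fact.out : p.Prime)
  have hPp : IsPGroup p (P : Subgroup Γ) := P.isPGroup'
  have hQp : IsPGroup p Q := hPp.to_le hQP
  obtain ⟨π, hπdef⟩ : ∃ π : Γ →* Γ ⧸ Q, π = QuotientGroup.mk' Q := ⟨_, rfl⟩
  have hπsurj : Function.Surjective π := by rw [hπdef]; exact QuotientGroup.mk'_surjective Q
  have hπker : ∀ a : Γ, π a = 1 ↔ a ∈ Q := by
    intro a
    rw [← MonoidHom.mem_ker, hπdef, QuotientGroup.ker_mk']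
  have hπeq : ∀ a b : Γ, π a = π b → a⁻¹ * b ∈ Q := by
    intro a b h
    rw [← hπker, map_mul, map_inv, h, inv_mul_cancel]
  obtain ⟨Pb, hPbdef⟩ : ∃ Pb : Sylow p (Γ ⧸ Q), Pb = P.mapSurjective hπsurj := ⟨_, rfl⟩
  have hPbmem : ∀ y : Γ ⧸ Q, y ∈ (Pb : Subgroup (Γ ⧸ Q)) ↔
      ∃ x ∈ (P : Subgroup Γ), π x = y := by
    intro y
    rw [hPbdef, Sylow.coe_mapSurjective]
    exact Subgroup.mem_map
  have hNC : Subgroup.normalizer (Pb : Set (Γ ⧸ Q)) ≤ Subgroup.centralizer (Pb : Set (Γ ⧸ Q)) := by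
    intro nb hnb
    obtain ⟨n, rfl⟩ := hπsurj nb
    have hnP : n ∈ Subgroup.normalizer ((P : Subgroup Γ) : Set Γ) := by
      apply Subgroup.mem_normalizer_fintype
      intro x hx
      have h1 : π n * π x * (π n)⁻¹ ∈ (Pb : Subgroup (Γ ⧸ Q)) :=
        (Subgroup.mem_normalizer_iff.mp hnb (π x)).mp ((hPbmem _).mpr ⟨x, hx, rfl⟩)
      obtain ⟨y, hy, hyx⟩ := (hPbmem _).mp h1
      have h2 : y⁻¹ * (n * x * n⁻¹) ∈ Q := by
        apply hπeq
        rw [hyx, map_mul, map_mul, map_inv]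
      have h3 : n * x * n⁻¹ = y * (y⁻¹ * (n * x * n⁻¹)) := by group
      rw [h3]
      exact mul_mem hy (hQP h2)
    rw [Subgroup.mem_centralizer_iff]
    intro xb hxb
    obtain ⟨x, hx, rfl⟩ := (hPbmem _).mp hxb
    have h1 := (hπker _).mpr (hnc n hnP x hx)
    rw [map_mul, map_mul, map_mul, map_inv, map_inv] at h1
    have h2 := mul_eq_one_iff_eq_inv.mp h1
    rw [inv_inv] at h2
    calc π x * π n = (π n * π x * (π n)⁻¹) * π n := by rw [h2]
      _ = π n * π x := by group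
  obtain ⟨Kb, hKbdef⟩ : ∃ Kb : Subgroup (Γ ⧸ Q), Kb = (MonoidHom.transferSylow Pb hNC).ker :=
    ⟨_, rfl⟩
  have hKbn : Kb.Normal := by rw [hKbdef]; exact MonoidHom.normal_ker _
  have hKbc : Subgroup.IsComplement' Kb (Pb : Subgroup (Γ ⧸ Q)) := by
    rw [hKbdef]; exact MonoidHom.ker_transferSylow_isComplement' Pb hNC
  have hKbp : ¬ p ∣ Nat.card Kb := by
    rw [hKbdef]; exact MonoidHom.not_dvd_card_ker_transferSylow Pb hNC
  have hKbidx : Kb.index = Nat.card (Pb : Subgroup (Γ ⧸ Q)) := hKbc.symm.index_eq_card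
  obtain ⟨j, hj⟩ := (IsPGroup.iff_card).mp Pb.isPGroup'
  obtain ⟨i, hi⟩ := (IsPGroup.iff_card).mp hQp
  obtain ⟨L, hLdef⟩ : ∃ L : Subgroup Γ, L = Kb.comap π := ⟨_, rfl⟩
  have hLn : L.Normal := by rw [hLdef]; exact hKbn.comap π
  have hLmem : ∀ x : Γ, x ∈ L ↔ π x ∈ Kb := by intro x; rw [hLdef]; exact Subgroup.mem_comap
  have hQL : Q ≤ L := by
    intro q hq
    rw [hLmem, (hπker q).mpr hq]; exact Kb.one_mem
  have hLidx : L.index = p ^ j := by
    rw [hLdef, Subgroup.index_comap_of_surjective Kb hπsurj, hKbidx, hj]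
  have hcardΓ : Nat.card Γ = Nat.card Kb * p ^ j * p ^ i := by
    rw [Subgroup.card_eq_card_quotient_mul_card_subgroup Q, hi, ← Subgroup.card_mul_index Kb,
      hKbidx, hj]
  have hcardL : Nat.card L = Nat.card Kb * p ^ i := by
    have h1 := Subgroup.card_mul_index L
    rw [hLidx, hcardΓ] at h1
    have hpos : 0 < p ^ j := pow_pos hp.pos j
    have h2 : Nat.card L * p ^ j = (Nat.card Kb * p ^ i) * p ^ j := by rw [h1]; ring
    exact Nat.eq_of_mul_eq_mul_right hpos h2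
  have hQL_card : Nat.card (Q.subgroupOf L) = p ^ i := by
    rw [← hi]; exact Nat.card_congr (Subgroup.subgroupOfEquivOfLe hQL).toEquiv
  have hQL_idx : (Q.subgroupOf L).index = Nat.card Kb := by
    have h1 := Subgroup.card_mul_index (Q.subgroupOf L)
    rw [hQL_card, hcardL] at h1
    have hpos : 0 < p ^ i := pow_pos hp.pos i
    have h2 : p ^ i * (Q.subgroupOf L).index = p ^ i * Nat.card Kb := by rw [h1]; ring
    exact Nat.eq_of_mul_eq_mul_left hpos h2
  have hcopK : (Nat.card Kb).Coprime p :=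
    ((Nat.Prime.coprime_iff_not_dvd hp).mpr hKbp).symm
  have hcopSZ : (Nat.card (Q.subgroupOf L)).Coprime (Q.subgroupOf L).index := by
    rw [hQL_card, hQL_idx]
    exact Nat.Coprime.pow_left i hcopK.symm
  obtain ⟨H', hH'⟩ := Subgroup.exists_right_complement'_of_coprime hcopSZ
  obtain ⟨H, hHdef⟩ : ∃ H : Subgroup Γ, H = H'.map L.subtype := ⟨_, rfl⟩
  have hHL : H ≤ L := by rw [hHdef]; exact Subgroup.map_subtype_le _
  have hHcard : Nat.card H = Nat.card Kb := by
    rw [hHdef, ← hQL_idx, hH'.symm.index_eq_card]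
    exact Nat.card_congr
      (Subgroup.equivMapOfInjective H' L.subtype L.subtype_injective).toEquiv.symm
  have hLQH : L ≤ Q ⊔ H := by
    intro l hl
    obtain ⟨⟨⟨n', hn'⟩, ⟨h', hh'⟩⟩, hnh, -⟩ :=
      Subgroup.IsComplement.existsUnique hH' (⟨l, hl⟩ : L)
    have h1 : (n' : Γ) * (h' : Γ) = l := congrArg Subtype.val hnh
    rw [← h1]
    refine Subgroup.mul_mem_sup (Subgroup.mem_subgroupOf.mp hn') ?_
    rw [hHdef]
    exact ⟨h', hh', rfl⟩
  have hcopHQ : (Nat.card H).Coprime (Nat.card Q) := by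
    rw [hHcard, hi]; exact Nat.Coprime.pow_right i hcopK
  have hQsolv : Group.IsSolvable Q := by
    haveI : Group.IsNilpotent Q := hQp.isNilpotent
    infer_instance
  have hfr : ∀ γ : Γ, ∃ d ∈ Q, d⁻¹ * γ ∈ Subgroup.normalizer (H : Set Γ) := by
    intro γ
    have hAD : H ≤ Subgroup.normalizer (Q : Set Γ) := by
      rw [Subgroup.normalizer_eq_top]; exact le_top
    have hB : MulAut.conj γ • H ≤ Q ⊔ H := by
      intro y hy
      rw [Cfsg.Agent.Helper20.mem_conj_smul_iff] at hy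
      apply hLQH
      have h1 : γ * (γ⁻¹ * y * γ) * γ⁻¹ ∈ L := hLn.conj_mem _ (hHL hy) γ
      have h2 : γ * (γ⁻¹ * y * γ) * γ⁻¹ = y := by group
      rwa [h2] at h1
    have hcard : Nat.card ↥(MulAut.conj γ • H) = Nat.card H := by
      rw [Cfsg.Agent.Helper20.conj_smul_eq_map, Cfsg.Agent.Helper20.card_map_conj]
    obtain ⟨d, hd, hdeq⟩ := Cfsg.Agent.Helper1.sz2 Q H (MulAut.conj γ • H) hAD hB hcard hcopHQ
      (Or.inr hQsolv)
    refine ⟨d, hd, ?_⟩
    rw [Cfsg.Agent.Helper20.conj_smul_eq_map, Cfsg.Agent.Helper20.conj_smul_eq_map] at hdeq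
    apply Cfsg.Agent.Helper20.mem_normalizer_of_map_conj_eq
    rw [← Cfsg.Agent.Helper20.map_conj_mul, ← hdeq, Cfsg.Agent.Helper20.map_conj_mul,
      inv_mul_cancel, Cfsg.Agent.Helper20.map_conj_one]
  have hPNH : (P : Subgroup Γ) ≤ Subgroup.normalizer (H : Set Γ) := by
    have h1 := hfrat ((P : Subgroup Γ) ⊓ Subgroup.normalizer (H : Set Γ)) inf_le_left (by
      intro s hs
      obtain ⟨d, hd, hdn⟩ := hfr s
      exact ⟨d, hd, d⁻¹ * s, Subgroup.mem_inf.mpr ⟨mul_mem (inv_mem (hQP hd)) hs, hdn⟩,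
        by group⟩)
    exact h1.trans inf_le_right
  have hHn : H.Normal := by
    rw [← Subgroup.normalizer_eq_top_iff, eq_top_iff]
    intro γ _
    obtain ⟨d, hd, hdn⟩ := hfr γ
    have h1 : γ = d * (d⁻¹ * γ) := by group
    rw [h1]
    exact mul_mem (hPNH (hQP hd)) hdn
  obtain ⟨e, he⟩ := (IsPGroup.iff_card).mp hPp
  refine ⟨P, H, hHn, ?_⟩
  apply Subgroup.isComplement'_of_coprime
  · have hidx := P.not_dvd_index
    have h1 := Subgroup.card_mul_index (P : Subgroup Γ)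
    rw [he, hcardΓ] at h1
    have h2 : p ^ e ∣ Nat.card Kb * p ^ (j + i) :=
      ⟨(P : Subgroup Γ).index, by rw [h1]; ring⟩
    have h3 : p ^ e ∣ p ^ (j + i) :=
      (Nat.Coprime.pow_left e hcopK.symm).dvd_of_dvd_mul_left h2
    have h4 : p ^ (j + i) ∣ p ^ e * (P : Subgroup Γ).index :=
      ⟨Nat.card Kb, by rw [h1]; ring⟩
    have hcopidx : (p ^ (j + i)).Coprime (P : Subgroup Γ).index :=
      Nat.Coprime.pow_left _ ((Nat.Prime.coprime_iff_not_dvd hp).mpr hidx)
    have h5 : p ^ (j + i) ∣ p ^ e := hcopidx.dvd_of_dvd_mul_right h4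
    have h6 : e = j + i := by
      have a1 := (Nat.pow_dvd_pow_iff_le_right hp.one_lt).mp h3
      have a2 := (Nat.pow_dvd_pow_iff_le_right hp.one_lt).mp h5
      omega
    rw [hHcard, he, h6, hcardΓ, pow_add]; ring
  · rw [hHcard, he]; exact Nat.Coprime.pow_right e hcopK

/-- Let G be a finite group with Sylow p-subgroup P such that N_G(P) has a normal p-complement. Then N_G(Q) has a normal p-complement for every subgroup Q with [P, P] ≤ Q ≤ Φ(P). -/
theorem result {G : Type*} [Group G] [Finite G] {p : ℕ} [Fact p.Prime] (P : Sylow p G) (hN : Cfsg.HasNormalPComplement p ↥(Subgroup.normalizer ((P : Subgroup G) : Set G))) (Q : Subgroup G) (h1 : (commutator ↥(P : Subgroup G)).map (P : Subgroup G).subtype ≤ Q) (h2 : Q ≤ (frattini ↥(P : Subgroup G)).map (P : Subgroup G).subtype) : Cfsg.HasNormalPComplement p ↥(Subgroup.normalizer (Q : Set G)) := by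
  classical
  have hPp : IsPGroup p (P : Subgroup G) := P.isPGroup'
  have hQP : Q ≤ (P : Subgroup G) := h2.trans (Subgroup.map_subtype_le _)
  have hcomm : ∀ s ∈ (P : Subgroup G), ∀ x ∈ (P : Subgroup G), s * x * s⁻¹ * x⁻¹ ∈ Q := by
    intro s hs x hx
    apply h1
    refine ⟨⁅(⟨s, hs⟩ : (P : Subgroup G)), ⟨x, hx⟩⁆, ?_, ?_⟩
    · rw [commutator_def]
      exact Subgroup.commutator_mem_commutator (Subgroup.mem_top _) (Subgroup.mem_top _)
    · rfl
  have hPN : (P : Subgroup G) ≤ Subgroup.normalizer (Q : Set G) := by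
    intro s hs
    apply Subgroup.mem_normalizer_fintype
    intro q hq
    have h3 : s * q * s⁻¹ = (s * q * s⁻¹ * q⁻¹) * q := by group
    rw [h3]
    exact mul_mem (hcomm s hs q (hQP hq)) hq
  have hF : Cfsg.Agent.Lead.FrobHyp p ↥(Subgroup.normalizer ((P : Subgroup G) : Set G)) :=
    Cfsg.Agent.Lead.frobHyp_iff.mpr hN
  have hC : ∀ n ∈ Subgroup.normalizer ((P : Subgroup G) : Set G), ∀ x ∈ (P : Subgroup G),
      n * x * n⁻¹ * x⁻¹ ∈ Q := by
    intro n hn x hx
    obtain ⟨a, m', hm'cop, ho1, ho2⟩ := Cfsg.Agent.Helper21.exists_pparts p n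
    have hnp : n ^ m' ∈ (P : Subgroup G) :=
      Cfsg.Agent.Helper21.mem_sylow_of_mem_normalizer_of_orderOf P (pow_mem hn _) ho2
    have hnc : n ^ p ^ a ∈ Subgroup.centralizer ((P : Subgroup G) : Set G) :=
      Cfsg.Agent.Lead.FrobHyp.apply_of_subgroup _ hF (P : Subgroup G) hPp Subgroup.le_normalizer
        (n ^ p ^ a) (pow_mem hn _) (pow_mem hn _) (by rw [ho1]; exact hm'cop)
    have hmem : n ∈ (P : Subgroup G) ⊔ Subgroup.centralizer ((P : Subgroup G) : Set G) :=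
      Cfsg.Agent.Helper21.mem_of_pow_mem_of_coprime (Nat.Coprime.pow_right a hm'cop)
        (Subgroup.mem_sup_left hnp) (Subgroup.mem_sup_right hnc)
    obtain ⟨s, hs, c, hc, hnsc⟩ := Cfsg.Agent.Helper9.exists_mul_of_mem_sup_normalizer
      (Subgroup.centralizer_le_normalizer _) hmem
    have hcx : x * c = c * x := Subgroup.mem_centralizer_iff.mp hc x hx
    have h3 : n * x * n⁻¹ * x⁻¹ = s * x * s⁻¹ * x⁻¹ := by
      rw [hnsc]
      calc s * c * x * (s * c)⁻¹ * x⁻¹ = s * (c * x) * c⁻¹ * s⁻¹ * x⁻¹ := by group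
        _ = s * (x * c) * c⁻¹ * s⁻¹ * x⁻¹ := by rw [hcx]
        _ = s * x * s⁻¹ * x⁻¹ := by group
    rw [h3]
    exact hcomm s hs x hx
  refine tate_special (Γ := ↥(Subgroup.normalizer (Q : Set G))) (P.subtype hPN)
    (Q.subgroupOf (Subgroup.normalizer (Q : Set G))) ?_ ?_ ?_
  · intro x hx
    rw [Sylow.coe_subtype]
    exact Subgroup.mem_subgroupOf.mpr (hQP (Subgroup.mem_subgroupOf.mp hx))
  · intro U hUP hgen
    rw [Sylow.coe_subtype] at hUP hgen ⊢
    obtain ⟨V, hVdef⟩ : ∃ V : Subgroup ↥(P : Subgroup G),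
        V = (U.map (Subgroup.normalizer (Q : Set G)).subtype).subgroupOf (P : Subgroup G) :=
      ⟨_, rfl⟩
    have hVmem : ∀ s : ↥(P : Subgroup G), s ∈ V ↔ ∃ u ∈ U, (u : G) = (s : G) := by
      intro s
      rw [hVdef, Subgroup.mem_subgroupOf]
      exact Subgroup.mem_map
    have hVtop : V = ⊤ := by
      apply frattini_nongenerating
      rw [eq_top_iff]
      intro s _
      have hsN : (⟨(s : G), hPN s.2⟩ : ↥(Subgroup.normalizer (Q : Set G))) ∈
          (P : Subgroup G).subgroupOf (Subgroup.normalizer (Q : Set G)) :=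
        Subgroup.mem_subgroupOf.mpr s.2
      obtain ⟨d, hd, u, hu, hsdu⟩ := hgen _ hsN
      have hd' : (d : G) ∈ Q := Subgroup.mem_subgroupOf.mp hd
      obtain ⟨f, hf, hfd⟩ := h2 hd'
      have hsdu' : (s : G) = (d : G) * (u : G) := congrArg Subtype.val hsdu
      have huP : (u : G) ∈ (P : Subgroup G) := by
        have h3 : (u : G) = (d : G)⁻¹ * (s : G) := by rw [hsdu']; group
        rw [h3]; exact mul_mem (inv_mem (hQP hd')) s.2
      have hfd' : (f : G) = (d : G) := hfd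
      have hs_eq : s = f * ⟨(u : G), huP⟩ := by
        apply Subtype.ext
        show (s : G) = (f : G) * (u : G)
        rw [hfd', hsdu']
      rw [hs_eq, sup_comm]
      exact Subgroup.mul_mem_sup hf ((hVmem _).mpr ⟨u, hu, rfl⟩)
    intro s hs
    have hsP : (s : G) ∈ (P : Subgroup G) := Subgroup.mem_subgroupOf.mp hs
    have h3 : (⟨(s : G), hsP⟩ : ↥(P : Subgroup G)) ∈ V := by rw [hVtop]; exact Subgroup.mem_top _
    obtain ⟨u, hu, hus⟩ := (hVmem _).mp h3
    have h4 : u = s := Subtype.ext hus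
    rw [← h4]; exact hu
  · intro n hn x hx
    rw [Sylow.coe_subtype] at hn hx
    have hxP : (x : G) ∈ (P : Subgroup G) := Subgroup.mem_subgroupOf.mp hx
    have hnP : (n : G) ∈ Subgroup.normalizer ((P : Subgroup G) : Set G) := by
      apply Subgroup.mem_normalizer_fintype
      intro y hy
      have hyN : (⟨y, hPN hy⟩ : ↥(Subgroup.normalizer (Q : Set G))) ∈
          (P : Subgroup G).subgroupOf (Subgroup.normalizer (Q : Set G)) :=
        Subgroup.mem_subgroupOf.mpr hy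
      have h3 := (Subgroup.mem_normalizer_iff.mp hn ⟨y, hPN hy⟩).mp hyN
      exact Subgroup.mem_subgroupOf.mp h3
    exact Subgroup.mem_subgroupOf.mpr (hC (n : G) hnP (x : G) hxP)

end Cfsg.Agent.S3838
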