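import Cfsg.Statements.S3839
import Mathlib
import Cfsg.Agent.Lead.Frobenius
import Cfsg.Agent.Helper12.AlpInd
import Cfsg.Agent.Helper9.PLocal
import Cfsg.Agent.Helper21.Primary
import Cfsg.Agent.Helper20.Conj

set_option autoImplicit false
open Cfsg

namespace Cfsg.Agent.S3839

open Cfsg.Agent.Helper12 Cfsg.Agent.Lead

/-- The stability group of the chain `Q ≥ Q₀ ≥ 1` inside `N_G(Q)`. -/
def stabChain {G : Type*} [Group G] (Q Q₀ : Subgroup G) : Subgroup G where
  carrier := {y | y ∈ Subgroup.normalizer (Q : Set G) ∧ (∀ q ∈ Q₀, y * q * y⁻¹ = q) ∧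
    (∀ q ∈ Q, y * q * y⁻¹ * q⁻¹ ∈ Q₀)}
  one_mem' := by
    refine ⟨one_mem _, ?_, ?_⟩
    · intro q _; simp
    · intro q _; simp
  mul_mem' := by
    rintro y z ⟨hy1, hy2, hy3⟩ ⟨hz1, hz2, hz3⟩
    refine ⟨mul_mem hy1 hz1, ?_, ?_⟩
    · intro q hq
      have e : y * z * q * (y * z)⁻¹ = y * (z * q * z⁻¹) * y⁻¹ := by group
      rw [e, hz2 q hq, hy2 q hq]
    · intro q hq
      have e : y * z * q * (y * z)⁻¹ * q⁻¹
          = (y * (z * q * z⁻¹ * q⁻¹) * y⁻¹) * (y * q * y⁻¹ * q⁻¹) := by group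
      rw [e, hy2 _ (hz3 q hq)]
      exact Q₀.mul_mem (hz3 q hq) (hy3 q hq)
  inv_mem' := by
    rintro y ⟨hy1, hy2, hy3⟩
    refine ⟨inv_mem hy1, ?_, ?_⟩
    · intro q hq
      have h := hy2 q hq
      calc y⁻¹ * q * y⁻¹⁻¹ = y⁻¹ * (y * q * y⁻¹) * y := by rw [h, inv_inv]
        _ = q := by group
    · intro q hq
      have h1 : (y * q * y⁻¹ * q⁻¹)⁻¹ ∈ Q₀ := Q₀.inv_mem (hy3 q hq)
      have h2 := hy2 _ h1
      have e : y⁻¹ * q * y⁻¹⁻¹ * q⁻¹ = y⁻¹ * (y * q * y⁻¹ * q⁻¹)⁻¹ * y := by group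
      have h3 : y⁻¹ * (y * q * y⁻¹ * q⁻¹)⁻¹ * y = (y * q * y⁻¹ * q⁻¹)⁻¹ := by
        calc y⁻¹ * (y * q * y⁻¹ * q⁻¹)⁻¹ * y
            = y⁻¹ * (y * (y * q * y⁻¹ * q⁻¹)⁻¹ * y⁻¹) * y := by rw [h2]
          _ = (y * q * y⁻¹ * q⁻¹)⁻¹ := by group
      rw [e, h3]; exact h1

/-- A `p'`-element stabilising the chain `Q ≥ Q₀ ≥ 1` (with `Q₀` a `p`-group) centralises `Q`. -/
theorem stabChain_centralizes {G : Type*} [Group G] [Finite G] {p : ℕ} [Fact p.Prime]
    (Q Q₀ : Subgroup G) (hQ₀ : IsPGroup p Q₀) (y : G) (hy : y ∈ stabChain Q Q₀)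
    (hcop : (orderOf y).Coprime p) : ∀ q ∈ Q, y * q * y⁻¹ = q := by
  have hy' : y ∈ Subgroup.normalizer (Q : Set G) ∧ (∀ q ∈ Q₀, y * q * y⁻¹ = q) ∧
      (∀ q ∈ Q, y * q * y⁻¹ * q⁻¹ ∈ Q₀) := hy
  obtain ⟨hy1, hy2, hy3⟩ := hy'
  intro q hq
  obtain ⟨c, hc⟩ : ∃ c, c = y * q * y⁻¹ * q⁻¹ := ⟨_, rfl⟩
  have hcQ : c ∈ Q₀ := by rw [hc]; exact hy3 q hq
  have hyc : y * c * y⁻¹ = c := hy2 c hcQ
  have hyq : y * q * y⁻¹ = c * q := by rw [hc]; group
  have hpow : ∀ j : ℕ, y ^ j * q * (y ^ j)⁻¹ = c ^ j * q := by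
    intro j
    induction j with
    | zero => simp
    | succ j ih =>
      have hycj : y * c ^ j * y⁻¹ = c ^ j := by rw [← conj_pow, hyc]
      calc y ^ (j + 1) * q * (y ^ (j + 1))⁻¹ = y * (y ^ j * q * (y ^ j)⁻¹) * y⁻¹ := by
            rw [pow_succ']; group
        _ = y * (c ^ j * q) * y⁻¹ := by rw [ih]
        _ = (y * c ^ j * y⁻¹) * (y * q * y⁻¹) := by group
        _ = c ^ j * (c * q) := by rw [hycj, hyq]
        _ = c ^ (j + 1) * q := by rw [pow_succ]; group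
  have h1 := hpow (orderOf y)
  rw [pow_orderOf_eq_one, one_mul, inv_one, mul_one] at h1
  have hcm : c ^ orderOf y = 1 := by
    have h2 : c ^ orderOf y * q = 1 * q := by rw [one_mul]; exact h1.symm
    exact mul_right_cancel h2
  obtain ⟨k, hk⟩ := (IsPGroup.iff_orderOf.mp hQ₀) ⟨c, hcQ⟩
  rw [Subgroup.orderOf_mk] at hk
  have hdvd : orderOf c ∣ orderOf y := orderOf_dvd_of_pow_eq_one hcm
  have hc1 : orderOf c = 1 := by
    have h2 : (orderOf c).Coprime (p ^ k) :=
      Nat.Coprime.pow_right k (Nat.Coprime.coprime_dvd_left hdvd hcop)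
    rw [← hk] at h2
    exact (Nat.coprime_self _).mp h2
  rw [orderOf_eq_one_iff] at hc1
  rw [hyq, hc1, one_mul]

/-- A `p`-subgroup of the subgroup `A` lies in a Sylow-type subgroup of `A`. -/
theorem exists_sylow_type_ge {G : Type*} [Group G] [Finite G] {p : ℕ} [Fact p.Prime]
    {A T₁ : Subgroup G} (hT₁p : IsPGroup p T₁) (hT₁A : T₁ ≤ A) :
    ∃ P₁ : Subgroup G, T₁ ≤ P₁ ∧ P₁ ≤ A ∧ IsPGroup p P₁ ∧ ¬ p ∣ P₁.relIndex A := by
  have hT₁A' : IsPGroup p (T₁.subgroupOf A) := hT₁p.comap_subtype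
  obtain ⟨P', hP'⟩ := hT₁A'.exists_le_sylow
  refine ⟨(P' : Subgroup A).map A.subtype, ?_, Subgroup.map_subtype_le _, P'.isPGroup'.map _, ?_⟩
  · intro t ht
    exact ⟨⟨t, hT₁A ht⟩, hP' (Subgroup.mem_subgroupOf.mpr ht), rfl⟩
  · have e : ((P' : Subgroup A).map A.subtype).subgroupOf A = (P' : Subgroup A) := by
      ext y
      rw [Subgroup.mem_subgroupOf]
      constructor
      · rintro ⟨z, hz, hzy⟩
        have h0 : z = y := Subtype.ext hzy
        rw [← h0]; exact hz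
      · intro hy
        exact ⟨y, hy, rfl⟩
    show ¬ p ∣ (((P' : Subgroup A).map A.subtype).subgroupOf A).index
    rw [e]
    exact P'.not_dvd_index

/-- The intersection of a Sylow-type subgroup `T` of `Γ` with a subgroup `A` normalised by `Γ`
is of Sylow type in `A`. -/
theorem inf_sylow_type_normal {G : Type*} [Group G] [Finite G] {p : ℕ} [Fact p.Prime]
    {Γ A T : Subgroup G} (hT : IsPGroup p T) (hidx : ¬ p ∣ T.relIndex Γ) (hAΓ : A ≤ Γ)
    (hnorm : ∀ γ ∈ Γ, ∀ y ∈ A, γ * y * γ⁻¹ ∈ A) :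
    ¬ p ∣ (T ⊓ A).relIndex A := by
  have hT₁p : IsPGroup p ↥(T ⊓ A) := hT.to_le inf_le_left
  obtain ⟨P₁, hle, hP₁A, hP₁p, hP₁idx⟩ := exists_sylow_type_ge hT₁p (inf_le_right : T ⊓ A ≤ A)
  obtain ⟨m, hm, hmq⟩ := exists_conj_le_of_relIndex hT hidx hP₁p (hP₁A.trans hAΓ)
  have hcard : Nat.card P₁ ≤ Nat.card ↥(T ⊓ A) := by
    have hinj : Function.Injective (fun x : P₁ => (⟨m * (x : G) * m⁻¹,
        Subgroup.mem_inf.mpr ⟨hmq x x.2, hnorm m hm x (hP₁A x.2)⟩⟩ : ↥(T ⊓ A))) := by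
      intro x y hxy
      have h1 : m * (x : G) * m⁻¹ = m * (y : G) * m⁻¹ := congrArg Subtype.val hxy
      have h2 : (x : G) = y := mul_left_cancel (mul_right_cancel h1)
      exact Subtype.ext h2
    exact Nat.card_le_card_of_injective _ hinj
  have heq : T ⊓ A = P₁ := Subgroup.eq_of_le_of_card_ge hle hcard
  rw [heq]; exact hP₁idx

theorem core_step {G : Type*} [Group G] [Finite G] {p : ℕ} [Fact p.Prime] (S : Sylow p G)
    (D : Subgroup G) (hD : Cfsg.IsStronglyClosed D (S : Subgroup G))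
    (hyp : ∀ U : Subgroup G, U ≤ D → D ⊓ Subgroup.centralizer (U : Set G) ≤ U →
      FrobHyp p ↥(Subgroup.normalizer (U : Set G)))
    (Q : Subgroup G) (hQS : Q ≤ (S : Subgroup G))
    (hfn : ¬ p ∣ ((S : Subgroup G) ⊓ Subgroup.normalizer (Q : Set G)).relIndex
      (Subgroup.normalizer (Q : Set G)))
    (IH : ∀ Q' : Subgroup G, Q' ≤ (S : Subgroup G) → Nat.card Q < Nat.card Q' →
      ∀ g ∈ Subgroup.normalizer (Q' : Set G), (orderOf g).Coprime p →
        g ∈ Subgroup.centralizer (Q' : Set G))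
    (g : G) (hg : g ∈ Subgroup.normalizer (Q : Set G)) (hcop : (orderOf g).Coprime p) :
    g ∈ Subgroup.centralizer (Q : Set G) := by
  obtain ⟨hDS, hDcl⟩ := hD
  have hSp : IsPGroup p (S : Subgroup G) := S.isPGroup'
  have hQp : IsPGroup p Q := hSp.to_le hQS
  obtain ⟨Q₀, hQ₀def⟩ : ∃ Q₀ : Subgroup G, Q₀ = Q ⊓ D := ⟨_, rfl⟩
  have hQ₀Q : Q₀ ≤ Q := by rw [hQ₀def]; exact inf_le_left
  have hQ₀D : Q₀ ≤ D := by rw [hQ₀def]; exact inf_le_right
  have hQ₀p : IsPGroup p Q₀ := hQp.to_le hQ₀Q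
  have hnQ : ∀ y ∈ Subgroup.normalizer (Q : Set G), ∀ q ∈ Q, y * q * y⁻¹ ∈ Q := by
    intro y hy q hq
    exact (Subgroup.mem_normalizer_iff.mp hy q).mp hq
  have ha : ∀ y ∈ Subgroup.normalizer (Q : Set G), ∀ q ∈ Q₀, y * q * y⁻¹ ∈ Q₀ := by
    intro y hy q hq
    rw [hQ₀def] at hq ⊢
    obtain ⟨hq1, hq2⟩ := Subgroup.mem_inf.mp hq
    have h1 := hnQ y hy q hq1
    exact Subgroup.mem_inf.mpr ⟨h1, hDcl q hq2 y (hQS h1)⟩
  have hDn : ∀ s ∈ (S : Subgroup G), ∀ d ∈ D, s * d * s⁻¹ ∈ D := by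
    intro s hs d hd
    exact hDcl d hd s (mul_mem (mul_mem hs (hDS hd)) (inv_mem hs))
  obtain ⟨A, hAdef⟩ : ∃ A : Subgroup G, A = stabChain Q Q₀ := ⟨_, rfl⟩
  have hAmem : ∀ y : G, y ∈ A ↔ (y ∈ Subgroup.normalizer (Q : Set G) ∧
      (∀ q ∈ Q₀, y * q * y⁻¹ = q) ∧ (∀ q ∈ Q, y * q * y⁻¹ * q⁻¹ ∈ Q₀)) := by
    intro y; rw [hAdef]; exact Iff.rfl
  have hAN : A ≤ Subgroup.normalizer (Q : Set G) := fun y hy => ((hAmem y).mp hy).1
  have hAnorm : ∀ γ ∈ Subgroup.normalizer (Q : Set G), ∀ y ∈ A, γ * y * γ⁻¹ ∈ A := by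
    intro γ hγ y hy
    obtain ⟨hy1, hy2, hy3⟩ := (hAmem y).mp hy
    have hγi : γ⁻¹ ∈ Subgroup.normalizer (Q : Set G) := inv_mem hγ
    refine (hAmem _).mpr ⟨mul_mem (mul_mem hγ hy1) hγi, ?_, ?_⟩
    · intro q hq
      have h1 : γ⁻¹ * q * γ ∈ Q₀ := by
        have h0 := ha γ⁻¹ hγi q hq
        rwa [inv_inv] at h0
      have e : γ * y * γ⁻¹ * q * (γ * y * γ⁻¹)⁻¹ = γ * (y * (γ⁻¹ * q * γ) * y⁻¹) * γ⁻¹ := by
        group
      rw [e, hy2 _ h1]; group
    · intro q hq
      have h1 : γ⁻¹ * q * γ ∈ Q := by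
        have h0 := hnQ γ⁻¹ hγi q hq
        rwa [inv_inv] at h0
      have e : γ * y * γ⁻¹ * q * (γ * y * γ⁻¹)⁻¹ * q⁻¹
          = γ * (y * (γ⁻¹ * q * γ) * y⁻¹ * (γ⁻¹ * q * γ)⁻¹) * γ⁻¹ := by group
      rw [e]
      exact ha γ hγ _ (hy3 _ h1)
  have hCA : Subgroup.centralizer (Q : Set G) ≤ A := by
    intro y hy
    have hy' : ∀ q ∈ Q, y * q * y⁻¹ = q := by
      intro q hq
      have h0 := Subgroup.mem_centralizer_iff.mp hy q hq
      rw [← h0, mul_inv_cancel_right]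
    refine (hAmem y).mpr ⟨Subgroup.centralizer_le_normalizer _ hy,
      fun q hq => hy' q (hQ₀Q hq), ?_⟩
    intro q hq
    rw [hy' q hq, mul_inv_cancel]
    exact Q₀.one_mem
  obtain ⟨T₁, hT₁def⟩ : ∃ T₁ : Subgroup G, T₁ = (S : Subgroup G) ⊓ A := ⟨_, rfl⟩
  have hT₁S : T₁ ≤ (S : Subgroup G) := by rw [hT₁def]; exact inf_le_left
  have hT₁A : T₁ ≤ A := by rw [hT₁def]; exact inf_le_right
  have hT₁p : IsPGroup p T₁ := hSp.to_le hT₁S
  by_cases hcase : T₁ ≤ Q
  · have hcent : D ⊓ Subgroup.centralizer (Q₀ : Set G) ≤ Q₀ := by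
      by_contra hcon
      obtain ⟨E, hEdef⟩ : ∃ E : Subgroup G, E = D ⊓ Subgroup.centralizer (Q₀ : Set G) :=
        ⟨_, rfl⟩
      rw [← hEdef] at hcon
      have hED : E ≤ D := by rw [hEdef]; exact inf_le_left
      have hEC : E ≤ Subgroup.centralizer (Q₀ : Set G) := by rw [hEdef]; exact inf_le_right
      have hEQ : ¬ E ≤ Q := by
        intro h
        apply hcon
        intro e he
        rw [hQ₀def]
        exact Subgroup.mem_inf.mpr ⟨h he, hED he⟩
      have hQE : Q ≤ Subgroup.normalizer (E : Set G) := by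
        intro q hq
        apply Subgroup.mem_normalizer_fintype
        intro e he
        have he' : e ∈ E := he
        have he1 := hED he'
        have he2 := hEC he'
        have hgoal : q * e * q⁻¹ ∈ E := by
          rw [hEdef]
          refine Subgroup.mem_inf.mpr ⟨hDn q (hQS hq) e he1, ?_⟩
          rw [Subgroup.mem_centralizer_iff] at he2 ⊢
          intro x hx
          have hx' : q⁻¹ * x * q ∈ Q₀ := by
            have h0 := ha q⁻¹ (inv_mem (Subgroup.le_normalizer hq)) x hx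
            rwa [inv_inv] at h0
          have h1 := he2 _ hx'
          calc x * (q * e * q⁻¹) = q * ((q⁻¹ * x * q) * e) * q⁻¹ := by group
            _ = q * (e * (q⁻¹ * x * q)) * q⁻¹ := by rw [h1]
            _ = q * e * q⁻¹ * x := by group
        exact hgoal
      have hQEp : IsPGroup p ↥(Q ⊔ E) := hSp.to_le (sup_le hQS (hED.trans hDS))
      have hne : Q ≠ Q ⊔ E := by
        intro h
        apply hEQ
        rw [h]; exact le_sup_right
      have hlt := card_lt_card_inf_normalizer hQEp le_sup_left hne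
      have hex : ∃ z ∈ (Q ⊔ E) ⊓ Subgroup.normalizer (Q : Set G), z ∉ Q := by
        by_contra hno
        push Not at hno
        have hle : (Q ⊔ E) ⊓ Subgroup.normalizer (Q : Set G) ≤ Q := fun z hz => hno z hz
        have h0 := Subgroup.card_le_of_le hle
        omega
      obtain ⟨z, hz, hzQ⟩ := hex
      obtain ⟨hz1, hz2⟩ := Subgroup.mem_inf.mp hz
      have hz1' : z ∈ E ⊔ Q := by rw [sup_comm]; exact hz1
      obtain ⟨e, he, q, hq, hzeq⟩ :=
        Cfsg.Agent.Helper9.exists_mul_of_mem_sup_normalizer hQE hz1'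
      have heN : e ∈ Subgroup.normalizer (Q : Set G) := by
        have h0 : e = z * q⁻¹ := by rw [hzeq]; group
        rw [h0]
        exact mul_mem hz2 (inv_mem (Subgroup.le_normalizer hq))
      have heQ : e ∉ Q := by
        intro h
        apply hzQ
        rw [hzeq]; exact mul_mem h hq
      have heD : e ∈ D := hED he
      have heC : e ∈ Subgroup.centralizer (Q₀ : Set G) := hEC he
      have heA : e ∈ A := by
        refine (hAmem e).mpr ⟨heN, ?_, ?_⟩
        · intro x hx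
          have h0 := Subgroup.mem_centralizer_iff.mp heC x hx
          rw [← h0, mul_inv_cancel_right]
        · intro x hx
          rw [hQ₀def]
          refine Subgroup.mem_inf.mpr ⟨?_, ?_⟩
          · exact mul_mem (hnQ e heN x hx) (inv_mem hx)
          · have h1 : x * e⁻¹ * x⁻¹ ∈ D := hDn x (hQS hx) e⁻¹ (inv_mem heD)
            have e1 : e * x * e⁻¹ * x⁻¹ = e * (x * e⁻¹ * x⁻¹) := by group
            rw [e1]; exact mul_mem heD h1
      have heT : e ∈ T₁ := by rw [hT₁def]; exact Subgroup.mem_inf.mpr ⟨hDS heD, heA⟩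
      exact heQ (hcase heT)
    have hF := hyp Q₀ hQ₀D hcent
    have hgN0 : g ∈ Subgroup.normalizer (Q₀ : Set G) := by
      apply Subgroup.mem_normalizer_fintype
      intro x hx
      exact ha g hg x hx
    have hQN0 : Q ≤ Subgroup.normalizer (Q₀ : Set G) := by
      intro q hq
      apply Subgroup.mem_normalizer_fintype
      intro x hx
      exact ha q (Subgroup.le_normalizer hq) x hx
    exact FrobHyp.apply_of_subgroup _ hF Q hQp hQN0 g hgN0 hg hcop
  · have hT₁idx : ¬ p ∣ T₁.relIndex A := by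
      have h1 := inf_sylow_type_normal (hSp.to_le inf_le_left) hfn hAN hAnorm
      have h2 : ((S : Subgroup G) ⊓ Subgroup.normalizer (Q : Set G)) ⊓ A = T₁ := by
        rw [hT₁def, inf_assoc, inf_of_le_right hAN]
      rwa [h2] at h1
    have hcjsA : cjs g A = A := by
      apply le_antisymm
      · intro b hb
        rw [mem_cjs_iff] at hb
        have h0 := hAnorm g⁻¹ (inv_mem hg) _ hb
        have e : g⁻¹ * (g * b * g⁻¹) * g⁻¹⁻¹ = b := by group
        rwa [e] at h0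
      · intro b hb
        rw [mem_cjs_iff]
        exact hAnorm g hg b hb
    have hQ₂idx : ¬ p ∣ (cjs g T₁).relIndex A := by
      have h0 := relIndex_cjs g T₁ A
      rw [hcjsA] at h0
      rw [h0]; exact hT₁idx
    have hQ₂A : cjs g T₁ ≤ A := by
      have h0 := cjs_mono (x := g) hT₁A
      rwa [hcjsA] at h0
    obtain ⟨m, hmA, hmeq⟩ :=
      exists_conj_eq_of_relIndex hT₁p hT₁A hT₁idx (isPGroup_cjs hT₁p g) hQ₂A hQ₂idx
    obtain ⟨n, hndef⟩ : ∃ n : G, n = g * m⁻¹ := ⟨_, rfl⟩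
    have hnT₁ : n ∈ Subgroup.normalizer (T₁ : Set G) := by
      apply mem_normalizer_of_cjs_eq
      rw [hndef, cjs_mul, ← hmeq, cjs_inv_cjs]
    have hnQ' : n ∈ Subgroup.normalizer (Q : Set G) := by
      rw [hndef]; exact mul_mem hg (inv_mem (hAN hmA))
    have hgnm : g = n * m := by rw [hndef]; group
    obtain ⟨T', hT'def⟩ : ∃ T' : Subgroup G, T' = Q ⊔ T₁ := ⟨_, rfl⟩
    have hT'S : T' ≤ (S : Subgroup G) := by rw [hT'def]; exact sup_le hQS hT₁S
    have hQT' : Q ≤ T' := by rw [hT'def]; exact le_sup_left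
    have hT₁T' : T₁ ≤ T' := by rw [hT'def]; exact le_sup_right
    have hcardlt : Nat.card Q < Nat.card T' := by
      by_contra hcon
      push Not at hcon
      have h0 := Subgroup.eq_of_le_of_card_ge hQT' hcon
      apply hcase
      intro t ht
      rw [h0]; exact hT₁T' ht
    have hnT' : n ∈ Subgroup.normalizer (T' : Set G) := by
      rw [Cfsg.Agent.Helper20.mem_normalizer_iff_map_conj, hT'def, Subgroup.map_sup,
        Cfsg.Agent.Helper20.map_conj_eq_of_mem_normalizer Q n hnQ',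
        Cfsg.Agent.Helper20.map_conj_eq_of_mem_normalizer T₁ n hnT₁]
    obtain ⟨a, m', hm'cop, ho1, ho2⟩ := Cfsg.Agent.Helper21.exists_pparts p n
    have hnp : n ^ p ^ a ∈ Subgroup.centralizer (T' : Set G) :=
      IH T' hT'S hcardlt (n ^ p ^ a) (pow_mem hnT' _) (by rw [ho1]; exact hm'cop)
    have hnpA : n ^ p ^ a ∈ A := hCA (Subgroup.centralizer_le hQT' hnp)
    have hgpow : ∀ j : ℕ, ∃ b ∈ A, g ^ j = n ^ j * b := by
      intro j
      induction j with
      | zero => exact ⟨1, A.one_mem, by simp⟩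
      | succ j ih =>
        obtain ⟨b, hb, hbj⟩ := ih
        refine ⟨n⁻¹ * b * n * m, A.mul_mem ?_ hmA, ?_⟩
        · have h0 := hAnorm n⁻¹ (inv_mem hnQ') b hb
          rwa [inv_inv] at h0
        · calc g ^ (j + 1) = g ^ j * g := pow_succ g j
            _ = (n ^ j * b) * (n * m) := by rw [hbj, ← hgnm]
            _ = n ^ (j + 1) * (n⁻¹ * b * n * m) := by rw [pow_succ]; group
    obtain ⟨b, hb, hgb⟩ := hgpow (p ^ a)
    have hgpA : g ^ p ^ a ∈ A := by rw [hgb]; exact A.mul_mem hnpA hb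
    have hgA : g ∈ A := by
      have hcop2 : (p ^ a).Coprime (orderOf g) := Nat.Coprime.pow_left _ hcop.symm
      obtain ⟨k, hk⟩ := exists_pow_eq_self_of_coprime hcop2
      rw [← hk]; exact pow_mem hgpA k
    have hfix := stabChain_centralizes Q Q₀ hQ₀p g (by rw [← hAdef]; exact hgA) hcop
    rw [Subgroup.mem_centralizer_iff]
    intro q hq
    have h0 := hfix q hq
    calc q * g = (g * q * g⁻¹) * g := by rw [h0]
      _ = g * q := by group

theorem frobHyp_of_centric {G : Type*} [Group G] [Finite G] {p : ℕ} [Fact p.Prime]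
    (S : Sylow p G) (D : Subgroup G) (hD : Cfsg.IsStronglyClosed D (S : Subgroup G))
    (hyp : ∀ U : Subgroup G, U ≤ D → D ⊓ Subgroup.centralizer (U : Set G) ≤ U →
      FrobHyp p ↥(Subgroup.normalizer (U : Set G))) : FrobHyp p G := by
  apply frobHyp_of_sylow S
  have key : ∀ (n : ℕ) (Q : Subgroup G), Q ≤ (S : Subgroup G) →
      Nat.card (S : Subgroup G) - Nat.card Q = n →
      ∀ g ∈ Subgroup.normalizer (Q : Set G), (orderOf g).Coprime p →
        g ∈ Subgroup.centralizer (Q : Set G) := by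
    intro n
    induction n using Nat.strong_induction_on with
    | _ n ih =>
      intro Q hQS hn g hg hcop
      have hSp : IsPGroup p (S : Subgroup G) := S.isPGroup'
      have hQp : IsPGroup p Q := hSp.to_le hQS
      obtain ⟨x, hx1, hx2⟩ := exists_fully_normalized S hQp
      have IH : ∀ Q' : Subgroup G, Q' ≤ (S : Subgroup G) → Nat.card (cjs x Q) < Nat.card Q' →
          ∀ g ∈ Subgroup.normalizer (Q' : Set G), (orderOf g).Coprime p →
            g ∈ Subgroup.centralizer (Q' : Set G) := by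
        intro Q' hQ'S hlt
        rw [card_cjs] at hlt
        have hle : Nat.card Q' ≤ Nat.card (S : Subgroup G) := Subgroup.card_le_of_le hQ'S
        exact ih (Nat.card (S : Subgroup G) - Nat.card Q') (by omega) Q' hQ'S rfl
      have hg₁ : x⁻¹ * g * x ∈ Subgroup.normalizer ((cjs x Q : Subgroup G) : Set G) := by
        rw [normalizer_cjs, mem_cjs_iff]
        have e : x * (x⁻¹ * g * x) * x⁻¹ = g := by group
        rw [e]; exact hg
      have hcop₁ : (orderOf (x⁻¹ * g * x)).Coprime p := by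
        have h3 := MulEquiv.orderOf_eq (MulAut.conj x⁻¹) g
        rw [MulAut.conj_apply, inv_inv] at h3
        rw [h3]; exact hcop
      have hc := core_step S D hD hyp (cjs x Q) hx1 hx2 IH (x⁻¹ * g * x) hg₁ hcop₁
      rw [Subgroup.mem_centralizer_iff] at hc ⊢
      intro q hq
      have hq' : x⁻¹ * q * x ∈ cjs x Q := by
        rw [mem_cjs_iff]
        have e : x * (x⁻¹ * q * x) * x⁻¹ = q := by group
        rw [e]; exact hq
      have h1 := hc _ hq'
      calc q * g = x * ((x⁻¹ * q * x) * (x⁻¹ * g * x)) * x⁻¹ := by group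
        _ = x * ((x⁻¹ * g * x) * (x⁻¹ * q * x)) * x⁻¹ := by rw [h1]
        _ = g * q := by group
  intro Q hQS g hg hcop
  exact key _ Q hQS rfl g hg hcop

/-- A Frobenius normal p-complement criterion relative to a strongly closed subgroup. Let G be a finite group, S a Sylow p-subgroup and D a subgroup of S strongly closed in S with respect to G. Then G has a normal p-complement if and only if N_G(U) has a normal p-complement for every subgroup U of D with C_D(U) ≤ U. -/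
theorem result {G : Type*} [Group G] [Finite G] {p : ℕ} [Fact p.Prime] (S : Sylow p G) (D : Subgroup G) (hD : Cfsg.IsStronglyClosed D (S : Subgroup G)) : Cfsg.HasNormalPComplement p G ↔ ∀ U : Subgroup G, U ≤ D → D ⊓ Subgroup.centralizer (U : Set G) ≤ U → Cfsg.HasNormalPComplement p ↥(Subgroup.normalizer (U : Set G)) := by
  constructor
  · intro h U _ _
    exact Cfsg.Agent.Lead.frobHyp_iff.mp ((Cfsg.Agent.Lead.frobHyp_iff.mpr h).subgroup _)
  · intro h
    apply Cfsg.Agent.Lead.frobHyp_iff.mp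
    apply frobHyp_of_centric S D hD
    intro U hUD hcent
    exact Cfsg.Agent.Lead.frobHyp_iff.mpr (h U hUD hcent)

end Cfsg.Agent.S3839
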