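import Cfsg.Statements.S3857
import Mathlib
import Cfsg.Agent.Helper20.SolvPG

set_option autoImplicit false
open Cfsg

namespace Cfsg.Agent.S3857

/-- A finite solvable group whose prime graph (prime divisors of the order, two distinct primes joined when there is an element of order their product) is disconnected is a Frobenius group or a 2-Frobenius group (it has normal subgroups H < K with K a Frobenius group with kernel H and G/H a Frobenius group with kernel K/H). -/
theorem result {G : Type*} [Group G] [Finite G] (hsol : Group.IsSolvable G)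
    (hdisc : (∃ A : Set ℕ, (∃ a ∈ A, a.Prime ∧ a ∣ Nat.card G) ∧ (∃ b ∉ A, b.Prime ∧ b ∣ Nat.card G) ∧
      ∀ a ∈ A, ∀ b ∉ A, a.Prime → b.Prime → a ∣ Nat.card G → b ∣ Nat.card G → ¬ ∃ g : G, orderOf g = a * b)) :
    (∃ C : Subgroup G, Cfsg.IsFrobeniusComplement C) ∨
    (∃ (H K : Subgroup G) (_ : H.Normal), K.Normal ∧ H < K ∧
      (∃ C : Subgroup ↥K, Cfsg.IsFrobeniusComplement C ∧ Cfsg.frobeniusKernel C = (H.subgroupOf K : Set ↥K)) ∧
      (∃ C : Subgroup (G ⧸ H), Cfsg.IsFrobeniusComplement C ∧ Cfsg.frobeniusKernel C = (K.map (QuotientGroup.mk' H) : Set (G ⧸ H)))) := by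
  classical
  haveI := hsol
  obtain ⟨A, ⟨a₀, ha₀A, ha₀p, ha₀G⟩, ⟨b₀, hb₀A, hb₀p, hb₀G⟩, hno⟩ := hdisc
  haveI : Nontrivial G := by
    rw [← Finite.one_lt_card_iff_nontrivial]
    exact lt_of_lt_of_le ha₀p.one_lt (Nat.le_of_dvd Nat.card_pos ha₀G)
  obtain ⟨p, hp, V, hVchar, hV1, hVab, hVp⟩ := Cfsg.Agent.Helper1.exists_char_elemAbelian G
  haveI := hVchar
  haveI hVn : V.Normal := inferInstance
  by_cases hpA : p ∈ A
  · have hsepA : Cfsg.Agent.Helper20.SolvPG.Sep (fun r => r ∈ A) G := by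
      intro a b ha hb hSa hSb g hg
      have hdvd : a * b ∣ Nat.card G := by rw [← hg]; exact orderOf_dvd_natCard g
      exact hno a hSa b hSb ha hb ((dvd_mul_right a b).trans hdvd)
        ((dvd_mul_left b a).trans hdvd) ⟨g, hg⟩
    exact Cfsg.Agent.Helper20.SolvPG.core (fun r => r ∈ A) hsepA V hV1 hVab p hp hpA hVp
      b₀ hb₀p hb₀G hb₀A
  · have hsepA : Cfsg.Agent.Helper20.SolvPG.Sep (fun r => r ∉ A) G := by
      intro a b ha hb hSa hSb g hg
      have hbA : b ∈ A := not_not.mp hSb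
      have hdvd : a * b ∣ Nat.card G := by rw [← hg]; exact orderOf_dvd_natCard g
      exact hno b hbA a hSa hb ha ((dvd_mul_left b a).trans hdvd)
        ((dvd_mul_right a b).trans hdvd) ⟨g, by rw [hg, mul_comm]⟩
    exact Cfsg.Agent.Helper20.SolvPG.core (fun r => r ∉ A) hsepA V hV1 hVab p hp hpA hVp
      a₀ ha₀p ha₀G (not_not.mpr ha₀A)

end Cfsg.Agent.S3857
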