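import Cfsg.Statements.S3858
import Mathlib
import Cfsg.Agent.Helper20.Norm

set_option autoImplicit false
open Cfsg

namespace Cfsg.Agent.S3858

open Cfsg.Agent.Helper20

theorem inf_normal_contra {G : Type*} [Group G] [Finite G] (T : Subgroup G) [T.Normal]
    (hT : IsSimpleGroup T) (hna : ¬ IsMulCommutative T) {r : ℕ} [Fact r.Prime] (R : Sylow r G)
    (hR0 : (R : Subgroup G) ⊓ T ≠ ⊥) (hnorm : ((R : Subgroup G) ⊓ T).Normal) : False := by
  have hsub : (((R : Subgroup G) ⊓ T).subgroupOf T).Normal := hnorm.subgroupOf T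
  rcases hsub.eq_bot_or_eq_top with h | h
  · apply hR0
    rw [Subgroup.subgroupOf_eq_bot] at h
    have := h.eq_bot
    rw [inf_assoc, inf_idem] at this
    exact this
  · rw [Subgroup.subgroupOf_eq_top] at h
    have hTR : T ≤ (R : Subgroup G) := h.trans inf_le_left
    have : IsPGroup r T := R.isPGroup'.to_le hTR
    exact not_isPGroup_of_simple_nonabelian hT hna r this

/-- Let G be a finite group with a normal non-abelian simple subgroup T whose centralizer is trivial (G almost simple with socle T), r a prime and R a Sylow r-subgroup of G meeting T nontrivially. Then R lies in exactly one maximal subgroup of G if and only if G has exactly one conjugacy class of maximal subgroups whose index is prime to r. -/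
theorem result {G : Type*} [Group G] [Finite G] (T : Subgroup G) [T.Normal] (hT : IsSimpleGroup T) (hna : ¬ IsMulCommutative T)
    (hC : Subgroup.centralizer (T : Set G) = ⊥) {r : ℕ} [Fact r.Prime] (R : Sylow r G) (hR0 : (R : Subgroup G) ⊓ T ≠ ⊥) :
    (∃! M : Subgroup G, IsCoatom M ∧ (R : Subgroup G) ≤ M) ↔
      ((∃ M : Subgroup G, IsCoatom M ∧ ¬ r ∣ M.index) ∧
        ∀ M₁ M₂ : Subgroup G, IsCoatom M₁ → ¬ r ∣ M₁.index → IsCoatom M₂ → ¬ r ∣ M₂.index → ∃ g : G, M₂ = M₁.map (MulAut.conj g).toMonoidHom) := by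
  classical
  constructor
  · rintro ⟨M, ⟨hM, hRM⟩, hMu⟩
    have hMidx : ¬ r ∣ M.index := fun h => R.not_dvd_index (h.trans (Subgroup.index_dvd_of_le hRM))
    refine ⟨⟨M, hM, hMidx⟩, ?_⟩
    have key : ∀ M₁ : Subgroup G, IsCoatom M₁ → ¬ r ∣ M₁.index →
        ∃ g : G, M₁.map (MulAut.conj g).toMonoidHom = M := by
      intro M₁ hM₁ hidx
      obtain ⟨g, hg⟩ := exists_conj_le_of_not_dvd_index R M₁ hidx
      refine ⟨g⁻¹, ?_⟩
      apply hMu
      refine ⟨isCoatom_map_conj _ _ hM₁, ?_⟩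
      have := map_conj_mono g⁻¹ hg
      rw [map_conj_mul, inv_mul_cancel, map_conj_one] at this
      exact this
    intro M₁ M₂ hM₁ h1 hM₂ h2
    obtain ⟨g₁, hg₁⟩ := key M₁ hM₁ h1
    obtain ⟨g₂, hg₂⟩ := key M₂ hM₂ h2
    refine ⟨g₂⁻¹ * g₁, ?_⟩
    rw [← map_conj_mul, hg₁, ← hg₂, map_conj_mul, inv_mul_cancel, map_conj_one]
  · rintro ⟨_, hconj⟩
    have hRnn : Subgroup.normalizer ((R : Subgroup G) : Set G) ≠ ⊤ := by
      intro htop
      have hRn : (R : Subgroup G).Normal := Subgroup.normalizer_eq_top_iff.mp htop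
      have : ((R : Subgroup G) ⊓ T).Normal := inferInstance
      exact inf_normal_contra T hT hna R hR0 this
    obtain ⟨M₃, hM₃, hNM₃⟩ := exists_coatom_ge hRnn
    have hRM₃ : (R : Subgroup G) ≤ M₃ := Subgroup.le_normalizer.trans hNM₃
    refine ⟨M₃, ⟨hM₃, hRM₃⟩, ?_⟩
    rintro M ⟨hM, hRM⟩
    have hidx : ∀ M' : Subgroup G, (R : Subgroup G) ≤ M' → ¬ r ∣ M'.index :=
      fun M' hM' h => R.not_dvd_index (h.trans (Subgroup.index_dvd_of_le hM'))
    obtain ⟨g, hg⟩ := hconj M₃ M hM₃ (hidx M₃ hRM₃) hM (hidx M hRM)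
    have hRg : (R : Subgroup G).map (MulAut.conj g).toMonoidHom ≤ M := by
      rw [hg]; exact map_conj_mono g hRM₃
    obtain ⟨m, hm, hme⟩ := exists_conj_eq_of_isPGroup M (R : Subgroup G)
      ((R : Subgroup G).map (MulAut.conj g).toMonoidHom) R.isPGroup' hRM hRg
      (isPGroup_map_conj _ R.isPGroup' g) (by rw [card_map_conj]) (sylow_not_dvd_relIndex R M hRM)
    have hn : m⁻¹ * g ∈ Subgroup.normalizer ((R : Subgroup G) : Set G) := by
      apply mem_normalizer_of_map_conj_eq
      rw [← map_conj_mul, hme, map_conj_mul, inv_mul_cancel, map_conj_one]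
    have hn3 : m⁻¹ * g ∈ M₃ := hNM₃ hn
    have h3 : M₃.map (MulAut.conj (m⁻¹ * g)).toMonoidHom = M₃ :=
      map_conj_eq_of_mem_normalizer M₃ _ (Subgroup.le_normalizer hn3)
    have hM3 : M₃.map (MulAut.conj m).toMonoidHom = M := by
      have e : g = m * (m⁻¹ * g) := by group
      rw [hg, e, ← map_conj_mul, h3]
    have hMm : M.map (MulAut.conj m⁻¹).toMonoidHom = M :=
      map_conj_eq_of_mem_normalizer M _ (Subgroup.le_normalizer (inv_mem hm))
    rw [← hM3, map_conj_mul, inv_mul_cancel, map_conj_one] at hMm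
    rw [← hM3]
    exact hMm.symm

end Cfsg.Agent.S3858
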