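import Cfsg.Statements.S3859
import Mathlib
import Cfsg.Agent.Helper20.Norm

set_option autoImplicit false
open Cfsg

namespace Cfsg.Agent.S3859

open Cfsg.Agent.Helper20

theorem sup_eq_top_of_unique {G : Type*} [Group G] [Finite G] (T : Subgroup G) [T.Normal]
    (hT : IsSimpleGroup T) (hna : ¬ IsMulCommutative T) {r : ℕ} [Fact r.Prime] (R : Sylow r G)
    (hR0 : (R : Subgroup G) ⊓ T ≠ ⊥)
    (huniq : ∃! M : Subgroup G, IsCoatom M ∧ (R : Subgroup G) ≤ M) : (R : Subgroup G) ⊔ T = ⊤ := by
  classical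
  obtain ⟨M, ⟨hM, hRM⟩, hMu⟩ := huniq
  have hle : ∀ H : Subgroup G, H ≠ ⊤ → (R : Subgroup G) ≤ H → H ≤ M := by
    intro H hH hRH
    obtain ⟨M', hM', hHM'⟩ := exists_coatom_ge hH
    have := hMu M' ⟨hM', hRH.trans hHM'⟩
    rw [← this]; exact hHM'
  by_contra hne
  have hRT : (R : Subgroup G) ⊔ T ≤ M := hle _ hne le_sup_left
  have hfr := frattini_inf R T
  have hRn : (R : Subgroup G) ≤ Subgroup.normalizer ((((R : Subgroup G) ⊓ T : Subgroup G)) : Set G) :=
    le_normalizer_inf _ _ _ Subgroup.le_normalizer (le_normalizer_of_normal _ T)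
  have hNne : Subgroup.normalizer ((((R : Subgroup G) ⊓ T : Subgroup G)) : Set G) ≠ ⊤ := by
    intro htop
    have hnorm : ((R : Subgroup G) ⊓ T).Normal := Subgroup.normalizer_eq_top_iff.mp htop
    have hsub : (((R : Subgroup G) ⊓ T).subgroupOf T).Normal := hnorm.subgroupOf T
    rcases hsub.eq_bot_or_eq_top with h | h
    · apply hR0
      rw [Subgroup.subgroupOf_eq_bot] at h
      have := h.eq_bot
      rw [inf_assoc, inf_idem] at this
      exact this
    · rw [Subgroup.subgroupOf_eq_top] at h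
      have hTR : T ≤ (R : Subgroup G) := h.trans inf_le_left
      have : IsPGroup r T := R.isPGroup'.to_le hTR
      exact not_isPGroup_of_simple_nonabelian hT hna r this
  have hNM := hle _ hNne hRn
  have : (⊤ : Subgroup G) ≤ M := by
    rw [← hfr]
    exact sup_le hNM (le_sup_right.trans hRT)
  exact hM.1 (top_le_iff.mp this)

/-- Let G be a finite group with a normal non-abelian simple subgroup T whose centralizer is trivial (G almost simple with socle T), r a prime and R a Sylow r-subgroup of G meeting T nontrivially. If R lies in exactly one maximal subgroup of G, then G/T is an r-group. -/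
theorem result {G : Type*} [Group G] [Finite G] (T : Subgroup G) [T.Normal] (hT : IsSimpleGroup T) (hna : ¬ IsMulCommutative T)
    (hC : Subgroup.centralizer (T : Set G) = ⊥) {r : ℕ} [Fact r.Prime] (R : Sylow r G) (hR0 : (R : Subgroup G) ⊓ T ≠ ⊥)
    (huniq : ∃! M : Subgroup G, IsCoatom M ∧ (R : Subgroup G) ≤ M) : IsPGroup r (G ⧸ T) := by
  have htop := sup_eq_top_of_unique T hT hna R hR0 huniq
  intro q
  obtain ⟨g, rfl⟩ := QuotientGroup.mk'_surjective T q
  have hg : g ∈ (R : Subgroup G) ⊔ T := by rw [htop]; trivial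
  rw [Subgroup.mem_sup_of_normal_right] at hg
  obtain ⟨u, hu, t, ht, rfl⟩ := hg
  obtain ⟨k, hk⟩ := R.isPGroup' ⟨u, hu⟩
  refine ⟨k, ?_⟩
  have hu1 : u ^ r ^ k = 1 := by
    have := congrArg Subtype.val hk
    simpa using this
  have ht1 : QuotientGroup.mk' T t = 1 := by
    rw [QuotientGroup.mk'_apply, QuotientGroup.eq_one_iff]; exact ht
  rw [map_mul, ht1, mul_one, ← map_pow, hu1, map_one]

end Cfsg.Agent.S3859
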