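import Cfsg.Statements.S3861
import Mathlib
import Cfsg.Agent.Helper20.OddReal

set_option autoImplicit false
open Cfsg

namespace Cfsg.Agent.S3861

/-- A finite group G has no non-identity element of odd order that is conjugate to its inverse if and only if the Sylow 2-subgroups of G are normal. -/
theorem result {G : Type*} [Group G] [Finite G] (P : Sylow 2 G) : (∀ x : G, x ≠ 1 → Odd (orderOf x) → ¬ IsConj x x⁻¹) ↔ (P : Subgroup G).Normal := by
  haveI : Fact (Nat.Prime 2) := ⟨Nat.prime_two⟩
  constructor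
  · intro h
    haveI : Subsingleton (Sylow 2 G) :=
      ⟨fun P Q => Cfsg.Agent.Helper20.sylow_two_unique_of_noOddReal _ G rfl h P Q⟩
    exact Sylow.normal_of_subsingleton P
  · intro hPn x hx1 hodd hconj
    haveI := hPn
    obtain ⟨t, ⟨j, hj⟩, ht⟩ := Cfsg.Agent.Helper20.exists_two_elt_inverting x hconj
    have hPodd : Odd (P : Subgroup G).index := by
      rw [← Nat.not_even_iff_odd, even_iff_two_dvd]
      exact P.not_dvd_index
    have htP : t ∈ (P : Subgroup G) :=
      Cfsg.Agent.Helper20.mem_of_orderOf_two_pow (P : Subgroup G) hPodd t j hj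
    have hx2 : x * x ∈ (P : Subgroup G) := by
      have h1 : x * t * x⁻¹ ∈ (P : Subgroup G) := hPn.conj_mem t htP x
      have h2 := (P : Subgroup G).mul_mem h1 ((P : Subgroup G).inv_mem htP)
      have h3 : x * t * x⁻¹ * t⁻¹ = x * x := by
        have h4 : t * x⁻¹ * t⁻¹ = x := by
          have h5 := congrArg Inv.inv ht
          rw [inv_inv, mul_inv_rev, mul_inv_rev, inv_inv, ← mul_assoc] at h5
          exact h5
        calc x * t * x⁻¹ * t⁻¹ = x * (t * x⁻¹ * t⁻¹) := by group
          _ = x * x := by rw [h4]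
      rw [h3] at h2
      exact h2
    obtain ⟨k, hk⟩ := hodd
    have hxP : x ∈ (P : Subgroup G) := by
      have h1 : (x * x) ^ (k + 1) = x := by
        rw [← pow_two, ← pow_mul]
        have h2 : 2 * (k + 1) = orderOf x + 1 := by omega
        rw [h2, pow_succ, pow_orderOf_eq_one, one_mul]
      rw [← h1]
      exact (P : Subgroup G).pow_mem hx2 _
    obtain ⟨m, hm⟩ := P.isPGroup' ⟨x, hxP⟩
    have hm' : x ^ (2 ^ m) = 1 := by
      have h1 := congrArg Subtype.val hm
      rw [SubmonoidClass.coe_pow] at h1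
      exact h1
    have hd := orderOf_dvd_of_pow_eq_one hm'
    have hc : (orderOf x).Coprime (2 ^ m) :=
      Nat.Coprime.pow_right m (Odd.coprime_two_right ⟨k, hk⟩)
    have h1 : orderOf x = 1 := Cfsg.Agent.Helper20.eq_one_of_dvd_coprime hc dvd_rfl hd
    exact hx1 (orderOf_eq_one_iff.1 h1)

end Cfsg.Agent.S3861
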