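import Cfsg.Statements.S3862
import Mathlib
import Cfsg.Agent.Lead.Frobenius

set_option autoImplicit false
open Cfsg

namespace Cfsg.Agent.S3862

/-- If every 2-element of the finite group G that is conjugate to its inverse lies in the centre of G, then G has a normal 2-complement. -/
theorem result {G : Type*} [Group G] [Finite G] (h : ∀ x : G, (∃ j : ℕ, orderOf x = 2 ^ j) → IsConj x x⁻¹ → x ∈ Subgroup.center G) : Cfsg.HasNormalPComplement 2 G := by
  haveI : Fact (Nat.Prime 2) := ⟨Nat.prime_two⟩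
  rw [← Cfsg.Agent.Lead.frobHyp_iff]
  intro X hX g hg hcop
  have key : ∀ j : ℕ, ∀ x ∈ X, x ^ (2 ^ j) = 1 → g * x * g⁻¹ = x := by
    intro j
    induction j with
    | zero =>
      intro x _ hx
      rw [pow_zero, pow_one] at hx
      rw [hx]; simp
    | succ j ih =>
      intro x hx hxj
      have h2 : g * x ^ 2 * g⁻¹ = x ^ 2 :=
        ih (x ^ 2) (X.pow_mem hx 2) (by rw [← pow_mul, ← pow_succ']; exact hxj)
      obtain ⟨u, hu⟩ : ∃ u, u = g * x * g⁻¹ := ⟨_, rfl⟩
      rw [← hu]
      have huX : u ∈ X := by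
        rw [hu]; exact (Subgroup.mem_normalizer_iff.mp hg x).mp hx
      have hu2 : u ^ 2 = x ^ 2 := by
        rw [hu]
        calc (g * x * g⁻¹) ^ 2 = g * x ^ 2 * g⁻¹ := by rw [pow_two, pow_two]; group
          _ = x ^ 2 := h2
      have htX : u * x⁻¹ ∈ X := X.mul_mem huX (X.inv_mem hx)
      have hreal : IsConj (u * x⁻¹) (u * x⁻¹)⁻¹ := by
        rw [isConj_iff]
        refine ⟨x, ?_⟩
        have e1 : x * (u * x⁻¹) * x⁻¹ = x * u * (x ^ 2)⁻¹ := by rw [pow_two]; group
        have e2 : (u * x⁻¹)⁻¹ = x * u * (u ^ 2)⁻¹ := by rw [pow_two]; group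
        rw [e1, e2, hu2]
      have hord : ∃ j : ℕ, orderOf (u * x⁻¹) = 2 ^ j := by
        obtain ⟨k, hk⟩ := hX ⟨u * x⁻¹, htX⟩
        have hk' : (u * x⁻¹) ^ (2 ^ k) = 1 := by
          have h3 := congrArg Subtype.val hk
          exact h3
        obtain ⟨m, _, hm⟩ := (Nat.dvd_prime_pow Nat.prime_two).mp (orderOf_dvd_of_pow_eq_one hk')
        exact ⟨m, hm⟩
      have hcen := h (u * x⁻¹) hord hreal
      have hz : ∀ n : ℕ, g ^ n * x * (g ^ n)⁻¹ = (u * x⁻¹) ^ n * x := by
        intro n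
        induction n with
        | zero => simp
        | succ n ihn =>
          have hzc : g * (u * x⁻¹) ^ n = (u * x⁻¹) ^ n * g :=
            Subgroup.mem_center_iff.mp (Subgroup.pow_mem _ hcen n) g
          calc g ^ (n + 1) * x * (g ^ (n + 1))⁻¹ = g * (g ^ n * x * (g ^ n)⁻¹) * g⁻¹ := by
                rw [pow_succ', mul_inv_rev]; simp only [mul_assoc]
            _ = g * ((u * x⁻¹) ^ n * x) * g⁻¹ := by rw [ihn]
            _ = (u * x⁻¹) ^ n * (g * x * g⁻¹) := by
                rw [← mul_assoc, hzc]; simp only [mul_assoc]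
            _ = (u * x⁻¹) ^ n * u := by rw [← hu]
            _ = (u * x⁻¹) ^ (n + 1) * x := by
                rw [pow_succ]; simp only [mul_assoc, inv_mul_cancel, mul_one]
      have h1 := hz (orderOf g)
      rw [pow_orderOf_eq_one, one_mul, inv_one, mul_one] at h1
      have hzk : (u * x⁻¹) ^ orderOf g = 1 := by
        have h3 : (u * x⁻¹) ^ orderOf g * x = 1 * x := by rw [one_mul]; exact h1.symm
        exact mul_right_cancel h3
      obtain ⟨m, hm⟩ := hord
      have hd1 : orderOf (u * x⁻¹) ∣ orderOf g := orderOf_dvd_of_pow_eq_one hzk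
      have hco : (orderOf (u * x⁻¹)).Coprime (orderOf g) := by
        rw [hm]; exact (Nat.Coprime.pow_right m hcop).symm
      have h4 := Nat.Coprime.eq_one_of_dvd hco hd1
      exact mul_inv_eq_one.mp (orderOf_eq_one_iff.mp h4)
  rw [Subgroup.mem_centralizer_iff]
  intro x hx
  obtain ⟨k, hk⟩ := hX ⟨x, hx⟩
  have hk' : x ^ (2 ^ k) = 1 := by
    have h3 := congrArg Subtype.val hk
    exact h3
  have h5 := key k x hx hk'
  calc x * g = g * x * g⁻¹ * g := by rw [h5]
    _ = g * x := by group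

end Cfsg.Agent.S3862
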