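import Cfsg.Statements.S3864
import Mathlib
import Cfsg.Agent.Helper8.DihSylow
import Cfsg.Agent.Helper8.FusionTools
import Cfsg.Agent.Helper8.WRFusion3

set_option autoImplicit false
open Cfsg
open scoped Pointwise
open Cfsg.Agent.Helper8

namespace Cfsg.Agent.S3864

/-- parity sign on `ZMod (2 * k)` -/
def dhParFun (k : ℕ) (i : ZMod (2 * k)) : ℤˣ :=
  if ZMod.castHom (dvd_mul_right 2 k) (ZMod 2) i = 0 then 1 else -1

theorem dhParFun_add (k : ℕ) (i j : ZMod (2 * k)) :
    dhParFun k (i + j) = dhParFun k i * dhParFun k j := by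
  unfold dhParFun
  rw [map_add]
  generalize ZMod.castHom (dvd_mul_right 2 k) (ZMod 2) i = a
  generalize ZMod.castHom (dvd_mul_right 2 k) (ZMod 2) j = b
  revert a b
  decide

theorem dhParFun_sub (k : ℕ) (i j : ZMod (2 * k)) :
    dhParFun k (j - i) = dhParFun k i * dhParFun k j := by
  unfold dhParFun
  rw [map_sub]
  generalize ZMod.castHom (dvd_mul_right 2 k) (ZMod 2) i = a
  generalize ZMod.castHom (dvd_mul_right 2 k) (ZMod 2) j = b
  revert a b
  decide

/-- the character of the dihedral group of order `4k` with `sr 0 ↦ 1`, `sr 1 ↦ -1` -/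
def dhParChar (k : ℕ) : DihedralGroup (2 * k) →* ℤˣ where
  toFun x := match x with
    | DihedralGroup.r i => dhParFun k i
    | DihedralGroup.sr i => dhParFun k i
  map_one' := by
    show dhParFun k 0 = 1
    unfold dhParFun
    rw [map_zero, if_pos rfl]
  map_mul' := by
    rintro (i | i) (j | j)
    · exact dhParFun_add k i j
    · exact dhParFun_sub k i j
    · exact dhParFun_add k i j
    · exact dhParFun_sub k i j

theorem dhParChar_sr0 (k : ℕ) : dhParChar k (DihedralGroup.sr 0) = 1 := by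
  show dhParFun k 0 = 1
  unfold dhParFun
  rw [map_zero, if_pos rfl]

theorem dhParChar_sr1 (k : ℕ) : dhParChar k (DihedralGroup.sr 1) = -1 := by
  show dhParFun k 1 = -1
  unfold dhParFun
  rw [map_one, if_neg (by decide)]

theorem dh_sr_conj {k : ℕ} (hk : 0 < k) (i : ZMod (2 * k)) :
    (∃ b : DihedralGroup (2 * k), b * DihedralGroup.sr i * b⁻¹ = DihedralGroup.sr 0) ∨
    (∃ b : DihedralGroup (2 * k), b * DihedralGroup.sr i * b⁻¹ = DihedralGroup.sr 1) := by
  have : NeZero (2 * k) := ⟨by omega⟩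
  obtain ⟨j, hj⟩ : ∃ j : ZMod (2 * k), j = ((i.val / 2 : ℕ) : ZMod (2 * k)) := ⟨_, rfl⟩
  obtain ⟨m, hm⟩ : ∃ m : ZMod (2 * k), m = ((i.val % 2 : ℕ) : ZMod (2 * k)) := ⟨_, rfl⟩
  have hi : j + j + m = i := by
    have h2 : ((2 * (i.val / 2) + i.val % 2 : ℕ) : ZMod (2 * k)) = i := by
      rw [Nat.div_add_mod, ZMod.natCast_zmod_val]
    rw [hj, hm]
    calc ((i.val / 2 : ℕ) : ZMod (2 * k)) + ((i.val / 2 : ℕ) : ZMod (2 * k))
          + ((i.val % 2 : ℕ) : ZMod (2 * k))
        = ((2 * (i.val / 2) + i.val % 2 : ℕ) : ZMod (2 * k)) := by push_cast; ring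
      _ = i := h2
  have hm01 : m = 0 ∨ m = 1 := by
    rcases Nat.mod_two_eq_zero_or_one i.val with h | h
    · left; rw [hm, h, Nat.cast_zero]
    · right; rw [hm, h, Nat.cast_one]
  have hconj : DihedralGroup.r j * DihedralGroup.sr i * (DihedralGroup.r j)⁻¹
      = DihedralGroup.sr m := by
    rw [mul_inv_eq_iff_eq_mul, DihedralGroup.r_mul_sr, DihedralGroup.sr_mul_r]
    congr 1
    rw [← hi]; ring
  rcases hm01 with h | h
  · left; exact ⟨_, by rw [hconj, h]⟩
  · right; exact ⟨_, by rw [hconj, h]⟩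

theorem dhPack {D : Type*} [Group D] {k : ℕ} (hk : 0 < k) (e : D ≃* DihedralGroup (2 * k)) :
    ∃ (z t₁ t₂ : D) (ϕ χ : D →* ℤˣ),
      z * z = 1 ∧ z ≠ 1 ∧ t₁ * t₁ = 1 ∧ t₂ * t₂ = 1 ∧
      ϕ t₁ = -1 ∧ ϕ t₂ = -1 ∧ χ t₁ = 1 ∧ χ t₂ = -1 ∧
      orderOf (t₁ * t₂) = 2 * k ∧ (t₁ * t₂) ^ k = z ∧
      Subgroup.closure ({t₁, t₂} : Set D) = ⊤ ∧
      (∀ s, s * s = 1 → s ≠ 1 → ϕ s = 1 → s = z) ∧
      (∀ s, s * s = 1 → s ≠ 1 → s = z ∨ (∃ b, b * s * b⁻¹ = t₁) ∨ (∃ b, b * s * b⁻¹ = t₂)) := by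
  have : NeZero (2 * k) := ⟨by omega⟩
  have hkk : (k : ZMod (2 * k)) + k = 0 := zmod_two_mul k
  have hk0 : (k : ZMod (2 * k)) ≠ 0 := zmod_half_ne_zero hk
  have hone : (1 : D) = e.symm (DihedralGroup.r 0) := by
    rw [← DihedralGroup.one_def, map_one]
  have hform : ∀ s : D, (∃ i, s = e.symm (DihedralGroup.r i)) ∨
      (∃ i, s = e.symm (DihedralGroup.sr i)) := by
    intro s
    rcases h : e s with i | i
    · left; exact ⟨i, by rw [← h, e.symm_apply_apply]⟩
    · right; exact ⟨i, by rw [← h, e.symm_apply_apply]⟩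
  have hsr_sq : ∀ i : ZMod (2 * k),
      e.symm (DihedralGroup.sr i) * e.symm (DihedralGroup.sr i) = 1 := by
    intro i
    rw [← map_mul, DihedralGroup.sr_mul_sr, sub_self, ← DihedralGroup.one_def, map_one]
  have hρ : e.symm (DihedralGroup.sr 0) * e.symm (DihedralGroup.sr 1)
      = e.symm (DihedralGroup.r 1) := by
    rw [← map_mul, DihedralGroup.sr_mul_sr, sub_zero]
  have hinvol : ∀ s : D, s * s = 1 → s ≠ 1 →
      s = e.symm (DihedralGroup.r (k : ZMod (2 * k))) ∨
      ∃ i, s = e.symm (DihedralGroup.sr i) := by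
    intro s hs hs1
    rcases hform s with ⟨i, rfl⟩ | ⟨i, rfl⟩
    · left
      rw [← map_mul, DihedralGroup.r_mul_r, hone] at hs
      have h2 := e.symm.injective hs
      have h3 : i + i = 0 := by
        injection h2
      rcases zmod_double_eq_zero hk i h3 with h0 | h0
      · exact absurd (by rw [h0, hone]) hs1
      · rw [h0]
    · right; exact ⟨i, rfl⟩
  refine ⟨e.symm (DihedralGroup.r (k : ZMod (2 * k))), e.symm (DihedralGroup.sr 0),
    e.symm (DihedralGroup.sr 1), (rotChar (2 * k)).comp e.toMonoidHom,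
    (dhParChar k).comp e.toMonoidHom, ?_, ?_, hsr_sq 0, hsr_sq 1, ?_, ?_, ?_, ?_, ?_, ?_, ?_,
    ?_, ?_⟩
  · rw [← map_mul, DihedralGroup.r_mul_r, hkk, ← DihedralGroup.one_def, map_one]
  · rw [hone]
    intro h
    have := e.symm.injective h
    injection this with h1
    exact hk0 h1
  · show rotChar (2 * k) (e (e.symm (DihedralGroup.sr 0))) = -1
    rw [e.apply_symm_apply]; rfl
  · show rotChar (2 * k) (e (e.symm (DihedralGroup.sr 1))) = -1
    rw [e.apply_symm_apply]; rfl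
  · show dhParChar k (e (e.symm (DihedralGroup.sr 0))) = 1
    rw [e.apply_symm_apply]; exact dhParChar_sr0 k
  · show dhParChar k (e (e.symm (DihedralGroup.sr 1))) = -1
    rw [e.apply_symm_apply]; exact dhParChar_sr1 k
  · rw [hρ, MulEquiv.orderOf_eq, DihedralGroup.orderOf_r_one]
  · rw [hρ, ← map_pow, DihedralGroup.r_one_pow]
  · rw [eq_top_iff]
    intro s _
    have hr1 : e.symm (DihedralGroup.r 1) ∈ Subgroup.closure
        ({e.symm (DihedralGroup.sr 0), e.symm (DihedralGroup.sr 1)} : Set D) := by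
      rw [← hρ]
      exact Subgroup.mul_mem _ (Subgroup.subset_closure (Set.mem_insert _ _))
        (Subgroup.subset_closure (Set.mem_insert_of_mem _ rfl))
    have hr : ∀ i : ZMod (2 * k), e.symm (DihedralGroup.r i) ∈ Subgroup.closure
        ({e.symm (DihedralGroup.sr 0), e.symm (DihedralGroup.sr 1)} : Set D) := by
      intro i
      have h1 : e.symm (DihedralGroup.r i) = (e.symm (DihedralGroup.r 1)) ^ i.val := by
        rw [← map_pow, DihedralGroup.r_one_pow, ZMod.natCast_zmod_val]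
      rw [h1]; exact Subgroup.pow_mem _ hr1 _
    rcases hform s with ⟨i, rfl⟩ | ⟨i, rfl⟩
    · exact hr i
    · have h1 : e.symm (DihedralGroup.sr i)
          = e.symm (DihedralGroup.sr 0) * e.symm (DihedralGroup.r i) := by
        rw [← map_mul, DihedralGroup.sr_mul_r, zero_add]
      rw [h1]
      exact Subgroup.mul_mem _ (Subgroup.subset_closure (Set.mem_insert _ _)) (hr i)
  · intro s hs hs1 hϕ
    rcases hinvol s hs hs1 with h | ⟨i, rfl⟩
    · exact h
    · exfalso
      have : (rotChar (2 * k)) (e (e.symm (DihedralGroup.sr i))) = 1 := hϕ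
      rw [e.apply_symm_apply, rotChar_sr] at this
      exact absurd this (by decide)
  · intro s hs hs1
    rcases hinvol s hs hs1 with h | ⟨i, rfl⟩
    · left; exact h
    · right
      rcases dh_sr_conj hk i with ⟨b, hb⟩ | ⟨b, hb⟩
      · left; exact ⟨e.symm b, by rw [← map_inv, ← map_mul, ← map_mul, hb]⟩
      · right; exact ⟨e.symm b, by rw [← map_inv, ← map_mul, ← map_mul, hb]⟩

/-- with a normal 2-complement, fusion in a Sylow 2-subgroup is controlled by the Sylow -/
theorem dhNpcControl {G : Type*} [Group G] [Finite G] (P : Sylow 2 G)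
    (h : Cfsg.HasNormalPComplement 2 G) (x y : G) (hx : x ∈ (P : Subgroup G))
    (hy : y ∈ (P : Subgroup G)) (hc : IsConj x y) :
    ∃ u ∈ (P : Subgroup G), u * x * u⁻¹ = y := by
  have : Fact (Nat.Prime 2) := ⟨Nat.prime_two⟩
  obtain ⟨S, N, hNn, hcompl⟩ := h
  haveI := hNn
  have hSP : Nat.card (S : Subgroup G) = Nat.card (P : Subgroup G) := by
    rw [Sylow.card_eq_multiplicity, Sylow.card_eq_multiplicity]
  have h1 : Nat.card N * Nat.card (P : Subgroup G) = Nat.card G := by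
    rw [← hSP]; exact hcompl.card_mul_card
  have h2 := Subgroup.card_mul_index (P : Subgroup G)
  have hcardN : Nat.card N = (P : Subgroup G).index := by
    have h3 : Nat.card (P : Subgroup G) * Nat.card N
        = Nat.card (P : Subgroup G) * (P : Subgroup G).index := by
      rw [h2, ← h1, mul_comm]
    exact Nat.eq_of_mul_eq_mul_left Nat.card_pos h3
  have hcop : (Nat.card (P : Subgroup G)).Coprime (Nat.card N) := by
    rw [hcardN]; exact P.card_coprime_index
  have hdisj : ∀ w : G, w ∈ N → w ∈ (P : Subgroup G) → w = 1 := by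
    intro w hwN hwP
    exact Subgroup.disjoint_def.mp (Subgroup.disjoint_of_coprime_natCard hcop) hwP hwN
  have hPN : Subgroup.IsComplement' (P : Subgroup G) N :=
    Subgroup.isComplement'_of_coprime (by rw [mul_comm]; exact h1) hcop
  obtain ⟨g, hg⟩ := isConj_iff.mp hc
  have hgmem : g ∈ ((P : Subgroup G) : Set G) * (N : Set G) := by
    rw [← Subgroup.mul_normal, hPN.sup_eq_top]; exact Subgroup.mem_top g
  obtain ⟨u, hu, c, hcN, rfl⟩ := Set.mem_mul.mp hgmem
  refine ⟨u, hu, ?_⟩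
  have hw : u⁻¹ * y * u * x⁻¹ = 1 := by
    apply hdisj
    · have e1 : u⁻¹ * y * u * x⁻¹ = c * (x * c⁻¹ * x⁻¹) := by rw [← hg]; group
      rw [e1]
      exact N.mul_mem hcN (hNn.conj_mem c⁻¹ (N.inv_mem hcN) x)
    · exact Subgroup.mul_mem _ (Subgroup.mul_mem _ (Subgroup.mul_mem _
        (Subgroup.inv_mem _ hu) hy) hu) (Subgroup.inv_mem _ hx)
  have h3 : u⁻¹ * y * u = x := by
    have h4 := mul_eq_one_iff_eq_inv.mp hw
    rw [inv_inv] at h4; exact h4
  rw [← h3]; group

theorem dhNoIndexFour {G : Type*} [Group G] [Finite G] (P : Sylow 2 G) (k : ℕ) (hk2 : 2 ∣ k)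
    (z t t' : ↥(P : Subgroup G)) (ht : t * t = 1) (ht' : t' * t' = 1)
    (hgen : Subgroup.closure ({t, t'} : Set ↥(P : Subgroup G)) = ⊤)
    (hz : (t * t') ^ k = z ∨ (t' * t) ^ k = z)
    (hconj : IsConj (t : G) (z : G))
    (N : Subgroup G) (hNn : N.Normal) (hN4 : N.index = 4) : False := by
  have : Fact (Nat.Prime 2) := ⟨Nat.prime_two⟩
  haveI := hNn
  have hcardQ : Nat.card (G ⧸ N) = 4 := by rw [← Subgroup.index_eq_card]; exact hN4
  have hcomm : ∀ a b : G ⧸ N, a * b = b * a :=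
    IsPGroup.commutative_of_card_eq_prime_sq (p := 2) (by rw [hcardQ]; norm_num)
  obtain ⟨π, hπ⟩ : ∃ π : G →* G ⧸ N, π = QuotientGroup.mk' N := ⟨_, rfl⟩
  have hπN : ∀ n ∈ N, π n = 1 := by
    intro n hn; rw [hπ]; exact (QuotientGroup.eq_one_iff n).mpr hn
  have hπsurj : Function.Surjective π := by rw [hπ]; exact QuotientGroup.mk'_surjective N
  have hsq : ∀ a b : G, a * a = 1 → b * b = 1 → π ((a * b) ^ k) = 1 := by
    intro a b ha hb
    obtain ⟨j, rfl⟩ := hk2
    have h1 : π ((a * b) ^ 2) = 1 := by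
      rw [pow_two, map_mul, map_mul]
      calc π a * π b * (π a * π b) = π a * (π b * π a) * π b := by group
        _ = π a * (π a * π b) * π b := by rw [hcomm (π b) (π a)]
        _ = π (a * a) * π (b * b) := by rw [map_mul, map_mul]; group
        _ = 1 := by rw [ha, hb, map_one, mul_one]
    rw [pow_mul, map_pow, h1, one_pow]
  have htG : (t : G) * (t : G) = 1 := congrArg Subtype.val ht
  have ht'G : (t' : G) * (t' : G) = 1 := congrArg Subtype.val ht'
  have hπz : π (z : G) = 1 := by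
    rcases hz with h | h
    · have e1 : (z : G) = ((t : G) * (t' : G)) ^ k := by rw [← h]; rfl
      rw [e1]; exact hsq _ _ htG ht'G
    · have e1 : (z : G) = ((t' : G) * (t : G)) ^ k := by rw [← h]; rfl
      rw [e1]; exact hsq _ _ ht'G htG
  have hπt : π (t : G) = 1 := by
    obtain ⟨c, hc⟩ := isConj_iff.mp hconj
    have h1 : π c * π (t : G) * (π c)⁻¹ = 1 := by
      rw [← map_inv, ← map_mul, ← map_mul, hc, hπz]
    have h2 : π (t : G) = (π c)⁻¹ * (π c * π (t : G) * (π c)⁻¹) * π c := by group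
    rw [h2, h1]; group
  obtain ⟨q, hq⟩ : ∃ q : G ⧸ N, q = π (t' : G) := ⟨_, rfl⟩
  have hqq : q ^ 2 = 1 := by rw [hq, pow_two, ← map_mul, ht'G, map_one]
  have hrange : ∀ x : ↥(P : Subgroup G), π (x : G) ∈ Subgroup.zpowers q := by
    intro x
    have hle : Subgroup.closure ({t, t'} : Set ↥(P : Subgroup G)) ≤
        (Subgroup.zpowers q).comap (π.comp (P : Subgroup G).subtype) := by
      rw [Subgroup.closure_le]
      intro s hs
      rw [Set.mem_insert_iff, Set.mem_singleton_iff] at hs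
      rw [SetLike.mem_coe, Subgroup.mem_comap]
      rcases hs with h | h
      · rw [h]
        show π (t : G) ∈ Subgroup.zpowers q
        rw [hπt]; exact Subgroup.one_mem _
      · rw [h]
        show π (t' : G) ∈ Subgroup.zpowers q
        rw [← hq]; exact Subgroup.mem_zpowers q
    have hx : x ∈ Subgroup.closure ({t, t'} : Set ↥(P : Subgroup G)) := by
      rw [hgen]; exact Subgroup.mem_top x
    exact hle hx
  have hsup : (P : Subgroup G) ⊔ N = ⊤ := by
    rw [← Subgroup.index_eq_one]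
    have h4 : (4 : ℕ) = 2 ^ 2 := by norm_num
    have h1 : ((P : Subgroup G) ⊔ N).index ∣ 2 ^ 2 := by
      have := Subgroup.index_dvd_of_le (le_sup_right : N ≤ (P : Subgroup G) ⊔ N)
      rw [hN4, h4] at this; exact this
    have h2 : ((P : Subgroup G) ⊔ N).index ∣ (P : Subgroup G).index :=
      Subgroup.index_dvd_of_le le_sup_left
    obtain ⟨m, -, hm⟩ := (Nat.dvd_prime_pow Nat.prime_two).mp h1
    rcases m with _ | m
    · rw [hm, pow_zero]
    · exfalso
      apply P.not_dvd_index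
      refine dvd_trans ?_ h2
      rw [hm, pow_succ]; exact dvd_mul_left 2 _
  have hall : ∀ a : G ⧸ N, a ∈ Subgroup.zpowers q := by
    intro a
    obtain ⟨g, rfl⟩ := hπsurj a
    have hg : g ∈ ((P : Subgroup G) : Set G) * (N : Set G) := by
      rw [← Subgroup.mul_normal, hsup]; exact Subgroup.mem_top g
    obtain ⟨u, hu, n, hn, rfl⟩ := Set.mem_mul.mp hg
    rw [map_mul, hπN n hn, mul_one]
    exact hrange ⟨u, hu⟩
  have htop : Subgroup.zpowers q = ⊤ := by rw [eq_top_iff]; intro a _; exact hall a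
  have hcard : Nat.card (G ⧸ N) = orderOf q := by
    rw [← Nat.card_zpowers, htop, Subgroup.card_top]
  have hle : orderOf q ≤ 2 := Nat.le_of_dvd (by norm_num) (orderOf_dvd_of_pow_eq_one hqq)
  omega

theorem dhCardSwap {G : Type*} [Group G] :
    Nat.card {C : ConjClasses G // ∃ g : G, ConjClasses.mk g = C ∧ orderOf g = 2}
      = Nat.card {C : ConjClasses G // ∃ t : G, orderOf t = 2 ∧ ConjClasses.mk t = C} :=
  Nat.card_congr (Equiv.subtypeEquivRight (fun C =>
    ⟨fun ⟨g, h1, h2⟩ => ⟨g, h2, h1⟩, fun ⟨g, h1, h2⟩ => ⟨g, h2, h1⟩⟩))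

theorem dhCaseTwo {G : Type*} [Group G] [Finite G] (P : Sylow 2 G) (k : ℕ) (hk2 : 2 ∣ k)
    (z t t' : ↥(P : Subgroup G)) (ϕ : ↥(P : Subgroup G) →* ℤˣ)
    (hz2 : orderOf (z : G) = 2) (ht : t * t = 1) (ht' : t' * t' = 1) (ht'1 : t' ≠ 1)
    (hgen : Subgroup.closure ({t, t'} : Set ↥(P : Subgroup G)) = ⊤)
    (hz : (t * t') ^ k = z ∨ (t' * t) ^ k = z)
    (hϕ : ∀ s, s * s = 1 → s ≠ 1 → ϕ s = 1 → s = z)
    (hall : ∀ g : G, orderOf g = 2 → IsConj g (z : G) ∨ IsConj g (t : G) ∨ IsConj g (t' : G))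
    (h1 : IsConj (t : G) (z : G)) (h2 : ¬ IsConj (t' : G) (z : G)) :
    Nat.card {C : ConjClasses G // ∃ g : G, ConjClasses.mk g = C ∧ orderOf g = 2} = 2 ∧
      (∃ N : Subgroup G, N.Normal ∧ N.index = 2) ∧
      ∀ N : Subgroup G, N.Normal → N.index ≠ 4 := by
  have : Fact (Nat.Prime 2) := ⟨Nat.prime_two⟩
  have ht'G1 : (t' : G) ≠ 1 := fun h => ht'1 (Subtype.ext h)
  have ht'G2 : (t' : G) * (t' : G) = 1 := congrArg Subtype.val ht'
  have hT'2 : orderOf (t' : G) = 2 := orderOf_two_of_sq ht'G1 ht'G2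
  refine ⟨?_, ?_, ?_⟩
  · rw [dhCardSwap]
    apply card_classes_two' (fun g => orderOf g = 2) (z : G) (t' : G) hz2 hT'2
    · intro hc; exact h2 hc.symm
    · intro g hg
      rcases hall g hg with h | h | h
      · left; exact h
      · left; exact h.trans h1
      · right; exact h
  · have hV := transfer_neg_one P z ϕ hϕ t' ht' ht'1
      (fun g hg => h2 (isConj_iff.mpr ⟨g, hg⟩))
    exact ⟨(MonoidHom.transfer ϕ).ker, MonoidHom.normal_ker _, index_ker_of_units _ _ hV⟩
  · intro N hNn hN4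
    exact dhNoIndexFour P k hk2 z t t' ht ht' hgen hz h1 N hNn hN4

/-- Let G be a finite group whose Sylow 2-subgroups are dihedral of order 2 ^ n with n ≥ 3, and count the conjugacy classes of involutions of G. Then exactly one of the following holds: there is one class of involutions and no normal subgroup of index 2; there are two classes of involutions, a normal subgroup of index 2 and none of index 4; there are three classes of involutions and G has a normal 2-complement. -/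
theorem result {G : Type*} [Group G] [Finite G] (P : Sylow 2 G) (n : ℕ) (hn : 3 ≤ n) (hdih : Nonempty (↥(P : Subgroup G) ≃* DihedralGroup (2 ^ (n - 1)))) : (Nat.card {C : ConjClasses G // ∃ g : G, ConjClasses.mk g = C ∧ orderOf g = 2} = 1 ∧ ∀ N : Subgroup G, N.Normal → N.index ≠ 2) ∨ (Nat.card {C : ConjClasses G // ∃ g : G, ConjClasses.mk g = C ∧ orderOf g = 2} = 2 ∧ (∃ N : Subgroup G, N.Normal ∧ N.index = 2) ∧ ∀ N : Subgroup G, N.Normal → N.index ≠ 4) ∨ (Nat.card {C : ConjClasses G // ∃ g : G, ConjClasses.mk g = C ∧ orderOf g = 2} = 3 ∧ Cfsg.HasNormalPComplement 2 G) := by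
  classical
  have : Fact (Nat.Prime 2) := ⟨Nat.prime_two⟩
  obtain ⟨eS⟩ := hdih
  obtain ⟨k, hk⟩ : ∃ k : ℕ, k = 2 ^ (n - 2) := ⟨_, rfl⟩
  have hm : 2 ^ (n - 1) = 2 * k := by
    rw [hk, ← pow_succ']; congr 1; omega
  have hkpos : 0 < k := by rw [hk]; positivity
  have hk2 : 2 ∣ k := by
    rw [hk]; exact dvd_pow_self 2 (by omega)
  have hm2 : 2 ≤ 2 ^ (n - 1) := by rw [hm]; omega
  have eS' : ↥(P : Subgroup G) ≃* DihedralGroup (2 * k) := by rw [← hm]; exact eS
  obtain ⟨z, t₁, t₂, ϕ, χ, hzz, hz1, ht₁, ht₂, hϕ₁, hϕ₂, hχ₁, hχ₂, hord, hpow, hgen, hϕ, hinv⟩ :=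
    dhPack hkpos eS'
  have ht₁1 : t₁ ≠ 1 := by
    intro h; rw [h, map_one] at hϕ₁; exact absurd hϕ₁ (by decide)
  have ht₂1 : t₂ ≠ 1 := by
    intro h; rw [h, map_one] at hϕ₂; exact absurd hϕ₂ (by decide)
  have hZ2 : orderOf (z : G) = 2 :=
    orderOf_two_of_sq (fun h => hz1 (Subtype.ext h)) (congrArg Subtype.val hzz)
  have hT₁2 : orderOf (t₁ : G) = 2 :=
    orderOf_two_of_sq (fun h => ht₁1 (Subtype.ext h)) (congrArg Subtype.val ht₁)
  have hT₂2 : orderOf (t₂ : G) = 2 :=
    orderOf_two_of_sq (fun h => ht₂1 (Subtype.ext h)) (congrArg Subtype.val ht₂)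
  have hall : ∀ g : G, orderOf g = 2 →
      IsConj g (z : G) ∨ IsConj g (t₁ : G) ∨ IsConj g (t₂ : G) := by
    intro g hg
    have hgg : g * g = 1 := sq_of_orderOf_two hg
    obtain ⟨c, -, hc⟩ := invol_conj_into P ⊤ le_top g (Subgroup.mem_top g) hgg
    have hs2 : (⟨c * g * c⁻¹, hc⟩ : ↥(P : Subgroup G)) * ⟨c * g * c⁻¹, hc⟩ = 1 :=
      Subtype.ext (by
        show c * g * c⁻¹ * (c * g * c⁻¹) = 1
        calc c * g * c⁻¹ * (c * g * c⁻¹) = c * (g * g) * c⁻¹ := by group
          _ = 1 := by rw [hgg]; group)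
    have hs1 : (⟨c * g * c⁻¹, hc⟩ : ↥(P : Subgroup G)) ≠ 1 := by
      intro h
      have h' : c * g * c⁻¹ = 1 := congrArg Subtype.val h
      apply ne_one_of_orderOf_two hg
      calc g = c⁻¹ * (c * g * c⁻¹) * c := by group
        _ = 1 := by rw [h']; group
    rcases hinv _ hs2 hs1 with h | ⟨b, hb⟩ | ⟨b, hb⟩
    · left; rw [isConj_iff]; exact ⟨c, congrArg Subtype.val h⟩
    · right; left
      rw [isConj_iff]
      have e1 : (b : G) * (c * g * c⁻¹) * (b : G)⁻¹ = (t₁ : G) := congrArg Subtype.val hb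
      exact ⟨(b : G) * c, by rw [← e1]; group⟩
    · right; right
      rw [isConj_iff]
      have e1 : (b : G) * (c * g * c⁻¹) * (b : G)⁻¹ = (t₂ : G) := congrArg Subtype.val hb
      exact ⟨(b : G) * c, by rw [← e1]; group⟩
  by_cases h1 : IsConj (t₁ : G) (z : G)
  · by_cases h2 : IsConj (t₂ : G) (z : G)
    · left
      have key : ∀ a : G, orderOf a = 2 → IsConj a (z : G) := by
        intro a ha
        rcases hall a ha with h | h | h
        · exact h
        · exact h.trans h1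
        · exact h.trans h2
      have hconj : ∀ a b : G, orderOf a = 2 → orderOf b = 2 → IsConj a b := by
        intro a b ha hb
        exact (key a ha).trans (key b hb).symm
      refine ⟨?_, ?_⟩
      · rw [dhCardSwap]
        exact card_classes_one (fun g => orderOf g = 2) (z : G) hZ2 key
      · intro N _ hN2
        exact (dih_no_index_two_of_conj P (2 ^ (n - 1)) hm2 eS hconj).1 N hN2
    · right; left
      exact dhCaseTwo P k hk2 z t₁ t₂ ϕ hZ2 ht₁ ht₂ ht₂1 hgen (Or.inl hpow) hϕ hall h1 h2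
  · by_cases h2 : IsConj (t₂ : G) (z : G)
    · right; left
      refine dhCaseTwo P k hk2 z t₂ t₁ ϕ hZ2 ht₂ ht₁ ht₁1 (by rw [Set.pair_comm]; exact hgen)
        (Or.inr hpow) hϕ ?_ h2 h1
      intro g hg
      rcases hall g hg with h | h | h
      · exact Or.inl h
      · exact Or.inr (Or.inr h)
      · exact Or.inr (Or.inl h)
    · right; right
      have hA1 : ∀ g : G, g * (t₁ : G) * g⁻¹ ≠ (z : G) :=
        fun g hg => h1 (isConj_iff.mpr ⟨g, hg⟩)
      have hA2 : ∀ g : G, g * (t₂ : G) * g⁻¹ ≠ (z : G) :=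
        fun g hg => h2 (isConj_iff.mpr ⟨g, hg⟩)
      have hV1 := transfer_neg_one P z ϕ hϕ t₁ ht₁ ht₁1 hA1
      have hV2 := transfer_neg_one P z ϕ hϕ t₂ ht₂ ht₂1 hA2
      have hidx : (MonoidHom.transfer ϕ).ker.index = 2 := index_ker_of_units _ _ hV1
      have hρ : ((t₁ * t₂ : ↥(P : Subgroup G)) : G) ∈ (MonoidHom.transfer ϕ).ker := by
        rw [MonoidHom.mem_ker]
        show MonoidHom.transfer ϕ ((t₁ : G) * (t₂ : G)) = 1
        rw [map_mul, hV1, hV2]; decide
      have hcardS : Nat.card (P : Subgroup G) = 2 * (2 * k) := by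
        rw [Nat.card_congr eS'.toEquiv, DihedralGroup.nat_card]
      have hordX : orderOf ((t₁ * t₂ : ↥(P : Subgroup G)) : G) = 2 * k := by
        rw [Subgroup.orderOf_coe, hord]
      have hnpc : Cfsg.HasNormalPComplement 2 G :=
        npc_of_index_two_cyclic P _ hidx _ hρ (by rw [hordX, hcardS])
          (by rw [hordX]; exact dvd_mul_right _ _)
      refine ⟨?_, hnpc⟩
      rw [dhCardSwap]
      apply card_classes_three' (fun g => orderOf g = 2) (z : G) (t₁ : G) (t₂ : G) hZ2 hT₁2 hT₂2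
      · intro hc; exact h1 hc.symm
      · intro hc; exact h2 hc.symm
      · intro hc
        obtain ⟨u, hu, hue⟩ := dhNpcControl P hnpc (t₁ : G) (t₂ : G) t₁.2 t₂.2 hc
        have h3 : (⟨u, hu⟩ : ↥(P : Subgroup G)) * t₁ * (⟨u, hu⟩ : ↥(P : Subgroup G))⁻¹ = t₂ :=
          Subtype.ext hue
        have h4 : χ t₂ = χ t₁ := by
          rw [← h3, map_mul, map_mul, map_inv, mul_comm (χ ⟨u, hu⟩) (χ t₁),
            mul_inv_cancel_right]
        rw [hχ₁, hχ₂] at h4
        exact absurd h4 (by decide)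
      · exact hall

end Cfsg.Agent.S3864
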