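import Cfsg.Statements.S3866
import Mathlib

set_option autoImplicit false
open Cfsg

namespace Cfsg.Agent.S3866

def commSub {G : Type*} [Group G] (K : Subgroup G) [hK : K.Normal] (g : G) : Subgroup G where
  carrier := {h | g * h * g⁻¹ * h⁻¹ ∈ K}
  one_mem' := by simp
  mul_mem' := by
    intro a b ha hb
    have e : g * (a * b) * g⁻¹ * (a * b)⁻¹ = (g * a * g⁻¹ * a⁻¹) * (a * (g * b * g⁻¹ * b⁻¹) * a⁻¹) := by
      group
    show g * (a * b) * g⁻¹ * (a * b)⁻¹ ∈ K
    rw [e]
    exact mul_mem ha (hK.conj_mem _ hb a)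
  inv_mem' := by
    intro a ha
    have e : g * a⁻¹ * g⁻¹ * a⁻¹⁻¹ = a⁻¹ * (g * a * g⁻¹ * a⁻¹)⁻¹ * a⁻¹⁻¹ := by group
    show g * a⁻¹ * g⁻¹ * a⁻¹⁻¹ ∈ K
    rw [e]
    exact hK.conj_mem _ (inv_mem ha) a⁻¹

theorem mem_commSub {G : Type*} [Group G] (K : Subgroup G) [K.Normal] (g h : G) :
    h ∈ commSub K g ↔ g * h * g⁻¹ * h⁻¹ ∈ K := Iff.rfl

/-- Let A be a commutative normal subgroup of the finite group G with G generated by A and an element x. Then a ↦ x a x⁻¹ a⁻¹ is a surjective homomorphism from A onto the commutator subgroup of G whose kernel is the centralizer of x in A; in particular the commutator subgroup has order equal to the index in A of that centralizer. -/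
theorem result {G : Type*} [Group G] [Finite G] (A : Subgroup G) [A.Normal] (hA : IsMulCommutative A) (x : G) (hgen : A ⊔ Subgroup.zpowers x = ⊤) : (∀ a ∈ A, x * a * x⁻¹ * a⁻¹ ∈ commutator G) ∧ (∀ c ∈ commutator G, ∃ a ∈ A, x * a * x⁻¹ * a⁻¹ = c) ∧ (∀ a ∈ A, ∀ b ∈ A, x * (a * b) * x⁻¹ * (a * b)⁻¹ = (x * a * x⁻¹ * a⁻¹) * (x * b * x⁻¹ * b⁻¹)) ∧ Nat.card (commutator G) * Nat.card ↥(A ⊓ Subgroup.centralizer ({x} : Set G)) = Nat.card A := by
  classical
  have hAn : A.Normal := inferInstance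
  have hcomm : ∀ a ∈ A, ∀ b ∈ A, a * b = b * a := by
    intro a ha b hb
    have := hA.is_comm.comm (⟨a, ha⟩ : A) ⟨b, hb⟩
    exact congrArg Subtype.val this
  have hconj : ∀ a ∈ A, x * a * x⁻¹ ∈ A := fun a ha => hAn.conj_mem a ha x
  have hconj' : ∀ a ∈ A, x⁻¹ * a * x ∈ A := fun a ha => by
    have := hAn.conj_mem a ha x⁻¹
    simpa using this
  have hcA : ∀ a ∈ A, x * a * x⁻¹ * a⁻¹ ∈ A := fun a ha => mul_mem (hconj a ha) (inv_mem ha)
  have h3 : ∀ a ∈ A, ∀ b ∈ A,
      x * (a * b) * x⁻¹ * (a * b)⁻¹ = (x * a * x⁻¹ * a⁻¹) * (x * b * x⁻¹ * b⁻¹) := by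
    intro a ha b hb
    have e1 := hcomm a⁻¹ (inv_mem ha) (x * b * x⁻¹ * b⁻¹) (hcA b hb)
    calc x * (a * b) * x⁻¹ * (a * b)⁻¹ = x * a * x⁻¹ * ((x * b * x⁻¹ * b⁻¹) * a⁻¹) := by group
      _ = x * a * x⁻¹ * (a⁻¹ * (x * b * x⁻¹ * b⁻¹)) := by rw [e1]
      _ = (x * a * x⁻¹ * a⁻¹) * (x * b * x⁻¹ * b⁻¹) := by group
  let φ : A →* A :=
    { toFun := fun a => ⟨x * a * x⁻¹ * a⁻¹, hcA a a.2⟩
      map_one' := by
        apply Subtype.ext
        simp
      map_mul' := by
        intro a b
        apply Subtype.ext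
        exact h3 a a.2 b b.2 }
  let K : Subgroup G := φ.range.map A.subtype
  have hKmem : ∀ y, y ∈ K ↔ ∃ a ∈ A, x * a * x⁻¹ * a⁻¹ = y := by
    intro y
    constructor
    · rintro ⟨z, ⟨a, rfl⟩, rfl⟩
      exact ⟨a, a.2, rfl⟩
    · rintro ⟨a, ha, rfl⟩
      exact ⟨φ ⟨a, ha⟩, ⟨⟨a, ha⟩, rfl⟩, rfl⟩
  have hKA : K ≤ A := by
    intro y hy
    obtain ⟨a, ha, rfl⟩ := (hKmem y).mp hy
    exact hcA a ha
  have hnorm : Subgroup.normalizer (K : Set G) = ⊤ := by
    rw [eq_top_iff, ← hgen]
    apply sup_le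
    · intro a ha
      rw [Subgroup.mem_normalizer_iff]
      intro h
      constructor
      · intro hh
        have : a * h * a⁻¹ = h := by
          rw [hcomm a ha h (hKA hh)]; group
        rw [this]; exact hh
      · intro hh
        have hhA : h ∈ A := by
          have h1 := hKA hh
          have : h = a⁻¹ * (a * h * a⁻¹) * a := by group
          rw [this]
          exact mul_mem (mul_mem (inv_mem ha) h1) ha
        have : a * h * a⁻¹ = h := by
          rw [hcomm a ha h hhA]; group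
        rw [this] at hh; exact hh
    · rw [Subgroup.zpowers_le]
      rw [Subgroup.mem_normalizer_iff]
      intro h
      constructor
      · intro hh
        obtain ⟨a, ha, rfl⟩ := (hKmem h).mp hh
        rw [hKmem]
        refine ⟨x * a * x⁻¹, hconj a ha, ?_⟩
        group
      · intro hh
        obtain ⟨a, ha, he⟩ := (hKmem _).mp hh
        rw [hKmem]
        refine ⟨x⁻¹ * a * x, hconj' a ha, ?_⟩
        have : h = x⁻¹ * (x * h * x⁻¹) * x := by group
        rw [this, ← he]
        group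
  have hKn : K.Normal := Subgroup.normalizer_eq_top_iff.mp hnorm
  have hxa : ∀ a ∈ A, x * a * x⁻¹ * a⁻¹ ∈ K := fun a ha => (hKmem _).mpr ⟨a, ha, rfl⟩
  have hax : ∀ a ∈ A, a * x * a⁻¹ * x⁻¹ ∈ K := by
    intro a ha
    have := inv_mem (hxa a ha)
    have e : a * x * a⁻¹ * x⁻¹ = (x * a * x⁻¹ * a⁻¹)⁻¹ := by group
    rw [e]; exact this
  have top_of : ∀ S : Subgroup G, A ≤ S → x ∈ S → S = ⊤ := by
    intro S h1 h2
    rw [eq_top_iff, ← hgen]
    exact sup_le h1 ((Subgroup.zpowers_le).mpr h2)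
  have step1 : ∀ a ∈ A, ∀ h : G, a * h * a⁻¹ * h⁻¹ ∈ K := by
    intro a ha h
    have : commSub K a = ⊤ := by
      apply top_of
      · intro b hb
        rw [mem_commSub]
        have : a * b * a⁻¹ * b⁻¹ = 1 := by
          rw [hcomm a ha b hb]; group
        rw [this]; exact one_mem _
      · rw [mem_commSub]; exact hax a ha
    have hh : h ∈ commSub K a := by rw [this]; trivial
    exact hh
  have step2 : ∀ h : G, x * h * x⁻¹ * h⁻¹ ∈ K := by
    intro h
    have : commSub K x = ⊤ := by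
      apply top_of
      · intro b hb
        rw [mem_commSub]; exact hxa b hb
      · rw [mem_commSub]
        have : x * x * x⁻¹ * x⁻¹ = 1 := by group
        rw [this]; exact one_mem _
    have hh : h ∈ commSub K x := by rw [this]; trivial
    exact hh
  have step3 : ∀ g h : G, g * h * g⁻¹ * h⁻¹ ∈ K := by
    intro g h
    have : commSub K g = ⊤ := by
      apply top_of
      · intro b hb
        rw [mem_commSub]
        have := inv_mem (step1 b hb g)
        have e : g * b * g⁻¹ * b⁻¹ = (b * g * b⁻¹ * g⁻¹)⁻¹ := by group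
        rw [e]; exact this
      · rw [mem_commSub]
        have := inv_mem (step2 g)
        have e : g * x * g⁻¹ * x⁻¹ = (x * g * x⁻¹ * g⁻¹)⁻¹ := by group
        rw [e]; exact this
    have hh : h ∈ commSub K g := by rw [this]; trivial
    exact hh
  have hle : commutator G ≤ K := by
    rw [commutator_def, Subgroup.commutator_le]
    intro g _ h _
    rw [commutatorElement_def]
    exact step3 g h
  have h1 : ∀ a ∈ A, x * a * x⁻¹ * a⁻¹ ∈ commutator G := by
    intro a _
    rw [commutator_def, ← commutatorElement_def]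
    exact Subgroup.commutator_mem_commutator (Subgroup.mem_top x) (Subgroup.mem_top a)
  have hKeq : commutator G = K := by
    apply le_antisymm hle
    intro y hy
    obtain ⟨a, ha, rfl⟩ := (hKmem y).mp hy
    exact h1 a ha
  refine ⟨h1, ?_, h3, ?_⟩
  · intro c hc
    exact (hKmem c).mp (hle hc)
  · rw [hKeq]
    have e1 : Nat.card K = Nat.card φ.range := Subgroup.card_subtype A φ.range
    have e2 : Nat.card ↥(A ⊓ Subgroup.centralizer ({x} : Set G)) = Nat.card φ.ker := by
      have : A ⊓ Subgroup.centralizer ({x} : Set G) = φ.ker.map A.subtype := by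
        ext y
        rw [Subgroup.mem_inf, Subgroup.mem_map, Subgroup.mem_centralizer_iff]
        constructor
        · rintro ⟨hyA, hyC⟩
          refine ⟨⟨y, hyA⟩, ?_, rfl⟩
          rw [MonoidHom.mem_ker]
          apply Subtype.ext
          show x * y * x⁻¹ * y⁻¹ = 1
          have := hyC x (Set.mem_singleton x)
          rw [this]; group
        · rintro ⟨a, ha, rfl⟩
          refine ⟨a.2, ?_⟩
          intro h hh
          rw [Set.mem_singleton_iff] at hh
          subst hh
          rw [MonoidHom.mem_ker] at ha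
          have h1' : h * (a : G) * h⁻¹ * (a : G)⁻¹ = 1 := congrArg Subtype.val ha
          have : h * (a : G) = (h * (a : G) * h⁻¹ * (a : G)⁻¹) * ((a : G) * h) := by group
          rw [Subgroup.coe_subtype, this, h1', one_mul]
      rw [this, Subgroup.card_subtype]
    rw [e1, e2, ← Subgroup.index_ker, mul_comm]
    exact Subgroup.card_mul_index φ.ker

end Cfsg.Agent.S3866
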