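import Cfsg.Statements.S3867
import Mathlib
import Cfsg.Agent.Helper9.PLocal
import Cfsg.Agent.Helper9.Signalizer
import Cfsg.Agent.Helper4.CardMul
import Cfsg.Agent.Helper20.SylowAux
import Cfsg.Agent.Helper20.Conj

set_option autoImplicit false
open Cfsg
open scoped Pointwise

namespace Cfsg.Agent.S3867

theorem sylow_card_quot {G : Type*} [Group G] [Finite G] (p : ℕ) [Fact p.Prime]
    (K : Subgroup G) [K.Normal] (P : Sylow p G) :
    Nat.card (Sylow p (G ⧸ K))
      = (Subgroup.normalizer (((P : Subgroup G) ⊔ K : Subgroup G) : Set G)).index := by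
  have hs : Function.Surjective (QuotientGroup.mk' K) := QuotientGroup.mk'_surjective K
  have h1 : Nat.card (Sylow p (G ⧸ K))
      = (Subgroup.normalizer ((((P : Subgroup G).map (QuotientGroup.mk' K) :
          Subgroup (G ⧸ K))) : Set (G ⧸ K))).index := by
    have := Sylow.card_eq_index_normalizer (P.mapSurjective hs)
    exact this
  rw [h1, ← Subgroup.index_comap_of_surjective _ hs,
    Subgroup.comap_normalizer_eq_of_surjective _ hs, Subgroup.comap_map_eq,
    QuotientGroup.ker_mk']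

theorem isPGroup_inf_sup {G : Type*} [Group G] [Finite G] (p : ℕ) [Fact p.Prime]
    (Q M N : Subgroup G) [M.Normal] [N.Normal]
    (hQ : IsPGroup p Q) (hMN : M ⊓ N = ⊥) : IsPGroup p ↥((Q ⊔ M) ⊓ (Q ⊔ N)) := by
  have key : ∀ (K : Subgroup G) [K.Normal], ∀ x ∈ Q ⊔ K, ∃ a : ℕ, x ^ p ^ a ∈ K := by
    intro K _ x hx
    have hmap : IsPGroup p ↥(Q.map (QuotientGroup.mk' K)) := hQ.map (QuotientGroup.mk' K)
    have hxm : QuotientGroup.mk' K x ∈ Q.map (QuotientGroup.mk' K) := by
      have : QuotientGroup.mk' K x ∈ (Q ⊔ K).map (QuotientGroup.mk' K) :=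
        Subgroup.mem_map_of_mem _ hx
      rw [Subgroup.map_sup, QuotientGroup.map_mk'_self, sup_bot_eq] at this
      exact this
    obtain ⟨a, ha⟩ := hmap ⟨_, hxm⟩
    refine ⟨a, ?_⟩
    have h2 : QuotientGroup.mk' K (x ^ p ^ a) = 1 := by
      rw [map_pow]
      have := congrArg Subtype.val ha
      rw [Subgroup.coe_pow] at this
      exact this
    rw [← MonoidHom.mem_ker, QuotientGroup.ker_mk'] at h2
    exact h2
  intro x
  obtain ⟨a, ha⟩ := key M x.1 (Subgroup.mem_inf.mp x.2).1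
  obtain ⟨b, hb⟩ := key N x.1 (Subgroup.mem_inf.mp x.2).2
  refine ⟨a + b, ?_⟩
  have h1 : (x : G) ^ p ^ (a + b) ∈ M := by
    rw [pow_add, pow_mul]
    exact M.pow_mem ha _
  have h2 : (x : G) ^ p ^ (a + b) ∈ N := by
    rw [pow_add, mul_comm (p ^ a) (p ^ b), pow_mul]
    exact N.pow_mem hb _
  have h3 : (x : G) ^ p ^ (a + b) ∈ M ⊓ N := ⟨h1, h2⟩
  rw [hMN, Subgroup.mem_bot] at h3
  apply Subtype.ext
  rw [Subgroup.coe_pow]
  exact h3

theorem normalizer_le_normalizer_sup {G : Type*} [Group G] (Q K : Subgroup G) [hK : K.Normal] :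
    Subgroup.normalizer (Q : Set G) ≤ Subgroup.normalizer ((Q ⊔ K : Subgroup G) : Set G) := by
  apply Cfsg.Agent.Helper9.le_normalizer_of_conj_inv
  intro b hb w hw
  have hw' : w ∈ (Q : Set G) * (K : Set G) := by
    rw [← Subgroup.mul_normal]; exact hw
  obtain ⟨q, hq, k, hk, rfl⟩ := Set.mem_mul.mp hw'
  have h1 : b * q * b⁻¹ ∈ Q := (Subgroup.mem_normalizer_iff.mp hb q).mp hq
  have h2 : b * k * b⁻¹ ∈ K := hK.conj_mem k hk b
  have e : b * (q * k) * b⁻¹ = (b * q * b⁻¹) * (b * k * b⁻¹) := by group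
  rw [e]
  exact Subgroup.mul_mem _ (Subgroup.mem_sup_left h1) (Subgroup.mem_sup_right h2)

/-- Let M and N be nontrivial normal subgroups of the finite group G with M ⊓ N trivial, and let p be a prime. Writing n(X) for the number of Sylow p-subgroups of a group X, one has n(G) · n(G/MN) = n(G/M) · n(G/N). -/
theorem result {G : Type*} [Group G] [Finite G] (p : ℕ) [Fact p.Prime] (M N : Subgroup G) [M.Normal] [N.Normal] (hM : M ≠ ⊥) (hN : N ≠ ⊥) (hMN : M ⊓ N = ⊥) : Nat.card (Sylow p G) * Nat.card (Sylow p (G ⧸ (M ⊔ N))) = Nat.card (Sylow p (G ⧸ M)) * Nat.card (Sylow p (G ⧸ N)) := by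
  classical
  obtain ⟨P⟩ : Nonempty (Sylow p G) := inferInstance
  obtain ⟨Q, hQdef⟩ : ∃ Q : Subgroup G, Q = (P : Subgroup G) := ⟨_, rfl⟩
  have hQp : IsPGroup p Q := by rw [hQdef]; exact P.2
  have hinf : (Q ⊔ M) ⊓ (Q ⊔ N) = Q := by
    have hle : Q ≤ (Q ⊔ M) ⊓ (Q ⊔ N) := le_inf le_sup_left le_sup_left
    have := P.3 (isPGroup_inf_sup p Q M N hQp hMN) (by rw [← hQdef]; exact hle)
    rw [← hQdef] at this; exact this
  obtain ⟨N0, hN0⟩ : ∃ N0 : Subgroup G, N0 = Subgroup.normalizer (Q : Set G) := ⟨_, rfl⟩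
  obtain ⟨N1, hN1⟩ : ∃ N1 : Subgroup G,
      N1 = Subgroup.normalizer ((Q ⊔ M : Subgroup G) : Set G) := ⟨_, rfl⟩
  obtain ⟨N2, hN2⟩ : ∃ N2 : Subgroup G,
      N2 = Subgroup.normalizer ((Q ⊔ N : Subgroup G) : Set G) := ⟨_, rfl⟩
  obtain ⟨N3, hN3⟩ : ∃ N3 : Subgroup G,
      N3 = Subgroup.normalizer ((Q ⊔ (M ⊔ N) : Subgroup G) : Set G) := ⟨_, rfl⟩
  have e0 : Nat.card (Sylow p G) = N0.index := by
    rw [hN0, hQdef]; exact Sylow.card_eq_index_normalizer P
  have e1 : Nat.card (Sylow p (G ⧸ M)) = N1.index := by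
    rw [hN1, hQdef]; exact sylow_card_quot p M P
  have e2 : Nat.card (Sylow p (G ⧸ N)) = N2.index := by
    rw [hN2, hQdef]; exact sylow_card_quot p N P
  have e3 : Nat.card (Sylow p (G ⧸ (M ⊔ N))) = N3.index := by
    rw [hN3, hQdef]; exact sylow_card_quot p (M ⊔ N) P
  have h01 : N0 ≤ N1 := by rw [hN0, hN1]; exact normalizer_le_normalizer_sup Q M
  have h02 : N0 ≤ N2 := by rw [hN0, hN2]; exact normalizer_le_normalizer_sup Q N
  have h13 : N1 ≤ N3 := by
    rw [hN1, hN3]
    have := normalizer_le_normalizer_sup (Q ⊔ M) N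
    rw [sup_assoc] at this
    exact this
  have h23 : N2 ≤ N3 := by
    rw [hN2, hN3]
    have := normalizer_le_normalizer_sup (Q ⊔ N) M
    rw [sup_assoc, sup_comm N M] at this
    exact this
  have hint : N1 ⊓ N2 = N0 := by
    apply le_antisymm
    · have := Cfsg.Agent.Helper9.le_normalizer_inf' (N1 ⊓ N2) (Q ⊔ M) (Q ⊔ N)
        (inf_le_left.trans hN1.le) (inf_le_right.trans hN2.le)
      rw [hinf] at this
      rw [hN0]; exact this
    · exact le_inf h01 h02
  have hprod : ((N1 : Set G) * (N2 : Set G) : Set G) = (N3 : Set G) := by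
    apply Set.Subset.antisymm
    · rintro _ ⟨a, ha, b, hb, rfl⟩
      exact N3.mul_mem (h13 ha) (h23 hb)
    · intro g hg
      have hg' : g ∈ Subgroup.normalizer ((Q ⊔ (M ⊔ N) : Subgroup G) : Set G) := by
        rw [← hN3]; exact hg
      have hQg : Q.map (MulAut.conj g).toMonoidHom ≤ Q ⊔ (M ⊔ N) := by
        rintro _ ⟨q, hq, rfl⟩
        exact (Subgroup.mem_normalizer_iff.mp hg' q).mp (Subgroup.mem_sup_left hq)
      have hidx : ¬ p ∣ Q.relIndex (Q ⊔ (M ⊔ N)) := by
        intro hdvd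
        have h1 : Q.relIndex (Q ⊔ (M ⊔ N)) ∣ Q.index :=
          Subgroup.relIndex_dvd_index_of_le le_sup_left
        have h2 : ¬ p ∣ Q.index := by rw [hQdef]; exact P.not_dvd_index
        exact h2 (hdvd.trans h1)
      obtain ⟨k, hk, hkeq⟩ := Cfsg.Agent.Helper20.exists_conj_eq_of_isPGroup (Q ⊔ (M ⊔ N)) Q
        (Q.map (MulAut.conj g).toMonoidHom) hQp le_sup_left hQg (hQp.map _)
        (by rw [Cfsg.Agent.Helper20.card_map_conj]) hidx
      have hkg : k⁻¹ * g ∈ N0 := by
        rw [hN0, Subgroup.mem_normalizer_iff]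
        intro x
        constructor
        · intro hx
          have h1 : g * x * g⁻¹ ∈ Q.map (MulAut.conj g).toMonoidHom := by
            rw [Cfsg.Agent.Helper20.mem_map_conj]
            have e : g⁻¹ * (g * x * g⁻¹) * g = x := by group
            rw [e]; exact hx
          rw [hkeq, Cfsg.Agent.Helper20.mem_map_conj] at h1
          have e : k⁻¹ * g * x * (k⁻¹ * g)⁻¹ = k⁻¹ * (g * x * g⁻¹) * k := by group
          rw [e]; exact h1
        · intro hy
          have h1 : k * (k⁻¹ * g * x * (k⁻¹ * g)⁻¹) * k⁻¹ ∈ Q.map (MulAut.conj k).toMonoidHom := by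
            rw [Cfsg.Agent.Helper20.mem_map_conj]
            have e : k⁻¹ * (k * (k⁻¹ * g * x * (k⁻¹ * g)⁻¹) * k⁻¹) * k
                = k⁻¹ * g * x * (k⁻¹ * g)⁻¹ := by group
            rw [e]; exact hy
          rw [← hkeq, Cfsg.Agent.Helper20.mem_map_conj] at h1
          have e : g⁻¹ * (k * (k⁻¹ * g * x * (k⁻¹ * g)⁻¹) * k⁻¹) * g = x := by group
          rw [e] at h1; exact h1
      have hk' : k ∈ ((Q ⊔ M : Subgroup G) : Set G) * (N : Set G) := by
        rw [← Subgroup.mul_normal, sup_assoc]; exact hk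
      obtain ⟨u, hu, n, hn, rfl⟩ := Set.mem_mul.mp hk'
      refine Set.mem_mul.mpr ⟨u, ?_, n * ((u * n)⁻¹ * g), ?_, by group⟩
      · have : u ∈ Subgroup.normalizer ((Q ⊔ M : Subgroup G) : Set G) :=
          Subgroup.le_normalizer hu
        rw [← hN1] at this; exact this
      · refine N2.mul_mem ?_ (h02 hkg)
        have : n ∈ Subgroup.normalizer ((Q ⊔ N : Subgroup G) : Set G) :=
          Subgroup.le_normalizer (Subgroup.mem_sup_right hn)
        rw [← hN2] at this; exact this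
  have hcard : Nat.card N1 * Nat.card N2 = Nat.card N3 * Nat.card N0 := by
    rw [Cfsg.Agent.Helper4.card_mul_card_eq N1 N2, hint]
    congr 1
    exact Nat.card_congr (Equiv.setCongr hprod)
  have c0 := Subgroup.card_mul_index N0
  have c1 := Subgroup.card_mul_index N1
  have c2 := Subgroup.card_mul_index N2
  have c3 := Subgroup.card_mul_index N3
  rw [e0, e1, e2, e3]
  have hpos : 0 < Nat.card N1 * Nat.card N2 := Nat.mul_pos Nat.card_pos Nat.card_pos
  apply Nat.eq_of_mul_eq_mul_left hpos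
  calc Nat.card N1 * Nat.card N2 * (N0.index * N3.index)
      = (Nat.card N0 * N0.index) * (Nat.card N3 * N3.index) := by rw [hcard]; ring
    _ = (Nat.card N1 * N1.index) * (Nat.card N2 * N2.index) := by rw [c0, c1, c2, c3]
    _ = Nat.card N1 * Nat.card N2 * (N1.index * N2.index) := by ring

end Cfsg.Agent.S3867
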