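import Cfsg.Statements.S3881
import Mathlib
import Cfsg.Agent.Helper20.Metacyclic3

set_option autoImplicit false
open Cfsg

namespace Cfsg.Agent.S3881

/-- Let p be an odd prime and G a finite metacyclic p-group (G has a cyclic normal subgroup with cyclic quotient). Suppose G is non-abelian with |G'| = p^n. Then for 1 ≤ i ≤ n the number of elements of G whose conjugacy class has exactly p^i elements is |Z(G)| · (p^(2i) − p^(2i−2)). -/
theorem result {G : Type*} [Group G] [Finite G] {p : ℕ} [Fact p.Prime] (hp : p ≠ 2) (hG : IsPGroup p G) (hmc : Cfsg.IsMetacyclic G) (n : ℕ) (hn : n ≠ 0) (hGn : Nat.card ↥(commutator G) = p ^ n) (i : ℕ) (hi : 1 ≤ i) (hin : i ≤ n) :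
    Nat.card {g : G // (Subgroup.centralizer ({g} : Set G)).index = p ^ i} =
      Nat.card ↥(Subgroup.center G) * (p ^ (2 * i) - p ^ (2 * i - 2)) := by
  obtain ⟨F⟩ := Cfsg.Agent.Helper20.Meta.exists_frame hG hmc
  have hpp : p.Prime := Fact.out
  have hFn : F.n = n := by
    have h1 := F.card_commutator
    rw [hGn] at h1
    exact ((Nat.pow_right_inj hpp.one_lt).mp h1).symm
  have hin' : i ≤ F.n := by omega
  have hnα := F.n_le_α
  have hnβ := F.n_le_β hp
  have hset : {g : G | (Subgroup.centralizer ({g} : Set G)).index = p ^ i} =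
      (F.lev (F.n - i) : Set G) \ (F.lev (F.n - i + 1) : Set G) := by
    ext g
    simp only [Set.mem_setOf_eq, Set.mem_diff, SetLike.mem_coe]
    rw [F.mem_lev_iff hp (F.n - i) (Nat.sub_le _ _), F.mem_lev_iff hp (F.n - i + 1) (by omega)]
    have e1 : F.n - (F.n - i) = i := by omega
    have e2 : F.n - (F.n - i + 1) = i - 1 := by omega
    rw [e1, e2]
    obtain ⟨k, hk⟩ := hG.index (Subgroup.centralizer ({g} : Set G))
    rw [hk, Nat.pow_right_inj hpp.one_lt, Nat.pow_le_pow_iff_right hpp.one_lt,
      Nat.pow_le_pow_iff_right hpp.one_lt]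
    omega
  have hsub : (F.lev (F.n - i + 1) : Set G) ⊆ (F.lev (F.n - i) : Set G) :=
    SetLike.coe_subset_coe.mpr (F.lev_succ_le (F.n - i))
  have h2 : ∀ H : Subgroup G, Set.ncard (H : Set G) = Nat.card H :=
    fun H => (Nat.card_coe_set_eq (H : Set G)).symm
  have hcard : Nat.card {g : G // (Subgroup.centralizer ({g} : Set G)).index = p ^ i} =
      Nat.card (F.lev (F.n - i)) - Nat.card (F.lev (F.n - i + 1)) := by
    have h1 : Nat.card {g : G // (Subgroup.centralizer ({g} : Set G)).index = p ^ i} =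
        Set.ncard {g : G | (Subgroup.centralizer ({g} : Set G)).index = p ^ i} := by
      rw [← Nat.card_coe_set_eq]; rfl
    rw [h1, hset, Set.ncard_diff hsub (Set.toFinite _), h2, h2]
  rw [hcard, F.card_lev hp _ (Nat.sub_le _ _), F.card_lev hp _ (by omega), F.card_center hp,
    mul_tsub (p ^ (F.α + F.β - 2 * F.n)), ← pow_add, ← pow_add]
  congr 1 <;> congr 1 <;> omega

end Cfsg.Agent.S3881
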