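import Cfsg.Statements.S3883
import Mathlib
import Cfsg.Agent.Helper20.Metacyclic3
import Cfsg.Agent.Helper24.Critical
import Cfsg.Agent.Lead.PGroup

set_option autoImplicit false
open Cfsg

namespace Cfsg.Agent.S3883

/-- Let p be an odd prime and G a finite metacyclic p-group (G has a cyclic normal subgroup with cyclic quotient). Suppose G is non-abelian. Then an element g of G lies outside the Frattini subgroup if and only if its centralizer C_G(g) is abelian. -/
theorem result {G : Type*} [Group G] [Finite G] {p : ℕ} [Fact p.Prime] (hp : p ≠ 2) (hG : IsPGroup p G) (hmc : Cfsg.IsMetacyclic G) (hna : ¬ IsMulCommutative G) (g : G) :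
    g ∉ frattini G ↔ IsMulCommutative ↥(Subgroup.centralizer ({g} : Set G)) := by
  obtain ⟨F⟩ := Cfsg.Agent.Helper20.Meta.exists_frame hG hmc
  have hpp : p.Prime := Fact.out
  have hnα := F.n_le_α
  have hnβ := F.n_le_β hp
  have hn1 : 1 ≤ F.n := by
    by_contra h0
    have h0' : F.n = 0 := by omega
    apply hna
    have hc := F.lev_n_eq_center hp
    rw [h0', F.lev_zero] at hc
    refine ⟨⟨fun a b => ?_⟩⟩
    have ha : a ∈ Subgroup.center G := by rw [← hc]; exact Subgroup.mem_top a
    exact (Subgroup.mem_center_iff.mp ha b).symm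
  haveI := F.lev_normal hp 1
  have hfrat : frattini G = F.lev 1 := by
    apply le_antisymm
    · apply Cfsg.Agent.Helper24.frattini_le_of_elementary_quotient hpp (F.lev 1)
      · intro x y
        have h1 : _ ∈ commutator G :=
          Subgroup.commutator_mem_commutator (Subgroup.mem_top x) (Subgroup.mem_top y)
        rw [F.commutator_eq] at h1
        have h2 : F.a ^ (F.r - 1) ∈ F.lev 1 := by
          rw [F.mem_lev]
          have hd : p ∣ F.r - 1 := by
            have := Nat.dvd_sub_mod (n := p) F.r
            rwa [F.hr] at this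
          obtain ⟨k, hk⟩ := hd
          exact ⟨k, 0, by rw [hk, pow_one, mul_zero, pow_zero, mul_one]⟩
        exact (Subgroup.zpowers_le.mpr h2) h1
      · intro x
        have := F.pow_mem_lev hp 1 x
        rwa [pow_one] at this
    · rw [← F.closure_pow_eq_lev hp 1, Subgroup.closure_le]
      rintro x ⟨y, rfl⟩
      rw [pow_one]
      exact Cfsg.Agent.Lead.pow_mem_frattini hG y
  have hab : IsMulCommutative ↥(Subgroup.centralizer ({g} : Set G)) ↔
      Nat.card (Subgroup.centralizer ({g} : Set G)) ≤ p ^ (F.α + F.β - F.n) :=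
    (Cfsg.Agent.Helper20.Meta.isMulComm_iff _).trans (F.abelian_iff_card hp _)
  obtain ⟨k, hk⟩ := hG.index (Subgroup.centralizer ({g} : Set G))
  have h1 := Subgroup.card_mul_index (Subgroup.centralizer ({g} : Set G))
  rw [hk, F.card_G] at h1
  have hkle : k ≤ F.α + F.β := by
    have h2 : p ^ k ∣ p ^ (F.α + F.β) := Dvd.intro_left _ h1
    exact (Nat.pow_dvd_pow_iff_le_right hpp.one_lt).mp h2
  have hC : Nat.card (Subgroup.centralizer ({g} : Set G)) = p ^ (F.α + F.β - k) := by
    have h3 : p ^ (F.α + F.β) = p ^ (F.α + F.β - k) * p ^ k := by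
      rw [← pow_add]; congr 1; omega
    rw [h3] at h1
    exact Nat.eq_of_mul_eq_mul_right (pow_pos hpp.pos k) h1
  rw [hfrat, F.mem_lev_iff hp 1 hn1, hab, hk, hC, not_le, Nat.pow_lt_pow_iff_right hpp.one_lt,
    Nat.pow_le_pow_iff_right hpp.one_lt]
  omega

end Cfsg.Agent.S3883
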