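import Cfsg.Statements.S3885
import Mathlib
import Cfsg.Agent.Helper20.Metacyclic3

set_option autoImplicit false
open Cfsg

namespace Cfsg.Agent.S3885

/-- Let p be an odd prime and G a finite metacyclic p-group (G has a cyclic normal subgroup with cyclic quotient). Then every abelian subgroup K of G containing the center of G is the center of its own centralizer: K = Z(C_G(K)). -/
theorem result {G : Type*} [Group G] [Finite G] {p : ℕ} [Fact p.Prime] (hp : p ≠ 2) (hG : IsPGroup p G) (hmc : Cfsg.IsMetacyclic G) (K : Subgroup G) (hK : IsMulCommutative ↥K) (hZ : Subgroup.center G ≤ K) :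
    K = Subgroup.centralizer (K : Set G) ⊓ Subgroup.centralizer (Subgroup.centralizer (K : Set G) : Set G) := by
  obtain ⟨F⟩ := Cfsg.Agent.Helper20.Meta.exists_frame hG hmc
  have hpp : p.Prime := Fact.out
  have hKC : K ≤ Subgroup.centralizer (K : Set G) := by
    intro x hx
    rw [Subgroup.mem_centralizer_iff]
    intro y hy
    exact (Cfsg.Agent.Helper20.Meta.isMulComm_iff K).mp hK y hy x hx
  have hZC : Subgroup.center G ≤ Subgroup.centralizer (K : Set G) :=
    Subgroup.center_le_centralizer _
  have hKCC : K ≤ Subgroup.centralizer (Subgroup.centralizer (K : Set G) : Set G) := by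
    intro x hx
    rw [Subgroup.mem_centralizer_iff]
    intro y hy
    exact (Subgroup.mem_centralizer_iff.mp hy x hx).symm
  have h1 := F.card_mul_card_centralizer hp K hZ
  have h2 := F.card_mul_card_centralizer hp (Subgroup.centralizer (K : Set G)) hZC
  have h3 : Nat.card (Subgroup.centralizer (Subgroup.centralizer (K : Set G) : Set G)) =
      Nat.card K := by
    have hpos : 0 < Nat.card (Subgroup.centralizer (K : Set G)) := Nat.card_pos
    exact Nat.eq_of_mul_eq_mul_left hpos ((h2.trans h1.symm).trans (mul_comm _ _))
  have h5 : K = Subgroup.centralizer (Subgroup.centralizer (K : Set G) : Set G) :=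
    Subgroup.eq_of_le_of_card_ge hKCC h3.le
  rw [← h5]
  exact (inf_eq_right.mpr hKC).symm

end Cfsg.Agent.S3885
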