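import Cfsg.Statements.S3886
import Mathlib
import Cfsg.Agent.Helper20.Metacyclic3

set_option autoImplicit false
open Cfsg

namespace Cfsg.Agent.S3886

/-- Let p be an odd prime and G a finite metacyclic p-group (G has a cyclic normal subgroup with cyclic quotient). Then the largest value of |R| · |Z(R)| over subgroups R of G is |G : G'|², and the subgroups attaining it (the centrally large subgroups) are exactly the non-abelian subgroups together with the maximal abelian subgroups of G. -/
theorem result {G : Type*} [Group G] [Finite G] {p : ℕ} [Fact p.Prime] (hp : p ≠ 2) (hG : IsPGroup p G) (hmc : Cfsg.IsMetacyclic G) : Cfsg.maxCentralProduct G = (commutator G).index ^ 2 ∧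
    ∀ R : Subgroup G, Cfsg.IsCentrallyLarge R ↔ (¬ IsMulCommutative ↥R ∨ Maximal (fun K : Subgroup G => IsMulCommutative ↥K) R) := by
  obtain ⟨F⟩ := Cfsg.Agent.Helper20.Meta.exists_frame hG hmc
  have hpp : p.Prime := Fact.out
  have hnα := F.n_le_α
  have hnβ := F.n_le_β hp
  have hle : ∀ R : Subgroup G, Nat.card R * Nat.card (Subgroup.center ↥R) ≤
      p ^ (2 * (F.α + F.β - F.n)) := by
    intro R
    obtain ⟨u, w, hu, hw, -, h2, -⟩ := F.exists_data hp R
    rw [h2]
    apply Nat.pow_le_pow_right hpp.pos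
    omega
  have hmax : Cfsg.maxCentralProduct G = p ^ (2 * (F.α + F.β - F.n)) := by
    unfold Cfsg.maxCentralProduct
    apply IsGreatest.csSup_eq
    constructor
    · refine ⟨⊤, ?_⟩
      obtain ⟨u, w, hu, hw, h1, h2, -⟩ := F.exists_data hp ⊤
      rw [h2]
      have h3 : Nat.card (⊤ : Subgroup G) = p ^ (F.α + F.β) := by
        rw [Subgroup.card_top, F.card_G]
      rw [h3] at h1
      have h4 := (Nat.pow_right_inj hpp.one_lt).mp h1
      congr 1
      omega
    · rintro k ⟨R, rfl⟩
      exact hle R
  have hidx : (commutator G).index ^ 2 = p ^ (2 * (F.α + F.β - F.n)) := by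
    rw [F.index_commutator, ← pow_mul, mul_comm]
  refine ⟨by rw [hmax, hidx], ?_⟩
  intro R
  unfold Cfsg.IsCentrallyLarge
  rw [hmax, Cfsg.Agent.Helper20.Meta.isMulComm_iff, F.maximal_iff_card hp R]
  obtain ⟨u, w, hu, hw, h1, h2, h3⟩ := F.exists_data hp R
  rw [h2, h3, h1, Nat.pow_right_inj hpp.one_lt, Nat.pow_right_inj hpp.one_lt]
  omega

end Cfsg.Agent.S3886
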