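import Cfsg.Statements.S3887
import Mathlib
import Cfsg.Agent.Helper20.Metacyclic3

set_option autoImplicit false
open Cfsg

namespace Cfsg.Agent.S3887

/-- Let p be an odd prime and G a finite metacyclic p-group (G has a cyclic normal subgroup with cyclic quotient). Then a subgroup R of G maximizes |R| · |C_G(R)| over all subgroups of G if and only if R contains the center of G. -/
theorem result {G : Type*} [Group G] [Finite G] {p : ℕ} [Fact p.Prime] (hp : p ≠ 2) (hG : IsPGroup p G) (hmc : Cfsg.IsMetacyclic G) (R : Subgroup G) : Cfsg.IsCentralizerLarge R ↔ Subgroup.center G ≤ R := by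
  obtain ⟨F⟩ := Cfsg.Agent.Helper20.Meta.exists_frame hG hmc
  have hpp : p.Prime := Fact.out
  have key : ∀ R : Subgroup G,
      Nat.card R * Nat.card (Subgroup.centralizer (R : Set G)) ≤ p ^ (2 * (F.α + F.β - F.n)) ∧
      (Nat.card R * Nat.card (Subgroup.centralizer (R : Set G)) = p ^ (2 * (F.α + F.β - F.n)) ↔
        Subgroup.center G ≤ R) := by
    intro R
    have h1 := F.card_mul_card_centralizer hp (R ⊔ Subgroup.center G) le_sup_right
    rw [Cfsg.Agent.Helper20.Meta.centralizer_sup_center] at h1
    have hle : Nat.card R ≤ Nat.card (R ⊔ Subgroup.center G : Subgroup G) :=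
      Subgroup.card_le_of_le le_sup_left
    constructor
    · rw [← h1]
      exact Nat.mul_le_mul_right _ hle
    · constructor
      · intro h
        rw [← h1] at h
        have hpos : 0 < Nat.card (Subgroup.centralizer (R : Set G)) := Nat.card_pos
        have h2 := Nat.eq_of_mul_eq_mul_right hpos h
        have h3 : R = R ⊔ Subgroup.center G := Subgroup.eq_of_le_of_card_ge le_sup_left h2.ge
        rw [h3]
        exact le_sup_right
      · intro h
        have h3 : R ⊔ Subgroup.center G = R := sup_eq_left.mpr h
        rw [h3] at h1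
        exact h1
  have hmax : Cfsg.maxCentralizerProduct G = p ^ (2 * (F.α + F.β - F.n)) := by
    unfold Cfsg.maxCentralizerProduct
    apply IsGreatest.csSup_eq
    constructor
    · exact ⟨⊤, (key ⊤).2.mpr le_top⟩
    · rintro k ⟨R, rfl⟩
      exact (key R).1
  unfold Cfsg.IsCentralizerLarge
  rw [hmax]
  exact (key R).2

end Cfsg.Agent.S3887
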