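import Mathlib
import Cfsg.Statements.S3895
import Cfsg.Agent.S0071

set_option autoImplicit false
open Cfsg

namespace Cfsg.Agent.S3895

/-- fibre-size bookkeeping -/
theorem mul_card_image_filter_le {X Y : Type*} [DecidableEq Y] (s : Finset X) (c : X → Y)
    (n : X → ℕ) (hn : ∀ x ∈ s, n x = (s.filter (fun z => c z = c x)).card) (p : ℕ → Prop)
    [DecidablePred p] (m : ℕ) (hm : ∀ j, p j → m ≤ j) :
    m * ((s.filter (fun x => p (n x))).image c).card ≤ (s.filter (fun x => p (n x))).card := by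
  apply Finset.mul_card_image_le_card
  intro b hb
  obtain ⟨x, hx, rfl⟩ := Finset.mem_image.mp hb
  have hxs : x ∈ s := (Finset.mem_filter.mp hx).1
  have hpx : p (n x) := (Finset.mem_filter.mp hx).2
  have heq : (s.filter (fun x => p (n x))).filter (fun a => c a = c x) =
      s.filter (fun z => c z = c x) := by
    ext a
    simp only [Finset.mem_filter]
    constructor
    · rintro ⟨⟨ha, _⟩, hca⟩
      exact ⟨ha, hca⟩
    · rintro ⟨ha, hca⟩
      have hna : n a = n x := by rw [hn a ha, hn x hxs, hca]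
      refine ⟨⟨ha, ?_⟩, hca⟩
      rw [hna]
      exact hpx
  rw [heq, ← hn x hxs]
  exact hm _ hpx

/-- weighted count of the image by fibre sizes `1`, `2`, `≥ 3` -/
theorem six_mul_card_image_le {X Y : Type*} [DecidableEq Y] (s : Finset X) (c : X → Y)
    (n : X → ℕ) (hn : ∀ x ∈ s, n x = (s.filter (fun z => c z = c x)).card) :
    6 * (s.image c).card + (s.filter (fun x => 3 ≤ n x)).card ≤
      3 * s.card + 3 * (s.filter (fun x => n x = 1)).card := by
  have hn1 : ∀ x ∈ s, 1 ≤ n x := by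
    intro x hx
    rw [hn x hx]
    exact Finset.card_pos.mpr ⟨x, Finset.mem_filter.mpr ⟨hx, rfl⟩⟩
  have h1 : 1 * ((s.filter (fun x => n x = 1)).image c).card ≤
      (s.filter (fun x => n x = 1)).card :=
    mul_card_image_filter_le s c n hn (fun j => j = 1) 1 (fun j hj => by omega)
  have h2 : 2 * ((s.filter (fun x => n x = 2)).image c).card ≤
      (s.filter (fun x => n x = 2)).card :=
    mul_card_image_filter_le s c n hn (fun j => j = 2) 2 (fun j hj => by omega)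
  have h3 : 3 * ((s.filter (fun x => 3 ≤ n x)).image c).card ≤
      (s.filter (fun x => 3 ≤ n x)).card :=
    mul_card_image_filter_le s c n hn (fun j => 3 ≤ j) 3 (fun j hj => hj)
  have hcard : (s.filter (fun x => n x = 1)).card + (s.filter (fun x => n x = 2)).card +
      (s.filter (fun x => 3 ≤ n x)).card = s.card := by
    rw [Finset.card_filter, Finset.card_filter, Finset.card_filter, ← Finset.sum_add_distrib,
      ← Finset.sum_add_distrib, Finset.card_eq_sum_ones]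
    apply Finset.sum_congr rfl
    intro x hx
    have hx1 := hn1 x hx
    split_ifs <;> omega
  have himg : (s.image c).card ≤ ((s.filter (fun x => n x = 1)).image c).card +
      ((s.filter (fun x => n x = 2)).image c).card +
      ((s.filter (fun x => 3 ≤ n x)).image c).card := by
    have hsub : s.image c ⊆ ((s.filter (fun x => n x = 1)).image c ∪
        (s.filter (fun x => n x = 2)).image c) ∪ (s.filter (fun x => 3 ≤ n x)).image c := by
      intro b hb
      obtain ⟨x, hx, rfl⟩ := Finset.mem_image.mp hb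
      have hx1 := hn1 x hx
      by_cases e1 : n x = 1
      · exact Finset.mem_union_left _ (Finset.mem_union_left _
          (Finset.mem_image_of_mem c (Finset.mem_filter.mpr ⟨hx, e1⟩)))
      · by_cases e2 : n x = 2
        · exact Finset.mem_union_left _ (Finset.mem_union_right _
            (Finset.mem_image_of_mem c (Finset.mem_filter.mpr ⟨hx, e2⟩)))
        · exact Finset.mem_union_right _
            (Finset.mem_image_of_mem c (Finset.mem_filter.mpr ⟨hx, by omega⟩))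
    exact (Finset.card_le_card hsub).trans
      ((Finset.card_union_le _ _).trans (Nat.add_le_add_right (Finset.card_union_le _ _) _))
  omega

/-- abstract counting: three injective maps translating the isolated points into disjoint
families of points with fibres of size at least three force at most `|X|/2` values -/
theorem gen_count {X Y : Type*} [Finite X] (c : X → Y) (A : Set X)
    (hA : ∀ x, (∀ z, c z = c x → z = x) → x ∈ A)
    (f₁ f₂ f₃ : X → X) (i₁ : Function.Injective f₁) (i₂ : Function.Injective f₂)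
    (i₃ : Function.Injective f₃)
    (hc2 : ∀ a ∈ A, c (f₂ a) = c (f₁ a)) (hc3 : ∀ a ∈ A, c (f₃ a) = c (f₁ a))
    (d12 : ∀ a ∈ A, ∀ b ∈ A, f₁ a ≠ f₂ b) (d13 : ∀ a ∈ A, ∀ b ∈ A, f₁ a ≠ f₃ b)
    (d23 : ∀ a ∈ A, ∀ b ∈ A, f₂ a ≠ f₃ b) :
    2 * Nat.card (Set.range c) ≤ Nat.card X := by
  classical
  have : Fintype X := Fintype.ofFinite X
  have hr : Nat.card (Set.range c) = (Finset.univ.image c).card := by
    rw [Nat.card_coe_set_eq, ← Set.image_univ, ← Finset.coe_univ, ← Finset.coe_image,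
      Set.ncard_coe_finset]
  rw [hr, Nat.card_eq_fintype_card, ← Finset.card_univ]
  obtain ⟨n, hn⟩ : ∃ n : X → ℕ,
      ∀ x, n x = ((Finset.univ : Finset X).filter (fun z => c z = c x)).card := ⟨_, fun _ => rfl⟩
  have hcnt := six_mul_card_image_le (Finset.univ : Finset X) c n (fun x _ => hn x)
  have hs1A : ∀ a ∈ (Finset.univ : Finset X).filter (fun x => n x = 1), a ∈ A := by
    intro a ha
    have h1 : n a = 1 := (Finset.mem_filter.mp ha).2
    rw [hn a, Finset.card_eq_one] at h1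
    obtain ⟨w, hw⟩ := h1
    apply hA
    intro z hz
    have hz' : z ∈ (Finset.univ : Finset X).filter (fun z => c z = c a) :=
      Finset.mem_filter.mpr ⟨Finset.mem_univ _, hz⟩
    have ha' : a ∈ (Finset.univ : Finset X).filter (fun z => c z = c a) :=
      Finset.mem_filter.mpr ⟨Finset.mem_univ _, rfl⟩
    rw [hw, Finset.mem_singleton] at hz' ha'
    rw [hz', ha']
  have h3 : ∀ a ∈ A, 3 ≤ n (f₁ a) ∧ 3 ≤ n (f₂ a) ∧ 3 ≤ n (f₃ a) := by
    intro a ha
    have e2 := hc2 a ha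
    have e3 := hc3 a ha
    have key : 2 < ((Finset.univ : Finset X).filter (fun z => c z = c (f₁ a))).card := by
      rw [Finset.two_lt_card]
      exact ⟨f₁ a, Finset.mem_filter.mpr ⟨Finset.mem_univ _, rfl⟩,
        f₂ a, Finset.mem_filter.mpr ⟨Finset.mem_univ _, e2⟩,
        f₃ a, Finset.mem_filter.mpr ⟨Finset.mem_univ _, e3⟩,
        d12 a ha a ha, d13 a ha a ha, d23 a ha a ha⟩
    refine ⟨?_, ?_, ?_⟩
    · rw [hn]; exact key
    · rw [hn, e2]; exact key
    · rw [hn, e3]; exact key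
  have hsub : ((((Finset.univ : Finset X).filter (fun x => n x = 1)).image f₁ ∪
      ((Finset.univ : Finset X).filter (fun x => n x = 1)).image f₂) ∪
      ((Finset.univ : Finset X).filter (fun x => n x = 1)).image f₃) ⊆
      (Finset.univ : Finset X).filter (fun x => 3 ≤ n x) := by
    intro y hy
    rw [Finset.mem_union, Finset.mem_union] at hy
    rcases hy with (hy | hy) | hy
    · obtain ⟨a, ha, rfl⟩ := Finset.mem_image.mp hy
      exact Finset.mem_filter.mpr ⟨Finset.mem_univ _, (h3 a (hs1A a ha)).1⟩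
    · obtain ⟨a, ha, rfl⟩ := Finset.mem_image.mp hy
      exact Finset.mem_filter.mpr ⟨Finset.mem_univ _, (h3 a (hs1A a ha)).2.1⟩
    · obtain ⟨a, ha, rfl⟩ := Finset.mem_image.mp hy
      exact Finset.mem_filter.mpr ⟨Finset.mem_univ _, (h3 a (hs1A a ha)).2.2⟩
  have hd12 : Disjoint (((Finset.univ : Finset X).filter (fun x => n x = 1)).image f₁)
      (((Finset.univ : Finset X).filter (fun x => n x = 1)).image f₂) := by
    rw [Finset.disjoint_left]
    intro y hy1 hy2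
    obtain ⟨a, ha, rfl⟩ := Finset.mem_image.mp hy1
    obtain ⟨b, hb, hab⟩ := Finset.mem_image.mp hy2
    exact d12 a (hs1A a ha) b (hs1A b hb) hab.symm
  have hd3 : Disjoint (((Finset.univ : Finset X).filter (fun x => n x = 1)).image f₁ ∪
      ((Finset.univ : Finset X).filter (fun x => n x = 1)).image f₂)
      (((Finset.univ : Finset X).filter (fun x => n x = 1)).image f₃) := by
    rw [Finset.disjoint_left]
    intro y hy1 hy3
    obtain ⟨b, hb, hab⟩ := Finset.mem_image.mp hy3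
    rcases Finset.mem_union.mp hy1 with hy | hy
    · obtain ⟨a, ha, rfl⟩ := Finset.mem_image.mp hy
      exact d13 a (hs1A a ha) b (hs1A b hb) hab.symm
    · obtain ⟨a, ha, rfl⟩ := Finset.mem_image.mp hy
      exact d23 a (hs1A a ha) b (hs1A b hb) hab.symm
  have hcard : 3 * ((Finset.univ : Finset X).filter (fun x => n x = 1)).card ≤
      ((Finset.univ : Finset X).filter (fun x => 3 ≤ n x)).card := by
    have e := Finset.card_le_card hsub
    rw [Finset.card_union_of_disjoint hd3, Finset.card_union_of_disjoint hd12,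
      Finset.card_image_of_injective _ i₁, Finset.card_image_of_injective _ i₂,
      Finset.card_image_of_injective _ i₃] at e
    omega
  omega

/-- `a` is isolated in `P`: its only `G`-conjugate inside `P` is itself. -/
def IsoIn {G : Type*} [Group G] (P : Subgroup G) (a : G) : Prop :=
  a ∈ P ∧ ∀ g : G, g * a * g⁻¹ ∈ P → g * a * g⁻¹ = a

theorem isoIn_inv {G : Type*} [Group G] (P : Subgroup G) {a : G} (ha : IsoIn P a) :
    IsoIn P a⁻¹ := by
  refine ⟨inv_mem ha.1, fun g hg => ?_⟩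
  have h1 : g * a * g⁻¹ ∈ P := by
    have h2 : (g * a⁻¹ * g⁻¹)⁻¹ = g * a * g⁻¹ := by group
    rw [← h2]
    exact inv_mem hg
  have h3 := ha.2 g h1
  calc g * a⁻¹ * g⁻¹ = (g * a * g⁻¹)⁻¹ := by group
    _ = a⁻¹ := by rw [h3]

/-- the centralizer of an isolated element controls fusion in the Sylow subgroup -/
theorem wc {G : Type*} [Group G] [Finite G] (P : Sylow 2 G) {a : G}
    (ha : IsoIn (P : Subgroup G) a) (x g : G) (hx : x ∈ (P : Subgroup G))
    (hy : g * x * g⁻¹ ∈ (P : Subgroup G)) :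
    ∃ β : G, β * a * β⁻¹ = a ∧ β * x * β⁻¹ = g * x * g⁻¹ := by
  obtain ⟨haP, hiso⟩ := ha
  have hcomm : ∀ u ∈ (P : Subgroup G), u * a = a * u := by
    intro u hu
    have h1 : u * a * u⁻¹ ∈ (P : Subgroup G) := mul_mem (mul_mem hu haP) (inv_mem hu)
    have h2 := hiso u h1
    calc u * a = u * a * u⁻¹ * u := by group
      _ = a * u := by rw [h2]
  have hxa := hcomm x hx
  have hya := hcomm _ hy
  have hya2 : g * x * g⁻¹ * (g * a * g⁻¹) = g * a * g⁻¹ * (g * x * g⁻¹) := by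
    calc g * x * g⁻¹ * (g * a * g⁻¹) = g * (x * a) * g⁻¹ := by group
      _ = g * (a * x) * g⁻¹ := by rw [hxa]
      _ = g * a * g⁻¹ * (g * x * g⁻¹) := by group
  have haC : a ∈ Subgroup.centralizer ({g * x * g⁻¹} : Set G) := by
    rw [Subgroup.mem_centralizer_iff]
    intro z hz
    rw [Set.mem_singleton_iff] at hz
    rw [hz]
    exact hya
  have ha2C : g * a * g⁻¹ ∈ Subgroup.centralizer ({g * x * g⁻¹} : Set G) := by
    rw [Subgroup.mem_centralizer_iff]
    intro z hz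
    rw [Set.mem_singleton_iff] at hz
    rw [hz]
    exact hya2
  obtain ⟨k, hk⟩ := IsPGroup.iff_orderOf.mp P.2 ⟨a, haP⟩
  have hoa : orderOf a = 2 ^ k := (Subgroup.orderOf_mk a haP).symm.trans hk
  have hoa2 : orderOf (g * a * g⁻¹) = 2 ^ k := by
    rw [← hoa]
    exact (MulAut.conj g).orderOf_eq a
  have hp1 : IsPGroup 2 (Subgroup.zpowers
      (⟨a, haC⟩ : Subgroup.centralizer ({g * x * g⁻¹} : Set G))) :=
    IsPGroup.of_card (n := k) (by rw [Nat.card_zpowers, Subgroup.orderOf_mk, hoa])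
  have hp2 : IsPGroup 2 (Subgroup.zpowers
      (⟨g * a * g⁻¹, ha2C⟩ : Subgroup.centralizer ({g * x * g⁻¹} : Set G))) :=
    IsPGroup.of_card (n := k) (by rw [Nat.card_zpowers, Subgroup.orderOf_mk, hoa2])
  obtain ⟨T1, hT1⟩ := hp1.exists_le_sylow
  obtain ⟨T2, hT2⟩ := hp2.exists_le_sylow
  obtain ⟨cc, hcc⟩ :=
    MulAction.exists_smul_eq (Subgroup.centralizer ({g * x * g⁻¹} : Set G)) T2 T1
  have hm1 : (⟨a, haC⟩ : Subgroup.centralizer ({g * x * g⁻¹} : Set G)) ∈
      (T1 : Subgroup (Subgroup.centralizer ({g * x * g⁻¹} : Set G))) :=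
    hT1 (Subgroup.mem_zpowers _)
  have hm2 : cc * (⟨g * a * g⁻¹, ha2C⟩ : Subgroup.centralizer ({g * x * g⁻¹} : Set G)) * cc⁻¹ ∈
      (T1 : Subgroup (Subgroup.centralizer ({g * x * g⁻¹} : Set G))) := by
    have h1 : cc * (⟨g * a * g⁻¹, ha2C⟩ : Subgroup.centralizer ({g * x * g⁻¹} : Set G)) * cc⁻¹ ∈
        ((cc • T2 : Sylow 2 (Subgroup.centralizer ({g * x * g⁻¹} : Set G))) :
          Subgroup (Subgroup.centralizer ({g * x * g⁻¹} : Set G))) :=
      ⟨_, hT2 (Subgroup.mem_zpowers _), rfl⟩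
    rwa [hcc] at h1
  obtain ⟨P2, hP2⟩ :=
    (T1.2.map (Subgroup.centralizer ({g * x * g⁻¹} : Set G)).subtype).exists_le_sylow
  obtain ⟨h, hh⟩ := MulAction.exists_smul_eq G P P2
  have hmemA : a ∈ ((h • P : Sylow 2 G) : Subgroup G) := by
    rw [hh]
    exact hP2 ⟨⟨a, haC⟩, hm1, rfl⟩
  have hmemB : (cc : G) * (g * a * g⁻¹) * (cc : G)⁻¹ ∈ ((h • P : Sylow 2 G) : Subgroup G) := by
    rw [hh]
    exact hP2 ⟨_, hm2, rfl⟩
  obtain ⟨p₁, hp₁, hp₁e⟩ := hmemA
  have hp₁e' : h * p₁ * h⁻¹ = a := hp₁e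
  obtain ⟨p₂, hp₂, hp₂e⟩ := hmemB
  have hp₂e' : h * p₂ * h⁻¹ = (cc : G) * (g * a * g⁻¹) * (cc : G)⁻¹ := hp₂e
  have e1 : h⁻¹ * a * h⁻¹⁻¹ = a := by
    apply hiso
    have h4 : h⁻¹ * a * h⁻¹⁻¹ = p₁ := by rw [← hp₁e']; group
    rw [h4]
    exact hp₁
  have e2 : (h⁻¹ * cc * g) * a * (h⁻¹ * cc * g)⁻¹ = a := by
    apply hiso
    have hp2' : p₂ = h⁻¹ * ((cc : G) * (g * a * g⁻¹) * (cc : G)⁻¹) * h := by
      rw [← hp₂e']; group
    have h5 : (h⁻¹ * cc * g) * a * (h⁻¹ * cc * g)⁻¹ = p₂ := by rw [hp2']; group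
    rw [h5]
    exact hp₂
  have e3 : h * a * h⁻¹ = a := by
    calc h * a * h⁻¹ = h * (h⁻¹ * a * h⁻¹⁻¹) * h⁻¹ := by rw [e1]
      _ = a := by group
  refine ⟨cc * g, ?_, ?_⟩
  · calc (cc : G) * g * a * ((cc : G) * g)⁻¹
        = h * ((h⁻¹ * cc * g) * a * (h⁻¹ * cc * g)⁻¹) * h⁻¹ := by group
      _ = h * a * h⁻¹ := by rw [e2]
      _ = a := e3
  · have hccy : (g * x * g⁻¹) * (cc : G) = (cc : G) * (g * x * g⁻¹) :=
      (Subgroup.mem_centralizer_iff.mp cc.2) _ (Set.mem_singleton _)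
    calc (cc : G) * g * x * ((cc : G) * g)⁻¹ = (cc : G) * (g * x * g⁻¹) * (cc : G)⁻¹ := by group
      _ = (g * x * g⁻¹) * (cc : G) * (cc : G)⁻¹ := by rw [hccy]
      _ = g * x * g⁻¹ := by group

theorem isoIn_mul {G : Type*} [Group G] [Finite G] (P : Sylow 2 G) {a b : G}
    (ha : IsoIn (P : Subgroup G) a) (hb : IsoIn (P : Subgroup G) b) :
    IsoIn (P : Subgroup G) (a * b) := by
  refine ⟨mul_mem ha.1 hb.1, fun g hg => ?_⟩
  obtain ⟨β, hβ1, hβ2⟩ := wc P (isoIn_inv _ ha) (a * b) g (mul_mem ha.1 hb.1) hg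
  have h1 : β * b * β⁻¹ = a⁻¹ * (g * (a * b) * g⁻¹) := by
    calc β * b * β⁻¹ = (β * a⁻¹ * β⁻¹) * (β * (a * b) * β⁻¹) := by group
      _ = a⁻¹ * (g * (a * b) * g⁻¹) := by rw [hβ1, hβ2]
  have h2 : β * b * β⁻¹ ∈ (P : Subgroup G) := by
    rw [h1]
    exact mul_mem (inv_mem ha.1) hg
  have h3 := hb.2 β h2
  rw [h1] at h3
  calc g * (a * b) * g⁻¹ = a * (a⁻¹ * (g * (a * b) * g⁻¹)) := by group
    _ = a * b := by rw [h3]

/-- three fused elements of `P` whose quotients are not isolated leave at most `|P|/2`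
fusion classes -/
theorem key_count {G : Type*} [Group G] [Finite G] (P : Sylow 2 G)
    (q₁ q₂ q₃ : G) (h1 : q₁ ∈ (P : Subgroup G)) (h2 : q₂ ∈ (P : Subgroup G))
    (h3 : q₃ ∈ (P : Subgroup G))
    (g₂ g₃ : G) (hg₂ : g₂ * q₁ * g₂⁻¹ = q₂) (hg₃ : g₃ * q₁ * g₃⁻¹ = q₃)
    (n12 : ¬ IsoIn (P : Subgroup G) (q₁⁻¹ * q₂)) (n13 : ¬ IsoIn (P : Subgroup G) (q₁⁻¹ * q₃))
    (n23 : ¬ IsoIn (P : Subgroup G) (q₂⁻¹ * q₃)) :
    2 * Nat.card (Set.range (fun x : ↥(P : Subgroup G) => ConjClasses.mk (x : G))) ≤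
      Nat.card ↥(P : Subgroup G) := by
  have hfuse : ∀ (q q' γ : G), q ∈ (P : Subgroup G) → γ * q * γ⁻¹ = q' → q' ∈ (P : Subgroup G) →
      ∀ a : G, IsoIn (P : Subgroup G) a → ConjClasses.mk (q' * a) = ConjClasses.mk (q * a) := by
    intro q q' γ hq hγ hq' a ha
    obtain ⟨β, hβ1, hβ2⟩ := wc P ha q γ hq (by rw [hγ]; exact hq')
    rw [ConjClasses.mk_eq_mk_iff_isConj, isConj_comm, isConj_iff]
    refine ⟨β, ?_⟩
    calc β * (q * a) * β⁻¹ = (β * q * β⁻¹) * (β * a * β⁻¹) := by group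
      _ = q' * a := by rw [hβ2, hβ1, hγ]
  have hdisj : ∀ (q q' : G), ¬ IsoIn (P : Subgroup G) (q⁻¹ * q') →
      ∀ a b : G, IsoIn (P : Subgroup G) a → IsoIn (P : Subgroup G) b → q * a ≠ q' * b := by
    intro q q' hn a b ha hb hab
    apply hn
    have e : q⁻¹ * q' = a * b⁻¹ := by
      calc q⁻¹ * q' = q⁻¹ * (q' * b) * b⁻¹ := by group
        _ = q⁻¹ * (q * a) * b⁻¹ := by rw [hab]
        _ = a * b⁻¹ := by group
    rw [e]
    exact isoIn_mul P ha (isoIn_inv _ hb)
  refine gen_count (fun x : ↥(P : Subgroup G) => ConjClasses.mk (x : G))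
    {a : ↥(P : Subgroup G) | IsoIn (P : Subgroup G) (a : G)}
    ?_ (fun a => ⟨q₁, h1⟩ * a) (fun a => ⟨q₂, h2⟩ * a) (fun a => ⟨q₃, h3⟩ * a)
    (mul_right_injective _) (mul_right_injective _) (mul_right_injective _) ?_ ?_ ?_ ?_ ?_
  · intro x hx
    show IsoIn (P : Subgroup G) (x : G)
    refine ⟨x.2, fun g hg => ?_⟩
    have h4 : (⟨g * (x : G) * g⁻¹, hg⟩ : ↥(P : Subgroup G)) = x := by
      apply hx
      show ConjClasses.mk (g * (x : G) * g⁻¹) = ConjClasses.mk (x : G)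
      rw [ConjClasses.mk_eq_mk_iff_isConj, isConj_comm, isConj_iff]
      exact ⟨g, rfl⟩
    exact congrArg (fun z : ↥(P : Subgroup G) => (z : G)) h4
  · intro a ha
    have ha' : IsoIn (P : Subgroup G) (a : G) := ha
    show ConjClasses.mk (q₂ * (a : G)) = ConjClasses.mk (q₁ * (a : G))
    exact hfuse q₁ q₂ g₂ h1 hg₂ h2 a ha'
  · intro a ha
    have ha' : IsoIn (P : Subgroup G) (a : G) := ha
    show ConjClasses.mk (q₃ * (a : G)) = ConjClasses.mk (q₁ * (a : G))
    exact hfuse q₁ q₃ g₃ h1 hg₃ h3 a ha'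
  · intro a ha b hb hab
    have ha' : IsoIn (P : Subgroup G) (a : G) := ha
    have hb' : IsoIn (P : Subgroup G) (b : G) := hb
    have h5 : q₁ * (a : G) = q₂ * (b : G) := congrArg (fun z : ↥(P : Subgroup G) => (z : G)) hab
    exact hdisj q₁ q₂ n12 a b ha' hb' h5
  · intro a ha b hb hab
    have ha' : IsoIn (P : Subgroup G) (a : G) := ha
    have hb' : IsoIn (P : Subgroup G) (b : G) := hb
    have h5 : q₁ * (a : G) = q₃ * (b : G) := congrArg (fun z : ↥(P : Subgroup G) => (z : G)) hab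
    exact hdisj q₁ q₃ n13 a b ha' hb' h5
  · intro a ha b hb hab
    have ha' : IsoIn (P : Subgroup G) (a : G) := ha
    have hb' : IsoIn (P : Subgroup G) (b : G) := hb
    have h5 : q₂ * (a : G) = q₃ * (b : G) := congrArg (fun z : ↥(P : Subgroup G) => (z : G)) hab
    exact hdisj q₂ q₃ n23 a b ha' hb' h5

theorem odd_aux {G : Type*} [Group G] (α e q : G) (hodd : (orderOf α).Coprime 2)
    (k : ℕ) (he : orderOf e = 2 ^ k) (hfix : α * e * α⁻¹ = e) (hq : α * q * α⁻¹ = q * e) :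
    e = 1 := by
  have hce : ∀ j : ℕ, α * e ^ j * α⁻¹ = e ^ j := by
    intro j
    have h0 : α * e ^ j * α⁻¹ = (α * e * α⁻¹) ^ j := conj_pow.symm
    rw [h0, hfix]
  have key : ∀ j : ℕ, α ^ j * q * (α ^ j)⁻¹ = q * e ^ j := by
    intro j
    induction j with
    | zero => simp
    | succ j ih =>
      calc α ^ (j + 1) * q * (α ^ (j + 1))⁻¹ = α * (α ^ j * q * (α ^ j)⁻¹) * α⁻¹ := by
            rw [pow_succ']; group
        _ = α * (q * e ^ j) * α⁻¹ := by rw [ih]
        _ = (α * q * α⁻¹) * (α * e ^ j * α⁻¹) := by group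
        _ = q * e * e ^ j := by rw [hq, hce]
        _ = q * e ^ (j + 1) := by rw [pow_succ', mul_assoc]
  have h1 := key (orderOf α)
  rw [pow_orderOf_eq_one] at h1
  have h2 : e ^ orderOf α = 1 := by
    have h6 : q * 1 = q * e ^ orderOf α := by
      rw [← h1]; group
    exact (mul_left_cancel h6).symm
  have h3 : orderOf e ∣ orderOf α := orderOf_dvd_of_pow_eq_one h2
  rw [he] at h3
  have h4 : (2 ^ k).Coprime (orderOf α) := Nat.Coprime.pow_left k hodd.symm
  have h5 : 2 ^ k = 1 := Nat.Coprime.eq_one_of_dvd h4 h3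
  rw [h5] at he
  exact orderOf_eq_one_iff.mp he

theorem odd_aux2 {G : Type*} [Group G] (α q : G) (hodd : (orderOf α).Coprime 2)
    (h : α * (α * q * α⁻¹) * α⁻¹ = q) : α * q * α⁻¹ = q := by
  have h2 : ¬ 2 ∣ orderOf α := (Nat.Prime.coprime_iff_not_dvd Nat.prime_two).mp hodd.symm
  obtain ⟨m, hm⟩ : ∃ m, orderOf α + 1 = 2 * m := ⟨(orderOf α + 1) / 2, by omega⟩
  have hc : Commute (α * α) q := by
    show α * α * q = q * (α * α)
    calc α * α * q = α * (α * q * α⁻¹) * α⁻¹ * (α * α) := by group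
      _ = q * (α * α) := by rw [h]
  have hα : (α * α) ^ m = α := by
    rw [← pow_two, ← pow_mul, ← hm, pow_succ, pow_orderOf_eq_one, one_mul]
  have hc2 : Commute α q := by
    have h7 := hc.pow_left m
    rwa [hα] at h7
  calc α * q * α⁻¹ = q * α * α⁻¹ := by rw [hc2.eq]
    _ = q := by group

/-- Frobenius' condition from many classes of `2`-elements -/
theorem frob_cond {G : Type*} [Group G] [Finite G] (P : Sylow 2 G)
    (hk : Nat.card ↥(P : Subgroup G) <
      2 * Nat.card (Set.range (fun x : ↥(P : Subgroup G) => ConjClasses.mk (x : G))))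
    (Q : Subgroup G) (hQ : Q ≤ (P : Subgroup G)) (α : G)
    (hα : α ∈ Subgroup.normalizer (Q : Set G))
    (hodd : (orderOf α).Coprime 2) : α ∈ Subgroup.centralizer (Q : Set G) := by
  by_contra hnot
  obtain ⟨q₁, hq₁, hne⟩ : ∃ q ∈ Q, q * α ≠ α * q := by
    by_contra hcon
    apply hnot
    rw [Subgroup.mem_centralizer_iff]
    intro z hz
    by_contra hzne
    exact hcon ⟨z, hz, hzne⟩
  have hconj : ∀ x : G, x ∈ Q → α * x * α⁻¹ ∈ Q := fun x hx =>
    (Subgroup.mem_normalizer_iff.mp hα x).mp hx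
  have hne' : α * q₁ * α⁻¹ ≠ q₁ := by
    intro h
    apply hne
    calc q₁ * α = α * q₁ * α⁻¹ * α := by rw [h]
      _ = α * q₁ := by group
  have hq₂ := hconj q₁ hq₁
  have hq₃ := hconj _ hq₂
  have h2pow : ∀ e ∈ (P : Subgroup G), ∃ k : ℕ, orderOf e = 2 ^ k := by
    intro e he
    obtain ⟨k, hk⟩ := IsPGroup.iff_orderOf.mp P.2 ⟨e, he⟩
    exact ⟨k, (Subgroup.orderOf_mk e he).symm.trans hk⟩
  have hfixQ : ∀ e ∈ Q, IsoIn (P : Subgroup G) e → α * e * α⁻¹ = e := fun e he hiso =>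
    hiso.2 α (hQ (hconj e he))
  have hodd2 : (orderOf (α * α)).Coprime 2 := by
    rw [← pow_two]
    exact Nat.Coprime.coprime_dvd_left (orderOf_pow_dvd 2) hodd
  have n12 : ¬ IsoIn (P : Subgroup G) (q₁⁻¹ * (α * q₁ * α⁻¹)) := by
    intro hiso
    obtain ⟨k, hk⟩ := h2pow _ hiso.1
    have hfix := hfixQ _ (mul_mem (inv_mem hq₁) hq₂) hiso
    have h8 := odd_aux α (q₁⁻¹ * (α * q₁ * α⁻¹)) q₁ hodd k hk hfix (by group)
    apply hne'
    calc α * q₁ * α⁻¹ = q₁ * (q₁⁻¹ * (α * q₁ * α⁻¹)) := by group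
      _ = q₁ := by rw [h8, mul_one]
  have n13 : ¬ IsoIn (P : Subgroup G) (q₁⁻¹ * (α * (α * q₁ * α⁻¹) * α⁻¹)) := by
    intro hiso
    obtain ⟨k, hk⟩ := h2pow _ hiso.1
    have hfix := hfixQ _ (mul_mem (inv_mem hq₁) hq₃) hiso
    have hfix2 : α * α * (q₁⁻¹ * (α * (α * q₁ * α⁻¹) * α⁻¹)) * (α * α)⁻¹ =
        q₁⁻¹ * (α * (α * q₁ * α⁻¹) * α⁻¹) := by
      calc α * α * (q₁⁻¹ * (α * (α * q₁ * α⁻¹) * α⁻¹)) * (α * α)⁻¹
          = α * (α * (q₁⁻¹ * (α * (α * q₁ * α⁻¹) * α⁻¹)) * α⁻¹) * α⁻¹ := by group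
        _ = q₁⁻¹ * (α * (α * q₁ * α⁻¹) * α⁻¹) := by rw [hfix, hfix]
    have h8 := odd_aux (α * α) (q₁⁻¹ * (α * (α * q₁ * α⁻¹) * α⁻¹)) q₁ hodd2 k hk hfix2
      (by group)
    apply hne'
    apply odd_aux2 α q₁ hodd
    calc α * (α * q₁ * α⁻¹) * α⁻¹ = q₁ * (q₁⁻¹ * (α * (α * q₁ * α⁻¹) * α⁻¹)) := by group
      _ = q₁ := by rw [h8, mul_one]
  have n23 : ¬ IsoIn (P : Subgroup G) ((α * q₁ * α⁻¹)⁻¹ * (α * (α * q₁ * α⁻¹) * α⁻¹)) := by
    intro hiso
    obtain ⟨k, hk⟩ := h2pow _ hiso.1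
    have hfix := hfixQ _ (mul_mem (inv_mem hq₂) hq₃) hiso
    have h8 := odd_aux α ((α * q₁ * α⁻¹)⁻¹ * (α * (α * q₁ * α⁻¹) * α⁻¹)) (α * q₁ * α⁻¹) hodd k hk
      hfix (by group)
    apply hne'
    have h5 : α * (α * q₁ * α⁻¹) * α⁻¹ = α * q₁ * α⁻¹ := by
      calc α * (α * q₁ * α⁻¹) * α⁻¹
          = (α * q₁ * α⁻¹) * ((α * q₁ * α⁻¹)⁻¹ * (α * (α * q₁ * α⁻¹) * α⁻¹)) := by group
        _ = α * q₁ * α⁻¹ := by rw [h8, mul_one]
    calc α * q₁ * α⁻¹ = α⁻¹ * (α * (α * q₁ * α⁻¹) * α⁻¹) * α := by group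
      _ = α⁻¹ * (α * q₁ * α⁻¹) * α := by rw [h5]
      _ = q₁ := by group
  have hcount := key_count P q₁ (α * q₁ * α⁻¹) (α * (α * q₁ * α⁻¹) * α⁻¹) (hQ hq₁) (hQ hq₂)
    (hQ hq₃) α (α * α) rfl (by group) n12 n13 n23
  omega

/-- Let G be a finite group with Sylow 2-subgroup P, and write k₂(G) for the number of conjugacy classes of G consisting of 2-elements (elements of 2-power order, the identity included). Then k₂(G) > |P|/2 if and only if G has a normal 2-complement and P has more than |P|/2 conjugacy classes. -/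
theorem result {G : Type*} [Group G] [Finite G] (P : Sylow 2 G) :
    Nat.card ↥(P : Subgroup G) < 2 * Nat.card {c : ConjClasses G // ∀ x ∈ c.carrier, ∃ k : ℕ, orderOf x = 2 ^ k} ↔
      Cfsg.HasNormalPComplement 2 G ∧ Nat.card ↥(P : Subgroup G) < 2 * Nat.card (ConjClasses ↥(P : Subgroup G)) := by
  have hcls : ∀ x : ↥(P : Subgroup G), ∀ y ∈ (ConjClasses.mk (x : G)).carrier,
      ∃ k : ℕ, orderOf y = 2 ^ k := by
    intro x y hy
    have h1 : ConjClasses.mk y = ConjClasses.mk (x : G) :=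
      ConjClasses.mem_carrier_iff_mk_eq.mp hy
    rw [ConjClasses.mk_eq_mk_iff_isConj, isConj_iff] at h1
    obtain ⟨c, hc⟩ := h1
    obtain ⟨k, hk⟩ := IsPGroup.iff_orderOf.mp P.2 x
    refine ⟨k, ?_⟩
    rw [← hk, ← Subgroup.orderOf_coe, ← hc]
    exact ((MulAut.conj c).orderOf_eq y).symm
  have hsurj : ∀ t : {c : ConjClasses G // ∀ x ∈ c.carrier, ∃ k : ℕ, orderOf x = 2 ^ k},
      ∃ x : ↥(P : Subgroup G), ConjClasses.mk (x : G) = t.1 := by
    intro t
    obtain ⟨g, hg⟩ := ConjClasses.exists_rep t.1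
    have hgc : g ∈ t.1.carrier := ConjClasses.mem_carrier_iff_mk_eq.mpr hg
    obtain ⟨k, hk⟩ := t.2 g hgc
    have hpg : IsPGroup 2 (Subgroup.zpowers g) :=
      IsPGroup.of_card (n := k) (by rw [Nat.card_zpowers, hk])
    obtain ⟨Q, hQ⟩ := hpg.exists_le_sylow
    obtain ⟨h, hh⟩ := MulAction.exists_smul_eq G Q P
    have hmem : h * g * h⁻¹ ∈ ((h • Q : Sylow 2 G) : Subgroup G) :=
      ⟨g, hQ (Subgroup.mem_zpowers g), rfl⟩
    rw [hh] at hmem
    refine ⟨⟨h * g * h⁻¹, hmem⟩, ?_⟩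
    show ConjClasses.mk (h * g * h⁻¹) = t.1
    rw [← hg, ConjClasses.mk_eq_mk_iff_isConj, isConj_comm, isConj_iff]
    exact ⟨h, rfl⟩
  have hK1 : Nat.card {c : ConjClasses G // ∀ x ∈ c.carrier, ∃ k : ℕ, orderOf x = 2 ^ k} ≤
      Nat.card (Set.range (fun x : ↥(P : Subgroup G) => ConjClasses.mk (x : G))) :=
    Nat.card_le_card_of_injective
      (fun t => (⟨t.1, by obtain ⟨x, hx⟩ := hsurj t; exact ⟨x, hx⟩⟩ :
        Set.range (fun x : ↥(P : Subgroup G) => ConjClasses.mk (x : G))))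
      (fun t1 t2 h12 => by
        have h3 : (t1 : ConjClasses G) = (t2 : ConjClasses G) :=
          congrArg (fun z : Set.range (fun x : ↥(P : Subgroup G) => ConjClasses.mk (x : G)) =>
            (z : ConjClasses G)) h12
        exact Subtype.ext h3)
  have hK2 : Nat.card (Set.range (fun x : ↥(P : Subgroup G) => ConjClasses.mk (x : G))) ≤
      Nat.card (ConjClasses ↥(P : Subgroup G)) := by
    have hsub : Set.range (fun x : ↥(P : Subgroup G) => ConjClasses.mk (x : G)) ⊆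
        Set.range (ConjClasses.map (P : Subgroup G).subtype) := by
      rintro _ ⟨x, rfl⟩
      exact ⟨ConjClasses.mk x, rfl⟩
    exact (Nat.card_mono (Set.toFinite _) hsub).trans (Finite.card_range_le _)
  constructor
  · intro h
    have hk : Nat.card ↥(P : Subgroup G) <
        2 * Nat.card (Set.range (fun x : ↥(P : Subgroup G) => ConjClasses.mk (x : G))) := by
      omega
    refine ⟨?_, by omega⟩
    obtain ⟨N, hN, hc⟩ := (Cfsg.Agent.S0071.result P).mpr
      (fun Q hQ g hg hcop => frob_cond P hk Q hQ g hg hcop)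
    exact ⟨P, N, hN, hc⟩
  · rintro ⟨⟨P', N, hN, hcompl⟩, hkP⟩
    have hinj : Nat.card (ConjClasses ↥(P : Subgroup G)) ≤
        Nat.card {c : ConjClasses G // ∀ x ∈ c.carrier, ∃ k : ℕ, orderOf x = 2 ^ k} := by
      have hcomplP : N.IsComplement' (P : Subgroup G) := by
        have hcard : Nat.card ↥(P : Subgroup G) = Nat.card ↥(P' : Subgroup G) :=
          P.card_eq_multiplicity.trans P'.card_eq_multiplicity.symm
        have hmul : Nat.card ↥N * Nat.card ↥(P : Subgroup G) = Nat.card G := by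
          rw [hcard]
          exact hcompl.card_mul_card
        apply Subgroup.isComplement'_of_coprime hmul
        rw [P.card_eq_multiplicity]
        apply Nat.Coprime.pow_right
        rw [Nat.coprime_comm, Nat.Prime.coprime_iff_not_dvd Nat.prime_two]
        intro h2
        have hG : Nat.card G ≠ 0 := Nat.card_pos.ne'
        obtain ⟨d, hd⟩ := h2
        have h3 : 2 ^ ((Nat.card G).factorization 2 + 1) ∣
            Nat.card ↥N * Nat.card ↥(P : Subgroup G) :=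
          ⟨d, by rw [hd, P.card_eq_multiplicity]; ring⟩
        rw [hmul] at h3
        exact Nat.pow_succ_factorization_not_dvd hG Nat.prime_two h3
      apply Nat.card_le_card_of_injective
        (fun c : ConjClasses ↥(P : Subgroup G) =>
          (⟨ConjClasses.map (P : Subgroup G).subtype c, by
            obtain ⟨x, rfl⟩ := ConjClasses.mk_surjective c
            exact hcls x⟩ :
            {c : ConjClasses G // ∀ x ∈ c.carrier, ∃ k : ℕ, orderOf x = 2 ^ k}))
      intro c₁ c₂ h12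
      obtain ⟨x, rfl⟩ := ConjClasses.mk_surjective c₁
      obtain ⟨y, rfl⟩ := ConjClasses.mk_surjective c₂
      have h1 : ConjClasses.mk (x : G) = ConjClasses.mk (y : G) :=
        congrArg (fun z : {c : ConjClasses G // ∀ x ∈ c.carrier, ∃ k : ℕ, orderOf x = 2 ^ k} =>
          (z : ConjClasses G)) h12
      rw [ConjClasses.mk_eq_mk_iff_isConj, isConj_iff] at h1
      obtain ⟨c, hc⟩ := h1
      obtain ⟨⟨n, u⟩, hnu⟩ := hcomplP.2 c
      have hnu' : (n : G) * (u : G) = c := hnu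
      have hy : (y : G) = (n : G) * ((u : G) * (x : G) * (u : G)⁻¹) * (n : G)⁻¹ := by
        rw [← hc, ← hnu']; group
      have hx'P : (u : G) * (x : G) * (u : G)⁻¹ ∈ (P : Subgroup G) :=
        mul_mem (mul_mem u.2 x.2) (inv_mem u.2)
      have hmemN : (y : G) * ((u : G) * (x : G) * (u : G)⁻¹)⁻¹ ∈ N := by
        rw [hy]
        have h2 : ((u : G) * (x : G) * (u : G)⁻¹) * (n : G)⁻¹ *
            ((u : G) * (x : G) * (u : G)⁻¹)⁻¹ ∈ N := hN.conj_mem _ (inv_mem n.2) _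
        have h3 : (n : G) * ((u : G) * (x : G) * (u : G)⁻¹) * (n : G)⁻¹ *
            ((u : G) * (x : G) * (u : G)⁻¹)⁻¹ =
            (n : G) * (((u : G) * (x : G) * (u : G)⁻¹) * (n : G)⁻¹ *
              ((u : G) * (x : G) * (u : G)⁻¹)⁻¹) := by group
        rw [h3]
        exact mul_mem n.2 h2
      have hmemP : (y : G) * ((u : G) * (x : G) * (u : G)⁻¹)⁻¹ ∈ (P : Subgroup G) :=
        mul_mem y.2 (inv_mem hx'P)
      have hone : (y : G) * ((u : G) * (x : G) * (u : G)⁻¹)⁻¹ = 1 :=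
        Subgroup.disjoint_def.mp hcomplP.disjoint hmemN hmemP
      have hyx : (y : G) = (u : G) * (x : G) * (u : G)⁻¹ := mul_inv_eq_one.mp hone
      rw [ConjClasses.mk_eq_mk_iff_isConj, isConj_iff]
      exact ⟨⟨(u : G), u.2⟩, Subtype.ext hyx.symm⟩
    omega

end Cfsg.Agent.S3895
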