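import Mathlib
import Cfsg.Statements.S3897

set_option autoImplicit false
open Cfsg

namespace Cfsg.Agent.S3897

/-- If `c` is constant on the orbits of an injective self-map `φ`, its image has at most
`(|X| + |Fix φ|) / 2` elements. -/
theorem two_mul_card_range_le {X Y : Type*} [Finite X] (c : X → Y) (φ : X → X)
    (hφ : Function.Injective φ) (hc : ∀ x, c (φ x) = c x) :
    2 * Nat.card (Set.range c) ≤ Nat.card X + Nat.card {x : X // φ x = x} := by
  classical
  haveI : Fintype X := Fintype.ofFinite X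
  have h1 : Nat.card (Set.range c) = (Finset.univ.image c).card := by
    rw [Nat.card_coe_set_eq, ← Set.image_univ, ← Finset.coe_univ, ← Finset.coe_image,
      Set.ncard_coe_finset]
  have h2 : Nat.card {x : X // φ x = x} = (Finset.univ.filter (fun x : X => φ x = x)).card := by
    rw [Nat.card_eq_fintype_card, Fintype.card_subtype]
  rw [h1, h2, Nat.card_eq_fintype_card]
  have hFM : (Finset.univ.filter (fun x : X => φ x = x)).card +
      (Finset.univ.filter (fun x : X => ¬ φ x = x)).card = Fintype.card X := by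
    rw [Finset.card_filter_add_card_filter_not, Finset.card_univ]
  have huniv : (Finset.univ : Finset X) = Finset.univ.filter (fun x : X => φ x = x) ∪
      Finset.univ.filter (fun x : X => ¬ φ x = x) := by
    rw [Finset.filter_union_filter_not_eq]
  have himF : ((Finset.univ.filter (fun x : X => φ x = x)).image c).card ≤
      (Finset.univ.filter (fun x : X => φ x = x)).card := Finset.card_image_le
  have himM : 2 * ((Finset.univ.filter (fun x : X => ¬ φ x = x)).image c).card ≤
      (Finset.univ.filter (fun x : X => ¬ φ x = x)).card := by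
    apply Finset.mul_card_image_le_card
    intro b hb
    obtain ⟨x, hxM, rfl⟩ := Finset.mem_image.mp hb
    have hx : ¬ φ x = x := (Finset.mem_filter.mp hxM).2
    have hφx : ¬ φ (φ x) = φ x := fun h => hx (hφ h)
    have h3 : 1 < ((Finset.univ.filter (fun x : X => ¬ φ x = x)).filter
        (fun a => c a = c x)).card := by
      rw [Finset.one_lt_card]
      exact ⟨x, Finset.mem_filter.mpr ⟨hxM, rfl⟩, φ x,
        Finset.mem_filter.mpr ⟨Finset.mem_filter.mpr ⟨Finset.mem_univ _, hφx⟩, hc x⟩,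
        fun h => hx h.symm⟩
    exact h3
  have hun : (Finset.univ.image c).card ≤
      ((Finset.univ.filter (fun x : X => φ x = x)).image c).card +
      ((Finset.univ.filter (fun x : X => ¬ φ x = x)).image c).card := by
    conv_lhs => rw [huniv]
    rw [Finset.image_union]
    exact Finset.card_union_le _ _
  omega

/-- Many classes of `p`-elements force `N_G(P) = C_G(P)`. -/
theorem normalizer_le_centralizer_of_many_classes {G : Type*} [Group G] [Finite G] {p : ℕ}
    [Fact p.Prime] (P : Sylow p G)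
    (h : (p + 1) * Nat.card ↥(P : Subgroup G) < 2 * p * Nat.card {c : ConjClasses G // ∀ x ∈ c.carrier, ∃ k : ℕ, orderOf x = p ^ k}) :
    Subgroup.normalizer ((P : Subgroup G) : Set G) ≤
      Subgroup.centralizer ((P : Subgroup G) : Set G) := by
  by_contra hnot
  obtain ⟨α, hαN, hαC⟩ := SetLike.not_le_iff_exists.mp hnot
  have hp : p.Prime := Fact.out
  have hconj : ∀ x : G, x ∈ (P : Subgroup G) → α * x * α⁻¹ ∈ (P : Subgroup G) := fun x hx =>
    (Subgroup.mem_normalizer_iff.mp hαN x).mp hx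
  obtain ⟨φ, hφ⟩ : ∃ φ : ↥(P : Subgroup G) → ↥(P : Subgroup G),
      ∀ x, ((φ x : ↥(P : Subgroup G)) : G) = α * x * α⁻¹ :=
    ⟨fun x => ⟨α * x * α⁻¹, hconj x x.2⟩, fun x => rfl⟩
  have hφinj : Function.Injective φ := by
    intro x y hxy
    have h1 : α * (x : G) * α⁻¹ = α * (y : G) * α⁻¹ := by rw [← hφ x, ← hφ y, hxy]
    exact Subtype.ext (mul_left_cancel (mul_right_cancel h1))
  have hcφ : ∀ x : ↥(P : Subgroup G),
      ConjClasses.mk ((φ x : ↥(P : Subgroup G)) : G) = ConjClasses.mk (x : G) := by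
    intro x
    rw [hφ x, ConjClasses.mk_eq_mk_iff_isConj, isConj_comm, isConj_iff]
    exact ⟨α, rfl⟩
  have hcnt := two_mul_card_range_le (fun x : ↥(P : Subgroup G) => ConjClasses.mk (x : G)) φ
    hφinj hcφ
  -- the fixed points form a proper subgroup
  have hfix : p * Nat.card {x : ↥(P : Subgroup G) // φ x = x} ≤ Nat.card ↥(P : Subgroup G) := by
    obtain ⟨Cp, hCp⟩ : ∃ Cp : Subgroup ↥(P : Subgroup G), ∀ x, x ∈ Cp ↔ φ x = x := by
      refine ⟨(Subgroup.centralizer ({α} : Set G)).subgroupOf (P : Subgroup G), fun x => ?_⟩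
      rw [Subgroup.mem_subgroupOf, Subgroup.mem_centralizer_iff]
      constructor
      · intro h
        have h1 := h α (Set.mem_singleton α)
        apply Subtype.ext
        rw [hφ x, h1, mul_inv_cancel_right]
      · intro h z hz
        rw [Set.mem_singleton_iff] at hz
        rw [hz]
        have h1 : α * (x : G) * α⁻¹ = x := by rw [← hφ x, h]
        calc α * (x : G) = α * (x : G) * α⁻¹ * α := by group
          _ = x * α := by rw [h1]
    have hCpne : Cp ≠ ⊤ := by
      intro htop
      apply hαC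
      rw [Subgroup.mem_centralizer_iff]
      intro x hx
      have h1 : (⟨x, hx⟩ : ↥(P : Subgroup G)) ∈ Cp := htop ▸ Subgroup.mem_top _
      have h2 := (hCp _).mp h1
      have h3 : α * x * α⁻¹ = x := by
        have := hφ ⟨x, hx⟩
        rw [h2] at this
        exact this.symm
      calc x * α = α * x * α⁻¹ * α := by rw [h3]
        _ = α * x := by group
    have hcard : Nat.card {x : ↥(P : Subgroup G) // φ x = x} = Nat.card Cp :=
      Nat.card_congr (Equiv.subtypeEquivRight (fun x => (hCp x).symm))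
    rw [hcard]
    obtain ⟨n, hn⟩ := P.2.index Cp
    have hn0 : n ≠ 0 := by
      rintro rfl
      rw [pow_zero, Subgroup.index_eq_one] at hn
      exact hCpne hn
    have hdvd : p ∣ Cp.index := by rw [hn]; exact dvd_pow_self p hn0
    obtain ⟨d, hd⟩ := hdvd
    have hmul := Subgroup.card_mul_index Cp
    rw [hd] at hmul
    have hdpos : 0 < d := by
      rcases Nat.eq_zero_or_pos d with h0 | h0
      · rw [h0, mul_zero, mul_zero] at hmul
        exact absurd hmul.symm (Nat.card_pos.ne')
      · exact h0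
    calc p * Nat.card Cp ≤ p * Nat.card Cp * d := Nat.le_mul_of_pos_right _ hdpos
      _ = Nat.card Cp * (p * d) := by ring
      _ = Nat.card ↥(P : Subgroup G) := hmul
  -- every class of p-elements meets P
  have hsurj : ∀ t : {c : ConjClasses G // ∀ x ∈ c.carrier, ∃ k : ℕ, orderOf x = p ^ k},
      t.1 ∈ Set.range (fun x : ↥(P : Subgroup G) => ConjClasses.mk (x : G)) := by
    intro t
    obtain ⟨g, hg⟩ := ConjClasses.exists_rep t.1
    have hgc : g ∈ t.1.carrier := ConjClasses.mem_carrier_iff_mk_eq.mpr hg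
    obtain ⟨k, hk⟩ := t.2 g hgc
    have hpg : IsPGroup p (Subgroup.zpowers g) :=
      IsPGroup.of_card (n := k) (by rw [Nat.card_zpowers, hk])
    obtain ⟨Q, hQ⟩ := hpg.exists_le_sylow
    obtain ⟨h, hh⟩ := MulAction.exists_smul_eq G Q P
    have hmem : h * g * h⁻¹ ∈ ((h • Q : Sylow p G) : Subgroup G) :=
      ⟨g, hQ (Subgroup.mem_zpowers g), rfl⟩
    rw [hh] at hmem
    refine ⟨⟨h * g * h⁻¹, hmem⟩, ?_⟩
    show ConjClasses.mk (h * g * h⁻¹) = t.1
    rw [← hg, ConjClasses.mk_eq_mk_iff_isConj, isConj_comm, isConj_iff]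
    exact ⟨h, rfl⟩
  have hk : Nat.card {c : ConjClasses G // ∀ x ∈ c.carrier, ∃ k : ℕ, orderOf x = p ^ k} ≤
      Nat.card (Set.range (fun x : ↥(P : Subgroup G) => ConjClasses.mk (x : G))) :=
    Nat.card_le_card_of_injective
      (fun t => (⟨t.1, hsurj t⟩ :
        Set.range (fun x : ↥(P : Subgroup G) => ConjClasses.mk (x : G))))
      (fun t1 t2 h12 => by
        have h3 : (t1 : ConjClasses G) = (t2 : ConjClasses G) :=
          congrArg (fun z : Set.range (fun x : ↥(P : Subgroup G) => ConjClasses.mk (x : G)) =>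
            (z : ConjClasses G)) h12
        exact Subtype.ext h3)
  have h1 : 2 * p * Nat.card {c : ConjClasses G // ∀ x ∈ c.carrier, ∃ k : ℕ, orderOf x = p ^ k} ≤
      2 * p * Nat.card (Set.range (fun x : ↥(P : Subgroup G) => ConjClasses.mk (x : G))) :=
    Nat.mul_le_mul_left _ hk
  have h2 := Nat.mul_le_mul_left p hcnt
  nlinarith [h, h1, h2, hfix]

/-- A normal `p`-complement together with an abelian Sylow `p`-subgroup gives at least `|P|`
classes of `p`-elements. -/
theorem card_le_classes {G : Type*} [Group G] [Finite G] {p : ℕ} [Fact p.Prime] (P : Sylow p G)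
    (hnc : Cfsg.HasNormalPComplement p G) (hcomm : IsMulCommutative ↥(P : Subgroup G)) :
    Nat.card ↥(P : Subgroup G) ≤
      Nat.card {c : ConjClasses G // ∀ x ∈ c.carrier, ∃ k : ℕ, orderOf x = p ^ k} := by
  obtain ⟨P', N, hN, hcompl⟩ := hnc
  obtain ⟨g, hg⟩ := MulAction.exists_smul_eq G P P'
  have hP'comm : ∀ a ∈ (P' : Subgroup G), ∀ b ∈ (P' : Subgroup G), a * b = b * a := by
    intro a ha b hb
    rw [← hg] at ha hb
    obtain ⟨x, hx, rfl⟩ := ha
    obtain ⟨y, hy, rfl⟩ := hb
    have hxy : x * y = y * x := congrArg Subtype.val (hcomm.is_comm.comm ⟨x, hx⟩ ⟨y, hy⟩)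
    show g * x * g⁻¹ * (g * y * g⁻¹) = g * y * g⁻¹ * (g * x * g⁻¹)
    calc g * x * g⁻¹ * (g * y * g⁻¹) = g * (x * y) * g⁻¹ := by group
      _ = g * (y * x) * g⁻¹ := by rw [hxy]
      _ = g * y * g⁻¹ * (g * x * g⁻¹) := by group
  have hcard : Nat.card ↥(P : Subgroup G) = Nat.card ↥(P' : Subgroup G) :=
    P.card_eq_multiplicity.trans P'.card_eq_multiplicity.symm
  rw [hcard]
  have hcls : ∀ x : ↥(P' : Subgroup G), ∀ y ∈ (ConjClasses.mk (x : G)).carrier,
      ∃ k : ℕ, orderOf y = p ^ k := by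
    intro x y hy
    have h1 : ConjClasses.mk y = ConjClasses.mk (x : G) := ConjClasses.mem_carrier_iff_mk_eq.mp hy
    rw [ConjClasses.mk_eq_mk_iff_isConj, isConj_iff] at h1
    obtain ⟨c, hc⟩ := h1
    obtain ⟨k, hk⟩ := IsPGroup.iff_orderOf.mp P'.2 x
    refine ⟨k, ?_⟩
    rw [← hk, ← Subgroup.orderOf_coe, ← hc]
    exact ((MulAut.conj c).orderOf_eq y).symm
  apply Nat.card_le_card_of_injective
    (fun x : ↥(P' : Subgroup G) => (⟨ConjClasses.mk (x : G), hcls x⟩ :
      {c : ConjClasses G // ∀ x ∈ c.carrier, ∃ k : ℕ, orderOf x = p ^ k}))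
  intro x y hxy
  have h1 : ConjClasses.mk (x : G) = ConjClasses.mk (y : G) := congrArg Subtype.val hxy
  rw [ConjClasses.mk_eq_mk_iff_isConj, isConj_iff] at h1
  obtain ⟨c, hc⟩ := h1
  obtain ⟨⟨n, u⟩, hnu⟩ := hcompl.2 c
  have hnu' : (n : G) * (u : G) = c := hnu
  have hux : (u : G) * (x : G) = (x : G) * (u : G) := hP'comm _ u.2 _ x.2
  have hy : (y : G) = (n : G) * (x : G) * (n : G)⁻¹ := by
    rw [← hc, ← hnu']
    calc (n : G) * (u : G) * (x : G) * ((n : G) * (u : G))⁻¹
        = (n : G) * ((u : G) * (x : G)) * (u : G)⁻¹ * (n : G)⁻¹ := by group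
      _ = (n : G) * ((x : G) * (u : G)) * (u : G)⁻¹ * (n : G)⁻¹ := by rw [hux]
      _ = (n : G) * (x : G) * (n : G)⁻¹ := by group
  have hmemN : (y : G) * (x : G)⁻¹ ∈ N := by
    rw [hy]
    have h2 : (x : G) * (n : G)⁻¹ * (x : G)⁻¹ ∈ N := hN.conj_mem _ (inv_mem n.2) _
    have h3 : (n : G) * (x : G) * (n : G)⁻¹ * (x : G)⁻¹ =
        (n : G) * ((x : G) * (n : G)⁻¹ * (x : G)⁻¹) := by group
    rw [h3]
    exact mul_mem n.2 h2
  have hmemP : (y : G) * (x : G)⁻¹ ∈ (P' : Subgroup G) := mul_mem y.2 (inv_mem x.2)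
  have hone : (y : G) * (x : G)⁻¹ = 1 := Subgroup.disjoint_def.mp hcompl.disjoint hmemN hmemP
  exact Subtype.ext (mul_inv_eq_one.mp hone).symm

/-- Let p be an odd prime and G a finite group with Sylow p-subgroup P, and write k_p(G) for the number of conjugacy classes of G consisting of p-elements (elements of p-power order, the identity included). Then k_p(G) > (p + 1)|P|/(2p) if and only if G has a normal p-complement and P is abelian. -/
theorem result {G : Type*} [Group G] [Finite G] {p : ℕ} [Fact p.Prime] (hp : p ≠ 2) (P : Sylow p G) :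
    (p + 1) * Nat.card ↥(P : Subgroup G) < 2 * p * Nat.card {c : ConjClasses G // ∀ x ∈ c.carrier, ∃ k : ℕ, orderOf x = p ^ k} ↔
      Cfsg.HasNormalPComplement p G ∧ IsMulCommutative ↥(P : Subgroup G) := by
  have hpp : p.Prime := Fact.out
  constructor
  · intro h
    have hNC := normalizer_le_centralizer_of_many_classes P h
    exact ⟨⟨P, (MonoidHom.transferSylow P hNC).ker, inferInstance,
      MonoidHom.ker_transferSylow_isComplement' P hNC⟩,
      ⟨⟨fun a b => Subtype.ext (hNC (Subgroup.le_normalizer b.2) a a.2)⟩⟩⟩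
  · rintro ⟨hnc, hcomm⟩
    have h1 := card_le_classes P hnc hcomm
    have hpos : 0 < Nat.card ↥(P : Subgroup G) := Nat.card_pos
    have h2 := hpp.two_le
    calc (p + 1) * Nat.card ↥(P : Subgroup G) < 2 * p * Nat.card ↥(P : Subgroup G) := by nlinarith
      _ ≤ 2 * p * Nat.card {c : ConjClasses G // ∀ x ∈ c.carrier, ∃ k : ℕ, orderOf x = p ^ k} :=
        Nat.mul_le_mul_left _ h1

end Cfsg.Agent.S3897
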