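import Mathlib
import Cfsg.Statements.S3899
import Cfsg.Agent.S3897

set_option autoImplicit false
open Cfsg

namespace Cfsg.Agent.S3899

universe u

/-- conjugacy classes consisting of `σ`-elements -/
abbrev PiCl (σ : Finset ℕ) (G : Type u) [Group G] : Type u :=
  {c : ConjClasses G // ∀ x ∈ c.carrier, ∀ q : ℕ, q.Prime → q ∣ orderOf x → q ∈ σ}

/-- conjugacy classes consisting of `r`-elements -/
abbrev RCl (r : ℕ) (G : Type u) [Group G] : Type u :=
  {c : ConjClasses G // ∀ x ∈ c.carrier, ∃ k : ℕ, orderOf x = r ^ k}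

theorem card_le_mul_of_fibers {α β : Type*} [Finite α] [Finite β] (f : α → β) (M : ℕ)
    (h : ∀ b, Nat.card {a // f a = b} ≤ M) : Nat.card α ≤ Nat.card β * M := by
  classical
  have : Fintype β := Fintype.ofFinite β
  rw [← Nat.card_congr (Equiv.sigmaFiberEquiv f), Nat.card_sigma]
  calc ∑ b, Nat.card {a // f a = b} ≤ ∑ _b : β, M := Finset.sum_le_sum (fun b _ => h b)
    _ = Nat.card β * M := by
      rw [Finset.sum_const, Finset.card_univ, smul_eq_mul, Nat.card_eq_fintype_card]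

theorem orderOf_eq_of_mem_carrier {G : Type*} [Group G] {x z : G}
    (hz : z ∈ (ConjClasses.mk x).carrier) : orderOf z = orderOf x := by
  have h1 : ConjClasses.mk z = ConjClasses.mk x := ConjClasses.mem_carrier_iff_mk_eq.mp hz
  rw [ConjClasses.mk_eq_mk_iff_isConj, isConj_iff] at h1
  obtain ⟨w, hw⟩ := h1
  rw [← hw]
  exact ((MulAut.conj w).orderOf_eq z).symm

/-- the `r`-part of an element of finite order -/
theorem exists_rpart {G : Type*} [Group G] (r : ℕ) (hr : r.Prime) (g : G) (hg : orderOf g ≠ 0) :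
    ∃ x : G, x * g = g * x ∧ (∃ j : ℕ, orderOf x = r ^ j) ∧ ¬ r ∣ orderOf (x⁻¹ * g) ∧
      orderOf (x⁻¹ * g) ∣ orderOf g := by
  obtain ⟨e, m, hm, hnm⟩ := Nat.exists_eq_pow_mul_and_not_dvd hg r hr.ne_one
  have hcop : (r ^ e).Coprime m :=
    Nat.Coprime.pow_left e ((Nat.Prime.coprime_iff_not_dvd hr).mpr hm)
  obtain ⟨a, ha1, ha0⟩ := Nat.chineseRemainder hcop 1 0
  have hma : m ∣ a := (Nat.modEq_zero_iff_dvd).mp ha0
  have h1 : (g ^ a) ^ (r ^ e) = 1 := by
    obtain ⟨a', ha'⟩ := hma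
    rw [← pow_mul, ha', show m * a' * r ^ e = (r ^ e * m) * a' by ring, ← hnm, pow_mul,
      pow_orderOf_eq_one, one_pow]
  have h2 : ((g ^ a)⁻¹ * g) ^ m = 1 := by
    have hcomm : Commute (g ^ a)⁻¹ g := ((Commute.refl g).pow_left a).inv_left
    rw [hcomm.mul_pow, inv_pow, ← pow_mul, inv_mul_eq_one, pow_eq_pow_iff_modEq, hnm]
    have h3 := Nat.ModEq.mul_right' m ha1
    rwa [one_mul] at h3
  refine ⟨g ^ a, ((Commute.refl g).pow_left a).eq, ?_, ?_, ?_⟩
  · obtain ⟨j, -, hj⟩ := (Nat.dvd_prime_pow hr).mp (orderOf_dvd_of_pow_eq_one h1)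
    exact ⟨j, hj⟩
  · intro hdvd
    exact hm (dvd_trans hdvd (orderOf_dvd_of_pow_eq_one h2))
  · rw [hnm]
    exact dvd_trans (orderOf_dvd_of_pow_eq_one h2) (dvd_mul_left m (r ^ e))

theorem cent_aux {G : Type*} [Group G] (g x u : G) (hxg : x * g = g * x) :
    (u * x * u⁻¹) * (u * (x⁻¹ * g) * u⁻¹) = (u * (x⁻¹ * g) * u⁻¹) * (u * x * u⁻¹) := by
  calc (u * x * u⁻¹) * (u * (x⁻¹ * g) * u⁻¹) = u * (x⁻¹ * (x * g)) * u⁻¹ := by group
    _ = u * (x⁻¹ * (g * x)) * u⁻¹ := by rw [hxg]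
    _ = (u * (x⁻¹ * g) * u⁻¹) * (u * x * u⁻¹) := by group

theorem key_inj {G : Type*} [Group G] (g₁ g₂ x₁ x₂ y u₁ u₂ v : G)
    (hu₁ : u₁ * x₁ * u₁⁻¹ = y) (hu₂ : u₂ * x₂ * u₂⁻¹ = y) (hv : y * v = v * y)
    (hconj : v * (u₁ * (x₁⁻¹ * g₁) * u₁⁻¹) * v⁻¹ = u₂ * (x₂⁻¹ * g₂) * u₂⁻¹) :
    ∃ w : G, w * g₁ * w⁻¹ = g₂ := by
  have e1 : y * (u₁ * (x₁⁻¹ * g₁) * u₁⁻¹) = u₁ * g₁ * u₁⁻¹ := by rw [← hu₁]; group
  have e2 : y * (u₂ * (x₂⁻¹ * g₂) * u₂⁻¹) = u₂ * g₂ * u₂⁻¹ := by rw [← hu₂]; group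
  refine ⟨u₂⁻¹ * v * u₁, ?_⟩
  have e3 : u₂ * g₂ * u₂⁻¹ = v * (u₁ * g₁ * u₁⁻¹) * v⁻¹ := by
    rw [← e2, ← hconj, ← e1]
    calc y * (v * (u₁ * (x₁⁻¹ * g₁) * u₁⁻¹) * v⁻¹)
        = (y * v) * (u₁ * (x₁⁻¹ * g₁) * u₁⁻¹) * v⁻¹ := by group
      _ = (v * y) * (u₁ * (x₁⁻¹ * g₁) * u₁⁻¹) * v⁻¹ := by rw [hv]
      _ = v * (y * (u₁ * (x₁⁻¹ * g₁) * u₁⁻¹)) * v⁻¹ := by group
  calc u₂⁻¹ * v * u₁ * g₁ * (u₂⁻¹ * v * u₁)⁻¹
      = u₂⁻¹ * (v * (u₁ * g₁ * u₁⁻¹) * v⁻¹) * u₂ := by group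
    _ = u₂⁻¹ * (u₂ * g₂ * u₂⁻¹) * u₂ := by rw [e3]
    _ = g₂ := by group

/-- splitting off the prime `r` -/
theorem card_piCl_insert_le {G : Type u} [Group G] [Finite G] (r : ℕ) (hr : r.Prime)
    (σ : Finset ℕ) (M : ℕ)
    (hM : ∀ y : G, Nat.card (PiCl σ ↥(Subgroup.centralizer ({y} : Set G))) ≤ M) :
    Nat.card (PiCl (insert r σ) G) ≤ Nat.card (RCl r G) * M := by
  classical
  have hdata : ∀ c : PiCl (insert r σ) G, ∃ g x : G, ConjClasses.mk g = c.1 ∧ x * g = g * x ∧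
      (∃ j : ℕ, orderOf x = r ^ j) ∧ ¬ r ∣ orderOf (x⁻¹ * g) ∧
      orderOf (x⁻¹ * g) ∣ orderOf g := by
    intro c
    obtain ⟨g, hg⟩ := ConjClasses.exists_rep c.1
    obtain ⟨x, hx⟩ := exists_rpart r hr g (orderOf_pos g).ne'
    exact ⟨g, x, hg, hx⟩
  choose g x hg hxc hxr hxn hxd using hdata
  obtain ⟨Ψ, hΨ⟩ : ∃ Ψ : PiCl (insert r σ) G → RCl r G, ∀ c, (Ψ c).1 = ConjClasses.mk (x c) :=
    ⟨fun c => ⟨ConjClasses.mk (x c), fun z hz => by
      obtain ⟨j, hj⟩ := hxr c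
      exact ⟨j, by rw [orderOf_eq_of_mem_carrier hz, hj]⟩⟩, fun c => rfl⟩
  apply card_le_mul_of_fibers Ψ
  intro t
  obtain ⟨y, hy⟩ := ConjClasses.exists_rep t.1
  refine le_trans ?_ (hM y)
  have hconj : ∀ c : {c : PiCl (insert r σ) G // Ψ c = t}, ∃ u : G, u * x c.1 * u⁻¹ = y := by
    intro c
    have h1 : ConjClasses.mk (x c.1) = ConjClasses.mk y := by
      rw [← hΨ c.1, c.2, hy]
    rw [ConjClasses.mk_eq_mk_iff_isConj, isConj_iff] at h1
    exact h1
  choose u hu using hconj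
  have hcent : ∀ c : {c : PiCl (insert r σ) G // Ψ c = t},
      u c * ((x c.1)⁻¹ * g c.1) * (u c)⁻¹ ∈ Subgroup.centralizer ({y} : Set G) := by
    intro c
    rw [Subgroup.mem_centralizer_iff]
    intro z hz
    rw [Set.mem_singleton_iff] at hz
    rw [hz, ← hu c]
    exact cent_aux _ _ _ (hxc c.1)
  obtain ⟨η, hη⟩ : ∃ η : {c : PiCl (insert r σ) G // Ψ c = t} →
      PiCl σ ↥(Subgroup.centralizer ({y} : Set G)),
      ∀ c, (η c).1 = ConjClasses.mk (⟨u c * ((x c.1)⁻¹ * g c.1) * (u c)⁻¹, hcent c⟩ :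
        ↥(Subgroup.centralizer ({y} : Set G))) := by
    refine ⟨fun c => ⟨ConjClasses.mk (⟨u c * ((x c.1)⁻¹ * g c.1) * (u c)⁻¹, hcent c⟩ :
        ↥(Subgroup.centralizer ({y} : Set G))), fun z hz q hq hqz => ?_⟩, fun c => rfl⟩
    have ho : orderOf z = orderOf ((x c.1)⁻¹ * g c.1) := by
      rw [orderOf_eq_of_mem_carrier hz, ← Subgroup.orderOf_coe]
      exact (MulAut.conj (u c)).orderOf_eq _
    rw [ho] at hqz
    have hgc : g c.1 ∈ c.1.1.carrier := ConjClasses.mem_carrier_iff_mk_eq.mpr (hg c.1)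
    have hmem := c.1.2 (g c.1) hgc q hq (dvd_trans hqz (hxd c.1))
    rcases Finset.mem_insert.mp hmem with h | h
    · exact absurd (h ▸ hqz) (hxn c.1)
    · exact h
  apply Nat.card_le_card_of_injective η
  intro c₁ c₂ h12
  have h1 : ConjClasses.mk (⟨u c₁ * ((x c₁.1)⁻¹ * g c₁.1) * (u c₁)⁻¹, hcent c₁⟩ :
      ↥(Subgroup.centralizer ({y} : Set G))) =
      ConjClasses.mk (⟨u c₂ * ((x c₂.1)⁻¹ * g c₂.1) * (u c₂)⁻¹, hcent c₂⟩ :
      ↥(Subgroup.centralizer ({y} : Set G))) := by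
    rw [← hη c₁, ← hη c₂, h12]
  rw [ConjClasses.mk_eq_mk_iff_isConj, isConj_iff] at h1
  obtain ⟨v, hv⟩ := h1
  have hv' : (v : G) * (u c₁ * ((x c₁.1)⁻¹ * g c₁.1) * (u c₁)⁻¹) * (v : G)⁻¹ =
      u c₂ * ((x c₂.1)⁻¹ * g c₂.1) * (u c₂)⁻¹ := congrArg Subtype.val hv
  have hvy : y * (v : G) = (v : G) * y := by
    have h3 := v.2
    rw [Subgroup.mem_centralizer_iff] at h3
    exact h3 _ (Set.mem_singleton _)
  obtain ⟨w, hw⟩ := key_inj (g c₁.1) (g c₂.1) (x c₁.1) (x c₂.1) y (u c₁) (u c₂) v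
    (hu c₁) (hu c₂) hvy hv'
  have h2 : ConjClasses.mk (g c₁.1) = ConjClasses.mk (g c₂.1) :=
    ConjClasses.mk_eq_mk_iff_isConj.mpr (isConj_iff.mpr ⟨w, hw⟩)
  rw [hg, hg] at h2
  exact Subtype.ext (Subtype.ext h2)

theorem card_rCl_le (r : ℕ) [Fact r.Prime] (G : Type u) [Group G] [Finite G] :
    Nat.card (RCl r G) ≤ r ^ (Nat.card G).factorization r := by
  obtain ⟨P⟩ : Nonempty (Sylow r G) := inferInstance
  rw [← P.card_eq_multiplicity]
  have hex : ∀ t : RCl r G, ∃ x : ↥(P : Subgroup G), ConjClasses.mk (x : G) = t.1 := by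
    intro t
    obtain ⟨g, hg⟩ := ConjClasses.exists_rep t.1
    have hgc : g ∈ t.1.carrier := ConjClasses.mem_carrier_iff_mk_eq.mpr hg
    obtain ⟨k, hk⟩ := t.2 g hgc
    have hpg : IsPGroup r (Subgroup.zpowers g) :=
      IsPGroup.of_card (n := k) (by rw [Nat.card_zpowers, hk])
    obtain ⟨Q, hQ⟩ := hpg.exists_le_sylow
    obtain ⟨h, hh⟩ := MulAction.exists_smul_eq G Q P
    have hmem : h * g * h⁻¹ ∈ ((h • Q : Sylow r G) : Subgroup G) :=
      ⟨g, hQ (Subgroup.mem_zpowers g), rfl⟩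
    rw [hh] at hmem
    refine ⟨⟨h * g * h⁻¹, hmem⟩, ?_⟩
    show ConjClasses.mk (h * g * h⁻¹) = t.1
    rw [← hg, ConjClasses.mk_eq_mk_iff_isConj, isConj_comm, isConj_iff]
    exact ⟨h, rfl⟩
  choose f hf using hex
  apply Nat.card_le_card_of_injective f
  intro t₁ t₂ h
  apply Subtype.ext
  rw [← hf t₁, ← hf t₂, h]

theorem prod_factorization_subgroup_le {G : Type u} [Group G] [Finite G] (σ : Finset ℕ)
    (hσ : ∀ r ∈ σ, r.Prime) (H : Subgroup G) :
    σ.prod (fun s => s ^ (Nat.card H).factorization s) ≤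
      σ.prod (fun s => s ^ (Nat.card G).factorization s) := by
  apply Finset.prod_le_prod'
  intro s hs
  apply Nat.pow_le_pow_right (hσ s hs).pos
  exact (Nat.factorization_le_iff_dvd Nat.card_pos.ne' Nat.card_pos.ne').mpr
    (Subgroup.card_subgroup_dvd_card H) s

/-- the number of classes of `σ`-elements is at most the `σ`-part of the order -/
theorem card_piCl_le (σ : Finset ℕ) (hσ : ∀ r ∈ σ, r.Prime) :
    ∀ (G : Type u) [Group G] [Finite G],
      Nat.card (PiCl σ G) ≤ σ.prod (fun r => r ^ (Nat.card G).factorization r) := by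
  classical
  induction σ using Finset.induction_on with
  | empty =>
    intro G _ _
    rw [Finset.prod_empty]
    have hsub : Subsingleton (PiCl ∅ G) := by
      constructor
      intro c₁ c₂
      apply Subtype.ext
      have h : ∀ c : PiCl ∅ G, c.1 = ConjClasses.mk 1 := by
        intro c
        obtain ⟨g, hg⟩ := ConjClasses.exists_rep c.1
        have hgc : g ∈ c.1.carrier := ConjClasses.mem_carrier_iff_mk_eq.mpr hg
        have h1 : orderOf g = 1 := by
          by_contra hne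
          obtain ⟨q, hq, hqd⟩ := Nat.exists_prime_and_dvd hne
          exact absurd (c.2 g hgc q hq hqd) (Finset.notMem_empty q)
        rw [orderOf_eq_one_iff] at h1
        rw [← hg, h1]
      rw [h c₁, h c₂]
    exact Finite.card_le_one_iff_subsingleton.mpr hsub
  | insert r σ hr ih =>
    intro G _ _
    have hrp : r.Prime := hσ r (Finset.mem_insert_self r σ)
    have hσ' : ∀ q ∈ σ, q.Prime := fun q hq => hσ q (Finset.mem_insert_of_mem hq)
    have ih' := ih hσ'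
    rw [Finset.prod_insert hr]
    have : Fact r.Prime := ⟨hrp⟩
    have hM : ∀ y : G, Nat.card (PiCl σ ↥(Subgroup.centralizer ({y} : Set G))) ≤
        σ.prod (fun s => s ^ (Nat.card G).factorization s) := fun y =>
      le_trans (ih' _) (prod_factorization_subgroup_le σ hσ' _)
    refine le_trans (card_piCl_insert_le r hrp σ _ hM) ?_
    exact Nat.mul_le_mul_right _ (card_rCl_le r G)

/-- Let π be a finite non-empty set of odd primes with smallest member p and G a finite group. Write k_π(G) for the number of conjugacy classes of G consisting of π-elements (elements all of whose order's prime divisors lie in π) and |G|_π for the π-part of the order of G. If k_π(G) > (p + 1)|G|_π/(2p), then G has a normal π-complement (a normal subgroup of order prime to π whose index is a π-number) and an abelian Hall π-subgroup. -/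
theorem result {G : Type*} [Group G] [Finite G] (π : Finset ℕ) (hπ : ∀ r ∈ π, r.Prime) (h2 : 2 ∉ π) (p : ℕ) (hp : p ∈ π)
    (hmin : ∀ r ∈ π, p ≤ r) (hk : (p + 1) * π.prod (fun r => r ^ (Nat.card G).factorization r) < 2 * p * Nat.card {c : ConjClasses G // ∀ x ∈ c.carrier, ∀ r : ℕ, r.Prime → r ∣ orderOf x → r ∈ π}) :
    (∃ N : Subgroup G, N.Normal ∧ (∀ r : ℕ, r.Prime → r ∣ Nat.card ↥N → r ∉ π) ∧ ∀ r : ℕ, r.Prime → r ∣ N.index → r ∈ π) ∧ ∃ H : Subgroup G, Cfsg.IsPiHall (↑π : Set ℕ) H ∧ IsMulCommutative ↥H := by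
  classical
  have hpp : p.Prime := hπ p hp
  -- every Sylow r-subgroup (r ∈ π) is central in its normalizer
  have hNC : ∀ r ∈ π, ∀ (_ : Fact r.Prime) (P : Sylow r G),
      Subgroup.normalizer ((P : Subgroup G) : Set G) ≤
        Subgroup.centralizer ((P : Subgroup G) : Set G) := by
    intro r hrπ _ P
    have hrp : r.Prime := hπ r hrπ
    apply S3897.normalizer_le_centralizer_of_many_classes P
    have hins : insert r (π.erase r) = π := Finset.insert_erase hrπ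
    have hσ' : ∀ q ∈ π.erase r, q.Prime := fun q hq => hπ q (Finset.mem_of_mem_erase hq)
    have hM : ∀ y : G, Nat.card (PiCl (π.erase r) ↥(Subgroup.centralizer ({y} : Set G))) ≤
        (π.erase r).prod (fun s => s ^ (Nat.card G).factorization s) := fun y =>
      le_trans (card_piCl_le (π.erase r) hσ' _) (prod_factorization_subgroup_le _ hσ' _)
    have hD := card_piCl_insert_le r hrp (π.erase r) _ hM
    rw [hins] at hD
    have hprod : r ^ (Nat.card G).factorization r *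
        (π.erase r).prod (fun s => s ^ (Nat.card G).factorization s) =
        π.prod (fun s => s ^ (Nat.card G).factorization s) := Finset.mul_prod_erase π (fun s => s ^ (Nat.card G).factorization s) hrπ
    have hE : 0 < (π.erase r).prod (fun s => s ^ (Nat.card G).factorization s) :=
      Finset.prod_pos (fun s hs => pow_pos (hσ' s hs).pos _)
    rw [← P.card_eq_multiplicity] at hprod
    rw [← hprod] at hk
    have hpr : p ≤ r := hmin r hrπ
    have h1 : (p + 1) * Nat.card ↥(P : Subgroup G) *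
        (π.erase r).prod (fun s => s ^ (Nat.card G).factorization s) <
        2 * p * Nat.card (RCl r G) *
        (π.erase r).prod (fun s => s ^ (Nat.card G).factorization s) := by
      calc (p + 1) * Nat.card ↥(P : Subgroup G) *
          (π.erase r).prod (fun s => s ^ (Nat.card G).factorization s)
          = (p + 1) * (Nat.card ↥(P : Subgroup G) *
          (π.erase r).prod (fun s => s ^ (Nat.card G).factorization s)) := by ring
        _ < 2 * p * Nat.card (PiCl π G) := hk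
        _ ≤ 2 * p * (Nat.card (RCl r G) *
          (π.erase r).prod (fun s => s ^ (Nat.card G).factorization s)) :=
            Nat.mul_le_mul_left _ hD
        _ = 2 * p * Nat.card (RCl r G) *
          (π.erase r).prod (fun s => s ^ (Nat.card G).factorization s) := by ring
    have h2' : (p + 1) * Nat.card ↥(P : Subgroup G) < 2 * p * Nat.card (RCl r G) :=
      Nat.lt_of_mul_lt_mul_right h1
    have h3 : (r + 1) * Nat.card ↥(P : Subgroup G) * p ≤
        (p + 1) * Nat.card ↥(P : Subgroup G) * r := by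
      nlinarith [Nat.mul_le_mul_left (Nat.card ↥(P : Subgroup G)) hpr]
    have h4 : (p + 1) * Nat.card ↥(P : Subgroup G) * r < 2 * p * Nat.card (RCl r G) * r :=
      Nat.mul_lt_mul_of_pos_right h2' hrp.pos
    have h5 : (r + 1) * Nat.card ↥(P : Subgroup G) * p < 2 * r * Nat.card (RCl r G) * p := by
      calc (r + 1) * Nat.card ↥(P : Subgroup G) * p
          ≤ (p + 1) * Nat.card ↥(P : Subgroup G) * r := h3
        _ < 2 * p * Nat.card (RCl r G) * r := h4
        _ = 2 * r * Nat.card (RCl r G) * p := by ring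
    exact Nat.lt_of_mul_lt_mul_right h5
  -- normal r-complements
  have hex : ∀ r ∈ π, ∃ K : Subgroup G, K.Normal ∧ ¬ r ∣ Nat.card K ∧
      (∃ j : ℕ, K.index = r ^ j) ∧ ∀ a b : G, a * b * a⁻¹ * b⁻¹ ∈ K := by
    intro r hrπ
    have hrp : r.Prime := hπ r hrπ
    have hfact : Fact r.Prime := ⟨hrp⟩
    obtain ⟨P⟩ : Nonempty (Sylow r G) := inferInstance
    have hnc := hNC r hrπ hfact P
    have hcompl := MonoidHom.ker_transferSylow_isComplement' P hnc
    have hcommP : ∀ a b : ↥(P : Subgroup G), a * b = b * a := fun a b =>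
      Subtype.ext (hnc (Subgroup.le_normalizer b.2) a a.2)
    refine ⟨(MonoidHom.transferSylow P hnc).ker, inferInstance,
      MonoidHom.not_dvd_card_ker_transferSylow P hnc,
      ⟨_, hcompl.symm.index_eq_card.trans P.card_eq_multiplicity⟩, fun a b => ?_⟩
    rw [MonoidHom.mem_ker, map_mul, map_mul, map_mul, map_inv, map_inv,
      hcommP ((MonoidHom.transferSylow P hnc) a) ((MonoidHom.transferSylow P hnc) b),
      mul_inv_cancel_right, mul_inv_cancel]
  choose! K hKn hKcard hKidx hKcomm using hex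
  obtain ⟨N, hNdef⟩ : ∃ N : Subgroup G, N = ⨅ r : {r // r ∈ π}, K r.1 := ⟨_, rfl⟩
  have hNmem : ∀ x : G, x ∈ N ↔ ∀ r ∈ π, x ∈ K r := by
    intro x
    rw [hNdef, Subgroup.mem_iInf]
    exact ⟨fun h r hr => h ⟨r, hr⟩, fun h r => h r.1 r.2⟩
  have hNn : N.Normal := by
    rw [hNdef]
    exact Subgroup.normal_iInf_normal (fun r => hKn r.1 r.2)
  have hN2 : ∀ q : ℕ, q.Prime → q ∣ Nat.card ↥N → q ∉ π := by
    intro q _ hqd hqπ
    have hle : N ≤ K q := fun x hx => (hNmem x).mp hx q hqπ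
    exact hKcard q hqπ (dvd_trans hqd (Subgroup.card_dvd_of_le hle))
  have hN3 : ∀ q : ℕ, q.Prime → q ∣ N.index → q ∈ π := by
    intro q hq hqd
    have hfact : Fact q.Prime := ⟨hq⟩
    have hqd' : q ∣ Nat.card (G ⧸ N) := hqd
    obtain ⟨xb, hxb⟩ := exists_prime_orderOf_dvd_card' q hqd'
    obtain ⟨x, rfl⟩ := QuotientGroup.mk_surjective xb
    have hxN : x ∉ N := by
      intro hx
      have h1 : ((x : G) : G ⧸ N) = 1 := (QuotientGroup.eq_one_iff x).mpr hx
      rw [h1, orderOf_one] at hxb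
      exact hq.one_lt.ne hxb
    have hxq : x ^ q ∈ N := by
      rw [← QuotientGroup.eq_one_iff, QuotientGroup.mk_pow, ← hxb, pow_orderOf_eq_one]
    rw [hNmem] at hxN
    push Not at hxN
    obtain ⟨s, hsπ, hxs⟩ := hxN
    have hKs : (K s).Normal := hKn s hsπ
    have hxqs : x ^ q ∈ K s := (hNmem _).mp hxq s hsπ
    have hz1 : ((x : G) : G ⧸ K s) ≠ 1 := fun h => hxs ((QuotientGroup.eq_one_iff x).mp h)
    have hzq : ((x : G) : G ⧸ K s) ^ q = 1 := by
      rw [← QuotientGroup.mk_pow]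
      exact (QuotientGroup.eq_one_iff _).mpr hxqs
    have ho : orderOf ((x : G) : G ⧸ K s) = q := orderOf_eq_prime hzq hz1
    have hdvd : q ∣ Nat.card (G ⧸ K s) := ho ▸ orderOf_dvd_natCard _
    obtain ⟨j, hj⟩ := hKidx s hsπ
    have hdvd' : q ∣ s ^ j := by
      have h3 : Nat.card (G ⧸ K s) = (K s).index := rfl
      rw [h3, hj] at hdvd
      exact hdvd
    have hqs : q = s := (Nat.prime_dvd_prime_iff_eq hq (hπ s hsπ)).mp (hq.dvd_of_dvd_pow hdvd')
    rw [hqs]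
    exact hsπ
  have hN4 : ∀ a b : G, a * b * a⁻¹ * b⁻¹ ∈ N := fun a b =>
    (hNmem _).mpr (fun r hr => hKcomm r hr a b)
  refine ⟨⟨N, hNn, hN2, hN3⟩, ?_⟩
  have hcop : (Nat.card ↥N).Coprime N.index :=
    Nat.coprime_of_dvd (fun q hq hqN hqI => hN2 q hq hqN (hN3 q hq hqI))
  obtain ⟨H, hH⟩ := Subgroup.exists_right_complement'_of_coprime hcop
  have hHcard : N.index = Nat.card ↥H := hH.symm.index_eq_card
  have hHidx : H.index = Nat.card ↥N := hH.index_eq_card
  refine ⟨H, ⟨fun q hq hqd => ?_, fun q hq hqπ hqd => ?_⟩, ⟨⟨fun a b => ?_⟩⟩⟩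
  · exact Finset.mem_coe.mpr (hN3 q hq (hHcard ▸ hqd))
  · exact hN2 q hq (hHidx ▸ hqd) (Finset.mem_coe.mp hqπ)
  · apply Subtype.ext
    have h1 : (a : G) * (b : G) * (a : G)⁻¹ * (b : G)⁻¹ ∈ N := hN4 a b
    have h3 : (a : G) * (b : G) * (a : G)⁻¹ * (b : G)⁻¹ ∈ H :=
      mul_mem (mul_mem (mul_mem a.2 b.2) (inv_mem a.2)) (inv_mem b.2)
    have h4 : (a : G) * (b : G) * (a : G)⁻¹ * (b : G)⁻¹ = 1 :=
      Subgroup.disjoint_def.mp hH.disjoint h1 h3
    have h5 : (a : G) * (b : G) * (a : G)⁻¹ = (b : G) := mul_inv_eq_one.mp h4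
    exact mul_inv_eq_iff_eq_mul.mp h5

end Cfsg.Agent.S3899
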