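import Mathlib
import Cfsg.Statements.S3898
import Cfsg.Agent.S3895
import Cfsg.Agent.S3899
import Cfsg.Agent.S0086

set_option autoImplicit false
open Cfsg

universe u

namespace Cfsg.Agent.S3898

/-- counting the image of `c` when every point outside `S` has at least `n` points
outside `S` with the same value -/
theorem part_count {X Y : Type*} [Finite X] (c : X → Y) (S : Set X) (n : ℕ)
    (h : ∀ x, x ∉ S → ∃ t : Finset X, n ≤ t.card ∧ ∀ z ∈ t, c z = c x ∧ z ∉ S) :
    n * Nat.card (Set.range c) + Nat.card S ≤ Nat.card X + n * Nat.card S := by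
  classical
  have : Fintype X := Fintype.ofFinite X
  have hr : Nat.card (Set.range c) = (Finset.univ.image c).card := by
    rw [Nat.card_coe_set_eq, ← Set.image_univ, ← Finset.coe_univ, ← Finset.coe_image,
      Set.ncard_coe_finset]
  have hS : Nat.card S = (Finset.univ.filter (fun x : X => x ∈ S)).card := by
    rw [Nat.card_eq_fintype_card, Fintype.card_subtype]
  rw [hr, hS, Nat.card_eq_fintype_card, ← Finset.card_univ]
  have hFM : (Finset.univ.filter (fun x : X => x ∈ S)).card +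
      (Finset.univ.filter (fun x : X => ¬ x ∈ S)).card = (Finset.univ : Finset X).card := by
    rw [Finset.card_filter_add_card_filter_not]
  have himF : ((Finset.univ.filter (fun x : X => x ∈ S)).image c).card ≤
      (Finset.univ.filter (fun x : X => x ∈ S)).card := Finset.card_image_le
  have himM : n * ((Finset.univ.filter (fun x : X => ¬ x ∈ S)).image c).card ≤
      (Finset.univ.filter (fun x : X => ¬ x ∈ S)).card := by
    apply Finset.mul_card_image_le_card
    intro b hb
    obtain ⟨x, hxM, rfl⟩ := Finset.mem_image.mp hb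
    have hx : x ∉ S := (Finset.mem_filter.mp hxM).2
    obtain ⟨t, ht, htz⟩ := h x hx
    refine le_trans ht (Finset.card_le_card ?_)
    intro z hz
    exact Finset.mem_filter.mpr
      ⟨Finset.mem_filter.mpr ⟨Finset.mem_univ _, (htz z hz).2⟩, (htz z hz).1⟩
  have hun : (Finset.univ.image c).card ≤
      ((Finset.univ.filter (fun x : X => x ∈ S)).image c).card +
      ((Finset.univ.filter (fun x : X => ¬ x ∈ S)).image c).card := by
    have huniv : (Finset.univ : Finset X) = Finset.univ.filter (fun x : X => x ∈ S) ∪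
        Finset.univ.filter (fun x : X => ¬ x ∈ S) := by
      rw [Finset.filter_union_filter_not_eq]
    conv_lhs => rw [huniv]
    rw [Finset.image_union]
    exact Finset.card_union_le _ _
  have h1 : n * (Finset.univ.image c).card ≤
      n * ((Finset.univ.filter (fun x : X => x ∈ S)).image c).card +
      n * ((Finset.univ.filter (fun x : X => ¬ x ∈ S)).image c).card := by
    rw [← Nat.mul_add]
    exact Nat.mul_le_mul_left _ hun
  have h2 := Nat.mul_le_mul_left n himF
  omega

/-- every class of `p`-elements meets a given Sylow `p`-subgroup -/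
theorem exists_rep_in_sylow {G : Type*} [Group G] [Finite G] {p : ℕ} [Fact p.Prime]
    (P : Sylow p G) (t : S3899.RCl p G) :
    ∃ x : ↥(P : Subgroup G), ConjClasses.mk (x : G) = t.1 := by
  obtain ⟨g, hg⟩ := ConjClasses.exists_rep t.1
  have hgc : g ∈ t.1.carrier := ConjClasses.mem_carrier_iff_mk_eq.mpr hg
  obtain ⟨k, hk⟩ := t.2 g hgc
  have hpg : IsPGroup p (Subgroup.zpowers g) :=
    IsPGroup.of_card (n := k) (by rw [Nat.card_zpowers, hk])
  obtain ⟨Q, hQ⟩ := hpg.exists_le_sylow
  obtain ⟨h, hh⟩ := MulAction.exists_smul_eq G Q P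
  have hmem : h * g * h⁻¹ ∈ ((h • Q : Sylow p G) : Subgroup G) :=
    ⟨g, hQ (Subgroup.mem_zpowers g), rfl⟩
  rw [hh] at hmem
  refine ⟨⟨h * g * h⁻¹, hmem⟩, ?_⟩
  show ConjClasses.mk (h * g * h⁻¹) = t.1
  rw [← hg, ConjClasses.mk_eq_mk_iff_isConj, isConj_comm, isConj_iff]
  exact ⟨h, rfl⟩

theorem card_rCl_le_range {G : Type*} [Group G] [Finite G] {p : ℕ} [Fact p.Prime]
    (P : Sylow p G) :
    Nat.card (S3899.RCl p G) ≤
      Nat.card (Set.range (fun x : ↥(P : Subgroup G) => ConjClasses.mk (x : G))) :=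
  Nat.card_le_card_of_injective
    (fun t => (⟨t.1, by obtain ⟨x, hx⟩ := exists_rep_in_sylow P t; exact ⟨x, hx⟩⟩ :
      Set.range (fun x : ↥(P : Subgroup G) => ConjClasses.mk (x : G))))
    (fun t1 t2 h12 => by
      have h3 : (t1 : ConjClasses G) = (t2 : ConjClasses G) :=
        congrArg (fun z : Set.range (fun x : ↥(P : Subgroup G) => ConjClasses.mk (x : G)) =>
          (z : ConjClasses G)) h12
      exact Subtype.ext h3)

/-- the fixed points of a non-centralizing element form a proper subgroup -/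
theorem fix_le {G : Type*} [Group G] [Finite G] {p : ℕ} [Fact p.Prime] (P : Sylow p G) (α : G)
    (hαC : α ∉ Subgroup.centralizer ((P : Subgroup G) : Set G)) :
    p * Nat.card {x : ↥(P : Subgroup G) // α * (x : G) * α⁻¹ = x} ≤
      Nat.card ↥(P : Subgroup G) := by
  obtain ⟨Cp, hCp⟩ : ∃ Cp : Subgroup ↥(P : Subgroup G),
      ∀ x : ↥(P : Subgroup G), x ∈ Cp ↔ α * (x : G) * α⁻¹ = x := by
    refine ⟨(Subgroup.centralizer ({α} : Set G)).subgroupOf (P : Subgroup G), fun x => ?_⟩
    rw [Subgroup.mem_subgroupOf, Subgroup.mem_centralizer_iff]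
    constructor
    · intro h
      have h1 := h α (Set.mem_singleton α)
      rw [h1, mul_inv_cancel_right]
    · intro h z hz
      rw [Set.mem_singleton_iff] at hz
      rw [hz]
      calc α * (x : G) = α * (x : G) * α⁻¹ * α := by group
        _ = x * α := by rw [h]
  have hCpne : Cp ≠ ⊤ := by
    intro htop
    apply hαC
    rw [Subgroup.mem_centralizer_iff]
    intro x hx
    have h1 : (⟨x, hx⟩ : ↥(P : Subgroup G)) ∈ Cp := htop ▸ Subgroup.mem_top _
    have h3 : α * x * α⁻¹ = x := (hCp _).mp h1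
    calc x * α = α * x * α⁻¹ * α := by rw [h3]
      _ = α * x := by group
  have hcard : Nat.card {x : ↥(P : Subgroup G) // α * (x : G) * α⁻¹ = x} = Nat.card Cp :=
    Nat.card_congr (Equiv.subtypeEquivRight (fun x => (hCp x).symm))
  rw [hcard]
  obtain ⟨n, hn⟩ := P.2.index Cp
  have hn0 : n ≠ 0 := by
    rintro rfl
    rw [pow_zero, Subgroup.index_eq_one] at hn
    exact hCpne hn
  have hdvd : p ∣ Cp.index := by rw [hn]; exact dvd_pow_self p hn0
  obtain ⟨d, hd⟩ := hdvd
  have hmul := Subgroup.card_mul_index Cp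
  rw [hd] at hmul
  have hdpos : 0 < d := by
    rcases Nat.eq_zero_or_pos d with h0 | h0
    · rw [h0, mul_zero, mul_zero] at hmul
      exact absurd hmul.symm (Nat.card_pos.ne')
    · exact h0
  calc p * Nat.card Cp ≤ p * Nat.card Cp * d := Nat.le_mul_of_pos_right _ hdpos
    _ = Nat.card Cp * (p * d) := by ring
    _ = Nat.card ↥(P : Subgroup G) := hmul

theorem conj_pow_fix {G : Type*} [Group G] (α x : G) (i j : ℕ) (hij : i < j)
    (hcop : Nat.Coprime (j - i) (orderOf α))
    (h : α ^ i * x * (α ^ i)⁻¹ = α ^ j * x * (α ^ j)⁻¹) : α * x * α⁻¹ = x := by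
  have hd : α ^ (j - i) * x * (α ^ (j - i))⁻¹ = x := by
    have hj : α ^ j = α ^ i * α ^ (j - i) := by
      rw [← pow_add]
      congr 1
      omega
    rw [hj] at h
    have h2 : α ^ i * x * (α ^ i)⁻¹ =
        α ^ i * (α ^ (j - i) * x * (α ^ (j - i))⁻¹) * (α ^ i)⁻¹ := by
      rw [h]; group
    exact (mul_left_cancel (mul_right_cancel h2)).symm
  have hc : Commute (α ^ (j - i)) x := by
    show α ^ (j - i) * x = x * α ^ (j - i)
    calc α ^ (j - i) * x = α ^ (j - i) * x * (α ^ (j - i))⁻¹ * α ^ (j - i) := by group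
      _ = x * α ^ (j - i) := by rw [hd]
  obtain ⟨u, hu⟩ := exists_pow_eq_self_of_coprime hcop
  have hc2 : Commute α x := by
    have h7 := hc.pow_left u
    rwa [hu] at h7
  calc α * x * α⁻¹ = x * α * α⁻¹ := by rw [hc2.eq]
    _ = x := by group

/-- orbit counting for a normalizing element whose small powers act freely off the fixed points -/
theorem orb_count {G : Type*} [Group G] [Finite G] {p : ℕ} [Fact p.Prime] (P : Sylow p G) (α : G)
    (hαN : α ∈ Subgroup.normalizer ((P : Subgroup G) : Set G)) (n : ℕ)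
    (hn : ∀ d : ℕ, 0 < d → d < n → Nat.Coprime d (orderOf α)) :
    n * Nat.card (Set.range (fun x : ↥(P : Subgroup G) => ConjClasses.mk (x : G))) +
      Nat.card {x : ↥(P : Subgroup G) // α * (x : G) * α⁻¹ = x} ≤
    Nat.card ↥(P : Subgroup G) +
      n * Nat.card {x : ↥(P : Subgroup G) // α * (x : G) * α⁻¹ = x} := by
  classical
  have hpow : ∀ (i : ℕ) (x : G), x ∈ (P : Subgroup G) →
      α ^ i * x * (α ^ i)⁻¹ ∈ (P : Subgroup G) := by
    intro i
    induction i with
    | zero =>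
      intro x hx
      simpa using hx
    | succ i ih =>
      intro x hx
      have h1 : α ^ (i + 1) * x * (α ^ (i + 1))⁻¹ = α * (α ^ i * x * (α ^ i)⁻¹) * α⁻¹ := by
        rw [pow_succ']; group
      rw [h1]
      exact (Subgroup.mem_normalizer_iff.mp hαN _).mp (ih x hx)
  have hwit : ∀ x : ↥(P : Subgroup G),
      x ∉ {x : ↥(P : Subgroup G) | α * (x : G) * α⁻¹ = x} →
      ∃ t : Finset ↥(P : Subgroup G), n ≤ t.card ∧ ∀ z ∈ t,
        (fun x : ↥(P : Subgroup G) => ConjClasses.mk (x : G)) z =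
          (fun x : ↥(P : Subgroup G) => ConjClasses.mk (x : G)) x ∧
        z ∉ {x : ↥(P : Subgroup G) | α * (x : G) * α⁻¹ = x} := by
    intro x hx
    have hx' : ¬ α * (x : G) * α⁻¹ = x := hx
    have hinj : Set.InjOn (fun i : ℕ =>
        (⟨α ^ i * (x : G) * (α ^ i)⁻¹, hpow i x x.2⟩ : ↥(P : Subgroup G)))
        ↑(Finset.range n) := by
      intro i hi j hj hij
      have hi' : i < n := Finset.mem_range.mp (Finset.mem_coe.mp hi)
      have hj' : j < n := Finset.mem_range.mp (Finset.mem_coe.mp hj)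
      have hij' : α ^ i * (x : G) * (α ^ i)⁻¹ = α ^ j * (x : G) * (α ^ j)⁻¹ :=
        congrArg (fun z : ↥(P : Subgroup G) => (z : G)) hij
      rcases Nat.lt_trichotomy i j with hlt | heq | hgt
      · exact absurd (conj_pow_fix α x i j hlt (hn (j - i) (by omega) (by omega)) hij') hx'
      · exact heq
      · exact absurd (conj_pow_fix α x j i hgt (hn (i - j) (by omega) (by omega)) hij'.symm) hx'
    refine ⟨(Finset.range n).image (fun i : ℕ =>
        (⟨α ^ i * (x : G) * (α ^ i)⁻¹, hpow i x x.2⟩ : ↥(P : Subgroup G))), ?_, ?_⟩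
    · rw [Finset.card_image_of_injOn hinj, Finset.card_range]
    · intro z hz
      obtain ⟨i, hi, rfl⟩ := Finset.mem_image.mp hz
      refine ⟨?_, ?_⟩
      · show ConjClasses.mk (α ^ i * (x : G) * (α ^ i)⁻¹) = ConjClasses.mk (x : G)
        rw [ConjClasses.mk_eq_mk_iff_isConj, isConj_comm, isConj_iff]
        exact ⟨α ^ i, rfl⟩
      · show ¬ α * (α ^ i * (x : G) * (α ^ i)⁻¹) * α⁻¹ = α ^ i * (x : G) * (α ^ i)⁻¹
        intro hfix
        apply hx'
        calc α * (x : G) * α⁻¹
            = (α ^ i)⁻¹ * (α * (α ^ i * (x : G) * (α ^ i)⁻¹) * α⁻¹) * α ^ i := by group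
          _ = (α ^ i)⁻¹ * (α ^ i * (x : G) * (α ^ i)⁻¹) * α ^ i := by rw [hfix]
          _ = x := by group
  exact part_count (fun x : ↥(P : Subgroup G) => ConjClasses.mk (x : G))
    {x : ↥(P : Subgroup G) | α * (x : G) * α⁻¹ = x} n hwit

/-- many classes of `r`-elements (`r` odd) force an abelian Sylow `r`-subgroup -/
theorem sylow_comm_of_many {G : Type*} [Group G] [Finite G] {r : ℕ} [Fact r.Prime] (hr2 : r ≠ 2)
    (R : Sylow r G)
    (hk : Nat.card ↥(R : Subgroup G) <
      2 * Nat.card (Set.range (fun x : ↥(R : Subgroup G) => ConjClasses.mk (x : G)))) :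
    ∀ a b : ↥(R : Subgroup G), a * b = b * a := by
  classical
  by_contra hnc
  have hr : r.Prime := Fact.out
  have hr3 : 3 ≤ r := by
    have := hr.two_le
    omega
  have hcop2 : Nat.Coprime r 2 := (Nat.coprime_primes hr Nat.prime_two).mpr hr2
  have hZ : 9 * Nat.card (Subgroup.center ↥(R : Subgroup G)) ≤ Nat.card ↥(R : Subgroup G) := by
    obtain ⟨n, hn⟩ := R.2.index (Subgroup.center ↥(R : Subgroup G))
    have hn0 : n ≠ 0 := by
      rintro rfl
      rw [pow_zero, Subgroup.index_eq_one] at hn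
      apply hnc
      intro a b
      have hb : b ∈ Subgroup.center ↥(R : Subgroup G) := by
        rw [hn]
        exact Subgroup.mem_top b
      exact Subgroup.mem_center_iff.mp hb a
    have hn1 : n ≠ 1 := by
      rintro rfl
      rw [pow_one] at hn
      apply hnc
      have hcard : Nat.card (↥(R : Subgroup G) ⧸ Subgroup.center ↥(R : Subgroup G)) = r := hn
      have hcyc : IsCyclic (↥(R : Subgroup G) ⧸ Subgroup.center ↥(R : Subgroup G)) :=
        isCyclic_of_prime_card hcard
      exact commutative_of_cyclic_center_quotient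
        (QuotientGroup.mk' (Subgroup.center ↥(R : Subgroup G)))
        (by rw [QuotientGroup.ker_mk'])
    have h2 : 2 ≤ n := by omega
    have hmul := Subgroup.card_mul_index (Subgroup.center ↥(R : Subgroup G))
    rw [hn] at hmul
    have h9 : 9 ≤ r ^ n := by
      calc 9 = 3 ^ 2 := by norm_num
        _ ≤ r ^ 2 := Nat.pow_le_pow_left hr3 2
        _ ≤ r ^ n := Nat.pow_le_pow_right hr.pos h2
    calc 9 * Nat.card (Subgroup.center ↥(R : Subgroup G))
        ≤ r ^ n * Nat.card (Subgroup.center ↥(R : Subgroup G)) := Nat.mul_le_mul_right _ h9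
      _ = Nat.card ↥(R : Subgroup G) := by rw [mul_comm]; exact hmul
  have hwit : ∀ x : ↥(R : Subgroup G),
      x ∉ {x : ↥(R : Subgroup G) | x ∈ Subgroup.center ↥(R : Subgroup G)} →
      ∃ t : Finset ↥(R : Subgroup G), 3 ≤ t.card ∧ ∀ z ∈ t,
        (fun x : ↥(R : Subgroup G) => ConjClasses.mk (x : G)) z =
          (fun x : ↥(R : Subgroup G) => ConjClasses.mk (x : G)) x ∧
        z ∉ {x : ↥(R : Subgroup G) | x ∈ Subgroup.center ↥(R : Subgroup G)} := by
    intro x hx
    have hx' : x ∉ Subgroup.center ↥(R : Subgroup G) := hx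
    obtain ⟨u, hu⟩ : ∃ u : ↥(R : Subgroup G), u * x ≠ x * u := by
      by_contra hcon
      apply hx'
      rw [Subgroup.mem_center_iff]
      intro g
      by_contra hg
      exact hcon ⟨g, hg⟩
    obtain ⟨y, hy⟩ : ∃ y : ↥(R : Subgroup G), y = u * x * u⁻¹ := ⟨_, rfl⟩
    obtain ⟨z, hz⟩ : ∃ z : ↥(R : Subgroup G), z = u * y * u⁻¹ := ⟨_, rfl⟩
    have hxy : x ≠ y := by
      intro h
      apply hu
      calc u * x = u * x * u⁻¹ * u := by group
        _ = x * u := by rw [← hy, ← h]
    have hyz : y ≠ z := by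
      intro h
      apply hxy
      have h1 : u * x * u⁻¹ = u * y * u⁻¹ := by rw [← hy, ← hz]; exact h
      exact mul_left_cancel (mul_right_cancel h1)
    have hxz : x ≠ z := by
      intro h
      apply hxy
      obtain ⟨m, hm⟩ := IsPGroup.iff_orderOf.mp R.2 u
      have hodd : (orderOf u).Coprime 2 := by
        rw [hm]
        exact Nat.Coprime.pow_left m hcop2
      have h1 : u * (u * x * u⁻¹) * u⁻¹ = x := by rw [← hy, ← hz]; exact h.symm
      have h2 := S3895.odd_aux2 u x hodd h1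
      rw [hy, h2]
    have hcy : ConjClasses.mk ((y : ↥(R : Subgroup G)) : G) = ConjClasses.mk (x : G) := by
      rw [hy]
      show ConjClasses.mk ((u : G) * (x : G) * (u : G)⁻¹) = ConjClasses.mk (x : G)
      rw [ConjClasses.mk_eq_mk_iff_isConj, isConj_comm, isConj_iff]
      exact ⟨u, rfl⟩
    have hcz : ConjClasses.mk ((z : ↥(R : Subgroup G)) : G) = ConjClasses.mk (x : G) := by
      rw [← hcy, hz]
      show ConjClasses.mk ((u : G) * (y : G) * (u : G)⁻¹) = ConjClasses.mk (y : G)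
      rw [ConjClasses.mk_eq_mk_iff_isConj, isConj_comm, isConj_iff]
      exact ⟨u, rfl⟩
    have hyc : y ∉ Subgroup.center ↥(R : Subgroup G) := by
      intro hyc
      apply hxy
      have h1 := Subgroup.mem_center_iff.mp hyc u⁻¹
      calc x = u⁻¹ * (u * x * u⁻¹) * u := by group
        _ = u⁻¹ * y * u := by rw [← hy]
        _ = y * u⁻¹ * u := by rw [h1]
        _ = y := by group
    have hzc : z ∉ Subgroup.center ↥(R : Subgroup G) := by
      intro hzc
      apply hyz
      have h1 := Subgroup.mem_center_iff.mp hzc u⁻¹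
      calc y = u⁻¹ * (u * y * u⁻¹) * u := by group
        _ = u⁻¹ * z * u := by rw [← hz]
        _ = z * u⁻¹ * u := by rw [h1]
        _ = z := by group
    refine ⟨{x, y, z}, ?_, ?_⟩
    · have h3 : 2 < ({x, y, z} : Finset ↥(R : Subgroup G)).card := by
        rw [Finset.two_lt_card]
        exact ⟨x, by simp, y, by simp, z, by simp, hxy, hxz, hyz⟩
      exact h3
    · intro w hw
      rw [Finset.mem_insert, Finset.mem_insert, Finset.mem_singleton] at hw
      rcases hw with rfl | rfl | rfl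
      · exact ⟨rfl, hx⟩
      · exact ⟨hcy, hyc⟩
      · exact ⟨hcz, hzc⟩
  have hcnt := part_count (fun x : ↥(R : Subgroup G) => ConjClasses.mk (x : G))
    {x : ↥(R : Subgroup G) | x ∈ Subgroup.center ↥(R : Subgroup G)} 3 hwit
  have hS : Nat.card {x : ↥(R : Subgroup G) | x ∈ Subgroup.center ↥(R : Subgroup G)} =
      Nat.card (Subgroup.center ↥(R : Subgroup G)) := rfl
  rw [hS] at hcnt
  omega

theorem mem_sylow_of_mem_normalizer {G : Type*} [Group G] {p : ℕ} [Fact p.Prime] (P : Sylow p G)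
    (x : G) (hxN : x ∈ Subgroup.normalizer ((P : Subgroup G) : Set G)) (j : ℕ)
    (hx : orderOf x = p ^ j) : x ∈ (P : Subgroup G) := by
  have hpx : IsPGroup p (Subgroup.zpowers x) :=
    IsPGroup.of_card (n := j) (by rw [Nat.card_zpowers, hx])
  have hle : Subgroup.zpowers x ≤ Subgroup.normalizer ((P : Subgroup G) : Set G) := by
    rw [Subgroup.zpowers_le]
    exact hxN
  have hsup : IsPGroup p (Subgroup.zpowers x ⊔ (P : Subgroup G) : Subgroup G) :=
    IsPGroup.to_sup_of_normal_right' hpx P.2 hle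
  have heq : Subgroup.zpowers x ⊔ (P : Subgroup G) = P := P.3 hsup le_sup_right
  have h1 : x ∈ Subgroup.zpowers x ⊔ (P : Subgroup G) :=
    Subgroup.mem_sup_left (Subgroup.mem_zpowers x)
  rwa [heq] at h1

/-- the `r`-part of an element, as a power -/
theorem exists_ppart_pow {G : Type*} [Group G] (r : ℕ) (hr : r.Prime) (g : G)
    (hg : orderOf g ≠ 0) :
    ∃ a : ℕ, (∃ j : ℕ, orderOf (g ^ a) = r ^ j) ∧ ¬ r ∣ orderOf ((g ^ a)⁻¹ * g) ∧
      orderOf ((g ^ a)⁻¹ * g) ∣ orderOf g := by
  obtain ⟨e, m, hm, hnm⟩ := Nat.exists_eq_pow_mul_and_not_dvd hg r hr.ne_one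
  have hcop : (r ^ e).Coprime m :=
    Nat.Coprime.pow_left e ((Nat.Prime.coprime_iff_not_dvd hr).mpr hm)
  obtain ⟨a, ha1, ha0⟩ := Nat.chineseRemainder hcop 1 0
  have hma : m ∣ a := (Nat.modEq_zero_iff_dvd).mp ha0
  have h1 : (g ^ a) ^ (r ^ e) = 1 := by
    obtain ⟨a', ha'⟩ := hma
    rw [← pow_mul, ha', show m * a' * r ^ e = (r ^ e * m) * a' by ring, ← hnm, pow_mul,
      pow_orderOf_eq_one, one_pow]
  have h2 : ((g ^ a)⁻¹ * g) ^ m = 1 := by
    have hcomm : Commute (g ^ a)⁻¹ g := ((Commute.refl g).pow_left a).inv_left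
    rw [hcomm.mul_pow, inv_pow, ← pow_mul, inv_mul_eq_one, pow_eq_pow_iff_modEq, hnm]
    have h3 := Nat.ModEq.mul_right' m ha1
    rwa [one_mul] at h3
  refine ⟨a, ?_, ?_, ?_⟩
  · obtain ⟨j, -, hj⟩ := (Nat.dvd_prime_pow hr).mp (orderOf_dvd_of_pow_eq_one h1)
    exact ⟨j, hj⟩
  · intro hdvd
    exact hm (dvd_trans hdvd (orderOf_dvd_of_pow_eq_one h2))
  · rw [hnm]
    exact dvd_trans (orderOf_dvd_of_pow_eq_one h2) (dvd_mul_left m (r ^ e))

/-- odd-order elements of the normalizer centralize an abelian Sylow `r`-subgroup with many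
classes -/
theorem odd_normalizer_centralizes {G : Type*} [Group G] [Finite G] {r : ℕ} [Fact r.Prime]
    (hr2 : r ≠ 2) (R : Sylow r G)
    (hk : Nat.card ↥(R : Subgroup G) <
      2 * Nat.card (Set.range (fun x : ↥(R : Subgroup G) => ConjClasses.mk (x : G))))
    (hcomm : ∀ a b : ↥(R : Subgroup G), a * b = b * a)
    (α : G) (hαN : α ∈ Subgroup.normalizer ((R : Subgroup G) : Set G))
    (hodd : ¬ 2 ∣ orderOf α) :
    α ∈ Subgroup.centralizer ((R : Subgroup G) : Set G) := by
  have hr : r.Prime := Fact.out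
  have hr3 : 3 ≤ r := by
    have := hr.two_le
    omega
  have hRC : (R : Subgroup G) ≤ Subgroup.centralizer ((R : Subgroup G) : Set G) := by
    intro x hx
    rw [Subgroup.mem_centralizer_iff]
    intro y hy
    exact congrArg (fun z : ↥(R : Subgroup G) => (z : G)) (hcomm ⟨y, hy⟩ ⟨x, hx⟩)
  obtain ⟨a, ⟨j, hj⟩, hnd, hdvd⟩ := exists_ppart_pow r hr α (orderOf_pos α).ne'
  have hxN : α ^ a ∈ Subgroup.normalizer ((R : Subgroup G) : Set G) := pow_mem hαN a
  have hxR : α ^ a ∈ (R : Subgroup G) := mem_sylow_of_mem_normalizer R _ hxN j hj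
  have hxC := hRC hxR
  have hα'N : (α ^ a)⁻¹ * α ∈ Subgroup.normalizer ((R : Subgroup G) : Set G) :=
    mul_mem (inv_mem hxN) hαN
  have hα'2 : ¬ 2 ∣ orderOf ((α ^ a)⁻¹ * α) := fun h => hodd (dvd_trans h hdvd)
  by_contra hnot
  have hα'C : (α ^ a)⁻¹ * α ∉ Subgroup.centralizer ((R : Subgroup G) : Set G) := by
    intro h
    apply hnot
    have h1 := mul_mem hxC h
    have h2 : α ^ a * ((α ^ a)⁻¹ * α) = α := by group
    rwa [h2] at h1
  have hfix := fix_le R _ hα'C
  have hcop2 : Nat.Coprime 2 (orderOf ((α ^ a)⁻¹ * α)) :=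
    (Nat.Prime.coprime_iff_not_dvd Nat.prime_two).mpr hα'2
  have hcopr : Nat.Coprime r (orderOf ((α ^ a)⁻¹ * α)) :=
    (Nat.Prime.coprime_iff_not_dvd hr).mpr hnd
  have h3F : 3 * Nat.card {x : ↥(R : Subgroup G) // (α ^ a)⁻¹ * α * (x : G) * ((α ^ a)⁻¹ * α)⁻¹ = x} ≤
      Nat.card ↥(R : Subgroup G) := le_trans (Nat.mul_le_mul_right _ hr3) hfix
  rcases Nat.lt_or_ge r 5 with hlt | hge
  · have hr3' : r = 3 := by
      rcases Nat.lt_or_ge r 4 with h | h
      · omega
      · have h4 : r = 4 := by omega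
        rw [h4] at hr
        exact absurd hr (by norm_num)
    have hcop3 : Nat.Coprime 3 (orderOf ((α ^ a)⁻¹ * α)) := by
      rw [← hr3']
      exact hcopr
    have hcnt := orb_count R _ hα'N 5 (by
      intro d hd0 hd5
      interval_cases d
      · exact Nat.coprime_one_left _
      · exact hcop2
      · exact hcop3
      · simpa using Nat.Coprime.pow_left 2 hcop2)
    omega
  · have h5F : 5 * Nat.card {x : ↥(R : Subgroup G) // (α ^ a)⁻¹ * α * (x : G) * ((α ^ a)⁻¹ * α)⁻¹ = x} ≤
        Nat.card ↥(R : Subgroup G) := le_trans (Nat.mul_le_mul_right _ hge) hfix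
    have hcnt := orb_count R _ hα'N 3 (by
      intro d hd0 hd3
      interval_cases d
      · exact Nat.coprime_one_left _
      · exact hcop2)
    omega

theorem complement_any_sylow {G : Type*} [Group G] [Finite G]
    (h : Cfsg.HasNormalPComplement 2 G) (P : Sylow 2 G) :
    ∃ N : Subgroup G, N.Normal ∧ N.IsComplement' (P : Subgroup G) := by
  obtain ⟨P', N, hN, hcompl⟩ := h
  refine ⟨N, hN, ?_⟩
  have hcard : Nat.card ↥(P : Subgroup G) = Nat.card ↥(P' : Subgroup G) :=
    P.card_eq_multiplicity.trans P'.card_eq_multiplicity.symm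
  have hmul : Nat.card ↥N * Nat.card ↥(P : Subgroup G) = Nat.card G := by
    rw [hcard]
    exact hcompl.card_mul_card
  apply Subgroup.isComplement'_of_coprime hmul
  rw [P.card_eq_multiplicity]
  apply Nat.Coprime.pow_right
  rw [Nat.coprime_comm, Nat.Prime.coprime_iff_not_dvd Nat.prime_two]
  intro h2
  have hG : Nat.card G ≠ 0 := Nat.card_pos.ne'
  obtain ⟨d, hd⟩ := h2
  have h3 : 2 ^ ((Nat.card G).factorization 2 + 1) ∣
      Nat.card ↥N * Nat.card ↥(P : Subgroup G) :=
    ⟨d, by rw [hd, P.card_eq_multiplicity]; ring⟩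
  rw [hmul] at h3
  exact Nat.pow_succ_factorization_not_dvd hG Nat.prime_two h3

/-- a class of `r`-elements is *good* when one of its members is centralized by a full
Sylow `2`-subgroup -/
def Good {G : Type u} [Group G] (r : ℕ) (t : S3899.RCl r G) : Prop :=
  ∃ y : G, ConjClasses.mk y = t.1 ∧
    ∃ P₁ : Sylow 2 G, (P₁ : Subgroup G) ≤ Subgroup.centralizer ({y} : Set G)

/-- `2`-elements of the normalizer centralize the Sylow `r`-subgroup -/
theorem two_normalizer_centralizes {G : Type u} [Group G] [Finite G] {r : ℕ} [Fact r.Prime]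
    (hr2 : r ≠ 2) (R : Sylow r G) (hnc : Cfsg.HasNormalPComplement 2 G)
    (hcomm : ∀ a b : ↥(R : Subgroup G), a * b = b * a)
    (hodd : ∀ α ∈ Subgroup.normalizer ((R : Subgroup G) : Set G), ¬ 2 ∣ orderOf α →
      α ∈ Subgroup.centralizer ((R : Subgroup G) : Set G))
    (hw : Nat.card ↥(R : Subgroup G) <
      2 * Nat.card {t : S3899.RCl r G // Good r t} + Nat.card {t : S3899.RCl r G // ¬ Good r t})
    (α : G) (hαN : α ∈ Subgroup.normalizer ((R : Subgroup G) : Set G)) :
    α ∈ Subgroup.centralizer ((R : Subgroup G) : Set G) := by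
  classical
  by_contra hnot
  have hr : r.Prime := Fact.out
  have hr3 : 3 ≤ r := by
    have := hr.two_le
    omega
  have hfix := fix_le R α hnot
  have hconj : ∀ x : G, x ∈ (R : Subgroup G) → α * x * α⁻¹ ∈ (R : Subgroup G) := fun x hx =>
    (Subgroup.mem_normalizer_iff.mp hαN x).mp hx
  have hcnt := S3897.two_mul_card_range_le
    (fun x : ↥(R : Subgroup G) => ConjClasses.mk (x : G))
    (fun x : ↥(R : Subgroup G) => (⟨α * (x : G) * α⁻¹, hconj x x.2⟩ : ↥(R : Subgroup G)))
    (by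
      intro x y hxy
      have h1 : α * (x : G) * α⁻¹ = α * (y : G) * α⁻¹ :=
        congrArg (fun z : ↥(R : Subgroup G) => (z : G)) hxy
      exact Subtype.ext (mul_left_cancel (mul_right_cancel h1)))
    (by
      intro x
      show ConjClasses.mk (α * (x : G) * α⁻¹) = ConjClasses.mk (x : G)
      rw [ConjClasses.mk_eq_mk_iff_isConj, isConj_comm, isConj_iff]
      exact ⟨α, rfl⟩)
  have hF : Nat.card {x : ↥(R : Subgroup G) //
      (⟨α * (x : G) * α⁻¹, hconj x x.2⟩ : ↥(R : Subgroup G)) = x} =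
      Nat.card {x : ↥(R : Subgroup G) // α * (x : G) * α⁻¹ = x} :=
    Nat.card_congr (Equiv.subtypeEquivRight (fun x => Subtype.ext_iff))
  -- an element of R centralized by a full Sylow 2-subgroup is fixed by α
  have hgoodfix : ∀ x : ↥(R : Subgroup G),
      (∃ P₁ : Sylow 2 G, (P₁ : Subgroup G) ≤ Subgroup.centralizer ({(x : G)} : Set G)) →
      α * (x : G) * α⁻¹ = x := by
    rintro x ⟨P₁, hP₁⟩
    by_contra hmov
    obtain ⟨K, hKn, hKc⟩ := complement_any_sylow hnc P₁
    obtain ⟨⟨k, u⟩, hku⟩ := hKc.2 α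
    have hku' : (k : G) * (u : G) = α := hku
    have hux : (x : G) * (u : G) = (u : G) * (x : G) :=
      (Subgroup.mem_centralizer_iff.mp (hP₁ u.2)) _ (Set.mem_singleton _)
    have hstar : α * (x : G) * α⁻¹ = (k : G) * (x : G) * (k : G)⁻¹ := by
      rw [← hku']
      calc (k : G) * (u : G) * (x : G) * ((k : G) * (u : G))⁻¹
          = (k : G) * ((u : G) * (x : G)) * (u : G)⁻¹ * (k : G)⁻¹ := by group
        _ = (k : G) * ((x : G) * (u : G)) * (u : G)⁻¹ * (k : G)⁻¹ := by rw [hux]
        _ = (k : G) * (x : G) * (k : G)⁻¹ := by group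
    have hRK : (R : Subgroup G) ≤ K := by
      intro y hy
      rw [@Cfsg.Agent.S0086.result G _ _ 2 _ P₁ K hKn hKc y]
      obtain ⟨m, hm⟩ := IsPGroup.iff_orderOf.mp R.2 ⟨y, hy⟩
      rw [← Subgroup.orderOf_mk y hy, hm]
      exact Nat.Coprime.pow_left m ((Nat.coprime_primes hr Nat.prime_two).mpr hr2)
    have hxs : α * (x : G) * α⁻¹ ∈ (R : Subgroup G) := hconj x x.2
    have h1 : (R : Subgroup G) ≤ K ⊓ Subgroup.centralizer ({α * (x : G) * α⁻¹} : Set G) := by
      refine le_inf hRK ?_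
      intro y hy
      rw [Subgroup.mem_centralizer_iff]
      intro z hz
      rw [Set.mem_singleton_iff] at hz
      rw [hz]
      exact congrArg (fun z : ↥(R : Subgroup G) => (z : G)) (hcomm ⟨_, hxs⟩ ⟨y, hy⟩)
    have h2 : ((((k : G) • R : Sylow r G)) : Subgroup G) ≤
        K ⊓ Subgroup.centralizer ({α * (x : G) * α⁻¹} : Set G) := by
      rintro _ ⟨y, hy, rfl⟩
      refine Subgroup.mem_inf.mpr ⟨?_, ?_⟩
      · show (k : G) * y * (k : G)⁻¹ ∈ K
        exact hKn.conj_mem y (hRK hy) (k : G)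
      · rw [Subgroup.mem_centralizer_iff]
        intro z hz
        rw [Set.mem_singleton_iff] at hz
        rw [hz, hstar]
        have hxy : (x : G) * y = y * (x : G) :=
          congrArg (fun z : ↥(R : Subgroup G) => (z : G)) (hcomm x ⟨y, hy⟩)
        show (k : G) * (x : G) * (k : G)⁻¹ * ((k : G) * y * (k : G)⁻¹) =
          (k : G) * y * (k : G)⁻¹ * ((k : G) * (x : G) * (k : G)⁻¹)
        calc (k : G) * (x : G) * (k : G)⁻¹ * ((k : G) * y * (k : G)⁻¹)
            = (k : G) * ((x : G) * y) * (k : G)⁻¹ := by group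
          _ = (k : G) * (y * (x : G)) * (k : G)⁻¹ := by rw [hxy]
          _ = (k : G) * y * (k : G)⁻¹ * ((k : G) * (x : G) * (k : G)⁻¹) := by group
    obtain ⟨h, hh⟩ := MulAction.exists_smul_eq
      (↥(K ⊓ Subgroup.centralizer ({α * (x : G) * α⁻¹} : Set G)))
      ((((k : G) • R : Sylow r G)).subtype h2) (R.subtype h1)
    simp_rw [Sylow.smul_subtype, Subgroup.smul_def, smul_smul] at hh
    have hnN : (h : G) * (k : G) ∈ Subgroup.normalizer ((R : Subgroup G) : Set G) :=
      Sylow.smul_eq_iff_mem_normalizer.mp (Sylow.subtype_injective hh)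
    have hhK : (h : G) ∈ K := (Subgroup.mem_inf.mp h.2).1
    have hhC : (h : G) ∈ Subgroup.centralizer ({α * (x : G) * α⁻¹} : Set G) :=
      (Subgroup.mem_inf.mp h.2).2
    have hnK : (h : G) * (k : G) ∈ K := mul_mem hhK k.2
    have hnodd : ¬ 2 ∣ orderOf ((h : G) * (k : G)) := by
      have h5 := (@Cfsg.Agent.S0086.result G _ _ 2 _ P₁ K hKn hKc _).mp hnK
      exact (Nat.Prime.coprime_iff_not_dvd Nat.prime_two).mp h5.symm
    have hnC := hodd _ hnN hnodd
    have hnx : (h : G) * (k : G) * (x : G) * ((h : G) * (k : G))⁻¹ = x := by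
      have h6 := (Subgroup.mem_centralizer_iff.mp hnC) (x : G) x.2
      calc (h : G) * (k : G) * (x : G) * ((h : G) * (k : G))⁻¹
          = (x : G) * ((h : G) * (k : G)) * ((h : G) * (k : G))⁻¹ := by rw [h6]
        _ = x := by group
    have hhc : (α * (x : G) * α⁻¹) * (h : G) = (h : G) * (α * (x : G) * α⁻¹) :=
      (Subgroup.mem_centralizer_iff.mp hhC) _ (Set.mem_singleton _)
    apply hmov
    calc α * (x : G) * α⁻¹ = (α * (x : G) * α⁻¹) * (h : G) * (h : G)⁻¹ := by group
      _ = (h : G) * (α * (x : G) * α⁻¹) * (h : G)⁻¹ := by rw [hhc]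
      _ = (h : G) * ((k : G) * (x : G) * (k : G)⁻¹) * (h : G)⁻¹ :=
          congrArg (fun z : G => (h : G) * z * (h : G)⁻¹) hstar
      _ = (h : G) * (k : G) * (x : G) * ((h : G) * (k : G))⁻¹ := by group
      _ = x := hnx
  have ha : Nat.card {t : S3899.RCl r G // Good r t} ≤
      Nat.card {x : ↥(R : Subgroup G) // α * (x : G) * α⁻¹ = x} := by
    have hex : ∀ t : {t : S3899.RCl r G // Good r t}, ∃ x : ↥(R : Subgroup G),
        ConjClasses.mk (x : G) = t.1.1 ∧ α * (x : G) * α⁻¹ = x := by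
      intro t
      obtain ⟨x, hx⟩ := exists_rep_in_sylow R t.1
      refine ⟨x, hx, hgoodfix x ?_⟩
      obtain ⟨y, hy, P₁, hP₁⟩ := t.2
      have h1 : ConjClasses.mk y = ConjClasses.mk (x : G) := by rw [hy, hx]
      rw [ConjClasses.mk_eq_mk_iff_isConj, isConj_iff] at h1
      obtain ⟨g, hg⟩ := h1
      refine ⟨g • P₁, ?_⟩
      rintro _ ⟨w, hw, rfl⟩
      rw [Subgroup.mem_centralizer_iff]
      intro v hv
      rw [Set.mem_singleton_iff] at hv
      rw [hv, ← hg]
      have hwy : y * w = w * y :=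
        (Subgroup.mem_centralizer_iff.mp (hP₁ hw)) y (Set.mem_singleton y)
      show g * y * g⁻¹ * (g * w * g⁻¹) = g * w * g⁻¹ * (g * y * g⁻¹)
      calc g * y * g⁻¹ * (g * w * g⁻¹) = g * (y * w) * g⁻¹ := by group
        _ = g * (w * y) * g⁻¹ := by rw [hwy]
        _ = g * w * g⁻¹ * (g * y * g⁻¹) := by group
    choose f hf1 hf2 using hex
    apply Nat.card_le_card_of_injective
      (fun t => (⟨f t, hf2 t⟩ : {x : ↥(R : Subgroup G) // α * (x : G) * α⁻¹ = x}))
    intro t₁ t₂ h12
    have h3 : f t₁ = f t₂ :=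
      congrArg (fun z : {x : ↥(R : Subgroup G) // α * (x : G) * α⁻¹ = x} =>
        (z : ↥(R : Subgroup G))) h12
    apply Subtype.ext
    apply Subtype.ext
    rw [← hf1 t₁, ← hf1 t₂, h3]
  have hab : Nat.card {t : S3899.RCl r G // Good r t} +
      Nat.card {t : S3899.RCl r G // ¬ Good r t} = Nat.card (S3899.RCl r G) := by
    rw [← Nat.card_sum]
    exact Nat.card_congr (Equiv.sumCompl (fun t : S3899.RCl r G => Good r t))
  have hrange := card_rCl_le_range R
  have h3F : 3 * Nat.card {x : ↥(R : Subgroup G) // α * (x : G) * α⁻¹ = x} ≤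
      Nat.card ↥(R : Subgroup G) := le_trans (Nat.mul_le_mul_right _ hr3) hfix
  rw [hF] at hcnt
  omega

theorem card_le_of_fibers_two {α β : Type*} [Finite α] [Finite β] (f : α → β) (good : β → Prop)
    (M : ℕ) (h1 : ∀ b, Nat.card {a // f a = b} ≤ M)
    (h2 : ∀ b, ¬ good b → 2 * Nat.card {a // f a = b} ≤ M) :
    2 * Nat.card α ≤ (2 * Nat.card {b // good b} + Nat.card {b // ¬ good b}) * M := by
  classical
  have : Fintype β := Fintype.ofFinite β
  rw [← Nat.card_congr (Equiv.sigmaFiberEquiv f), Nat.card_sigma]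
  have hg : Nat.card {b // good b} = (Finset.univ.filter good).card := by
    rw [Nat.card_eq_fintype_card, Fintype.card_subtype]
  have hb : Nat.card {b // ¬ good b} = (Finset.univ.filter (fun b => ¬ good b)).card := by
    rw [Nat.card_eq_fintype_card, Fintype.card_subtype]
  rw [hg, hb, Finset.mul_sum]
  calc ∑ b, 2 * Nat.card {a // f a = b} ≤ ∑ b : β, (if good b then 2 * M else M) := by
        apply Finset.sum_le_sum
        intro b _
        split_ifs with hgb
        · exact Nat.mul_le_mul_left 2 (h1 b)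
        · exact h2 b hgb
    _ = (2 * (Finset.univ.filter good).card +
          (Finset.univ.filter (fun b => ¬ good b)).card) * M := by
        rw [Finset.sum_ite, Finset.sum_const, Finset.sum_const, smul_eq_mul, smul_eq_mul]
        ring

/-- the `r`-part map on classes of `(insert r σ)`-elements, with its fibres -/
theorem exists_rpart_map {G : Type u} [Group G] [Finite G] (r : ℕ) (hr : r.Prime)
    (σ : Finset ℕ) :
    ∃ Ψ : S3899.PiCl (insert r σ) G → S3899.RCl r G, ∀ (t : S3899.RCl r G) (y : G),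
      ConjClasses.mk y = t.1 →
      Nat.card {c : S3899.PiCl (insert r σ) G // Ψ c = t} ≤
        Nat.card (S3899.PiCl σ ↥(Subgroup.centralizer ({y} : Set G))) := by
  classical
  have hdata : ∀ c : S3899.PiCl (insert r σ) G, ∃ g x : G, ConjClasses.mk g = c.1 ∧
      x * g = g * x ∧ (∃ j : ℕ, orderOf x = r ^ j) ∧ ¬ r ∣ orderOf (x⁻¹ * g) ∧
      orderOf (x⁻¹ * g) ∣ orderOf g := by
    intro c
    obtain ⟨g, hg⟩ := ConjClasses.exists_rep c.1
    obtain ⟨x, hx⟩ := S3899.exists_rpart r hr g (orderOf_pos g).ne'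
    exact ⟨g, x, hg, hx⟩
  choose g x hg hxc hxr hxn hxd using hdata
  obtain ⟨Ψ, hΨ⟩ : ∃ Ψ : S3899.PiCl (insert r σ) G → S3899.RCl r G,
      ∀ c, (Ψ c).1 = ConjClasses.mk (x c) :=
    ⟨fun c => ⟨ConjClasses.mk (x c), fun z hz => by
      obtain ⟨j, hj⟩ := hxr c
      exact ⟨j, by rw [S3899.orderOf_eq_of_mem_carrier hz, hj]⟩⟩, fun c => rfl⟩
  refine ⟨Ψ, ?_⟩
  intro t y hy
  have hconj : ∀ c : {c : S3899.PiCl (insert r σ) G // Ψ c = t},
      ∃ u : G, u * x c.1 * u⁻¹ = y := by
    intro c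
    have h1 : ConjClasses.mk (x c.1) = ConjClasses.mk y := by
      rw [← hΨ c.1, c.2, hy]
    rw [ConjClasses.mk_eq_mk_iff_isConj, isConj_iff] at h1
    exact h1
  choose u hu using hconj
  have hcent : ∀ c : {c : S3899.PiCl (insert r σ) G // Ψ c = t},
      u c * ((x c.1)⁻¹ * g c.1) * (u c)⁻¹ ∈ Subgroup.centralizer ({y} : Set G) := by
    intro c
    rw [Subgroup.mem_centralizer_iff]
    intro z hz
    rw [Set.mem_singleton_iff] at hz
    rw [hz, ← hu c]
    exact S3899.cent_aux _ _ _ (hxc c.1)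
  obtain ⟨η, hη⟩ : ∃ η : {c : S3899.PiCl (insert r σ) G // Ψ c = t} →
      S3899.PiCl σ ↥(Subgroup.centralizer ({y} : Set G)),
      ∀ c, (η c).1 = ConjClasses.mk (⟨u c * ((x c.1)⁻¹ * g c.1) * (u c)⁻¹, hcent c⟩ :
        ↥(Subgroup.centralizer ({y} : Set G))) := by
    refine ⟨fun c => ⟨ConjClasses.mk (⟨u c * ((x c.1)⁻¹ * g c.1) * (u c)⁻¹, hcent c⟩ :
        ↥(Subgroup.centralizer ({y} : Set G))), fun z hz q hq hqz => ?_⟩, fun c => rfl⟩
    have ho : orderOf z = orderOf ((x c.1)⁻¹ * g c.1) := by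
      rw [S3899.orderOf_eq_of_mem_carrier hz, ← Subgroup.orderOf_coe]
      exact (MulAut.conj (u c)).orderOf_eq _
    rw [ho] at hqz
    have hgc : g c.1 ∈ c.1.1.carrier := ConjClasses.mem_carrier_iff_mk_eq.mpr (hg c.1)
    have hmem := c.1.2 (g c.1) hgc q hq (dvd_trans hqz (hxd c.1))
    rcases Finset.mem_insert.mp hmem with h | h
    · exact absurd (h ▸ hqz) (hxn c.1)
    · exact h
  apply Nat.card_le_card_of_injective η
  intro c₁ c₂ h12
  have h1 : ConjClasses.mk (⟨u c₁ * ((x c₁.1)⁻¹ * g c₁.1) * (u c₁)⁻¹, hcent c₁⟩ :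
      ↥(Subgroup.centralizer ({y} : Set G))) =
      ConjClasses.mk (⟨u c₂ * ((x c₂.1)⁻¹ * g c₂.1) * (u c₂)⁻¹, hcent c₂⟩ :
      ↥(Subgroup.centralizer ({y} : Set G))) := by
    rw [← hη c₁, ← hη c₂, h12]
  rw [ConjClasses.mk_eq_mk_iff_isConj, isConj_iff] at h1
  obtain ⟨v, hv⟩ := h1
  have hv' : (v : G) * (u c₁ * ((x c₁.1)⁻¹ * g c₁.1) * (u c₁)⁻¹) * (v : G)⁻¹ =
      u c₂ * ((x c₂.1)⁻¹ * g c₂.1) * (u c₂)⁻¹ := congrArg Subtype.val hv
  have hvy : y * (v : G) = (v : G) * y := by
    have h3 := v.2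
    rw [Subgroup.mem_centralizer_iff] at h3
    exact h3 _ (Set.mem_singleton _)
  obtain ⟨w, hw⟩ := S3899.key_inj (g c₁.1) (g c₂.1) (x c₁.1) (x c₂.1) y (u c₁) (u c₂) v
    (hu c₁) (hu c₂) hvy hv'
  have h2 : ConjClasses.mk (g c₁.1) = ConjClasses.mk (g c₂.1) :=
    ConjClasses.mk_eq_mk_iff_isConj.mpr (isConj_iff.mpr ⟨w, hw⟩)
  rw [hg, hg] at h2
  exact Subtype.ext (Subtype.ext h2)

/-- the weighted count of classes of `r`-elements -/
theorem weighted {G : Type u} [Group G] [Finite G] (π : Finset ℕ) (hπ : ∀ q ∈ π, q.Prime)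
    (h2 : 2 ∈ π) (r : ℕ) (hrπ : r ∈ π) (hr2 : r ≠ 2) [Fact r.Prime] (R : Sylow r G)
    (hk : π.prod (fun q => q ^ (Nat.card G).factorization q) < 2 * Nat.card (S3899.PiCl π G)) :
    Nat.card ↥(R : Subgroup G) <
      2 * Nat.card {t : S3899.RCl r G // Good r t} +
        Nat.card {t : S3899.RCl r G // ¬ Good r t} := by
  classical
  have hrp : r.Prime := hπ r hrπ
  have hins : insert r (π.erase r) = π := Finset.insert_erase hrπ
  have h2σ : 2 ∈ π.erase r := Finset.mem_erase.mpr ⟨fun h => hr2 h.symm, h2⟩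
  have hσ' : ∀ q ∈ π.erase r, q.Prime := fun q hq => hπ q (Finset.mem_of_mem_erase hq)
  have hσ'' : ∀ q ∈ (π.erase r).erase 2, q.Prime := fun q hq =>
    hσ' q (Finset.mem_of_mem_erase hq)
  obtain ⟨Ψ, hΨ⟩ := exists_rpart_map (G := G) r hrp (π.erase r)
  have hE : (2 : ℕ) ^ (Nat.card G).factorization 2 *
      ((π.erase r).erase 2).prod (fun s => s ^ (Nat.card G).factorization s) =
      (π.erase r).prod (fun s => s ^ (Nat.card G).factorization s) :=
    Finset.mul_prod_erase (π.erase r) (fun s => s ^ (Nat.card G).factorization s) h2σ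
  have hb1 : ∀ y : G, Nat.card (S3899.PiCl (π.erase r) ↥(Subgroup.centralizer ({y} : Set G))) ≤
      (π.erase r).prod (fun s => s ^ (Nat.card G).factorization s) := fun y =>
    le_trans (S3899.card_piCl_le (π.erase r) hσ' _)
      (S3899.prod_factorization_subgroup_le _ hσ' _)
  have hb2 : ∀ y : G,
      (¬ ∃ P₁ : Sylow 2 G, (P₁ : Subgroup G) ≤ Subgroup.centralizer ({y} : Set G)) →
      2 * Nat.card (S3899.PiCl (π.erase r) ↥(Subgroup.centralizer ({y} : Set G))) ≤
        (π.erase r).prod (fun s => s ^ (Nat.card G).factorization s) := by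
    intro y hy
    have hlt : (Nat.card ↥(Subgroup.centralizer ({y} : Set G))).factorization 2 <
        (Nat.card G).factorization 2 := by
      by_contra hge
      have hle : (Nat.card ↥(Subgroup.centralizer ({y} : Set G))).factorization 2 ≤
          (Nat.card G).factorization 2 :=
        (Nat.factorization_le_iff_dvd Nat.card_pos.ne' Nat.card_pos.ne').mpr
          (Subgroup.card_subgroup_dvd_card _) 2
      have heq : (Nat.card ↥(Subgroup.centralizer ({y} : Set G))).factorization 2 =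
          (Nat.card G).factorization 2 := by omega
      apply hy
      obtain ⟨Q⟩ : Nonempty (Sylow 2 ↥(Subgroup.centralizer ({y} : Set G))) := inferInstance
      have hQcard : Nat.card ((Q : Subgroup ↥(Subgroup.centralizer ({y} : Set G))).map
          (Subgroup.centralizer ({y} : Set G)).subtype) = 2 ^ (Nat.card G).factorization 2 := by
        rw [Subgroup.card_map_of_injective (Subgroup.subtype_injective _),
          Q.card_eq_multiplicity, heq]
      refine ⟨Sylow.ofCard _ hQcard, ?_⟩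
      rw [Sylow.coe_ofCard]
      rintro _ ⟨z, _, rfl⟩
      exact z.2
    have h3 := S3899.card_piCl_le (π.erase r) hσ' ↥(Subgroup.centralizer ({y} : Set G))
    have h4 : (π.erase r).prod
        (fun s => s ^ (Nat.card ↥(Subgroup.centralizer ({y} : Set G))).factorization s) =
        2 ^ (Nat.card ↥(Subgroup.centralizer ({y} : Set G))).factorization 2 *
        ((π.erase r).erase 2).prod
          (fun s => s ^ (Nat.card ↥(Subgroup.centralizer ({y} : Set G))).factorization s) :=
      (Finset.mul_prod_erase (π.erase r)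
        (fun s => s ^ (Nat.card ↥(Subgroup.centralizer ({y} : Set G))).factorization s) h2σ).symm
    have h5 := S3899.prod_factorization_subgroup_le ((π.erase r).erase 2) hσ''
      (Subgroup.centralizer ({y} : Set G))
    have h6 : 2 * 2 ^ (Nat.card ↥(Subgroup.centralizer ({y} : Set G))).factorization 2 ≤
        2 ^ (Nat.card G).factorization 2 := by
      rw [← pow_succ']
      exact Nat.pow_le_pow_right (by norm_num) hlt
    rw [h4] at h3
    rw [← hE]
    calc 2 * Nat.card (S3899.PiCl (π.erase r) ↥(Subgroup.centralizer ({y} : Set G)))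
        ≤ 2 * (2 ^ (Nat.card ↥(Subgroup.centralizer ({y} : Set G))).factorization 2 *
          ((π.erase r).erase 2).prod
            (fun s => s ^ (Nat.card ↥(Subgroup.centralizer ({y} : Set G))).factorization s)) :=
          Nat.mul_le_mul_left 2 h3
      _ = (2 * 2 ^ (Nat.card ↥(Subgroup.centralizer ({y} : Set G))).factorization 2) *
          ((π.erase r).erase 2).prod
            (fun s => s ^ (Nat.card ↥(Subgroup.centralizer ({y} : Set G))).factorization s) := by
          ring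
      _ ≤ 2 ^ (Nat.card G).factorization 2 *
          ((π.erase r).erase 2).prod (fun s => s ^ (Nat.card G).factorization s) :=
          Nat.mul_le_mul h6 h5
  have hmain := card_le_of_fibers_two Ψ (Good r)
    ((π.erase r).prod (fun s => s ^ (Nat.card G).factorization s))
    (fun t => by
      obtain ⟨y, hy⟩ := ConjClasses.exists_rep t.1
      exact le_trans (hΨ t y hy) (hb1 y))
    (fun t ht => by
      obtain ⟨y, hy⟩ := ConjClasses.exists_rep t.1
      have hyn : ¬ ∃ P₁ : Sylow 2 G, (P₁ : Subgroup G) ≤ Subgroup.centralizer ({y} : Set G) :=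
        fun h => ht ⟨y, hy, h⟩
      exact le_trans (Nat.mul_le_mul_left 2 (hΨ t y hy)) (hb2 y hyn))
  rw [hins] at hmain
  have hprod : r ^ (Nat.card G).factorization r *
      (π.erase r).prod (fun s => s ^ (Nat.card G).factorization s) =
      π.prod (fun s => s ^ (Nat.card G).factorization s) :=
    Finset.mul_prod_erase π (fun s => s ^ (Nat.card G).factorization s) hrπ
  rw [← R.card_eq_multiplicity] at hprod
  rw [← hprod] at hk
  exact Nat.lt_of_mul_lt_mul_right (lt_of_lt_of_le hk hmain)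

theorem many_r_classes {G : Type u} [Group G] [Finite G] (π : Finset ℕ) (hπ : ∀ q ∈ π, q.Prime)
    (r : ℕ) (hrπ : r ∈ π) [Fact r.Prime] (R : Sylow r G)
    (hk : π.prod (fun q => q ^ (Nat.card G).factorization q) < 2 * Nat.card (S3899.PiCl π G)) :
    Nat.card ↥(R : Subgroup G) < 2 * Nat.card (S3899.RCl r G) := by
  classical
  have hrp : r.Prime := hπ r hrπ
  have hins : insert r (π.erase r) = π := Finset.insert_erase hrπ
  have hσ' : ∀ q ∈ π.erase r, q.Prime := fun q hq => hπ q (Finset.mem_of_mem_erase hq)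
  have hM : ∀ y : G, Nat.card (S3899.PiCl (π.erase r) ↥(Subgroup.centralizer ({y} : Set G))) ≤
      (π.erase r).prod (fun s => s ^ (Nat.card G).factorization s) := fun y =>
    le_trans (S3899.card_piCl_le (π.erase r) hσ' _)
      (S3899.prod_factorization_subgroup_le _ hσ' _)
  have hD := S3899.card_piCl_insert_le r hrp (π.erase r) _ hM
  rw [hins] at hD
  have hprod : r ^ (Nat.card G).factorization r *
      (π.erase r).prod (fun s => s ^ (Nat.card G).factorization s) =
      π.prod (fun s => s ^ (Nat.card G).factorization s) :=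
    Finset.mul_prod_erase π (fun s => s ^ (Nat.card G).factorization s) hrπ
  rw [← R.card_eq_multiplicity] at hprod
  rw [← hprod] at hk
  have h1 : Nat.card ↥(R : Subgroup G) *
      (π.erase r).prod (fun s => s ^ (Nat.card G).factorization s) <
      2 * Nat.card (S3899.RCl r G) *
      (π.erase r).prod (fun s => s ^ (Nat.card G).factorization s) := by
    calc Nat.card ↥(R : Subgroup G) *
        (π.erase r).prod (fun s => s ^ (Nat.card G).factorization s)
        < 2 * Nat.card (S3899.PiCl π G) := hk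
      _ ≤ 2 * (Nat.card (S3899.RCl r G) *
          (π.erase r).prod (fun s => s ^ (Nat.card G).factorization s)) :=
          Nat.mul_le_mul_left _ hD
      _ = 2 * Nat.card (S3899.RCl r G) *
          (π.erase r).prod (fun s => s ^ (Nat.card G).factorization s) := by ring
  exact Nat.lt_of_mul_lt_mul_right h1

/-- Sylow subgroups central in their normalizers for all primes of `π` give a normal
`π`-complement and an abelian Hall `π`-subgroup -/
theorem assemble {G : Type*} [Group G] [Finite G] (π : Finset ℕ) (hπ : ∀ r ∈ π, r.Prime)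
    (hNC : ∀ r ∈ π, ∀ (_ : Fact r.Prime) (P : Sylow r G),
      Subgroup.normalizer ((P : Subgroup G) : Set G) ≤
        Subgroup.centralizer ((P : Subgroup G) : Set G)) :
    (∃ N : Subgroup G, N.Normal ∧ (∀ r : ℕ, r.Prime → r ∣ Nat.card ↥N → r ∉ π) ∧
      ∀ r : ℕ, r.Prime → r ∣ N.index → r ∈ π) ∧
    ∃ H : Subgroup G, Cfsg.IsPiHall (↑π : Set ℕ) H ∧ IsMulCommutative ↥H := by
  classical
  have hex : ∀ r ∈ π, ∃ K : Subgroup G, K.Normal ∧ ¬ r ∣ Nat.card K ∧
      (∃ j : ℕ, K.index = r ^ j) ∧ ∀ a b : G, a * b * a⁻¹ * b⁻¹ ∈ K := by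
    intro r hrπ
    have hrp : r.Prime := hπ r hrπ
    have hfact : Fact r.Prime := ⟨hrp⟩
    obtain ⟨P⟩ : Nonempty (Sylow r G) := inferInstance
    have hnc := hNC r hrπ hfact P
    have hcompl := MonoidHom.ker_transferSylow_isComplement' P hnc
    have hcommP : ∀ a b : ↥(P : Subgroup G), a * b = b * a := fun a b =>
      Subtype.ext (hnc (Subgroup.le_normalizer b.2) a a.2)
    refine ⟨(MonoidHom.transferSylow P hnc).ker, inferInstance,
      MonoidHom.not_dvd_card_ker_transferSylow P hnc,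
      ⟨_, hcompl.symm.index_eq_card.trans P.card_eq_multiplicity⟩, fun a b => ?_⟩
    rw [MonoidHom.mem_ker, map_mul, map_mul, map_mul, map_inv, map_inv,
      hcommP ((MonoidHom.transferSylow P hnc) a) ((MonoidHom.transferSylow P hnc) b),
      mul_inv_cancel_right, mul_inv_cancel]
  choose! K hKn hKcard hKidx hKcomm using hex
  obtain ⟨N, hNdef⟩ : ∃ N : Subgroup G, N = ⨅ r : {r // r ∈ π}, K r.1 := ⟨_, rfl⟩
  have hNmem : ∀ x : G, x ∈ N ↔ ∀ r ∈ π, x ∈ K r := by
    intro x
    rw [hNdef, Subgroup.mem_iInf]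
    exact ⟨fun h r hr => h ⟨r, hr⟩, fun h r => h r.1 r.2⟩
  have hNn : N.Normal := by
    rw [hNdef]
    exact Subgroup.normal_iInf_normal (fun r => hKn r.1 r.2)
  have hN2 : ∀ q : ℕ, q.Prime → q ∣ Nat.card ↥N → q ∉ π := by
    intro q _ hqd hqπ
    have hle : N ≤ K q := fun x hx => (hNmem x).mp hx q hqπ
    exact hKcard q hqπ (dvd_trans hqd (Subgroup.card_dvd_of_le hle))
  have hN3 : ∀ q : ℕ, q.Prime → q ∣ N.index → q ∈ π := by
    intro q hq hqd
    have hfact : Fact q.Prime := ⟨hq⟩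
    have hqd' : q ∣ Nat.card (G ⧸ N) := hqd
    obtain ⟨xb, hxb⟩ := exists_prime_orderOf_dvd_card' q hqd'
    obtain ⟨x, rfl⟩ := QuotientGroup.mk_surjective xb
    have hxN : x ∉ N := by
      intro hx
      have h1 : ((x : G) : G ⧸ N) = 1 := (QuotientGroup.eq_one_iff x).mpr hx
      rw [h1, orderOf_one] at hxb
      exact hq.one_lt.ne hxb
    have hxq : x ^ q ∈ N := by
      rw [← QuotientGroup.eq_one_iff, QuotientGroup.mk_pow, ← hxb, pow_orderOf_eq_one]
    rw [hNmem] at hxN
    push Not at hxN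
    obtain ⟨s, hsπ, hxs⟩ := hxN
    have hKs : (K s).Normal := hKn s hsπ
    have hxqs : x ^ q ∈ K s := (hNmem _).mp hxq s hsπ
    have hz1 : ((x : G) : G ⧸ K s) ≠ 1 := fun h => hxs ((QuotientGroup.eq_one_iff x).mp h)
    have hzq : ((x : G) : G ⧸ K s) ^ q = 1 := by
      rw [← QuotientGroup.mk_pow]
      exact (QuotientGroup.eq_one_iff _).mpr hxqs
    have ho : orderOf ((x : G) : G ⧸ K s) = q := orderOf_eq_prime hzq hz1
    have hdvd : q ∣ Nat.card (G ⧸ K s) := ho ▸ orderOf_dvd_natCard _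
    obtain ⟨j, hj⟩ := hKidx s hsπ
    have hdvd' : q ∣ s ^ j := by
      have h3 : Nat.card (G ⧸ K s) = (K s).index := rfl
      rw [h3, hj] at hdvd
      exact hdvd
    have hqs : q = s := (Nat.prime_dvd_prime_iff_eq hq (hπ s hsπ)).mp (hq.dvd_of_dvd_pow hdvd')
    rw [hqs]
    exact hsπ
  have hN4 : ∀ a b : G, a * b * a⁻¹ * b⁻¹ ∈ N := fun a b =>
    (hNmem _).mpr (fun r hr => hKcomm r hr a b)
  refine ⟨⟨N, hNn, hN2, hN3⟩, ?_⟩
  have hcop : (Nat.card ↥N).Coprime N.index :=
    Nat.coprime_of_dvd (fun q hq hqN hqI => hN2 q hq hqN (hN3 q hq hqI))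
  obtain ⟨H, hH⟩ := Subgroup.exists_right_complement'_of_coprime hcop
  have hHcard : N.index = Nat.card ↥H := hH.symm.index_eq_card
  have hHidx : H.index = Nat.card ↥N := hH.index_eq_card
  refine ⟨H, ⟨fun q hq hqd => ?_, fun q hq hqπ hqd => ?_⟩, ⟨⟨fun a b => ?_⟩⟩⟩
  · exact Finset.mem_coe.mpr (hN3 q hq (hHcard ▸ hqd))
  · exact hN2 q hq (hHidx ▸ hqd) (Finset.mem_coe.mp hqπ)
  · apply Subtype.ext
    have h1 : (a : G) * (b : G) * (a : G)⁻¹ * (b : G)⁻¹ ∈ N := hN4 a b
    have h3 : (a : G) * (b : G) * (a : G)⁻¹ * (b : G)⁻¹ ∈ H :=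
      mul_mem (mul_mem (mul_mem a.2 b.2) (inv_mem a.2)) (inv_mem b.2)
    have h4 : (a : G) * (b : G) * (a : G)⁻¹ * (b : G)⁻¹ = 1 :=
      Subgroup.disjoint_def.mp hH.disjoint h1 h3
    have h5 : (a : G) * (b : G) * (a : G)⁻¹ = (b : G) := mul_inv_eq_one.mp h4
    exact mul_inv_eq_iff_eq_mul.mp h5

/-- Let π be a finite set of primes containing 2 and G a finite group. Write k_π(G) for the number of conjugacy classes of G consisting of π-elements (elements all of whose order's prime divisors lie in π) and |G|_π for the π-part of the order of G. If k_π(G) > |G|_π/2, then G has a normal π-complement (a normal subgroup of order prime to π whose index is a π-number) and an abelian Hall subgroup for the set of odd primes in π. -/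
theorem result {G : Type*} [Group G] [Finite G] (π : Finset ℕ) (hπ : ∀ r ∈ π, r.Prime) (h2 : 2 ∈ π)
    (hk : π.prod (fun r => r ^ (Nat.card G).factorization r) < 2 * Nat.card {c : ConjClasses G // ∀ x ∈ c.carrier, ∀ r : ℕ, r.Prime → r ∣ orderOf x → r ∈ π}) :
    (∃ N : Subgroup G, N.Normal ∧ (∀ r : ℕ, r.Prime → r ∣ Nat.card ↥N → r ∉ π) ∧ ∀ r : ℕ, r.Prime → r ∣ N.index → r ∈ π) ∧ ∃ H : Subgroup G, Cfsg.IsPiHall ((↑π : Set ℕ) \ {2}) H ∧ IsMulCommutative ↥H := by
  classical
  obtain ⟨P⟩ : Nonempty (Sylow 2 G) := inferInstance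
  have hk2 := many_r_classes π hπ 2 h2 P hk
  have hnc : Cfsg.HasNormalPComplement 2 G := ((Cfsg.Agent.S3895.result P).mp hk2).1
  have hNC : ∀ r ∈ π.erase 2, ∀ (_ : Fact r.Prime) (R : Sylow r G),
      Subgroup.normalizer ((R : Subgroup G) : Set G) ≤
        Subgroup.centralizer ((R : Subgroup G) : Set G) := by
    intro r hr _ R
    have hr2 : r ≠ 2 := Finset.ne_of_mem_erase hr
    have hrπ : r ∈ π := Finset.mem_of_mem_erase hr
    have hk1 := many_r_classes π hπ r hrπ R hk
    have hk1' : Nat.card ↥(R : Subgroup G) <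
        2 * Nat.card (Set.range (fun x : ↥(R : Subgroup G) => ConjClasses.mk (x : G))) :=
      lt_of_lt_of_le hk1 (Nat.mul_le_mul_left 2 (card_rCl_le_range R))
    have hcomm := sylow_comm_of_many hr2 R hk1'
    have hodd : ∀ α ∈ Subgroup.normalizer ((R : Subgroup G) : Set G), ¬ 2 ∣ orderOf α →
        α ∈ Subgroup.centralizer ((R : Subgroup G) : Set G) := fun α hα h =>
      odd_normalizer_centralizes hr2 R hk1' hcomm α hα h
    have hw := weighted π hπ h2 r hrπ hr2 R hk
    intro α hα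
    obtain ⟨a, ⟨j, hj⟩, hnd, hdvd⟩ := exists_ppart_pow 2 Nat.prime_two α (orderOf_pos α).ne'
    have hxN : α ^ a ∈ Subgroup.normalizer ((R : Subgroup G) : Set G) := pow_mem hα a
    have hxC := two_normalizer_centralizes hr2 R hnc hcomm hodd hw (α ^ a) hxN
    have hα'N : (α ^ a)⁻¹ * α ∈ Subgroup.normalizer ((R : Subgroup G) : Set G) :=
      mul_mem (inv_mem hxN) hα
    have hα'C := hodd _ hα'N hnd
    have h1 := mul_mem hxC hα'C
    have h3 : α ^ a * ((α ^ a)⁻¹ * α) = α := by group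
    rwa [h3] at h1
  obtain ⟨⟨N₀, hN₀n, hN₀1, hN₀2⟩, H, hH, hHc⟩ :=
    assemble (π.erase 2) (fun r hr => hπ r (Finset.mem_of_mem_erase hr)) hNC
  obtain ⟨P₂, K, hKn, hKc⟩ := hnc
  have hKodd : ¬ 2 ∣ Nat.card ↥K := by
    intro hd
    obtain ⟨d, hd⟩ := hd
    have h3 : 2 ^ ((Nat.card G).factorization 2 + 1) ∣
        Nat.card ↥K * Nat.card ↥(P₂ : Subgroup G) :=
      ⟨d, by rw [hd, P₂.card_eq_multiplicity]; ring⟩
    rw [hKc.card_mul_card] at h3
    exact Nat.pow_succ_factorization_not_dvd Nat.card_pos.ne' Nat.prime_two h3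
  have hKidx : K.index = 2 ^ (Nat.card G).factorization 2 :=
    hKc.symm.index_eq_card.trans P₂.card_eq_multiplicity
  refine ⟨⟨N₀ ⊓ K, Subgroup.normal_inf_normal N₀ K, ?_, ?_⟩, H, ?_, hHc⟩
  · intro q hq hqd hqπ
    by_cases hq2 : q = 2
    · apply hKodd
      rw [← hq2]
      exact dvd_trans hqd (Subgroup.card_dvd_of_le inf_le_right)
    · exact hN₀1 q hq (dvd_trans hqd (Subgroup.card_dvd_of_le inf_le_left))
        (Finset.mem_erase.mpr ⟨hq2, hqπ⟩)
  · intro q hq hqd
    have h1 : (N₀ ⊓ K).relIndex K * K.index = (N₀ ⊓ K).index :=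
      Subgroup.relIndex_mul_index inf_le_right
    rw [Subgroup.inf_relIndex_right] at h1
    rw [← h1] at hqd
    rcases (Nat.Prime.dvd_mul hq).mp hqd with h | h
    · exact Finset.mem_of_mem_erase
        (hN₀2 q hq (dvd_trans h (Subgroup.relIndex_dvd_index_of_normal N₀ K)))
    · rw [hKidx] at h
      have hq2 : q = 2 := (Nat.prime_dvd_prime_iff_eq hq Nat.prime_two).mp (hq.dvd_of_dvd_pow h)
      rw [hq2]
      exact h2
  · have hset : ((π.erase 2 : Finset ℕ) : Set ℕ) = (↑π : Set ℕ) \ {2} := Finset.coe_erase 2 π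
    rw [← hset]
    exact hH

end Cfsg.Agent.S3898
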