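import Cfsg.Statements.S3904
-- import your own Cfsg.Agent.* helpers here
import Cfsg.Agent.Helper9.CMax

set_option autoImplicit false
open Cfsg

namespace Cfsg.Agent.S3904

open Cfsg.Agent.Helper9

/-- Let G be a non-abelian finite group in which the centralizer of every non-central element is a maximal subgroup. Then G/Z(G) is either an elementary abelian p-group for some prime p, or a minimal non-abelian group (non-abelian with all proper subgroups abelian) of order p^a · q for distinct primes p, q with a normal Sylow p-subgroup. -/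
theorem result {G : Type*} [Group G] [Finite G] (hna : ¬ IsMulCommutative G)
    (h : ∀ x : G, x ∉ Subgroup.center G → IsCoatom (Subgroup.centralizer ({x} : Set G))) :
    (∃ p : ℕ, p.Prime ∧ Cfsg.IsElementaryAbelian p (⊤ : Subgroup (G ⧸ Subgroup.center G))) ∨
    (¬ IsMulCommutative (G ⧸ Subgroup.center G) ∧ (∀ H : Subgroup (G ⧸ Subgroup.center G), H ≠ ⊤ → IsMulCommutative ↥H) ∧
      ∃ p q a : ℕ, p.Prime ∧ q.Prime ∧ p ≠ q ∧ Nat.card (G ⧸ Subgroup.center G) = p ^ a * q ∧
        ∀ P : Subgroup (G ⧸ Subgroup.center G), Nat.card ↥P = p ^ a → P.Normal) := by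
  by_cases hZ2 : ∃ x : G, x ∉ Subgroup.center G ∧ ∀ g : G, x⁻¹ * g⁻¹ * x * g ∈ Subgroup.center G
  · left
    obtain ⟨x, hx, hx2⟩ := hZ2
    obtain ⟨p, hp, hcomm, hpow⟩ := cm_caseA9 h x hx hx2
    refine ⟨p, hp, ⟨⟨⟨?_⟩⟩, ?_⟩⟩
    · rintro ⟨a, ha⟩ ⟨b, hb⟩
      apply Subtype.ext
      obtain ⟨a, rfl⟩ := QuotientGroup.mk_surjective a
      obtain ⟨b, rfl⟩ := QuotientGroup.mk_surjective b
      show (QuotientGroup.mk a : G ⧸ Subgroup.center G) * QuotientGroup.mk b =
        QuotientGroup.mk b * QuotientGroup.mk a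
      rw [← QuotientGroup.mk_mul, ← QuotientGroup.mk_mul, QuotientGroup.eq]
      have e : (a * b)⁻¹ * (b * a) = b⁻¹ * a⁻¹ * b * a := by group
      rw [e]
      exact hcomm b a
    · intro a _
      obtain ⟨a, rfl⟩ := QuotientGroup.mk_surjective a
      rw [← QuotientGroup.mk_pow]
      exact (QuotientGroup.eq_one_iff _).mpr (hpow a)
  · right
    push_neg at hZ2
    have hK := cm_caseB9 h hZ2
    have hnt : ∃ xb : G ⧸ Subgroup.center G, xb ≠ 1 := by
      by_contra hcon
      push_neg at hcon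
      apply hna
      refine ⟨⟨fun a b => ?_⟩⟩
      have ha : a ∈ Subgroup.center G := (QuotientGroup.eq_one_iff a).mp (hcon _)
      exact (Subgroup.mem_center_iff.mp ha b).symm
    exact cm_struct9 hK hnt

end Cfsg.Agent.S3904
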