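import Cfsg.Statements.S3908
import Cfsg.Agent.Helper21.AbelConj

set_option autoImplicit false
open Cfsg

namespace Cfsg.Agent.S3908

/-- Let G be a finite group in which any two abelian subgroups of the same order are conjugate. Then a Sylow 2-subgroup of G is cyclic, elementary abelian or generalized quaternion, and for an odd prime p a Sylow p-subgroup of G is cyclic or has exponent dividing p. -/
theorem result {G : Type*} [Group G] [Finite G] (hB : ∀ A B : Subgroup G, IsMulCommutative ↥A → IsMulCommutative ↥B → Nat.card ↥A = Nat.card ↥B → ∃ g : G, B = A.map (MulAut.conj g).toMonoidHom) :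
    (∀ P : Sylow 2 G, IsCyclic ↥(P : Subgroup G) ∨ Cfsg.IsElementaryAbelian 2 (P : Subgroup G) ∨ ∃ k : ℕ, Nonempty (↥(P : Subgroup G) ≃* QuaternionGroup (2 ^ k))) ∧
    ∀ (p : ℕ) [Fact p.Prime], p ≠ 2 → ∀ P : Sylow p G, IsCyclic ↥(P : Subgroup G) ∨ ∀ x ∈ (P : Subgroup G), x ^ p = 1 := by
  have hB2 : ∀ (p : ℕ), ∀ A B : Subgroup G, IsMulCommutative ↥A → IsMulCommutative ↥B →
      Nat.card ↥A = p ^ 2 → Nat.card ↥B = p ^ 2 →
      ∃ g : G, B = A.map (MulAut.conj g).toMonoidHom :=
    fun p A B hA hBc h1 h2 => hB A B hA hBc (h1.trans h2.symm)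
  refine ⟨fun P => ?_, fun p hp hp2 P => ?_⟩
  · rcases Cfsg.Agent.Helper21.sylow_unique_or_exp P (hB2 2) with hu | he
    · rcases Cfsg.Agent.Helper1.pgroup_unique_cyclic_or_quat 2 P.isPGroup' hu with hc | ⟨-, hq⟩
      · exact Or.inl hc
      · exact Or.inr (Or.inr hq)
    · refine Or.inr (Or.inl ⟨?_, he⟩)
      refine IsMulCommutative.of_setLike_mul_comm ?_
      intro a ha b hb
      have h1 := he a ha
      have h2 := he b hb
      have h3 := he (a * b) (mul_mem ha hb)
      rw [pow_two] at h1 h2 h3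
      have ha' : a⁻¹ = a := inv_eq_of_mul_eq_one_left h1
      have hb' : b⁻¹ = b := inv_eq_of_mul_eq_one_left h2
      have hab' : (a * b)⁻¹ = a * b := inv_eq_of_mul_eq_one_left h3
      calc a * b = (a * b)⁻¹ := hab'.symm
        _ = b⁻¹ * a⁻¹ := mul_inv_rev a b
        _ = b * a := by rw [ha', hb']
  · haveI := hp
    rcases Cfsg.Agent.Helper21.sylow_unique_or_exp P (hB2 p) with hu | he
    · rcases Cfsg.Agent.Helper1.pgroup_unique_cyclic_or_quat p P.isPGroup' hu with hc | ⟨h2, -⟩
      · exact Or.inl hc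
      · exact absurd h2 hp2
    · exact Or.inr he

end Cfsg.Agent.S3908
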