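import Cfsg.Statements.S3910
import Cfsg.Agent.Helper21.NilCoprime
import Cfsg.Agent.S3909

set_option autoImplicit false
open Cfsg

namespace Cfsg.Agent.S3910

/-- A finite nilpotent group in which any two abelian subgroups of the same order are conjugate is cyclic. -/
theorem result {G : Type*} [Group G] [Finite G] (hB : ∀ A B : Subgroup G, IsMulCommutative ↥A → IsMulCommutative ↥B → Nat.card ↥A = Nat.card ↥B → ∃ g : G, B = A.map (MulAut.conj g).toMonoidHom) (hnil : Group.IsNilpotent G) : IsCyclic G := by
  have := hnil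
  have hNC : NormalizerCondition G := Group.normalizerCondition_of_isNilpotent
  obtain ⟨x, hdiv⟩ := Helper21.exists_orderOf_dvd_of_nilpotent (G := G)
  have hxpos : 0 < orderOf x := orderOf_pos x
  have htop : Subgroup.zpowers x = ⊤ := by
    rcases eq_top_or_exists_le_coatom (Subgroup.zpowers x) with h | ⟨M, hM, hxM⟩
    · exact h
    · exfalso
      have : M.Normal := Subgroup.NormalizerCondition.normal_of_coatom M hNC hM
      obtain ⟨y, hy⟩ : ∃ y, y ∉ M := by
        by_contra hcon
        exact hM.1 (eq_top_iff.mpr fun g _ => by_contra fun hg => hcon ⟨g, hg⟩)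
      apply hy
      apply (Cfsg.Agent.S3909.result hB M).1 y
      refine ⟨x ^ (orderOf x / orderOf y), ?_, ?_⟩
      · exact M.pow_mem (hxM (Subgroup.mem_zpowers x)) _
      · exact orderOf_pow_orderOf_div hxpos.ne' (hdiv y)
  exact isCyclic_iff_exists_zpowers_eq_top.mpr ⟨x, htop⟩

end Cfsg.Agent.S3910
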