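import Cfsg.Statements.S3911
import Cfsg.Agent.Helper27.AbLift2

set_option autoImplicit false
open Cfsg

namespace Cfsg.Agent.S3911

/-- Let G be a finite group in which any two abelian subgroups of the same order are conjugate. If M is a normal subgroup of G of odd order, then any two abelian subgroups of G/M of the same order are conjugate in G/M. -/
theorem result {G : Type*} [Group G] [Finite G] (hB : ∀ A B : Subgroup G, IsMulCommutative ↥A → IsMulCommutative ↥B → Nat.card ↥A = Nat.card ↥B → ∃ g : G, B = A.map (MulAut.conj g).toMonoidHom) (M : Subgroup G) [M.Normal] (hM : Odd (Nat.card ↥M)) :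
    ∀ A B : Subgroup (G ⧸ M), IsMulCommutative ↥A → IsMulCommutative ↥B → Nat.card ↥A = Nat.card ↥B →
      ∃ g : G ⧸ M, B = A.map (MulAut.conj g).toMonoidHom := by
  intro Ab Bb hAc hBc hcard
  obtain ⟨A₀, hA₀c, hA₀sup, hA₀f⟩ := Cfsg.Agent.Helper27.ablift_quot hB M hM Ab hAc
  obtain ⟨B₀, hB₀c, hB₀sup, hB₀f⟩ := Cfsg.Agent.Helper27.ablift_quot hB M hM Bb hBc
  have hcard0 : Nat.card A₀ = Nat.card B₀ := by
    apply Nat.eq_of_factorization_eq Nat.card_pos.ne' Nat.card_pos.ne'
    intro p
    by_cases hp : p.Prime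
    · rw [hA₀f p hp, hB₀f p hp, hcard]
    · rw [Nat.factorization_eq_zero_of_not_prime _ hp,
        Nat.factorization_eq_zero_of_not_prime _ hp]
  obtain ⟨g, hg⟩ := hB A₀ B₀ hA₀c hB₀c hcard0
  refine ⟨(QuotientGroup.mk' M) g, ?_⟩
  have hAb : Ab = A₀.map (QuotientGroup.mk' M) := by
    have h1 := Subgroup.map_comap_eq_self_of_surjective (QuotientGroup.mk'_surjective M) Ab
    rw [← hA₀sup, Subgroup.map_sup, QuotientGroup.map_mk'_self, sup_bot_eq] at h1
    exact h1.symm
  have hBb : Bb = B₀.map (QuotientGroup.mk' M) := by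
    have h1 := Subgroup.map_comap_eq_self_of_surjective (QuotientGroup.mk'_surjective M) Bb
    rw [← hB₀sup, Subgroup.map_sup, QuotientGroup.map_mk'_self, sup_bot_eq] at h1
    exact h1.symm
  rw [hBb, hAb, hg, Subgroup.map_map, Subgroup.map_map]
  congr 1

end Cfsg.Agent.S3911
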