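import Cfsg.Statements.S3912
import Cfsg.Agent.Helper27.AbLift3
import Cfsg.Agent.Helper27.AbLift4
import Cfsg.Agent.Helper27.AbLift5

set_option autoImplicit false
open Cfsg

namespace Cfsg.Agent.S3912

/-- Let G be a finite solvable group in which any two abelian subgroups of the same order are conjugate. Then every quotient of G has the same property: any two abelian subgroups of the quotient of the same order are conjugate. -/
theorem result {G : Type*} [Group G] [Finite G] (hB : ∀ A B : Subgroup G, IsMulCommutative ↥A → IsMulCommutative ↥B → Nat.card ↥A = Nat.card ↥B → ∃ g : G, B = A.map (MulAut.conj g).toMonoidHom) (hsol : Group.IsSolvable G) (M : Subgroup G) [M.Normal] :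
    ∀ A B : Subgroup (G ⧸ M), IsMulCommutative ↥A → IsMulCommutative ↥B → Nat.card ↥A = Nat.card ↥B →
      ∃ g : G ⧸ M, B = A.map (MulAut.conj g).toMonoidHom := by
  classical
  haveI : Fact (Nat.Prime 2) := ⟨Nat.prime_two⟩
  have key : ∀ Ab Bb : Subgroup (G ⧸ M), IsMulCommutative ↥Ab → IsMulCommutative ↥Bb →
      Nat.card ↥Ab = Nat.card ↥Bb →
      ¬ (4 ∣ Nat.card ↥Ab ∧ 2 ∣ Nat.card M ∧
        ∃ P : Sylow 2 G, Nonempty (↥(P : Subgroup G) ≃* QuaternionGroup 2)) →
      ∃ g : G ⧸ M, Bb = Ab.map (MulAut.conj g).toMonoidHom := by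
    intro Ab Bb hAc hBc hcard hne
    have hgood : ∀ Cb : Subgroup (G ⧸ M), Nat.card ↥Cb = Nat.card ↥Ab → ∀ p : ℕ, p.Prime →
        p ∣ Nat.card M → p ∣ Nat.card Cb → ∀ S : Subgroup G,
        S ≤ Cb.comap (QuotientGroup.mk' M) → IsPGroup p S → IsCyclic S := by
      intro Cb hCb p hp hpM hpC S hS hSp
      haveI : Fact p.Prime := ⟨hp⟩
      have hpi : p ∣ M.index := by
        rw [Subgroup.index_eq_card]; exact hpC.trans (Subgroup.card_subgroup_dvd_card Cb)
      obtain ⟨P⟩ : Nonempty (Sylow p G) := inferInstance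
      by_cases hp2 : p = 2
      · subst hp2
        rcases (Cfsg.Agent.S3908.result hB).1 P with h | h | ⟨k, ⟨e⟩⟩
        · exact Cfsg.Agent.Helper27.cyclic_of_sylow_cyclic 2 P h S hSp
        · exact Cfsg.Agent.Helper27.cyclic_of_sylow_cyclic 2 P
            (Cfsg.Agent.Helper27.sylow_cyclic_of_exp hB M 2 hpM hpi P (Or.inr h.2)) S hSp
        · rcases Nat.lt_or_ge k 2 with hk | hk
          · have hk01 : k = 0 ∨ k = 1 := by omega
            rcases hk01 with rfl | rfl
            · have e1 : ↥(P : Subgroup G) ≃* QuaternionGroup 1 := e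
              haveI := QuaternionGroup.quaternionGroup_one_isCyclic
              have hc : IsCyclic ↥(P : Subgroup G) :=
                isCyclic_of_injective e1.toMonoidHom e1.injective
              exact Cfsg.Agent.Helper27.cyclic_of_sylow_cyclic 2 P hc S hSp
            · have e' : ↥(P : Subgroup G) ≃* QuaternionGroup 2 := e
              have h4 : ¬ 4 ∣ Nat.card ↥Cb := by
                intro h4
                exact hne ⟨hCb ▸ h4, hpM, P, ⟨e'⟩⟩
              exact Cfsg.Agent.Helper27.q8_small_cyclic hB M P e' hpi Cb h4 S hS hSp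
          · exact (Cfsg.Agent.Helper27.no_big_quaternion hB hsol P k hk e).elim
      · rcases (Cfsg.Agent.S3908.result hB).2 p hp2 P with h | h
        · exact Cfsg.Agent.Helper27.cyclic_of_sylow_cyclic p P h S hSp
        · exact Cfsg.Agent.Helper27.cyclic_of_sylow_cyclic p P
            (Cfsg.Agent.Helper27.sylow_cyclic_of_exp hB M p hpM hpi P (Or.inr h)) S hSp
    exact Cfsg.Agent.Helper27.conjB_pair hB M Ab Bb hAc hBc hcard (hgood Ab rfl)
      (hgood Bb hcard.symm)
  intro Ab Bb hAc hBc hcard
  by_cases hex : (4 ∣ Nat.card ↥Ab ∧ 2 ∣ Nat.card M ∧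
      ∃ P : Sylow 2 G, Nonempty (↥(P : Subgroup G) ≃* QuaternionGroup 2))
  · obtain ⟨h4, h2M, P, ⟨e⟩⟩ := hex
    have h8 : ¬ 8 ∣ Nat.card (G ⧸ M) := by
      intro h
      have hcardP : Nat.card (P : Subgroup G) = 8 := by
        rw [Nat.card_congr e.toEquiv, Nat.card_eq_fintype_card, QuaternionGroup.card]
      have hfac : (Nat.card G).factorization 2 = 3 := by
        have h1 := P.card_eq_multiplicity
        rw [hcardP] at h1
        have h23 : (2 : ℕ) ^ 3 = 2 ^ (Nat.card G).factorization 2 := by rw [← h1]; norm_num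
        exact (Nat.pow_right_injective (le_refl 2) h23).symm
      have h16 : 2 ^ 4 ∣ Nat.card G := by
        have h24 : (2 : ℕ) ^ 4 = 2 * 8 := by norm_num
        rw [h24, ← Subgroup.card_mul_index M, Subgroup.index_eq_card]
        exact Nat.mul_dvd_mul h2M h
      have h5 := (Nat.Prime.pow_dvd_iff_le_factorization Nat.prime_two Nat.card_pos.ne').1 h16
      omega
    exact Cfsg.Agent.Helper27.conjB_of_odd_part h8
      (fun A B hA hB' hc hn4 => key A B hA hB' hc (fun h => hn4 h.1)) Ab Bb hAc hBc hcard h4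
  · exact key Ab Bb hAc hBc hcard hex

end Cfsg.Agent.S3912
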