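import Cfsg.Statements.S3917
import Cfsg.Agent.Helper21.AbelianNonCyclic

set_option autoImplicit false
open Cfsg

namespace Cfsg.Agent.S3917

/-- Say that a group has self-centralizing non-cyclic subgroups when every non-cyclic subgroup H satisfies C_G(H) ≤ H. A finite abelian group with self-centralizing non-cyclic subgroups is cyclic or elementary abelian of order p² for a prime p. -/
theorem result {G : Type*} [CommGroup G] [Finite G] (hX : (∀ H : Subgroup G, ¬ IsCyclic ↥H → Subgroup.centralizer (H : Set G) ≤ H)) :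
    IsCyclic G ∨ ∃ p : ℕ, p.Prime ∧ Nat.card G = p ^ 2 ∧ Monoid.exponent G = p := by
  by_cases hcyc : IsCyclic G
  · exact Or.inl hcyc
  right
  have hstar : ∀ H : Subgroup G, ¬ IsCyclic ↥H → H = ⊤ := by
    intro H hH
    rw [eq_top_iff]
    intro g _
    apply hX H hH
    rw [Subgroup.mem_centralizer_iff]
    intro h _
    exact mul_comm h g
  have hnc : ∀ (p : ℕ), p.Prime → ∀ H : Subgroup G, (∀ a ∈ H, a ^ p = 1) →
      p < Nat.card ↥H → H = ⊤ := by
    intro p hp H hHp hcard
    apply hstar
    intro hc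
    have h1 : Monoid.exponent ↥H = Nat.card ↥H := IsCyclic.exponent_eq_card
    have h2 : Monoid.exponent ↥H ∣ p :=
      Monoid.exponent_dvd_iff_forall_pow_eq_one.mpr
        (fun a => Subtype.ext (by simpa using hHp a a.2))
    rw [h1] at h2
    exact absurd (Nat.le_of_dvd hp.pos h2) (not_le.mpr hcard)
  obtain ⟨p, hp, f, hf⟩ := Helper21.exists_surj_zmod_p_sq hcyc
  have : Fact p.Prime := ⟨hp⟩
  have : NeZero p := ⟨hp.ne_zero⟩
  have hp2 : p < p ^ 2 := by nlinarith [hp.two_le]
  have hker : ∀ a ∈ (powMonoidHom p : G →* G).ker, a ^ p = 1 := by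
    intro a ha
    rw [MonoidHom.mem_ker, powMonoidHom_apply] at ha
    exact ha
  have hpow : ∀ t : Multiplicative (ZMod p × ZMod p), t ^ p = 1 := by
    intro t
    apply Multiplicative.toAdd.injective
    rw [toAdd_pow, toAdd_one]
    ext <;> simp
  have hrange : (powMonoidHom p : G →* G).range ≤ f.ker := by
    rintro _ ⟨g, rfl⟩
    rw [MonoidHom.mem_ker, powMonoidHom_apply, map_pow]
    exact hpow _
  have hcardT : Nat.card (Multiplicative (ZMod p × ZMod p)) = p ^ 2 := by
    show Nat.card (ZMod p × ZMod p) = p ^ 2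
    rw [Nat.card_prod, Nat.card_zmod, sq]
  have hcardf : Nat.card f.ker * p ^ 2 = Nat.card G := by
    have h1 := f.ker.card_mul_index
    rwa [Subgroup.index_ker, MonoidHom.range_eq_top.mpr hf, Subgroup.card_top, hcardT] at h1
  have hcardφ : Nat.card (powMonoidHom p : G →* G).ker *
      Nat.card (powMonoidHom p : G →* G).range = Nat.card G := by
    have h1 := (powMonoidHom p : G →* G).ker.card_mul_index
    rwa [Subgroup.index_ker] at h1
  have hle : Nat.card (powMonoidHom p : G →* G).range ≤ Nat.card f.ker :=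
    Subgroup.card_le_of_le hrange
  have hbig : p ^ 2 ≤ Nat.card (powMonoidHom p : G →* G).ker := by
    have hpos : 0 < Nat.card (powMonoidHom p : G →* G).range := Nat.card_pos
    have h3 : p ^ 2 * Nat.card (powMonoidHom p : G →* G).range ≤
        Nat.card (powMonoidHom p : G →* G).ker * Nat.card (powMonoidHom p : G →* G).range := by
      rw [hcardφ, ← hcardf, mul_comm]
      exact Nat.mul_le_mul_right _ hle
    exact Nat.le_of_mul_le_mul_right h3 hpos
  have htop : (powMonoidHom p : G →* G).ker = ⊤ :=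
    hnc p hp _ hker (lt_of_lt_of_le hp2 hbig)
  have hall : ∀ g : G, g ^ p = 1 := fun g => hker g (htop ▸ Subgroup.mem_top g)
  have hdvd : p ^ 2 ∣ Nat.card G := Dvd.intro_left _ hcardf
  obtain ⟨S, hS⟩ := Sylow.exists_subgroup_card_pow_prime p hdvd
  have hStop : S = ⊤ := hnc p hp S (fun a _ => hall a) (by rw [hS]; exact hp2)
  have hcardG : Nat.card G = p ^ 2 := by
    rw [← Subgroup.card_top (G := G), ← hStop, hS]
  refine ⟨p, hp, hcardG, ?_⟩
  have hexp : Monoid.exponent G ∣ p := Monoid.exponent_dvd_iff_forall_pow_eq_one.mpr hall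
  rcases (Nat.dvd_prime hp).mp hexp with h1 | h2
  · exfalso
    have : Subsingleton G := Monoid.exp_eq_one_iff.mp h1
    have hc1 : Nat.card G = 1 := Nat.card_eq_one_iff_unique.mpr ⟨inferInstance, ⟨1⟩⟩
    rw [hcardG] at hc1
    nlinarith [hp.two_le]
  · exact h2

end Cfsg.Agent.S3917
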