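import Cfsg.Statements.S3918
import Cfsg.Agent.Helper24.NormalEA
import Cfsg.Agent.Helper24.NormalCenter

set_option autoImplicit false
open Cfsg

namespace Cfsg.Agent.S3918

/-- Say that a group has self-centralizing non-cyclic subgroups when every non-cyclic subgroup H satisfies C_G(H) ≤ H. For an odd prime p, a finite non-abelian p-group has self-centralizing non-cyclic subgroups if and only if it has order p³. -/
theorem result {G : Type*} [Group G] [Finite G] {p : ℕ} [Fact p.Prime] (hp : p ≠ 2) (hG : IsPGroup p G) (hna : ¬ IsMulCommutative G) :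
    (∀ H : Subgroup G, ¬ IsCyclic ↥H → Subgroup.centralizer (H : Set G) ≤ H) ↔ Nat.card G = p ^ 3 := by
  have hp' : p.Prime := Fact.out
  constructor
  · intro h
    have hnc : ¬ IsCyclic G := by
      intro hc
      apply hna
      refine ⟨⟨fun a b => ?_⟩⟩
      obtain ⟨g, hg⟩ := IsCyclic.exists_generator (α := G)
      obtain ⟨m, rfl⟩ := Subgroup.mem_zpowers_iff.mp (hg a)
      obtain ⟨n, rfl⟩ := Subgroup.mem_zpowers_iff.mp (hg b)
      exact (Commute.zpow_zpow_self g m n).eq
    obtain ⟨A, hAn, ⟨hAc, hAe⟩, hAcard⟩ :=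
      Cfsg.Agent.Helper24.exists_normal_elementary_sq hp hG hnc
    have hAnc : ¬ IsCyclic ↥A := by
      intro hc
      have h1 : Monoid.exponent ↥A = Nat.card ↥A := IsCyclic.exponent_eq_card
      have h2 : Monoid.exponent ↥A ∣ p := by
        apply Monoid.exponent_dvd_of_forall_pow_eq_one
        intro a
        apply Subtype.ext
        simpa using hAe a.1 a.2
      rw [h1, hAcard] at h2
      have h3 := Nat.le_of_dvd hp'.pos h2
      have h4 : p ^ 1 < p ^ 2 := Nat.pow_lt_pow_right hp'.one_lt (by norm_num)
      rw [pow_one] at h4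
      omega
    have hCA : Subgroup.centralizer (A : Set G) ≤ A := h A hAnc
    have hAC : A ≤ Subgroup.centralizer (A : Set G) := by
      intro a ha
      rw [Subgroup.mem_centralizer_iff]
      intro b hb
      exact congrArg Subtype.val (hAc.is_comm.comm ⟨b, hb⟩ ⟨a, ha⟩)
    have hCeq : Subgroup.centralizer (A : Set G) = A := le_antisymm hCA hAC
    have hidx := Cfsg.Agent.Helper24.index_centralizer_le_of_normal hG 2 A hAn hAcard
    have hch : Nat.choose 2 2 = 1 := by decide
    rw [hch, pow_one, hCeq] at hidx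
    have hmul := Subgroup.card_mul_index A
    rw [hAcard] at hmul
    obtain ⟨k, hk⟩ := (IsPGroup.iff_card).mp hG
    have hipos : 0 < A.index := Nat.pos_of_ne_zero Subgroup.index_ne_zero_of_finite
    have hle1 : p ^ 2 ≤ p ^ k := by
      rw [← hk, ← hmul]; exact Nat.le_mul_of_pos_right _ hipos
    have hle2 : p ^ k ≤ p ^ 3 := by
      rw [← hk, ← hmul]
      calc p ^ 2 * A.index ≤ p ^ 2 * p := Nat.mul_le_mul_left _ hidx
        _ = p ^ 3 := by ring
    have hk2 : 2 ≤ k := (Nat.pow_le_pow_iff_right hp'.one_lt).mp hle1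
    have hk3 : k ≤ 3 := (Nat.pow_le_pow_iff_right hp'.one_lt).mp hle2
    have hkne : k ≠ 2 := by
      rintro rfl
      apply hna
      exact ⟨⟨fun a b => IsPGroup.commutative_of_card_eq_prime_sq hk a b⟩⟩
    have hk3' : k = 3 := by omega
    rw [hk, hk3']
  · intro hcard H hH
    have hHdvd : Nat.card ↥H ∣ p ^ 3 := hcard ▸ Subgroup.card_subgroup_dvd_card H
    obtain ⟨k, hk3, hk⟩ := (Nat.dvd_prime_pow hp').mp hHdvd
    have hk01 : ¬ k ≤ 1 := by
      intro hk1
      apply hH
      apply isCyclic_of_card_dvd_prime (p := p)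
      rw [hk]
      calc p ^ k ∣ p ^ 1 := pow_dvd_pow p hk1
        _ = p := pow_one p
    rcases (by omega : k = 2 ∨ k = 3) with rfl | rfl
    · have hHcomm : ∀ a b : ↥H, a * b = b * a := IsPGroup.commutative_of_card_eq_prime_sq hk
      have hHC : H ≤ Subgroup.centralizer (H : Set G) := by
        intro a ha
        rw [Subgroup.mem_centralizer_iff]
        intro b hb
        exact congrArg Subtype.val (hHcomm ⟨b, hb⟩ ⟨a, ha⟩)
      have hCdvd : Nat.card ↥(Subgroup.centralizer (H : Set G)) ∣ p ^ 3 :=
        hcard ▸ Subgroup.card_subgroup_dvd_card _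
      obtain ⟨j, hj3, hj⟩ := (Nat.dvd_prime_pow hp').mp hCdvd
      have hj2 : 2 ≤ j := by
        have h1 := Subgroup.card_le_of_le hHC
        rw [hk, hj] at h1
        exact (Nat.pow_le_pow_iff_right hp'.one_lt).mp h1
      rcases (by omega : j = 2 ∨ j = 3) with rfl | rfl
      · have h1 := Subgroup.eq_of_le_of_card_ge hHC (by rw [hk, hj])
        rw [← h1]
      · exfalso
        have htop : Subgroup.centralizer (H : Set G) = ⊤ := by
          rw [← Subgroup.card_eq_iff_eq_top, hj, hcard]
        have hHZ : H ≤ Subgroup.center G := Subgroup.centralizer_eq_top_iff_subset.mp htop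
        have hZdvd : p ^ 2 ∣ Nat.card ↥(Subgroup.center G) := by
          rw [← hk]; exact Subgroup.card_dvd_of_le hHZ
        have hmul := Subgroup.card_mul_index (Subgroup.center G)
        rw [hcard] at hmul
        obtain ⟨c, hc⟩ := hZdvd
        have hidx : (Subgroup.center G).index ∣ p := by
          refine ⟨c, ?_⟩
          rw [hc] at hmul
          have h2 : p ^ 2 * (c * (Subgroup.center G).index) = p ^ 2 * p := by
            rw [← mul_assoc, hmul]; ring
          have h3 := Nat.eq_of_mul_eq_mul_left (pow_pos hp'.pos 2) h2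
          rw [← h3]; ring
        haveI : IsCyclic (G ⧸ Subgroup.center G) := by
          apply isCyclic_of_card_dvd_prime (p := p)
          rw [← Subgroup.index_eq_card]; exact hidx
        apply hna
        exact ⟨⟨fun a b => commutative_of_cyclic_center_quotient
          (QuotientGroup.mk' (Subgroup.center G)) (by rw [QuotientGroup.ker_mk']) a b⟩⟩
    · have htop : H = ⊤ := by
        rw [← Subgroup.card_eq_iff_eq_top, hk, hcard]
      rw [htop]; exact le_top

end Cfsg.Agent.S3918
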