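import Cfsg.Statements.S3920
import Cfsg.Agent.Helper21.DihSub

set_option autoImplicit false
open Cfsg

namespace Cfsg.Agent.S3920

/-- Say that a group has self-centralizing non-cyclic subgroups when every non-cyclic subgroup H satisfies C_G(H) ≤ H. For n ≥ 3, the dihedral group of order 2n has self-centralizing non-cyclic subgroups if and only if n is odd or a power of 2. -/
theorem result (n : ℕ) (hn : 3 ≤ n) : (∀ H : Subgroup (DihedralGroup n), ¬ IsCyclic ↥H → Subgroup.centralizer (H : Set (DihedralGroup n)) ≤ H) ↔ (Odd n ∨ ∃ k : ℕ, n = 2 ^ k) := by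
  have hn0 : NeZero n := ⟨by omega⟩
  constructor
  · intro h
    by_contra hcon
    push_neg at hcon
    obtain ⟨hodd, hpow⟩ := hcon
    obtain ⟨q, hq, hqn, hqodd⟩ : ∃ q, Nat.Prime q ∧ q ∣ n ∧ Odd q := by
      rcases Nat.eq_two_pow_or_exists_odd_prime_and_dvd n with ⟨k, hk⟩ | ⟨q, hq, hqn, hqo⟩
      · exact absurd hk (hpow k)
      · exact ⟨q, hq, hqn, hqo⟩
    have heven : Even n := Nat.not_odd_iff_even.mp hodd
    obtain ⟨c, hc⟩ := heven.two_dvd
    have hq3 : 3 ≤ q := by
      have := hq.two_le
      obtain ⟨s, hs⟩ := hqodd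
      omega
    have hqc : q ∣ c := by
      have h1 : q ∣ 2 * c := hc ▸ hqn
      rcases (Nat.Prime.dvd_mul hq).1 h1 with h2 | h2
      · have := Nat.le_of_dvd (by norm_num) h2
        omega
      · exact h2
    obtain ⟨d, hd⟩ := hqc
    have hd1 : 1 ≤ d := by
      rcases Nat.eq_zero_or_pos d with h0 | h0
      · subst h0
        rw [mul_zero] at hd
        omega
      · exact h0
    have hnqd : n = 2 * (q * d) := by rw [hc, hd]
    set A : AddSubgroup (ZMod n) := (AddMonoidHom.mulRight ((q : ℕ) : ZMod n)).ker with hA
    have hAmem : ∀ x : ZMod n, x ∈ A ↔ x * (q : ZMod n) = 0 := fun x => by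
      rw [hA, AddMonoidHom.mem_ker, AddMonoidHom.mulRight_apply]
    have hn0' : ((2 * (q * d) : ℕ) : ZMod n) = 0 := by
      rw [← hnqd]
      exact ZMod.natCast_self n
    have hs0 : DihedralGroup.sr (0 : ZMod n) ∈ Helper21.dihSub A := by
      rw [Helper21.sr_mem_dihSub, hAmem, zero_mul]
    have hr2 : DihedralGroup.r (((2 * d : ℕ) : ZMod n)) ∈ Helper21.dihSub A := by
      rw [Helper21.r_mem_dihSub, hAmem]
      push_cast at hn0' ⊢
      linear_combination hn0'
    have hnc : ¬ IsCyclic (Helper21.dihSub A) := by
      intro hcyc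
      have h0 := (IsCyclic.isMulCommutative (α := ↥(Helper21.dihSub A))).is_comm.comm
        ⟨_, hr2⟩ ⟨_, hs0⟩
      have h1 : DihedralGroup.r (((2 * d : ℕ) : ZMod n)) * DihedralGroup.sr 0
          = DihedralGroup.sr 0 * DihedralGroup.r ((2 * d : ℕ) : ZMod n) := congrArg Subtype.val h0
      rw [DihedralGroup.r_mul_sr, DihedralGroup.sr_mul_r] at h1
      have h3 := DihedralGroup.sr.inj h1
      have h4 : ((4 * d : ℕ) : ZMod n) = 0 := by
        push_cast at h3 ⊢
        linear_combination (-1 : ZMod n) * h3
      rw [ZMod.natCast_eq_zero_iff] at h4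
      have h5 := Nat.le_of_dvd (by omega) h4
      have h6 : 3 * d ≤ q * d := Nat.mul_le_mul_right d hq3
      omega
    have hcent := h _ hnc
    have hrc : DihedralGroup.r (((q * d : ℕ) : ZMod n)) ∈ Subgroup.centralizer
        ((Helper21.dihSub A : Subgroup (DihedralGroup n)) : Set (DihedralGroup n)) := by
      rw [Subgroup.mem_centralizer_iff]
      rintro (i | i) -
      · rw [DihedralGroup.r_mul_r, DihedralGroup.r_mul_r, add_comm]
      · rw [DihedralGroup.sr_mul_r, DihedralGroup.r_mul_sr]
        congr 1
        push_cast at hn0' ⊢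
        linear_combination hn0'
    have h7 := hcent hrc
    rw [Helper21.r_mem_dihSub, hAmem] at h7
    have h8 : ((q * d * q : ℕ) : ZMod n) = 0 := by
      push_cast at h7 ⊢
      exact h7
    rw [ZMod.natCast_eq_zero_iff, hnqd] at h8
    obtain ⟨e, he⟩ := h8
    have h9 : q = 2 * e := by
      have hqd : 0 < q * d := Nat.mul_pos hq.pos hd1
      have h10 : q * d * q = q * d * (2 * e) := by
        rw [he]
        ring
      exact Nat.eq_of_mul_eq_mul_left hqd h10
    obtain ⟨s, hs⟩ := hqodd
    omega
  · intro hcase H hnc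
    have hval : ∀ x : ZMod n, x + x = 0 → x ≠ 0 → x.val + x.val = n := by
      intro x hx hx0
      have h1 : (x + x).val = 0 := by rw [hx, ZMod.val_zero]
      rw [ZMod.val_add] at h1
      have h2 : x.val < n := ZMod.val_lt x
      have h3 : 0 < x.val := by
        rcases Nat.eq_zero_or_pos x.val with h0 | h0
        · exact absurd ((ZMod.val_eq_zero x).1 h0) hx0
        · exact h0
      have h4 : n ∣ x.val + x.val := Nat.dvd_of_mod_eq_zero h1
      obtain ⟨e, he⟩ := h4
      have he1 : e = 1 := by
        rcases Nat.lt_or_ge e 1 with h0 | h0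
        · have : e = 0 := by omega
          subst this
          rw [mul_zero] at he
          omega
        · rcases Nat.lt_or_ge e 2 with h5 | h5
          · omega
          · have := Nat.mul_le_mul_left n h5
            omega
      rw [he1, mul_one] at he
      exact he
    have h2tor : ∀ x y : ZMod n, x + x = 0 → y + y = 0 → x ≠ 0 → y ≠ 0 → x = y := by
      intro x y hx hy hx0 hy0
      apply ZMod.val_injective n
      have := hval x hx hx0
      have := hval y hy hy0
      omega
    have hZ : ∀ x : ZMod n, x + x = 0 → x ≠ 0 → ∀ j : ZMod n, j ≠ 0 →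
        DihedralGroup.r j ∈ H → DihedralGroup.r x ∈ H := by
      intro x hx hx0 j hj hjH
      rcases hcase with hodd | ⟨k, hk⟩
      · exfalso
        obtain ⟨m, hm⟩ := hodd
        have h5 : ((2 * m + 1 : ℕ) : ZMod n) = 0 := by
          rw [← hm]
          exact ZMod.natCast_self n
        apply hx0
        push_cast at h5
        linear_combination (-(m : ZMod n)) * hx + x * h5
      · have hP : ∃ a : ℕ, j * ((2 ^ a : ℕ) : ZMod n) = 0 :=
          ⟨k, by rw [← hk, ZMod.natCast_self, mul_zero]⟩
        classical
        obtain ⟨a, ha, hamin⟩ : ∃ a, j * ((2 ^ a : ℕ) : ZMod n) = 0 ∧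
            ∀ b < a, ¬ (j * ((2 ^ b : ℕ) : ZMod n) = 0) :=
          ⟨Nat.find hP, Nat.find_spec hP, fun b hb => Nat.find_min hP hb⟩
        have ha0 : a ≠ 0 := by
          intro h0
          rw [h0] at ha
          apply hj
          simpa using ha
        obtain ⟨b, rfl⟩ := Nat.exists_eq_add_one_of_ne_zero ha0
        have hnb := hamin b (by omega)
        have ht2 : j * ((2 ^ b : ℕ) : ZMod n) + j * ((2 ^ b : ℕ) : ZMod n) = 0 := by
          rw [← ha]
          push_cast
          ring
        have htH : DihedralGroup.r (j * ((2 ^ b : ℕ) : ZMod n)) ∈ H := by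
          have := H.pow_mem hjH (2 ^ b)
          rwa [DihedralGroup.r_pow] at this
        have heq : x = j * ((2 ^ b : ℕ) : ZMod n) := h2tor x _ hx ht2 hx0 hnb
        rw [heq]
        exact htH
    have hsr : ∃ i, DihedralGroup.sr i ∈ H := by
      by_contra hcon
      push_neg at hcon
      apply hnc
      have hle : H ≤ Subgroup.zpowers (DihedralGroup.r (1 : ZMod n)) := by
        rintro (a | a) ha
        · have : DihedralGroup.r a = DihedralGroup.r (1 : ZMod n) ^ a.val := by
            rw [DihedralGroup.r_one_pow, ZMod.natCast_zmod_val]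
          rw [this]
          exact Subgroup.npow_mem_zpowers _ _
        · exact absurd ha (hcon a)
      exact Subgroup.isCyclic_of_le hle
    obtain ⟨i, hi⟩ := hsr
    have hrj : ∃ j, j ≠ 0 ∧ DihedralGroup.r j ∈ H := by
      by_contra hcon
      push_neg at hcon
      apply hnc
      have hle : H ≤ Subgroup.zpowers (DihedralGroup.sr i) := by
        rintro (a | a) ha
        · have ha0 : a = 0 := by
            by_contra h0
            exact hcon a h0 ha
          rw [ha0, DihedralGroup.r_zero]
          exact Subgroup.one_mem _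
        · have h1 := H.mul_mem hi ha
          rw [DihedralGroup.sr_mul_sr] at h1
          have ha0 : a - i = 0 := by
            by_contra h0
            exact hcon _ h0 h1
          have : a = i := sub_eq_zero.1 ha0
          rw [this]
          exact Subgroup.mem_zpowers _
      exact Subgroup.isCyclic_of_le hle
    obtain ⟨j, hj0, hj⟩ := hrj
    rintro (x | x) hg
    · rw [Subgroup.mem_centralizer_iff] at hg
      have h1 := hg _ hi
      rw [DihedralGroup.sr_mul_r, DihedralGroup.r_mul_sr] at h1
      have h2 := DihedralGroup.sr.inj h1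
      have hx : x + x = 0 := by linear_combination h2
      by_cases hx0 : x = 0
      · rw [hx0, DihedralGroup.r_zero]
        exact H.one_mem
      · exact hZ x hx hx0 j hj0 hj
    · rw [Subgroup.mem_centralizer_iff] at hg
      have h1 := hg _ hi
      rw [DihedralGroup.sr_mul_sr, DihedralGroup.sr_mul_sr] at h1
      have h2 := DihedralGroup.r.inj h1
      have hx : (x - i) + (x - i) = 0 := by linear_combination h2
      by_cases hx0 : x - i = 0
      · have : x = i := sub_eq_zero.1 hx0
        rw [this]
        exact hi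
      · have h3 := hZ (x - i) hx hx0 j hj0 hj
        have h4 := H.mul_mem hi h3
        rw [DihedralGroup.sr_mul_r] at h4
        have h9 : i + (x - i) = x := by ring
        rwa [h9] at h4

end Cfsg.Agent.S3920
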