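import Cfsg.Statements.S3949
-- import your own Cfsg.Agent.* helpers here

set_option autoImplicit false
open Cfsg

namespace Cfsg.Agent.S3949

/-- Let G be a finite group and α an automorphism of G of order 2 such that the elements g·α(g)⁻¹ generate G. Let j be a positive integer such that 2^j divides the order of no element inverted by α. Then the set of values of the j-th iterate of the map c ↦ c·α(c)⁻¹ is exactly the set of elements of odd order inverted by α. -/
theorem result {G : Type*} [Group G] [Finite G] (α : MulAut G) (hα : orderOf α = 2) (hG : Subgroup.closure (Set.range (fun c : G => c * (α c)⁻¹)) = ⊤)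
    (j : ℕ) (hj : ∀ g : G, α g = g⁻¹ → ¬ 2 ^ j ∣ orderOf g) :
    Set.range ((fun c : G => c * (α c)⁻¹)^[j]) = {g : G | Odd (orderOf g) ∧ α g = g⁻¹} := by
  classical
  have hαα : ∀ g : G, α (α g) = g := by
    intro g
    have h2 : α ^ 2 = 1 := by rw [← hα]; exact pow_orderOf_eq_one α
    have : (α ^ 2) g = g := by rw [h2]; rfl
    simpa [pow_two] using this
  have hinv : ∀ c : G, α (c * (α c)⁻¹) = (c * (α c)⁻¹)⁻¹ := by
    intro c
    rw [map_mul, map_inv, hαα]
    group
  have hpow : ∀ (g : G), α g = g⁻¹ → ∀ k : ℕ, α (g ^ k) = (g ^ k)⁻¹ := by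
    intro g hg k
    rw [map_pow, hg, inv_pow]
  have hiter : ∀ (n : ℕ) (g : G), α g = g⁻¹ → (fun c : G => c * (α c)⁻¹)^[n] g = g ^ (2 ^ n) := by
    intro n
    induction n with
    | zero => intro g _; simp
    | succ n ih =>
      intro g hg
      rw [Function.iterate_succ_apply]
      have h1 : g * (α g)⁻¹ = g ^ 2 := by rw [hg, inv_inv, pow_two]
      rw [h1, ih (g ^ 2) (hpow g hg 2), ← pow_mul, pow_succ']
  have hj0 : j ≠ 0 := by
    intro h0
    have := hj 1 (by simp)
    simp [h0] at this
  obtain ⟨i, rfl⟩ : ∃ i, j = i + 1 := Nat.exists_eq_succ_of_ne_zero hj0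
  ext x
  constructor
  · rintro ⟨c, rfl⟩
    rw [Function.iterate_succ_apply]
    set h := c * (α c)⁻¹ with hh
    have hhinv : α h = h⁻¹ := hinv c
    rw [hiter i h hhinv]
    refine ⟨?_, hpow h hhinv _⟩
    have hpos : 0 < orderOf h := orderOf_pos h
    set a := (orderOf h).factorization 2 with ha
    set m := orderOf h / 2 ^ a with hm
    have hsplit : 2 ^ a * m = orderOf h := Nat.ordProj_mul_ordCompl_eq_self (orderOf h) 2
    have hai : a ≤ i := by
      by_contra hlt
      replace hlt : i < a := Nat.lt_of_not_le hlt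
      apply hj h hhinv
      calc 2 ^ (i + 1) ∣ 2 ^ a := pow_dvd_pow 2 hlt
        _ ∣ orderOf h := Nat.ordProj_dvd (orderOf h) 2
    have hmodd : ¬ 2 ∣ m := Nat.not_dvd_ordCompl Nat.prime_two hpos.ne'
    have hx : (h ^ 2 ^ i) ^ m = 1 := by
      rw [← pow_mul]
      apply orderOf_dvd_iff_pow_eq_one.mp
      rw [← hsplit]
      exact Nat.mul_dvd_mul_right (pow_dvd_pow 2 hai) m
    have hdvd : orderOf (h ^ 2 ^ i) ∣ m := orderOf_dvd_of_pow_eq_one hx
    rw [← Nat.not_even_iff_odd, even_iff_two_dvd]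
    intro h2
    exact hmodd (dvd_trans h2 hdvd)
  · rintro ⟨hodd, hg⟩
    set n := orderOf x with hn
    refine ⟨x ^ (((n + 1) / 2) ^ (i + 1)), ?_⟩
    rw [hiter (i + 1) _ (hpow x hg _), ← pow_mul, ← mul_pow]
    have h1 : (n + 1) / 2 * 2 = n + 1 := by
      obtain ⟨k, hk⟩ := hodd
      omega
    rw [h1]
    have h2 : ∀ t : ℕ, x ^ ((n + 1) ^ t) = x := by
      intro t
      induction t with
      | zero => simp
      | succ t ih =>
        rw [pow_succ, pow_mul, ih, pow_succ, hn, pow_orderOf_eq_one, one_mul]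
    exact h2 (i + 1)

end Cfsg.Agent.S3949
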