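import Cfsg.Statements.S3982
import Cfsg.Agent.Helper13.OddCent
import Cfsg.Agent.Helper24.NormalCenter
import Cfsg.Agent.Helper12.Syl

set_option autoImplicit false
open Cfsg

namespace Cfsg.Agent.S3982

/-- Let p be an odd prime and G a finite group of even order divisible by p in which the centralizer of every non-identity p-element has odd order. If some nontrivial p-subgroup of G has a normalizer of even order, then the normalizer of every Sylow p-subgroup of G has even order. -/
theorem result {G : Type*} [Group G] [Finite G] (p : ℕ) [Fact p.Prime] (hp2 : p ≠ 2) (hpG : p ∣ Nat.card G) (h2G : 2 ∣ Nat.card G) (hC : ∀ g : G, g ≠ 1 → (∃ k : ℕ, orderOf g = p ^ k) → Odd (Nat.card ↥(Subgroup.centralizer ({g} : Set G)))) (Q : Subgroup G) (hQ : IsPGroup p ↥Q) (hQ1 : Q ≠ ⊥) (hev : Even (Nat.card ↥(Subgroup.normalizer (Q : Set G)))) (P : Sylow p G) : Even (Nat.card ↥(Subgroup.normalizer ((P : Subgroup G) : Set G))) := by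
  classical
  have hevenN : ∀ (R : Subgroup G) (t : G), orderOf t = 2 → (∀ c : G, c ∈ R → t * c * t⁻¹ ∈ R) →
      Even (Nat.card ↥(Subgroup.normalizer (R : Set G))) := by
    intro R t ht hnorm
    have htt : t * t = 1 := by
      have h := pow_orderOf_eq_one t
      rw [ht, pow_two] at h
      exact h
    have htinv : t⁻¹ = t := inv_eq_of_mul_eq_one_left htt
    have hmem : t ∈ Subgroup.normalizer (R : Set G) := by
      rw [Subgroup.mem_set_normalizer_iff]
      intro c
      constructor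
      · intro hc
        exact hnorm c hc
      · intro hc
        have h1 := hnorm _ hc
        have e : t * (t * c * t⁻¹) * t⁻¹ = c := by
          rw [htinv]
          calc t * (t * c * t) * t = (t * t) * c * (t * t) := by group
            _ = c := by rw [htt, one_mul, mul_one]
        rwa [e] at h1
    have h2 : orderOf (⟨t, hmem⟩ : Subgroup.normalizer (R : Set G)) = 2 := by
      rw [Subgroup.orderOf_mk]
      exact ht
    have h3 := orderOf_dvd_natCard (⟨t, hmem⟩ : Subgroup.normalizer (R : Set G))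
    rw [h2] at h3
    exact even_iff_two_dvd.2 h3
  let 𝒮 : Set (Subgroup G) :=
    {R | IsPGroup p R ∧ R ≠ ⊥ ∧ Even (Nat.card ↥(Subgroup.normalizer (R : Set G)))}
  have h𝒮ne : 𝒮.Nonempty := ⟨Q, hQ, hQ1, hev⟩
  obtain ⟨R, hR𝒮, hRmax⟩ :=
    Set.exists_max_image 𝒮 (fun R : Subgroup G => Nat.card R) (Set.toFinite 𝒮) h𝒮ne
  obtain ⟨hRp, hR1, hRev⟩ := hR𝒮
  obtain ⟨t', ht'⟩ := exists_prime_orderOf_dvd_card' 2 (even_iff_two_dvd.1 hRev)
  have ht : orderOf (t' : G) = 2 := by
    rw [Subgroup.orderOf_coe]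
    exact ht'
  have htN : ∀ c : G, c ∈ R → (t' : G) * c * (t' : G)⁻¹ ∈ R := by
    intro c hc
    exact (Subgroup.mem_set_normalizer_iff.1 t'.2 c).1 hc
  have hfpf : ∀ c : G, c ∈ R → (t' : G) * c * (t' : G)⁻¹ = c → c = 1 := by
    intro c hc hcc
    by_contra hc1
    obtain ⟨k, hk⟩ := (IsPGroup.iff_orderOf.1 hRp) ⟨c, hc⟩
    rw [Subgroup.orderOf_mk] at hk
    have hodd := hC c hc1 ⟨k, hk⟩
    have htc : (t' : G) ∈ Subgroup.centralizer ({c} : Set G) := by
      rw [Subgroup.mem_centralizer_iff]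
      intro z hz
      rw [Set.mem_singleton_iff] at hz
      rw [hz]
      calc c * (t' : G) = ((t' : G) * c * (t' : G)⁻¹) * (t' : G) := by rw [hcc]
        _ = (t' : G) * c := by group
    have h2 : orderOf (⟨(t' : G), htc⟩ : Subgroup.centralizer ({c} : Set G)) = 2 := by
      rw [Subgroup.orderOf_mk]
      exact ht
    have h3 := orderOf_dvd_natCard (⟨(t' : G), htc⟩ : Subgroup.centralizer ({c} : Set G))
    rw [h2] at h3
    exact (Nat.not_even_iff_odd.2 hodd) (even_iff_two_dvd.2 h3)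
  have hinv := (Cfsg.Agent.Helper13.inverts_of_fpf_involution R (t' : G) ht htN hfpf).1
  obtain ⟨P₁, hRP₁⟩ := hRp.exists_le_sylow
  have hReq : R = (P₁ : Subgroup G) := by
    by_contra hne
    haveI : Group.IsNilpotent (P₁ : Subgroup G) := P₁.isPGroup'.isNilpotent
    have hlt' : R.subgroupOf (P₁ : Subgroup G) < ⊤ := by
      rw [lt_top_iff_ne_top]
      intro htop
      apply hne
      apply le_antisymm hRP₁
      intro y hy
      have h1 : (⟨y, hy⟩ : (P₁ : Subgroup G)) ∈ R.subgroupOf (P₁ : Subgroup G) := by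
        rw [htop]
        exact Subgroup.mem_top _
      exact Subgroup.mem_subgroupOf.1 h1
    have hnc := normalizerCondition_of_isNilpotent (G := ↥(P₁ : Subgroup G)) _ hlt'
    obtain ⟨s, hsN, hsR⟩ := SetLike.exists_of_lt hnc
    have hRS : R ≤ (P₁ : Subgroup G) ⊓ Subgroup.normalizer (R : Set G) :=
      le_inf hRP₁ Subgroup.le_normalizer
    have hsS : (s : G) ∈ (P₁ : Subgroup G) ⊓ Subgroup.normalizer (R : Set G) := by
      refine Subgroup.mem_inf.2 ⟨s.2, ?_⟩
      rw [Subgroup.mem_set_normalizer_iff]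
      intro c
      rw [Subgroup.mem_set_normalizer_iff] at hsN
      by_cases hcP : c ∈ (P₁ : Subgroup G)
      · exact hsN ⟨c, hcP⟩
      · constructor
        · intro hc
          exact absurd (hRP₁ hc) hcP
        · intro hc
          exfalso
          apply hcP
          have h1 := hRP₁ hc
          have e : c = (s : G)⁻¹ * ((s : G) * c * (s : G)⁻¹) * (s : G) := by group
          rw [e]
          exact Subgroup.mul_mem _ (Subgroup.mul_mem _ (Subgroup.inv_mem _ s.2) h1) s.2
    have hsR' : (s : G) ∉ R := fun hc => hsR (Subgroup.mem_subgroupOf.2 hc)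
    have hSp : IsPGroup p ↥((P₁ : Subgroup G) ⊓ Subgroup.normalizer (R : Set G)) :=
      P₁.isPGroup'.to_le inf_le_left
    have hRltS : Nat.card R < Nat.card ↥((P₁ : Subgroup G) ⊓ Subgroup.normalizer (R : Set G)) := by
      by_contra hcon
      push_neg at hcon
      have h1 := Subgroup.eq_of_le_of_card_ge hRS hcon
      exact hsR' (h1 ▸ hsS)
    haveI hRn : (R.subgroupOf ((P₁ : Subgroup G) ⊓ Subgroup.normalizer (R : Set G))).Normal :=
      (Subgroup.normal_subgroupOf_iff_le_normalizer hRS).2 inf_le_right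
    haveI : Group.IsNilpotent ↥((P₁ : Subgroup G) ⊓ Subgroup.normalizer (R : Set G)) :=
      hSp.isNilpotent
    have hRS1 : R.subgroupOf ((P₁ : Subgroup G) ⊓ Subgroup.normalizer (R : Set G)) ≠ ⊥ := by
      intro hbot
      apply hR1
      rw [Subgroup.eq_bot_iff_forall]
      intro y hy
      have h1 : (⟨y, hRS hy⟩ : ↥((P₁ : Subgroup G) ⊓ Subgroup.normalizer (R : Set G))) ∈
          R.subgroupOf ((P₁ : Subgroup G) ⊓ Subgroup.normalizer (R : Set G)) :=
        Subgroup.mem_subgroupOf.2 hy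
      rw [hbot, Subgroup.mem_bot] at h1
      exact congrArg Subtype.val h1
    obtain ⟨g', hg'R, hg'1, hg'c⟩ :=
      Cfsg.Agent.Helper24.exists_mem_center_of_normal
        (R.subgroupOf ((P₁ : Subgroup G) ⊓ Subgroup.normalizer (R : Set G))) hRS1
    have hgR : (g' : G) ∈ R := Subgroup.mem_subgroupOf.1 hg'R
    have hg1 : (g' : G) ≠ 1 := fun h1 => hg'1 (Subtype.ext h1)
    have hgc : ∀ y ∈ (P₁ : Subgroup G) ⊓ Subgroup.normalizer (R : Set G),
        y * (g' : G) = (g' : G) * y := by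
      intro y hy
      have h1 := (Subgroup.mem_center_iff.1 hg'c) ⟨y, hy⟩
      exact congrArg Subtype.val h1
    have htg : (t' : G) * (g' : G) * (t' : G)⁻¹ = (g' : G)⁻¹ := hinv _ hgR
    obtain ⟨k, hk⟩ := (IsPGroup.iff_orderOf.1 hRp) ⟨(g' : G), hgR⟩
    rw [Subgroup.orderOf_mk] at hk
    have hodd := hC _ hg1 ⟨k, hk⟩
    have hSC : (P₁ : Subgroup G) ⊓ Subgroup.normalizer (R : Set G) ≤
        Subgroup.centralizer ({(g' : G)} : Set G) := by
      intro y hy
      rw [Subgroup.mem_centralizer_iff]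
      intro z hz
      rw [Set.mem_singleton_iff] at hz
      rw [hz]
      exact (hgc y hy).symm
    obtain ⟨Q', hSQ', -, hQ'p, -, t₂, ht₂, ht₂n⟩ :=
      Cfsg.Agent.Helper13.exists_involution_normalizing_sylow_centralizer p (g' : G) (t' : G)
        htg ht hodd _ hSC hSp
    have hQ'𝒮 : Q' ∈ 𝒮 := by
      refine ⟨hQ'p, ?_, hevenN Q' t₂ ht₂ ht₂n⟩
      intro hbot
      apply hR1
      rw [eq_bot_iff, ← hbot]
      exact hRS.trans hSQ'
    have h1 : Nat.card Q' ≤ Nat.card R := hRmax Q' hQ'𝒮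
    have h2 := Subgroup.card_le_of_le hSQ'
    omega
  obtain ⟨g, hg⟩ := MulAction.exists_smul_eq G P₁ P
  apply hevenN (P : Subgroup G) (g * (t' : G) * g⁻¹)
  · have h1 : orderOf (g * (t' : G) * g⁻¹) = orderOf (t' : G) :=
      orderOf_injective (MulAut.conj g).toMonoidHom (MulAut.conj g).injective (t' : G)
    rw [h1]
    exact ht
  · intro c hc
    rw [← hg] at hc ⊢
    have h1 : g⁻¹ * c * g ∈ P₁ := (Cfsg.Agent.Helper12.mem_sylow_smul_iff P₁ g c).1 hc
    have h2 : (t' : G) * (g⁻¹ * c * g) * (t' : G)⁻¹ ∈ (P₁ : Subgroup G) := by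
      rw [← hReq]
      exact htN _ (by rw [hReq]; exact h1)
    apply (Cfsg.Agent.Helper12.mem_sylow_smul_iff P₁ g _).2
    have e : g⁻¹ * (g * (t' : G) * g⁻¹ * c * (g * (t' : G) * g⁻¹)⁻¹) * g
        = (t' : G) * (g⁻¹ * c * g) * (t' : G)⁻¹ := by group
    rw [e]
    exact h2

end Cfsg.Agent.S3982
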