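import Cfsg.Statements.S3983
-- import your own Cfsg.Agent.* helpers here

set_option autoImplicit false
open scoped Pointwise
open Cfsg

namespace Cfsg.Agent.S3983

/-- Let P be a Sylow p-subgroup of the finite group G that meets each conjugate g P g⁻¹ with g outside N_G(P) trivially, and let U be a subgroup of G of order divisible by p. Then a Sylow p-subgroup Q of U has the same property inside U: Q meets each conjugate u Q u⁻¹ with u ∈ U outside N_U(Q) trivially. -/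
theorem result {G : Type*} [Group G] [Finite G] (p : ℕ) [Fact p.Prime] (P : Sylow p G) (hTI : ∀ g : G, g ∉ Subgroup.normalizer ((P : Subgroup G) : Set G) → (P : Subgroup G) ⊓ (MulAut.conj g • (P : Subgroup G)) = ⊥) (U : Subgroup G) (hU : p ∣ Nat.card ↥U) (Q : Sylow p ↥U) : ∀ u : ↥U, u ∉ Subgroup.normalizer ((Q : Subgroup ↥U) : Set ↥U) → (Q : Subgroup ↥U) ⊓ (MulAut.conj u • (Q : Subgroup ↥U)) = ⊥ := by
  have hmem : ∀ (a x : G), x ∈ MulAut.conj a • (P : Subgroup G) ↔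
      a⁻¹ * x * a ∈ (P : Subgroup G) := by
    intro a x
    rw [Subgroup.mem_pointwise_smul_iff_inv_smul_mem, MulAut.smul_def, MulAut.conj_inv_apply]
  have hmemU : ∀ (a x : ↥U), x ∈ MulAut.conj a • (Q : Subgroup ↥U) ↔
      a⁻¹ * x * a ∈ (Q : Subgroup ↥U) := by
    intro a x
    rw [Subgroup.mem_pointwise_smul_iff_inv_smul_mem, MulAut.smul_def, MulAut.conj_inv_apply]
  have hTI2 : ∀ a b x : G, x ≠ 1 → a⁻¹ * x * a ∈ (P : Subgroup G) →
      b⁻¹ * x * b ∈ (P : Subgroup G) →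
      a⁻¹ * b ∈ Subgroup.normalizer ((P : Subgroup G) : Set G) := by
    intro a b x hx ha hb
    by_contra hn
    have h := hTI _ hn
    have hmem2 : a⁻¹ * x * a ∈ (P : Subgroup G) ⊓ (MulAut.conj (a⁻¹ * b) • (P : Subgroup G)) := by
      refine Subgroup.mem_inf.mpr ⟨ha, ?_⟩
      rw [hmem]
      have e : (a⁻¹ * b)⁻¹ * (a⁻¹ * x * a) * (a⁻¹ * b) = b⁻¹ * x * b := by group
      rw [e]; exact hb
    rw [h, Subgroup.mem_bot] at hmem2
    apply hx
    calc x = a * (a⁻¹ * x * a) * a⁻¹ := by group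
      _ = 1 := by rw [hmem2]; group
  have hQ' : IsPGroup p ↥((Q : Subgroup ↥U).map U.subtype) := Q.isPGroup'.map U.subtype
  obtain ⟨P', hP'⟩ := hQ'.exists_le_sylow
  obtain ⟨g, rfl⟩ := MulAction.exists_smul_eq G P P'
  have h1 : (Q : Subgroup ↥U) ≤ (MulAut.conj g • (P : Subgroup G)).subgroupOf U := by
    intro x hx
    rw [Subgroup.mem_subgroupOf]
    exact hP' (Subgroup.mem_map.mpr ⟨x, hx, rfl⟩)
  have h2 : IsPGroup p ↥((MulAut.conj g • (P : Subgroup G)).subgroupOf U) := by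
    have h0 : IsPGroup p ↥(MulAut.conj g • (P : Subgroup G)) := (g • P).isPGroup'
    exact h0.comap_subtype
  have h3 := Q.is_maximal' h2 h1
  have hQchar : ∀ x : ↥U, x ∈ (Q : Subgroup ↥U) ↔ g⁻¹ * (x : G) * g ∈ (P : Subgroup G) := by
    intro x
    rw [← hmem]
    constructor
    · intro hx; exact h1 hx
    · intro hx
      rw [← h3, Subgroup.mem_subgroupOf]
      exact hx
  intro u hu
  rw [Subgroup.eq_bot_iff_forall]
  intro x hx12
  obtain ⟨hx1, hx2⟩ := Subgroup.mem_inf.mp hx12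
  by_contra hx
  apply hu
  have hx2' : u⁻¹ * x * u ∈ (Q : Subgroup ↥U) := (hmemU u x).mp hx2
  have hxG : (x : G) ≠ 1 := fun h => hx (Subtype.ext h)
  have e1 := (hQchar x).mp hx1
  have e2 := (hQchar _).mp hx2'
  have e2' : ((u : G) * g)⁻¹ * (x : G) * ((u : G) * g) ∈ (P : Subgroup G) := by
    have e : ((u : G) * g)⁻¹ * (x : G) * ((u : G) * g) =
        g⁻¹ * ((u⁻¹ * x * u : ↥U) : G) * g := by
      simp only [Subgroup.coe_mul, Subgroup.coe_inv]
      group
    rw [e]; exact e2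
  have hn := hTI2 g ((u : G) * g) (x : G) hxG e1 e2'
  have hn' : ∀ h : G, h ∈ (P : Subgroup G) ↔
      (g⁻¹ * ((u : G) * g)) * h * (g⁻¹ * ((u : G) * g))⁻¹ ∈ (P : Subgroup G) :=
    Subgroup.mem_set_normalizer_iff.mp hn
  refine Subgroup.mem_set_normalizer_iff.mpr fun y => ?_
  show y ∈ (Q : Subgroup ↥U) ↔ u * y * u⁻¹ ∈ (Q : Subgroup ↥U)
  rw [hQchar, hQchar]
  have h4 := hn' (g⁻¹ * (y : G) * g)
  have e : (g⁻¹ * ((u : G) * g)) * (g⁻¹ * (y : G) * g) * (g⁻¹ * ((u : G) * g))⁻¹ =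
      g⁻¹ * ((u * y * u⁻¹ : ↥U) : G) * g := by
    simp only [Subgroup.coe_mul, Subgroup.coe_inv]
    group
  rw [e] at h4
  exact h4

end Cfsg.Agent.S3983
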