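import Cfsg.Statements.S3984
import Cfsg.Agent.Helper21.BaerSuzuki
import Cfsg.Agent.Helper1.Basic

set_option autoImplicit false
open scoped Pointwise
open Cfsg

namespace Cfsg.Agent.S3984

/-- Let P be a Sylow p-subgroup of the finite group G that meets each conjugate g P g⁻¹ with g outside N_G(P) trivially, and let N be a normal subgroup of G of order prime to p. Then every Sylow p-subgroup Q of G ⧸ N meets each conjugate x Q x⁻¹ with x outside its normalizer trivially. -/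
theorem result {G : Type*} [Group G] [Finite G] (p : ℕ) [Fact p.Prime] (P : Sylow p G) (hTI : ∀ g : G, g ∉ Subgroup.normalizer ((P : Subgroup G) : Set G) → (P : Subgroup G) ⊓ (MulAut.conj g • (P : Subgroup G)) = ⊥) (N : Subgroup G) [N.Normal] (hN : (Nat.card ↥N).Coprime p) (Q : Sylow p (G ⧸ N)) : ∀ x : G ⧸ N, x ∉ Subgroup.normalizer ((Q : Subgroup (G ⧸ N)) : Set (G ⧸ N)) → (Q : Subgroup (G ⧸ N)) ⊓ (MulAut.conj x • (Q : Subgroup (G ⧸ N))) = ⊥ := by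
  classical
  intro xb hxb
  rw [Subgroup.eq_bot_iff_forall]
  intro ub hub
  by_contra hub1
  apply hxb
  obtain ⟨hubQ, hubx⟩ := Subgroup.mem_inf.1 hub
  rw [Cfsg.Agent.Helper1.mem_conj_smul] at hubx
  have hTIe : ∀ g u : G, u ∈ (P : Subgroup G) → g⁻¹ * u * g ∈ (P : Subgroup G) → u ≠ 1 →
      g ∈ Subgroup.normalizer ((P : Subgroup G) : Set G) := by
    intro g u hu hgu hu1
    by_contra hg
    have h1 := hTI g hg
    have h2 : u ∈ (P : Subgroup G) ⊓ (MulAut.conj g • (P : Subgroup G)) :=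
      Subgroup.mem_inf.2 ⟨hu, Cfsg.Agent.Helper1.mem_conj_smul.2 hgu⟩
    rw [h1, Subgroup.mem_bot] at h2
    exact hu1 h2
  obtain ⟨P', hP'⟩ := Sylow.mapSurjective_surjective (QuotientGroup.mk'_surjective N) p Q
  have hQ : ∀ y : G ⧸ N, y ∈ (Q : Subgroup (G ⧸ N)) ↔
      ∃ s ∈ (P' : Subgroup G), (s : G ⧸ N) = y := by
    intro y
    rw [← hP', Sylow.coe_mapSurjective]
    exact Subgroup.mem_map
  obtain ⟨c, hc⟩ := MulAction.exists_smul_eq G P P'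
  have hP'mem : ∀ z, z ∈ (P' : Subgroup G) ↔ c⁻¹ * z * c ∈ (P : Subgroup G) := by
    intro z; rw [← hc]; exact Cfsg.Agent.Helper12.mem_sylow_smul_iff P c z
  have hTI' : ∀ g u : G, u ∈ (P' : Subgroup G) → g⁻¹ * u * g ∈ (P' : Subgroup G) → u ≠ 1 →
      ∀ s ∈ (P' : Subgroup G), g * s * g⁻¹ ∈ (P' : Subgroup G) := by
    intro g u hu hgu hu1 s hs
    have h1 : c⁻¹ * g * c ∈ Subgroup.normalizer ((P : Subgroup G) : Set G) := by
      apply hTIe (c⁻¹ * g * c) (c⁻¹ * u * c) ((hP'mem u).1 hu)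
      · have e : (c⁻¹ * g * c)⁻¹ * (c⁻¹ * u * c) * (c⁻¹ * g * c) = c⁻¹ * (g⁻¹ * u * g) * c := by
          group
        rw [e]; exact (hP'mem _).1 hgu
      · intro h; apply hu1
        have e : u = c * (c⁻¹ * u * c) * c⁻¹ := by group
        rw [e, h]; group
    rw [hP'mem]
    have h2 := (Subgroup.mem_set_normalizer_iff.1 h1 (c⁻¹ * s * c)).1 ((hP'mem s).1 hs)
    have e : c⁻¹ * (g * s * g⁻¹) * c = c⁻¹ * g * c * (c⁻¹ * s * c) * (c⁻¹ * g * c)⁻¹ := by group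
    rw [e]; exact h2
  obtain ⟨a, haP, hau⟩ := (hQ ub).1 hubQ
  obtain ⟨b, hbP, hbu⟩ := (hQ _).1 hubx
  obtain ⟨x, hx⟩ := QuotientGroup.mk_surjective xb
  have ha1 : a ≠ 1 := by
    intro h; apply hub1; rw [← hau, h]; rfl
  have hK : x⁻¹ * a * x ∈ (P' : Subgroup G) ⊔ N := by
    have h1 : b⁻¹ * (x⁻¹ * a * x) ∈ N := by
      rw [← QuotientGroup.eq_one_iff]
      simp only [QuotientGroup.mk_mul, QuotientGroup.mk_inv]
      rw [hbu, hau, hx, inv_mul_cancel]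
    have e : x⁻¹ * a * x = b * (b⁻¹ * (x⁻¹ * a * x)) := by group
    rw [e]
    exact Subgroup.mul_mem _ ((le_sup_left : (P' : Subgroup G) ≤ _) hbP)
      ((le_sup_right : N ≤ _) h1)
  have hzp : IsPGroup p (Subgroup.zpowers (x⁻¹ * a * x)) := by
    obtain ⟨k, hk⟩ := P'.isPGroup' ⟨a, haP⟩
    have hk' : a ^ p ^ k = 1 := congrArg Subtype.val hk
    apply Cfsg.Agent.Helper12.isPGroup_zpowers_of_pow_eq_one (k := k)
    have e : x⁻¹ * a * x = x⁻¹ * a * x⁻¹⁻¹ := by group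
    rw [e, conj_pow, hk']; group
  obtain ⟨k, hkK, hk⟩ := Cfsg.Agent.Helper12.exists_conj_mem_sylow_of_le P'
    (le_sup_left : (P' : Subgroup G) ≤ (P' : Subgroup G) ⊔ N) hzp ((Subgroup.zpowers_le).2 hK)
  have h1 := hk _ (Subgroup.mem_zpowers _)
  have hg : ∀ s ∈ (P' : Subgroup G), (x * k⁻¹) * s * (x * k⁻¹)⁻¹ ∈ (P' : Subgroup G) := by
    apply hTI' (x * k⁻¹) a haP _ ha1
    have e : (x * k⁻¹)⁻¹ * a * (x * k⁻¹) = k * (x⁻¹ * a * x) * k⁻¹ := by group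
    rw [e]; exact h1
  have hkQ : (k : G ⧸ N) ∈ (Q : Subgroup (G ⧸ N)) := by
    rw [← SetLike.mem_coe, Subgroup.mul_normal] at hkK
    obtain ⟨s, hs, n, hn, rfl⟩ := Set.mem_mul.1 hkK
    rw [hQ]
    exact ⟨s, hs, (QuotientGroup.mk_mul_of_mem s hn).symm⟩
  have hgN : ((x * k⁻¹ : G) : G ⧸ N) ∈
      Subgroup.normalizer ((Q : Subgroup (G ⧸ N)) : Set (G ⧸ N)) := by
    apply Cfsg.Agent.Helper21.mem_normalizer_of_forall_conj_mem
    intro y hy
    obtain ⟨s, hs, rfl⟩ := (hQ y).1 hy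
    rw [hQ]
    exact ⟨(x * k⁻¹) * s * (x * k⁻¹)⁻¹, hg s hs, rfl⟩
  have hxe : xb = ((x * k⁻¹ : G) : G ⧸ N) * (k : G ⧸ N) := by
    rw [← hx, ← QuotientGroup.mk_mul]; congr 1; group
  rw [hxe]
  exact Subgroup.mul_mem _ hgN (Subgroup.le_normalizer hkQ)

end Cfsg.Agent.S3984
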