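import Cfsg.Statements.S3985
import Cfsg.Agent.Helper21.CoprimeAbelian
import Cfsg.Agent.Helper21.CyclicOmega
import Cfsg.Agent.Helper1.Basic
import Cfsg.Agent.Helper12.Syl

set_option autoImplicit false
open scoped Pointwise
open Cfsg

namespace Cfsg.Agent.S3985

/-- Let P be a cyclic Sylow p-subgroup of the finite group G. Then P meets each conjugate g P g⁻¹ with g outside N_G(P) trivially if and only if P is weakly self-centralizing: C_G(x) = C_G(P) for every non-identity x ∈ P. -/
theorem result {G : Type*} [Group G] [Finite G] (p : ℕ) [Fact p.Prime] (P : Sylow p G) (hcyc : IsCyclic ↥(P : Subgroup G)) : (∀ g : G, g ∉ Subgroup.normalizer ((P : Subgroup G) : Set G) → (P : Subgroup G) ⊓ (MulAut.conj g • (P : Subgroup G)) = ⊥) ↔ ∀ x : G, x ∈ (P : Subgroup G) → x ≠ 1 → Subgroup.centralizer ({x} : Set G) = Subgroup.centralizer ((P : Subgroup G) : Set G) := by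
  classical
  have hpp : p.Prime := Fact.out
  have hab : ∀ a ∈ (P : Subgroup G), ∀ b ∈ (P : Subgroup G), a * b = b * a := by
    intro a ha b hb
    letI : CommGroup ↥(P : Subgroup G) := IsCyclic.commGroup
    have h := mul_comm (⟨a, ha⟩ : ↥(P : Subgroup G)) ⟨b, hb⟩
    exact congrArg Subtype.val h
  constructor
  · intro hTI x hxP hx1
    have hCN : ∀ g : G, g ∈ Subgroup.centralizer ({x} : Set G) →
        g ∈ Subgroup.normalizer ((P : Subgroup G) : Set G) := by
      intro g hg
      by_contra hgn
      have h1 := hTI g hgn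
      have h2 : x ∈ (P : Subgroup G) ⊓ (MulAut.conj g • (P : Subgroup G)) := by
        refine Subgroup.mem_inf.2 ⟨hxP, ?_⟩
        rw [Cfsg.Agent.Helper1.mem_conj_smul]
        rw [Subgroup.mem_centralizer_iff] at hg
        have h3 : x * g = g * x := hg x (Set.mem_singleton x)
        have h4 : g⁻¹ * x * g = x := by rw [mul_assoc, h3, inv_mul_cancel_left]
        rw [h4]; exact hxP
      rw [h1, Subgroup.mem_bot] at h2
      exact hx1 h2
    apply le_antisymm
    · intro g hg
      apply Cfsg.Agent.Helper21.mem_of_primary_powers_mem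
      intro z hz hzo
      obtain ⟨q, b, hq, hzo⟩ := hzo
      have hzC : z ∈ Subgroup.centralizer ({x} : Set G) := (Subgroup.zpowers_le.2 hg) hz
      have hzN := hCN z hzC
      rw [Subgroup.mem_centralizer_iff]
      by_cases hqp : q = p
      · subst hqp
        have hzP := Cfsg.Agent.Helper21.mem_sylow_of_mem_normalizer_of_orderOf P hzN hzo
        intro y hy
        exact hab y hy z hzP
      · have hk : (q ^ b).Coprime p :=
          Nat.Coprime.pow_left b ((Nat.coprime_primes hq hpp).2 hqp)
        have hzx : z * x = x * z := by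
          rw [Subgroup.mem_centralizer_iff] at hzC
          exact (hzC x (Set.mem_singleton x)).symm
        have hcomm := Cfsg.Agent.Helper21.commute_of_centralizes_omega (P : Subgroup G)
          P.isPGroup' hab z hzN (q ^ b) hk (by rw [← hzo]; exact pow_orderOf_eq_one z) (by
            intro w hw hwp
            have hwx : w ∈ Subgroup.zpowers x :=
              Cfsg.Agent.Helper21.mem_zpowers_of_pow_eq_one_of_cyclic (P : Subgroup G)
                P.isPGroup' hcyc hxP hx1 hw hwp
            obtain ⟨n, hn⟩ := Subgroup.mem_zpowers_iff.1 hwx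
            rw [← hn]
            exact ((show Commute z x from hzx).zpow_right n).eq)
        intro y hy
        exact (hcomm y hy).symm
    · intro g hg
      rw [Subgroup.mem_centralizer_iff] at hg ⊢
      intro y hy
      rw [Set.mem_singleton_iff] at hy
      rw [hy]
      exact hg x hxP
  · intro hW g hgn
    rw [Subgroup.eq_bot_iff_forall]
    intro x hx
    obtain ⟨hxP, hxg⟩ := Subgroup.mem_inf.1 hx
    rw [Cfsg.Agent.Helper1.mem_conj_smul] at hxg
    by_contra hx1
    have hy1 : g⁻¹ * x * g ≠ 1 := by
      intro h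
      apply hx1
      have e : x = g * (g⁻¹ * x * g) * g⁻¹ := by group
      rw [e, h]; group
    have hCy := hW (g⁻¹ * x * g) hxg hy1
    apply hgn
    have hQle : ((g⁻¹ • P : Sylow p G) : Subgroup G) ≤
        Subgroup.centralizer ((P : Subgroup G) : Set G) := by
      intro h hh
      have hh' : g⁻¹⁻¹ * h * g⁻¹ ∈ (P : Subgroup G) :=
        (Cfsg.Agent.Helper12.mem_sylow_smul_iff P g⁻¹ h).1 hh
      rw [inv_inv] at hh'
      rw [← hCy, Subgroup.mem_centralizer_iff]
      intro w hw
      rw [Set.mem_singleton_iff] at hw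
      rw [hw]
      have hc : x * (g * h * g⁻¹) = (g * h * g⁻¹) * x := hab x hxP _ hh'
      calc g⁻¹ * x * g * h = g⁻¹ * (x * (g * h * g⁻¹)) * g := by group
        _ = g⁻¹ * ((g * h * g⁻¹) * x) * g := by rw [hc]
        _ = h * (g⁻¹ * x * g) := by group
    have hQN : ((g⁻¹ • P : Sylow p G) : Subgroup G) ≤
        Subgroup.normalizer ((P : Subgroup G) : Set G) :=
      hQle.trans (Subgroup.centralizer_le_normalizer _)
    have hsup : IsPGroup p ↥(((g⁻¹ • P : Sylow p G) : Subgroup G) ⊔ (P : Subgroup G)) :=
      IsPGroup.to_sup_of_normal_right' (g⁻¹ • P : Sylow p G).isPGroup' P.isPGroup' hQN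
    have heq := P.is_maximal' hsup le_sup_right
    have hQP : ((g⁻¹ • P : Sylow p G) : Subgroup G) ≤ P := by
      rw [← heq]; exact le_sup_left
    have hPQ : (P : Subgroup G) = ((g⁻¹ • P : Sylow p G) : Subgroup G) :=
      (g⁻¹ • P : Sylow p G).is_maximal' P.isPGroup' hQP
    have hsm : g⁻¹ • P = P := Sylow.ext hPQ.symm
    have hginv : g⁻¹ ∈ Subgroup.normalizer ((P : Subgroup G) : Set G) :=
      Sylow.smul_eq_iff_mem_normalizer.1 hsm
    have h5 := Subgroup.inv_mem _ hginv
    rwa [inv_inv] at h5

end Cfsg.Agent.S3985
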