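import Cfsg.Statements.S3986
import Cfsg.Agent.Helper21.Primary
import Cfsg.Agent.Helper21.OrderType

set_option autoImplicit false
open Cfsg

namespace Cfsg.Agent.S3986

/-- Let p be a prime and G a finite group. Then some Sylow p-subgroup of G is a direct factor of G (it is normal and has a normal complement) if and only if every element of p-power order commutes with every element whose order is a power of a prime other than p. -/
theorem result {G : Type*} [Group G] [Finite G] (p : ℕ) [Fact p.Prime] : (∃ (P : Sylow p G) (K : Subgroup G), (P : Subgroup G).Normal ∧ K.Normal ∧ (P : Subgroup G) ⊓ K = ⊥ ∧ (P : Subgroup G) ⊔ K = ⊤) ↔ ∀ x y : G, (∃ a : ℕ, orderOf x = p ^ a) → (∃ q b : ℕ, q.Prime ∧ q ≠ p ∧ orderOf y = q ^ b) → x * y = y * x := by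
  classical
  constructor
  · rintro ⟨P, K, hPn, hKn, hPK, hPKtop⟩ x y ⟨a, ha⟩ ⟨q, b, hq, hqp, hb⟩
    have hxP : x ∈ (P : Subgroup G) := by
      obtain ⟨P', hP'⟩ := Cfsg.Agent.Helper21.exists_sylow_mem_of_orderOf_eq_pow ha
      obtain ⟨g, hg⟩ := MulAction.exists_smul_eq G P P'
      have := hPn
      rw [Sylow.smul_eq_of_normal] at hg
      rw [hg]; exact hP'
    have hyK : y ∈ K := by
      have hy : y ∈ ((P : Subgroup G) ⊔ K : Subgroup G) := by
        rw [hPKtop]; exact Subgroup.mem_top y
      have := hPn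
      rw [← SetLike.mem_coe, Subgroup.normal_mul] at hy
      obtain ⟨x', hx', k, hk, rfl⟩ := Set.mem_mul.1 hy
      have hcomm : Commute x' k :=
        Subgroup.commute_of_normal_of_disjoint _ _ hPn hKn (disjoint_iff.2 hPK) x' k hx' hk
      have h1 : (x' * k) ^ q ^ b = 1 := by rw [← hb]; exact pow_orderOf_eq_one _
      rw [hcomm.mul_pow] at h1
      have h2 : x' ^ q ^ b ∈ (P : Subgroup G) ⊓ K := by
        have e : x' ^ q ^ b = (k ^ q ^ b)⁻¹ := eq_inv_of_mul_eq_one_left h1
        have h2' : x' ^ q ^ b ∈ K := by rw [e]; exact K.inv_mem (K.pow_mem hk _)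
        exact Subgroup.mem_inf.2 ⟨Subgroup.pow_mem _ hx' _, h2'⟩
      rw [hPK, Subgroup.mem_bot] at h2
      obtain ⟨j, hj⟩ := Cfsg.Agent.Helper21.exists_orderOf_eq_pow_of_mem_sylow P hx'
      have h3 : orderOf x' ∣ Nat.gcd (q ^ b) (p ^ j) :=
        Nat.dvd_gcd (orderOf_dvd_of_pow_eq_one h2) (by rw [hj])
      have hcop : Nat.Coprime (q ^ b) (p ^ j) :=
        Nat.Coprime.pow _ _ ((Nat.coprime_primes hq Fact.out).2 hqp)
      rw [Nat.Coprime.gcd_eq_one hcop] at h3
      have h4 : x' = 1 := orderOf_eq_one_iff.1 (Nat.dvd_one.1 h3)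
      rw [h4, one_mul]; exact hk
    exact (Subgroup.commute_of_normal_of_disjoint _ _ hPn hKn (disjoint_iff.2 hPK) x y hxP hyK).eq
  · intro hyp
    have hc : ∀ y : G, (orderOf y).Coprime p → ∀ x : G, (∃ a : ℕ, orderOf x = p ^ a) →
        x * y = y * x := by
      intro y hy x hx
      have hyC : y ∈ Subgroup.centralizer ({x} : Set G) := by
        apply Cfsg.Agent.Helper21.mem_of_primary_powers_mem
        rintro z hz ⟨q, b, hq, hb⟩
        rw [Subgroup.mem_centralizer_iff]
        intro w hw
        rw [Set.mem_singleton_iff] at hw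
        rw [hw]
        by_cases hb0 : b = 0
        · rw [hb0, pow_zero, orderOf_eq_one_iff] at hb
          rw [hb, mul_one, one_mul]
        · have hqp : q ≠ p := by
            intro hqp
            rw [hqp] at hb
            have h1 : p ∣ orderOf y := by
              have h0 : p ∣ orderOf z := by rw [hb]; exact dvd_pow_self p hb0
              exact h0.trans (orderOf_dvd_of_mem_zpowers hz)
            have h2 : p ∣ Nat.gcd (orderOf y) p := Nat.dvd_gcd h1 dvd_rfl
            rw [Nat.Coprime.gcd_eq_one hy] at h2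
            exact (Fact.out : p.Prime).one_lt.ne' (Nat.dvd_one.1 h2)
          exact hyp x z hx ⟨q, b, hq, hqp, hb⟩
      exact Subgroup.mem_centralizer_iff.1 hyC x (Set.mem_singleton x)
    have hsub : Subsingleton (Sylow p G) := by
      apply Cfsg.Agent.Helper21.sylow_subsingleton_of_forall_mem_normalizer
      intro g
      obtain ⟨a, m, hcop, ho1, ho2⟩ := Cfsg.Agent.Helper21.exists_pparts p g
      obtain ⟨S, hS⟩ := Cfsg.Agent.Helper21.exists_sylow_mem_of_orderOf_eq_pow ho2
      refine ⟨S, Cfsg.Agent.Helper21.mem_normalizer_of_parts g S (a := a) hcop hS ?_⟩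
      rw [Subgroup.mem_centralizer_iff]
      intro s hs
      exact hc (g ^ p ^ a) (by rw [ho1]; exact hcop) s
        (Cfsg.Agent.Helper21.exists_orderOf_eq_pow_of_mem_sylow S hs)
    obtain ⟨P⟩ : Nonempty (Sylow p G) := inferInstance
    have hPn : (P : Subgroup G).Normal := Sylow.normal_of_subsingleton P
    obtain ⟨H, hHn, -, h1, h2⟩ :=
      Cfsg.Agent.Helper21.exists_normal_complement_of_central P hPn
        (fun y hy x hx => hc y hy x
          (Cfsg.Agent.Helper21.exists_orderOf_eq_pow_of_mem_sylow P hx))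
    exact ⟨P, H, hPn, hHn, h1, h2⟩

end Cfsg.Agent.S3986
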