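import Cfsg.Statements.S4013
-- import your own Cfsg.Agent.* helpers here

set_option autoImplicit false
open Cfsg

namespace Cfsg.Agent.S4013

/-- Let G be a finite p-group (p prime) and N < M normal subgroups of G such that for some g ∈ M ∖ N the conjugacy class of g is exactly M ∖ N. Then p = 2 and N has index 2 in M. -/
theorem result {G : Type*} [Group G] [Finite G] (p : ℕ) [Fact p.Prime] (hG : IsPGroup p G) (N M : Subgroup G) [N.Normal] [M.Normal] (hNM : N < M) (g : G) (hgM : g ∈ M) (hgN : g ∉ N) (hcl : {h : G | IsConj g h} = (M : Set G) \ (N : Set G)) : p = 2 ∧ N.relIndex M = 2 := by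
  classical
  have hp : p.Prime := Fact.out
  have hGc : IsPGroup p (ConjAct G) := hG
  have : Finite (ConjAct G) := ‹Finite G›
  obtain ⟨k, hk⟩ := hGc.index (MulAction.stabilizer (ConjAct G) g)
  rw [MulAction.index_stabilizer] at hk
  have horb : MulAction.orbit (ConjAct G) g = (M : Set G) \ (N : Set G) := by
    rw [← hcl]
    ext h
    rw [ConjAct.mem_orbit_conjAct, Set.mem_ofPred_eq, isConj_comm]
  rw [horb] at hk
  have hsub : (N : Set G) ⊆ (M : Set G) := fun x hx => hNM.le hx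
  rw [Set.ncard_sdiff hsub (Set.toFinite _)] at hk
  have hMc : (M : Set G).ncard = Nat.card M := (Nat.card_coe_set_eq (M : Set G)).symm
  have hNc : (N : Set G).ncard = Nat.card N := (Nat.card_coe_set_eq (N : Set G)).symm
  rw [hMc, hNc] at hk
  obtain ⟨c, hc⟩ := (IsPGroup.iff_card (p := p)).mp (hG.to_subgroup M)
  obtain ⟨a, ha⟩ := (IsPGroup.iff_card (p := p)).mp (hG.to_subgroup N)
  have hrel : Nat.card N * N.relIndex M = Nat.card M := by
    have h1 := Subgroup.relIndex_mul_relIndex (⊥ : Subgroup G) N M bot_le hNM.le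
    rwa [Subgroup.relIndex_bot_left, Subgroup.relIndex_bot_left] at h1
  have hdvd : N.relIndex M ∣ p ^ c := by
    rw [← hc]
    exact Subgroup.relIndex_dvd_card N M
  obtain ⟨b, -, hb⟩ := (Nat.dvd_prime_pow hp).mp hdvd
  have hb0 : b ≠ 0 := by
    rintro rfl
    rw [pow_zero, Subgroup.relIndex_eq_one] at hb
    exact (not_le_of_gt hNM) hb
  have hpb : 2 ≤ p ^ b := by
    calc 2 ≤ p := hp.two_le
      _ = p ^ 1 := (pow_one p).symm
      _ ≤ p ^ b := Nat.pow_le_pow_right hp.pos (Nat.one_le_iff_ne_zero.mpr hb0)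
  have hkey : p ^ a * (p ^ b - 1) = p ^ k := by
    rw [← hk, ← hrel, ha, hb, Nat.mul_sub, mul_one]
  have hd : p ^ b - 1 ∣ p ^ k := Dvd.intro_left _ hkey
  have hcop : Nat.Coprime (p ^ b - 1) (p ^ k) := by
    apply Nat.Coprime.pow_right
    rw [Nat.coprime_comm, hp.coprime_iff_not_dvd]
    intro hdiv
    have h2 : p ∣ p ^ b := dvd_pow_self p hb0
    have h3 : p ∣ p ^ b - (p ^ b - 1) := Nat.dvd_sub h2 hdiv
    have h4 : p ^ b - (p ^ b - 1) = 1 := by omega
    rw [h4] at h3
    exact hp.one_lt.ne' (Nat.dvd_one.mp h3)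
  have h1 : p ^ b - 1 = 1 := Nat.Coprime.eq_one_of_dvd hcop hd
  have h2 : p ^ b = 2 := by omega
  have hp2 : p = 2 := by
    have : p ∣ 2 := by
      rw [← h2]
      exact dvd_pow_self p hb0
    exact (Nat.prime_dvd_prime_iff_eq hp Nat.prime_two).mp this
  exact ⟨hp2, by rw [hb, h2]⟩

end Cfsg.Agent.S4013
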