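import Cfsg.Statements.S4022
import Cfsg.Agent.Helper21.SameOrd

set_option autoImplicit false
open Cfsg

namespace Cfsg.Agent.S4022

/-- Let G be a finite solvable group in which, for every prime p, any two p-subgroups of the same order are conjugate, and suppose the Sylow p-subgroups of G are cyclic for all primes p with at most one exception. Then any two subgroups of G of the same order are conjugate. -/
theorem result {G : Type*} [Group G] [Finite G]
    [Group.IsSolvable G] (hD : ∀ p : ℕ, p.Prime → ∀ H K : Subgroup G, IsPGroup p H → IsPGroup p K → Nat.card H = Nat.card K →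
      ∃ g : G, K = H.map (MulAut.conj g).toMonoidHom)
    (r : ℕ) (hcyc : ∀ p : ℕ, p.Prime → p ≠ r → ∀ P : Sylow p G, IsCyclic P) :
    ∀ H K : Subgroup G, Nat.card H = Nat.card K → ∃ g : G, K = H.map (MulAut.conj g).toMonoidHom := by
  intro H K hHK
  have hD' : r.Prime → ∀ H K : Subgroup G, IsPGroup r H → IsPGroup r K →
      Nat.card H = Nat.card K → Cfsg.Agent.Helper21.SubConj H K :=
    fun hr H K hH hK hc => hD r hr H K hH hK hc
  exact Cfsg.Agent.Helper21.same_order_conj_aux r _ G rfl hcyc hD' H K hHK

end Cfsg.Agent.S4022
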