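import Mathlib
import Cfsg.Agent.Helper22.ConjOrder
import Cfsg.Agent.Helper24.NormalEA
import Cfsg.Agent.Helper21.NPC
import Cfsg.Agent.Helper21.Primary

set_option autoImplicit false
open Cfsg
open scoped Pointwise

namespace Cfsg.Agent.S4023

theorem card_sup_le {G : Type*} [Group G] (H N : Subgroup G)
    (h : H ≤ Subgroup.normalizer (N : Set G)) :
    Nat.card ↥(H ⊔ N) ≤ Nat.card H * Nat.card N := by
  have h1 : ((H ⊔ N : Subgroup G) : Set G) = (H : Set G) * (N : Set G) :=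
    Subgroup.coe_mul_of_left_le_normalizer_right H N h
  have h2 : Nat.card ↥(H ⊔ N) = Nat.card ((H : Set G) * (N : Set G) : Set G) := by
    rw [← h1]; rfl
  rw [h2]
  exact Set.natCard_mul_le

theorem mem_sup_exists {G : Type*} [Group G] (H N : Subgroup G)
    (h : H ≤ Subgroup.normalizer (N : Set G)) {u : G} (hu : u ∈ H ⊔ N) :
    ∃ a ∈ H, ∃ b ∈ N, u = a * b := by
  have h1 : ((H ⊔ N : Subgroup G) : Set G) = (H : Set G) * (N : Set G) :=
    Subgroup.coe_mul_of_left_le_normalizer_right H N h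
  have h2 : u ∈ (H : Set G) * (N : Set G) := by rw [← h1]; exact hu
  obtain ⟨a, ha, b, hb, rfl⟩ := Set.mem_mul.mp h2
  exact ⟨a, ha, b, hb, rfl⟩

theorem zpowers_le_normalizer {G : Type*} [Group G] [Finite G] (x : G) (N : Subgroup G)
    (h : ∀ n ∈ N, x * n * x⁻¹ ∈ N) :
    Subgroup.zpowers x ≤ Subgroup.normalizer (N : Set G) := by
  rw [Subgroup.zpowers_le]
  exact Subgroup.mem_normalizer_fintype h

theorem card_lt_of_mem {G : Type*} [Group G] [Finite G] {H K : Subgroup G} (hle : H ≤ K)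
    (x : G) (hxK : x ∈ K) (hxH : x ∉ H) : Nat.card H < Nat.card K := by
  by_contra hge
  push Not at hge
  have h1 := Subgroup.eq_of_le_of_card_ge hle hge
  exact hxH (by rw [h1]; exact hxK)

theorem pow_sandwich {p : ℕ} (hp : p.Prime) {m k c : ℕ} (hc : c = p ^ m) (h1 : p ^ k < c)
    (h2 : c ≤ p ^ (k + 1)) : c = p ^ (k + 1) := by
  subst hc
  have h3 : k < m := (Nat.pow_lt_pow_iff_right hp.one_lt).mp h1
  have h4 : m ≤ k + 1 := (Nat.pow_le_pow_iff_right hp.one_lt).mp h2
  have h5 : m = k + 1 := by omega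
  rw [h5]

theorem comm_closure {G : Type*} [Group G] (S : Set G)
    (hS : ∀ a ∈ S, ∀ b ∈ S, a * b = b * a) :
    ∀ u ∈ Subgroup.closure S, ∀ v ∈ Subgroup.closure S, u * v = v * u := by
  have h1 : Subgroup.closure S ≤ Subgroup.centralizer S := by
    rw [Subgroup.closure_le]
    intro a ha
    rw [SetLike.mem_coe, Subgroup.mem_centralizer_iff]
    intro b hb
    exact hS b hb a ha
  have h2 : Subgroup.closure S ≤ Subgroup.centralizer (Subgroup.closure S : Set G) := by
    rw [Subgroup.closure_le]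
    intro a ha
    rw [SetLike.mem_coe, Subgroup.mem_centralizer_iff]
    intro m hm
    exact (Subgroup.mem_centralizer_iff.mp (h1 hm) a ha).symm
  intro u hu v hv
  exact Subgroup.mem_centralizer_iff.mp (h2 hv) u hu

theorem comm_of_cyclic {A : Type*} [Group A] (h : IsCyclic A) : ∀ a b : A, a * b = b * a := by
  obtain ⟨g, hg⟩ := h.exists_generator
  intro a b
  obtain ⟨i, rfl⟩ := Subgroup.mem_zpowers_iff.mp (hg a)
  obtain ⟨j, rfl⟩ := Subgroup.mem_zpowers_iff.mp (hg b)
  exact zpow_mul_comm g i j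

theorem quat_contra {G : Type*} [Group G] [Finite G]
    (hC : ∀ H K : Subgroup G, IsPGroup 2 H → IsPGroup 2 K → Nat.card H = Nat.card K →
      ∃ g : G, K = H.map (MulAut.conj g).toMonoidHom) (P : Subgroup G) (n : ℕ) (hn : 2 ≤ n)
    (e : P ≃* QuaternionGroup (2 ^ n)) : False := by
  classical
  have : Fact (Nat.Prime 2) := ⟨Nat.prime_two⟩
  obtain ⟨m, rfl⟩ : ∃ m, n = m + 2 := ⟨n - 2, by omega⟩
  have hcardP : Nat.card P = 2 ^ (m + 4) := by
    rw [Nat.card_congr e.toEquiv, Nat.card_eq_fintype_card, QuaternionGroup.card]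
    ring
  obtain ⟨w₀, hw₀⟩ : ∃ w₀ : QuaternionGroup (2 ^ (m + 2)),
      w₀ = (QuaternionGroup.a 1) ^ (2 ^ m) := ⟨_, rfl⟩
  have how₀ : orderOf w₀ = 8 := by
    rw [hw₀, orderOf_pow_of_dvd (pow_ne_zero _ two_ne_zero)
      (by rw [QuaternionGroup.orderOf_a_one]; exact ⟨8, by ring⟩),
      QuaternionGroup.orderOf_a_one]
    have h1 : 2 * 2 ^ (m + 2) = 8 * 2 ^ m := by ring
    rw [h1, Nat.mul_div_cancel _ (by positivity)]
  obtain ⟨w, hw⟩ : ∃ w : G, w = ((e.symm w₀ : P) : G) := ⟨_, rfl⟩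
  have how : orderOf w = 8 := by
    rw [hw, Subgroup.orderOf_coe, MulEquiv.orderOf_eq, how₀]
  obtain ⟨ξ₀, hξ₀⟩ : ∃ ξ₀ : QuaternionGroup (2 ^ (m + 2)), ξ₀ = QuaternionGroup.xa 0 :=
    ⟨_, rfl⟩
  have hoξ₀ : orderOf ξ₀ = 4 := by rw [hξ₀]; exact QuaternionGroup.orderOf_xa 0
  obtain ⟨ξ, hξ⟩ : ∃ ξ : G, ξ = ((e.symm ξ₀ : P) : G) := ⟨_, rfl⟩
  have hoξ : orderOf ξ = 4 := by
    rw [hξ, Subgroup.orderOf_coe, MulEquiv.orderOf_eq, hoξ₀]
  have hAcard : Nat.card (Subgroup.zpowers w) = 2 ^ 3 := by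
    rw [Nat.card_zpowers, how]; norm_num
  have hAp : IsPGroup 2 (Subgroup.zpowers w) := IsPGroup.of_card hAcard
  have hXcard : Nat.card (Subgroup.zpowers (e.symm ξ₀)) = 2 ^ 2 := by
    rw [Nat.card_zpowers, MulEquiv.orderOf_eq, hoξ₀]; norm_num
  obtain ⟨K₀, hK₀card, hXK₀⟩ := Sylow.exists_subgroup_card_pow_prime_le 2
    (show 2 ^ 3 ∣ Nat.card P by rw [hcardP]; exact pow_dvd_pow 2 (by omega))
    (Subgroup.zpowers (e.symm ξ₀)) hXcard (by norm_num : 2 ≤ 3)
  obtain ⟨K, hK⟩ : ∃ K : Subgroup G, K = K₀.map P.subtype := ⟨_, rfl⟩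
  have hKcard : Nat.card K = 2 ^ 3 := by
    rw [hK, Subgroup.card_map_of_injective P.subtype_injective]; exact hK₀card
  have hKp : IsPGroup 2 K := IsPGroup.of_card hKcard
  have hKP : K ≤ P := by rw [hK]; exact Subgroup.map_subtype_le _
  have hξK : ξ ∈ K := by
    rw [hK, hξ]
    exact ⟨e.symm ξ₀, hXK₀ (Subgroup.mem_zpowers _), rfl⟩
  obtain ⟨g, hg⟩ := hC (Subgroup.zpowers w) K hAp hKp (by rw [hAcard, hKcard])
  obtain ⟨v, hv⟩ : ∃ v : G, v = g * w * g⁻¹ := ⟨_, rfl⟩
  have hKv : K = Subgroup.zpowers v := by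
    rw [hg, MonoidHom.map_zpowers, hv]; rfl
  have hov : orderOf v = 8 := by
    have h1 := orderOf_injective (MulAut.conj g).toMonoidHom (MulAut.conj g).injective w
    rw [hv, ← how, ← h1]; rfl
  have hcyc : IsCyclic K := by rw [hKv]; infer_instance
  have hv2 : orderOf (v ^ 2) = 4 := by
    rw [orderOf_pow_of_dvd two_ne_zero (by rw [hov]; norm_num), hov]
  have hle : Subgroup.zpowers ξ ≤ Subgroup.zpowers (v ^ 2) := by
    apply Helper1.cyclic_le_of_card_dvd K
    · rw [Subgroup.zpowers_le]; exact hξK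
    · rw [Subgroup.zpowers_le, hKv]; exact Subgroup.pow_mem _ (Subgroup.mem_zpowers v) 2
    · rw [Nat.card_zpowers, Nat.card_zpowers, hoξ, hv2]
  obtain ⟨i, hi⟩ := Subgroup.mem_zpowers_iff.mp (hle (Subgroup.mem_zpowers ξ))
  obtain ⟨u, hu⟩ : ∃ u : G, u = v ^ i := ⟨_, rfl⟩
  have huP : u ∈ P := by
    rw [hu]
    exact hKP (by rw [hKv]; exact Subgroup.zpow_mem _ (Subgroup.mem_zpowers v) i)
  have husq : u ^ 2 = ξ := by
    rw [hu, ← hi, ← zpow_natCast, ← zpow_natCast, ← zpow_mul, ← zpow_mul, mul_comm]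
  have h1 : (⟨u, huP⟩ : P) ^ 2 = e.symm ξ₀ := by
    apply Subtype.ext
    show u ^ 2 = ((e.symm ξ₀ : P) : G)
    rw [husq, hξ]
  have h2 : (e ⟨u, huP⟩) ^ 2 = ξ₀ := by
    rw [← map_pow, h1, MulEquiv.apply_symm_apply]
  rw [hξ₀] at h2
  rcases hq : e ⟨u, huP⟩ with j | j
  · rw [hq, sq, QuaternionGroup.a_mul_a] at h2
    cases h2
  · rw [hq, sq, QuaternionGroup.xa_mul_xa] at h2
    cases h2

theorem exists_class_two_pair {G : Type*} [Group G] [Finite G] {p : ℕ} [Fact p.Prime]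
    (P : Subgroup G) (hP : IsPGroup p P) (hab : ¬ IsMulCommutative P) :
    ∃ x ∈ P, ∃ y ∈ P, ∃ c ∈ P, c ≠ 1 ∧ (∀ g ∈ P, g * c = c * g) ∧ x * y = c * (y * x) ∧
      x * y ≠ y * x := by
  have hZ : Subgroup.center P ≠ ⊤ := by
    intro h
    apply hab
    refine ⟨⟨fun a b => ?_⟩⟩
    have hb : b ∈ Subgroup.center P := by rw [h]; exact Subgroup.mem_top b
    exact Subgroup.mem_center_iff.mp hb a
  have hnt : Nontrivial (P ⧸ Subgroup.center P) := by
    have h1 : (Subgroup.center P).index ≠ 1 := mt Subgroup.index_eq_one.mp hZ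
    have h2 : Nat.card (P ⧸ Subgroup.center P) ≠ 1 := h1
    have h3 : 0 < Nat.card (P ⧸ Subgroup.center P) := Nat.card_pos
    exact Finite.one_lt_card_iff_nontrivial.mp (by omega)
  have hQp : IsPGroup p (P ⧸ Subgroup.center P) := hP.to_quotient _
  have hcnt : Nontrivial (Subgroup.center (P ⧸ Subgroup.center P)) := hQp.center_nontrivial
  obtain ⟨⟨yb, hyb⟩, hyb1⟩ := exists_ne (1 : Subgroup.center (P ⧸ Subgroup.center P))
  have hyb1' : yb ≠ 1 := fun h => hyb1 (Subtype.ext h)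
  obtain ⟨y₀, rfl⟩ := QuotientGroup.mk_surjective yb
  have hy₀ : y₀ ∉ Subgroup.center P := fun h => hyb1' ((QuotientGroup.eq_one_iff y₀).mpr h)
  rw [Subgroup.mem_center_iff] at hy₀
  push Not at hy₀
  obtain ⟨x₀, hx₀⟩ := hy₀
  obtain ⟨c₀, hc₀⟩ : ∃ c₀ : P, c₀ = x₀ * y₀ * x₀⁻¹ * y₀⁻¹ := ⟨_, rfl⟩
  have hc₀Z : c₀ ∈ Subgroup.center P := by
    rw [← QuotientGroup.eq_one_iff, hc₀]
    have h1 := Subgroup.mem_center_iff.mp hyb (x₀ : P ⧸ Subgroup.center P)
    simp only [QuotientGroup.mk_mul, QuotientGroup.mk_inv]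
    rw [h1]; group
  have hc₀1 : c₀ ≠ 1 := by
    intro h
    apply hx₀
    rw [hc₀] at h
    calc x₀ * y₀ = (x₀ * y₀ * x₀⁻¹ * y₀⁻¹) * (y₀ * x₀) := by group
      _ = y₀ * x₀ := by rw [h, one_mul]
  refine ⟨x₀, x₀.2, y₀, y₀.2, c₀, c₀.2, ?_, ?_, ?_, ?_⟩
  · intro h; exact hc₀1 (Subtype.ext h)
  · intro g hg
    have h1 := Subgroup.mem_center_iff.mp hc₀Z ⟨g, hg⟩
    exact congrArg Subtype.val h1
  · have h1 : x₀ * y₀ = c₀ * (y₀ * x₀) := by rw [hc₀]; group
    exact congrArg Subtype.val h1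
  · intro h; exact hx₀ (Subtype.ext h)

theorem exists_abelian_cube {G : Type*} [Group G] [Finite G] {p : ℕ} [Fact p.Prime]
    (P : Subgroup G) (hP : IsPGroup p P) (hp2 : p ≠ 2) (hab : ¬ IsMulCommutative P)
    (hexp : ∀ x ∈ P, x ^ p = 1) (n : ℕ) (hn : Nat.card P = p ^ n) (hge : 4 ≤ n) :
    ∃ B : Subgroup G, B ≤ P ∧ Nat.card B = p ^ 3 ∧ ∀ u ∈ B, ∀ v ∈ B, u * v = v * u := by
  classical
  have hp : p.Prime := Fact.out
  have hnc : ¬ IsCyclic P := fun hcyc => hab ⟨⟨comm_of_cyclic hcyc⟩⟩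
  obtain ⟨A₀, hA₀n, -, hA₀card⟩ := Helper24.exists_normal_elementary_sq hp2 hP hnc
  obtain ⟨A, hA⟩ : ∃ A : Subgroup G, A = A₀.map P.subtype := ⟨_, rfl⟩
  have hAP : A ≤ P := by rw [hA]; exact Subgroup.map_subtype_le _
  have hAcard : Nat.card A = p ^ 2 := by
    rw [hA, Subgroup.card_map_of_injective P.subtype_injective]; exact hA₀card
  have hAnorm : ∀ g ∈ P, ∀ a ∈ A, g * a * g⁻¹ ∈ A := by
    intro g hg a ha
    rw [hA] at ha ⊢
    obtain ⟨a₀, ha₀, rfl⟩ := ha
    exact ⟨⟨g, hg⟩ * a₀ * ⟨g, hg⟩⁻¹, hA₀n.conj_mem a₀ ha₀ ⟨g, hg⟩, rfl⟩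
  have hA1 : A ≠ ⊥ := by
    intro h
    rw [h, Subgroup.card_bot] at hAcard
    have h1 := Nat.one_lt_pow (n := 2) two_ne_zero hp.one_lt
    omega
  have hPnormA : P ≤ Subgroup.normalizer (A : Set G) := by
    intro g hg
    exact Subgroup.mem_normalizer_fintype (fun a ha => hAnorm g hg a ha)
  obtain ⟨z, hzA, hz1, hzc⟩ :=
    Helper21.exists_fixed_of_pgroup_normalizes A P (hP.to_le hAP) hP hPnormA hA1
  have hzP : z ∈ P := hAP hzA
  have hzcomm : ∀ x ∈ P, x * z = z * x := by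
    intro x hx
    have h1 := hzc x hx
    calc x * z = x * z * x⁻¹ * x := by group
      _ = z * x := by rw [h1]
  have hoz : orderOf z = p := orderOf_eq_prime (hexp z hzP) hz1
  have hzcard : Nat.card (Subgroup.zpowers z) = p := by rw [Nat.card_zpowers, hoz]
  obtain ⟨e, heA, hez⟩ : ∃ e ∈ A, e ∉ Subgroup.zpowers z := by
    by_contra hcon
    push Not at hcon
    have hle : A ≤ Subgroup.zpowers z := hcon
    have h1 := Subgroup.card_le_of_le hle
    rw [hAcard, hzcard] at h1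
    have h2 := hp.two_le
    nlinarith
  have heP : e ∈ P := hAP heA
  have he1 : e ≠ 1 := fun h => hez (by rw [h]; exact Subgroup.one_mem _)
  obtain ⟨e₀, he₀⟩ : ∃ e₀ : P, e₀ = ⟨e, heP⟩ := ⟨_, rfl⟩
  have hidx := Helper21.index_centralizer_eq_ncard e₀
  have hsub : (Subtype.val '' (ConjClasses.mk e₀).carrier : Set G) ⊆ (A : Set G) \ {1} := by
    rintro _ ⟨a₀, ha₀, rfl⟩
    rw [ConjClasses.mem_carrier_iff_mk_eq, ConjClasses.mk_eq_mk_iff_isConj, isConj_iff] at ha₀
    obtain ⟨c, hc⟩ := ha₀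
    have hc' : (c : G) * (a₀ : G) * (c : G)⁻¹ = e := by
      have h1 := congrArg Subtype.val hc
      rw [he₀] at h1
      exact h1
    have ha₀e : (a₀ : G) = (c : G)⁻¹ * e * ((c : G)⁻¹)⁻¹ := by rw [← hc']; group
    refine ⟨?_, ?_⟩
    · rw [ha₀e]
      exact hAnorm _ (P.inv_mem c.2) e heA
    · intro h1
      rw [Set.mem_singleton_iff] at h1
      apply he1
      rw [← hc', h1]; group
  have hncard : (ConjClasses.mk e₀).carrier.ncard < p ^ 2 := by
    have h1 : (Subtype.val '' (ConjClasses.mk e₀).carrier : Set G).ncard =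
        (ConjClasses.mk e₀).carrier.ncard :=
      Set.ncard_image_of_injective _ Subtype.val_injective
    have h2 : (Subtype.val '' (ConjClasses.mk e₀).carrier : Set G).ncard ≤
        ((A : Set G) \ {1}).ncard := Set.ncard_le_ncard hsub (Set.toFinite _)
    have h3 : ((A : Set G) \ {1}).ncard = (A : Set G).ncard - 1 :=
      Set.ncard_sdiff_singleton_of_mem (Subgroup.one_mem A)
    have h4 : (A : Set G).ncard = p ^ 2 := by
      rw [← hAcard]; exact (Nat.card_coe_set_eq (A : Set G)).symm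
    have h5 : 0 < p ^ 2 := pow_pos hp.pos 2
    omega
  obtain ⟨j, hjn, hj⟩ : ∃ j ≤ n, (Subgroup.centralizer ({e₀} : Set P)).index = p ^ j := by
    have h1 : (Subgroup.centralizer ({e₀} : Set P)).index ∣ p ^ n := by
      rw [← hn]; exact Subgroup.index_dvd_card _
    exact (Nat.dvd_prime_pow hp).mp h1
  have hj1 : j ≤ 1 := by
    rw [hidx] at hj
    rw [hj] at hncard
    have h1 : j < 2 := (Nat.pow_lt_pow_iff_right hp.one_lt).mp hncard
    omega
  have hCcard : Nat.card (Subgroup.centralizer ({e₀} : Set P)) = p ^ (n - j) := by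
    have h1 := Subgroup.card_mul_index (Subgroup.centralizer ({e₀} : Set P))
    rw [hj, hn] at h1
    have h2 : p ^ (n - j) * p ^ j = p ^ n := by rw [← pow_add]; congr 1; omega
    exact Nat.eq_of_mul_eq_mul_right (pow_pos hp.pos j) (h1.trans h2.symm)
  obtain ⟨Ce, hCe⟩ : ∃ Ce : Subgroup G,
      Ce = (Subgroup.centralizer ({e₀} : Set P)).map P.subtype := ⟨_, rfl⟩
  have hCeP : Ce ≤ P := by rw [hCe]; exact Subgroup.map_subtype_le _
  have hCecard : Nat.card Ce = p ^ (n - j) := by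
    rw [hCe, Subgroup.card_map_of_injective P.subtype_injective]; exact hCcard
  have hCecomm : ∀ b ∈ Ce, b * e = e * b := by
    intro b hb
    rw [hCe] at hb
    obtain ⟨b₀, hb₀, rfl⟩ := hb
    have h1 := Subgroup.mem_centralizer_singleton_iff.mp hb₀
    rw [he₀] at h1
    exact congrArg Subtype.val h1
  have hCemem : ∀ b ∈ P, b * e = e * b → b ∈ Ce := by
    intro b hb hbe
    rw [hCe]
    refine ⟨⟨b, hb⟩, ?_, rfl⟩
    show (⟨b, hb⟩ : P) ∈ Subgroup.centralizer ({e₀} : Set P)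
    rw [Subgroup.mem_centralizer_singleton_iff, he₀]
    exact Subtype.ext hbe
  have hez_comm : e * z = z * e := hzcomm e heP
  have henorm : Subgroup.zpowers e ≤
      Subgroup.normalizer ((Subgroup.zpowers z : Subgroup G) : Set G) := by
    apply zpowers_le_normalizer
    intro n' hn'
    have hn'' : n' ∈ Subgroup.zpowers z := hn'
    obtain ⟨i, rfl⟩ := Subgroup.mem_zpowers_iff.mp hn''
    have h1 : Commute e (z ^ i) := (show Commute e z from hez_comm).zpow_right i
    have h2 : e * z ^ i * e⁻¹ = z ^ i := by rw [h1.eq, mul_inv_cancel_right]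
    show e * z ^ i * e⁻¹ ∈ Subgroup.zpowers z
    rw [h2]
    exact Subgroup.zpow_mem _ (Subgroup.mem_zpowers z) i
  obtain ⟨U, hU⟩ : ∃ U : Subgroup G, U = Subgroup.zpowers e ⊔ Subgroup.zpowers z := ⟨_, rfl⟩
  have heU : e ∈ U := by rw [hU]; exact Subgroup.mem_sup_left (Subgroup.mem_zpowers e)
  have hzU : z ∈ U := by rw [hU]; exact Subgroup.mem_sup_right (Subgroup.mem_zpowers z)
  have hUP : U ≤ P := by
    rw [hU]
    exact sup_le (by rw [Subgroup.zpowers_le]; exact heP) (by rw [Subgroup.zpowers_le]; exact hzP)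
  have hecard : Nat.card (Subgroup.zpowers e) ≤ p := by
    rw [Nat.card_zpowers]
    exact Nat.le_of_dvd hp.pos (orderOf_dvd_of_pow_eq_one (hexp e heP))
  have hUcard : Nat.card U = p ^ 2 := by
    obtain ⟨m, hm⟩ := (hP.to_le hUP).exists_card_eq
    have h1 : p ^ 1 < Nat.card U := by
      rw [pow_one, ← hzcard]
      exact card_lt_of_mem (by rw [hU]; exact le_sup_right) e heU hez
    have h2 : Nat.card U ≤ p ^ (1 + 1) := by
      rw [hU]
      calc Nat.card ↥(Subgroup.zpowers e ⊔ Subgroup.zpowers z)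
          ≤ Nat.card (Subgroup.zpowers e) * Nat.card (Subgroup.zpowers z) :=
            card_sup_le _ _ henorm
        _ ≤ p * p := Nat.mul_le_mul hecard (le_of_eq hzcard)
        _ = p ^ (1 + 1) := by ring
    exact pow_sandwich hp hm h1 h2
  have hUCe : U ≤ Ce := by
    rw [hU]
    refine sup_le ?_ ?_
    · rw [Subgroup.zpowers_le]; exact hCemem e heP rfl
    · rw [Subgroup.zpowers_le]; exact hCemem z hzP hez_comm.symm
  obtain ⟨b, hbCe, hbU⟩ : ∃ b ∈ Ce, b ∉ U := by
    by_contra hcon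
    push Not at hcon
    have hle : Ce ≤ U := hcon
    have h1 := Subgroup.card_le_of_le hle
    rw [hCecard, hUcard] at h1
    have h2 : n - j ≤ 2 := (Nat.pow_le_pow_iff_right hp.one_lt).mp h1
    omega
  have hbP : b ∈ P := hCeP hbCe
  have hbe : b * e = e * b := hCecomm b hbCe
  have hbz : b * z = z * b := hzcomm b hbP
  have hS : ∀ s ∈ ({b, e, z} : Set G), ∀ t ∈ ({b, e, z} : Set G), s * t = t * s := by
    intro s hs t ht
    simp only [Set.mem_insert_iff, Set.mem_singleton_iff] at hs ht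
    rcases hs with rfl | rfl | rfl <;> rcases ht with rfl | rfl | rfl
    · rfl
    · exact hbe
    · exact hbz
    · exact hbe.symm
    · rfl
    · exact hez_comm
    · exact hbz.symm
    · exact hez_comm.symm
    · rfl
  have hM := comm_closure ({b, e, z} : Set G) hS
  have hbM : b ∈ Subgroup.closure ({b, e, z} : Set G) := Subgroup.subset_closure (by simp)
  have heM : e ∈ Subgroup.closure ({b, e, z} : Set G) := Subgroup.subset_closure (by simp)
  have hzM : z ∈ Subgroup.closure ({b, e, z} : Set G) := Subgroup.subset_closure (by simp)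
  have hUM : U ≤ Subgroup.closure ({b, e, z} : Set G) := by
    rw [hU]
    exact sup_le (by rw [Subgroup.zpowers_le]; exact heM) (by rw [Subgroup.zpowers_le]; exact hzM)
  have hbnorm : Subgroup.zpowers b ≤ Subgroup.normalizer (U : Set G) := by
    apply zpowers_le_normalizer
    intro u hu
    have hu' : u ∈ U := hu
    have h1 : b * u = u * b := hM b hbM u (hUM hu')
    have h2 : b * u * b⁻¹ = u := by rw [h1, mul_inv_cancel_right]
    show b * u * b⁻¹ ∈ U
    rw [h2]; exact hu'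
  obtain ⟨B, hB⟩ : ∃ B : Subgroup G, B = Subgroup.zpowers b ⊔ U := ⟨_, rfl⟩
  have hBP : B ≤ P := by
    rw [hB]
    exact sup_le (by rw [Subgroup.zpowers_le]; exact hbP) hUP
  have hBM : B ≤ Subgroup.closure ({b, e, z} : Set G) := by
    rw [hB]
    exact sup_le (by rw [Subgroup.zpowers_le]; exact hbM) hUM
  have hbcard : Nat.card (Subgroup.zpowers b) ≤ p := by
    rw [Nat.card_zpowers]
    exact Nat.le_of_dvd hp.pos (orderOf_dvd_of_pow_eq_one (hexp b hbP))
  have hBcard : Nat.card B = p ^ 3 := by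
    obtain ⟨m, hm⟩ := (hP.to_le hBP).exists_card_eq
    have h1 : p ^ 2 < Nat.card B := by
      rw [← hUcard]
      exact card_lt_of_mem (by rw [hB]; exact le_sup_right) b
        (by rw [hB]; exact Subgroup.mem_sup_left (Subgroup.mem_zpowers b)) hbU
    have h2 : Nat.card B ≤ p ^ (2 + 1) := by
      rw [hB]
      calc Nat.card ↥(Subgroup.zpowers b ⊔ U)
          ≤ Nat.card (Subgroup.zpowers b) * Nat.card U := card_sup_le _ _ hbnorm
        _ ≤ p * p ^ 2 := Nat.mul_le_mul hbcard (le_of_eq hUcard)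
        _ = p ^ (2 + 1) := by ring
    exact pow_sandwich hp hm h1 h2
  exact ⟨B, hBP, hBcard, fun u hu v hv => hM u (hBM hu) v (hBM hv)⟩

theorem card_cube {G : Type*} [Group G] [Finite G] {p : ℕ} [Fact p.Prime]
    (hC : ∀ H K : Subgroup G, IsPGroup p H → IsPGroup p K → Nat.card H = Nat.card K →
      ∃ g : G, K = H.map (MulAut.conj g).toMonoidHom) (P : Subgroup G) (hP : IsPGroup p P)
    (hp2 : p ≠ 2) (hab : ¬ IsMulCommutative P) (hexp : ∀ x ∈ P, x ^ p = 1) :
    Nat.card P = p ^ 3 := by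
  classical
  have hp : p.Prime := Fact.out
  obtain ⟨n, hn⟩ := hP.exists_card_eq
  have hn3 : 3 ≤ n := by
    by_contra hlt
    push Not at hlt
    apply hab
    have h0 : n = 0 ∨ n = 1 ∨ n = 2 := by omega
    rcases h0 with h | h | h
    · rw [h, pow_zero] at hn
      have h1 : Subsingleton P := (Nat.card_eq_one_iff_unique.mp hn).1
      exact ⟨⟨fun a b => Subsingleton.elim _ _⟩⟩
    · rw [h, pow_one] at hn
      exact ⟨⟨comm_of_cyclic (isCyclic_of_prime_card hn)⟩⟩
    · rw [h] at hn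
      exact IsPGroup.isMulCommutative_of_card_eq_prime_sq hn
  rcases Nat.lt_or_ge n 4 with hlt | hge
  · have h3 : n = 3 := by omega
    rw [hn, h3]
  · exfalso
    obtain ⟨x, hxP, y, hyP, c, hcP, hc1, hccent, hxy, hxyne⟩ := exists_class_two_pair P hP hab
    have hcp : c ^ p = 1 := hexp c hcP
    have hyp : y ^ p = 1 := hexp y hyP
    have hxp : x ^ p = 1 := hexp x hxP
    have hoc : orderOf c = p := orderOf_eq_prime hcp hc1
    have hcardc : Nat.card (Subgroup.zpowers c) = p := by rw [Nat.card_zpowers, hoc]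
    have hcardy : Nat.card (Subgroup.zpowers y) ≤ p := by
      rw [Nat.card_zpowers]; exact Nat.le_of_dvd hp.pos (orderOf_dvd_of_pow_eq_one hyp)
    have hcardx : Nat.card (Subgroup.zpowers x) ≤ p := by
      rw [Nat.card_zpowers]; exact Nat.le_of_dvd hp.pos (orderOf_dvd_of_pow_eq_one hxp)
    have hyc : y * c = c * y := hccent y hyP
    have hxc : x * c = c * x := hccent x hxP
    have hynorm : Subgroup.zpowers y ≤
        Subgroup.normalizer ((Subgroup.zpowers c : Subgroup G) : Set G) := by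
      apply zpowers_le_normalizer
      intro n' hn'
      have hn'' : n' ∈ Subgroup.zpowers c := hn'
      obtain ⟨i, rfl⟩ := Subgroup.mem_zpowers_iff.mp hn''
      have h1 : Commute y (c ^ i) := (show Commute y c from hyc).zpow_right i
      have h2 : y * c ^ i * y⁻¹ = c ^ i := by rw [h1.eq, mul_inv_cancel_right]
      show y * c ^ i * y⁻¹ ∈ Subgroup.zpowers c
      rw [h2]
      exact Subgroup.zpow_mem _ (Subgroup.mem_zpowers c) i
    obtain ⟨E, hE⟩ : ∃ E : Subgroup G, E = Subgroup.zpowers y ⊔ Subgroup.zpowers c :=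
      ⟨_, rfl⟩
    have hEcard : Nat.card E ≤ p * p := by
      rw [hE]
      exact (card_sup_le _ _ hynorm).trans (Nat.mul_le_mul hcardy (le_of_eq hcardc))
    have hyE : y ∈ E := by rw [hE]; exact Subgroup.mem_sup_left (Subgroup.mem_zpowers y)
    have hcE : c ∈ E := by rw [hE]; exact Subgroup.mem_sup_right (Subgroup.mem_zpowers c)
    have hxnorm : Subgroup.zpowers x ≤ Subgroup.normalizer (E : Set G) := by
      apply zpowers_le_normalizer
      intro n' hn'
      have hn'' : n' ∈ E := hn'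
      rw [hE] at hn''
      obtain ⟨a, ha, b, hb, rfl⟩ := mem_sup_exists _ _ hynorm hn''
      obtain ⟨i, rfl⟩ := Subgroup.mem_zpowers_iff.mp ha
      obtain ⟨j, rfl⟩ := Subgroup.mem_zpowers_iff.mp hb
      have h1 : x * y * x⁻¹ = c * y := by rw [hxy]; group
      have h3 : x * c * x⁻¹ = c := by rw [hxc]; group
      have h2 : x * (y ^ i * c ^ j) * x⁻¹ = (x * y * x⁻¹) ^ i * (x * c * x⁻¹) ^ j := by
        rw [conj_zpow, conj_zpow]; group
      show x * (y ^ i * c ^ j) * x⁻¹ ∈ E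
      rw [h2, h1, h3]
      exact E.mul_mem (E.zpow_mem (E.mul_mem hcE hyE) i) (E.zpow_mem hcE j)
    obtain ⟨W, hW⟩ : ∃ W : Subgroup G, W = Subgroup.zpowers x ⊔ E := ⟨_, rfl⟩
    have hWcard : Nat.card W ≤ p ^ 3 := by
      rw [hW]
      calc Nat.card ↥(Subgroup.zpowers x ⊔ E)
          ≤ Nat.card (Subgroup.zpowers x) * Nat.card E := card_sup_le _ _ hxnorm
        _ ≤ p * (p * p) := Nat.mul_le_mul hcardx hEcard
        _ = p ^ 3 := by ring
    have hxW : x ∈ W := by rw [hW]; exact Subgroup.mem_sup_left (Subgroup.mem_zpowers x)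
    have hyW : y ∈ W := by rw [hW]; exact Subgroup.mem_sup_right hyE
    have hWP : W ≤ P := by
      rw [hW, hE]
      refine sup_le ?_ (sup_le ?_ ?_)
      · rw [Subgroup.zpowers_le]; exact hxP
      · rw [Subgroup.zpowers_le]; exact hyP
      · rw [Subgroup.zpowers_le]; exact hcP
    obtain ⟨k, hk⟩ := (hP.to_le hWP).exists_card_eq
    have hk3 : k ≤ 3 := by
      rw [hk] at hWcard
      exact (Nat.pow_le_pow_iff_right hp.one_lt).mp hWcard
    have hW'card : Nat.card (W.subgroupOf P) = p ^ k := by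
      rw [← hk]; exact Nat.card_congr (Subgroup.subgroupOfEquivOfLe hWP).toEquiv
    obtain ⟨K₀, hK₀card, hWK₀⟩ := Sylow.exists_subgroup_card_pow_prime_le p
      (show p ^ 3 ∣ Nat.card P by rw [hn]; exact pow_dvd_pow p (by omega))
      (W.subgroupOf P) hW'card hk3
    obtain ⟨K, hK⟩ : ∃ K : Subgroup G, K = K₀.map P.subtype := ⟨_, rfl⟩
    have hKcard : Nat.card K = p ^ 3 := by
      rw [hK, Subgroup.card_map_of_injective P.subtype_injective]; exact hK₀card
    have hxK : x ∈ K := by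
      rw [hK]; exact ⟨⟨x, hxP⟩, hWK₀ (Subgroup.mem_subgroupOf.mpr hxW), rfl⟩
    have hyK : y ∈ K := by
      rw [hK]; exact ⟨⟨y, hyP⟩, hWK₀ (Subgroup.mem_subgroupOf.mpr hyW), rfl⟩
    have hKP : K ≤ P := by rw [hK]; exact Subgroup.map_subtype_le _
    obtain ⟨B, hBP, hBcard, hBcomm⟩ := exists_abelian_cube P hP hp2 hab hexp n hn hge
    obtain ⟨g, hg⟩ := hC B K (hP.to_le hBP) (hP.to_le hKP) (by rw [hBcard, hKcard])
    rw [hg] at hxK hyK
    obtain ⟨x', hx', hx'e⟩ := hxK
    obtain ⟨y', hy', hy'e⟩ := hyK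
    apply hxyne
    rw [← hx'e, ← hy'e, ← map_mul, ← map_mul, hBcomm x' hx' y' hy']

/-- Let p be a prime and G a finite group in which any two p-subgroups of the same order are conjugate, with Sylow p-subgroup P. Then P is cyclic, or elementary abelian, or p = 2 and P is a quaternion group of order 8, or p is odd and P is non-abelian of order p³ and exponent p. -/
theorem result {G : Type*} [Group G] [Finite G]
    {p : ℕ} [Fact p.Prime] (hC : ∀ H K : Subgroup G, IsPGroup p H → IsPGroup p K → Nat.card H = Nat.card K →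
      ∃ g : G, K = H.map (MulAut.conj g).toMonoidHom) (P : Sylow p G) :
    IsCyclic P ∨ Cfsg.IsElementaryAbelian p (P : Subgroup G) ∨
      (p = 2 ∧ Nonempty ((P : Subgroup G) ≃* QuaternionGroup 2)) ∨
      (p ≠ 2 ∧ ¬ IsMulCommutative P ∧ Nat.card P = p ^ 3 ∧ Monoid.exponent P = p) := by
  classical
  have hp : p.Prime := Fact.out
  have key := Helper22.unique_or_exponent (P : Subgroup G) P.2 (by
    intro E C hEP hCP hEc hCc hEcard hCcard hEp x hx
    obtain ⟨g, hg⟩ := hC E C (P.2.to_le hEP) (P.2.to_le hCP) (by rw [hEcard, hCcard])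
    rw [hg] at hx
    obtain ⟨e, he, rfl⟩ := hx
    rw [← map_pow, hEp e he, map_one])
  rcases key with huniq | hexp
  · rcases Helper1.pgroup_unique_cyclic_or_quat p P.2 huniq with hc | ⟨hp2, n, ⟨e⟩⟩
    · exact Or.inl hc
    · subst hp2
      rcases Nat.lt_or_ge n 2 with hn | hn
      · interval_cases n
        · left
          have h1 : IsCyclic (QuaternionGroup (2 ^ 0)) :=
            QuaternionGroup.quaternionGroup_one_isCyclic
          exact isCyclic_of_surjective e.symm e.symm.surjective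
        · right; right; left
          exact ⟨rfl, ⟨e⟩⟩
      · exfalso
        exact quat_contra hC (P : Subgroup G) n hn e
  · by_cases hab : IsMulCommutative (P : Subgroup G)
    · exact Or.inr (Or.inl ⟨hab, hexp⟩)
    · by_cases hp2 : p = 2
      · exfalso
        apply hab
        refine ⟨⟨fun a b => ?_⟩⟩
        have h2 : ∀ g : (P : Subgroup G), orderOf g ∣ 2 := by
          intro g
          apply orderOf_dvd_of_pow_eq_one
          apply Subtype.ext
          have h3 := hexp g g.2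
          have h4 : (g : G) ^ 2 = (g : G) ^ p := congrArg (fun k => (g : G) ^ k) hp2.symm
          exact h4.trans h3
        exact Commute.of_orderOf_dvd_two h2 a b
      · right; right; right
        refine ⟨hp2, hab, card_cube hC (P : Subgroup G) P.2 hp2 hab hexp, ?_⟩
        have h1 : Monoid.exponent (P : Subgroup G) ∣ p := by
          apply Monoid.exponent_dvd_of_forall_pow_eq_one
          intro g
          exact Subtype.ext (hexp g g.2)
        rcases (Nat.dvd_prime hp).mp h1 with h2 | h2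
        · exfalso
          apply hab
          have h3 : Subsingleton (P : Subgroup G) := Monoid.exp_eq_one_iff.mp h2
          exact ⟨⟨fun a b => Subsingleton.elim _ _⟩⟩
        · exact h2

end Cfsg.Agent.S4023
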