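import Cfsg.Statements.S4027
import Cfsg.Agent.Helper21.BaerSuzuki

set_option autoImplicit false
open Cfsg

namespace Cfsg.Agent.S4027

/-- Let G be a finite group in which every element x of odd order satisfies N_G(⟨x⟩) = C_G(x). Then the Sylow 2-subgroups of G are normal. -/
theorem result {G : Type*} [Group G] [Finite G]
    (hirr : ∀ x : G, (∀ r : ℕ, r.Prime → r ∣ orderOf x → r ≠ 2) →
      Subgroup.normalizer ((Subgroup.zpowers x : Subgroup G) : Set G) ≤ Subgroup.centralizer {x}) (P : Sylow 2 G) :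
    (P : Subgroup G).Normal := by
  apply Cfsg.Agent.Helper21.sylow_two_normal_of_no_inverting
  intro t h h1 hodd hinv
  have hmem : t * h * t⁻¹ ∈ Subgroup.zpowers h := by
    rw [hinv]; exact inv_mem (Subgroup.mem_zpowers h)
  have hN := Cfsg.Agent.Helper21.mem_normalizer_zpowers_of_conj_mem hmem
  have hπ : ∀ r : ℕ, r.Prime → r ∣ orderOf h → r ≠ 2 := by
    intro r _ hrd hr2
    rw [hr2] at hrd
    exact (Nat.not_even_iff_odd.2 hodd) (even_iff_two_dvd.2 hrd)
  have hC := Subgroup.mem_centralizer_iff.1 (hirr h hπ hN) h (Set.mem_singleton h)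
  exact h1 (Cfsg.Agent.Helper21.eq_one_of_odd_of_inverted_of_commute hodd hinv hC)

end Cfsg.Agent.S4027
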