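import Cfsg.Statements.S4028
import Cfsg.Agent.Helper21.Cyc
import Cfsg.Agent.Helper21.Primary
import Cfsg.Agent.Helper21.OrderType

set_option autoImplicit false
open Cfsg

namespace Cfsg.Agent.S4028

/-- Let G be a finite group with Sylow 2-subgroup P. Then N_G(⟨x⟩) = C_G(x) holds for every 2-element x of G if and only if N_P(⟨y⟩) = C_P(y) holds for every y ∈ P (computed inside P). -/
theorem result {G : Type*} [Group G] [Finite G] (P : Sylow 2 G) :
    (∀ x : G, (∀ r : ℕ, r.Prime → r ∣ orderOf x → r = 2) →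
      Subgroup.normalizer ((Subgroup.zpowers x : Subgroup G) : Set G) ≤ Subgroup.centralizer {x}) ↔
    (∀ y : ↥(P : Subgroup G), Subgroup.normalizer ((Subgroup.zpowers y : Subgroup ↥(P : Subgroup G)) : Set ↥(P : Subgroup G)) ≤
        Subgroup.centralizer {y}) := by
  classical
  constructor
  · intro hG y t ht
    rw [Subgroup.mem_centralizer_iff]
    intro h hh
    rw [Set.mem_singleton_iff] at hh
    rw [hh]
    have h1 : t * y * t⁻¹ ∈ Subgroup.zpowers y :=
      (Subgroup.mem_set_normalizer_iff.1 ht y).1 (Subgroup.mem_zpowers y)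
    obtain ⟨i, hi⟩ := Subgroup.mem_zpowers_iff.1 h1
    have h2 : (t : G) * (y : G) * (t : G)⁻¹ ∈ Subgroup.zpowers (y : G) := by
      have h3 := congrArg Subtype.val hi
      rw [Subgroup.mem_zpowers_iff]
      refine ⟨i, ?_⟩
      simpa using h3
    have h4 := Cfsg.Agent.Helper21.mem_normalizer_zpowers_of_conj_mem h2
    have hy2 : ∀ r : ℕ, r.Prime → r ∣ orderOf (y : G) → r = 2 := by
      intro r hr hrd
      obtain ⟨k, hk⟩ := Cfsg.Agent.Helper21.exists_orderOf_eq_pow_of_mem_sylow P y.2
      rw [hk] at hrd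
      exact (Nat.prime_dvd_prime_iff_eq hr Nat.prime_two).1 (hr.dvd_of_dvd_pow hrd)
    have h5 := Subgroup.mem_centralizer_iff.1 (hG (y : G) hy2 h4) (y : G) (Set.mem_singleton _)
    exact Subtype.ext h5
  · intro hP x hx g hg
    obtain ⟨k, hk⟩ : ∃ k, orderOf x = 2 ^ k :=
      ⟨_, Nat.eq_prime_pow_of_unique_prime_dvd (orderOf_pos x).ne' (fun {d} hd hdd => hx d hd hdd)⟩
    obtain ⟨a, m, hcop, ho1, ho2⟩ := Cfsg.Agent.Helper21.exists_pparts 2 g
    apply Cfsg.Agent.Helper21.mem_of_pow_mem_of_coprime (Nat.Coprime.pow_right a hcop)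
    · rw [Subgroup.mem_centralizer_iff]
      intro h hh
      rw [Set.mem_singleton_iff] at hh
      rw [hh]
      exact Cfsg.Agent.Helper21.commute_of_two_normalizes P hP hk ho2 (pow_mem hg m)
    · rw [Subgroup.mem_centralizer_iff]
      intro h hh
      rw [Set.mem_singleton_iff] at hh
      rw [hh]
      exact Cfsg.Agent.Helper21.commute_of_odd_normalizes_two_zpowers hk (pow_mem hg _)
        (by rw [ho1]; exact hcop)

end Cfsg.Agent.S4028
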