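import Cfsg.Statements.S4029
import Cfsg.Agent.S0160
import Cfsg.Agent.Helper24.InvCount
import Cfsg.Agent.Helper8.DihSylow
import Cfsg.Agent.Helper2.CharLinear

set_option autoImplicit false
open Cfsg

namespace Cfsg.Agent.S4029

/-- Let P be a finite 2-group in which N_P(⟨y⟩) = C_P(y) for every y ∈ P. If s is the number of conjugacy classes of involutions of P, then #(P/Φ(P)) ≤ s + 1; in particular the subgroup generated by the involutions of P has order at least #(P/Φ(P)). -/
theorem result {P : Type*} [Group P] [Finite P] (hP : IsPGroup 2 P)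
    (hirr : ∀ y : P, Subgroup.normalizer ((Subgroup.zpowers y : Subgroup P) : Set P) ≤ Subgroup.centralizer {y}) :
    Nat.card (P ⧸ frattini P) ≤ Nat.card {c : ConjClasses P // ∃ y : P, ConjClasses.mk y = c ∧ orderOf y = 2} + 1 ∧
    Nat.card (P ⧸ frattini P) ≤ Nat.card (Subgroup.closure {y : P | orderOf y = 2}) := by
  classical
  haveI : Fintype P := Fintype.ofFinite P
  have h1 : Nat.card (P ⧸ frattini P) ≤ Nat.card (P →* ℤˣ) :=
    Cfsg.Agent.Helper24.card_quot_frattini_le_card_sign hP
  haveI hfinHom : Finite (P →* ℤˣ) :=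
    Finite.of_injective (fun f => (f : P → ℤˣ)) DFunLike.coe_injective
  haveI := Cfsg.Agent.Helper24.finite_irrCharacter (G := P)
  have h2 : Nat.card (P →* ℤˣ) ≤
      Nat.card {χ : Cfsg.IrrCharacter P // ∀ g : P, ((χ : P → ℂ) g).im = 0} := by
    let lam : (P →* ℤˣ) → (P →* ℂˣ) :=
      fun β => (Units.map ((Int.castRingHom ℂ) : ℤ →* ℂ)).comp β
    have hval : ∀ (β : P →* ℤˣ) (g : P), ((lam β g : ℂˣ) : ℂ) = (((β g : ℤˣ) : ℤ) : ℂ) :=
      fun β g => rfl
    refine Nat.card_le_card_of_injective (fun β =>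
      (⟨⟨fun g => ((lam β g : ℂˣ) : ℂ), Cfsg.Agent.Helper2.isIrrCharacter_of_hom (lam β)⟩,
        fun g => by
          show (((lam β g : ℂˣ) : ℂ)).im = 0
          rw [hval]
          exact Complex.intCast_im _⟩ :
        {χ : Cfsg.IrrCharacter P // ∀ g : P, ((χ : P → ℂ) g).im = 0})) ?_
    intro β β' h
    have h' : (fun g => ((lam β g : ℂˣ) : ℂ)) = (fun g => ((lam β' g : ℂˣ) : ℂ)) :=
      congrArg (fun χ : {χ : Cfsg.IrrCharacter P // ∀ g : P, ((χ : P → ℂ) g).im = 0} =>
        (χ.1.1 : P → ℂ)) h
    apply MonoidHom.ext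
    intro g
    have hg := congrFun h' g
    rw [hval, hval] at hg
    exact Units.ext (by exact_mod_cast hg)
  have h3 := Cfsg.Agent.S0160.result (G := P)
  have key : ∀ C : {C : ConjClasses P // ∀ g : P, ConjClasses.mk g = C → IsConj g g⁻¹},
      C.1 ≠ ConjClasses.mk 1 → ∃ y : P, ConjClasses.mk y = C.1 ∧ orderOf y = 2 := by
    rintro ⟨C, hC⟩ hne
    obtain ⟨y, rfl⟩ := ConjClasses.mk_surjective C
    refine ⟨y, rfl, ?_⟩
    obtain ⟨c, hc⟩ := isConj_iff.1 (hC y rfl)
    have hcn : c ∈ Subgroup.normalizer ((Subgroup.zpowers y : Subgroup P) : Set P) := by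
      apply Cfsg.Agent.Helper8.mem_normalizer_of_conj_mem
      intro u hu
      obtain ⟨k, rfl⟩ := Subgroup.mem_zpowers_iff.1 hu
      rw [← conj_zpow, hc]
      exact Subgroup.zpow_mem _ (Subgroup.inv_mem _ (Subgroup.mem_zpowers y)) k
    have hcc := Subgroup.mem_centralizer_iff.1 (hirr y hcn) y rfl
    have hyy : y⁻¹ = y := by
      rw [← hc, ← hcc, mul_inv_cancel_right]
    have hy2 : y ^ 2 = 1 := by
      rw [pow_two]
      nth_rewrite 1 [← hyy]
      exact inv_mul_cancel y
    have hy1 : y ≠ 1 := fun h => hne (congrArg ConjClasses.mk h)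
    exact orderOf_eq_prime hy2 hy1
  have h4 : Nat.card {C : ConjClasses P // ∀ g : P, ConjClasses.mk g = C → IsConj g g⁻¹} ≤
      Nat.card {c : ConjClasses P // ∃ y : P, ConjClasses.mk y = c ∧ orderOf y = 2} + 1 := by
    rw [← Finite.card_option]
    refine Nat.card_le_card_of_injective (fun C =>
      if h : C.1 = ConjClasses.mk 1 then none else some ⟨C.1, key C h⟩) ?_
    intro C C' hCC'
    by_cases h : C.1 = ConjClasses.mk 1 <;> by_cases h' : C'.1 = ConjClasses.mk 1
    · exact Subtype.ext (h.trans h'.symm)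
    · simp [h, h'] at hCC'
    · simp [h, h'] at hCC'
    · simp only [h, h', dif_neg, not_false_iff, Option.some.injEq, Subtype.mk.injEq] at hCC'
      exact Subtype.ext hCC'
  have h5 : Nat.card {c : ConjClasses P // ∃ y : P, ConjClasses.mk y = c ∧ orderOf y = 2} + 1 ≤
      Nat.card (Subgroup.closure {y : P | orderOf y = 2}) := by
    rw [← Finite.card_option]
    choose rep hrep1 hrep2 using
      fun c : {c : ConjClasses P // ∃ y : P, ConjClasses.mk y = c ∧ orderOf y = 2} => c.2
    have hne1 : ∀ c, rep c ≠ 1 := by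
      intro c h
      have h2 := hrep2 c
      rw [h, orderOf_one] at h2
      exact absurd h2 (by norm_num)
    refine Nat.card_le_card_of_injective (fun o : Option {c : ConjClasses P //
        ∃ y : P, ConjClasses.mk y = c ∧ orderOf y = 2} =>
      (Option.elim o (1 : Subgroup.closure {y : P | orderOf y = 2})
        (fun c => ⟨rep c, Subgroup.subset_closure (hrep2 c)⟩))) ?_
    intro o o' h
    have h' := congrArg Subtype.val h
    cases o with
    | none =>
      cases o' with
      | none => rfl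
      | some c' => exact absurd h'.symm (hne1 c')
    | some c =>
      cases o' with
      | none => exact absurd h' (hne1 c)
      | some c' =>
        have hcc' : rep c = rep c' := h'
        congr 1
        apply Subtype.ext
        rw [← hrep1 c, ← hrep1 c', hcc']
  have h6 : Nat.card (P ⧸ frattini P) ≤
      Nat.card {c : ConjClasses P // ∃ y : P, ConjClasses.mk y = c ∧ orderOf y = 2} + 1 :=
    h1.trans (h2.trans (h3.le.trans h4))
  exact ⟨h6, h6.trans h5⟩

end Cfsg.Agent.S4029
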