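import Cfsg.Statements.S4032
import Cfsg.Agent.Helper21.Cyc
import Cfsg.Agent.Helper10.CyclicCompl

set_option autoImplicit false
open Cfsg

namespace Cfsg.Agent.S4032

/-- Let π be a set of primes and G a finite group in which N_G(⟨x⟩) = C_G(x) for every π-element x. If N is a normal subgroup of G whose order is divisible by no prime of π, then G/N has the same property: N_{G/N}(⟨y⟩) = C_{G/N}(y) for every π-element y of G/N. -/
theorem result {G : Type*} [Group G] [Finite G] (π : Set ℕ)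
    (hirr : ∀ x : G, (∀ r : ℕ, r.Prime → r ∣ orderOf x → r ∈ π) →
      Subgroup.normalizer ((Subgroup.zpowers x : Subgroup G) : Set G) ≤ Subgroup.centralizer {x})
    (N : Subgroup G) [N.Normal] (hN : ∀ r : ℕ, r.Prime → r ∣ Nat.card N → r ∉ π) :
    ∀ y : G ⧸ N, (∀ r : ℕ, r.Prime → r ∣ orderOf y → r ∈ π) →
      Subgroup.normalizer ((Subgroup.zpowers y : Subgroup (G ⧸ N)) : Set (G ⧸ N)) ≤ Subgroup.centralizer {y} := by
  classical
  intro ybar hy gbar hg
  rw [Subgroup.mem_centralizer_iff]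
  intro h hh
  rw [Set.mem_singleton_iff] at hh
  rw [hh]
  have hcop : Nat.Coprime (Nat.card N) (orderOf ybar) := by
    by_contra hne
    obtain ⟨r, hr, hrd⟩ := Nat.exists_prime_and_dvd hne
    exact hN r hr (hrd.trans (Nat.gcd_dvd_left _ _)) (hy r hr (hrd.trans (Nat.gcd_dvd_right _ _)))
  obtain ⟨y, rfl, hyo⟩ := Cfsg.Agent.Helper21.exists_lift_orderOf_eq N ybar hcop
  obtain ⟨g, rfl⟩ := QuotientGroup.mk_surjective gbar
  have h1 : (g : G ⧸ N) * (y : G ⧸ N) * (g : G ⧸ N)⁻¹ ∈ Subgroup.zpowers (y : G ⧸ N) :=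
    (Subgroup.mem_set_normalizer_iff.1 hg _).1 (Subgroup.mem_zpowers _)
  obtain ⟨i, hi⟩ := Subgroup.mem_zpowers_iff.1 h1
  have h2 : (g * y * g⁻¹) * (y ^ i)⁻¹ ∈ N := by
    rw [← QuotientGroup.eq_one_iff]
    simp only [QuotientGroup.mk_mul, QuotientGroup.mk_inv, QuotientGroup.mk_zpow]
    rw [hi, mul_inv_cancel]
  have ho : orderOf (y ^ i) = orderOf y := by
    apply Nat.dvd_antisymm
    · exact orderOf_dvd_of_mem_zpowers (zpow_mem (Subgroup.mem_zpowers y) i)
    · have h3 := orderOf_map_dvd (QuotientGroup.mk' N) (y ^ i)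
      rw [QuotientGroup.mk'_apply, QuotientGroup.mk_zpow, hi] at h3
      have h4 : orderOf ((g : G ⧸ N) * (y : G ⧸ N) * (g : G ⧸ N)⁻¹) = orderOf (y : G ⧸ N) := by
        rw [← MulAut.conj_apply]; exact MulEquiv.orderOf_eq _ _
      rw [h4, ← hyo] at h3
      exact h3
  have hnorm : y ^ i ∈ Subgroup.normalizer (N : Set G) := by
    rw [Subgroup.normalizer_eq_top]; exact Subgroup.mem_top _
  have hcop' : Nat.Coprime (orderOf (y ^ i)) (Nat.card N) := by
    rw [ho, hyo]; exact hcop.symm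
  have hpow : (g * y * g⁻¹) ^ orderOf (y ^ i) = 1 := by
    rw [ho, conj_pow, pow_orderOf_eq_one, mul_one, mul_inv_cancel]
  obtain ⟨x, hx, hxe⟩ := Cfsg.Agent.Helper10.conj_of_coset (orderOf (y ^ i)) N (y ^ i)
    (g * y * g⁻¹) rfl hnorm hcop' h2 hpow
  have ht : (x⁻¹ * g) * y * (x⁻¹ * g)⁻¹ ∈ Subgroup.zpowers y := by
    have e : (x⁻¹ * g) * y * (x⁻¹ * g)⁻¹ = y ^ i := by
      have e0 : (x⁻¹ * g) * y * (x⁻¹ * g)⁻¹ = x⁻¹ * (g * y * g⁻¹) * x := by group
      rw [e0, ← hxe]; group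
    rw [e]; exact zpow_mem (Subgroup.mem_zpowers y) i
  have hyπ : ∀ r : ℕ, r.Prime → r ∣ orderOf y → r ∈ π := by
    intro r hr hrd
    rw [hyo] at hrd
    exact hy r hr hrd
  have hcen := hirr y hyπ (Cfsg.Agent.Helper21.mem_normalizer_zpowers_of_conj_mem ht)
  have hcomm := Subgroup.mem_centralizer_iff.1 hcen y (Set.mem_singleton y)
  have h5 := congrArg (QuotientGroup.mk' N) hcomm
  simp only [map_mul, QuotientGroup.mk'_apply] at h5
  have h6 : ((x⁻¹ : G) : G ⧸ N) = 1 := (QuotientGroup.eq_one_iff _).2 (N.inv_mem hx)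
  rw [h6, one_mul] at h5
  exact h5

end Cfsg.Agent.S4032
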