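import Mathlib
import Cfsg.Statements.S4034
import Cfsg.Agent.S0143
import Cfsg.Agent.Helper16.PCore
import Cfsg.Agent.Helper16.PReduced
import Cfsg.Agent.Helper21.Primary
import Cfsg.Agent.Helper12.Syl
import Cfsg.Agent.Helper1.SZ

set_option autoImplicit false
open Cfsg

namespace Cfsg.Agent.S4034

universe u

/-- every element has a `p`-power power whose centralizer has `p`-power index -/
def PP (p : ℕ) (G : Type*) [Group G] : Prop :=
  ∀ x : G, ∃ j k : ℕ, (Subgroup.centralizer ({x ^ p ^ j} : Set G)).index = p ^ k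

theorem pp_surj {G G' : Type*} [Group G] [Group G'] {p : ℕ} (hp : p.Prime)
    (f : G →* G') (hf : Function.Surjective f) (h : PP p G) : PP p G' := by
  intro y
  obtain ⟨x, rfl⟩ := hf y
  obtain ⟨j, k, hjk⟩ := h x
  have h1 : (Subgroup.centralizer ({x ^ p ^ j} : Set G)).map f ≤
      Subgroup.centralizer ({f x ^ p ^ j} : Set G') := by
    rintro _ ⟨c, hc, rfl⟩
    have hc' : c ∈ Subgroup.centralizer ({x ^ p ^ j} : Set G) := hc
    rw [Subgroup.mem_centralizer_singleton_iff] at hc' ⊢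
    rw [← map_pow, ← map_mul, ← map_mul, hc']
  have h2 := Subgroup.index_dvd_of_le h1
  have h3 := Subgroup.index_map_dvd (Subgroup.centralizer ({x ^ p ^ j} : Set G)) hf
  rw [hjk] at h3
  obtain ⟨k', -, hk'⟩ := (Nat.dvd_prime_pow hp).1 (h2.trans h3)
  exact ⟨j, k', hk'⟩

theorem relIndex_dvd_index_of_normal_right {G : Type*} [Group G] [Finite G]
    (C N : Subgroup G) [N.Normal] : C.relIndex N ∣ C.index := by
  have h1 : (C ⊓ N).relIndex N * N.index = (C ⊓ N).index :=
    Subgroup.relIndex_mul_index inf_le_right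
  have h2 : (C ⊓ N).relIndex C * C.index = (C ⊓ N).index :=
    Subgroup.relIndex_mul_index inf_le_left
  rw [Subgroup.inf_relIndex_right] at h1
  rw [Subgroup.inf_relIndex_left] at h2
  obtain ⟨e, he⟩ := Subgroup.relIndex_dvd_index_of_normal N C
  have h0 : N.relIndex C ≠ 0 := by
    show (N.subgroupOf C).index ≠ 0
    exact Subgroup.index_ne_zero_of_finite
  refine ⟨e, ?_⟩
  have h3 : N.relIndex C * C.index = N.relIndex C * (C.relIndex N * e) := by
    rw [h2, ← h1, he]; ring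
  exact Nat.eq_of_mul_eq_mul_left (Nat.pos_of_ne_zero h0) h3

theorem pp_normal {G : Type*} [Group G] [Finite G] {p : ℕ} (hp : p.Prime)
    (N : Subgroup G) [N.Normal] (h : PP p G) : PP p ↥N := by
  intro x
  obtain ⟨j, k, hjk⟩ := h (x : G)
  have h1 : Subgroup.centralizer ({x ^ p ^ j} : Set ↥N) =
      (Subgroup.centralizer ({(x : G) ^ p ^ j} : Set G)).subgroupOf N := by
    ext z
    rw [Subgroup.mem_centralizer_singleton_iff, Subgroup.mem_subgroupOf,
      Subgroup.mem_centralizer_singleton_iff, Subtype.ext_iff]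
    simp
  have h3 : (Subgroup.centralizer ({(x : G) ^ p ^ j} : Set G)).relIndex N ∣ p ^ k := by
    rw [← hjk]
    exact relIndex_dvd_index_of_normal_right _ N
  obtain ⟨k', -, hk'⟩ := (Nat.dvd_prime_pow hp).1 h3
  exact ⟨j, k', by rw [h1]; exact hk'⟩

theorem le_centralizer_of_coprime {G : Type*} [Group G] [Finite G] {p : ℕ} (hp : p.Prime)
    (M : Subgroup G) [M.Normal] (hM : ¬ p ∣ Nat.card M) (z : G) (k : ℕ)
    (hz : (Subgroup.centralizer ({z} : Set G)).index = p ^ k) :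
    M ≤ Subgroup.centralizer ({z} : Set G) := by
  have h1 : (Subgroup.centralizer ({z} : Set G)).relIndex M ∣ p ^ k := by
    rw [← hz]; exact relIndex_dvd_index_of_normal_right _ M
  have h2 : (Subgroup.centralizer ({z} : Set G)).relIndex M ∣ Nat.card M :=
    Subgroup.relIndex_dvd_card _ M
  have h3 : (Subgroup.centralizer ({z} : Set G)).relIndex M = 1 := by
    have hcop : (p ^ k).Coprime (Nat.card M) :=
      Nat.Coprime.pow_left k ((Nat.Prime.coprime_iff_not_dvd hp).2 hM)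
    have h4 := Nat.dvd_gcd h1 h2
    rw [hcop.gcd_eq_one] at h4
    exact Nat.dvd_one.1 h4
  exact Subgroup.relIndex_eq_one.1 h3

theorem pCore_subgroup_eq_bot {G : Type*} [Group G] {p : ℕ} (N : Subgroup G) [N.Normal]
    (h : pCore p G = ⊥) : pCore p ↥N = ⊥ := by
  have hchar := Helper16.pCore_characteristic p ↥N
  have hn : ((pCore p ↥N).map N.subtype).Normal := ConjAct.normal_of_characteristic_of_normal
  have hpg : IsPGroup p ((pCore p ↥N).map N.subtype) := (Helper16.pCore_isPGroup p ↥N).map _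
  have hle := Helper16.le_pCore hn hpg
  rw [h] at hle
  exact (Subgroup.map_eq_bot_iff_of_injective _ N.subtype_injective).1 (le_bot_iff.1 hle)

theorem pCore_quot_eq_bot {G : Type*} [Group G] {p : ℕ} (P : Subgroup G) [P.Normal]
    (hP : P = pCore p G) : pCore p (G ⧸ P) = ⊥ := by
  rw [Helper16.pCore_quot_eq_bot_iff]
  intro D hD hx
  have hPg : IsPGroup p ↥P := by rw [hP]; exact Helper16.pCore_isPGroup p G
  rw [hP]
  apply Helper16.le_pCore hD
  rintro ⟨x, hxD⟩
  obtain ⟨k, hk⟩ := hx x hxD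
  obtain ⟨l, hl⟩ := hPg ⟨x ^ p ^ k, hk⟩
  refine ⟨k + l, ?_⟩
  apply Subtype.ext
  have hl' : (x ^ p ^ k) ^ p ^ l = 1 := congrArg Subtype.val hl
  show x ^ p ^ (k + l) = 1
  rw [pow_add, pow_mul]; exact hl'

theorem normal_map_of_hall {G : Type*} [Group G] (N : Subgroup G) [N.Normal]
    (K : Subgroup ↥N) [K.Normal] (hcop : (Nat.card K).Coprime K.index) :
    (K.map N.subtype).Normal := by
  constructor
  intro a ha g
  obtain ⟨a', ha', rfl⟩ := ha
  have hb : g * (a' : G) * g⁻¹ ∈ N := ‹N.Normal›.conj_mem _ a'.2 g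
  refine ⟨⟨_, hb⟩, ?_, rfl⟩
  have h1 : (⟨_, hb⟩ : ↥N) ^ Nat.card K = 1 := by
    apply Subtype.ext
    show (g * (a' : G) * g⁻¹) ^ Nat.card K = 1
    rw [conj_pow]
    have h2 : (⟨a', ha'⟩ : ↥K) ^ Nat.card K = 1 := pow_card_eq_one'
    have h3 : (a' : G) ^ Nat.card K = 1 :=
      congrArg (fun t : ↥K => ((t : ↥N) : G)) h2
    rw [h3]; group
  have h4 : (⟨_, hb⟩ : ↥N) ^ K.index ∈ K := Subgroup.pow_index_mem K _
  exact Helper21.mem_of_pow_mem_of_coprime hcop (by rw [h1]; exact K.one_mem) h4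

theorem exists_max_normal (G : Type*) [Group G] [Finite G] [Nontrivial G] :
    ∃ N : Subgroup G, N.Normal ∧ N ≠ ⊤ ∧
      ∀ M : Subgroup G, M.Normal → N ≤ M → M = N ∨ M = ⊤ := by
  have hne : Nonempty {N : Subgroup G // N.Normal ∧ N ≠ ⊤} :=
    ⟨⟨⊥, inferInstance, bot_ne_top⟩⟩
  obtain ⟨⟨N, hN1, hN2⟩, hmax⟩ := Finite.exists_max
    (fun N : {N : Subgroup G // N.Normal ∧ N ≠ ⊤} => Nat.card N.1)
  refine ⟨N, hN1, hN2, ?_⟩
  intro M hM hNM
  by_cases hMt : M = ⊤
  · right; exact hMt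
  · left
    have h1 : Nat.card M ≤ Nat.card N := hmax ⟨M, hM, hMt⟩
    exact (Subgroup.eq_of_le_of_card_ge hNM h1).symm

theorem simple_quot {G : Type*} [Group G] (N : Subgroup G) [N.Normal] (hN : N ≠ ⊤)
    (hmax : ∀ M : Subgroup G, M.Normal → N ≤ M → M = N ∨ M = ⊤) : IsSimpleGroup (G ⧸ N) := by
  have hnt : Nontrivial (G ⧸ N) := by
    by_contra hcon
    rw [not_nontrivial_iff_subsingleton] at hcon
    apply hN
    rw [eq_top_iff]
    intro g _
    have : (g : G ⧸ N) = 1 := Subsingleton.elim _ _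
    exact (QuotientGroup.eq_one_iff g).1 this
  refine { toNontrivial := hnt, eq_bot_or_eq_top_of_normal := fun H hH => ?_ }
  have hMn : (H.comap (QuotientGroup.mk' N)).Normal := hH.comap _
  have hNM : N ≤ H.comap (QuotientGroup.mk' N) := by
    intro n hn
    rw [Subgroup.mem_comap]
    have : (QuotientGroup.mk' N) n = 1 := (QuotientGroup.eq_one_iff n).2 hn
    rw [this]; exact H.one_mem
  rcases hmax _ hMn hNM with h | h
  · left
    rw [eq_bot_iff]
    intro x hx
    obtain ⟨g, rfl⟩ := QuotientGroup.mk'_surjective N x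
    have hg : g ∈ H.comap (QuotientGroup.mk' N) := hx
    rw [h] at hg
    exact Subgroup.mem_bot.2 ((QuotientGroup.eq_one_iff g).2 hg)
  · right
    rw [eq_top_iff]
    intro x _
    obtain ⟨g, rfl⟩ := QuotientGroup.mk'_surjective N x
    have hg : g ∈ H.comap (QuotientGroup.mk' N) := by rw [h]; trivial
    exact hg

theorem prime_card_of_simple {Q : Type*} [Group Q] [Finite Q] [IsSimpleGroup Q] {p : ℕ}
    (hp : p.Prime) (h : PP p Q) : (Nat.card Q).Prime := by
  by_cases hex : ∃ y : Q, ∀ j : ℕ, y ^ p ^ j ≠ 1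
  · obtain ⟨y, hy⟩ := hex
    obtain ⟨j, k, hjk⟩ := h y
    exact S0143.result p k hp (y ^ p ^ j) (hy j) hjk
  · push Not at hex
    have hpg : IsPGroup p Q := hex
    have := Fact.mk hp
    have hc : Nontrivial (Subgroup.center Q) := hpg.center_nontrivial
    have hct : Subgroup.center Q = ⊤ := by
      rcases IsSimpleGroup.eq_bot_or_eq_top_of_normal (Subgroup.center Q) inferInstance with h1 | h1
      · exfalso
        rw [Subgroup.nontrivial_iff_ne_bot] at hc
        exact hc h1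
      · exact h1
    have hcomm : ∀ a b : Q, a * b = b * a := by
      intro a b
      have hb : b ∈ Subgroup.center Q := by rw [hct]; trivial
      exact (Subgroup.mem_center_iff.1 hb a)
    let inst : CommGroup Q := { ‹Group Q› with mul_comm := hcomm }
    exact @IsSimpleGroup.prime_card Q inst _

theorem le_of_central_hall {G : Type*} [Group G] [Finite G] {p : ℕ} (hp : p.Prime)
    (hcore : pCore p G = ⊥) (D K₁ : Subgroup G) [D.Normal] [K₁.Normal]
    (hDc : D ≤ Subgroup.centralizer (K₁ : Set G)) (hp1 : ¬ p ∣ Nat.card K₁)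
    (j : ℕ) (hj : K₁.relIndex D = p ^ j) : D ≤ K₁ := by
  have hcardle : Nat.card (K₁.subgroupOf D) ∣ Nat.card K₁ := by
    have h1 : Nat.card (K₁.subgroupOf D) = Nat.card (K₁ ⊓ D : Subgroup G) := by
      rw [← Subgroup.inf_subgroupOf_right K₁ D]
      exact Nat.card_congr (Subgroup.subgroupOfEquivOfLe inf_le_right).toEquiv
    rw [h1]; exact Subgroup.card_dvd_of_le inf_le_left
  have hcop : (Nat.card (K₁.subgroupOf D)).Coprime (K₁.subgroupOf D).index := by
    have h2 : (K₁.subgroupOf D).index = p ^ j := hj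
    rw [h2]
    apply Nat.Coprime.pow_right
    exact (Nat.Coprime.coprime_dvd_left hcardle ((Nat.Prime.coprime_iff_not_dvd hp).2 hp1).symm)
  obtain ⟨T, hT⟩ := Subgroup.exists_right_complement'_of_coprime hcop
  have hTcard : Nat.card T = p ^ j := by
    have := hT.symm.index_eq_card
    rw [← this]; exact hj
  have hTp : IsPGroup p T := IsPGroup.of_card hTcard
  have hTn : T.Normal := by
    constructor
    intro t ht d
    obtain ⟨⟨⟨k, hk⟩, ⟨t₀, ht₀⟩⟩, hkt⟩ := hT.2 d
    have hkt' : k * t₀ = d := hkt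
    have hkc : ∀ w : ↥D, k * w = w * k := by
      intro w
      apply Subtype.ext
      have hw := hDc w.2
      rw [Subgroup.mem_centralizer_iff] at hw
      exact hw (k : G) (Subgroup.mem_subgroupOf.1 hk)
    have hconj : d * t * d⁻¹ = t₀ * t * t₀⁻¹ := by
      rw [← hkt']
      have h5 := hkc (t₀ * t * t₀⁻¹)
      calc k * t₀ * t * (k * t₀)⁻¹ = k * (t₀ * t * t₀⁻¹) * k⁻¹ := by group
        _ = t₀ * t * t₀⁻¹ * k * k⁻¹ := by rw [h5]
        _ = t₀ * t * t₀⁻¹ := by group
    rw [hconj]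
    exact T.mul_mem (T.mul_mem ht₀ ht) (T.inv_mem ht₀)
  have hTbot : T = ⊥ := by
    have h6 := Helper16.le_pCore hTn hTp
    rw [pCore_subgroup_eq_bot D hcore] at h6
    exact le_bot_iff.1 h6
  have h3 : (K₁.subgroupOf D).index = 1 := by
    have h7 := hT.symm.index_eq_card
    rw [h7, hTbot, Subgroup.card_bot]
  exact Subgroup.relIndex_eq_one.1 h3

theorem main_T {p : ℕ} (hp : p.Prime) : ∀ n : ℕ, ∀ (G : Type u) [Group G] [Finite G],
    Nat.card G = n → PP p G → pCore p G = ⊥ →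
    ∃ K : Subgroup G, K.Normal ∧ (∀ a ∈ K, ∀ b ∈ K, a * b = b * a) ∧ ¬ p ∣ Nat.card K ∧
      ∃ k : ℕ, K.index = p ^ k := by
  intro n
  induction n using Nat.strong_induction_on with
  | _ n ih =>
  intro G _ _ hn hPP hcore
  by_cases hnt : Nontrivial G
  swap
  · rw [not_nontrivial_iff_subsingleton] at hnt
    refine ⟨⊥, inferInstance, ?_, ?_, 0, ?_⟩
    · intro a _ b _; exact Subsingleton.elim _ _
    · rw [Subgroup.card_bot]; exact Nat.Prime.not_dvd_one hp
    · rw [Subgroup.index_bot, pow_zero]; exact Nat.card_of_subsingleton (1 : G)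
  obtain ⟨N, hNn, hNt, hmax⟩ := exists_max_normal G
  have hsimp : IsSimpleGroup (G ⧸ N) := simple_quot N hNt hmax
  have hq : (Nat.card (G ⧸ N)).Prime :=
    prime_card_of_simple hp (pp_surj hp (QuotientGroup.mk' N) (QuotientGroup.mk'_surjective N) hPP)
  have hidx : N.index = Nat.card (G ⧸ N) := rfl
  have hlt : Nat.card ↥N < n := by rw [← hn]; exact Helper1.card_lt_of_ne_top N hNt
  obtain ⟨K, hKn, hKc, hKp, k, hKk⟩ := ih (Nat.card ↥N) hlt ↥N rfl (pp_normal hp N hPP)
    (pCore_subgroup_eq_bot N hcore)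
  have hcop : (Nat.card K).Coprime K.index := by
    rw [hKk]; exact Nat.Coprime.pow_right k ((Nat.Prime.coprime_iff_not_dvd hp).2 hKp).symm
  have hK1n : (K.map N.subtype).Normal := normal_map_of_hall N K hcop
  have hK1card : Nat.card (K.map N.subtype) = Nat.card K :=
    Subgroup.card_map_of_injective N.subtype_injective
  have hK1idx : (K.map N.subtype).index = p ^ k * N.index := by
    rw [Subgroup.index_map_subtype, hKk]
  have hK1comm : ∀ a ∈ K.map N.subtype, ∀ b ∈ K.map N.subtype, a * b = b * a := by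
    rintro _ ⟨a, ha, rfl⟩ _ ⟨b, hb, rfl⟩
    exact congrArg Subtype.val (hKc a ha b hb)
  have hrelN : (K.map N.subtype).relIndex N = p ^ k := by
    have h1 : (K.map N.subtype).subgroupOf N = K :=
      Subgroup.comap_map_eq_self_of_injective N.subtype_injective K
    show ((K.map N.subtype).subgroupOf N).index = p ^ k
    rw [h1]; exact hKk
  have hK₁N' : K.map N.subtype ≤ N := Subgroup.map_subtype_le K
  obtain ⟨K₁, hK₁⟩ : ∃ K₁ : Subgroup G, K₁ = K.map N.subtype := ⟨_, rfl⟩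
  rw [← hK₁] at hK1n hK1card hK1idx hK1comm hrelN hK₁N'
  have hp1 : ¬ p ∣ Nat.card K₁ := by rw [hK1card]; exact hKp
  by_cases hqp : Nat.card (G ⧸ N) = p
  · refine ⟨K₁, hK1n, hK1comm, hp1, k + 1, ?_⟩
    rw [hK1idx, hidx, hqp, pow_succ]
  obtain ⟨C, hC⟩ : ∃ C : Subgroup G, C = Subgroup.centralizer (K₁ : Set G) := ⟨_, rfl⟩
  have hCn : C.Normal := by rw [hC]; infer_instance
  have hK₁C : K₁ ≤ C := by
    intro a ha
    rw [hC, Subgroup.mem_centralizer_iff]
    intro b hb
    exact hK1comm b hb a ha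
  have hDn : (C ⊓ N).Normal := inferInstance
  have hrel : K₁.relIndex (C ⊓ N) * (C ⊓ N).relIndex N = K₁.relIndex N :=
    Subgroup.relIndex_mul_relIndex _ _ _ (le_inf hK₁C hK₁N') inf_le_right
  have hdv : K₁.relIndex (C ⊓ N) ∣ p ^ k := by
    rw [← hrelN, ← hrel]; exact Dvd.intro _ rfl
  obtain ⟨j, -, hj⟩ := (Nat.dvd_prime_pow hp).1 hdv
  have hCN : C ⊓ N ≤ K₁ :=
    le_of_central_hall hp hcore (C ⊓ N) K₁ (by rw [← hC]; exact inf_le_left) hp1 j hj
  obtain ⟨y, hyN⟩ : ∃ y : G, y ∉ N := by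
    by_contra hcon
    push Not at hcon
    exact hNt (eq_top_iff.2 (fun g _ => hcon g))
  obtain ⟨j', k', hjk'⟩ := hPP y
  have hyC : y ^ p ^ j' ∈ C := by
    rw [hC, Subgroup.mem_centralizer_iff]
    intro b hb
    have h1 := le_centralizer_of_coprime hp K₁ hp1 (y ^ p ^ j') k' hjk' hb
    rw [Subgroup.mem_centralizer_singleton_iff] at h1
    exact h1
  have hyN' : y ^ p ^ j' ∉ N := by
    intro hmem
    apply hyN
    have h1 : ((y : G ⧸ N)) ^ p ^ j' = 1 := by
      rw [← QuotientGroup.mk_pow]; exact (QuotientGroup.eq_one_iff _).2 hmem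
    have h2 : ((y : G ⧸ N)) ^ Nat.card (G ⧸ N) = 1 := pow_card_eq_one'
    have h3 := pow_gcd_eq_one.2 ⟨h1, h2⟩
    have hcop' : Nat.gcd (p ^ j') (Nat.card (G ⧸ N)) = 1 :=
      Nat.Coprime.pow_left j' ((Nat.coprime_primes hp hq).2 (Ne.symm hqp))
    rw [hcop', pow_one] at h3
    exact (QuotientGroup.eq_one_iff y).1 h3
  have hNrelC : N.relIndex C = Nat.card (G ⧸ N) := by
    have hd : N.relIndex C ∣ N.index := Subgroup.relIndex_dvd_index_of_normal N C
    rw [hidx] at hd
    rcases (Nat.dvd_prime hq).1 hd with h1 | h1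
    · exfalso
      exact hyN' (Subgroup.relIndex_eq_one.1 h1 hyC)
    · exact h1
  have hK₁relC : K₁.relIndex C = Nat.card (G ⧸ N) := by
    have h1 : (C ⊓ N) = K₁ := le_antisymm hCN (le_inf hK₁C hK₁N')
    rw [← h1, Subgroup.inf_relIndex_left]
    exact hNrelC
  have hCidx : C.index = p ^ k := by
    have h1 : K₁.relIndex C * C.index = K₁.index := Subgroup.relIndex_mul_index hK₁C
    rw [hK₁relC, hK1idx, hidx, mul_comm (p ^ k)] at h1
    exact Nat.eq_of_mul_eq_mul_left hq.pos h1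
  have hCcard : Nat.card C = Nat.card K₁ * Nat.card (G ⧸ N) := by
    have h1 := Subgroup.card_mul_index C
    have h2 := Subgroup.card_mul_index K₁
    rw [hCidx] at h1
    rw [hK1idx, hidx] at h2
    have h3 : Nat.card C * p ^ k = (Nat.card K₁ * Nat.card (G ⧸ N)) * p ^ k := by
      rw [h1, ← h2]; ring
    exact Nat.eq_of_mul_eq_mul_right (pow_pos hp.pos k) h3
  have hCp : ¬ p ∣ Nat.card C := by
    rw [hCcard]
    intro hdvd
    rcases (Nat.Prime.dvd_mul hp).1 hdvd with h1 | h1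
    · exact hp1 h1
    · exact hqp ((Nat.prime_dvd_prime_iff_eq hp hq).1 h1).symm
  have hCcomm : ∀ a ∈ C, ∀ b ∈ C, a * b = b * a := by
    have hcyc : IsCyclic (G ⧸ N) := by
      have := Fact.mk hq
      exact isCyclic_of_prime_card rfl
    have hker : ((QuotientGroup.mk' N).comp C.subtype).ker ≤ Subgroup.center ↥C := by
      intro c hc
      have hcN : (c : G) ∈ N := by
        have : (QuotientGroup.mk' N) (c : G) = 1 := hc
        exact (QuotientGroup.eq_one_iff _).1 this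
      have hcK : (c : G) ∈ K₁ := hCN ⟨c.2, hcN⟩
      rw [Subgroup.mem_center_iff]
      intro w
      apply Subtype.ext
      have hw : (w : G) ∈ Subgroup.centralizer (K₁ : Set G) := by rw [← hC]; exact w.2
      rw [Subgroup.mem_centralizer_iff] at hw
      exact (hw (c : G) hcK).symm
    intro a ha b hb
    have h0 := MonoidHom.isMulCommutative_of_isCyclic_of_ker_le_center
      ((QuotientGroup.mk' N).comp C.subtype) hker
    have h1 := h0.is_comm.comm ⟨a, ha⟩ ⟨b, hb⟩
    exact congrArg Subtype.val h1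
  exact ⟨C, hCn, hCcomm, hCp, k, hCidx⟩

theorem forward {G : Type u} [Group G] [Finite G] {p : ℕ} (hp : p.Prime) (hPP : PP p G) :
    ∃ H : Subgroup G, IsMulCommutative H ∧ ¬ p ∣ Nat.card H ∧ ∃ k : ℕ, H.index = p ^ k := by
  have := Fact.mk hp
  have hPn : (pCore p G).Normal := Helper16.pCore_normal p G
  have hPp : IsPGroup p (pCore p G) := Helper16.pCore_isPGroup p G
  obtain ⟨a, ha⟩ := IsPGroup.exists_card_eq hPp
  obtain ⟨Kb, hKn, hKc, hKp, k, hKk⟩ := main_T hp (Nat.card (G ⧸ pCore p G)) (G ⧸ pCore p G) rfl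
    (pp_surj hp (QuotientGroup.mk' _) (QuotientGroup.mk'_surjective _) hPP)
    (pCore_quot_eq_bot (pCore p G) rfl)
  obtain ⟨L, hL⟩ : ∃ L : Subgroup G, L = Kb.comap (QuotientGroup.mk' (pCore p G)) := ⟨_, rfl⟩
  have hPL : pCore p G ≤ L := by
    intro x hx
    rw [hL, Subgroup.mem_comap]
    have : (QuotientGroup.mk' (pCore p G)) x = 1 := (QuotientGroup.eq_one_iff x).2 hx
    rw [this]; exact Kb.one_mem
  have hLidx : L.index = p ^ k := by
    rw [hL, Subgroup.index_comap_of_surjective _ (QuotientGroup.mk'_surjective _)]; exact hKk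
  have hcardG : Nat.card G = Nat.card (pCore p G) * Nat.card (G ⧸ pCore p G) := by
    rw [mul_comm]; exact Subgroup.card_eq_card_quotient_mul_card_subgroup _
  have hcardKb : Nat.card Kb * p ^ k = Nat.card (G ⧸ pCore p G) := by
    rw [← hKk]; exact Subgroup.card_mul_index Kb
  have hcardL : Nat.card L = p ^ a * Nat.card Kb := by
    have h1 := Subgroup.card_mul_index L
    rw [hLidx, hcardG, ha, ← hcardKb] at h1
    have h3 : Nat.card L * p ^ k = (p ^ a * Nat.card Kb) * p ^ k := by rw [h1]; ring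
    exact Nat.eq_of_mul_eq_mul_right (pow_pos hp.pos k) h3
  have hP'card : Nat.card ((pCore p G).subgroupOf L) = p ^ a := by
    rw [← ha]; exact Nat.card_congr (Subgroup.subgroupOfEquivOfLe hPL).toEquiv
  have hP'idx : ((pCore p G).subgroupOf L).index = Nat.card Kb := by
    have h1 := Subgroup.card_mul_index ((pCore p G).subgroupOf L)
    rw [hP'card, hcardL] at h1
    exact Nat.eq_of_mul_eq_mul_left (pow_pos hp.pos a) h1
  have hcop : (Nat.card ((pCore p G).subgroupOf L)).Coprime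
      ((pCore p G).subgroupOf L).index := by
    rw [hP'card, hP'idx]
    exact Nat.Coprime.pow_left a ((Nat.Prime.coprime_iff_not_dvd hp).2 hKp)
  obtain ⟨H', hH'⟩ := Subgroup.exists_right_complement'_of_coprime hcop
  have hH'card : Nat.card H' = Nat.card Kb := by
    rw [← hP'idx]; exact hH'.symm.index_eq_card.symm
  have hH'idx : H'.index = p ^ a := by
    rw [← hP'card]; exact hH'.index_eq_card
  refine ⟨H'.map L.subtype, ?_, ?_, a + k, ?_⟩
  · refine ⟨⟨?_⟩⟩
    rintro ⟨_, x, hx, rfl⟩ ⟨_, y, hy, rfl⟩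
    apply Subtype.ext
    show (x : G) * (y : G) = (y : G) * (x : G)
    have hLmem : ∀ z : G, z ∈ L → (QuotientGroup.mk' (pCore p G)) z ∈ Kb := by
      intro z hz; rw [hL] at hz; exact hz
    have hxK : (QuotientGroup.mk' (pCore p G)) (x : G) ∈ Kb := hLmem _ x.2
    have hyK : (QuotientGroup.mk' (pCore p G)) (y : G) ∈ Kb := hLmem _ y.2
    have hcomm := hKc _ hxK _ hyK
    have hmem : x * y * x⁻¹ * y⁻¹ ∈ (pCore p G).subgroupOf L := by
      rw [Subgroup.mem_subgroupOf]
      show (x : G) * (y : G) * (x : G)⁻¹ * (y : G)⁻¹ ∈ pCore p G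
      apply (QuotientGroup.eq_one_iff _).1
      have e : ((((x : G) * (y : G) * (x : G)⁻¹ * (y : G)⁻¹ : G)) : G ⧸ pCore p G) =
          (QuotientGroup.mk' (pCore p G)) (x : G) * (QuotientGroup.mk' (pCore p G)) (y : G) *
          ((QuotientGroup.mk' (pCore p G)) (x : G))⁻¹ *
          ((QuotientGroup.mk' (pCore p G)) (y : G))⁻¹ := rfl
      rw [e, hcomm]; group
    have hmem2 : x * y * x⁻¹ * y⁻¹ ∈ H' :=
      H'.mul_mem (H'.mul_mem (H'.mul_mem hx hy) (H'.inv_mem hx)) (H'.inv_mem hy)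
    have h1 : x * y * x⁻¹ * y⁻¹ = 1 := by
      have hdis := hH'.disjoint
      rw [Subgroup.disjoint_def] at hdis
      exact hdis hmem hmem2
    have h2 : x * y = y * x := by
      calc x * y = (x * y * x⁻¹ * y⁻¹) * (y * x) := by group
        _ = y * x := by rw [h1, one_mul]
    exact congrArg Subtype.val h2
  · rw [Subgroup.card_map_of_injective L.subtype_injective, hH'card]; exact hKp
  · rw [Subgroup.index_map_subtype, hH'idx, hLidx, pow_add]

theorem pp_of_hyp {G : Type*} [Group G] [Finite G] {p : ℕ} (hp : p.Prime)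
    (h : ∀ x : G, (orderOf x).Coprime p → ∃ k : ℕ, (ConjClasses.mk x).carrier.ncard = p ^ k) :
    PP p G := by
  intro x
  obtain ⟨e, m, hm, hn⟩ := Nat.exists_eq_pow_mul_and_not_dvd (orderOf_pos x).ne' p hp.ne_one
  have hord : orderOf (x ^ p ^ e) = m := by
    rw [orderOf_pow_of_dvd (pow_pos hp.pos e).ne' ⟨m, hn⟩, hn]
    exact Nat.mul_div_cancel_left m (pow_pos hp.pos e)
  obtain ⟨k, hk⟩ := h (x ^ p ^ e)
    (by rw [hord]; exact ((Nat.Prime.coprime_iff_not_dvd hp).2 hm).symm)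
  exact ⟨e, k, by rw [Helper21.index_centralizer_eq_ncard]; exact hk⟩

theorem conj_into {G : Type*} [Group G] [Finite G] {p : ℕ} (hp : p.Prime) (H : Subgroup G)
    (hH : ∀ a ∈ H, ∀ b ∈ H, a * b = b * a) (k : ℕ) (hk : H.index = p ^ k) :
    ∀ n : ℕ, ∀ x : G, orderOf x = n → n.Coprime p → ∃ g : G, g * x * g⁻¹ ∈ H := by
  intro n
  induction n using Nat.strong_induction_on with
  | _ n ih =>
  intro x hx hcop
  by_cases hn1 : n = 1
  · refine ⟨1, ?_⟩
    rw [hn1, orderOf_eq_one_iff] at hx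
    rw [hx]; simp
  have hn0 : n ≠ 0 := by rw [← hx]; exact (orderOf_pos x).ne'
  obtain ⟨q, hq, hqn⟩ := Nat.exists_prime_and_dvd hn1
  have hqp : q ≠ p := by
    rintro rfl
    have h1 := Nat.Coprime.eq_one_of_dvd hcop.symm hqn
    exact hq.one_lt.ne' h1
  obtain ⟨a, m, hm, hnam⟩ := Nat.exists_eq_pow_mul_and_not_dvd hn0 q hq.ne_one
  have ha : a ≠ 0 := by
    rintro rfl
    rw [pow_zero, one_mul] at hnam
    exact hm (hnam ▸ hqn)
  have hm0 : 0 < m := by
    rcases Nat.eq_zero_or_pos m with h | h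
    · rw [h, mul_zero] at hnam; exact absurd hnam hn0
    · exact h
  have hmlt : m < n := by
    rw [hnam]
    have h2 : 2 ≤ q ^ a := by
      calc 2 ≤ q := hq.two_le
        _ = q ^ 1 := (pow_one q).symm
        _ ≤ q ^ a := Nat.pow_le_pow_right hq.pos (Nat.one_le_iff_ne_zero.2 ha)
    nlinarith
  have hordu : orderOf (x ^ q ^ a) = m := by
    rw [orderOf_pow_of_dvd (pow_pos hq.pos a).ne' (by rw [hx, hnam]; exact Dvd.intro _ rfl),
      hx, hnam]
    exact Nat.mul_div_cancel_left m (pow_pos hq.pos a)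
  have hmcop : m.Coprime p :=
    Nat.Coprime.coprime_dvd_left (by rw [hnam]; exact Dvd.intro_left _ rfl) hcop
  obtain ⟨g, hg⟩ := ih m hmlt (x ^ q ^ a) hordu hmcop
  obtain ⟨x', hx'⟩ : ∃ x' : G, x' = g * x * g⁻¹ := ⟨_, rfl⟩
  have hu' : x' ^ q ^ a ∈ H := by rw [hx', conj_pow]; exact hg
  have hx'n : x' ^ n = 1 := by
    rw [hx', conj_pow, ← hx, pow_orderOf_eq_one]; group
  obtain ⟨C, hC⟩ : ∃ C : Subgroup G, C = Subgroup.centralizer ({x' ^ q ^ a} : Set G) := ⟨_, rfl⟩
  have hHC : H ≤ C := by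
    intro b hb
    rw [hC, Subgroup.mem_centralizer_singleton_iff]
    exact hH b hb _ hu'
  have hvC : x' ^ m ∈ C := by
    rw [hC, Subgroup.mem_centralizer_singleton_iff, ← pow_add, ← pow_add, add_comm]
  have hvq : (⟨x' ^ m, hvC⟩ : ↥C) ^ q ^ a = 1 := by
    apply Subtype.ext
    show (x' ^ m) ^ q ^ a = 1
    rw [← pow_mul, mul_comm, ← hnam]; exact hx'n
  have hZ : IsPGroup q (Subgroup.zpowers (⟨x' ^ m, hvC⟩ : ↥C)) :=
    Helper12.isPGroup_zpowers_of_pow_eq_one hvq
  have hndvd : ¬ q ∣ Nat.card (↥C ⧸ H.subgroupOf C) := by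
    have h1 : Nat.card (↥C ⧸ H.subgroupOf C) = H.relIndex C := rfl
    rw [h1]
    intro hdvd
    have h2 : H.relIndex C ∣ p ^ k := by
      rw [← hk]; exact Subgroup.relIndex_dvd_index_of_le hHC
    have h3 := hq.dvd_of_dvd_pow (hdvd.trans h2)
    exact hqp ((Nat.prime_dvd_prime_iff_eq hq hp).1 h3)
  have := Fact.mk hq
  obtain ⟨cb, hcb⟩ := hZ.nonempty_fixed_point_of_prime_not_dvd_card (↥C ⧸ H.subgroupOf C) hndvd
  obtain ⟨c, rfl⟩ := QuotientGroup.mk_surjective cb
  have hfix := hcb ⟨⟨x' ^ m, hvC⟩, Subgroup.mem_zpowers _⟩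
  have hfix' : (((⟨x' ^ m, hvC⟩ : ↥C) * c : ↥C) : ↥C ⧸ H.subgroupOf C) =
      (c : ↥C ⧸ H.subgroupOf C) := hfix
  have hmem : c⁻¹ * ((⟨x' ^ m, hvC⟩ : ↥C) * c) ∈ H.subgroupOf C := QuotientGroup.eq.1 hfix'.symm
  have hmem' : (c : G)⁻¹ * (x' ^ m * (c : G)) ∈ H := Subgroup.mem_subgroupOf.1 hmem
  refine ⟨(c : G)⁻¹ * g, ?_⟩
  have e1 : (c : G)⁻¹ * g * x * ((c : G)⁻¹ * g)⁻¹ = (c : G)⁻¹ * x' * ((c : G)⁻¹)⁻¹ := by
    rw [hx']; group
  rw [e1]
  have hCmem : ∀ z : G, z ∈ C → z * x' ^ q ^ a = x' ^ q ^ a * z := by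
    intro z hz
    rw [hC, Subgroup.mem_centralizer_singleton_iff] at hz
    exact hz
  have hcc : (c : G) * x' ^ q ^ a = x' ^ q ^ a * (c : G) := hCmem _ c.2
  apply Helper21.mem_of_pow_mem_of_coprime (m := q ^ a) (k := m)
  · exact Nat.Coprime.pow_left a ((Nat.Prime.coprime_iff_not_dvd hq).2 hm)
  · rw [conj_pow]
    have h1 : (c : G)⁻¹ * x' ^ q ^ a * ((c : G)⁻¹)⁻¹ = x' ^ q ^ a := by
      rw [inv_inv, mul_assoc, ← hcc]; group
    rw [h1]; exact hu'
  · rw [conj_pow, inv_inv, mul_assoc]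
    exact hmem'

theorem backward {G : Type*} [Group G] [Finite G] {p : ℕ} (hp : p.Prime) (H : Subgroup G)
    (hH : IsMulCommutative H) (k : ℕ) (hk : H.index = p ^ k) (x : G)
    (hx : (orderOf x).Coprime p) : ∃ k : ℕ, (ConjClasses.mk x).carrier.ncard = p ^ k := by
  have hH' : ∀ a ∈ H, ∀ b ∈ H, a * b = b * a := fun a ha b hb =>
    congrArg Subtype.val (hH.is_comm.comm ⟨a, ha⟩ ⟨b, hb⟩)
  obtain ⟨g, hg⟩ := conj_into hp H hH' k hk (orderOf x) x rfl hx
  have hle : H ≤ Subgroup.centralizer ({g * x * g⁻¹} : Set G) := by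
    intro b hb
    rw [Subgroup.mem_centralizer_singleton_iff]
    exact hH' b hb _ hg
  have h1 : (Subgroup.centralizer ({g * x * g⁻¹} : Set G)).index ∣ p ^ k := by
    rw [← hk]; exact Subgroup.index_dvd_of_le hle
  obtain ⟨k', -, hk'⟩ := (Nat.dvd_prime_pow hp).1 h1
  refine ⟨k', ?_⟩
  have h2 : ConjClasses.mk x = ConjClasses.mk (g * x * g⁻¹) := by
    rw [ConjClasses.mk_eq_mk_iff_isConj, isConj_iff]
    exact ⟨g, rfl⟩
  rw [h2, ← Helper21.index_centralizer_eq_ncard]; exact hk'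

/-- Let G be a finite group and p a prime. Every conjugacy class of p-regular elements of G (elements of order prime to p) has p-power size if and only if G has an abelian p-complement, i.e. an abelian subgroup of order prime to p and p-power index. -/
theorem result {G : Type*} [Group G] [Finite G] {p : ℕ} (hp : p.Prime) :
    (∀ x : G, (orderOf x).Coprime p → ∃ k : ℕ, (ConjClasses.mk x).carrier.ncard = p ^ k) ↔
    (∃ H : Subgroup G, IsMulCommutative H ∧ ¬ p ∣ Nat.card H ∧ ∃ k : ℕ, H.index = p ^ k) := by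
  constructor
  · intro h
    exact forward hp (pp_of_hyp hp h)
  · rintro ⟨H, hH, -, k, hk⟩ x hx
    exact backward hp H hH k hk x hx

end Cfsg.Agent.S4034
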