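import Cfsg.Statements.S4036
-- import your own Cfsg.Agent.* helpers here

set_option autoImplicit false
open Cfsg

namespace Cfsg.Agent.S4036

/-- Let P be a finite abelian p-group and K a group of automorphisms of P (a subgroup of Aut P) whose order is divisible by p. If all non-identity elements of K have the same fixed-point subgroup on P, then K has no non-trivial normal subgroup of order prime to p. -/
theorem result {P : Type*} [CommGroup P] [Finite P] {p : ℕ}
    [Fact p.Prime] (hP : IsPGroup p P) (K : Subgroup (MulAut P)) (hK : p ∣ Nat.card K)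
    (hfix : ∀ x y : MulAut P, x ∈ K → y ∈ K → x ≠ 1 → y ≠ 1 → ∀ v : P, x v = v ↔ y v = v) :
    ∀ N : Subgroup ↥K, N.Normal → ¬ p ∣ Nat.card N → N = ⊥ := by
  classical
  intro N hN hpN
  haveI : Fintype N := Fintype.ofFinite N
  let π : P →* P := ∏ n : N, (((n : K) : MulAut P) : P →* P)
  have hπ : ∀ v : P, π v = ∏ n : N, ((n : K) : MulAut P) v := by
    intro v
    simp [π]
  have hb : ∀ (n₁ : N) (v : P), π (((n₁ : K) : MulAut P) v) = π v := by
    intro n₁ v
    rw [hπ, hπ]
    exact Fintype.prod_equiv (Equiv.mulRight n₁) _ _ (fun n => by simp [MulAut.mul_apply])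
  have hc : ∀ (k : K) (v : P), π ((k : MulAut P) v) = (k : MulAut P) (π v) := by
    intro k v
    rw [hπ, hπ, map_prod]
    refine Fintype.prod_equiv (MulAut.conjNormal k⁻¹ : N ≃* N).toEquiv _ _ (fun n => ?_)
    simp [MulAut.mul_apply]
  have hd : ∀ w : P, (∀ n : N, ((n : K) : MulAut P) w = w) → π w = w ^ Nat.card N := by
    intro w hw
    rw [hπ]
    simp [hw, Nat.card_eq_fintype_card]
  obtain ⟨x, hx⟩ := exists_prime_orderOf_dvd_card' p hK
  have hx1 : (x : MulAut P) ≠ 1 := by
    intro h
    have e : x = 1 := Subtype.ext h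
    rw [e, orderOf_one] at hx
    exact (Fact.out : p.Prime).one_lt.ne hx
  have hker : π.ker = ⊥ := by
    by_contra hne
    have h1 : IsPGroup p π.ker := hP.to_subgroup π.ker
    have hdvd : p ∣ Nat.card π.ker := by
      rcases h1.card_eq_or_dvd with h2 | h2
      · exact absurd (Subgroup.eq_bot_of_card_eq _ h2) hne
      · exact h2
    have hZK : Subgroup.zpowers (x : MulAut P) ≤ K := (Subgroup.zpowers_le).2 x.2
    have hZp : IsPGroup p (Subgroup.zpowers (x : MulAut P)) := by
      apply IsPGroup.of_card (n := 1)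
      rw [Nat.card_zpowers, Subgroup.orderOf_coe, hx, pow_one]
    let T : SubMulAction (Subgroup.zpowers (x : MulAut P)) P :=
      { carrier := (π.ker : Set P)
        smul_mem' := by
          intro c v hv
          have hv' : π v = 1 := hv
          show π ((c : MulAut P) v) = 1
          rw [hc ⟨c.1, hZK c.2⟩ v, hv', map_one] }
    have hTfin : Finite T := Finite.of_injective (fun t : T => (t : P)) Subtype.val_injective
    have hcard : p ∣ Nat.card T := hdvd
    have ha : (⟨1, one_mem π.ker⟩ : T) ∈ MulAction.fixedPoints (Subgroup.zpowers (x : MulAut P)) T := by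
      intro c
      apply Subtype.ext
      show (c : MulAut P) 1 = 1
      exact map_one _
    obtain ⟨b, hb1, hb2⟩ := hZp.exists_fixed_point_of_prime_dvd_card_of_fixed_point T hcard ha
    obtain ⟨w, hw⟩ := b
    have hw1 : w ≠ 1 := fun h => hb2 (Subtype.ext h.symm)
    have hxw : (x : MulAut P) w = w := by
      have e := hb1 ⟨(x : MulAut P), Subgroup.mem_zpowers _⟩
      exact congrArg Subtype.val e
    have hNw : ∀ n : N, ((n : K) : MulAut P) w = w := by
      intro n
      by_cases hn : ((n : K) : MulAut P) = 1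
      · rw [hn]; rfl
      · exact (hfix x n x.2 (n : K).2 hx1 hn w).1 hxw
    have hpw : π w = 1 := hw
    rw [hd w hNw] at hpw
    obtain ⟨k, hk⟩ := hP w
    have hcop : Nat.Coprime (Nat.card N) (p ^ k) :=
      Nat.Coprime.pow_right k ((Nat.Prime.coprime_iff_not_dvd Fact.out).2 hpN).symm
    have hdv : orderOf w ∣ Nat.gcd (Nat.card N) (p ^ k) :=
      Nat.dvd_gcd (orderOf_dvd_of_pow_eq_one hpw) (orderOf_dvd_of_pow_eq_one hk)
    rw [Nat.Coprime.gcd_eq_one hcop] at hdv
    exact hw1 (orderOf_eq_one_iff.1 (Nat.dvd_one.1 hdv))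
  rw [Subgroup.eq_bot_iff_forall]
  intro n hn
  have h1 : ((n : K) : MulAut P) = 1 := by
    ext v
    have h2 := hb ⟨n, hn⟩ v
    have h3 : π (((n : K) : MulAut P) v * v⁻¹) = 1 := by
      rw [map_mul, map_inv, h2, mul_inv_cancel]
    have h4 : ((n : K) : MulAut P) v * v⁻¹ ∈ π.ker := h3
    rw [hker, Subgroup.mem_bot] at h4
    exact mul_inv_eq_one.1 h4
  exact Subtype.ext h1

end Cfsg.Agent.S4036
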