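import Cfsg.Statements.S4043
import Cfsg.Agent.Helper21.NPC

set_option autoImplicit false
open Cfsg

namespace Cfsg.Agent.S4043

/-- Let G be a finite group that is the semidirect product of a normal p-subgroup N by a subgroup A, and also of N by a subgroup A₁, where p is a prime and A and A₁ both have normal p-complements. If C_N(A) = C_N(A₁) = 1, then A₁ is conjugate to A by an element of N. -/
theorem result {G : Type*} [Group G] [Finite G] {p : ℕ}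
    [Fact p.Prime] (N : Subgroup G) [N.Normal] (hN : IsPGroup p N) (A A₁ : Subgroup G)
    (hA : A.IsComplement' N) (hA₁ : A₁.IsComplement' N)
    (hAp : Cfsg.HasNormalPComplement p A) (hA₁p : Cfsg.HasNormalPComplement p A₁)
    (hC : ∀ n : G, n ∈ N → (∀ a : G, a ∈ A → a * n * a⁻¹ = n) → n = 1)
    (hC₁ : ∀ n : G, n ∈ N → (∀ a : G, a ∈ A₁ → a * n * a⁻¹ = n) → n = 1) :
    ∃ n : G, n ∈ N ∧ A₁ = A.map (MulAut.conj n).toMonoidHom := by
  classical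
  obtain ⟨K, Q, hKA, hQA, hQp, hKcop, hKn, hKQ, hKp'⟩ :=
    Cfsg.Agent.Helper21.exists_npc_data A hAp
  obtain ⟨K₁, Q₁, hK₁A, hQ₁A, hQ₁p, hK₁cop, hK₁n, hK₁Q, hK₁p'⟩ :=
    Cfsg.Agent.Helper21.exists_npc_data A₁ hA₁p
  obtain ⟨hAd, hAe⟩ := Cfsg.Agent.Helper1.isComplement'_iff_elem.1 hA
  obtain ⟨hA₁d, hA₁e⟩ := Cfsg.Agent.Helper1.isComplement'_iff_elem.1 hA₁
  have step1 : ∀ (B KB : Subgroup G), (∀ x, x ∈ B → x ∈ N → x = 1) →
      (∀ g : G, ∃ a ∈ B, ∃ ν ∈ N, g = a * ν) →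
      (∀ a ∈ B, ∀ m : ℕ, m.Coprime p → a ^ m = 1 → a ∈ KB) →
      ∀ K' : Subgroup G, (Nat.card K').Coprime p → K' ≤ N ⊔ KB := by
    intro B KB hBd hBe hKB K' hK' k hk
    obtain ⟨a, ha, ν, hν, hkaν⟩ := hBe k
    have hm : (orderOf k).Coprime p := by
      have h1 : orderOf k ∣ Nat.card K' := by
        have h0 := orderOf_dvd_natCard (⟨k, hk⟩ : K')
        rwa [Subgroup.orderOf_mk] at h0
      exact Nat.Coprime.coprime_dvd_left h1 hK'
    have h2 : a ^ orderOf k ∈ N := by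
      rw [← QuotientGroup.eq_one_iff, QuotientGroup.mk_pow]
      have h3 : (a : G ⧸ N) = (k : G ⧸ N) := by
        rw [hkaν]; exact (QuotientGroup.mk_mul_of_mem a hν).symm
      rw [h3, ← QuotientGroup.mk_pow, pow_orderOf_eq_one]; rfl
    have h4 : a ^ orderOf k = 1 := hBd _ (B.pow_mem ha _) h2
    have h5 : a ∈ KB := hKB a ha _ hm h4
    rw [hkaν]
    exact Subgroup.mul_mem _ ((le_sup_right : KB ≤ N ⊔ KB) h5) ((le_sup_left : N ≤ N ⊔ KB) hν)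
  have hsup : N ⊔ K₁ = N ⊔ K := by
    apply le_antisymm
    · exact sup_le le_sup_left (step1 A K hAd hAe hKp' K₁ hK₁cop)
    · exact sup_le le_sup_left (step1 A₁ K₁ hA₁d hA₁e hK₁p' K hKcop)
  obtain ⟨n, hnN, hconj⟩ :=
    Cfsg.Agent.Helper21.exists_conj_of_sup_eq N hN K K₁ hKcop hK₁cop hsup
  refine ⟨n, hnN, ?_⟩
  have hmemK₁ : ∀ x, x ∈ K₁ ↔ n⁻¹ * x * n ∈ K := by
    intro x; rw [← hconj]; exact Cfsg.Agent.Helper1.mem_conj_smul
  -- `C_N(K₁) = 1`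
  have hinv : ∀ x ∈ A₁, ∀ c ∈ N ⊓ Subgroup.centralizer (K₁ : Set G),
      x * c * x⁻¹ ∈ N ⊓ Subgroup.centralizer (K₁ : Set G) := by
    intro x hx c hc
    obtain ⟨hcN, hcK⟩ := Subgroup.mem_inf.1 hc
    refine Subgroup.mem_inf.2 ⟨Subgroup.Normal.conj_mem inferInstance c hcN x, ?_⟩
    rw [Subgroup.mem_centralizer_iff]
    intro k hk
    have h1 : x⁻¹ * k * x⁻¹⁻¹ ∈ K₁ := hK₁n x⁻¹ (A₁.inv_mem hx) k hk
    have h2 := Subgroup.mem_centralizer_iff.1 hcK _ h1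
    calc k * (x * c * x⁻¹) = x * ((x⁻¹ * k * x⁻¹⁻¹) * c) * x⁻¹ := by group
      _ = x * (c * (x⁻¹ * k * x⁻¹⁻¹)) * x⁻¹ := by rw [h2]
      _ = x * c * x⁻¹ * k := by group
  have hCbot : N ⊓ Subgroup.centralizer (K₁ : Set G) = ⊥ := by
    by_contra hne
    have hQ₁C : Q₁ ≤ Subgroup.normalizer
        ((N ⊓ Subgroup.centralizer (K₁ : Set G) : Subgroup G) : Set G) := by
      intro x hx
      rw [Subgroup.mem_set_normalizer_iff]
      intro c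
      constructor
      · exact hinv x (hQ₁A hx) c
      · intro hc
        have h1 := hinv x⁻¹ (A₁.inv_mem (hQ₁A hx)) _ hc
        have e : x⁻¹ * (x * c * x⁻¹) * x⁻¹⁻¹ = c := by group
        rw [e] at h1
        exact h1
    obtain ⟨c, hc, hc1, hcfix⟩ := Cfsg.Agent.Helper21.exists_fixed_of_pgroup_normalizes
      (N ⊓ Subgroup.centralizer (K₁ : Set G)) Q₁ (hN.to_le inf_le_left) hQ₁p hQ₁C hne
    obtain ⟨hcN, hcK⟩ := Subgroup.mem_inf.1 hc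
    apply hc1
    apply hC₁ c hcN
    intro a ha
    obtain ⟨k, hk, x, hx, rfl⟩ := hK₁Q a ha
    have h1 := hcfix x hx
    have h2 := Subgroup.mem_centralizer_iff.1 hcK k hk
    calc k * x * c * (k * x)⁻¹ = k * (x * c * x⁻¹) * k⁻¹ := by group
      _ = k * c * k⁻¹ := by rw [h1]
      _ = c * k * k⁻¹ := by rw [h2]
      _ = c := by group
  have hLN : ∀ ν ∈ N, (∀ k ∈ K₁, ν * k * ν⁻¹ ∈ K₁) → ν = 1 := by
    intro ν hν hνK
    have hνC : ν ∈ N ⊓ Subgroup.centralizer (K₁ : Set G) := by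
      refine Subgroup.mem_inf.2 ⟨hν, ?_⟩
      rw [Subgroup.mem_centralizer_iff]
      intro k hk
      have h1 : ν * k * ν⁻¹ * k⁻¹ ∈ K₁ := K₁.mul_mem (hνK k hk) (K₁.inv_mem hk)
      have h2 : ν * k * ν⁻¹ * k⁻¹ ∈ N := by
        have h3 : k * ν⁻¹ * k⁻¹ ∈ N := Subgroup.Normal.conj_mem inferInstance _ (N.inv_mem hν) k
        have e : ν * k * ν⁻¹ * k⁻¹ = ν * (k * ν⁻¹ * k⁻¹) := by group
        rw [e]; exact N.mul_mem hν h3
      have h4 := Cfsg.Agent.Helper21.eq_one_of_mem_pgroup_of_mem_coprime hN hK₁cop h2 h1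
      calc k * ν = (ν * k * ν⁻¹ * k⁻¹)⁻¹ * (ν * k) := by group
        _ = ν * k := by rw [h4, inv_one, one_mul]
    rw [hCbot, Subgroup.mem_bot] at hνC
    exact hνC
  have hconjK : ∀ x ∈ A, ∀ h ∈ K₁, (n * x * n⁻¹) * h * (n * x * n⁻¹)⁻¹ ∈ K₁ := by
    intro x hx h hh
    rw [hmemK₁]
    have h1 := hKn x hx _ ((hmemK₁ h).1 hh)
    have e : n⁻¹ * ((n * x * n⁻¹) * h * (n * x * n⁻¹)⁻¹) * n = x * (n⁻¹ * h * n) * x⁻¹ := by
      group
    rw [e]; exact h1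
  have hsub : ∀ x ∈ A, n * x * n⁻¹ ∈ A₁ := by
    intro x hx
    obtain ⟨a₁, ha₁, ν, hν, hy⟩ := hA₁e (n * x * n⁻¹)
    have hν1 : ν = 1 := by
      apply hLN ν hν
      intro k hk
      have h1 := hconjK x hx k hk
      have h2 := hK₁n a₁⁻¹ (A₁.inv_mem ha₁) _ h1
      have e : ν * k * ν⁻¹ = a₁⁻¹ * ((a₁ * ν) * k * (a₁ * ν)⁻¹) * a₁⁻¹⁻¹ := by group
      rw [e, ← hy]; exact h2
    rw [hy, hν1, mul_one]; exact ha₁
  apply le_antisymm
  · intro a₁ ha₁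
    obtain ⟨a, ha, ν, hν, hg⟩ := hAe (n⁻¹ * a₁ * n)
    have hy := hsub a ha
    have hν' : n * ν * n⁻¹ ∈ N := Subgroup.Normal.conj_mem inferInstance ν hν n
    have e : n * ν * n⁻¹ = (n * a * n⁻¹)⁻¹ * a₁ := by
      have e0 : a₁ = n * (n⁻¹ * a₁ * n) * n⁻¹ := by group
      rw [e0, hg]; group
    have h1 : n * ν * n⁻¹ = 1 :=
      hA₁d _ (by rw [e]; exact A₁.mul_mem (A₁.inv_mem hy) ha₁) hν'
    have h2 : a₁ = n * a * n⁻¹ := by
      have e1 : a₁ = (n * a * n⁻¹) * (n * ν * n⁻¹) := by rw [e]; group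
      rw [e1, h1, mul_one]
    rw [Subgroup.mem_map]
    exact ⟨a, ha, by rw [h2]; rfl⟩
  · rintro _ ⟨x, hx, rfl⟩
    exact hsub x hx

end Cfsg.Agent.S4043
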