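import Cfsg.Statements.S4049
import Cfsg.Agent.Helper21.BaerSuzuki

set_option autoImplicit false
open Cfsg

namespace Cfsg.Agent.S4049

/-- Let G be a finite group such that N_G(H)/C_G(H) has odd order for every nontrivial subgroup H of odd order. Then the Sylow 2-subgroups of G are normal. -/
theorem result {G : Type*} [Group G] [Finite G]
    (hhom : ∀ H : Subgroup G, H ≠ ⊥ → ¬ 2 ∣ Nat.card ↥H →
        ¬ 2 ∣ (Subgroup.centralizer (H : Set G)).relIndex (Subgroup.normalizer (H : Set G))) (P : Sylow 2 G) :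
    (P : Subgroup G).Normal := by
  apply Cfsg.Agent.Helper21.sylow_two_normal_of_no_inverting
  intro t h h1 hodd hinv
  have hHne : Subgroup.zpowers h ≠ ⊥ := by
    intro hb
    exact h1 ((Subgroup.zpowers_eq_bot).1 hb)
  have hHodd : ¬ 2 ∣ Nat.card (Subgroup.zpowers h) := by
    rw [Nat.card_zpowers]
    intro h2
    exact (Nat.not_even_iff_odd.2 hodd) (even_iff_two_dvd.2 h2)
  exact hhom (Subgroup.zpowers h) hHne hHodd
    (Cfsg.Agent.Helper21.two_dvd_relIndex_of_inverted h1 hodd hinv)

end Cfsg.Agent.S4049
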