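import Mathlib
import Cfsg.Agent.Helper22.PiClosed

set_option autoImplicit false
open Cfsg

namespace Cfsg.Agent.S4050

open Cfsg.Agent.Helper22 in
theorem forward {G : Type*} [Group G] [Finite G] (π : Set ℕ)
    (K : Subgroup G) (hK : ∀ x : G, x ∈ K ↔ PiElt π x) :
    ((∃ (n : ℕ) (H : Fin (n + 1) → Subgroup G), H 0 = ⊥ ∧ H (Fin.last n) = ⊤ ∧ Monotone H ∧ (∀ i, (H i).Normal) ∧
      ∀ i : Fin n, (∀ q : ℕ, q.Prime → q ∣ (H i.castSucc).relIndex (H i.succ) → q ∈ π) ∨
        (∀ q : ℕ, q.Prime → q ∣ (H i.castSucc).relIndex (H i.succ) → q ∉ π)) ∧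
     (∀ H : Subgroup G, H ≠ ⊥ → (∀ p : ℕ, p.Prime → p ∣ Nat.card ↥H → p ∉ π) →
        ∀ p : ℕ, p.Prime → p ∣ (Subgroup.centralizer (H : Set G)).relIndex (Subgroup.normalizer (H : Set G)) → p ∉ π)) := by
  have hKn : K.Normal := by
    constructor
    intro x hx g
    rw [hK] at hx ⊢
    exact piElt_conj hx g
  have hKcard : ∀ q : ℕ, q.Prime → q ∣ Nat.card K → q ∈ π := by
    apply piNum_card
    intro x p hp hdvd
    rw [← Subgroup.orderOf_coe] at hdvd
    exact (hK x).mp x.2 p hp hdvd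
  have hKindex : ∀ q : ℕ, q.Prime → q ∣ K.index → q ∉ π := by
    intro q hq hdvd hqπ
    have : Fact q.Prime := ⟨hq⟩
    obtain ⟨S⟩ : Nonempty (Sylow q G) := inferInstance
    have hSK : (S : Subgroup G) ≤ K := by
      intro x hx
      rw [hK]
      obtain ⟨k, hk⟩ := (IsPGroup.iff_orderOf.mp S.2) ⟨x, hx⟩
      rw [Subgroup.orderOf_mk] at hk
      intro p hp hdvd
      rw [hk] at hdvd
      rw [(Nat.prime_dvd_prime_iff_eq hp hq).mp (hp.dvd_of_dvd_pow hdvd)]
      exact hqπ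
    exact S.not_dvd_index (hdvd.trans (Subgroup.index_dvd_of_le hSK))
  constructor
  · refine ⟨2, ![⊥, K, ⊤], rfl, rfl, ?_, ?_, ?_⟩
    · rw [Fin.monotone_iff_le_succ]
      intro i
      fin_cases i
      · exact bot_le
      · exact le_top
    · intro i
      fin_cases i
      · exact Subgroup.normal_bot
      · exact hKn
      · exact Subgroup.normal_top
    · intro i
      fin_cases i
      · left
        intro q hq hdvd
        have h1 : (⊥ : Subgroup G).relIndex K = Nat.card K := Subgroup.relIndex_bot_left K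
        exact hKcard q hq (by rw [← h1]; exact hdvd)
      · right
        intro q hq hdvd
        have h1 : K.relIndex ⊤ = K.index := Subgroup.relIndex_top_right K
        exact hKindex q hq (by rw [← h1]; exact hdvd)
  · intro H hH1 hHπ p hp hdvd hpπ
    have : Fact p.Prime := ⟨hp⟩
    obtain ⟨S⟩ : Nonempty (Sylow p (Subgroup.normalizer (H : Set G))) := inferInstance
    have hle : (S : Subgroup (Subgroup.normalizer (H : Set G))) ≤
        (Subgroup.centralizer (H : Set G)).subgroupOf (Subgroup.normalizer (H : Set G)) := by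
      intro s hs
      rw [Subgroup.mem_subgroupOf, Subgroup.mem_centralizer_iff]
      intro h hh
      have hh' : h ∈ H := hh
      have hsK : (s : G) ∈ K := by
        rw [hK]
        obtain ⟨k, hk⟩ := (IsPGroup.iff_orderOf.mp S.2) ⟨s, hs⟩
        rw [Subgroup.orderOf_mk, ← Subgroup.orderOf_coe] at hk
        intro r hr hdvd
        rw [hk] at hdvd
        rw [(Nat.prime_dvd_prime_iff_eq hr hp).mp (hr.dvd_of_dvd_pow hdvd)]
        exact hpπ
      have hc1 : (s : G) * h * (s : G)⁻¹ * h⁻¹ ∈ K := by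
        have h1 : h * (s : G)⁻¹ * h⁻¹ ∈ K := hKn.conj_mem _ (K.inv_mem hsK) h
        have h2 : (s : G) * h * (s : G)⁻¹ * h⁻¹ = (s : G) * (h * (s : G)⁻¹ * h⁻¹) := by group
        rw [h2]
        exact K.mul_mem hsK h1
      have hc2 : (s : G) * h * (s : G)⁻¹ * h⁻¹ ∈ H := by
        have h1 : (s : G) * h * (s : G)⁻¹ ∈ H :=
          (Subgroup.mem_normalizer_iff.mp s.2 h).mp hh'
        exact H.mul_mem h1 (H.inv_mem hh')
      have hc3 : (s : G) * h * (s : G)⁻¹ * h⁻¹ = 1 := by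
        refine eq_one_of_piElt ((hK _).mp hc1) (m := Nat.card H) ?_ hHπ
        have h1 := orderOf_dvd_natCard (⟨_, hc2⟩ : H)
        rwa [Subgroup.orderOf_mk] at h1
      calc h * (s : G) = ((s : G) * h * (s : G)⁻¹ * h⁻¹)⁻¹ * ((s : G) * h) := by group
        _ = (s : G) * h := by rw [hc3, inv_one, one_mul]
    exact S.not_dvd_index (hdvd.trans (Subgroup.index_dvd_of_le hle))

open Cfsg.Agent.Helper22 in
theorem backward {G : Type*} [Group G] [Finite G] (π : Set ℕ)
    (n : ℕ) (H : Fin (n + 1) → Subgroup G) (h0 : H 0 = ⊥) (hlast : H (Fin.last n) = ⊤)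
    (hmono : Monotone H) (hnorm : ∀ i, (H i).Normal)
    (hfac : ∀ i : Fin n, (∀ q : ℕ, q.Prime → q ∣ (H i.castSucc).relIndex (H i.succ) → q ∈ π) ∨
        (∀ q : ℕ, q.Prime → q ∣ (H i.castSucc).relIndex (H i.succ) → q ∉ π))
    (hhom : ∀ H : Subgroup G, H ≠ ⊥ → (∀ p : ℕ, p.Prime → p ∣ Nat.card ↥H → p ∉ π) →
        ∀ p : ℕ, p.Prime → p ∣ (Subgroup.centralizer (H : Set G)).relIndex (Subgroup.normalizer (H : Set G)) → p ∉ π) :
    ∃ K : Subgroup G, ∀ x : G, x ∈ K ↔ PiElt π x := by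
  have hW := whom_of_hom π hhom
  have key : ∀ (i : ℕ) (hi : i < n + 1), ∃ T : Subgroup G, ∀ x : G, x ∈ T ↔ x ∈ H ⟨i, hi⟩ ∧ PiElt π x := by
    intro i
    induction i with
    | zero =>
      intro hi
      refine ⟨⊥, fun x => ?_⟩
      have h1 : H ⟨0, hi⟩ = ⊥ := h0
      rw [h1, Subgroup.mem_bot]
      constructor
      · intro hx; rw [hx]; exact ⟨rfl, piElt_one⟩
      · intro hx; exact hx.1
    | succ i ih =>
      intro hi
      have hi' : i < n := by omega
      obtain ⟨TA, hTA⟩ := ih (by omega)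
      obtain ⟨A, hA⟩ : ∃ A : Subgroup G, A = H ⟨i, by omega⟩ := ⟨_, rfl⟩
      obtain ⟨B, hB⟩ : ∃ B : Subgroup G, B = H ⟨i + 1, hi⟩ := ⟨_, rfl⟩
      have hAn : A.Normal := by rw [hA]; exact hnorm _
      have hfac' : (∀ q : ℕ, q.Prime → q ∣ A.relIndex B → q ∈ π) ∨
          (∀ q : ℕ, q.Prime → q ∣ A.relIndex B → q ∉ π) := by
        rw [hA, hB]; exact hfac ⟨i, hi'⟩
      rw [← hA] at hTA
      rw [← hB]
      have hWB : WHom π ↥B := whom_subgroup hW B
      have hLN : ∀ x : B, x ∈ TA.subgroupOf B ↔ x ∈ A.subgroupOf B ∧ PiElt π x := by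
        intro x
        rw [Subgroup.mem_subgroupOf, Subgroup.mem_subgroupOf, hTA]
        constructor
        · rintro ⟨h1, h2⟩
          refine ⟨h1, fun p hp hdvd => h2 p hp ?_⟩
          rw [Subgroup.orderOf_coe]; exact hdvd
        · rintro ⟨h1, h2⟩
          refine ⟨h1, fun p hp hdvd => h2 p hp ?_⟩
          rw [← Subgroup.orderOf_coe]; exact hdvd
      have hcardQ : Nat.card (↥B ⧸ A.subgroupOf B) = A.relIndex B := rfl
      have hLQ : ∃ LQ : Subgroup (↥B ⧸ A.subgroupOf B), ∀ x, x ∈ LQ ↔ PiElt π x := by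
        rcases hfac' with hf | hf
        · refine ⟨⊤, fun x => ⟨fun _ => ?_, fun _ => Subgroup.mem_top x⟩⟩
          exact piElt_of_dvd (m := A.relIndex B) (by rw [← hcardQ]; exact orderOf_dvd_natCard x) hf
        · refine ⟨⊥, fun x => ⟨fun hx => ?_, fun hx => ?_⟩⟩
          · rw [Subgroup.mem_bot] at hx
            rw [hx]; exact piElt_one
          · rw [Subgroup.mem_bot]
            exact eq_one_of_piElt hx (m := A.relIndex B)
              (by rw [← hcardQ]; exact orderOf_dvd_natCard x) hf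
      obtain ⟨LQ, hLQ⟩ := hLQ
      obtain ⟨T, hT⟩ := piClosed_core hWB (A.subgroupOf B) (TA.subgroupOf B) hLN LQ hLQ
      refine ⟨T.map B.subtype, fun x => ⟨?_, ?_⟩⟩
      · rintro ⟨y, hy, rfl⟩
        refine ⟨y.2, fun p hp hdvd => (hT y).mp hy p hp ?_⟩
        rw [Subgroup.coe_subtype, Subgroup.orderOf_coe] at hdvd
        exact hdvd
      · rintro ⟨hxB, hx⟩
        refine ⟨⟨x, hxB⟩, (hT _).mpr (fun p hp hdvd => hx p hp ?_), rfl⟩
        rw [Subgroup.orderOf_mk] at hdvd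
        exact hdvd
  obtain ⟨T, hT⟩ := key n (by omega)
  refine ⟨T, fun x => ?_⟩
  rw [hT]
  have h1 : H ⟨n, by omega⟩ = ⊤ := hlast
  rw [h1]
  exact ⟨fun h => h.2, fun h => ⟨Subgroup.mem_top x, h⟩⟩

/-- Let π be a set of primes and G a finite group. The π-elements of G (elements whose order is divisible only by primes of π) form a subgroup if and only if G is π-separable (it has a chain of normal subgroups from 1 to G with each successive index divisible only by primes in π or only by primes outside π) and N_G(H)/C_G(H) is a π'-group for every nontrivial π'-subgroup H of G. -/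
theorem result {G : Type*} [Group G] [Finite G] (π : Set ℕ)
    (hπ : ∀ p ∈ π, p.Prime) :
    (∃ K : Subgroup G, ∀ x : G, x ∈ K ↔ ∀ p : ℕ, p.Prime → p ∣ orderOf x → p ∈ π) ↔
    ((∃ (n : ℕ) (H : Fin (n + 1) → Subgroup G), H 0 = ⊥ ∧ H (Fin.last n) = ⊤ ∧ Monotone H ∧ (∀ i, (H i).Normal) ∧
      ∀ i : Fin n, (∀ q : ℕ, q.Prime → q ∣ (H i.castSucc).relIndex (H i.succ) → q ∈ π) ∨
        (∀ q : ℕ, q.Prime → q ∣ (H i.castSucc).relIndex (H i.succ) → q ∉ π)) ∧
     (∀ H : Subgroup G, H ≠ ⊥ → (∀ p : ℕ, p.Prime → p ∣ Nat.card ↥H → p ∉ π) →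
        ∀ p : ℕ, p.Prime → p ∣ (Subgroup.centralizer (H : Set G)).relIndex (Subgroup.normalizer (H : Set G)) → p ∉ π)) := by
  constructor
  · rintro ⟨K, hK⟩
    exact forward π K hK
  · rintro ⟨⟨n, H, h0, hlast, hmono, hnorm, hfac⟩, hhom⟩
    exact backward π n H h0 hlast hmono hnorm hfac hhom

end Cfsg.Agent.S4050
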