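import Cfsg.Statements.S4066
import Cfsg.Agent.Helper12.Syl

set_option autoImplicit false
open Cfsg

namespace Cfsg.Agent.S4066

/-- Let G be a finite group in which the centralizer of every element meets each of its conjugates by elements outside its normalizer trivially. Then any two distinct Sylow p-subgroups of G, for any prime p, intersect trivially. -/
theorem result {G : Type*} [Group G] [Finite G] (hTI : ∀ x : G, Cfsg.IsTISubset (Subgroup.centralizer ({x} : Set G) : Set G))
    {p : ℕ} [Fact p.Prime] (P Q : Sylow p G) (hPQ : P ≠ Q) : (P : Subgroup G) ⊓ (Q : Subgroup G) = ⊥ := by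
  classical
  have claim : ∀ (P Q : Sylow p G) (u : G), u ∈ P → u ∈ Q → u ≠ 1 → (P : Subgroup G) ≤ Q := by
    intro P Q u huP huQ hu1
    have hnt : Nontrivial (P : Subgroup G) :=
      ⟨⟨⟨u, huP⟩, 1, fun h => hu1 (congrArg Subtype.val h)⟩⟩
    have hcn := P.isPGroup'.center_nontrivial
    obtain ⟨⟨⟨z, hzP⟩, hzc⟩, hz1⟩ := exists_ne (1 : Subgroup.center (P : Subgroup G))
    have hz1' : z ≠ 1 := fun h => hz1 (by apply Subtype.ext; apply Subtype.ext; exact h)
    have hzc' : ∀ a ∈ (P : Subgroup G), a * z = z * a := by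
      intro a ha
      have := Subgroup.mem_center_iff.1 hzc ⟨a, ha⟩
      exact congrArg Subtype.val this
    have hPM : ∀ a ∈ (P : Subgroup G), a ∈ Subgroup.centralizer ({z} : Set G) := by
      intro a ha
      rw [Subgroup.mem_centralizer_iff]
      intro x hx
      rw [Set.mem_singleton_iff] at hx
      rw [hx]
      exact (hzc' a ha).symm
    obtain ⟨g, hg⟩ := MulAction.exists_smul_eq G P Q
    have hQg : ∀ x, x ∈ Q ↔ g⁻¹ * x * g ∈ P := by
      intro x
      rw [← hg]
      exact Cfsg.Agent.Helper12.mem_sylow_smul_iff P g x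
    have hy : g⁻¹ * u * g ∈ P := (hQg u).1 huQ
    have hy1 : g⁻¹ * u * g ≠ 1 := by
      intro h
      apply hu1
      have e : u = g * (g⁻¹ * u * g) * g⁻¹ := by group
      rw [e, h]; group
    have hgN : g ∈ Subgroup.normalizer
        ((Subgroup.centralizer ({z} : Set G) : Subgroup G) : Set G) := by
      by_contra hgN
      exact hy1 (hTI z g hgN (g⁻¹ * u * g) (hPM _ hy) (by
        have e : g * (g⁻¹ * u * g) * g⁻¹ = u := by group
        rw [e]; exact hPM u huP))
    have hQM : ∀ q ∈ (Q : Subgroup G), q ∈ Subgroup.centralizer ({z} : Set G) := by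
      intro q hq
      have h1 := hPM _ ((hQg q).1 hq)
      have h2 := (Subgroup.mem_set_normalizer_iff.1 hgN (g⁻¹ * q * g)).1 h1
      have e : g * (g⁻¹ * q * g) * g⁻¹ = q := by group
      rw [e] at h2
      exact h2
    have hcomm : ∀ a ∈ (P : Subgroup G), a ≠ 1 → ∀ h ∈ Subgroup.centralizer ({z} : Set G),
        a * (h * a * h⁻¹) = (h * a * h⁻¹) * a := by
      intro a ha ha1 h hh
      have hzCa : z ∈ Subgroup.centralizer ({a} : Set G) := by
        rw [Subgroup.mem_centralizer_iff]
        intro x hx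
        rw [Set.mem_singleton_iff] at hx
        rw [hx]
        exact hzc' a ha
      have hhz : h * z * h⁻¹ = z := by
        have e := Subgroup.mem_centralizer_iff.1 hh z (Set.mem_singleton z)
        rw [← e]; group
      have hhN : h ∈ Subgroup.normalizer
          ((Subgroup.centralizer ({a} : Set G) : Subgroup G) : Set G) := by
        by_contra hhN
        exact hz1' (hTI a h hhN z hzCa (by rw [hhz]; exact hzCa))
      have haCa : a ∈ Subgroup.centralizer ({a} : Set G) := by
        rw [Subgroup.mem_centralizer_iff]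
        intro x hx
        rw [Set.mem_singleton_iff] at hx
        rw [hx]
      have h3 := (Subgroup.mem_set_normalizer_iff.1 hhN a).1 haCa
      exact Subgroup.mem_centralizer_iff.1 h3 a (Set.mem_singleton a)
    intro a ha
    by_cases ha1 : a = 1
    · rw [ha1]; exact one_mem _
    let S : Set G := {x | ∃ q ∈ (Q : Subgroup G), x = q * a * q⁻¹}
    have hSc : ∀ x ∈ S, ∀ y ∈ S, x * y = y * x := by
      rintro x ⟨q1, hq1, rfl⟩ y ⟨q2, hq2, rfl⟩
      have h5 := hcomm a ha ha1 (q1⁻¹ * q2) (hQM _ (mul_mem (inv_mem hq1) hq2))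
      have h6 : q1 * (a * ((q1⁻¹ * q2) * a * (q1⁻¹ * q2)⁻¹)) * q1⁻¹
          = q1 * (((q1⁻¹ * q2) * a * (q1⁻¹ * q2)⁻¹) * a) * q1⁻¹ := by rw [h5]
      have e1 : q1 * (a * ((q1⁻¹ * q2) * a * (q1⁻¹ * q2)⁻¹)) * q1⁻¹
          = q1 * a * q1⁻¹ * (q2 * a * q2⁻¹) := by group
      have e2 : q1 * (((q1⁻¹ * q2) * a * (q1⁻¹ * q2)⁻¹) * a) * q1⁻¹
          = q2 * a * q2⁻¹ * (q1 * a * q1⁻¹) := by group
      rw [e1, e2] at h6
      exact h6
    have hAc : IsMulCommutative (Subgroup.closure S) := Subgroup.isMulCommutative_closure hSc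
    have hAp : IsPGroup p (Subgroup.closure S) := by
      have hall : ∀ x ∈ Subgroup.closure S, ∃ k : ℕ, x ^ p ^ k = 1 := by
        intro x hx
        induction hx using Subgroup.closure_induction with
        | mem x hx =>
          obtain ⟨q, hq, rfl⟩ := hx
          obtain ⟨k, hk⟩ := P.isPGroup' ⟨a, ha⟩
          refine ⟨k, ?_⟩
          have hk' : a ^ p ^ k = 1 := by simpa using congrArg Subtype.val hk
          rw [conj_pow, hk']; group
        | one => exact ⟨0, one_pow _⟩
        | mul x y hx hy ihx ihy =>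
          obtain ⟨k, hk⟩ := ihx
          obtain ⟨l, hl⟩ := ihy
          refine ⟨k + l, ?_⟩
          have hxy : Commute x y := setLike_mul_comm (s := Subgroup.closure S) hx hy
          rw [hxy.mul_pow, pow_add, pow_mul, hk, one_pow, mul_comm (p ^ k) (p ^ l), pow_mul, hl,
            one_pow, one_mul]
        | inv x hx ih =>
          obtain ⟨k, hk⟩ := ih
          exact ⟨k, by rw [inv_pow, hk, inv_one]⟩
      rintro ⟨x, hx⟩
      obtain ⟨k, hk⟩ := hall x hx
      exact ⟨k, Subtype.ext hk⟩
    have key : ∀ q ∈ (Q : Subgroup G), ∀ h ∈ Subgroup.closure S,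
        q * h * q⁻¹ ∈ Subgroup.closure S := by
      intro q hq h hh
      induction hh using Subgroup.closure_induction with
      | mem x hx =>
        obtain ⟨q', hq', rfl⟩ := hx
        apply Subgroup.subset_closure
        exact ⟨q * q', mul_mem hq hq', by group⟩
      | one =>
        have e : q * 1 * q⁻¹ = 1 := by group
        rw [e]; exact one_mem _
      | mul x y hx hy ihx ihy =>
        have e : q * (x * y) * q⁻¹ = (q * x * q⁻¹) * (q * y * q⁻¹) := by group
        rw [e]; exact mul_mem ihx ihy
      | inv x hx ih =>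
        have e : q * x⁻¹ * q⁻¹ = (q * x * q⁻¹)⁻¹ := by group
        rw [e]; exact inv_mem ih
    have hQN : (Q : Subgroup G) ≤ Subgroup.normalizer
        ((Subgroup.closure S : Subgroup G) : Set G) := by
      intro q hq
      rw [Subgroup.mem_set_normalizer_iff]
      intro h
      constructor
      · exact key q hq h
      · intro hh
        have h7 := key q⁻¹ (inv_mem hq) _ hh
        have e : q⁻¹ * (q * h * q⁻¹) * q⁻¹⁻¹ = h := by group
        rw [e] at h7
        exact h7
    have hsup : IsPGroup p ((Q : Subgroup G) ⊔ Subgroup.closure S : Subgroup G) :=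
      IsPGroup.to_sup_of_normal_right' Q.isPGroup' hAp hQN
    have heq := Q.is_maximal' hsup le_sup_left
    have haA : a ∈ Subgroup.closure S := Subgroup.subset_closure ⟨1, one_mem _, by group⟩
    have haQ : a ∈ (Q : Subgroup G) ⊔ Subgroup.closure S :=
      (le_sup_right : Subgroup.closure S ≤ _) haA
    rw [heq] at haQ
    exact haQ
  rw [Subgroup.eq_bot_iff_forall]
  rintro u ⟨huP, huQ⟩
  by_contra hu1
  apply hPQ
  exact Sylow.ext (le_antisymm (claim P Q u huP huQ hu1) (claim Q P u huQ huP hu1))

end Cfsg.Agent.S4066
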