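import Cfsg.Statements.S4072
import Mathlib
import Cfsg.Agent.Lead.Frobenius

set_option autoImplicit false
open Cfsg

namespace Cfsg.Agent.S4072

open Subgroup in
/-- A finite group all of whose nontrivial subgroups are self-normalizing is commutative. -/
theorem comm_of_selfnorm {Q : Type*} [Group Q] [Finite Q]
    (h : ∀ H : Subgroup Q, H ≠ ⊥ → normalizer (H : Set Q) = H) : ∀ a b : Q, a * b = b * a := by
  classical
  rcases subsingleton_or_nontrivial Q with hs | hn
  · intro a b; rw [Subsingleton.elim a b]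
  have hcard : Nat.card Q ≠ 1 := by
    intro h1
    have := (Nat.card_eq_one_iff_unique.mp h1).1
    exact not_subsingleton Q this
  obtain ⟨p, hp, hpd⟩ := Nat.exists_prime_and_dvd hcard
  have : Fact p.Prime := ⟨hp⟩
  obtain ⟨P⟩ : Nonempty (Sylow p Q) := inferInstance
  have hPne : (P : Subgroup Q) ≠ ⊥ := P.ne_bot_of_dvd_card hpd
  have hNP := h _ hPne
  have : Nontrivial (P : Subgroup Q) := (Subgroup.nontrivial_iff_ne_bot _).mpr hPne
  have hcen : Nontrivial (Subgroup.center (P : Subgroup Q)) := P.2.center_nontrivial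
  obtain ⟨c, hc1⟩ := exists_ne (1 : Subgroup.center (P : Subgroup Q))
  obtain ⟨ZP, hZP⟩ : ∃ ZP : Subgroup Q, ZP = (P : Subgroup Q) ⊓ centralizer ((P : Subgroup Q) : Set Q) :=
    ⟨_, rfl⟩
  have hcZ : ((c : (P : Subgroup Q)) : Q) ∈ ZP := by
    rw [hZP]
    refine Subgroup.mem_inf.mpr ⟨(c : (P : Subgroup Q)).2, ?_⟩
    rw [mem_centralizer_iff]
    intro y hy
    have := Subgroup.mem_center_iff.mp c.2 ⟨y, hy⟩
    exact congrArg Subtype.val this
  have hZne : ZP ≠ ⊥ := by
    intro hb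
    rw [hb, Subgroup.mem_bot] at hcZ
    apply hc1
    apply Subtype.ext
    apply Subtype.ext
    exact hcZ
  have hNZ := h _ hZne
  have hPZ : (P : Subgroup Q) ≤ ZP := by
    intro y hy
    have : y ∈ normalizer (ZP : Set Q) := by
      apply mem_normalizer_fintype
      intro n hn
      have hn' : n ∈ (P : Subgroup Q) ⊓ centralizer ((P : Subgroup Q) : Set Q) := hZP ▸ hn
      have e : y * n = n * y := mem_centralizer_iff.mp hn'.2 y hy
      rw [e, mul_inv_cancel_right]; exact hn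
    rw [hNZ] at this
    exact this
  have hPC : (P : Subgroup Q) ≤ centralizer ((P : Subgroup Q) : Set Q) := by
    intro y hy
    have := hPZ hy
    rw [hZP] at this
    exact this.2
  have hNC : normalizer ((P : Subgroup Q) : Set Q) ≤ centralizer ((P : Subgroup Q) : Set Q) := by
    rw [hNP]; exact hPC
  have hK := MonoidHom.ker_transferSylow_isComplement' P hNC
  have hKbot : (MonoidHom.transferSylow P hNC).ker = ⊥ := by
    by_contra hne
    have h1 := h _ hne
    rw [Subgroup.normalizer_eq_top] at h1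
    have h2 := hK.card_mul_card
    rw [← h1, Subgroup.card_top] at h2
    have h3 : Nat.card (P : Subgroup Q) = 1 := by
      have hpos : 0 < Nat.card Q := Nat.card_pos
      exact Nat.eq_of_mul_eq_mul_left hpos (by rw [h2, mul_one])
    exact hPne (Subgroup.card_eq_one.mp h3)
  have hPtop : (P : Subgroup Q) = ⊤ := by
    have h2 := hK.card_mul_card
    rw [hKbot, Subgroup.card_bot, one_mul] at h2
    exact Subgroup.eq_top_of_card_eq _ h2
  intro a b
  have ha : a ∈ (P : Subgroup Q) := hPtop ▸ Subgroup.mem_top a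
  have hb : b ∈ (P : Subgroup Q) := hPtop ▸ Subgroup.mem_top b
  exact mem_centralizer_iff.mp (hPC hb) a ha

/-- A finite group in which every non-abelian subgroup is self-normalizing is solvable or simple. -/
theorem result {G : Type*} [Group G] [Finite G] (hS : ∀ H : Subgroup G, ¬ IsMulCommutative H → Subgroup.normalizer (H : Set G) = H) :
    Group.IsSolvable G ∨ IsSimpleGroup G := by
  classical
by_contra hcon
rw [not_or] at hcon
obtain ⟨hns, hnsimp⟩ := hcon
have step1 : ∀ K : Subgroup G, K.Normal → K ≠ ⊤ → IsMulCommutative K := by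
  intro K hK hKt
  by_contra hc
  have h1 := hS K hc
  rw [Subgroup.normalizer_eq_top] at h1
  exact hKt h1.symm
have solv : ∀ (K : Subgroup G) [K.Normal], IsMulCommutative K → Group.IsSolvable (G ⧸ K) → False := by
  intro K hK hKc hq
  have : Group.IsSolvable K := Group.isSolvable_of_comm (fun a b => hKc.is_comm.comm a b)
  exact hns (Group.isSolvable_of_ker_le_range K.subtype (QuotientGroup.mk' K) (by simp))
have : Nontrivial G := by
  by_contra hnt
  rw [not_nontrivial_iff_subsingleton] at hnt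
  exact hns inferInstance
obtain ⟨N₀, hN₀, hN₀b, hN₀t⟩ : ∃ N : Subgroup G, N.Normal ∧ N ≠ ⊥ ∧ N ≠ ⊤ := by
  by_contra hne
  push Not at hne
  apply hnsimp
  refine ⟨fun N hN => ?_⟩
  by_cases hb : N = ⊥
  · exact Or.inl hb
  · exact Or.inr (hne N hN hb)
by_cases hZ : Subgroup.center G = ⊥
· -- Case A
  have hN₀c := step1 N₀ hN₀ hN₀t
  obtain ⟨C, hC⟩ : ∃ C : Subgroup G, C = Subgroup.centralizer (N₀ : Set G) := ⟨_, rfl⟩
  have hCn : C.Normal := by rw [hC]; exact Subgroup.normal_centralizer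
  have hCt : C ≠ ⊤ := by
    intro hCt
    apply hN₀b
    rw [eq_bot_iff, ← hZ]
    intro x hx
    rw [Subgroup.mem_center_iff]
    intro y
    have hy : y ∈ Subgroup.centralizer (N₀ : Set G) := by rw [← hC, hCt]; exact Subgroup.mem_top y
    exact (Subgroup.mem_centralizer_iff.mp hy x hx).symm
  have hCc := step1 C hCn hCt
  have hNC : N₀ ≤ C := by
    intro x hx
    rw [hC, Subgroup.mem_centralizer_iff]
    intro y hy
    exact congrArg Subtype.val (hN₀c.is_comm.comm ⟨y, hy⟩ ⟨x, hx⟩)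
  have hQ : ∀ H : Subgroup (G ⧸ C), H ≠ ⊥ → Subgroup.normalizer (H : Set (G ⧸ C)) = H := by
    intro H hH
    have hsurj := QuotientGroup.mk'_surjective C
    have hnc : ¬ IsMulCommutative (H.comap (QuotientGroup.mk' C)) := by
      intro hcm
      apply hH
      rw [eq_bot_iff]
      intro q hq
      obtain ⟨x, rfl⟩ := hsurj q
      have hx : x ∈ H.comap (QuotientGroup.mk' C) := hq
      have hxC : x ∈ C := by
        rw [hC, Subgroup.mem_centralizer_iff]
        intro y hy
        have hy' : y ∈ H.comap (QuotientGroup.mk' C) := by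
          rw [Subgroup.mem_comap]
          have : (QuotientGroup.mk' C) y = 1 := (QuotientGroup.eq_one_iff y).mpr (hNC hy)
          rw [this]; exact H.one_mem
        exact congrArg Subtype.val (hcm.is_comm.comm ⟨y, hy'⟩ ⟨x, hx⟩)
      rw [Subgroup.mem_bot]
      exact (QuotientGroup.eq_one_iff x).mpr hxC
    have h1 := hS _ hnc
    have h2 := Subgroup.comap_normalizer_eq_of_surjective H hsurj
    apply Subgroup.comap_injective hsurj
    rw [h2]; exact h1
  have hcomm := comm_of_selfnorm hQ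
  have : Group.IsSolvable (G ⧸ C) := Group.isSolvable_of_comm hcomm
  exact solv C hCc inferInstance
· -- Case B
  have hcardZ : Nat.card (Subgroup.center G) ≠ 1 := by
    intro h1; exact hZ (Subgroup.card_eq_one.mp h1)
  obtain ⟨p, hp, hpd⟩ := Nat.exists_prime_and_dvd hcardZ
  have : Fact p.Prime := ⟨hp⟩
  obtain ⟨z', hz'⟩ := exists_prime_orderOf_dvd_card' p hpd
  obtain ⟨z, hz⟩ : ∃ z : G, z = (z' : G) := ⟨_, rfl⟩
  have hzo : orderOf z = p := by rw [hz, Subgroup.orderOf_coe]; exact hz'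
  have hzc : ∀ y : G, y * z = z * y := by
    intro y; rw [hz]; exact Subgroup.mem_center_iff.mp z'.2 y
  have hz1 : z ≠ 1 := by
    intro h1; rw [h1, orderOf_one] at hzo; exact hp.one_lt.ne hzo
  have hF : ¬ Cfsg.Agent.Lead.FrobHyp p G := by
    intro hF
    obtain ⟨P⟩ : Nonempty (Sylow p G) := inferInstance
    obtain ⟨K, hK, hKc⟩ := Cfsg.Agent.Lead.frobenius_npc hF P
    have hpG : p ∣ Nat.card G := hpd.trans (Subgroup.card_subgroup_dvd_card _)
    have hPne : (P : Subgroup G) ≠ ⊥ := P.ne_bot_of_dvd_card hpG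
    have hKt : K ≠ ⊤ := by
      intro hKt
      have h2 := hKc.card_mul_card
      rw [hKt, Subgroup.card_top] at h2
      have h3 : Nat.card (P : Subgroup G) = 1 := by
        have hpos : 0 < Nat.card G := Nat.card_pos
        exact Nat.eq_of_mul_eq_mul_left hpos (by rw [h2, mul_one])
      exact hPne (Subgroup.card_eq_one.mp h3)
    have hKab := step1 K hK hKt
    have hqp : IsPGroup p (G ⧸ K) := by
      apply IsPGroup.of_card (n := (Nat.card G).factorization p)
      rw [← Subgroup.index_eq_card, hKc.symm.index_eq_card, Sylow.card_eq_multiplicity]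
    have := hqp.isNilpotent
    exact solv K hKab inferInstance
  unfold Cfsg.Agent.Lead.FrobHyp at hF
  push Not at hF
  obtain ⟨X₀, hX₀, g, hgN₀, hcop, hgC₀⟩ := hF
  have hex : ∃ n, ∃ X : Subgroup G, IsPGroup p X ∧ g ∈ Subgroup.normalizer (X : Set G) ∧
      g ∉ Subgroup.centralizer (X : Set G) ∧ Nat.card X = n := ⟨_, X₀, hX₀, hgN₀, hgC₀, rfl⟩
  obtain ⟨X, hX, hgN, hgC, hXn⟩ := Nat.find_spec hex
  have hmin : ∀ X' : Subgroup G, IsPGroup p X' → g ∈ Subgroup.normalizer (X' : Set G) →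
      g ∉ Subgroup.centralizer (X' : Set G) → Nat.card X ≤ Nat.card X' := by
    intro X' h1 h2 h3
    rw [hXn]
    exact Nat.find_min' hex ⟨X', h1, h2, h3, rfl⟩
  have hg1 : g ≠ 1 := by
    rintro rfl; exact hgC (Subgroup.one_mem _)
  have hgi : g⁻¹ ∈ Subgroup.normalizer (X : Set G) := Subgroup.inv_mem _ hgN
  have hconjX : ∀ x ∈ X, g⁻¹ * x * g ∈ X := by
    intro x hx
    have := (Subgroup.mem_normalizer_iff.mp hgi x).mp hx
    rwa [inv_inv] at this
  have hconjX' : ∀ x ∈ X, g * x * g⁻¹ ∈ X := fun x hx =>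
    (Subgroup.mem_normalizer_iff.mp hgN x).mp hx
  -- a `p`-element of order dividing `orderOf g` is trivial
  have hpp : ∀ c ∈ X, ∀ n : ℕ, n ∣ orderOf g → c ^ n = 1 → c = 1 := by
    intro c hc n hn hcn
    obtain ⟨k, hk⟩ := hX ⟨c, hc⟩
    have hk' : c ^ p ^ k = 1 := by simpa using congrArg Subtype.val hk
    have hd1 : orderOf c ∣ p ^ k := orderOf_dvd_of_pow_eq_one hk'
    have hd2 : orderOf c ∣ orderOf g := (orderOf_dvd_of_pow_eq_one hcn).trans hn
    have hco : (orderOf g).Coprime (p ^ k) := Nat.Coprime.pow_right k hcop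
    have : orderOf c = 1 := Nat.eq_one_of_dvd_coprimes hco hd2 hd1
    exact orderOf_eq_one_iff.mp this
  -- X abelian
  have hXab : IsMulCommutative X := by
    by_contra hc
    have h1 := hS X hc
    have hgX : g ∈ X := by
      have : g ∈ Subgroup.normalizer (X : Set G) := hgN
      rw [h1] at this
      exact this
    exact hg1 (hpp g hgX (orderOf g) dvd_rfl (pow_orderOf_eq_one g))
  have hXcomm : ∀ a ∈ X, ∀ b ∈ X, a * b = b * a := fun a ha b hb =>
    congrArg Subtype.val (hXab.is_comm.comm ⟨a, ha⟩ ⟨b, hb⟩)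
  obtain ⟨φ, hφ⟩ : ∃ φ : X →* G, ∀ x : X, φ x = (x : G)⁻¹ * g⁻¹ * x * g := by
    refine ⟨MonoidHom.mk' (fun x : X => (x : G)⁻¹ * g⁻¹ * x * g) ?_, fun x => rfl⟩
    rintro ⟨a, ha⟩ ⟨b, hb⟩
    have h1 : b⁻¹ * (a⁻¹ * (g⁻¹ * a * g)) = (a⁻¹ * (g⁻¹ * a * g)) * b⁻¹ :=
      hXcomm _ (X.inv_mem hb) _ (X.mul_mem (X.inv_mem ha) (hconjX a ha))
    show (a * b)⁻¹ * g⁻¹ * (a * b) * g = a⁻¹ * g⁻¹ * a * g * (b⁻¹ * g⁻¹ * b * g)
    calc (a * b)⁻¹ * g⁻¹ * (a * b) * g = b⁻¹ * (a⁻¹ * (g⁻¹ * a * g)) * (g⁻¹ * b * g) := by group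
      _ = (a⁻¹ * (g⁻¹ * a * g)) * b⁻¹ * (g⁻¹ * b * g) := by rw [h1]
      _ = _ := by group
  have hWX : φ.range ≤ X := by
    rintro _ ⟨x, rfl⟩
    rw [hφ]
    have := X.mul_mem (X.inv_mem x.2) (hconjX x x.2)
    rw [← mul_assoc, ← mul_assoc] at this
    exact this
  have hWp : IsPGroup p φ.range := hX.to_le hWX
  have hgW : g ∈ Subgroup.normalizer ((φ.range : Subgroup G) : Set G) := by
    apply Subgroup.mem_normalizer_fintype
    rintro _ ⟨x, rfl⟩
    refine ⟨⟨g * x * g⁻¹, hconjX' x x.2⟩, ?_⟩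
    rw [hφ, hφ]
    show (g * (x : G) * g⁻¹)⁻¹ * g⁻¹ * (g * x * g⁻¹) * g = g * ((x : G)⁻¹ * g⁻¹ * x * g) * g⁻¹
    group
  by_cases hgCW : g ∈ Subgroup.centralizer ((φ.range : Subgroup G) : Set G)
  · apply hgC
    rw [Subgroup.mem_centralizer_iff]
    intro x hx
    obtain ⟨c, hc⟩ : ∃ c : G, c = x⁻¹ * g⁻¹ * x * g := ⟨_, rfl⟩
    have hcW : c ∈ φ.range := ⟨⟨x, hx⟩, by rw [hφ, hc]⟩
    have hcg : c * g = g * c := Subgroup.mem_centralizer_iff.mp hgCW c hcW
    have hcgk : ∀ k : ℕ, g⁻¹ * c ^ k * g = c ^ k := by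
      intro k
      have : Commute (c ^ k) g := (show Commute c g from hcg).pow_left k
      rw [mul_assoc, this.eq, inv_mul_cancel_left]
    have hxc : g⁻¹ * x * g = x * c := by rw [hc]; group
    have hpow : ∀ k : ℕ, (g ^ k)⁻¹ * x * g ^ k = x * c ^ k := by
      intro k
      induction k with
      | zero => simp
      | succ k ih =>
        have e1 : (g ^ (k + 1))⁻¹ * x * g ^ (k + 1) = g⁻¹ * ((g ^ k)⁻¹ * x * g ^ k) * g := by
          rw [pow_succ]; group
        have e2 : g⁻¹ * (x * c ^ k) * g = (g⁻¹ * x * g) * (g⁻¹ * c ^ k * g) := by group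
        rw [e1, ih, e2, hxc, hcgk, pow_succ', mul_assoc]
    have h1 := hpow (orderOf g)
    rw [pow_orderOf_eq_one, inv_one, one_mul, mul_one] at h1
    have h2 : c ^ orderOf g = 1 := by
      have := h1.symm
      rwa [mul_eq_left] at this
    have h3 : c = 1 := hpp c (hWX hcW) (orderOf g) dvd_rfl h2
    rw [h3, mul_one] at hxc
    calc x * g = g * (g⁻¹ * x * g) := by group
      _ = g * x := by rw [hxc]
  · have hle := hmin _ hWp hgW hgCW
    have hWeq : φ.range = X := Subgroup.eq_of_le_of_card_ge hWX hle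
    have hsurj : Function.Surjective (fun x : X => (⟨φ x, hWX ⟨x, rfl⟩⟩ : X)) := by
      rintro ⟨y, hy⟩
      have : y ∈ φ.range := by rw [hWeq]; exact hy
      obtain ⟨x, hx⟩ := this
      exact ⟨x, Subtype.ext hx⟩
    have hinj := Finite.injective_iff_surjective.mpr hsurj
    -- the subgroup X⟨g⟩
    let Y : Subgroup G :=
      { carrier := {y | ∃ x ∈ X, ∃ k : ℤ, y = x * g ^ k}
        one_mem' := ⟨1, X.one_mem, 0, by simp⟩
        mul_mem' := by
          rintro _ _ ⟨x, hx, k, rfl⟩ ⟨x', hx', l, rfl⟩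
          refine ⟨x * (g ^ k * x' * (g ^ k)⁻¹), X.mul_mem hx ?_, k + l, ?_⟩
          · exact (Subgroup.mem_normalizer_iff.mp (Subgroup.zpow_mem _ hgN k) x').mp hx'
          · rw [zpow_add]; group
        inv_mem' := by
          rintro _ ⟨x, hx, k, rfl⟩
          refine ⟨(g ^ (-k)) * x⁻¹ * (g ^ (-k))⁻¹, ?_, -k, ?_⟩
          · exact (Subgroup.mem_normalizer_iff.mp (Subgroup.zpow_mem _ hgN (-k)) x⁻¹).mp
              (X.inv_mem hx)
          · rw [zpow_neg]; group }
    have hXY : ∀ x ∈ X, x ∈ Y := fun x hx => ⟨x, hx, 0, by simp⟩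
    have hgY : g ∈ Y := ⟨1, X.one_mem, 1, by simp⟩
    have hYnc : ¬ IsMulCommutative Y := by
      intro hcm
      apply hgC
      rw [Subgroup.mem_centralizer_iff]
      intro x hx
      exact congrArg Subtype.val (hcm.is_comm.comm ⟨x, hXY x hx⟩ ⟨g, hgY⟩)
    have hNY := hS Y hYnc
    have hzY : z ∈ Y := by
      have : z ∈ Subgroup.normalizer (Y : Set G) := by
        rw [Subgroup.mem_normalizer_iff]
        intro h
        rw [← hzc h, mul_inv_cancel_right]
      rw [hNY] at this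
      exact this
    obtain ⟨x, hx, k, hzx⟩ := hzY
    have hzp : z ^ p = 1 := by rw [← hzo]; exact pow_orderOf_eq_one z
    have hgk : g ^ k = 1 := by
      have e : g ^ k = x⁻¹ * z := by rw [hzx]; group
      obtain ⟨m, hm⟩ := hX ⟨x, hx⟩
      have hm' : x ^ p ^ m = 1 := by simpa using congrArg Subtype.val hm
      have h1 : (g ^ k) ^ p ^ (m + 1) = 1 := by
        rw [e, (show Commute x⁻¹ z from hzc x⁻¹).mul_pow, inv_pow, pow_succ, pow_mul, hm', one_pow,
          inv_one, one_mul, pow_mul', hzp, one_pow]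
      have hd1 : orderOf (g ^ k) ∣ p ^ (m + 1) := orderOf_dvd_of_pow_eq_one h1
      have hd2 : orderOf (g ^ k) ∣ orderOf g :=
        orderOf_dvd_of_mem_zpowers (Subgroup.zpow_mem_zpowers g k)
      have hco : (orderOf g).Coprime (p ^ (m + 1)) := Nat.Coprime.pow_right _ hcop
      have : orderOf (g ^ k) = 1 := Nat.eq_one_of_dvd_coprimes hco hd2 hd1
      exact orderOf_eq_one_iff.mp this
    rw [hgk, mul_one] at hzx
    have hzX : z ∈ X := hzx ▸ hx
    have h1 : (fun x : X => (⟨φ x, hWX ⟨x, rfl⟩⟩ : X)) ⟨z, hzX⟩ =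
        (fun x : X => (⟨φ x, hWX ⟨x, rfl⟩⟩ : X)) 1 := by
      apply Subtype.ext
      show φ ⟨z, hzX⟩ = φ 1
      rw [map_one, hφ]
      show z⁻¹ * g⁻¹ * z * g = 1
      rw [mul_assoc z⁻¹, hzc g⁻¹]; group
    have h2 := hinj h1
    exact hz1 (congrArg Subtype.val h2)

end Cfsg.Agent.S4072
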