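import Cfsg.Statements.S4074
import Cfsg.Agent.Helper21.DihEven

set_option autoImplicit false
open Cfsg

namespace Cfsg.Agent.S4074

/-- For n > 2, every non-abelian subgroup of the dihedral group of order 2n is self-normalizing if and only if n = 4 or n is odd. -/
theorem result (n : ℕ) (hn : 2 < n) :
    (∀ H : Subgroup (DihedralGroup n), ¬ IsMulCommutative H → Subgroup.normalizer (H : Set (DihedralGroup n)) = H) ↔
    (n = 4 ∨ Odd n) := by
  haveI : NeZero n := ⟨by omega⟩
  have hex : ∀ H : Subgroup (DihedralGroup n), ¬ IsMulCommutative H →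
      ∃ x ∈ H, ∃ y ∈ H, x * y ≠ y * x := by
    intro H hnc
    by_contra hcon
    push_neg at hcon
    exact hnc ⟨⟨fun a b => Subtype.ext (hcon a a.2 b b.2)⟩⟩
  constructor
  · intro h
    by_contra hcon
    push_neg at hcon
    obtain ⟨hn4, hodd⟩ := hcon
    have heven : Even n := Nat.not_odd_iff_even.mp hodd
    have h2 : 2 ∣ n := heven.two_dvd
    have hn6 : 6 ≤ n := by
      obtain ⟨k, hk⟩ := h2
      omega
    have hr2 : DihedralGroup.r (2 : ZMod n) ∈ Helper21.dihEven n h2 := by
      rw [Helper21.r_mem_dihEven, map_ofNat]
      decide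
    have hs0 : DihedralGroup.sr (0 : ZMod n) ∈ Helper21.dihEven n h2 := by
      rw [Helper21.sr_mem_dihEven, map_zero]
    have hnc : ¬ IsMulCommutative (Helper21.dihEven n h2) := by
      intro hc
      have h0 := hc.is_comm.comm ⟨_, hr2⟩ ⟨_, hs0⟩
      have h1 : DihedralGroup.r (2 : ZMod n) * DihedralGroup.sr 0
          = DihedralGroup.sr 0 * DihedralGroup.r 2 := congrArg Subtype.val h0
      rw [DihedralGroup.r_mul_sr, DihedralGroup.sr_mul_r] at h1
      have h3 : (0 : ZMod n) - 2 = 0 + 2 := DihedralGroup.sr.inj h1
      have h4 : ((4 : ℕ) : ZMod n) = 0 := by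
        push_cast
        linear_combination (-1 : ZMod n) * h3
      rw [ZMod.natCast_eq_zero_iff] at h4
      have := Nat.le_of_dvd (by norm_num) h4
      omega
    have hN := h _ hnc
    have hr1 : DihedralGroup.r (1 : ZMod n) ∈
        Subgroup.normalizer ((Helper21.dihEven n h2 : Subgroup (DihedralGroup n)) : Set (DihedralGroup n)) := by
      rw [Subgroup.mem_set_normalizer_iff]
      rintro (i | i)
      · rw [DihedralGroup.inv_r, DihedralGroup.r_mul_r, DihedralGroup.r_mul_r, SetLike.mem_coe,
          SetLike.mem_coe, Helper21.r_mem_dihEven, Helper21.r_mem_dihEven]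
        have : (1 : ZMod n) + i + -1 = i := by ring
        rw [this]
      · rw [DihedralGroup.inv_r, DihedralGroup.r_mul_sr, DihedralGroup.sr_mul_r, SetLike.mem_coe,
          SetLike.mem_coe, Helper21.sr_mem_dihEven, Helper21.sr_mem_dihEven]
        have h5 : ZMod.castHom h2 (ZMod 2) (i - 1 + -1) = ZMod.castHom h2 (ZMod 2) i := by
          rw [map_add, map_sub, map_neg, map_one]
          have h6 : ∀ z : ZMod 2, z - 1 + -1 = z := by decide
          exact h6 _
        rw [h5]
    rw [hN, Helper21.r_mem_dihEven, map_one] at hr1
    exact absurd hr1 (by decide)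
  · rintro (h4 | hodd) H hnc
    · subst h4
      obtain ⟨x, hx, y, hy, hxy⟩ := hex H hnc
      have hdata : ∃ a b : ZMod 4, DihedralGroup.r a ∈ H ∧ DihedralGroup.sr b ∈ H ∧ a + a ≠ 0 := by
        rcases x with a | a
        · rcases y with b | b
          · exact absurd (by rw [DihedralGroup.r_mul_r, DihedralGroup.r_mul_r, add_comm]) hxy
          · refine ⟨a, b, hx, hy, fun h0 => hxy ?_⟩
            rw [DihedralGroup.r_mul_sr, DihedralGroup.sr_mul_r]
            congr 1
            linear_combination (-1 : ZMod 4) * h0
        · rcases y with b | b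
          · refine ⟨b, a, hy, hx, fun h0 => hxy ?_⟩
            rw [DihedralGroup.r_mul_sr, DihedralGroup.sr_mul_r]
            congr 1
            linear_combination h0
          · refine ⟨b - a, a, ?_, hx, fun h0 => hxy ?_⟩
            · have := H.mul_mem hx hy
              rwa [DihedralGroup.sr_mul_sr] at this
            · rw [DihedralGroup.sr_mul_sr, DihedralGroup.sr_mul_sr]
              congr 1
              linear_combination h0
      obtain ⟨a, b, ha, hb, hab⟩ := hdata
      have ha13 : ∀ a : ZMod 4, a + a ≠ 0 → a = 1 ∨ a = 3 := by decide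
      have hr1 : DihedralGroup.r (1 : ZMod 4) ∈ H := by
        rcases ha13 a hab with rfl | rfl
        · exact ha
        · have := H.mul_mem (H.mul_mem ha ha) ha
          rw [DihedralGroup.r_mul_r, DihedralGroup.r_mul_r] at this
          have h9 : (3 : ZMod 4) + 3 + 3 = 1 := by decide
          rwa [h9] at this
      have hrall : ∀ j : ZMod 4, DihedralGroup.r j ∈ H := by
        intro j
        have := H.pow_mem hr1 j.val
        rwa [DihedralGroup.r_one_pow, ZMod.natCast_zmod_val] at this
      have hH : H = ⊤ := by
        rw [Subgroup.eq_top_iff']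
        rintro (j | j)
        · exact hrall j
        · have := H.mul_mem hb (hrall (j - b))
          rw [DihedralGroup.sr_mul_r] at this
          have h9 : b + (j - b) = j := by ring
          rwa [h9] at this
      rw [hH]
      exact le_antisymm le_top Subgroup.le_normalizer
    · obtain ⟨x, hx, y, hy, hxy⟩ := hex H hnc
      have hsr : ∃ i, DihedralGroup.sr i ∈ H := by
        rcases x with a | a
        · rcases y with b | b
          · exact absurd (by rw [DihedralGroup.r_mul_r, DihedralGroup.r_mul_r, add_comm]) hxy
          · exact ⟨b, hy⟩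
        · exact ⟨a, hx⟩
      obtain ⟨i, hi⟩ := hsr
      obtain ⟨m, hm⟩ := hodd
      have key : ∀ k : ZMod n, DihedralGroup.r k ∈
          Subgroup.normalizer (H : Set (DihedralGroup n)) → DihedralGroup.r k ∈ H := by
        intro k hk
        rw [Subgroup.mem_set_normalizer_iff] at hk
        have h1 := (hk (DihedralGroup.sr i)).1 hi
        rw [DihedralGroup.inv_r, DihedralGroup.r_mul_sr, DihedralGroup.sr_mul_r, SetLike.mem_coe] at h1
        have h2 := H.mul_mem h1 hi
        rw [DihedralGroup.sr_mul_sr] at h2
        have h3 := H.pow_mem h2 (m + 1)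
        rw [DihedralGroup.r_pow] at h3
        have h4 : (i - (i - k + -k)) * ((m + 1 : ℕ) : ZMod n) = k := by
          have h5 : ((2 * m + 1 : ℕ) : ZMod n) = 0 := by
            rw [← hm]
            exact ZMod.natCast_self n
          push_cast at h5 ⊢
          linear_combination k * h5
        rwa [h4] at h3
      apply le_antisymm _ Subgroup.le_normalizer
      rintro (k | k) hg
      · exact key k hg
      · have h1 : DihedralGroup.sr k * DihedralGroup.sr i ∈
            Subgroup.normalizer (H : Set (DihedralGroup n)) :=
          Subgroup.mul_mem _ hg (Subgroup.le_normalizer hi)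
        rw [DihedralGroup.sr_mul_sr] at h1
        have h2 := H.mul_mem (key _ h1) hi
        rw [DihedralGroup.r_mul_sr] at h2
        have h9 : i - (i - k) = k := by ring
        rwa [h9] at h2

end Cfsg.Agent.S4074
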