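import Cfsg.Statements.S4075
-- import your own Cfsg.Agent.* helpers here

set_option autoImplicit false
open Cfsg

namespace Cfsg.Agent.S4075

/-- Let G be a finite nilpotent group. Every non-abelian subgroup of G is self-normalizing if and only if G is abelian or G is a minimal non-abelian p-group for some prime p (non-abelian of prime-power order with every proper subgroup abelian). -/
theorem result {G : Type*} [Group G] [Finite G]
    [Group.IsNilpotent G] :
    (∀ H : Subgroup G, ¬ IsMulCommutative H → Subgroup.normalizer (H : Set G) = H) ↔
    (IsMulCommutative G ∨ (IsPrimePow (Nat.card G) ∧ ¬ IsMulCommutative G ∧ ∀ H : Subgroup G, H ≠ ⊤ → IsMulCommutative H)) := by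
  have hNC : NormalizerCondition G := Group.normalizerCondition_of_isNilpotent
  constructor
  · intro h
    by_cases hG : IsMulCommutative G
    · exact Or.inl hG
    · right
      have hprop : ∀ H : Subgroup G, H ≠ ⊤ → IsMulCommutative H := by
        intro H hH
        by_contra hnc
        exact hH (normalizerCondition_iff_only_full_group_self_normalizing.mp hNC H (h H hnc))
      refine ⟨?_, hG, hprop⟩
      by_contra hpp
      apply hG
      have hsyl : ∀ (p : ℕ) [Fact p.Prime] (P : Sylow p G),
          IsMulCommutative ↥(P : Subgroup G) := by
        intro p _ P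
        apply hprop
        intro htop
        apply hpp
        obtain ⟨n, hn⟩ := IsPGroup.exists_card_eq P.isPGroup'
        have hcard : Nat.card G = p ^ n := by
          rw [← Subgroup.card_top (G := G), ← htop]
          exact hn
        have hn0 : n ≠ 0 := by
          intro h0
          rw [h0, pow_zero] at hcard
          have hsub : Subsingleton G := (Nat.card_eq_one_iff_unique.mp hcard).1
          exact hG (isMulCommutative_iff.mpr fun a b => Subsingleton.elim _ _)
        exact (isPrimePow_nat_iff _).mpr ⟨p, n, Fact.out, Nat.pos_of_ne_zero hn0, hcard.symm⟩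
      obtain ⟨e⟩ : Nonempty ((∀ p : (Nat.card G).primeFactors, ∀ P : Sylow p G, P) ≃* G) :=
        ⟨Sylow.directProductOfNormal
          (fun {p} _ P => Sylow.normal_of_normalizerCondition hNC P)⟩
      refine isMulCommutative_iff.mpr fun x y => ?_
      obtain ⟨a, rfl⟩ := e.surjective x
      obtain ⟨b, rfl⟩ := e.surjective y
      rw [← map_mul, ← map_mul]
      congr 1
      funext p P
      have : Fact (p : ℕ).Prime := ⟨Nat.prime_of_mem_primeFactors p.2⟩
      have := hsyl p P
      exact Subtype.ext (setLike_mul_comm (s := (P : Subgroup G)) (a p P).2 (b p P).2)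
  · rintro (hG | ⟨-, hG, hprop⟩) H hH
    · exfalso
      apply hH
      exact IsMulCommutative.of_setLike_mul_comm fun a _ b _ => isMulCommutative_iff.mp hG a b
    · have htop : H = ⊤ := by
        by_contra hne
        exact hH (hprop H hne)
      rw [htop]
      exact le_antisymm le_top Subgroup.le_normalizer

end Cfsg.Agent.S4075
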