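import Cfsg.Statements.S4081
import Mathlib
import Cfsg.Agent.Helper20.ThreeOrb

set_option autoImplicit false
open Cfsg
set_option maxHeartbeats 1000000

namespace Cfsg.Agent.S4081

open Cfsg.Agent.Helper20 in
theorem forward {G : Type*} [Group G] [Finite G] (hnpp : ¬ IsPrimePow (Nat.card G))
    (hnt : Nat.card G ≠ 1)
    (h3 : Nat.card (MulAction.orbitRel.Quotient (MulAut G) G) = 3) :
    ∃ (p q n : ℕ) (_ : Fact p.Prime) (_ : Fact q.Prime), p ≠ q ∧ 1 ≤ n ∧ Nat.card G = p ^ n * q ∧
      (∀ P : Sylow p G, (P : Subgroup G).Normal ∧ Cfsg.IsElementaryAbelian p (P : Subgroup G)) ∧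
      orderOf (p : ZMod q) = q - 1 ∧
      ∀ x y : G, orderOf x = q → orderOf y = p → x * y * x⁻¹ ≠ y := by
  classical
  obtain ⟨p, hp, hpd⟩ := Nat.exists_prime_and_dvd hnt
  have hex : ∃ q : ℕ, q.Prime ∧ q ∣ Nat.card G ∧ q ≠ p := by
    by_contra hcon
    apply hnpp
    rw [isPrimePow_iff_unique_prime_dvd]
    refine ⟨p, ⟨hp, hpd⟩, fun r hr => ?_⟩
    by_contra hne
    exact hcon ⟨r, hr.1, hr.2, hne⟩
  obtain ⟨q, hq, hqd, hqp⟩ := hex
  have hpq : p ≠ q := fun h => hqp h.symm
  haveI hpF : Fact p.Prime := ⟨hp⟩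
  haveI hqF : Fact q.Prime := ⟨hq⟩
  have hp1' : 1 < p := hp.one_lt
  have hq1' : 1 < q := hq.one_lt
  obtain ⟨a, ha⟩ := exists_prime_orderOf_dvd_card' p hpd
  obtain ⟨b, hb⟩ := exists_prime_orderOf_dvd_card' q hqd
  haveI : Finite (MulAction.orbitRel.Quotient (MulAut G) G) := Quotient.finite _
  haveI : Fintype (MulAction.orbitRel.Quotient (MulAut G) G) := Fintype.ofFinite _
  have hcard3 : Fintype.card (MulAction.orbitRel.Quotient (MulAut G) G) = 3 := by
    rw [← Nat.card_eq_fintype_card]; exact h3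
  have h1a : ThreeOrb.cls (1 : G) ≠ ThreeOrb.cls a := by
    intro h
    have h' := ThreeOrb.cls_order h
    rw [orderOf_one, ha] at h'
    omega
  have h1b : ThreeOrb.cls (1 : G) ≠ ThreeOrb.cls b := by
    intro h
    have h' := ThreeOrb.cls_order h
    rw [orderOf_one, hb] at h'
    omega
  have hab : ThreeOrb.cls a ≠ ThreeOrb.cls b := by
    intro h
    have h' := ThreeOrb.cls_order h
    rw [ha, hb] at h'
    exact hpq h'
  have huniv : ({ThreeOrb.cls (1 : G), ThreeOrb.cls a, ThreeOrb.cls b} :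
      Finset (MulAction.orbitRel.Quotient (MulAut G) G)) = Finset.univ := by
    apply Finset.eq_univ_of_card
    rw [hcard3]
    exact Finset.card_eq_three.mpr ⟨_, _, _, h1a, h1b, hab, rfl⟩
  have hclass : ∀ g : G, ThreeOrb.cls g = ThreeOrb.cls (1 : G) ∨ ThreeOrb.cls g = ThreeOrb.cls a ∨
      ThreeOrb.cls g = ThreeOrb.cls b := by
    intro g
    have hmem : ThreeOrb.cls g ∈ ({ThreeOrb.cls (1 : G), ThreeOrb.cls a, ThreeOrb.cls b} :
        Finset (MulAction.orbitRel.Quotient (MulAut G) G)) := by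
      rw [huniv]; exact Finset.mem_univ _
    rw [Finset.mem_insert, Finset.mem_insert, Finset.mem_singleton] at hmem
    exact hmem
  have hcl1 : ∀ g : G, ThreeOrb.cls g = ThreeOrb.cls (1 : G) → orderOf g = 1 := fun g h => by
    rw [ThreeOrb.cls_order h, orderOf_one]
  have hcla : ∀ g : G, ThreeOrb.cls g = ThreeOrb.cls a → orderOf g = p := fun g h => by
    rw [ThreeOrb.cls_order h, ha]
  have hclb : ∀ g : G, ThreeOrb.cls g = ThreeOrb.cls b → orderOf g = q := fun g h => by
    rw [ThreeOrb.cls_order h, hb]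
  have hord : ∀ g : G, orderOf g = 1 ∨ orderOf g = p ∨ orderOf g = q := by
    intro g
    rcases hclass g with h | h | h
    · exact Or.inl (hcl1 g h)
    · exact Or.inr (Or.inl (hcla g h))
    · exact Or.inr (Or.inr (hclb g h))
  have hkey : ∀ g h : G, orderOf g = orderOf h → ∃ φ : MulAut G, φ g = h := by
    intro g h hgh
    apply (ThreeOrb.cls_eq h g).mp
    rcases hclass g with h1 | h1 | h1 <;> rcases hclass h with h2 | h2 | h2
    · exact h2.trans h1.symm
    · exfalso; have e1 := hcl1 g h1; have e2 := hcla h h2; omega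
    · exfalso; have e1 := hcl1 g h1; have e2 := hclb h h2; omega
    · exfalso; have e1 := hcla g h1; have e2 := hcl1 h h2; omega
    · exact h2.trans h1.symm
    · exfalso; have e1 := hcla g h1; have e2 := hclb h h2; omega
    · exfalso; have e1 := hclb g h1; have e2 := hcl1 h h2; omega
    · exfalso; have e1 := hclb g h1; have e2 := hcla h h2; omega
    · exact h2.trans h1.symm
  have hG0 : Nat.card G ≠ 0 := Nat.card_pos.ne'
  have hprimes : ∀ r : ℕ, r.Prime → r ∣ Nat.card G → r = p ∨ r = q := by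
    intro r hr hrd
    haveI : Fact r.Prime := ⟨hr⟩
    obtain ⟨g, hg⟩ := exists_prime_orderOf_dvd_card' r hrd
    rcases hord g with h | h | h
    · exfalso
      rw [hg] at h
      exact hr.one_lt.ne' h
    · left; rw [← hg, h]
    · right; rw [← hg, h]
  have hcardpq := ThreeOrb.card_two_primes hG0 hpq hprimes
  haveI := Cfsg.Agent.S0144.result p q _ _ hp hq hcardpq
  haveI : Nontrivial G := Finite.one_lt_card_iff_nontrivial.mp (by
    have h0 := Nat.card_pos (α := G); omega)
  obtain ⟨r, hr, A, hAc, hA1, hAab, hAr⟩ := Cfsg.Agent.Helper1.exists_char_elemAbelian G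
  obtain ⟨w, hw⟩ := Subgroup.ne_bot_iff_exists_ne_one.mp hA1
  haveI : Fact r.Prime := ⟨hr⟩
  have hwr : orderOf (w : G) = r := orderOf_eq_prime (hAr w w.2) (fun h => hw (Subtype.ext h))
  rcases hord (w : G) with h | h | h
  · exfalso
    rw [hwr] at h
    exact hr.one_lt.ne' h
  · rw [hwr] at h
    rw [h] at hAr
    obtain ⟨n, hn1, hcard, hS, hprim, hfpf⟩ := ThreeOrb.forward_core hpq hord
      (fun g h hg hh => hkey g h (hg.trans hh.symm))
      (fun g h hg hh => hkey g h (hg.trans hh.symm))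
      A hAc hA1 hAab hAr b hb
    exact ⟨p, q, n, hpF, hqF, hpq, hn1, hcard, hS, hprim, hfpf⟩
  · rw [hwr] at h
    rw [h] at hAr
    obtain ⟨n, hn1, hcard, hS, hprim, hfpf⟩ := ThreeOrb.forward_core hqp
      (fun g => (hord g).imp_right Or.symm)
      (fun g h hg hh => hkey g h (hg.trans hh.symm))
      (fun g h hg hh => hkey g h (hg.trans hh.symm))
      A hAc hA1 hAab hAr a ha
    exact ⟨q, p, n, hqF, hpF, hqp, hn1, hcard, hS, hprim, hfpf⟩

open Cfsg.Agent.Helper20 in
theorem backward {G : Type*} [Group G] [Finite G] (p q n : ℕ) (hpF : Fact p.Prime)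
    (hqF : Fact q.Prime) (hpq : p ≠ q) (hn1 : 1 ≤ n) (hcard : Nat.card G = p ^ n * q)
    (hSyl : ∀ P : Sylow p G, (P : Subgroup G).Normal ∧
      Cfsg.IsElementaryAbelian p (P : Subgroup G))
    (hprim : orderOf (p : ZMod q) = q - 1)
    (hfpf : ∀ x y : G, orderOf x = q → orderOf y = p → x * y * x⁻¹ ≠ y) :
    Nat.card (MulAction.orbitRel.Quotient (MulAut G) G) = 3 := by
  classical
  have hp : p.Prime := hpF.out
  have hq : q.Prime := hqF.out
  obtain ⟨S⟩ := (inferInstance : Nonempty (Sylow p G))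
  have hSS := hSyl S
  have hfac : (Nat.card G).factorization p = n := by
    rw [hcard, Nat.factorization_mul (pow_ne_zero n hp.ne_zero) hq.ne_zero, Finsupp.add_apply,
      Nat.factorization_pow, Finsupp.smul_apply, hp.factorization_self,
      Nat.factorization_eq_zero_of_not_dvd
        (fun h => hpq ((Nat.prime_dvd_prime_iff_eq hp hq).mp h))]
    simp
  have hcardS : Nat.card ↥(S : Subgroup G) = p ^ n := by
    rw [S.card_eq_multiplicity, hfac]
  obtain ⟨P, hP⟩ : ∃ P : Subgroup G, P = (S : Subgroup G) := ⟨_, rfl⟩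
  rw [← hP] at hSS hcardS
  obtain ⟨hSn, hSea⟩ := hSS
  have hSab : IsMulCommutative ↥P := hSea.1
  have hPp : ∀ a ∈ P, a ^ p = 1 := hSea.2
  haveI : P.Normal := hSn
  have hPab : ∀ a ∈ P, ∀ b ∈ P, a * b = b * a := fun a ha b hb =>
    congrArg Subtype.val (isMulCommutative_iff.mp hSab ⟨a, ha⟩ ⟨b, hb⟩)
  have hP1 : P ≠ ⊥ := by
    intro h
    rw [h, Subgroup.card_bot] at hcardS
    have h1 : p ∣ 1 := by rw [hcardS]; exact dvd_pow_self p (by omega)
    exact hp.one_lt.ne' (Nat.dvd_one.mp h1)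
  have hcard' : Nat.card G = Nat.card ↥P * q := by rw [hcardS]; exact hcard
  have hcardQuot : Nat.card (G ⧸ P) = q := by
    have h1 := Subgroup.card_eq_card_quotient_mul_card_subgroup P
    rw [hcard, hcardS, mul_comm] at h1
    exact (Nat.eq_of_mul_eq_mul_right (pow_pos hp.pos n) h1).symm
  have hquot : ∀ g : G, g ^ q ∈ P := by
    intro g
    rw [← QuotientGroup.eq_one_iff, QuotientGroup.mk_pow, ← hcardQuot]
    exact pow_card_eq_one'
  have hE2 : ∀ g : G, g ∉ P → orderOf g = q := by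
    intro g hg
    have hg1 : g ≠ 1 := fun h => hg (by rw [h]; exact P.one_mem)
    by_cases hy : g ^ q = 1
    · exact orderOf_eq_prime hy hg1
    · exfalso
      have hyp : orderOf (g ^ q) = p := orderOf_eq_prime (hPp _ (hquot g)) hy
      have hgp1 : g ^ p ≠ 1 := by
        intro hgp
        apply hg
        rw [← QuotientGroup.eq_one_iff]
        have h1 : orderOf (g : G ⧸ P) ∣ p := orderOf_dvd_of_pow_eq_one (by
          have e := QuotientGroup.mk_pow P g p
          rw [hgp] at e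
          exact e.symm)
        have h2 : orderOf (g : G ⧸ P) ∣ q := orderOf_dvd_of_pow_eq_one (by
          rw [← hcardQuot]; exact pow_card_eq_one')
        have h3 : orderOf (g : G ⧸ P) ∣ 1 := by
          have h4 := Nat.dvd_gcd h1 h2
          rw [Nat.Coprime.gcd_eq_one ((Nat.coprime_primes hp hq).mpr hpq)] at h4
          exact h4
        exact orderOf_eq_one_iff.mp (Nat.dvd_one.mp h3)
      have hgpq : (g ^ p) ^ q = 1 := by
        rw [← pow_mul, mul_comm, pow_mul]
        exact hPp _ (hquot g)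
      refine hfpf (g ^ p) (g ^ q) (orderOf_eq_prime hgpq hgp1) hyp ?_
      rw [← pow_add, add_comm, pow_add, mul_inv_cancel_right]
  have hfpf' : ∀ g : G, orderOf g = q → ∀ y ∈ P, y ≠ 1 → g * y * g⁻¹ ≠ y :=
    fun g hg y hy hy1 => hfpf g y hg (orderOf_eq_prime (hPp y hy) hy1)
  have hqd : q ∣ Nat.card G := by rw [hcard]; exact dvd_mul_left q (p ^ n)
  obtain ⟨x, hx⟩ := exists_prime_orderOf_dvd_card' q hqd
  obtain ⟨a', ha'⟩ := Subgroup.ne_bot_iff_exists_ne_one.mp hP1
  have ha'1 : (a' : G) ≠ 1 := fun h => ha' (Subtype.ext h)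
  have ha'p : orderOf (a' : G) = p := orderOf_eq_prime (hPp a' a'.2) ha'1
  obtain ⟨hT1, φ₀, hφ₀⟩ := ThreeOrb.aut_trans hpq P hP1 hPab hPp hcard' hprim hfpf' x hx
  have hzx : IsPGroup q ↥(Subgroup.zpowers x) :=
    IsPGroup.of_card (n := 1) (by rw [Nat.card_zpowers, hx, pow_one])
  obtain ⟨Sx, hSx⟩ := hzx.exists_le_sylow
  have hSxeq : Subgroup.zpowers x = (Sx : Subgroup G) := by
    apply Subgroup.eq_of_le_of_card_ge hSx
    obtain ⟨k, hk⟩ := IsPGroup.iff_card.mp Sx.isPGroup'
    have hdvd : Nat.card ↥(Sx : Subgroup G) ∣ Nat.card G := Subgroup.card_subgroup_dvd_card _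
    rw [hk, hcard] at hdvd
    have hdvd2 : q ^ k ∣ q :=
      (Nat.Coprime.pow k n ((Nat.coprime_primes hq hp).mpr hpq.symm)).dvd_of_dvd_mul_left hdvd
    rw [hk, Nat.card_zpowers, hx]
    exact Nat.le_of_dvd hq.pos hdvd2
  have hB : ∀ g : G, g ∉ P → ∃ φ : MulAut G, φ x = g := by
    intro g hg
    have hgq : orderOf g = q := hE2 g hg
    have hzg : IsPGroup q ↥(Subgroup.zpowers g) :=
      IsPGroup.of_card (n := 1) (by rw [Nat.card_zpowers, hgq, pow_one])
    obtain ⟨c, hc⟩ := Cfsg.Agent.Helper12.exists_conj_mem_sylow Sx hzg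
    have hmem : c * g * c⁻¹ ∈ Subgroup.zpowers x := by
      rw [hSxeq]; exact hc g (Subgroup.mem_zpowers g)
    have hmem2 : c * g * c⁻¹ ∈ Submonoid.powers x := mem_powers_iff_mem_zpowers.mpr hmem
    obtain ⟨i, hi⟩ := (Submonoid.mem_powers_iff _ _).mp hmem2
    have hg1 : g ≠ 1 := fun h => hg (by rw [h]; exact P.one_mem)
    have hqi : ¬ q ∣ i := by
      intro hqi
      obtain ⟨j, rfl⟩ := hqi
      rw [pow_mul, ← hx, pow_orderOf_eq_one, one_pow] at hi
      apply hg1
      have h5 : c⁻¹ * (c * g * c⁻¹) * c = g := by group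
      rw [← hi] at h5
      rw [← h5]
      group
    obtain ⟨k, hk⟩ := ThreeOrb.prim_pow hprim i hqi
    have hxpow : x ^ (p ^ k) = x ^ i := by
      rw [pow_eq_pow_iff_modEq, hx]; exact hk
    refine ⟨MulAut.conj c⁻¹ * φ₀ ^ k, ?_⟩
    rw [MulAut.mul_apply, ThreeOrb.iter_pow φ₀ x p hφ₀ k, hxpow, hi, MulAut.conj_apply]
    group
  haveI : Finite (MulAction.orbitRel.Quotient (MulAut G) G) := Quotient.finite _
  haveI : Fintype (MulAction.orbitRel.Quotient (MulAut G) G) := Fintype.ofFinite _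
  rw [Nat.card_eq_fintype_card, ← Finset.card_univ, Finset.card_eq_three]
  refine ⟨ThreeOrb.cls (1 : G), ThreeOrb.cls (a' : G), ThreeOrb.cls x, ?_, ?_, ?_, ?_⟩
  · intro h
    have h' := ThreeOrb.cls_order h
    rw [orderOf_one, ha'p] at h'
    exact hp.one_lt.ne h'
  · intro h
    have h' := ThreeOrb.cls_order h
    rw [orderOf_one, hx] at h'
    exact hq.one_lt.ne h'
  · intro h
    have h' := ThreeOrb.cls_order h
    rw [ha'p, hx] at h'
    exact hpq h'
  · ext c
    simp only [Finset.mem_univ, Finset.mem_insert, Finset.mem_singleton, true_iff]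
    obtain ⟨g, rfl⟩ := ThreeOrb.cls_surj c
    by_cases hg1 : g = 1
    · left; rw [hg1]
    · by_cases hgP : g ∈ P
      · right; left
        obtain ⟨φ, hφ⟩ := hT1 (a' : G) a'.2 g hgP ha'1 hg1
        exact (ThreeOrb.cls_eq g (a' : G)).mpr ⟨φ, hφ⟩
      · right; right
        obtain ⟨φ, hφ⟩ := hB g hgP
        exact (ThreeOrb.cls_eq g x).mpr ⟨φ, hφ⟩

/-- Let G be a finite group whose order is not a prime power. Then the automorphism group of G has exactly three orbits on G if and only if there are distinct primes p, q with #G = pⁿ·q (n ≥ 1) such that G has a normal elementary abelian Sylow p-subgroup P, p is a primitive root modulo q (the multiplicative order of p mod q is q − 1), and every element of order q of G acts on P without non-identity fixed points. -/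
theorem result {G : Type*} [Group G] [Finite G] (hnpp : ¬ IsPrimePow (Nat.card G)) (hnt : Nat.card G ≠ 1) :
    Nat.card (MulAction.orbitRel.Quotient (MulAut G) G) = 3 ↔
    ∃ (p q n : ℕ) (_ : Fact p.Prime) (_ : Fact q.Prime), p ≠ q ∧ 1 ≤ n ∧ Nat.card G = p ^ n * q ∧
      (∀ P : Sylow p G, (P : Subgroup G).Normal ∧ Cfsg.IsElementaryAbelian p (P : Subgroup G)) ∧
      orderOf (p : ZMod q) = q - 1 ∧
      ∀ x y : G, orderOf x = q → orderOf y = p → x * y * x⁻¹ ≠ y := by
  constructor
  · intro h3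
    exact forward hnpp hnt h3
  · rintro ⟨p, q, n, hpF, hqF, hpq, hn1, hcard, hSyl, hprim, hfpf⟩
    exact backward p q n hpF hqF hpq hn1 hcard hSyl hprim hfpf

end Cfsg.Agent.S4081
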