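import Mathlib
import Cfsg.Statements.S4084

set_option autoImplicit false
open Cfsg

namespace Cfsg.Agent.S4084

theorem half {G H : Type*} [Group G] [Finite G] [Group H] [Finite H] (e : G ≃ H)
    (he : ∀ x y : G, Commute x y ↔ Commute (e x) (e y))
    {p q : ℕ} (hp : p.Prime) (hq : q.Prime) (hpq : p ≠ q) :
    (∃ g : G, orderOf g = p * q) → (∃ h : H, orderOf h = p * q) := by
  rintro ⟨g, hg⟩
  set A : Subgroup G := Subgroup.centralizer (Subgroup.centralizer ({g} : Set G) : Set G) with hA
  set B : Subgroup H := Subgroup.centralizer (Subgroup.centralizer ({e g} : Set H) : Set H) with hB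
  have hmemA : ∀ x : G, x ∈ A ↔ ∀ y : G, Commute y g → Commute y x := by
    intro x
    rw [hA, Subgroup.mem_centralizer_iff]
    constructor
    · intro h y hy
      have := h y (by rw [SetLike.mem_coe, Subgroup.mem_centralizer_singleton_iff]; exact hy.eq)
      exact this
    · intro h y hy
      rw [SetLike.mem_coe, Subgroup.mem_centralizer_singleton_iff] at hy
      exact (h y hy).eq
  have hmemB : ∀ x : H, x ∈ B ↔ ∀ y : H, Commute y (e g) → Commute y x := by
    intro x
    rw [hB, Subgroup.mem_centralizer_iff]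
    constructor
    · intro h y hy
      have := h y (by rw [SetLike.mem_coe, Subgroup.mem_centralizer_singleton_iff]; exact hy.eq)
      exact this
    · intro h y hy
      rw [SetLike.mem_coe, Subgroup.mem_centralizer_singleton_iff] at hy
      exact (h y hy).eq
  have hAB : ∀ x : G, x ∈ A ↔ e x ∈ B := by
    intro x
    rw [hmemA, hmemB]
    constructor
    · intro h z hz
      obtain ⟨y, rfl⟩ := e.surjective z
      exact (he y x).1 (h y ((he y g).2 hz))
    · intro h y hy
      exact (he y x).2 (h (e y) ((he y g).1 hy))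
  have hcard : Nat.card A = Nat.card B := by
    apply Nat.card_congr
    exact e.subtypeEquiv hAB
  have hgA : g ∈ A := by
    rw [hmemA]; intro y hy; exact hy
  have hdvd : p * q ∣ Nat.card B := by
    rw [← hcard, ← hg]
    have := orderOf_dvd_natCard (⟨g, hgA⟩ : A)
    rwa [Subgroup.orderOf_mk] at this
  have hBcomm : ∀ a b : B, Commute a b := by
    intro a b
    have ha := (hmemB a).1 a.2
    have hb := (hmemB b).1 b.2
    have h1 : Commute (e g) (b : H) := hb (e g) (Commute.refl _)
    have h2 : Commute (b : H) (a : H) := ha b h1.symm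
    exact Subtype.ext h2.symm.eq
  have : Fact p.Prime := ⟨hp⟩
  have : Fact q.Prime := ⟨hq⟩
  obtain ⟨a, ha⟩ := exists_prime_orderOf_dvd_card' (G := B) p (dvd_trans (dvd_mul_right p q) hdvd)
  obtain ⟨b, hb⟩ := exists_prime_orderOf_dvd_card' (G := B) q (dvd_trans (dvd_mul_left q p) hdvd)
  refine ⟨((a * b : B) : H), ?_⟩
  rw [Subgroup.orderOf_coe]
  have hcop : Nat.Coprime (orderOf a) (orderOf b) := by
    rw [ha, hb]; exact (Nat.coprime_primes hp hq).2 hpq
  rw [(hBcomm a b).orderOf_mul_eq_mul_orderOf_of_coprime hcop, ha, hb]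

theorem result {G H : Type*} [Group G] [Finite G] [Group H] [Finite H] (e : G ≃ H)
    (he : ∀ x y : G, Commute x y ↔ Commute (e x) (e y))
    {p q : ℕ} (hp : p.Prime) (hq : q.Prime) (hpq : p ≠ q) :
    (∃ g : G, orderOf g = p * q) ↔ (∃ h : H, orderOf h = p * q) := by
  constructor
  · exact half e he hp hq hpq
  · apply half e.symm _ hp hq hpq
    intro x y
    rw [he (e.symm x) (e.symm y)]
    simp

end Cfsg.Agent.S4084
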