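import Mathlib
import Cfsg.Statements.S4086

set_option autoImplicit false
open Cfsg

namespace Cfsg.Agent.S4086

theorem mem_zpowers_of_gcd_dvd {G : Type*} [Group G] (g : G) (a b : ℕ)
    (h : Nat.gcd (orderOf g) b ∣ a) : g ^ a ∈ Subgroup.zpowers (g ^ b) := by
  obtain ⟨c, hc⟩ := h
  rw [hc, pow_mul]
  apply Subgroup.pow_mem
  rw [Subgroup.mem_zpowers_iff]
  refine ⟨Nat.gcdB (orderOf g) b, ?_⟩
  have h1 : (g ^ b) ^ (Nat.gcdB (orderOf g) b) = g ^ ((b : ℤ) * Nat.gcdB (orderOf g) b) := by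
    rw [zpow_mul, zpow_natCast]
  have h2 : g ^ ((orderOf g : ℤ) * Nat.gcdA (orderOf g) b) = 1 := by
    rw [zpow_mul, zpow_natCast, pow_orderOf_eq_one, one_zpow]
  have h3 : g ^ (Nat.gcd (orderOf g) b) = g ^ ((Nat.gcd (orderOf g) b : ℕ) : ℤ) := by
    rw [zpow_natCast]
  rw [h1, h3, Nat.gcd_eq_gcd_ab, zpow_add, h2, one_mul]

theorem result {G : Type*} [Group G] [Finite G] :
    (∀ g : G, g ≠ 1 → IsPrimePow (orderOf g)) ↔
    (∀ x y : G, IsCyclic ↥(Subgroup.closure ({x, y} : Set G)) → (x ∈ Subgroup.zpowers y ∨ y ∈ Subgroup.zpowers x)) := by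
  constructor
  · intro h x y hcyc
    obtain ⟨g, hg⟩ := (Subgroup.isCyclic_iff_exists_zpowers_eq_top _).1 hcyc
    have hx : x ∈ Subgroup.zpowers g := by
      rw [hg]; exact Subgroup.subset_closure (by simp)
    have hy : y ∈ Subgroup.zpowers g := by
      rw [hg]; exact Subgroup.subset_closure (by simp)
    rw [← mem_powers_iff_mem_zpowers] at hx hy
    obtain ⟨a, rfl⟩ := hx
    obtain ⟨b, rfl⟩ := hy
    have hpk : ∃ p k : ℕ, p.Prime ∧ orderOf g = p ^ k := by
      by_cases hg1 : g = 1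
      · exact ⟨2, 0, Nat.prime_two, by rw [hg1]; simp⟩
      · obtain ⟨p, k, hp, -, hk⟩ := (isPrimePow_nat_iff _).1 (h g hg1)
        exact ⟨p, k, hp, hk.symm⟩
    obtain ⟨p, k, hp, hk⟩ := hpk
    obtain ⟨s, -, hs⟩ := (Nat.dvd_prime_pow hp).1 (hk ▸ Nat.gcd_dvd_left (orderOf g) a)
    obtain ⟨t, -, ht⟩ := (Nat.dvd_prime_pow hp).1 (hk ▸ Nat.gcd_dvd_left (orderOf g) b)
    rcases le_total s t with hst | hst
    · right
      apply mem_zpowers_of_gcd_dvd
      rw [hk, hs]
      exact dvd_trans (pow_dvd_pow p hst) (ht ▸ Nat.gcd_dvd_right (p ^ k) b)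
    · left
      apply mem_zpowers_of_gcd_dvd
      rw [hk, ht]
      exact dvd_trans (pow_dvd_pow p hst) (hs ▸ Nat.gcd_dvd_right (p ^ k) a)
  · intro h g hg1
    by_contra hnpp
    have hn0 : orderOf g ≠ 0 := (orderOf_pos g).ne'
    have hn1 : orderOf g ≠ 1 := by
      rw [Ne, orderOf_eq_one_iff]; exact hg1
    set n := orderOf g with hn
    set p := n.minFac with hp
    have hpp : p.Prime := Nat.minFac_prime hn1
    set a := p ^ n.factorization p with ha
    set b := n / a with hb
    have hab : a * b = n := Nat.ordProj_mul_ordCompl_eq_self n p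
    have hcop : Nat.Coprime a b := (Nat.coprime_ordCompl hpp hn0).pow_left _
    have ha0 : a ≠ 0 := pow_ne_zero _ hpp.ne_zero
    have hb0 : b ≠ 0 := by
      intro hb0; rw [hb0, mul_zero] at hab; exact hn0 hab.symm
    have ha1 : a ≠ 1 := by
      intro h1
      have : p ∣ a := by
        rw [ha]
        exact dvd_pow_self p (by
          have := (hpp.factorization_pos_of_dvd hn0 (Nat.minFac_dvd n)); omega)
      rw [h1] at this
      exact hpp.one_lt.ne' (Nat.dvd_one.1 this)
    have hb1 : b ≠ 1 := by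
      intro h1
      rw [h1, mul_one] at hab
      apply hnpp
      rw [isPrimePow_nat_iff]
      refine ⟨p, n.factorization p, hpp, ?_, hab⟩
      exact hpp.factorization_pos_of_dvd hn0 (Nat.minFac_dvd n)
    have hoa : orderOf (g ^ a) = b := by
      rw [orderOf_pow_of_dvd ha0 (Dvd.intro _ hab), ← hn]
    have hob : orderOf (g ^ b) = a := by
      rw [orderOf_pow_of_dvd hb0 (Dvd.intro_left _ hab), ← hn, ← hab, Nat.mul_div_cancel _ (Nat.pos_of_ne_zero hb0)]
    have hcyc : IsCyclic ↥(Subgroup.closure ({g ^ a, g ^ b} : Set G)) := by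
      have hle : Subgroup.closure ({g ^ a, g ^ b} : Set G) ≤ Subgroup.zpowers g := by
        rw [Subgroup.closure_le]
        intro z hz
        rcases hz with rfl | rfl
        · exact Subgroup.npow_mem_zpowers g a
        · exact Subgroup.npow_mem_zpowers g b
      exact Subgroup.isCyclic_of_le hle
    rcases h (g ^ a) (g ^ b) hcyc with h1 | h1
    · have := orderOf_dvd_of_mem_zpowers h1
      rw [hoa, hob] at this
      have := Nat.eq_one_of_dvd_coprimes hcop.symm dvd_rfl this
      exact hb1 this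
    · have := orderOf_dvd_of_mem_zpowers h1
      rw [hoa, hob] at this
      have := Nat.eq_one_of_dvd_coprimes hcop dvd_rfl this
      exact ha1 this

end Cfsg.Agent.S4086
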