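import Mathlib
import Cfsg.Statements.S4089
import Cfsg.Agent.Lead.Frobenius
import Cfsg.Agent.Helper12.Syl
import Cfsg.Agent.Helper16.Subnormal
import Cfsg.Agent.Helper20.Subnormal

set_option autoImplicit false
open Cfsg

namespace Cfsg.Agent.S4089

universe u

theorem pgroup_subnormal_aux {p : ℕ} [Fact p.Prime] (T : Type u) [Group T] [Finite T]
    (hT : IsPGroup p T) : ∀ (n : ℕ) (H : Subgroup T), Nat.card T - Nat.card H = n →
    H.IsSubnormal := by
  have hnil : Group.IsNilpotent T := hT.isNilpotent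
  have hnc : NormalizerCondition T := Group.normalizerCondition_of_isNilpotent
  intro n
  induction n using Nat.strong_induction_on with
  | _ n ih =>
  intro H hn
  by_cases hH : H = ⊤
  · rw [hH]; exact Subgroup.IsSubnormal.top
  have hlt : H < ⊤ := lt_top_iff_ne_top.mpr hH
  have h1 := hnc H hlt
  have hcard : Nat.card H < Nat.card (Subgroup.normalizer (H : Set T)) := by
    have h2 := Set.ncard_lt_ncard (s := (H : Set T))
      (t := ((Subgroup.normalizer (H : Set T) : Subgroup T) : Set T))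
      (SetLike.coe_ssubset_coe.mpr h1) (Set.toFinite _)
    rw [← Nat.card_coe_set_eq, ← Nat.card_coe_set_eq] at h2
    exact h2
  have hle : Nat.card (Subgroup.normalizer (H : Set T)) ≤ Nat.card T :=
    Subgroup.card_le_card_group _
  have hK := ih (Nat.card T - Nat.card (Subgroup.normalizer (H : Set T))) (by omega)
    (Subgroup.normalizer (H : Set T)) rfl
  exact Subgroup.IsSubnormal.step H _ h1.le hK Subgroup.normal_in_normalizer

theorem pgroup_subnormal {p : ℕ} [Fact p.Prime] {T : Type u} [Group T] [Finite T]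
    (hT : IsPGroup p T) (H : Subgroup T) : H.IsSubnormal :=
  pgroup_subnormal_aux T hT _ H rfl

theorem sn_iff {G : Type u} [Group G] [Finite G] (p : ℕ) [Fact p.Prime] (H : Subgroup G)
    (hH : IsPGroup p H) (g : G) :
    ((H).subgroupOf (H ⊔ Subgroup.zpowers g)).IsSubnormal ↔
      ∃ R : Subgroup G, IsPGroup p R ∧ H ≤ R ∧ g ∈ Subgroup.normalizer (R : Set G) := by
  constructor
  · intro hsn
    have h1 : H.subgroupOf (H ⊔ Subgroup.zpowers g) ≤ Cfsg.pCore p ↥(H ⊔ Subgroup.zpowers g) :=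
      Cfsg.Agent.Helper16.isSubnormal_pgroup_le_pCore hsn hH.comap_subtype
    refine ⟨Cfsg.pCoreOf p (H ⊔ Subgroup.zpowers g), Cfsg.Agent.Helper16.isPGroup_pCoreOf p _,
      ?_, ?_⟩
    · have h2 := Subgroup.map_mono (f := (H ⊔ Subgroup.zpowers g).subtype) h1
      rw [Subgroup.map_subgroupOf_eq_of_le le_sup_left] at h2
      exact h2
    · exact Cfsg.Agent.Helper16.le_normalizer_pCoreOf p _
        (Subgroup.mem_sup_right (Subgroup.mem_zpowers g))
  · rintro ⟨R, hRp, hHR, hgR⟩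
    have hXN : H ⊔ Subgroup.zpowers g ≤ Subgroup.normalizer (R : Set G) :=
      sup_le (hHR.trans Subgroup.le_normalizer) ((Subgroup.zpowers_le).mpr hgR)
    have hR'X : R ⊓ (H ⊔ Subgroup.zpowers g) ≤ H ⊔ Subgroup.zpowers g := inf_le_right
    have hXN' : H ⊔ Subgroup.zpowers g ≤
        Subgroup.normalizer ((R ⊓ (H ⊔ Subgroup.zpowers g) : Subgroup G) : Set G) :=
      Cfsg.Agent.Helper16.le_normalizer_inf' hXN Subgroup.le_normalizer
    have hnorm : ((R ⊓ (H ⊔ Subgroup.zpowers g)).subgroupOf (H ⊔ Subgroup.zpowers g)).Normal :=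
      (Subgroup.normal_subgroupOf_iff_le_normalizer hR'X).mpr hXN'
    have hp' : IsPGroup p ((R ⊓ (H ⊔ Subgroup.zpowers g)).subgroupOf (H ⊔ Subgroup.zpowers g)) :=
      (hRp.to_le inf_le_left).comap_subtype
    have hle : H.subgroupOf (H ⊔ Subgroup.zpowers g) ≤
        (R ⊓ (H ⊔ Subgroup.zpowers g)).subgroupOf (H ⊔ Subgroup.zpowers g) := by
      intro x hx
      rw [Subgroup.mem_subgroupOf] at hx ⊢
      exact Subgroup.mem_inf.mpr ⟨hHR hx, x.2⟩
    exact Subgroup.IsSubnormal.trans hle (pgroup_subnormal hp' _) hnorm.isSubnormal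

theorem result {G : Type*} [Group G] [Finite G] (p : ℕ) [Fact p.Prime]
    (H : Subgroup G) (hH : IsPGroup p H) :
    {g : G | ((H).subgroupOf (H ⊔ Subgroup.zpowers g)).IsSubnormal} =
      {g : G | ∃ R : Subgroup G, H ≤ R ∧ (Cfsg.pCore p (Subgroup.normalizer (R : Set G))).map (Subgroup.normalizer (R : Set G)).subtype = R ∧ g ∈ Subgroup.normalizer (R : Set G)} ∧
    ∀ g : G, (((H).subgroupOf (H ⊔ Subgroup.zpowers g)).IsSubnormal ↔
      (((sInf {K : Subgroup G | ∃ Q : Sylow p G, H ≤ (Q : Subgroup G) ∧ K = (Q : Subgroup G)})).subgroupOf ((sInf {K : Subgroup G | ∃ Q : Sylow p G, H ≤ (Q : Subgroup G) ∧ K = (Q : Subgroup G)}) ⊔ Subgroup.zpowers g)).IsSubnormal) := by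
  have part1 : ∀ g : G, ((H).subgroupOf (H ⊔ Subgroup.zpowers g)).IsSubnormal ↔
      ∃ R : Subgroup G, H ≤ R ∧ Cfsg.pCoreOf p (Subgroup.normalizer (R : Set G)) = R ∧
        g ∈ Subgroup.normalizer (R : Set G) := by
    intro g
    rw [sn_iff p H hH g]
    constructor
    · rintro ⟨R₀, hR₀p, hHR₀, hg⟩
      obtain ⟨R, ⟨hRp, hHR, hgR⟩, hmax⟩ := wellFounded_gt.has_min
        {R : Subgroup G | IsPGroup p R ∧ H ≤ R ∧ g ∈ Subgroup.normalizer (R : Set G)}
        ⟨R₀, hR₀p, hHR₀, hg⟩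
      have hRΦ : R ≤ Cfsg.pCoreOf p (Subgroup.normalizer (R : Set G)) :=
        Cfsg.Agent.Helper16.le_pCoreOf Subgroup.le_normalizer le_rfl hRp
      have hΦmem : Cfsg.pCoreOf p (Subgroup.normalizer (R : Set G)) ∈
          {R : Subgroup G | IsPGroup p R ∧ H ≤ R ∧ g ∈ Subgroup.normalizer (R : Set G)} :=
        ⟨Cfsg.Agent.Helper16.isPGroup_pCoreOf p _, hHR.trans hRΦ,
          Cfsg.Agent.Helper16.le_normalizer_pCoreOf p _ hgR⟩
      have heq : R = Cfsg.pCoreOf p (Subgroup.normalizer (R : Set G)) :=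
        (lt_or_eq_of_le hRΦ).resolve_left (hmax _ hΦmem)
      exact ⟨R, hHR, heq.symm, hgR⟩
    · rintro ⟨R, hHR, hΦ, hgR⟩
      refine ⟨R, ?_, hHR, hgR⟩
      rw [← hΦ]
      exact Cfsg.Agent.Helper16.isPGroup_pCoreOf p _
  obtain ⟨I, hI⟩ : ∃ I : Subgroup G,
      I = sInf {K : Subgroup G | ∃ Q : Sylow p G, H ≤ (Q : Subgroup G) ∧ K = (Q : Subgroup G)} :=
    ⟨_, rfl⟩
  rw [← hI]
  have hIH : H ≤ I := by
    rw [hI]
    apply le_sInf
    rintro K ⟨Q, hHQ, rfl⟩
    exact hHQ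
  have hIp : IsPGroup p I := by
    obtain ⟨Q, hQ⟩ := hH.exists_le_sylow
    have hIQ : I ≤ (Q : Subgroup G) := by
      rw [hI]
      exact sInf_le ⟨Q, hQ, rfl⟩
    exact Q.2.to_le hIQ
  have key : ∀ R : Subgroup G, H ≤ R →
      Cfsg.pCoreOf p (Subgroup.normalizer (R : Set G)) = R → I ≤ R := by
    intro R hHR hΦ
    have hRp : IsPGroup p R := by
      rw [← hΦ]
      exact Cfsg.Agent.Helper16.isPGroup_pCoreOf p _
    obtain ⟨J, hJ⟩ : ∃ J : Subgroup G,
        J = sInf {K : Subgroup G | ∃ Q : Sylow p G, R ≤ (Q : Subgroup G) ∧ K = (Q : Subgroup G)} :=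
      ⟨_, rfl⟩
    have hJmem : ∀ x, x ∈ J ↔ ∀ Q : Sylow p G, R ≤ (Q : Subgroup G) → x ∈ (Q : Subgroup G) := by
      intro x
      rw [hJ, Subgroup.mem_sInf]
      constructor
      · intro h1 Q hQ
        exact h1 _ ⟨Q, hQ, rfl⟩
      · rintro h1 K ⟨Q, hQ, rfl⟩
        exact h1 Q hQ
    have hIJ : I ≤ J := by
      intro x hx
      rw [hJmem]
      intro Q hQ
      rw [hI, Subgroup.mem_sInf] at hx
      exact hx _ ⟨Q, hHR.trans hQ, rfl⟩
    have hRJ : R ≤ J := by
      intro x hx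
      rw [hJmem]
      intro Q hQ
      exact hQ hx
    have hJp : IsPGroup p J := by
      obtain ⟨Q, hQ⟩ := hRp.exists_le_sylow
      exact Q.2.to_le (fun x hx => (hJmem x).mp hx Q hQ)
    have hJnorm : Subgroup.normalizer (R : Set G) ≤ Subgroup.normalizer (J : Set G) := by
      apply Cfsg.Agent.Helper20.le_normalizer_of_forall_conj_mem
      intro n hn x hx
      rw [hJmem]
      intro Q hQ
      have hRQ' : R ≤ ((n⁻¹ • Q : Sylow p G) : Subgroup G) := by
        intro r hr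
        have h1 : n * r * n⁻¹ ∈ R := (Subgroup.mem_normalizer_iff.mp hn r).mp hr
        have h2 : r ∈ n⁻¹ • Q := by
          rw [Cfsg.Agent.Helper12.mem_sylow_smul_iff, inv_inv]
          exact hQ h1
        exact h2
      have h3 : x ∈ n⁻¹ • Q := (hJmem x).mp hx _ hRQ'
      rw [Cfsg.Agent.Helper12.mem_sylow_smul_iff, inv_inv] at h3
      exact h3
    have hD : J ⊓ Subgroup.normalizer (R : Set G) ≤ R := by
      have h1 : J ⊓ Subgroup.normalizer (R : Set G) ≤
          Cfsg.pCoreOf p (Subgroup.normalizer (R : Set G)) :=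
        Cfsg.Agent.Helper16.le_pCoreOf inf_le_right
          (Cfsg.Agent.Helper16.le_normalizer_inf' hJnorm Subgroup.le_normalizer)
          (hJp.to_le inf_le_left)
      rw [hΦ] at h1
      exact h1
    have hJR : J ≤ R := by
      by_contra hcon
      have hlt : R < J := lt_of_le_of_ne hRJ (fun h0 => hcon (h0 ▸ le_rfl))
      obtain ⟨x, hxJ, hxN, hxR⟩ := Cfsg.Agent.Lead.exists_normalizer_mem_not_mem J R hJp hlt
      exact hxR (hD (Subgroup.mem_inf.mpr ⟨hxJ, hxN⟩))
    exact hIJ.trans hJR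
  refine ⟨?_, ?_⟩
  · ext g
    exact part1 g
  · intro g
    constructor
    · intro hsn
      obtain ⟨R, hHR, hΦ, hgR⟩ := (part1 g).mp hsn
      have hRp : IsPGroup p R := by
        rw [← hΦ]
        exact Cfsg.Agent.Helper16.isPGroup_pCoreOf p _
      exact (sn_iff p I hIp g).mpr ⟨R, hRp, key R hHR hΦ, hgR⟩
    · intro hsn
      obtain ⟨R, hRp, hIR, hgR⟩ := (sn_iff p I hIp g).mp hsn
      exact (sn_iff p H hH g).mpr ⟨R, hRp, hIH.trans hIR, hgR⟩

end Cfsg.Agent.S4089
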