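import Mathlib
import Cfsg.Statements.S4092
import Cfsg.Agent.Helper12.Syl
import Cfsg.Agent.Helper21.Primary
import Cfsg.Agent.Lead.Transfer

set_option autoImplicit false
open Cfsg
open scoped Pointwise

namespace Cfsg.Agent.S4092

theorem result {G : Type*} [Group G] [Finite G] (p : ℕ) [Fact p.Prime]
    (P : Sylow p G) (hP : ¬ (P : Subgroup G).Normal) :
    p * Nat.card (P : Subgroup G) ≤ Nat.card {g : G // ∃ k : ℕ, orderOf g = p ^ k} := by
  classical
  have hp : p.Prime := Fact.out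
  have hex : ∃ Q : Sylow p G, Q ≠ P := by
    by_contra hcon
    push Not at hcon
    apply hP
    constructor
    intro n hn g
    have h1 : g • P = P := hcon (g • P)
    have h2 : g * n * g⁻¹ ∈ g • P := by
      rw [Cfsg.Agent.Helper12.mem_sylow_smul_iff]
      have h3 : g⁻¹ * (g * n * g⁻¹) * g = n := by group
      rw [h3]; exact hn
    rw [h1] at h2
    exact h2
  obtain ⟨Q, hQP⟩ := hex
  have hne0 : Nonempty {pq : Sylow p G × Sylow p G // pq.1 ≠ pq.2} :=
    ⟨⟨(P, Q), fun h => hQP h.symm⟩⟩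
  obtain ⟨⟨⟨P1, Q1⟩, hne⟩, hmax⟩ := Finite.exists_max
    (fun pq : {pq : Sylow p G × Sylow p G // pq.1 ≠ pq.2} =>
      Nat.card ((pq.1.1 : Subgroup G) ⊓ (pq.1.2 : Subgroup G) : Subgroup G))
  have hne' : P1 ≠ Q1 := hne
  obtain ⟨D, hD⟩ : ∃ D : Subgroup G, D = (P1 : Subgroup G) ⊓ (Q1 : Subgroup G) := ⟨_, rfl⟩
  have hmax' : ∀ S T : Sylow p G, S ≠ T →
      Nat.card ((S : Subgroup G) ⊓ (T : Subgroup G) : Subgroup G) ≤ Nat.card D := by
    intro S T h
    rw [hD]
    exact hmax ⟨(S, T), h⟩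
  have hDP : D ≤ (P1 : Subgroup G) := by rw [hD]; exact inf_le_left
  have hDQ : D ≤ (Q1 : Subgroup G) := by rw [hD]; exact inf_le_right
  have hDne : ¬ (P1 : Subgroup G) ≤ D := by
    intro h
    have h1 : (P1 : Subgroup G) ≤ Q1 := h.trans hDQ
    exact hne' (Sylow.ext (P1.is_maximal' Q1.isPGroup' h1).symm)
  have hcardS : ∀ S : Sylow p G, Nat.card (S : Subgroup G) = Nat.card (P : Subgroup G) := by
    intro S
    rw [Sylow.card_eq_multiplicity, Sylow.card_eq_multiplicity]
  have hnil : Group.IsNilpotent (P1 : Subgroup G) := P1.isPGroup'.isNilpotent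
  have hnc : NormalizerCondition (P1 : Subgroup G) := Group.normalizerCondition_of_isNilpotent
  have hlt : D.subgroupOf (P1 : Subgroup G) < ⊤ := by
    rw [lt_top_iff_ne_top, Ne, Subgroup.subgroupOf_eq_top]
    exact hDne
  have hgrow := hnc _ hlt
  obtain ⟨x, hxN, hxD⟩ := SetLike.exists_of_lt hgrow
  have hr0N : (x : G) ∈ Subgroup.normalizer (D : Set G) := by
    apply Subgroup.mem_normalizer_fintype
    intro n hn
    have hn' : (⟨n, hDP hn⟩ : (P1 : Subgroup G)) ∈ D.subgroupOf (P1 : Subgroup G) :=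
      Subgroup.mem_subgroupOf.mpr hn
    have h2 := (Subgroup.mem_normalizer_iff.mp hxN ⟨n, hDP hn⟩).mp hn'
    exact Subgroup.mem_subgroupOf.mp h2
  obtain ⟨K, hK⟩ := P1.isPGroup' x
  have hK' : (x : G) ^ p ^ K = 1 := by
    have h := congrArg Subtype.val hK
    exact h
  have hexk : ∃ k, (x : G) ^ p ^ k ∈ D := ⟨K, by rw [hK']; exact D.one_mem⟩
  obtain ⟨k, hk, hkmin⟩ : ∃ k, (x : G) ^ p ^ k ∈ D ∧ ∀ j < k, (x : G) ^ p ^ j ∉ D :=
    ⟨Nat.find hexk, Nat.find_spec hexk, fun j hj => Nat.find_min hexk hj⟩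
  have hk0 : k ≠ 0 := by
    rintro rfl
    apply hxD
    rw [Subgroup.mem_subgroupOf]
    rw [pow_zero, pow_one] at hk
    exact hk
  obtain ⟨m, rfl⟩ := Nat.exists_eq_succ_of_ne_zero hk0
  obtain ⟨r, hr⟩ : ∃ r : G, r = (x : G) ^ p ^ m := ⟨_, rfl⟩
  have hrD : r ∉ D := by rw [hr]; exact hkmin m (Nat.lt_succ_self m)
  have hrp : r ^ p ∈ D := by rw [hr, ← pow_mul, ← pow_succ]; exact hk
  have hrP : r ∈ (P1 : Subgroup G) := by rw [hr]; exact pow_mem x.2 _
  have hrN : r ∈ Subgroup.normalizer (D : Set G) := by rw [hr]; exact pow_mem hr0N _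
  have hrK : r ^ p ^ K = 1 := by rw [hr, ← pow_mul, mul_comm, pow_mul, hK', one_pow]
  obtain ⟨F, hF0, hFs⟩ : ∃ F : Option (Fin p) → Sylow p G, F none = P1 ∧
      ∀ i : Fin p, F (some i) = r ^ (i : ℕ) • Q1 :=
    ⟨fun o => o.elim P1 (fun i => r ^ (i : ℕ) • Q1), rfl, fun i => rfl⟩
  have hconjD : ∀ i : ℕ, ∀ y ∈ D, (r ^ i)⁻¹ * y * r ^ i ∈ D := by
    intro i y hy
    have h1 : (r ^ i)⁻¹ ∈ Subgroup.normalizer (D : Set G) := inv_mem (pow_mem hrN i)
    have h2 := (Subgroup.mem_normalizer_iff.mp h1 y).mp hy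
    rw [inv_inv] at h2
    exact h2
  have hDF : ∀ o, D ≤ (F o : Subgroup G) := by
    intro o
    cases o with
    | none => rw [hF0]; exact hDP
    | some i =>
      rw [hFs i]
      intro y hy
      have h1 : y ∈ r ^ (i : ℕ) • Q1 := by
        rw [Cfsg.Agent.Helper12.mem_sylow_smul_iff]
        exact hDQ (hconjD i y hy)
      exact h1
  have key : ∀ i j : ℕ, i < j → j < p → r ^ i • Q1 ≠ r ^ j • Q1 := by
    intro i j hij hjp heq
    obtain ⟨m, rfl⟩ := Nat.exists_eq_add_of_lt hij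
    have h1 : r ^ (i + m + 1) = r ^ i * r ^ (m + 1) := by rw [add_assoc, pow_add]
    rw [h1, mul_smul] at heq
    have h2 : Q1 = r ^ (m + 1) • Q1 := smul_left_cancel _ heq
    have h3 := Sylow.smul_eq_iff_mem_normalizer.mp h2.symm
    have h4 : r ^ (m + 1) ∈ (Q1 : Subgroup G) :=
      Cfsg.Agent.Lead.mem_sylow_of_mem_normalizer Q1 _ K
        (by rw [← pow_mul, mul_comm, pow_mul, hrK, one_pow]) h3
    have h5 : r ^ (m + 1) ∈ D := by rw [hD]; exact ⟨pow_mem hrP _, h4⟩
    have hcop : Nat.Coprime (m + 1) p := by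
      apply Nat.Coprime.symm
      rw [Nat.Prime.coprime_iff_not_dvd hp]
      intro hdvd
      have := Nat.le_of_dvd (Nat.succ_pos m) hdvd
      omega
    exact hrD (Cfsg.Agent.Helper21.mem_of_pow_mem_of_coprime hcop h5 hrp)
  have hA : ∀ i : ℕ, r ^ i • Q1 ≠ P1 := by
    intro i h
    have h1 : (r ^ i)⁻¹ • P1 = P1 :=
      Sylow.smul_eq_iff_mem_normalizer.mpr (Subgroup.le_normalizer (inv_mem (pow_mem hrP i)))
    have h2 : Q1 = (r ^ i)⁻¹ • P1 := by rw [← h, inv_smul_smul]
    exact hne' (h2.trans h1).symm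
  have hFinj : Function.Injective F := by
    intro o o' h
    cases o with
    | none =>
      cases o' with
      | none => rfl
      | some j =>
        rw [hF0, hFs j] at h
        exact absurd h.symm (hA j)
    | some i =>
      cases o' with
      | none =>
        rw [hF0, hFs i] at h
        exact absurd h (hA i)
      | some j =>
        rw [hFs i, hFs j] at h
        congr 1
        apply Fin.ext
        by_contra hij
        rcases Nat.lt_or_gt_of_ne hij with h1 | h1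
        · exact key _ _ h1 j.2 h
        · exact key _ _ h1 i.2 h.symm
  have hc : ∀ o o' : Option (Fin p), o ≠ o' → ∀ y : G, y ∈ (F o : Subgroup G) →
      y ∈ (F o' : Subgroup G) → y ∈ D := by
    intro o o' hoo y hy hy'
    have h1 : Nat.card ((F o : Subgroup G) ⊓ (F o' : Subgroup G) : Subgroup G) ≤ Nat.card D :=
      hmax' _ _ (fun h => hoo (hFinj h))
    have h2 : D ≤ (F o : Subgroup G) ⊓ (F o' : Subgroup G) := le_inf (hDF o) (hDF o')
    have h3 := Subgroup.eq_of_le_of_card_ge h2 h1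
    rw [h3]
    exact ⟨hy, hy'⟩
  have pel : ∀ (S : Sylow p G) (y : G), y ∈ (S : Subgroup G) → ∃ k : ℕ, orderOf y = p ^ k := by
    intro S y hy
    obtain ⟨k, hk⟩ := (IsPGroup.iff_orderOf.mp S.isPGroup') ⟨y, hy⟩
    exact ⟨k, by rw [← hk, Subgroup.orderOf_mk]⟩
  let f : (Σ o : Option (Fin p), ↥(((F o : Subgroup G) : Set G) \ (D : Set G))) ⊕ D →
      {g : G // ∃ k : ℕ, orderOf g = p ^ k} :=
    Sum.elim (fun s => ⟨s.2.1, pel (F s.1) _ s.2.2.1⟩) (fun d => ⟨d.1, pel P1 _ (hDP d.2)⟩)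
  have hf : Function.Injective f := by
    rintro (⟨o, ⟨y, hy⟩⟩ | ⟨y, hy⟩) (⟨o', ⟨z, hz⟩⟩ | ⟨z, hz⟩) h
    · have hyz : y = z := congrArg Subtype.val h
      subst hyz
      have hoo : o = o' := by
        by_contra hoo
        exact hy.2 (hc o o' hoo y hy.1 hz.1)
      subst hoo
      rfl
    · have hyz : y = z := congrArg Subtype.val h
      subst hyz
      exact absurd hz hy.2
    · have hyz : y = z := congrArg Subtype.val h
      subst hyz
      exact absurd hy hz.2
    · have hyz : y = z := congrArg Subtype.val h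
      subst hyz
      rfl
  have hT := Nat.card_le_card_of_injective f hf
  have hpiece : ∀ o : Option (Fin p),
      Nat.card ↥(((F o : Subgroup G) : Set G) \ (D : Set G)) + Nat.card D =
        Nat.card (P : Subgroup G) := by
    intro o
    have h1 := Set.ncard_sdiff_add_ncard_of_subset (s := (D : Set G))
      (t := ((F o : Subgroup G) : Set G)) (hDF o)
    rw [← Nat.card_coe_set_eq, ← Nat.card_coe_set_eq, ← Nat.card_coe_set_eq] at h1
    rw [← hcardS (F o)]
    exact h1
  have hpiece' : ∀ o : Option (Fin p),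
      Nat.card ↥(((F o : Subgroup G) : Set G) \ (D : Set G)) =
        Nat.card (P : Subgroup G) - Nat.card D := by
    intro o
    have := hpiece o
    omega
  have hcount : Nat.card ((Σ o : Option (Fin p), ↥(((F o : Subgroup G) : Set G) \ (D : Set G))) ⊕ D)
      = (p + 1) * (Nat.card (P : Subgroup G) - Nat.card D) + Nat.card D := by
    rw [Nat.card_sum, Nat.card_sigma]
    congr 1
    simp only [hpiece']
    simp
  have hpd : p * Nat.card D ≤ Nat.card (P : Subgroup G) := by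
    rw [← hcardS P1]
    obtain ⟨n, hn⟩ := IsPGroup.exists_card_eq P1.isPGroup'
    obtain ⟨c, hc⟩ := Subgroup.card_dvd_of_le hDP
    have hc1 : c ≠ 1 := by
      rintro rfl
      rw [mul_one] at hc
      exact hDne (Subgroup.eq_of_le_of_card_ge hDP hc.le).ge
    have hcdvd : c ∣ p ^ n := by rw [← hn, hc]; exact dvd_mul_left c _
    obtain ⟨j, hj, rfl⟩ := (Nat.dvd_prime_pow hp).mp hcdvd
    have hj0 : j ≠ 0 := by rintro rfl; exact hc1 (pow_zero p)
    have hpc : p ≤ p ^ j := by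
      calc p = p ^ 1 := (pow_one p).symm
        _ ≤ p ^ j := Nat.pow_le_pow_right hp.pos (Nat.one_le_iff_ne_zero.mpr hj0)
    rw [hc, mul_comm]
    exact Nat.mul_le_mul_left _ hpc
  rw [hcount] at hT
  have hda : Nat.card D ≤ Nat.card (P : Subgroup G) := by
    have := hpiece none
    omega
  obtain ⟨e, he⟩ := Nat.exists_eq_add_of_le hda
  rw [he] at hT hpd ⊢
  rw [Nat.add_sub_cancel_left] at hT
  nlinarith [hT, hpd]

end Cfsg.Agent.S4092
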