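import Mathlib
import Cfsg.Statements.S4093
import Cfsg.Agent.Helper12.Syl
import Cfsg.Agent.Helper11.LargeExtra3

set_option autoImplicit false
open Cfsg

namespace Cfsg.Agent.S4093

theorem result {G : Type*} [Group G] [Finite G] (p : ℕ) [Fact p.Prime]
    (P : Sylow p G) (N : Subgroup G) [N.Normal] (hNP : N.IsComplement' (P : Subgroup G)) :
    Nat.card {g : G // ∃ k : ℕ, orderOf g = p ^ k} =
      ∑ᶠ x : (P : Subgroup G), Nat.card N / Nat.card ↥(N ⊓ Subgroup.centralizer ({(x : G)} : Set G)) := by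
  classical
  have hp : p.Prime := Fact.out
  have hNn : N.Normal := inferInstance
  have : Fintype (P : Subgroup G) := Fintype.ofFinite _
  rw [finsum_eq_sum_of_fintype]
  have hterm : ∀ x : (P : Subgroup G),
      Nat.card N / Nat.card ↥(N ⊓ Subgroup.centralizer ({(x : G)} : Set G)) =
        Nat.card ↥{y : G | ∃ n ∈ N, y = n * (x : G) * n⁻¹} := by
    intro x
    rw [Nat.card_coe_set_eq, ← Cfsg.Agent.Helper11.relIndex_centralizer_eq_ncard]
    have h1 := Subgroup.relIndex_mul_relIndex (⊥ : Subgroup G)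
      (N ⊓ Subgroup.centralizer ({(x : G)} : Set G)) N bot_le inf_le_left
    rw [Subgroup.relIndex_bot_left, Subgroup.relIndex_bot_left, Subgroup.inf_relIndex_left] at h1
    exact Nat.div_eq_of_eq_mul_right Nat.card_pos h1.symm
  rw [Finset.sum_congr rfl (fun x _ => hterm x), ← Nat.card_sigma]
  have hpel : ∀ (x : (P : Subgroup G)) (y : G), (∃ n ∈ N, y = n * (x : G) * n⁻¹) →
      ∃ k : ℕ, orderOf y = p ^ k := by
    rintro x y ⟨n, -, rfl⟩
    obtain ⟨k, hk⟩ := (IsPGroup.iff_orderOf.mp P.isPGroup') x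
    refine ⟨k, ?_⟩
    have h1 := (MulAut.conj n).orderOf_eq (x : G)
    rw [MulAut.conj_apply] at h1
    rw [h1, ← hk, Subgroup.orderOf_coe]
  let Φ : (Σ x : (P : Subgroup G), ↥{y : G | ∃ n ∈ N, y = n * (x : G) * n⁻¹}) →
      {g : G // ∃ k : ℕ, orderOf g = p ^ k} := fun s => ⟨s.2.1, hpel s.1 s.2.1 s.2.2⟩
  have hinj : Function.Injective Φ := by
    rintro ⟨x, y, n, hn, rfl⟩ ⟨x', y', n', hn', rfl⟩ h
    have h1 : n * (x : G) * n⁻¹ = n' * (x' : G) * n'⁻¹ := congrArg Subtype.val h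
    have h2 : (x : G)⁻¹ * (x' : G) ∈ N := by
      have hx' : (x' : G) = n'⁻¹ * (n * (x : G) * n⁻¹) * n' := by rw [h1]; group
      have e : (x : G)⁻¹ * (x' : G) =
          ((x : G)⁻¹ * (n'⁻¹ * n) * ((x : G)⁻¹)⁻¹) * (n'⁻¹ * n)⁻¹ := by
        rw [hx']; group
      rw [e]
      exact N.mul_mem (hNn.conj_mem _ (N.mul_mem (N.inv_mem hn') hn) _)
        (N.inv_mem (N.mul_mem (N.inv_mem hn') hn))
    have h3 : (x : G)⁻¹ * (x' : G) ∈ (P : Subgroup G) := mul_mem (inv_mem x.2) x'.2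
    have h4 : (x : G)⁻¹ * (x' : G) = 1 := by
      have hdis := hNP.disjoint
      rw [Subgroup.disjoint_def] at hdis
      exact hdis h2 h3
    have h5 : x = x' := by
      apply Subtype.ext
      exact inv_mul_eq_one.mp h4
    subst h5
    exact Sigma.ext rfl (heq_of_eq (Subtype.ext h1))
  have hsurj : Function.Surjective Φ := by
    rintro ⟨g, k, hk⟩
    have hgk : g ^ p ^ k = 1 := by rw [← hk]; exact pow_orderOf_eq_one g
    obtain ⟨h, hh⟩ := Cfsg.Agent.Helper12.exists_conj_mem_sylow P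
      (Cfsg.Agent.Helper12.isPGroup_zpowers_of_pow_eq_one hgk)
    have hx' : h * g * h⁻¹ ∈ (P : Subgroup G) := hh g (Subgroup.mem_zpowers g)
    obtain ⟨⟨n, y⟩, hny⟩ := hNP.2 h⁻¹
    have hny' : (n : G) * (y : G) = h⁻¹ := hny
    have hxP : (y : G) * (h * g * h⁻¹) * (y : G)⁻¹ ∈ (P : Subgroup G) :=
      mul_mem (mul_mem y.2 hx') (inv_mem y.2)
    refine ⟨⟨⟨_, hxP⟩, ⟨g, (n : G), n.2, ?_⟩⟩, rfl⟩
    have hh' : h = ((n : G) * (y : G))⁻¹ := by rw [hny', inv_inv]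
    show g = (n : G) * ((y : G) * (h * g * h⁻¹) * (y : G)⁻¹) * (n : G)⁻¹
    rw [hh']
    group
  exact (Nat.card_congr (Equiv.ofBijective Φ ⟨hinj, hsurj⟩)).symm

end Cfsg.Agent.S4093
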