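import Mathlib
import Cfsg.Statements.S4107
import Cfsg.Agent.Helper9.Fitting

set_option autoImplicit false
open Cfsg

namespace Cfsg.Agent.S4107

theorem eq_one_of_two_primes {G : Type*} [Group G] {p q a b : ℕ} (hp : p.Prime) (hq : q.Prime)
    (hpq : p ≠ q) {x : G} (h1 : x ^ p ^ a = 1) (h2 : x ^ q ^ b = 1) : x = 1 := by
  have d1 := orderOf_dvd_of_pow_eq_one h1
  have d2 := orderOf_dvd_of_pow_eq_one h2
  have hcop : Nat.Coprime (p ^ a) (q ^ b) :=
    Nat.Coprime.pow _ _ ((Nat.coprime_primes hp hq).2 hpq)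
  have h3 : orderOf x ∣ 1 := by
    have h4 := Nat.dvd_gcd d1 d2
    rwa [hcop.gcd_eq_one] at h4
  exact orderOf_eq_one_iff.1 (Nat.dvd_one.1 h3)

theorem key {G : Type*} [Group G] [Finite G] (N : Subgroup G) [N.Normal]
    (heq : ∀ x : G, x ∉ N → ∀ n ∈ N, orderOf (x * n) = orderOf x)
    (p : ℕ) (y : G) (hy : y ∈ Cfsg.pCore p G) (hyN : y ∉ N) :
    ∀ n ∈ N, ∃ k : ℕ, n ^ p ^ k = 1 := by
  have hR : IsPGroup p (Cfsg.pCore p G) := Helper9.pCore_isPGroup p
  obtain ⟨j, hj⟩ := hR ⟨y, hy⟩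
  have hyj : y ^ p ^ j = 1 := by
    have h0 := congrArg Subtype.val hj
    simpa using h0
  intro n hn
  have h1 : (y * n) ^ p ^ j = 1 := by
    have hd : orderOf (y * n) ∣ p ^ j := by
      rw [heq y hyN n hn]; exact orderOf_dvd_of_pow_eq_one hyj
    exact orderOf_dvd_iff_pow_eq_one.1 hd
  have h2 : n ^ p ^ j ∈ Cfsg.pCore p G := by
    rw [← QuotientGroup.eq_one_iff, QuotientGroup.mk_pow]
    have h3 : (QuotientGroup.mk (y * n) : G ⧸ Cfsg.pCore p G) = QuotientGroup.mk n := by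
      rw [QuotientGroup.mk_mul, (QuotientGroup.eq_one_iff y).2 hy, one_mul]
    rw [← h3, ← QuotientGroup.mk_pow, h1, QuotientGroup.mk_one]
  obtain ⟨i, hi⟩ := hR ⟨n ^ p ^ j, h2⟩
  have hi' : (n ^ p ^ j) ^ p ^ i = 1 := by
    have h0 := congrArg Subtype.val hi
    simpa using h0
  refine ⟨j + i, ?_⟩
  rw [pow_add, pow_mul]
  exact hi'

theorem exists_pCore_not_le {G : Type*} [Group G] [Finite G] (N : Subgroup G)
    (h : ¬ Cfsg.fittingSubgroup G ≤ N) : ∃ p : ℕ, p.Prime ∧ ∃ y ∈ Cfsg.pCore p G, y ∉ N := by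
  by_contra hcon
  apply h
  rw [Helper9.fitting_eq_iSup_pCore]
  apply iSup_le
  intro p y hy
  by_contra hyN
  exact hcon ⟨(p : ℕ), p.2, y, hy, hyN⟩

theorem result {G : Type*} [Group G] [Finite G] (N : Subgroup G) [N.Normal] (hN1 : N ≠ ⊥) (hN2 : N ≠ ⊤)
    (heq : ∀ x : G, x ∉ N → ∀ n ∈ N, orderOf (x * n) = orderOf x) :
    (N ≤ Cfsg.fittingSubgroup G ∨ Cfsg.fittingSubgroup G ≤ N) ∧
    (N < Cfsg.fittingSubgroup G → IsPrimePow (Nat.card (Cfsg.fittingSubgroup G))) := by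
  have hpN : ∀ p : ℕ, p.Prime → (∃ y ∈ Cfsg.pCore p G, y ∉ N) →
      N ≤ Cfsg.pCore p G ∧ IsPGroup p N := by
    rintro p hp ⟨y, hy, hyN⟩
    have hk := key N heq p y hy hyN
    have hNp : IsPGroup p N := by
      intro n
      obtain ⟨k, hk'⟩ := hk n n.2
      exact ⟨k, Subtype.ext (by simpa using hk')⟩
    exact ⟨Helper9.le_pCore inferInstance hNp, hNp⟩
  constructor
  · by_cases h : Cfsg.fittingSubgroup G ≤ N
    · right; exact h
    · left
      obtain ⟨p, hp, hex⟩ := exists_pCore_not_le N h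
      have : Fact p.Prime := ⟨hp⟩
      exact (hpN p hp hex).1.trans (Helper9.pCore_le_fitting p)
  · intro hlt
    have h : ¬ Cfsg.fittingSubgroup G ≤ N := not_le_of_gt hlt
    obtain ⟨p, hp, hex⟩ := exists_pCore_not_le N h
    have : Fact p.Prime := ⟨hp⟩
    obtain ⟨hNle, hNp⟩ := hpN p hp hex
    have hF : Cfsg.fittingSubgroup G ≤ Cfsg.pCore p G := by
      rw [Helper9.fitting_eq_iSup_pCore]
      apply iSup_le
      intro q
      by_cases hqp : (q : ℕ) = p
      · rw [hqp]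
      · have hqN : Cfsg.pCore (q : ℕ) G ≤ N := by
          by_contra hnot
          obtain ⟨y, hy, hyN⟩ := SetLike.not_le_iff_exists.1 hnot
          have hNq := (hpN (q : ℕ) q.2 ⟨y, hy, hyN⟩).2
          apply hN1
          rw [eq_bot_iff]
          intro n hn
          obtain ⟨a, ha⟩ := hNp ⟨n, hn⟩
          obtain ⟨b, hb⟩ := hNq ⟨n, hn⟩
          have ha' : n ^ p ^ a = 1 := by simpa using congrArg Subtype.val ha
          have hb' : n ^ (q : ℕ) ^ b = 1 := by simpa using congrArg Subtype.val hb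
          exact Subgroup.mem_bot.2 (eq_one_of_two_primes hp q.2 (fun h => hqp h.symm) ha' hb')
        intro z hz
        have hzN := hqN hz
        obtain ⟨a, ha⟩ := hNp ⟨z, hzN⟩
        obtain ⟨b, hb⟩ := (Helper9.pCore_isPGroup (G := G) (q : ℕ)) ⟨z, hz⟩
        have ha' : z ^ p ^ a = 1 := by simpa using congrArg Subtype.val ha
        have hb' : z ^ (q : ℕ) ^ b = 1 := by simpa using congrArg Subtype.val hb
        rw [eq_one_of_two_primes hp q.2 (fun h => hqp h.symm) ha' hb']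
        exact Subgroup.one_mem _
    have hFp : IsPGroup p (Cfsg.fittingSubgroup G) := (Helper9.pCore_isPGroup p).to_le hF
    obtain ⟨k, hk⟩ := IsPGroup.iff_card.1 hFp
    rw [hk, isPrimePow_nat_iff]
    refine ⟨p, k, hp, ?_, rfl⟩
    rcases Nat.eq_zero_or_pos k with hk0 | hkpos
    · exfalso
      rw [hk0, pow_zero] at hk
      have hFbot := Subgroup.eq_bot_of_card_eq _ hk
      rw [hFbot] at hlt
      exact not_lt_bot hlt
    · exact hkpos

end Cfsg.Agent.S4107
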