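import Mathlib
import Cfsg.Statements.S4108

set_option autoImplicit false
open Cfsg

namespace Cfsg.Agent.S4108

open scoped Pointwise

theorem mem_conj_smul {L : Type*} [Group L] {S : Subgroup L} {g x : L} :
    x ∈ MulAut.conj g • S ↔ g⁻¹ * x * g ∈ S := by
  rw [Subgroup.mem_pointwise_smul_iff_inv_smul_mem]
  simp [MulAut.smul_def]

theorem result {G : Type*} [Group G] [Finite G] (N : Subgroup G) [N.Normal] (hN1 : N ≠ ⊥) (hN2 : N ≠ ⊤)
    (heq : ∀ x : G, x ∉ N → ∀ n ∈ N, orderOf (x * n) = orderOf x)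
    (p : ℕ) [Fact p.Prime] (hNp : IsPGroup p N) :
    ∀ H : Subgroup G, H ≠ ⊥ → (Nat.card H).Coprime p →
      Cfsg.IsFrobeniusComplement (H.subgroupOf (N ⊔ H)) ∧ Cfsg.frobeniusKernel (H.subgroupOf (N ⊔ H)) = (N.subgroupOf (N ⊔ H) : Set ↥(N ⊔ H)) := by
  intro H hH1 hcop
  have hpowN : ∀ n ∈ N, ∃ k : ℕ, n ^ p ^ k = 1 := by
    intro n hn
    obtain ⟨k, hk⟩ := hNp ⟨n, hn⟩
    exact ⟨k, by simpa using congrArg Subtype.val hk⟩
  have hordH : ∀ h ∈ H, (orderOf h).Coprime p := by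
    intro h hh
    have h1 : orderOf h ∣ Nat.card H := by
      have h0 := orderOf_dvd_natCard (⟨h, hh⟩ : H)
      rwa [Subgroup.orderOf_mk] at h0
    exact Nat.Coprime.coprime_dvd_left h1 hcop
  have hdisj : ∀ x, x ∈ N → x ∈ H → x = 1 := by
    intro x hxN hxH
    obtain ⟨k, hk⟩ := hpowN x hxN
    have d1 : orderOf x ∣ p ^ k := orderOf_dvd_of_pow_eq_one hk
    have c : (orderOf x).Coprime (p ^ k) := Nat.Coprime.pow_right k (hordH x hxH)
    have h3 : orderOf x ∣ 1 := by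
      have h4 := Nat.dvd_gcd (dvd_refl (orderOf x)) d1
      rwa [c.gcd_eq_one] at h4
    exact orderOf_eq_one_iff.1 (Nat.dvd_one.1 h3)
  have hcent : ∀ h ∈ H, h ≠ 1 → ∀ n ∈ N, n * h = h * n → n = 1 := by
    intro h hh hh1 n hn hcomm
    have hhN : h ∉ N := fun hN' => hh1 (hdisj h hN' hh)
    have h1 := heq h hhN n hn
    obtain ⟨k, hk⟩ := hpowN n hn
    have d1 : orderOf n ∣ p ^ k := orderOf_dvd_of_pow_eq_one hk
    have c : (orderOf h).Coprime (orderOf n) :=
      Nat.Coprime.coprime_dvd_right d1 (Nat.Coprime.pow_right k (hordH h hh))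
    have hc : Commute h n := hcomm.symm
    rw [hc.orderOf_mul_eq_mul_orderOf_of_coprime c] at h1
    have hpos : 0 < orderOf h := orderOf_pos h
    have h5 : orderOf n = 1 := by
      have h2 : orderOf h * orderOf n = orderOf h * 1 := by rw [h1, mul_one]
      exact Nat.eq_of_mul_eq_mul_left hpos h2
    exact orderOf_eq_one_iff.1 h5
  have hdecomp : ∀ g ∈ N ⊔ H, ∃ n ∈ N, ∃ h ∈ H, g = n * h := by
    intro g hg
    have hg' : g ∈ ((N ⊔ H : Subgroup G) : Set G) := hg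
    rw [Subgroup.normal_mul] at hg'
    obtain ⟨n, hn, h, hh, rfl⟩ := Set.mem_mul.1 hg'
    exact ⟨n, hn, h, hh, rfl⟩
  have hconj : ∀ n ∈ N, ∀ h ∈ H, h ≠ 1 → ∃ m ∈ N, n * h = m * h * m⁻¹ := by
    intro n hn h hh hh1
    let φ : N → N := fun m => ⟨(m : G) * h * (m : G)⁻¹ * h⁻¹, by
      have h1 : h * (m : G)⁻¹ * h⁻¹ ∈ N :=
        Subgroup.Normal.conj_mem inferInstance _ (N.inv_mem m.2) h
      have e : (m : G) * h * (m : G)⁻¹ * h⁻¹ = (m : G) * (h * (m : G)⁻¹ * h⁻¹) := by group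
      rw [e]; exact N.mul_mem m.2 h1⟩
    have hinj : Function.Injective φ := by
      intro m m' hmm
      have h1 : (m : G) * h * (m : G)⁻¹ * h⁻¹ = (m' : G) * h * (m' : G)⁻¹ * h⁻¹ :=
        congrArg Subtype.val hmm
      have h2 : (m : G) * h * (m : G)⁻¹ = (m' : G) * h * (m' : G)⁻¹ := mul_right_cancel h1
      have h3 : ((m' : G)⁻¹ * m) * h = h * ((m' : G)⁻¹ * m) := by
        calc ((m' : G)⁻¹ * m) * h = (m' : G)⁻¹ * ((m : G) * h * (m : G)⁻¹) * m := by group
          _ = (m' : G)⁻¹ * ((m' : G) * h * (m' : G)⁻¹) * m := by rw [h2]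
          _ = h * ((m' : G)⁻¹ * m) := by group
      have h4 := hcent h hh hh1 _ (N.mul_mem (N.inv_mem m'.2) m.2) h3
      apply Subtype.ext
      calc (m : G) = (m' : G) * ((m' : G)⁻¹ * m) := by group
        _ = m' := by rw [h4, mul_one]
    have hsurj : Function.Surjective φ := Finite.surjective_of_injective hinj
    obtain ⟨m, hm⟩ := hsurj ⟨n, hn⟩
    refine ⟨m, m.2, ?_⟩
    have h1 : (m : G) * h * (m : G)⁻¹ * h⁻¹ = n := congrArg Subtype.val hm
    rw [← h1]; group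
  refine ⟨⟨?_, ?_, ?_⟩, ?_⟩
  · intro hbot
    apply hH1
    rw [eq_bot_iff]
    intro h hh
    have hmem : (⟨h, (le_sup_right : H ≤ N ⊔ H) hh⟩ : ↥(N ⊔ H)) ∈ H.subgroupOf (N ⊔ H) := by
      rw [Subgroup.mem_subgroupOf]; exact hh
    rw [hbot, Subgroup.mem_bot] at hmem
    exact Subgroup.mem_bot.2 (congrArg Subtype.val hmem)
  · intro htop
    apply hN1
    rw [eq_bot_iff]
    intro n hn
    have hmem : (⟨n, (le_sup_left : N ≤ N ⊔ H) hn⟩ : ↥(N ⊔ H)) ∈ H.subgroupOf (N ⊔ H) := by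
      rw [htop]; exact Subgroup.mem_top _
    rw [Subgroup.mem_subgroupOf] at hmem
    exact Subgroup.mem_bot.2 (hdisj n hn hmem)
  · intro g hg
    rw [eq_bot_iff]
    intro x hx
    obtain ⟨hx1, hx2⟩ := Subgroup.mem_inf.1 hx
    rw [Subgroup.mem_subgroupOf] at hx1
    rw [mem_conj_smul, Subgroup.mem_subgroupOf] at hx2
    have hx2' : (g : G)⁻¹ * (x : G) * (g : G) ∈ H := hx2
    obtain ⟨n, hn, h', hh', hgeq⟩ := hdecomp (g : G) g.2
    have hn1 : n ≠ 1 := by
      intro hn1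
      apply hg
      rw [Subgroup.mem_subgroupOf, hgeq, hn1, one_mul]; exact hh'
    obtain ⟨h₃, hh₃⟩ : ∃ h₃ : G, h₃ = h' * ((g : G)⁻¹ * (x : G) * (g : G)) * h'⁻¹ := ⟨_, rfl⟩
    have hh₃H : h₃ ∈ H := by
      rw [hh₃]; exact H.mul_mem (H.mul_mem hh' hx2') (H.inv_mem hh')
    have hxe : (x : G) = n * h₃ * n⁻¹ := by
      rw [hh₃, hgeq]; group
    have h5 : (x : G) * h₃⁻¹ ∈ N := by
      have h6 : h₃ * n⁻¹ * h₃⁻¹ ∈ N :=
        Subgroup.Normal.conj_mem inferInstance _ (N.inv_mem hn) h₃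
      have e : (x : G) * h₃⁻¹ = n * (h₃ * n⁻¹ * h₃⁻¹) := by rw [hxe]; group
      rw [e]; exact N.mul_mem hn h6
    have h7 : (x : G) * h₃⁻¹ = 1 := hdisj _ h5 (H.mul_mem hx1 (H.inv_mem hh₃H))
    have h8 : (x : G) = h₃ := by
      calc (x : G) = ((x : G) * h₃⁻¹) * h₃ := by group
        _ = h₃ := by rw [h7, one_mul]
    have h9 : n * h₃ = h₃ * n := by
      calc n * h₃ = (n * h₃ * n⁻¹) * n := by group
        _ = h₃ * n := by rw [← hxe, h8]
    have h10 : h₃ = 1 := by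
      by_contra hne
      exact hn1 (hcent h₃ hh₃H hne n hn h9)
    rw [Subgroup.mem_bot]
    apply Subtype.ext
    rw [h8, h10]; rfl
  · ext x
    constructor
    · rintro (hx | hx)
      · rw [hx]; exact Subgroup.one_mem _
      · show x ∈ N.subgroupOf (N ⊔ H)
        rw [Subgroup.mem_subgroupOf]
        obtain ⟨n, hn, h, hh, hxeq⟩ := hdecomp (x : G) x.2
        by_cases hh1 : h = 1
        · rw [hxeq, hh1, mul_one]; exact hn
        · exfalso
          obtain ⟨m, hm, hme⟩ := hconj n hn h hh hh1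
          apply hx ⟨m, (le_sup_left : N ≤ N ⊔ H) hm⟩
          rw [mem_conj_smul, Subgroup.mem_subgroupOf]
          show m⁻¹ * (x : G) * m ∈ H
          rw [hxeq, hme]
          have e : m⁻¹ * (m * h * m⁻¹) * m = h := by group
          rw [e]; exact hh
    · intro hx
      have hxN : (x : G) ∈ N := Subgroup.mem_subgroupOf.1 hx
      by_cases hx1 : x = 1
      · exact Or.inl hx1
      · refine Or.inr ?_
        intro g hxg
        rw [mem_conj_smul, Subgroup.mem_subgroupOf] at hxg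
        have hxg' : (g : G)⁻¹ * (x : G) * (g : G) ∈ H := hxg
        have h1 : (g : G)⁻¹ * (x : G) * (g : G) ∈ N := by
          have h0 := Subgroup.Normal.conj_mem (inferInstance : N.Normal) _ hxN (g : G)⁻¹
          simpa using h0
        have h2 := hdisj _ h1 hxg'
        apply hx1
        apply Subtype.ext
        have h3 : (x : G) = (g : G) * ((g : G)⁻¹ * (x : G) * (g : G)) * (g : G)⁻¹ := by group
        rw [h3, h2]; simp

end Cfsg.Agent.S4108
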