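import Mathlib
import Cfsg.Agent.Helper20.PCentral
import Cfsg.Agent.Helper21.Primary

set_option autoImplicit false
set_option linter.style.haveILetI false
open Cfsg

namespace Cfsg.Agent.S4112

universe u

theorem exists_supp : ∀ (n : ℕ) (G : Type u) [Group G] [Finite G] (N : Subgroup G) [N.Normal],
    Nat.card G = n →
    ∃ H : Subgroup G, H ⊔ N = ⊤ ∧ ∀ p : ℕ, p.Prime → p ∣ Nat.card H → p ∣ N.index := by
  intro n
  induction n using Nat.strong_induction_on with
  | _ n ih =>
    intro G _ _ N _ hn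
    by_cases hall : ∀ p : ℕ, p.Prime → p ∣ Nat.card G → p ∣ N.index
    · exact ⟨⊤, top_sup_eq _, fun p hp hd => hall p hp (by rwa [Subgroup.card_top] at hd)⟩
    · push Not at hall
      obtain ⟨p, hp, hpG, hpN⟩ := hall
      haveI : Fact p.Prime := ⟨hp⟩
      have key : ∃ G1 : Subgroup G, G1 ≠ ⊤ ∧ G1 ⊔ N = ⊤ := by
        have hpNc : p ∣ Nat.card N := by
          have h := Subgroup.card_mul_index N
          rw [← h] at hpG
          rcases (Nat.Prime.dvd_mul hp).mp hpG with h1 | h1
          · exact h1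
          · exact absurd h1 hpN
        obtain ⟨P⟩ : Nonempty (Sylow p N) := inferInstance
        have hfr := Sylow.normalizer_sup_eq_top P
        by_cases hnt : Subgroup.normalizer
            (((P : Subgroup N).map N.subtype : Subgroup G) : Set G) = ⊤
        · haveI hP'n : ((P : Subgroup N).map N.subtype).Normal :=
            Subgroup.normalizer_eq_top_iff.mp hnt
          have hcard : Nat.card ((P : Subgroup N).map N.subtype) = Nat.card (P : Subgroup N) :=
            Subgroup.card_map_of_injective (Subgroup.subtype_injective N)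
          have hidx : ((P : Subgroup N).map N.subtype).index =
              (P : Subgroup N).index * N.index := Subgroup.index_map_subtype _
          have hcop : Nat.Coprime (Nat.card ((P : Subgroup N).map N.subtype))
              ((P : Subgroup N).map N.subtype).index := by
            rw [hcard, hidx]
            obtain ⟨k, hk⟩ := IsPGroup.iff_card.mp P.2
            rw [hk]
            apply Nat.Coprime.pow_left
            rw [Nat.Prime.coprime_iff_not_dvd hp]
            intro h
            rcases (Nat.Prime.dvd_mul hp).mp h with h1 | h1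
            · exact P.not_dvd_index h1
            · exact hpN h1
          obtain ⟨Z, hZ⟩ := Subgroup.exists_right_complement'_of_coprime hcop
          refine ⟨Z, ?_, ?_⟩
          · intro hZt
            have h1 := hZ.card_mul_card
            rw [hZt, Subgroup.card_top, hcard] at h1
            have h2 : 1 < Nat.card (P : Subgroup N) :=
              lt_of_lt_of_le hp.one_lt (Nat.le_of_dvd Nat.card_pos (P.dvd_card_of_dvd_card hpNc))
            have h3 : 0 < Nat.card G := Nat.card_pos
            nlinarith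
          · have h1 := hZ.sup_eq_top
            have h2 : (P : Subgroup N).map N.subtype ≤ N := Subgroup.map_subtype_le _
            apply top_unique
            rw [← h1]
            exact sup_le (le_trans h2 le_sup_right) le_sup_left
        · exact ⟨_, hnt, hfr⟩
      obtain ⟨G1, hG1, hG1N⟩ := key
      have hlt : Nat.card G1 < n := by
        rw [← hn]
        exact lt_of_le_of_ne (Subgroup.card_le_card_group G1)
          (fun h => hG1 (Subgroup.eq_top_of_card_eq G1 h))
      obtain ⟨H1, hH1, hH1p⟩ := ih (Nat.card G1) hlt ↥G1 (N.subgroupOf G1) rfl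
      refine ⟨H1.map G1.subtype, ?_, ?_⟩
      · apply top_unique
        rw [← hG1N]
        apply sup_le _ le_sup_right
        have h1 : (H1 ⊔ N.subgroupOf G1).map G1.subtype = G1 := by
          rw [hH1, ← MonoidHom.range_eq_map, Subgroup.range_subtype]
        rw [Subgroup.map_sup, Subgroup.subgroupOf_map_subtype] at h1
        calc G1 = H1.map G1.subtype ⊔ N ⊓ G1 := h1.symm
          _ ≤ H1.map G1.subtype ⊔ N := sup_le_sup_left inf_le_left _
      · intro q hq hqd
        rw [Subgroup.card_map_of_injective (Subgroup.subtype_injective G1)] at hqd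
        have h2 := hH1p q hq hqd
        have h3 : (N.subgroupOf G1).index = N.index := by
          have h4 := Subgroup.relIndex_sup_right (H := G1) (K := N)
          rw [hG1N, Subgroup.relIndex_top_right] at h4
          exact h4.symm
        rwa [h3] at h2

theorem one_imp_two {G : Type*} [Group G] [Finite G] (N M : Subgroup G) [N.Normal] [M.Normal]
    (h1 : ∀ x ∈ M, x ≠ 1 → Subgroup.centralizer ({x} : Set G) ≤ N) :
    N.index.Coprime (Nat.card M) := by
  by_contra hnc
  obtain ⟨p, hp, hpN, hpM⟩ := Nat.Prime.not_coprime_iff_dvd.mp hnc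
  haveI : Fact p.Prime := ⟨hp⟩
  obtain ⟨m, hm⟩ := exists_prime_orderOf_dvd_card' (G := ↥M) p hpM
  have hpg : IsPGroup p (Subgroup.zpowers (m : G)) :=
    IsPGroup.of_card (n := 1) (by rw [Nat.card_zpowers, Subgroup.orderOf_coe, hm, pow_one])
  obtain ⟨P, hP⟩ := hpg.exists_le_sylow
  have hmP : (m : G) ∈ (P : Subgroup G) := hP (Subgroup.mem_zpowers _)
  have hPN : ¬ (P : Subgroup G) ≤ N := by
    intro h
    exact P.not_dvd_index (dvd_trans hpN (Subgroup.index_dvd_of_le h))
  obtain ⟨g, hgP, hgN⟩ := SetLike.not_le_iff_exists.mp hPN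
  have hne : M.subgroupOf (P : Subgroup G) ≠ ⊥ := by
    intro h
    have h2 : (⟨(m : G), hmP⟩ : ↥(P : Subgroup G)) ∈ M.subgroupOf (P : Subgroup G) :=
      Subgroup.mem_subgroupOf.mpr m.2
    rw [h, Subgroup.mem_bot] at h2
    have h3 : (m : G) = 1 := congrArg Subtype.val h2
    have h4 : orderOf (m : G) = 1 := by rw [h3, orderOf_one]
    rw [Subgroup.orderOf_coe, hm] at h4
    exact hp.one_lt.ne' h4
  obtain ⟨z, hzM, hz1, hzc⟩ :=
    Helper20.exists_central_mem_of_normal P.2 (M.subgroupOf (P : Subgroup G)) hne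
  have hzM' : (z : G) ∈ M := Subgroup.mem_subgroupOf.mp hzM
  have hz1' : (z : G) ≠ 1 := fun h => hz1 (Subtype.ext h)
  have hcomm : (⟨g, hgP⟩ : ↥(P : Subgroup G)) * z = z * ⟨g, hgP⟩ :=
    Subgroup.mem_center_iff.mp hzc ⟨g, hgP⟩
  have hcomm' : g * (z : G) = z * g := congrArg Subtype.val hcomm
  apply hgN
  apply h1 (z : G) hzM' hz1'
  rw [Subgroup.mem_centralizer_iff]
  intro w hw
  rw [Set.mem_singleton_iff] at hw
  rw [hw]; exact hcomm'.symm

theorem two_imp_one {G : Type*} [Group G] [Finite G] (N M : Subgroup G) [N.Normal] [M.Normal]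
    (hcam : ∀ g : G, g ∉ N → ∀ m ∈ M, ∃ x : G, x * g * x⁻¹ = g * m)
    (hcop : N.index.Coprime (Nat.card M)) :
    ∀ x ∈ M, x ≠ 1 → Subgroup.centralizer ({x} : Set G) ≤ N := by
  intro x hxM hx1 g hg
  by_contra hgN
  rw [Subgroup.mem_centralizer_iff] at hg
  have hxg : x * g = g * x := hg x rfl
  have hox : orderOf x ≠ 1 := fun h => hx1 (orderOf_eq_one_iff.mp h)
  obtain ⟨p, hp, hpx⟩ := Nat.exists_prime_and_dvd hox
  obtain ⟨x', hx'def⟩ : ∃ x', x' = x ^ (orderOf x / p) := ⟨_, rfl⟩
  have hx'ord : orderOf x' = p := by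
    rw [hx'def]; exact orderOf_pow_orderOf_div (orderOf_pos x).ne' hpx
  have hx'M : x' ∈ M := by rw [hx'def]; exact M.pow_mem hxM _
  have hpM : p ∣ Nat.card M := by
    have := orderOf_dvd_natCard (⟨x', hx'M⟩ : M)
    rwa [Subgroup.orderOf_mk, hx'ord] at this
  have hpN : ¬ p ∣ N.index := by
    intro h
    have h1 := Nat.dvd_gcd h hpM
    rw [hcop.gcd_eq_one] at h1
    exact hp.one_lt.ne' (Nat.dvd_one.mp h1)
  obtain ⟨e, m, hm, hem⟩ := Nat.exists_eq_pow_mul_and_not_dvd (orderOf_pos g).ne' p hp.ne_one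
  have hpe : 0 < p ^ e := pow_pos hp.pos e
  have hcop1 : Nat.Coprime (p ^ e) m :=
    Nat.Coprime.pow_left e ((Nat.Prime.coprime_iff_not_dvd hp).mpr hm)
  have hgm : g ^ m ∈ N := by
    apply Helper21.mem_of_pow_mem_of_coprime (m := p ^ e) (k := N.index)
    · exact Nat.Coprime.pow_left e ((Nat.Prime.coprime_iff_not_dvd hp).mpr hpN)
    · rw [← pow_mul, mul_comm, ← hem, pow_orderOf_eq_one]; exact N.one_mem
    · exact Subgroup.pow_index_mem N _
  obtain ⟨g', hg'def⟩ : ∃ g', g' = g ^ (p ^ e) := ⟨_, rfl⟩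
  have hg'N : g' ∉ N := by
    intro h
    rw [hg'def] at h
    exact hgN (Helper21.mem_of_pow_mem_of_coprime hcop1 h hgm)
  have hg'ord : orderOf g' = m := by
    rw [hg'def, orderOf_pow_of_dvd hpe.ne' (by rw [hem]; exact dvd_mul_right _ _), hem,
      Nat.mul_div_cancel_left _ hpe]
  have hcomm : Commute g' x' := by
    rw [hg'def, hx'def]
    exact ((show Commute g x from hxg.symm).pow_left _).pow_right _
  obtain ⟨c, hc⟩ := hcam g' hg'N x' hx'M
  have h1 : orderOf (g' * x') = orderOf g' := by
    rw [← hc]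
    exact (MulAut.conj c).orderOf_eq g'
  have h2 := hcomm.orderOf_mul_eq_mul_orderOf_of_coprime
    (by rw [hg'ord, hx'ord]; exact ((Nat.Prime.coprime_iff_not_dvd hp).mpr hm).symm)
  rw [h1, hg'ord, hx'ord] at h2
  have hmpos : 0 < m := by
    rcases Nat.eq_zero_or_pos m with h | h
    · rw [h, mul_zero] at hem; exact absurd hem (orderOf_pos g).ne'
    · exact h
  have h4 : p = 1 := by
    have h3 : m * 1 = m * p := by rw [mul_one]; exact h2
    exact (Nat.eq_of_mul_eq_mul_left hmpos h3).symm
  exact hp.ne_one h4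

/-- Let G be a finite group and M ≤ N non-trivial proper normal subgroups such that for every g outside N the conjugacy class of g is a union of cosets of M (equivalently gm is conjugate to g for every m ∈ M). Then (1) and (2) below are equivalent, and they imply (3): (1) every g outside N acts fixed-point-freely on M, that is C_G(x) ≤ N for every x ∈ M, x ≠ 1; (2) the index of N in G is coprime to the order of M; (3) there is a subgroup H of G with HN = G and H ∩ M = 1. -/
theorem result {G : Type*} [Group G] [Finite G] (N M : Subgroup G) [N.Normal] [M.Normal] (hMN : M ≤ N) (hM1 : M ≠ ⊥) (hN2 : N ≠ ⊤)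
    (hcam : ∀ g : G, g ∉ N → ∀ m ∈ M, ∃ x : G, x * g * x⁻¹ = g * m) :
    ((∀ x ∈ M, x ≠ 1 → Subgroup.centralizer ({x} : Set G) ≤ N) ↔ N.index.Coprime (Nat.card M)) ∧
    ((∀ x ∈ M, x ≠ 1 → Subgroup.centralizer ({x} : Set G) ≤ N) → ∃ H : Subgroup G, H ⊔ N = ⊤ ∧ H ⊓ M = ⊥) := by
  have h12 : (∀ x ∈ M, x ≠ 1 → Subgroup.centralizer ({x} : Set G) ≤ N) →
      N.index.Coprime (Nat.card M) := one_imp_two N M
  refine ⟨⟨h12, two_imp_one N M hcam⟩, fun h1 => ?_⟩
  have hcop := h12 h1
  obtain ⟨H, hHN, hHp⟩ := exists_supp (Nat.card G) G N rfl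
  refine ⟨H, hHN, ?_⟩
  rw [Subgroup.eq_bot_iff_card]
  by_contra hne
  obtain ⟨q, hq, hqd⟩ := Nat.exists_prime_and_dvd hne
  have h2 : q ∣ Nat.card H := dvd_trans hqd (Subgroup.card_dvd_of_le inf_le_left)
  have h3 : q ∣ Nat.card M := dvd_trans hqd (Subgroup.card_dvd_of_le inf_le_right)
  have h4 := hHp q hq h2
  have h5 := Nat.dvd_gcd h4 h3
  rw [hcop.gcd_eq_one] at h5
  exact hq.one_lt.ne' (Nat.dvd_one.mp h5)

end Cfsg.Agent.S4112
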