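import Cfsg.Statements.S4134
-- import your own Cfsg.Agent.* helpers here
import Cfsg.Agent.Helper9.Ito

set_option autoImplicit false
open Cfsg

namespace Cfsg.Agent.S4134

open Cfsg.Agent.Helper9

/-- Let G be a finite group whose conjugacy classes have exactly two sizes, 1 and n > 1. Then n is a power of a prime p and G is the direct product of a p-group and an abelian group of order prime to p: its Sylow p-subgroup P is normal with an abelian normal complement centralizing it; moreover P has an abelian normal subgroup A with P/A of exponent dividing p. -/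
theorem result {G : Type*} [Group G] [Finite G] (n : ℕ) (hn : 1 < n)
    (h : ∀ x : G, (Subgroup.centralizer ({x} : Set G)).index = 1 ∨ (Subgroup.centralizer ({x} : Set G)).index = n) (hex : ∃ x : G, (Subgroup.centralizer ({x} : Set G)).index = n) :
    ∃ (p : ℕ) (_ : Fact p.Prime) (a : ℕ), n = p ^ a ∧ ∀ P : Sylow p G, (P : Subgroup G).Normal ∧
      (∃ N : Subgroup G, N.Normal ∧ N.IsComplement' (P : Subgroup G) ∧ IsMulCommutative N ∧
        ∀ x ∈ N, ∀ y ∈ (P : Subgroup G), x * y = y * x) ∧
      ∃ A : Subgroup (P : Subgroup G), A.Normal ∧ IsMulCommutative A ∧ ∀ y : (P : Subgroup G), y ^ p ∈ A := by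
  have hT : ∀ x : G, x ∉ Subgroup.center G → (Subgroup.centralizer ({x} : Set G)).index = n := by
    intro x hx
    rcases h x with h1 | h1
    · exact absurd ((ito_idx_one9 x).mp h1) hx
    · exact h1
  obtain ⟨x1, hx1⟩ := hex
  have hx1Z : x1 ∉ Subgroup.center G := by
    intro hc
    have := (ito_idx_one9 x1).mpr hc
    omega
  obtain ⟨m, q, k, hq, hord, hx0⟩ := ito_primary9 hx1Z
  by_cases hbad : ∃ y : G, y ∉ Subgroup.center G ∧ ∃ r j : ℕ, r.Prime ∧ q ≠ r ∧ orderOf y = r ^ j
  · exfalso
    obtain ⟨y, hy, r, j, hr, hqr, hyo⟩ := hbad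
    exact ito_claimC9 hn hT (ito_claimB9 hT hq hr hqr hx0 hy hord hyo) hq hr hqr hx0 hy hord hyo
  · haveI : Fact q.Prime := ⟨hq⟩
    have hp1 : ∀ x : G, x ∉ Subgroup.center G → ∀ r k : ℕ, r.Prime → orderOf x = r ^ k → r = q := by
      intro x hx r k' hr hxo
      by_contra hne
      exact hbad ⟨x, hx, r, k', hr, fun e => hne e.symm, hxo⟩
    obtain ⟨⟨a, ha⟩, hall⟩ := ito_claimD9 hT q hp1 (x1 ^ m) hx0
    exact ⟨q, inferInstance, a, ha, hall⟩

end Cfsg.Agent.S4134
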