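import Cfsg.Statements.S4135
-- import your own Cfsg.Agent.* helpers here
import Cfsg.Agent.Helper9.Rel2

set_option autoImplicit false
open Cfsg

namespace Cfsg.Agent.S4135

open Cfsg.Agent.Helper9

/-- Let G be a finite group, r a prime and R a Sylow r-subgroup of G that is not central, N a normal subgroup of G containing R, and m a natural number such that every element of N has a conjugacy class in G of size 1 or m. Then N is nilpotent. -/
theorem result {G : Type*} [Group G] [Finite G] (r : ℕ) [Fact r.Prime]
    (R : Sylow r G) (hR : ¬ (R : Subgroup G) ≤ Subgroup.center G) (N : Subgroup G) [N.Normal] (hRN : (R : Subgroup G) ≤ N)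
    (m : ℕ) (h : ∀ x ∈ N, (Subgroup.centralizer ({x} : Set G)).index = 1 ∨ (Subgroup.centralizer ({x} : Set G)).index = m) : Group.IsNilpotent N := by
  exact rel_ito9 r R hR N hRN m h

end Cfsg.Agent.S4135
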