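import Mathlib
import Cfsg.Statements.S4142

set_option autoImplicit false
open Cfsg

namespace Cfsg.Agent.S4142

theorem key {G : Type*} [Group G] [Finite G] (N : Subgroup G) [N.Normal] (g : G) :
    (∀ n ∈ N, ∃ x : G, x * g * x⁻¹ = g * n) ↔
      Nat.card (Subgroup.centralizer ({g} : Set G)) =
        Nat.card (Subgroup.centralizer ({(QuotientGroup.mk g : G ⧸ N)} : Set (G ⧸ N))) := by
  classical
  set C : Subgroup G := Subgroup.centralizer ({g} : Set G) with hC
  set Cbar : Subgroup (G ⧸ N) :=
    Subgroup.centralizer ({(QuotientGroup.mk g : G ⧸ N)} : Set (G ⧸ N)) with hCbar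
  set T : Subgroup G := Cbar.comap (QuotientGroup.mk' N) with hT
  have hCT : C ≤ T := by
    intro x hx
    rw [hT, Subgroup.mem_comap, hCbar, Subgroup.mem_centralizer_singleton_iff]
    rw [hC, Subgroup.mem_centralizer_singleton_iff] at hx
    show (QuotientGroup.mk x : G ⧸ N) * QuotientGroup.mk g = QuotientGroup.mk g * QuotientGroup.mk x
    rw [← QuotientGroup.mk_mul, ← QuotientGroup.mk_mul, hx]
  have hmemT : ∀ x : G, x ∈ T ↔ g⁻¹ * (x * g * x⁻¹) ∈ N := by
    intro x
    rw [hT, Subgroup.mem_comap, hCbar, Subgroup.mem_centralizer_singleton_iff]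
    show (QuotientGroup.mk x : G ⧸ N) * QuotientGroup.mk g = QuotientGroup.mk g * QuotientGroup.mk x ↔ _
    rw [← QuotientGroup.mk_mul, ← QuotientGroup.mk_mul, eq_comm, QuotientGroup.eq]
    have e1 : (g * x)⁻¹ * (x * g) = x⁻¹ * (g⁻¹ * x * g) := by group
    have e2 : g⁻¹ * (x * g * x⁻¹) = (g⁻¹ * x * g) * x⁻¹ := by group
    rw [e1, e2]
    exact (inferInstance : N.Normal).mem_comm_iff
  have hcardT : Nat.card T = Nat.card N * Nat.card Cbar := by
    have h1 : T.index = Cbar.index :=
      Subgroup.index_comap_of_surjective Cbar (QuotientGroup.mk'_surjective N)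
    have h2 := Subgroup.card_mul_index T
    have h3 := Subgroup.card_mul_index Cbar
    have h4 := Subgroup.card_eq_card_quotient_mul_card_subgroup N
    have hpos : 0 < Cbar.index := Nat.pos_of_ne_zero Subgroup.index_ne_zero_of_finite
    rw [h1] at h2
    have : Nat.card T * Cbar.index = (Nat.card N * Nat.card Cbar) * Cbar.index := by
      rw [h2, h4, ← h3]; ring
    exact Nat.eq_of_mul_eq_mul_right hpos this
  let f : T → N := fun x => ⟨g⁻¹ * ((x : G) * g * (x : G)⁻¹), (hmemT x).1 x.2⟩
  have hf : ∀ x y : T, f x = f y ↔ x⁻¹ * y ∈ C.subgroupOf T := by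
    intro x y
    rw [Subgroup.mem_subgroupOf, hC, Subgroup.mem_centralizer_singleton_iff]
    simp only [f, Subtype.mk.injEq]
    constructor
    · intro h
      have h' : (x : G) * g * (x : G)⁻¹ = (y : G) * g * (y : G)⁻¹ := mul_left_cancel h
      show ((x : G)⁻¹ * (y : G)) * g = g * ((x : G)⁻¹ * (y : G))
      calc (x : G)⁻¹ * y * g = (x : G)⁻¹ * ((y : G) * g * (y : G)⁻¹) * y := by group
        _ = (x : G)⁻¹ * ((x : G) * g * (x : G)⁻¹) * y := by rw [h']
        _ = g * ((x : G)⁻¹ * y) := by group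
    · intro h
      have h' : ((x : G)⁻¹ * (y : G)) * g = g * ((x : G)⁻¹ * (y : G)) := h
      congr 1
      calc (x : G) * g * (x : G)⁻¹ = (x : G) * (g * ((x : G)⁻¹ * y)) * (y : G)⁻¹ := by group
        _ = (x : G) * ((x : G)⁻¹ * y * g) * (y : G)⁻¹ := by rw [h']
        _ = (y : G) * g * (y : G)⁻¹ := by group
  let F : T ⧸ C.subgroupOf T → N := Quotient.lift f (by
    intro a b hab
    rw [hf]
    exact QuotientGroup.leftRel_apply.1 hab)
  have hFinj : Function.Injective F := by
    intro a b
    induction a using QuotientGroup.induction_on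
    induction b using QuotientGroup.induction_on
    rename_i x y
    intro h
    exact QuotientGroup.eq.2 ((hf x y).1 h)
  have hcardT2 : Nat.card T = Nat.card (T ⧸ C.subgroupOf T) * Nat.card C := by
    rw [Subgroup.card_eq_card_quotient_mul_card_subgroup (C.subgroupOf T)]
    congr 1
    exact Nat.card_congr (Subgroup.subgroupOfEquivOfLe hCT).toEquiv
  have hCpos : 0 < Nat.card C := Nat.card_pos
  have hNpos : 0 < Nat.card N := Nat.card_pos
  constructor
  · intro hA
    have hFsurj : Function.Surjective F := by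
      intro n
      obtain ⟨x, hx⟩ := hA n n.2
      have hxT : x ∈ T := by
        rw [hmemT, hx]
        have : g⁻¹ * (g * (n : G)) = n := by group
        rw [this]; exact n.2
      refine ⟨QuotientGroup.mk ⟨x, hxT⟩, ?_⟩
      apply Subtype.ext
      show g⁻¹ * (x * g * x⁻¹) = n
      rw [hx]; group
    have hcard : Nat.card (T ⧸ C.subgroupOf T) = Nat.card N :=
      Nat.card_eq_of_bijective F ⟨hFinj, hFsurj⟩
    rw [hcard, hcardT] at hcardT2
    exact (Nat.eq_of_mul_eq_mul_left hNpos hcardT2).symm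
  · intro hEq n hn
    have hcard : Nat.card (T ⧸ C.subgroupOf T) = Nat.card N := by
      rw [hcardT, ← hEq] at hcardT2
      exact (Nat.eq_of_mul_eq_mul_right hCpos hcardT2).symm
    have hFsurj : Function.Surjective F :=
      (Function.Injective.bijective_of_nat_card_le hFinj hcard.ge).2
    obtain ⟨a, ha⟩ := hFsurj ⟨n, hn⟩
    induction a using QuotientGroup.induction_on
    rename_i x
    refine ⟨x, ?_⟩
    have : g⁻¹ * ((x : G) * g * (x : G)⁻¹) = n := congrArg Subtype.val ha
    rw [← this]; group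

theorem result {G : Type*} [Group G] [Finite G] (N : Subgroup G) [N.Normal] :
    (∀ g : G, g ∉ N → ∀ n ∈ N, ∃ x : G, x * g * x⁻¹ = g * n) ↔
      ∀ g : G, g ∉ N → Nat.card (Subgroup.centralizer ({g} : Set G)) =
        Nat.card (Subgroup.centralizer ({(QuotientGroup.mk g : G ⧸ N)} : Set (G ⧸ N))) := by
  constructor
  · intro h g hg
    exact (key N g).1 (h g hg)
  · intro h g hg
    exact (key N g).2 (h g hg)

end Cfsg.Agent.S4142
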