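import Mathlib
import Cfsg.Statements.S4153
import Cfsg.Agent.Helper12.Syl

set_option autoImplicit false
open Cfsg

namespace Cfsg.Agent.S4153

theorem result {G : Type*} [Group G] [Finite G] (p : ℕ) [Fact p.Prime] (N : Subgroup G) [N.Normal]
    (P : Sylow p G) (Pbar : Sylow p (G ⧸ N)) :
    Nat.card {g : (G ⧸ N) // ∃ k : ℕ, orderOf g = p ^ k} * Nat.card (P : Subgroup G) ≤ Nat.card {g : G // ∃ k : ℕ, orderOf g = p ^ k} * Nat.card (Pbar : Subgroup (G ⧸ N)) ∧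
    (N ≤ Subgroup.center G → Nat.card {g : (G ⧸ N) // ∃ k : ℕ, orderOf g = p ^ k} * Nat.card (P : Subgroup G) = Nat.card {g : G // ∃ k : ℕ, orderOf g = p ^ k} * Nat.card (Pbar : Subgroup (G ⧸ N))) := by
  classical
  have hp : p.Prime := Fact.out
  have hsurj : Function.Surjective (QuotientGroup.mk' N) := QuotientGroup.mk'_surjective N
  obtain ⟨d, hd⟩ : ∃ d, d = Nat.card ↥((P : Subgroup G) ⊓ N) := ⟨_, rfl⟩
  have hPd : Nat.card (P : Subgroup G) = d * Nat.card (Pbar : Subgroup (G ⧸ N)) := by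
    have h1 := Subgroup.relIndex_mul_relIndex (⊥ : Subgroup G) ((P : Subgroup G) ⊓ N)
      (P : Subgroup G) bot_le inf_le_left
    rw [Subgroup.relIndex_bot_left, Subgroup.relIndex_bot_left, Subgroup.inf_relIndex_left] at h1
    have h2 : N.relIndex (P : Subgroup G) =
        Nat.card ((P : Subgroup G).map (QuotientGroup.mk' N)) := by
      have h := Subgroup.relIndex_ker (K := (P : Subgroup G)) (QuotientGroup.mk' N)
      rw [QuotientGroup.ker_mk'] at h
      exact h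
    have h3 : Nat.card ((P : Subgroup G).map (QuotientGroup.mk' N)) =
        Nat.card (Pbar : Subgroup (G ⧸ N)) :=
      (Sylow.card_eq_multiplicity (P.mapSurjective hsurj)).trans
        (Sylow.card_eq_multiplicity Pbar).symm
    rw [← h1, h2, h3, hd]
  have pelmk : ∀ g : G, (∃ k : ℕ, orderOf g = p ^ k) →
      ∃ k : ℕ, orderOf (g : G ⧸ N) = p ^ k := by
    rintro g ⟨k, hk⟩
    have h1 : orderOf ((QuotientGroup.mk' N) g) ∣ orderOf g := orderOf_map_dvd _ g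
    rw [hk] at h1
    obtain ⟨j, -, hj⟩ := (Nat.dvd_prime_pow hp).mp h1
    exact ⟨j, hj⟩
  have : Fintype {y : G ⧸ N // ∃ k : ℕ, orderOf y = p ^ k} := Fintype.ofFinite _
  let e : {g : G // ∃ k : ℕ, orderOf g = p ^ k} ≃
      Σ y : {y : G ⧸ N // ∃ k : ℕ, orderOf y = p ^ k},
        {g : G // (∃ k : ℕ, orderOf g = p ^ k) ∧ (g : G ⧸ N) = y.1} :=
    { toFun := fun g => ⟨⟨(g.1 : G ⧸ N), pelmk g.1 g.2⟩, ⟨g.1, g.2, rfl⟩⟩
      invFun := fun s => ⟨s.2.1, s.2.2.1⟩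
      left_inv := fun g => rfl
      right_inv := by
        rintro ⟨⟨y, hy⟩, g, hg, hgy⟩
        dsimp only at hgy
        subst hgy
        rfl }
  have hsum : Nat.card {g : G // ∃ k : ℕ, orderOf g = p ^ k} =
      ∑ y : {y : G ⧸ N // ∃ k : ℕ, orderOf y = p ^ k},
        Nat.card {g : G // (∃ k : ℕ, orderOf g = p ^ k) ∧ (g : G ⧸ N) = y.1} := by
    rw [Nat.card_congr e, Nat.card_sigma]
  have hfib : ∀ y : {y : G ⧸ N // ∃ k : ℕ, orderOf y = p ^ k},
      d ≤ Nat.card {g : G // (∃ k : ℕ, orderOf g = p ^ k) ∧ (g : G ⧸ N) = y.1} ∧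
      (N ≤ Subgroup.center G →
        Nat.card {g : G // (∃ k : ℕ, orderOf g = p ^ k) ∧ (g : G ⧸ N) = y.1} = d) := by
    rintro ⟨y, ky, hky⟩
    show d ≤ Nat.card {g : G // (∃ k : ℕ, orderOf g = p ^ k) ∧ (g : G ⧸ N) = y} ∧
      (N ≤ Subgroup.center G →
        Nat.card {g : G // (∃ k : ℕ, orderOf g = p ^ k) ∧ (g : G ⧸ N) = y} = d)
    have hyk : y ^ p ^ ky = 1 := by rw [← hky]; exact pow_orderOf_eq_one y
    obtain ⟨hb, hhb⟩ := Cfsg.Agent.Helper12.exists_conj_mem_sylow (P.mapSurjective hsurj)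
      (Cfsg.Agent.Helper12.isPGroup_zpowers_of_pow_eq_one hyk)
    have h1 : hb * y * hb⁻¹ ∈ (P : Subgroup G).map (QuotientGroup.mk' N) :=
      hhb y (Subgroup.mem_zpowers y)
    obtain ⟨q0, hq0P, hq0⟩ := h1
    obtain ⟨h, rfl⟩ := hsurj hb
    have pelP : ∀ x : G, x ∈ (P : Subgroup G) → ∀ c : G,
        ∃ k : ℕ, orderOf (c⁻¹ * x * c) = p ^ k := by
      intro x hx c
      obtain ⟨k, hk⟩ := (IsPGroup.iff_orderOf.mp P.isPGroup') ⟨x, hx⟩
      refine ⟨k, ?_⟩
      have h1 := (MulAut.conj c⁻¹).orderOf_eq x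
      rw [MulAut.conj_apply, inv_inv] at h1
      rw [h1, ← hk, Subgroup.orderOf_mk]
    have hyeq : y = ((QuotientGroup.mk' N) h)⁻¹ * (QuotientGroup.mk' N) q0 *
        (QuotientGroup.mk' N) h := by
      rw [hq0]; group
    have hψ : ∀ m : G, m ∈ N → ((h⁻¹ * (q0 * m) * h : G) : G ⧸ N) = y := by
      intro m hm
      have hm1 : (QuotientGroup.mk' N) m = 1 := (QuotientGroup.eq_one_iff m).mpr hm
      have h2 : ((h⁻¹ * (q0 * m) * h : G) : G ⧸ N) = ((QuotientGroup.mk' N) h)⁻¹ *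
          ((QuotientGroup.mk' N) q0 * (QuotientGroup.mk' N) m) * (QuotientGroup.mk' N) h := by
        show (QuotientGroup.mk' N) (h⁻¹ * (q0 * m) * h) = _
        simp only [map_mul, map_inv]
      rw [h2, hm1, mul_one]
      exact hyeq.symm
    let ψ : ↥((P : Subgroup G) ⊓ N) →
        {g : G // (∃ k : ℕ, orderOf g = p ^ k) ∧ (g : G ⧸ N) = y} :=
      fun m => ⟨h⁻¹ * (q0 * m.1) * h,
        pelP _ (mul_mem hq0P (Subgroup.mem_inf.mp m.2).1) h, hψ m.1 (Subgroup.mem_inf.mp m.2).2⟩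
    have hψinj : Function.Injective ψ := by
      intro m m' hmm
      have h2 : h⁻¹ * (q0 * m.1) * h = h⁻¹ * (q0 * m'.1) * h := congrArg Subtype.val hmm
      apply Subtype.ext
      exact mul_left_cancel (mul_left_cancel (mul_right_cancel h2))
    refine ⟨by rw [hd]; exact Nat.card_le_card_of_injective ψ hψinj, fun hcen => ?_⟩
    have hψsurj : Function.Surjective ψ := by
      rintro ⟨g, ⟨kg, hkg⟩, hgy⟩
      have hmN : q0⁻¹ * (h * g * h⁻¹) ∈ N := by
        rw [← QuotientGroup.eq_one_iff]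
        have h2 : ((q0⁻¹ * (h * g * h⁻¹) : G) : G ⧸ N) = ((QuotientGroup.mk' N) q0)⁻¹ *
            ((QuotientGroup.mk' N) h * (g : G ⧸ N) * ((QuotientGroup.mk' N) h)⁻¹) := by
          show (QuotientGroup.mk' N) (q0⁻¹ * (h * g * h⁻¹)) = _
          simp only [map_mul, map_inv]
          rfl
        rw [h2, hgy, hq0]
        group
      have hmZ : q0⁻¹ * (h * g * h⁻¹) ∈ Subgroup.center G := hcen hmN
      obtain ⟨kq, hkq⟩ := P.isPGroup' ⟨q0, hq0P⟩
      have hq0k : q0 ^ p ^ kq = 1 := congrArg Subtype.val hkq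
      have hgk : g ^ p ^ kg = 1 := by rw [← hkg]; exact pow_orderOf_eq_one g
      have hcomm : Commute (q0⁻¹) (h * g * h⁻¹) := by
        have h3 := Subgroup.mem_center_iff.mp hmZ q0⁻¹
        exact mul_left_cancel (h3.trans (mul_assoc _ _ _))
      have e1 : (q0⁻¹) ^ p ^ (kq + kg) = 1 := by
        rw [inv_pow, pow_add, pow_mul, hq0k, one_pow, inv_one]
      have e2 : (h * g * h⁻¹) ^ p ^ (kq + kg) = 1 := by
        rw [conj_pow, add_comm, pow_add, pow_mul, hgk, one_pow, mul_one, mul_inv_cancel]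
      have hmpow : (q0⁻¹ * (h * g * h⁻¹)) ^ p ^ (kq + kg) = 1 := by
        rw [hcomm.mul_pow, e1, e2, one_mul]
      have hmP : q0⁻¹ * (h * g * h⁻¹) ∈ (P : Subgroup G) := by
        obtain ⟨c, hc⟩ := Cfsg.Agent.Helper12.exists_conj_mem_sylow P
          (Cfsg.Agent.Helper12.isPGroup_zpowers_of_pow_eq_one hmpow)
        have h5 := hc _ (Subgroup.mem_zpowers _)
        have h6 : c * (q0⁻¹ * (h * g * h⁻¹)) * c⁻¹ = q0⁻¹ * (h * g * h⁻¹) := by
          rw [Subgroup.mem_center_iff.mp hmZ c]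
          group
        rw [h6] at h5
        exact h5
      refine ⟨⟨q0⁻¹ * (h * g * h⁻¹), Subgroup.mem_inf.mpr ⟨hmP, hmN⟩⟩, ?_⟩
      apply Subtype.ext
      show h⁻¹ * (q0 * (q0⁻¹ * (h * g * h⁻¹))) * h = g
      group
    rw [hd]
    exact (Nat.card_congr (Equiv.ofBijective ψ ⟨hψinj, hψsurj⟩)).symm
  have hS : ∑ _y : {y : G ⧸ N // ∃ k : ℕ, orderOf y = p ^ k}, d =
      Nat.card {y : G ⧸ N // ∃ k : ℕ, orderOf y = p ^ k} * d := by
    rw [Finset.sum_const, Finset.card_univ, smul_eq_mul, Nat.card_eq_fintype_card]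
  constructor
  · rw [hPd, hsum]
    have h1 : Nat.card {y : G ⧸ N // ∃ k : ℕ, orderOf y = p ^ k} * d ≤
        ∑ y : {y : G ⧸ N // ∃ k : ℕ, orderOf y = p ^ k},
          Nat.card {g : G // (∃ k : ℕ, orderOf g = p ^ k) ∧ (g : G ⧸ N) = y.1} := by
      rw [← hS]
      exact Finset.sum_le_sum (fun y _ => (hfib y).1)
    have h2 := Nat.mul_le_mul_right (Nat.card (Pbar : Subgroup (G ⧸ N))) h1
    rw [← mul_assoc]
    exact h2
  · intro hcen
    rw [hPd, hsum]
    have h1 : ∑ y : {y : G ⧸ N // ∃ k : ℕ, orderOf y = p ^ k},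
          Nat.card {g : G // (∃ k : ℕ, orderOf g = p ^ k) ∧ (g : G ⧸ N) = y.1} =
        Nat.card {y : G ⧸ N // ∃ k : ℕ, orderOf y = p ^ k} * d := by
      rw [← hS]
      exact Finset.sum_congr rfl (fun y _ => (hfib y).2 hcen)
    rw [h1, mul_assoc]

end Cfsg.Agent.S4153
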