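import Mathlib
import Cfsg.Statements.S4154

set_option autoImplicit false
open Cfsg

namespace Cfsg.Agent.S4154

/-- the fixed point subgroup of an automorphism -/
def fixedSub {Q : Type*} [Group Q] (β : MulAut Q) : Subgroup Q where
  carrier := {c | β c = c}
  mul_mem' := by
    intro a b ha hb
    simp only [Set.mem_ofPred_eq] at ha hb ⊢
    rw [map_mul, ha, hb]
  one_mem' := by simp
  inv_mem' := by
    intro a ha
    simp only [Set.mem_ofPred_eq] at ha ⊢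
    rw [map_inv, ha]

theorem mem_fixedSub {Q : Type*} [Group Q] (β : MulAut Q) (c : Q) : c ∈ fixedSub β ↔ β c = c :=
  Iff.rfl

theorem uniq {Q : Type*} [Group Q] [Finite Q] (β : MulAut Q)
    (hccp : ∀ x : Q, ∃ c g : Q, β c = c ∧ x = c * (g⁻¹ * β g))
    (g : Q) (hg : β (g⁻¹ * β g) = g⁻¹ * β g) : g⁻¹ * β g = 1 := by
  classical
  let C := fixedSub β
  let I : Set Q := Set.range (fun g : Q => g⁻¹ * β g)
  let f : C × I → Q := fun p => (p.1 : Q) * (p.2 : Q)
  have hsurj : Function.Surjective f := by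
    intro x
    obtain ⟨c, g, hc, hx⟩ := hccp x
    exact ⟨(⟨c, hc⟩, ⟨g⁻¹ * β g, ⟨g, rfl⟩⟩), hx.symm⟩
  let ψ : Q ⧸ C → I := fun q =>
    Quotient.liftOn' q (fun g : Q => (⟨(g⁻¹)⁻¹ * β g⁻¹, ⟨g⁻¹, rfl⟩⟩ : I)) (by
      intro a b hab
      rw [QuotientGroup.leftRel_apply] at hab
      apply Subtype.ext
      have hfix : β (a⁻¹ * b) = a⁻¹ * b := hab
      show (a⁻¹)⁻¹ * β a⁻¹ = (b⁻¹)⁻¹ * β b⁻¹
      have hβb : β b = β a * (a⁻¹ * b) := by
        rw [← hfix, map_mul, map_inv]; group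
      rw [map_inv, map_inv, hβb]
      group)
  have hψ : Function.Surjective ψ := by
    rintro ⟨_, ⟨g, rfl⟩⟩
    refine ⟨QuotientGroup.mk g⁻¹, ?_⟩
    apply Subtype.ext
    show ((g⁻¹)⁻¹)⁻¹ * β (g⁻¹)⁻¹ = g⁻¹ * β g
    simp
  have hcard : Nat.card (C × I) ≤ Nat.card Q := by
    rw [Nat.card_prod, ← Subgroup.card_mul_index C]
    apply Nat.mul_le_mul_left
    rw [Subgroup.index]
    exact Nat.card_le_card_of_surjective ψ hψ
  have hbij := hsurj.bijective_of_nat_card_le hcard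
  have h1 : (1 : Q) ∈ I := ⟨1, by simp⟩
  have hi : g⁻¹ * β g ∈ I := ⟨g, rfl⟩
  have hiC : g⁻¹ * β g ∈ C := hg
  have heq : f (⟨g⁻¹ * β g, hiC⟩, ⟨1, h1⟩) = f (⟨1, C.one_mem⟩, ⟨g⁻¹ * β g, hi⟩) := by
    simp [f]
  have := hbij.1 heq
  have := congrArg (fun p : C × I => (p.1 : Q)) this
  exact this

theorem result {G : Type*} [Group G] [Finite G] (α : MulAut G)
    (hccp : ∀ x : G, ∃ c g : G, α c = c ∧ x = c * (g⁻¹ * α g))
    (N : Subgroup G) [N.Normal] (hN : ∀ n ∈ N, α n ∈ N) :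
    (∀ x : G, ∃ c g : G, c⁻¹ * α c ∈ N ∧ x⁻¹ * (c * (g⁻¹ * α g)) ∈ N) ∧
    (∀ x : G, x⁻¹ * α x ∈ N → ∃ c : G, α c = c ∧ c⁻¹ * x ∈ N) := by
  constructor
  · intro x
    obtain ⟨c, g, hc, hx⟩ := hccp x
    refine ⟨c, g, ?_, ?_⟩
    · rw [hc]; simp
    · rw [← hx]; simp
  · intro x hx
    have hmap : N.map (α : G →* G) = N := by
      apply Subgroup.eq_of_le_of_card_ge
      · rintro _ ⟨n, hn, rfl⟩
        exact hN n hn
      · rw [Subgroup.card_map_of_injective (MulEquiv.injective α)]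
    let β : MulAut (G ⧸ N) := QuotientGroup.congr N N α hmap
    have hβ : ∀ y : G, β (QuotientGroup.mk y) = QuotientGroup.mk (α y) := fun y => rfl
    have hccp' : ∀ x : G ⧸ N, ∃ c g : G ⧸ N, β c = c ∧ x = c * (g⁻¹ * β g) := by
      intro x
      induction x using QuotientGroup.induction_on with
      | H y =>
        obtain ⟨c, g, hc, hy⟩ := hccp y
        refine ⟨QuotientGroup.mk c, QuotientGroup.mk g, ?_, ?_⟩
        · rw [hβ, hc]
        · rw [hβ, hy]; rfl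
    obtain ⟨c, g, hc, hxc⟩ := hccp x
    refine ⟨c, hc, ?_⟩
    have hi : c⁻¹ * x = g⁻¹ * α g := by rw [hxc]; group
    rw [hi]
    have hfix : β ((QuotientGroup.mk g : G ⧸ N)⁻¹ * β (QuotientGroup.mk g)) =
        (QuotientGroup.mk g : G ⧸ N)⁻¹ * β (QuotientGroup.mk g) := by
      rw [hβ]
      have e : (QuotientGroup.mk g : G ⧸ N)⁻¹ * QuotientGroup.mk (α g) =
          QuotientGroup.mk (g⁻¹ * α g) := rfl
      rw [e, hβ]
      symm
      rw [QuotientGroup.eq]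
      have : (g⁻¹ * α g)⁻¹ * α (g⁻¹ * α g) = x⁻¹ * α x := by
        rw [← hi]
        simp only [map_mul, map_inv, hc]
        group
      rw [this]; exact hx
    have := uniq β hccp' (QuotientGroup.mk g) hfix
    rw [hβ] at this
    have e : (QuotientGroup.mk g : G ⧸ N)⁻¹ * QuotientGroup.mk (α g) =
        QuotientGroup.mk (g⁻¹ * α g) := rfl
    rw [e, QuotientGroup.eq_one_iff] at this
    exact this

end Cfsg.Agent.S4154
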