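import Cfsg.Statements.S4156
-- import your own Cfsg.Agent.* helpers here

set_option autoImplicit false
open Cfsg

namespace Cfsg.Agent.S4156

/-- The sum functional. -/
noncomputable def pSum (n : ℕ) (F : Type*) [Field F] : (Fin (n + 1) → F) →ₗ[F] F where
  toFun f := ∑ i, f i
  map_add' f g := by simp [Finset.sum_add_distrib]
  map_smul' c f := by simp [Finset.mul_sum]

/-- The sum-zero submodule. -/
noncomputable def pV (n : ℕ) (F : Type*) [Field F] : Submodule F (Fin (n + 1) → F) :=
  LinearMap.ker (pSum n F)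

theorem mem_pV (n : ℕ) (F : Type*) [Field F] (f : Fin (n + 1) → F) :
    f ∈ pV n F ↔ ∑ i, f i = 0 := by
  unfold pV
  rw [LinearMap.mem_ker]
  rfl

theorem pV_finrank (n : ℕ) (F : Type*) [Field F] : Module.finrank F (pV n F) = n := by
  have h := LinearMap.finrank_range_add_finrank_ker (pSum n F)
  have hr : LinearMap.range (pSum n F) = ⊤ := by
    rw [LinearMap.range_eq_top]
    intro c
    refine ⟨Pi.single 0 c, ?_⟩
    show ∑ i, (Pi.single 0 c : Fin (n + 1) → F) i = c
    simp
  rw [hr, finrank_top, Module.finrank_self, Module.finrank_fin_fun] at h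
  show Module.finrank F (LinearMap.ker (pSum n F)) = n
  omega

/-- A permutation acting on the sum-zero submodule. -/
noncomputable def pAct (n : ℕ) (F : Type*) [Field F] (σ : Equiv.Perm (Fin (n + 1))) :
    pV n F →ₗ[F] pV n F where
  toFun f := ⟨fun i => f.1 (σ⁻¹ i), by
    rw [mem_pV]
    exact (Equiv.sum_comp σ⁻¹ f.1).trans ((mem_pV n F _).1 f.2)⟩
  map_add' f g := by
    apply Subtype.ext
    funext i
    rfl
  map_smul' c f := by
    apply Subtype.ext
    funext i
    rfl

theorem pAct_apply (n : ℕ) (F : Type*) [Field F] (σ : Equiv.Perm (Fin (n + 1)))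
    (f : pV n F) (i : Fin (n + 1)) : (pAct n F σ f).1 i = f.1 (σ⁻¹ i) := rfl

noncomputable def pRho (n : ℕ) (F : Type*) [Field F] :
    Equiv.Perm (Fin (n + 1)) →* Module.End F (pV n F) where
  toFun σ := pAct n F σ
  map_one' := by
    apply LinearMap.ext
    intro f
    apply Subtype.ext
    funext i
    rw [pAct_apply]
    simp
  map_mul' σ τ := by
    apply LinearMap.ext
    intro f
    apply Subtype.ext
    funext i
    rw [pAct_apply]
    show f.1 ((σ * τ)⁻¹ i) = (pAct n F σ (pAct n F τ f)).1 i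
    rw [pAct_apply, pAct_apply, mul_inv_rev]
    rfl

theorem pRho_apply (n : ℕ) (F : Type*) [Field F] (σ : Equiv.Perm (Fin (n + 1)))
    (f : pV n F) (i : Fin (n + 1)) : (pRho n F σ f).1 i = f.1 (σ⁻¹ i) := rfl

theorem pRho_inj (n : ℕ) (hn : 2 ≤ n) (F : Type*) [Field F] :
    Function.Injective (pRho n F) := by
  intro σ τ h
  by_contra hne
  have hne' : σ⁻¹ ≠ τ⁻¹ := fun h' => hne (inv_injective h')
  obtain ⟨j, hj⟩ : ∃ j, σ⁻¹ j ≠ τ⁻¹ j := by
    by_contra hall
    push_neg at hall
    exact hne' (Equiv.ext hall)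
  obtain ⟨a, ha⟩ : ∃ a, a = σ⁻¹ j := ⟨_, rfl⟩
  obtain ⟨c, hc⟩ : ∃ c, c = τ⁻¹ j := ⟨_, rfl⟩
  rw [← ha, ← hc] at hj
  obtain ⟨k, hka, hkc⟩ : ∃ k : Fin (n + 1), k ≠ a ∧ k ≠ c := by
    have hcard : (({a, c} : Finset (Fin (n + 1)))ᶜ).card
        = (n + 1) - ({a, c} : Finset (Fin (n + 1))).card := by
      rw [Finset.card_compl, Fintype.card_fin]
    have h2 : ({a, c} : Finset (Fin (n + 1))).card ≤ 2 := Finset.card_le_two
    have hpos : 0 < (({a, c} : Finset (Fin (n + 1)))ᶜ).card := by omega
    obtain ⟨k, hk⟩ := Finset.card_pos.1 hpos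
    rw [Finset.mem_compl, Finset.mem_insert, Finset.mem_singleton] at hk
    exact ⟨k, fun h => hk (Or.inl h), fun h => hk (Or.inr h)⟩
  have hmem : (Pi.single a 1 - Pi.single k 1 : Fin (n + 1) → F) ∈ pV n F := by
    rw [mem_pV]
    simp [Finset.sum_sub_distrib]
  have h1 : (pRho n F σ ⟨_, hmem⟩).1 j = (pRho n F τ ⟨_, hmem⟩).1 j := by rw [h]
  rw [pRho_apply, pRho_apply, ← ha, ← hc] at h1
  have h2 : (Pi.single a 1 - Pi.single k 1 : Fin (n + 1) → F) a = 1 := by
    simp [Pi.single_apply, hka.symm]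
  have h3 : (Pi.single a 1 - Pi.single k 1 : Fin (n + 1) → F) c = 0 := by
    simp [Pi.single_apply, hj.symm, hkc.symm]
  have h4 : (1 : F) = 0 := by
    rw [← h2, ← h3]
    exact h1
  exact one_ne_zero h4

noncomputable def pMat (n : ℕ) (F : Type*) [Field F] :
    Equiv.Perm (Fin (n + 1)) →* Matrix (Fin n) (Fin n) F :=
  (MonoidHomClass.toMonoidHom (LinearMap.toMatrixAlgEquiv
    (Module.finBasisOfFinrankEq F (pV n F) (pV_finrank n F)))).comp (pRho n F)

theorem pMat_inj (n : ℕ) (hn : 2 ≤ n) (F : Type*) [Field F] :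
    Function.Injective (pMat n F) := by
  intro σ τ h
  apply pRho_inj n hn F
  exact (LinearMap.toMatrixAlgEquiv
    (Module.finBasisOfFinrankEq F (pV n F) (pV_finrank n F))).injective h

theorem alt_not_comm (n : ℕ) (hn : 5 ≤ n) :
    ¬ ∀ a b : alternatingGroup (Fin (n + 1)), a * b = b * a := by
  intro hc
  haveI : IsSimpleGroup (alternatingGroup (Fin (n + 1))) :=
    alternatingGroup.isSimpleGroup (by simp; omega)
  haveI : Nontrivial (Fin (n + 1)) := Fin.nontrivial_iff_two_le.2 (by omega)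
  have hp : (Nat.card (alternatingGroup (Fin (n + 1)))).Prime :=
    @IsSimpleGroup.prime_card _
      { (inferInstance : Group (alternatingGroup (Fin (n + 1)))) with mul_comm := hc } ‹_›
  have h2 : 2 * Nat.card (alternatingGroup (Fin (n + 1))) = (n + 1).factorial := by
    rw [two_mul_nat_card_alternatingGroup, Nat.card_perm, Nat.card_eq_fintype_card,
      Fintype.card_fin]
  have h6 : Nat.factorial 6 ∣ (n + 1).factorial := Nat.factorial_dvd_factorial (by omega)
  have h720 : Nat.factorial 6 = 720 := by decide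
  rw [h720] at h6
  obtain ⟨t, ht⟩ := h6
  have hcard : Nat.card (alternatingGroup (Fin (n + 1))) = 360 * t := by omega
  have hdvd : 2 ∣ Nat.card (alternatingGroup (Fin (n + 1))) := by
    rw [hcard]
    exact Dvd.dvd.mul_right (by norm_num) t
  rcases (Nat.dvd_prime hp).1 hdvd with h | h
  · omega
  · omega

theorem pMat_det (n : ℕ) (hn : 5 ≤ n) (F : Type*) [Field F]
    (g : alternatingGroup (Fin (n + 1))) : (pMat n F g.1).det = 1 := by
  haveI : IsSimpleGroup (alternatingGroup (Fin (n + 1))) :=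
    alternatingGroup.isSimpleGroup (by simp; omega)
  obtain ⟨d, hd⟩ : ∃ d : alternatingGroup (Fin (n + 1)) →* Fˣ,
      ∀ g, ((d g : Fˣ) : F) = (pMat n F g.1).det :=
    ⟨((Matrix.detMonoidHom.comp (pMat n F)).comp
      (alternatingGroup (Fin (n + 1))).subtype).toHomUnits,
      fun g => MonoidHom.coe_toHomUnits _ _⟩
  rcases IsSimpleGroup.eq_bot_or_eq_top_of_normal d.ker (MonoidHom.normal_ker d) with h | h
  · exfalso
    apply alt_not_comm n hn
    intro a b
    apply (MonoidHom.ker_eq_bot_iff d).1 h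
    rw [map_mul, map_mul, mul_comm]
  · have hg : g ∈ d.ker := h ▸ Subgroup.mem_top g
    have h1 : d g = 1 := MonoidHom.mem_ker.1 hg
    rw [← hd g, h1]
    rfl

noncomputable def pSL (n : ℕ) (hn : 5 ≤ n) (F : Type*) [Field F] :
    alternatingGroup (Fin (n + 1)) →* Matrix.SpecialLinearGroup (Fin n) F where
  toFun g := ⟨pMat n F g.1, pMat_det n hn F g⟩
  map_one' := by
    apply Subtype.ext
    show pMat n F 1 = 1
    exact map_one _
  map_mul' a b := by
    apply Subtype.ext
    show pMat n F (a.1 * b.1) = pMat n F a.1 * pMat n F b.1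
    exact map_mul _ _ _

theorem pSL_inj (n : ℕ) (hn : 5 ≤ n) (F : Type*) [Field F] :
    Function.Injective (pSL n hn F) := by
  intro a b h
  have h1 : pMat n F a.1 = pMat n F b.1 := congrArg Subtype.val h
  exact Subtype.ext (pMat_inj n (by omega) F h1)

/-- Let n ≥ 5 and F a finite field. Then the projective special linear group PSL_n(F) contains a subgroup isomorphic to the alternating group of degree n + 1. -/
theorem result (n : ℕ) (hn : 5 ≤ n) (F : Type*) [Field F] [Finite F] :
    ∃ f : alternatingGroup (Fin (n + 1)) →* Matrix.ProjectiveSpecialLinearGroup (Fin n) F, Function.Injective f := by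
  haveI : IsSimpleGroup (alternatingGroup (Fin (n + 1))) :=
    alternatingGroup.isSimpleGroup (by simp; omega)
  obtain ⟨t, htinj⟩ : ∃ t : alternatingGroup (Fin (n + 1)) →*
      Matrix.SpecialLinearGroup (Fin n) F, Function.Injective t :=
    ⟨pSL n hn F, pSL_inj n hn F⟩
  obtain ⟨f, hf⟩ : ∃ f : alternatingGroup (Fin (n + 1)) →*
      Matrix.ProjectiveSpecialLinearGroup (Fin n) F,
      ∀ g, f g = ((t g : Matrix.SpecialLinearGroup (Fin n) F) :
        Matrix.SpecialLinearGroup (Fin n) F ⧸
          Subgroup.center (Matrix.SpecialLinearGroup (Fin n) F)) :=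
    ⟨(QuotientGroup.mk' _).comp t, fun g => rfl⟩
  refine ⟨f, ?_⟩
  rcases IsSimpleGroup.eq_bot_or_eq_top_of_normal f.ker (MonoidHom.normal_ker f) with h | h
  · exact (MonoidHom.ker_eq_bot_iff f).1 h
  · exfalso
    apply alt_not_comm n hn
    intro a b
    apply htinj
    rw [map_mul, map_mul]
    have hb : b ∈ f.ker := h ▸ Subgroup.mem_top b
    have hb' : t b ∈ Subgroup.center (Matrix.SpecialLinearGroup (Fin n) F) := by
      have h1 := MonoidHom.mem_ker.1 hb
      rw [hf b] at h1
      exact (QuotientGroup.eq_one_iff _).1 h1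
    exact (Subgroup.mem_center_iff.1 hb' (t a))

end Cfsg.Agent.S4156
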