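import Mathlib
import Cfsg.Statements.S4160
import Cfsg.Agent.Lead.Transfer
import Cfsg.Agent.Helper12.Syl
import Cfsg.Agent.Helper21.Primary

set_option autoImplicit false
open Cfsg

namespace Cfsg.Agent.S4160

theorem card_conj_le {G : Type*} [Group G] [Finite G] (C N : Subgroup G)
    (hN : ∀ n ∈ N, ∀ c ∈ C, n * c * n⁻¹ ∈ C) :
    Set.ncard {x : G | x ≠ 1 ∧ ∃ g : G, ∃ c ∈ C, x = g * c * g⁻¹} + N.index ≤
      N.index * Nat.card C := by
  classical
  obtain ⟨f, hf⟩ : ∃ f : (G ⧸ N) × {c : C // c ≠ 1} → G,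
      ∀ qc, f qc = qc.1.out * (qc.2.1 : G) * (qc.1.out)⁻¹ := ⟨_, fun _ => rfl⟩
  have hsub : {x : G | x ≠ 1 ∧ ∃ g : G, ∃ c ∈ C, x = g * c * g⁻¹} ⊆ Set.range f := by
    rintro x ⟨hx1, g, c, hc, rfl⟩
    have hn : (QuotientGroup.mk g : G ⧸ N).out⁻¹ * g ∈ N := by
      rw [← QuotientGroup.eq]
      exact QuotientGroup.out_eq' _
    obtain ⟨n, hn'⟩ : ∃ n, n = (QuotientGroup.mk g : G ⧸ N).out⁻¹ * g := ⟨_, rfl⟩
    rw [← hn'] at hn
    have hc' : n * c * n⁻¹ ∈ C := hN n hn c hc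
    have hne : (⟨n * c * n⁻¹, hc'⟩ : C) ≠ 1 := by
      intro h0
      have h1 : n * c * n⁻¹ = 1 := congrArg Subtype.val h0
      apply hx1
      have h2 : c = 1 := by
        have e : c = n⁻¹ * (n * c * n⁻¹) * n := by group
        rw [e, h1]; group
      rw [h2]; group
    refine ⟨(QuotientGroup.mk g, ⟨⟨n * c * n⁻¹, hc'⟩, hne⟩), ?_⟩
    rw [hf]
    show (QuotientGroup.mk g : G ⧸ N).out * (n * c * n⁻¹) *
      ((QuotientGroup.mk g : G ⧸ N).out)⁻¹ = g * c * g⁻¹
    rw [hn']; group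
  have h1 : Set.ncard {x : G | x ≠ 1 ∧ ∃ g : G, ∃ c ∈ C, x = g * c * g⁻¹} ≤
      Nat.card ((G ⧸ N) × {c : C // c ≠ 1}) := by
    calc _ ≤ Set.ncard (Set.range f) := Set.ncard_le_ncard hsub (Set.toFinite _)
      _ = Nat.card (Set.range f) := (Nat.card_coe_set_eq _).symm
      _ ≤ Nat.card ((G ⧸ N) × {c : C // c ≠ 1}) := Finite.card_range_le f
  have h2 : Nat.card {c : C // c ≠ 1} + 1 = Nat.card C := by
    rw [← Finite.card_option, Nat.card_congr (Equiv.optionSubtypeNe (1 : C))]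
  rw [Nat.card_prod, ← Subgroup.index_eq_card] at h1
  calc _ ≤ N.index * Nat.card {c : C // c ≠ 1} + N.index := Nat.add_le_add_right h1 _
    _ = N.index * (Nat.card {c : C // c ≠ 1} + 1) := by ring
    _ = N.index * Nat.card C := by rw [h2]

theorem half_bound {G : Type*} [Group G] [Finite G] {r : ℕ} [Fact r.Prime] (R : Sylow r G)
    (hR : ¬ Subgroup.normalizer ((R : Subgroup G) : Set G) ≤
      Subgroup.centralizer ((R : Subgroup G) : Set G)) :
    2 * (Set.ncard {x : G | x ≠ 1 ∧ ∃ g : G,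
      ∃ c ∈ Subgroup.centralizer ((R : Subgroup G) : Set G), x = g * c * g⁻¹} + 1) ≤
      Nat.card G := by
  obtain ⟨C, hC⟩ : ∃ C : Subgroup G, C = Subgroup.centralizer ((R : Subgroup G) : Set G) :=
    ⟨_, rfl⟩
  obtain ⟨N, hN⟩ : ∃ N : Subgroup G, N = Subgroup.normalizer ((R : Subgroup G) : Set G) :=
    ⟨_, rfl⟩
  rw [← hC]
  rw [← hC, ← hN] at hR
  have hNC : ∀ n ∈ N, ∀ c ∈ C, n * c * n⁻¹ ∈ C := by
    intro n hn c hc
    rw [hC, Subgroup.mem_centralizer_iff] at hc ⊢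
    rw [hN] at hn
    intro z hz
    have hz' : n⁻¹ * z * n ∈ (R : Subgroup G) := by
      have h0 := (Subgroup.mem_normalizer_iff.mp (inv_mem hn) z).mp hz
      rwa [inv_inv] at h0
    have h1 : (n⁻¹ * z * n) * c = c * (n⁻¹ * z * n) := hc _ hz'
    calc z * (n * c * n⁻¹) = n * ((n⁻¹ * z * n) * c) * n⁻¹ := by group
      _ = n * (c * (n⁻¹ * z * n)) * n⁻¹ := by rw [h1]
      _ = n * c * n⁻¹ * z := by group
  have hCN : C ≤ N := by
    intro c hc
    have h1 := hNC
    rw [hN, Subgroup.mem_normalizer_iff]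
    rw [hC, Subgroup.mem_centralizer_iff] at hc
    intro z
    constructor
    · intro hz
      have e : c * z * c⁻¹ = z := by rw [← hc z hz]; group
      rw [e]; exact hz
    · intro hz
      have h2 := hc _ hz
      have e : z = c * z * c⁻¹ := by
        calc z = c⁻¹ * (c * z * c⁻¹ * c) := by group
          _ = c⁻¹ * (c * (c * z * c⁻¹)) := by rw [h2]
          _ = c * z * c⁻¹ := by group
      rw [e]; exact hz
  have h1 := card_conj_le C N hNC
  have h2 : 2 * Nat.card C ≤ Nat.card N := by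
    obtain ⟨k, hk⟩ := Subgroup.card_dvd_of_le hCN
    have hNpos : 0 < Nat.card N := Nat.card_pos
    have hCpos : 0 < Nat.card C := Nat.card_pos
    have hk0 : k ≠ 0 := by
      rintro rfl
      rw [mul_zero] at hk
      omega
    have hk1 : k ≠ 1 := by
      rintro rfl
      apply hR
      have hle : Nat.card N ≤ Nat.card C := by rw [hk, mul_one]
      have hNC' : N ≤ C := by
        intro z hz
        by_contra hzC
        have hlt : C < N := lt_of_le_of_ne hCN (fun h0 => hzC (h0 ▸ hz))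
        have := Set.ncard_lt_ncard (s := (C : Set G)) (t := (N : Set G)) hlt (Set.toFinite _)
        rw [← Nat.card_coe_set_eq, ← Nat.card_coe_set_eq] at this
        exact absurd hle (not_le.mpr this)
      exact hNC'
    have hk2 : 2 ≤ k := by omega
    rw [hk]
    nlinarith
  have h3 : N.index * Nat.card N = Nat.card G := N.index_mul_card
  have hidx : 0 < N.index := Nat.pos_of_ne_zero Subgroup.index_ne_zero_of_finite
  have h4 : N.index * (2 * Nat.card C) ≤ N.index * Nat.card N := Nat.mul_le_mul_left _ h2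
  nlinarith

theorem mem_conj_centralizer {G : Type*} [Group G] [Finite G] {r : ℕ} [Fact r.Prime]
    (R : Sylow r G) (x : G) (hx : ¬ r ∣ (Subgroup.centralizer ({x} : Set G)).index) :
    ∃ g : G, ∃ c ∈ Subgroup.centralizer ((R : Subgroup G) : Set G), x = g * c * g⁻¹ := by
  obtain ⟨S, hS⟩ := Cfsg.Agent.Helper21.exists_sylow_le_of_not_dvd_index _ hx
  obtain ⟨g, hg⟩ := MulAction.exists_smul_eq G R S
  refine ⟨g, g⁻¹ * x * g, ?_, by group⟩
  rw [Subgroup.mem_centralizer_iff]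
  intro z hz
  have hz' : g * z * g⁻¹ ∈ (S : Subgroup G) := by
    rw [← hg]
    have h0 := (Cfsg.Agent.Helper12.mem_sylow_smul_iff R g (g * z * g⁻¹)).mpr (by
      have e : g⁻¹ * (g * z * g⁻¹) * g = z := by group
      rw [e]; exact hz)
    exact h0
  have h1 := Subgroup.mem_centralizer_iff.mp (hS hz') x (Set.mem_singleton x)
  calc z * (g⁻¹ * x * g) = g⁻¹ * ((g * z * g⁻¹) * x) * g := by group
    _ = g⁻¹ * (x * (g * z * g⁻¹)) * g := by rw [h1]
    _ = g⁻¹ * x * g * z := by group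

theorem result {G : Type*} [Group G] [Finite G] (p q : ℕ) (hp : p.Prime) (hq : q.Prime) (hpq : p ≠ q)
    (hp' : ∃ x : G, p ∣ (Subgroup.centralizer ({x} : Set G)).index) (hq' : ∃ x : G, q ∣ (Subgroup.centralizer ({x} : Set G)).index) (h : ∀ x : G, ¬ p * q ∣ (Subgroup.centralizer ({x} : Set G)).index) :
    Cfsg.HasNormalPComplement p G ∨ Cfsg.HasNormalPComplement q G := by
  have : Fact p.Prime := ⟨hp⟩
  have : Fact q.Prime := ⟨hq⟩
  obtain ⟨P⟩ : Nonempty (Sylow p G) := inferInstance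
  obtain ⟨Q⟩ : Nonempty (Sylow q G) := inferInstance
  by_contra hcon
  rw [not_or] at hcon
  obtain ⟨hnp, hnq⟩ := hcon
  have hP : ¬ Subgroup.normalizer ((P : Subgroup G) : Set G) ≤
      Subgroup.centralizer ((P : Subgroup G) : Set G) :=
    fun h1 => hnp (Cfsg.Agent.Lead.burnside_npc P h1)
  have hQ : ¬ Subgroup.normalizer ((Q : Subgroup G) : Set G) ≤
      Subgroup.centralizer ((Q : Subgroup G) : Set G) :=
    fun h1 => hnq (Cfsg.Agent.Lead.burnside_npc Q h1)
  have hbP := half_bound P hP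
  have hbQ := half_bound Q hQ
  have hdiv : ∀ x : G, ¬ p ∣ (Subgroup.centralizer ({x} : Set G)).index ∨
      ¬ q ∣ (Subgroup.centralizer ({x} : Set G)).index := by
    intro x
    by_contra hc
    rw [not_or, not_not, not_not] at hc
    exact h x (Nat.Coprime.mul_dvd_of_dvd_of_dvd ((Nat.coprime_primes hp hq).mpr hpq) hc.1 hc.2)
  have hcov : (Set.univ : Set G) ⊆ (({1} : Set G) ∪
      {x : G | x ≠ 1 ∧ ∃ g : G,
        ∃ c ∈ Subgroup.centralizer ((P : Subgroup G) : Set G), x = g * c * g⁻¹}) ∪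
      {x : G | x ≠ 1 ∧ ∃ g : G,
        ∃ c ∈ Subgroup.centralizer ((Q : Subgroup G) : Set G), x = g * c * g⁻¹} := by
    intro x _
    by_cases hx1 : x = 1
    · left; left; exact hx1
    · rcases hdiv x with h1 | h1
      · left; right; exact ⟨hx1, mem_conj_centralizer P x h1⟩
      · right; exact ⟨hx1, mem_conj_centralizer Q x h1⟩
  have hcard : Nat.card G ≤ 1 + Set.ncard {x : G | x ≠ 1 ∧ ∃ g : G,
        ∃ c ∈ Subgroup.centralizer ((P : Subgroup G) : Set G), x = g * c * g⁻¹} +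
      Set.ncard {x : G | x ≠ 1 ∧ ∃ g : G,
        ∃ c ∈ Subgroup.centralizer ((Q : Subgroup G) : Set G), x = g * c * g⁻¹} := by
    calc Nat.card G = (Set.univ : Set G).ncard := (Set.ncard_univ G).symm
      _ ≤ _ := Set.ncard_le_ncard hcov (Set.toFinite _)
      _ ≤ _ := Set.ncard_union_le _ _
      _ ≤ _ := Nat.add_le_add_right (Set.ncard_union_le _ _) _
      _ = _ := by rw [Set.ncard_singleton]
  omega

end Cfsg.Agent.S4160
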