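import Mathlib
import Cfsg.Statements.S4168

set_option autoImplicit false
open Cfsg

namespace Cfsg.Agent.S4168

theorem result {L : Type*} [Group L] [Finite L] (hL : Cfsg.IsQuasisimple L)
    (p : ℕ) (hp : p.Prime) (hdiv : p ∣ Nat.card (Subgroup.center L)) : p ∣ (Subgroup.center L).index := by
  by_contra hnd
  have := Fact.mk hp
  obtain ⟨hperf, -⟩ := hL
  have P : Sylow p L := default
  have hPZ : (P : Subgroup L) ≤ Subgroup.center L := by
    have h1 : IsPGroup p ((P : Subgroup L).map (QuotientGroup.mk' (Subgroup.center L))) :=
      P.isPGroup'.map _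
    have h2 : Nat.card ((P : Subgroup L).map (QuotientGroup.mk' (Subgroup.center L))) ∣
        (Subgroup.center L).index := by
      rw [Subgroup.index_eq_card]
      exact Subgroup.card_subgroup_dvd_card _
    have h3 : Nat.card ((P : Subgroup L).map (QuotientGroup.mk' (Subgroup.center L))) = 1 := by
      rcases h1.card_eq_or_dvd with h | h
      · exact h
      · exact absurd (dvd_trans h h2) hnd
    rw [Subgroup.card_eq_one, Subgroup.map_eq_bot_iff, QuotientGroup.ker_mk'] at h3
    exact h3
  have hP : Subgroup.normalizer (P : Set L) ≤ Subgroup.centralizer (P : Set L) := by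
    have : Subgroup.centralizer ((P : Subgroup L) : Set L) = ⊤ :=
      Subgroup.centralizer_eq_top_iff_subset.2 hPZ
    intro x _
    have hx : x ∈ Subgroup.centralizer ((P : Subgroup L) : Set L) := by
      rw [this]; exact Subgroup.mem_top x
    exact hx
  have hker : (MonoidHom.transferSylow P hP).ker = ⊤ := by
    rw [eq_top_iff, ← hperf.commutator_eq_top, commutator_eq_closure, Subgroup.closure_le]
    rintro x ⟨a, b, rfl⟩
    rw [SetLike.mem_coe, MonoidHom.mem_ker, map_commutatorElement, commutatorElement_eq_one_iff_commute]
    apply Subtype.ext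
    have ha := (MonoidHom.transferSylow P hP a).2
    have hb := (MonoidHom.transferSylow P hP b).2
    have := hPZ hb
    rw [Subgroup.mem_center_iff] at this
    exact this _
  have hnot := MonoidHom.not_dvd_card_ker_transferSylow P hP
  rw [hker, Subgroup.card_top] at hnot
  exact hnot (dvd_trans hdiv (Subgroup.card_subgroup_dvd_card _))

end Cfsg.Agent.S4168
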