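import Cfsg.Statements.S4169
-- import your own Cfsg.Agent.* helpers here
import Cfsg.Agent.Helper9.MinClass
import Cfsg.Agent.Helper12.KNpc

set_option autoImplicit false
open Cfsg

namespace Cfsg.Agent.S4169

open Cfsg.Agent.Helper9

/-- Let P be a finite p-group whose conjugacy classes have exactly two sizes (1 and one other value). Then P has nilpotency class at most 3. -/
theorem result {P : Type*} [Group P] [Finite P] {p : ℕ} [Fact p.Prime] (hP : IsPGroup p P)
    (m : ℕ) (hm : 1 < m) (h : ∀ x : P, (Subgroup.centralizer ({x} : Set P)).index = 1 ∨ (Subgroup.centralizer ({x} : Set P)).index = m) :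
    upperCentralSeries P 3 = ⊤ := by
  obtain ⟨A, hAn, hAab, hAc⟩ := Cfsg.Agent.Helper12.exists_normal_abelian_self_centralizing P hP
  haveI := hAn
  have hAc' : ∀ a ∈ A, ∀ b ∈ A, a * b = b * a := by
    intro a ha b hb
    have h1 := hAab ha
    rw [Subgroup.mem_centralizer_iff] at h1
    exact (h1 b hb).symm
  have hmin : ∀ x : P, 1 < (Subgroup.centralizer ({x} : Set P)).index →
      m ≤ (Subgroup.centralizer ({x} : Set P)).index := by
    intro x hx
    rcases h x with h1 | h1
    · omega
    · rw [h1]
  have key := minclass_main9 A hAc' hAc m hmin _ rfl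
  have hall : ∀ g : P, g ∈ Subgroup.closure {x : P | (Subgroup.centralizer ({x} : Set P)).index = 1 ∨
      (Subgroup.centralizer ({x} : Set P)).index = m} := fun g => Subgroup.subset_closure (h g)
  rw [eq_top_iff]
  intro x _
  change x ∈ Subgroup.upperCentralSeries P (2 + 1)
  rw [Subgroup.mem_upperCentralSeries_succ_iff]
  intro y
  rw [show (2 : ℕ) = 1 + 1 from rfl, Subgroup.mem_upperCentralSeries_succ_iff]
  intro z
  rw [Subgroup.upperCentralSeries_one, Subgroup.mem_center_iff]
  intro w
  have h1 := key x (hall x) y (hall y) z (hall z)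
  have h2 := Subgroup.mem_center_iff.mp h1 w
  simpa [commutatorElement_def] using h2

end Cfsg.Agent.S4169
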