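import Mathlib
import Cfsg.Statements.S4178

set_option autoImplicit false
open Cfsg

namespace Cfsg.Agent.S4178

section

variable {F V : Type*} [Field F] [AddCommGroup V] [Module F V]

def stabMod (H : Subgroup (V ≃ₗ[F] V)) (W : Submodule F V)
    (hW : ∀ h ∈ H, ∀ w ∈ W, h w ∈ W) (v : V) : Subgroup ↥H where
  carrier := {h | (h : V ≃ₗ[F] V) v - v ∈ W}
  one_mem' := by
    show ((1 : ↥H) : V ≃ₗ[F] V) v - v ∈ W
    simp
  mul_mem' := by
    intro a b ha hb
    have ha' : (a : V ≃ₗ[F] V) v - v ∈ W := ha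
    have hb' : (b : V ≃ₗ[F] V) v - v ∈ W := hb
    show ((a * b : ↥H) : V ≃ₗ[F] V) v - v ∈ W
    have e : ((a * b : ↥H) : V ≃ₗ[F] V) v - v
        = (a : V ≃ₗ[F] V) ((b : V ≃ₗ[F] V) v - v) + ((a : V ≃ₗ[F] V) v - v) := by
      rw [Subgroup.coe_mul, LinearEquiv.mul_apply, map_sub]; abel
    rw [e]
    exact W.add_mem (hW _ a.2 _ hb') ha'
  inv_mem' := by
    intro a ha
    have ha' : (a : V ≃ₗ[F] V) v - v ∈ W := ha
    show ((a⁻¹ : ↥H) : V ≃ₗ[F] V) v - v ∈ W
    have e : ((a⁻¹ : ↥H) : V ≃ₗ[F] V) v - v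
        = - (((a⁻¹ : ↥H) : V ≃ₗ[F] V) ((a : V ≃ₗ[F] V) v - v)) := by
      rw [map_sub, ← LinearEquiv.mul_apply, ← Subgroup.coe_mul, inv_mul_cancel]
      simp
    rw [e]
    exact W.neg_mem (hW _ (a⁻¹).2 _ ha')

theorem mem_stabMod (H : Subgroup (V ≃ₗ[F] V)) (W : Submodule F V)
    (hW : ∀ h ∈ H, ∀ w ∈ W, h w ∈ W) (v : V) (h : ↥H) :
    h ∈ stabMod H W hW v ↔ (h : V ≃ₗ[F] V) v - v ∈ W := Iff.rfl

theorem inv_mul_apply_self (H : Subgroup (V ≃ₗ[F] V)) (a : ↥H) (u : V) :
    ((a⁻¹ : ↥H) : V ≃ₗ[F] V) ((a : V ≃ₗ[F] V) u) = u := by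
  rw [← LinearEquiv.mul_apply, ← Subgroup.coe_mul, inv_mul_cancel]
  rfl

theorem stabMod_le [FiniteDimensional F V] (H : Subgroup (V ≃ₗ[F] V)) (W : Submodule F V)
    (hW : ∀ h ∈ H, ∀ w ∈ W, h w ∈ W) (v : V) (hv : v ∉ W) :
    stabMod H W hW v ≤
      Subgroup.closure {h : ↥H | ∃ v : V, v ≠ 0 ∧ (h : V ≃ₗ[F] V) v = v} := by
  intro h hh
  apply Subgroup.subset_closure
  rw [mem_stabMod] at hh
  by_contra hno
  have hinj : ∀ u : V, (h : V ≃ₗ[F] V) u = u → u = 0 := by
    intro u hu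
    by_contra hu0
    exact hno ⟨u, hu0, hu⟩
  obtain ⟨D, hD⟩ : ∃ D : W →ₗ[F] W, ∀ w : W, (D w : V) = (h : V ≃ₗ[F] V) (w : V) - (w : V) :=
    ⟨(((h : V ≃ₗ[F] V) : V →ₗ[F] V) - LinearMap.id).restrict
      (fun w hw => W.sub_mem (hW _ h.2 w hw) hw), fun w => rfl⟩
  have hDinj : Function.Injective D := by
    rw [injective_iff_map_eq_zero]
    intro w hw
    have h0 : (h : V ≃ₗ[F] V) (w : V) - (w : V) = 0 := by
      rw [← hD, hw]; rfl
    exact Subtype.ext (hinj _ (sub_eq_zero.mp h0))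
  have hDsurj : Function.Surjective D := LinearMap.injective_iff_surjective.mp hDinj
  obtain ⟨w, hw⟩ := hDsurj ⟨_, hh⟩
  have h1 : (h : V ≃ₗ[F] V) (w : V) - (w : V) = (h : V ≃ₗ[F] V) v - v := by
    rw [← hD, hw]
  have h2 : (h : V ≃ₗ[F] V) (v - w) = v - w := by
    rw [map_sub]
    rw [sub_eq_sub_iff_add_eq_add] at h1 ⊢
    exact h1.symm.trans (add_comm _ _)
  have h3 := hinj _ h2
  exact hv (by rw [sub_eq_zero.mp h3]; exact w.2)

end

theorem index_add_one_le {G X : Type*} [Group G] [Finite X] (S : Subgroup G) (g : G → X)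
    (x₀ : X) (h1 : ∀ a b, g a = g b → a⁻¹ * b ∈ S) (h2 : ∀ a, g a ≠ x₀) :
    S.index + 1 ≤ Nat.card X := by
  classical
  obtain ⟨f, hf0, hf1⟩ : ∃ f : Option (G ⧸ S) → X, f none = x₀ ∧
      ∀ c, f (some c) = g c.out := ⟨fun o => o.elim x₀ (fun c => g c.out), rfl, fun c => rfl⟩
  have hf : Function.Injective f := by
    intro o₁ o₂ h12
    cases o₁ with
    | none =>
      cases o₂ with
      | none => rfl
      | some c =>
        rw [hf0, hf1] at h12
        exact absurd h12.symm (h2 _)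
    | some c₁ =>
      cases o₂ with
      | none =>
        rw [hf0, hf1] at h12
        exact absurd h12 (h2 _)
      | some c₂ =>
        rw [hf1, hf1] at h12
        have h3 := h1 _ _ h12
        rw [← QuotientGroup.eq, QuotientGroup.out_eq', QuotientGroup.out_eq'] at h3
        rw [h3]
  have hfin : Finite (Option (G ⧸ S)) := Finite.of_injective f hf
  have hfin' : Finite (G ⧸ S) :=
    Finite.of_injective (fun c => (some c : Option (G ⧸ S))) (Option.some_injective _)
  have h4 := Nat.card_le_card_of_injective f hf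
  rw [Finite.card_option] at h4
  exact h4

theorem result {F V : Type*} [Field F] [Fintype F] [AddCommGroup V] [Module F V] [FiniteDimensional F V] [Nontrivial V]
    (H : Subgroup (V ≃ₗ[F] V)) :
    (Subgroup.closure {h : ↥H | ∃ v : V, v ≠ 0 ∧ (h : V ≃ₗ[F] V) v = v}).index ≤ Fintype.card F ^ Module.finrank F V - 1 ∧
    ((∃ W : Submodule F V, W ≠ ⊥ ∧ W ≠ ⊤ ∧ ∀ h ∈ H, ∀ w ∈ W, h w ∈ W) →
      ((Subgroup.closure {h : ↥H | ∃ v : V, v ≠ 0 ∧ (h : V ≃ₗ[F] V) v = v}).index : ℝ) ≤ Real.sqrt ((Fintype.card F : ℝ) ^ Module.finrank F V) - 1) := by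
  classical
  have hVfin : Finite V := Module.finite_of_finite F
  have hq1 : 1 ≤ Fintype.card F := Fintype.card_pos
  obtain ⟨R, hR⟩ : ∃ R, R = Subgroup.closure
      {h : ↥H | ∃ v : V, v ≠ 0 ∧ (h : V ≃ₗ[F] V) v = v} := ⟨_, rfl⟩
  rw [← hR]
  have hHfin : Finite (V ≃ₗ[F] V) :=
    Finite.of_injective (fun e : V ≃ₗ[F] V => (e : V → V)) DFunLike.coe_injective
  have hidx : ∀ S : Subgroup ↥H, S ≤ R → R.index ≤ S.index := by
    intro S hS
    exact Nat.le_of_dvd (Nat.pos_of_ne_zero Subgroup.index_ne_zero_of_finite)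
      (Subgroup.index_dvd_of_le hS)
  have hbot : ∀ h ∈ H, ∀ w ∈ (⊥ : Submodule F V), h w ∈ (⊥ : Submodule F V) := by
    intro h _ w hw
    rw [Submodule.mem_bot] at hw ⊢
    rw [hw, map_zero]
  have hstab0 : ∀ (v : V) (a b : ↥H), (a : V ≃ₗ[F] V) v = (b : V ≃ₗ[F] V) v →
      a⁻¹ * b ∈ stabMod H ⊥ hbot v := by
    intro v a b hab
    rw [mem_stabMod, Submodule.mem_bot, sub_eq_zero, Subgroup.coe_mul, LinearEquiv.mul_apply,
      ← hab, inv_mul_apply_self]
  constructor
  · obtain ⟨v, hv⟩ := exists_ne (0 : V)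
    have h1 : stabMod H ⊥ hbot v ≤ R := by
      rw [hR]; exact stabMod_le H ⊥ hbot v (by rw [Submodule.mem_bot]; exact hv)
    have h2 := index_add_one_le (stabMod H ⊥ hbot v) (fun a : ↥H => (a : V ≃ₗ[F] V) v) 0
      (fun a b hab => hstab0 v a b hab)
      (fun a ha => hv ((a : V ≃ₗ[F] V).map_eq_zero_iff.mp ha))
    have h3 := hidx _ h1
    rw [Module.natCard_eq_pow_finrank (K := F), Nat.card_eq_fintype_card] at h2
    omega
  · rintro ⟨W, hW0, hWtop, hWinv⟩
    have hex : ∃ e' : ℕ, R.index + 1 ≤ Fintype.card F ^ e' ∧ 2 * e' ≤ Module.finrank F V := by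
      by_cases hcase : 2 * Module.finrank F W ≤ Module.finrank F V
      · refine ⟨Module.finrank F W, ?_, hcase⟩
        obtain ⟨v, hvW, hv0⟩ := Submodule.exists_mem_ne_zero_of_ne_bot hW0
        have h1 : stabMod H ⊥ hbot v ≤ R := by
          rw [hR]; exact stabMod_le H ⊥ hbot v (by rw [Submodule.mem_bot]; exact hv0)
        have h2 := index_add_one_le (stabMod H ⊥ hbot v)
          (fun a : ↥H => (⟨(a : V ≃ₗ[F] V) v, hWinv _ a.2 v hvW⟩ : W)) 0
          (fun a b hab => hstab0 v a b (congrArg Subtype.val hab))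
          (fun a ha => hv0 ((a : V ≃ₗ[F] V).map_eq_zero_iff.mp (congrArg Subtype.val ha)))
        have h3 := hidx _ h1
        rw [Module.natCard_eq_pow_finrank (K := F) (V := W), Nat.card_eq_fintype_card] at h2
        omega
      · refine ⟨Module.finrank F (V ⧸ W), ?_, ?_⟩
        · obtain ⟨v, hv⟩ : ∃ v : V, v ∉ W := by
            by_contra hall
            push Not at hall
            exact hWtop (eq_top_iff.mpr (fun x _ => hall x))
          have h1 : stabMod H W hWinv v ≤ R := by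
            rw [hR]; exact stabMod_le H W hWinv v hv
          have hQfin : Finite (V ⧸ W) :=
            Finite.of_surjective (Submodule.Quotient.mk : V → V ⧸ W)
              (Submodule.Quotient.mk_surjective W)
          have h2 := index_add_one_le (stabMod H W hWinv v)
            (fun a : ↥H => (Submodule.Quotient.mk ((a : V ≃ₗ[F] V) v) : V ⧸ W)) 0 ?_ ?_
          · have h3 := hidx _ h1
            rw [Module.natCard_eq_pow_finrank (K := F) (V := V ⧸ W),
              Nat.card_eq_fintype_card] at h2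
            omega
          · intro a b hab
            have hab' : (a : V ≃ₗ[F] V) v - (b : V ≃ₗ[F] V) v ∈ W :=
              (Submodule.Quotient.eq W).mp hab
            rw [mem_stabMod]
            have e : ((a⁻¹ * b : ↥H) : V ≃ₗ[F] V) v - v
                = - (((a⁻¹ : ↥H) : V ≃ₗ[F] V)
                    ((a : V ≃ₗ[F] V) v - (b : V ≃ₗ[F] V) v)) := by
              rw [map_sub, inv_mul_apply_self, Subgroup.coe_mul, LinearEquiv.mul_apply,
                neg_sub]
            rw [e]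
            exact W.neg_mem (hWinv _ (a⁻¹).2 _ hab')
          · intro a ha
            have ha' : (a : V ≃ₗ[F] V) v ∈ W := (Submodule.Quotient.mk_eq_zero W).mp ha
            apply hv
            have h5 := hWinv _ (a⁻¹).2 _ ha'
            rwa [inv_mul_apply_self] at h5
        · have h6 := Submodule.finrank_quotient_add_finrank W
          omega
    obtain ⟨e', he1, he2⟩ := hex
    have h5 : ((R.index : ℝ) + 1) ≤ (Fintype.card F : ℝ) ^ e' := by exact_mod_cast he1
    have h6 : (Fintype.card F : ℝ) ^ e' ≤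
        Real.sqrt ((Fintype.card F : ℝ) ^ Module.finrank F V) := by
      apply Real.le_sqrt_of_sq_le
      rw [← pow_mul]
      apply pow_le_pow_right₀
      · exact_mod_cast hq1
      · omega
    linarith

end Cfsg.Agent.S4178
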