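import Cfsg.Statements.S4186

set_option autoImplicit false
open Cfsg

namespace Cfsg.Agent.S4186

theorem result {G : Type*} [Group G] (T X : Subgroup G) [Finite ↥T] (hT : IsPGroup 2 ↥T) (hTN : T ≤ Subgroup.normalizer (X : Set G)) (hTC : ¬ T ≤ Subgroup.centralizer (X : Set G)) : ∃ t ∈ T, ∃ x ∈ X, x ≠ 1 ∧ t * x * t⁻¹ = x⁻¹ := by
  classical
  have hex : ∃ n : ℕ, ∃ t ∈ T, t ∉ Subgroup.centralizer (X : Set G) ∧ orderOf t = n := by
    rw [SetLike.not_le_iff_exists] at hTC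
    obtain ⟨t, ht, htc⟩ := hTC
    exact ⟨orderOf t, t, ht, htc, rfl⟩
  obtain ⟨t, ht, htc, hto⟩ := Nat.find_spec hex
  have hmin : ∀ s ∈ T, s ∉ Subgroup.centralizer (X : Set G) → orderOf t ≤ orderOf s := by
    intro s hs hsc
    rw [hto]
    exact Nat.find_min' hex ⟨s, hs, hsc, rfl⟩
  obtain ⟨k, hk⟩ := hT ⟨t, ht⟩
  have hk' : t ^ 2 ^ k = 1 := by
    have := congrArg (Subtype.val) hk
    simpa using this
  have ht1 : t ≠ 1 := by
    rintro rfl
    exact htc (Subgroup.one_mem _)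
  have hord : ∃ j, orderOf t = 2 ^ j := by
    have := orderOf_dvd_of_pow_eq_one hk'
    obtain ⟨j, -, hj⟩ := (Nat.dvd_prime_pow Nat.prime_two).1 this
    exact ⟨j, hj⟩
  obtain ⟨j, hj⟩ := hord
  have hj0 : j ≠ 0 := by
    rintro rfl
    rw [pow_zero, orderOf_eq_one_iff] at hj
    exact ht1 hj
  have ht2 : t ^ 2 ∈ Subgroup.centralizer (X : Set G) := by
    by_contra hc
    have h1 := hmin (t ^ 2) (Subgroup.pow_mem _ ht 2) hc
    have h2 : orderOf (t ^ 2) = 2 ^ (j - 1) := by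
      rw [orderOf_pow' t (by norm_num : (2:ℕ) ≠ 0), hj]
      obtain ⟨i, rfl⟩ := Nat.exists_eq_succ_of_ne_zero hj0
      have : Nat.gcd (2 ^ (i + 1)) 2 = 2 := by
        rw [pow_succ]; simp
      rw [this, pow_succ]; simp
    rw [h2, hj] at h1
    have : 2 ^ (j - 1) < 2 ^ j := Nat.pow_lt_pow_right (by norm_num) (by omega)
    omega
  rw [Subgroup.mem_centralizer_iff] at htc
  push Not at htc
  obtain ⟨y, hy, hyt⟩ := htc
  have hn := hTN ht
  rw [Subgroup.mem_normalizer_iff] at hn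
  have hy' : t * y * t⁻¹ ∈ X := (hn y).1 hy
  refine ⟨t, ht, y⁻¹ * (t * y * t⁻¹), X.mul_mem (X.inv_mem hy) hy', ?_, ?_⟩
  · intro h
    apply hyt
    have : t * y * t⁻¹ = y := by
      have := congrArg (fun z => y * z) h
      simpa using this
    calc y * t = (t * y * t⁻¹) * t := by rw [this]
      _ = t * y := by group
  · rw [Subgroup.mem_centralizer_iff] at ht2
    have h2 := ht2 y hy
    have h3 : t * t * y = y * (t * t) := by
      rw [pow_two] at h2; rw [h2]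
    have : t * (y⁻¹ * (t * y * t⁻¹)) * t⁻¹ = (t * y * t⁻¹)⁻¹ * ((t * t * y) * t⁻¹ * t⁻¹) := by group
    rw [this, h3]
    group

end Cfsg.Agent.S4186
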