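import Mathlib
import Cfsg.Statements.S4195

set_option autoImplicit false
open Cfsg

namespace Cfsg.Agent.S4195

theorem centralizer_index_eq {G : Type*} [Group G] [Finite G] (x : G) :
    (Subgroup.centralizer ({x} : Set G)).index = (MulAction.orbit (ConjAct G) x).ncard := by
  rw [← MulAction.index_stabilizer]
  have h1 := Subgroup.index_mul_card (Subgroup.centralizer ({x} : Set G))
  have h2 := Subgroup.index_mul_card (MulAction.stabilizer (ConjAct G) x)
  have h3 : Nat.card (ConjAct G) = Nat.card G := rfl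
  rw [Subgroup.nat_card_centralizer_nat_card_stabilizer] at h1
  rw [h3, ← h1] at h2
  have : Finite (ConjAct G) := ‹Finite G›
  exact (Nat.eq_of_mul_eq_mul_right Nat.card_pos h2).symm

theorem inv_eq_self_of_odd_class {G : Type*} [Group G] [Finite G] (x : G)
    (hodd : ¬ 2 ∣ (Subgroup.centralizer ({x} : Set G)).index) (hreal : IsConj x x⁻¹) : x⁻¹ = x := by
  classical
  by_contra hne
  apply hodd
  rw [centralizer_index_eq]
  have := Fintype.ofFinite G
  rw [Set.ncard_eq_toFinset_card']
  rw [← ZMod.natCast_eq_zero_iff]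
  rw [Finset.card_eq_sum_ones, Nat.cast_sum]
  refine Finset.sum_involution (fun a _ => a⁻¹) ?_ ?_ ?_ ?_
  · intro a ha
    simp only [Nat.cast_one]
    decide
  · intro a ha _ h
    rw [Set.mem_toFinset, ConjAct.mem_orbit_conjAct, isConj_iff] at ha
    obtain ⟨c, hc⟩ := ha
    apply hne
    have h2 : (c * a * c⁻¹)⁻¹ = c * a * c⁻¹ := by
      calc (c * a * c⁻¹)⁻¹ = c * a⁻¹ * c⁻¹ := by group
        _ = c * a * c⁻¹ := by rw [h]
    rwa [hc] at h2
  · intro a ha
    rw [Set.mem_toFinset, ConjAct.mem_orbit_conjAct] at ha ⊢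
    have h1 : IsConj a⁻¹ x⁻¹ := by
      rw [isConj_iff] at ha ⊢
      obtain ⟨c, hc⟩ := ha
      exact ⟨c, by rw [← hc]; group⟩
    exact h1.trans hreal.symm
  · intro a ha
    simp

theorem result {G : Type*} [Group G] [Finite G] (x : G) (hx : x ≠ 1) (P : Sylow 2 G) (hP : (P : Subgroup G) ≤ Subgroup.centralizer ({x} : Set G)) (hreal : IsConj x x⁻¹) : orderOf x = 2 := by
  have hodd : ¬ 2 ∣ (Subgroup.centralizer ({x} : Set G)).index := by
    intro h
    exact (Sylow.not_dvd_index P) (dvd_trans h (Subgroup.index_dvd_of_le hP))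
  have h := inv_eq_self_of_odd_class x hodd hreal
  have hx2 : x ^ 2 = 1 := by
    rw [pow_two]; nth_rewrite 1 [← h]; simp
  exact orderOf_eq_prime hx2 hx

end Cfsg.Agent.S4195
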