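import Mathlib
import Cfsg.Statements.S4196
import Cfsg.Agent.S4195

set_option autoImplicit false
open Cfsg

namespace Cfsg.Agent.S4196

theorem result {G : Type*} [Group G] [Finite G] (P : Sylow 2 G) :
    (IsMulCommutative (P : Subgroup G) ∧ ∀ x ∈ (P : Subgroup G), x ^ 2 = 1) ↔
      ∀ x : G, (∃ k : ℕ, orderOf x = 2 ^ k) → (∃ Q : Sylow 2 G, (Q : Subgroup G) ≤ Subgroup.centralizer ({x} : Set G)) ∧ IsConj x x⁻¹ := by
  constructor
  · rintro ⟨hc, h2⟩ x ⟨k, hk⟩
    have hpg : IsPGroup 2 (Subgroup.zpowers x) := by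
      rw [IsPGroup.iff_card, Nat.card_zpowers]
      exact ⟨k, hk⟩
    obtain ⟨Q, hQ⟩ := hpg.exists_le_sylow
    obtain ⟨g, hg⟩ := MulAction.exists_smul_eq G P Q
    have hxQ : x ∈ (Q : Subgroup G) := hQ (Subgroup.mem_zpowers x)
    have key : ∀ q ∈ (Q : Subgroup G), ∃ p ∈ (P : Subgroup G), q = g * p * g⁻¹ := by
      intro q hq
      rw [← hg, Sylow.coe_subgroup_smul, Subgroup.mem_pointwise_smul_iff_inv_smul_mem] at hq
      refine ⟨g⁻¹ * q * g, ?_, by group⟩
      simpa [MulAut.smul_def] using hq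
    refine ⟨⟨Q, ?_⟩, ?_⟩
    · intro q hq
      rw [Subgroup.mem_centralizer_iff]
      intro y hy
      rw [Set.mem_singleton_iff] at hy
      subst hy
      obtain ⟨p1, hp1, rfl⟩ := key q hq
      obtain ⟨p2, hp2, rfl⟩ := key y hxQ
      have hcomm : p1 * p2 = p2 * p1 := by
        have := hc.is_comm.comm ⟨p1, hp1⟩ ⟨p2, hp2⟩
        exact congrArg Subtype.val this
      calc g * p2 * g⁻¹ * (g * p1 * g⁻¹) = g * (p2 * p1) * g⁻¹ := by group
        _ = g * (p1 * p2) * g⁻¹ := by rw [hcomm]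
        _ = g * p1 * g⁻¹ * (g * p2 * g⁻¹) := by group
    · obtain ⟨p2, hp2, rfl⟩ := key x hxQ
      have h := h2 p2 hp2
      have : (g * p2 * g⁻¹)⁻¹ = g * p2 * g⁻¹ := by
        have hp : p2⁻¹ = p2 := by
          rw [inv_eq_iff_mul_eq_one, ← pow_two]; exact h
        calc (g * p2 * g⁻¹)⁻¹ = g * p2⁻¹ * g⁻¹ := by group
          _ = g * p2 * g⁻¹ := by rw [hp]
      rw [this]
  · intro h
    have hexp : ∀ x ∈ (P : Subgroup G), x ^ 2 = 1 := by
      intro x hx
      by_cases hx1 : x = 1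
      · rw [hx1]; simp
      · have hk : ∃ k : ℕ, orderOf x = 2 ^ k := by
          obtain ⟨k, hk⟩ := P.isPGroup' ⟨x, hx⟩
          have hk' : x ^ 2 ^ k = 1 := by
            have := congrArg Subtype.val hk
            simpa using this
          obtain ⟨j, -, hj⟩ := (Nat.dvd_prime_pow Nat.prime_two).1 (orderOf_dvd_of_pow_eq_one hk')
          exact ⟨j, hj⟩
        obtain ⟨⟨Q, hQ⟩, hreal⟩ := h x hk
        have := Cfsg.Agent.S4195.result x hx1 Q hQ hreal
        rw [← this]; exact pow_orderOf_eq_one x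
    refine ⟨⟨⟨?_⟩⟩, hexp⟩
    rintro ⟨a, ha⟩ ⟨b, hb⟩
    apply Subtype.ext
    show a * b = b * a
    have h1 := hexp a ha
    have h2 := hexp b hb
    have h3 := hexp (a * b) (Subgroup.mul_mem _ ha hb)
    have ha' : a⁻¹ = a := by rw [inv_eq_iff_mul_eq_one, ← pow_two]; exact h1
    have hb' : b⁻¹ = b := by rw [inv_eq_iff_mul_eq_one, ← pow_two]; exact h2
    have hab' : (a * b)⁻¹ = a * b := by rw [inv_eq_iff_mul_eq_one, ← pow_two]; exact h3
    calc a * b = (a * b)⁻¹ := hab'.symm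
      _ = b⁻¹ * a⁻¹ := by group
      _ = b * a := by rw [ha', hb']

end Cfsg.Agent.S4196
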