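import Mathlib
import Cfsg.Statements.S4203
import Cfsg.Agent.Helper4.MaxPrimeIndex
import Cfsg.Agent.S4263

set_option autoImplicit false
open Cfsg

namespace Cfsg.Agent.S4203

universe u

theorem isSolvable_perm_of_card_four {α : Type*} [Finite α]
    (h4 : Nat.card α = 4) : Group.IsSolvable (Equiv.Perm α) := by
  classical
  have := Fintype.ofFinite α
  have hn : (alternatingGroup.kleinFour α).Normal := alternatingGroup.normal_kleinFour h4
  have hk : IsKleinFour (alternatingGroup.kleinFour α) := alternatingGroup.kleinFour_isKleinFour h4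
  have h1 : Group.IsSolvable (alternatingGroup.kleinFour α) := by
    have hc := hk.isMulCommutative
    exact Group.isSolvable_of_comm (fun a b => hc.is_comm.comm a b)
  have h2 : Group.IsSolvable (alternatingGroup α ⧸ alternatingGroup.kleinFour α) := by
    have hc : commutator (alternatingGroup α) ≤ alternatingGroup.kleinFour α :=
      (alternatingGroup.kleinFour_eq_commutator h4).ge
    rw [← Subgroup.Normal.quotient_commutative_iff_commutator_le] at hc
    exact Group.isSolvable_of_comm (fun a b => hc.is_comm.comm a b)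
  have h3 : Group.IsSolvable (alternatingGroup α) :=
    (Group.isSolvable_iff_subgroup_quotient (alternatingGroup.kleinFour α)).mpr ⟨h1, h2⟩
  exact Group.isSolvable_of_ker_le_range (alternatingGroup α).subtype
    (Equiv.Perm.sign (α := α)) (by rw [Subgroup.range_subtype]; exact le_rfl)

theorem index_modEq_one {G : Type*} [Group G] [Finite G] {p : ℕ} [Fact p.Prime] (P : Sylow p G)
    (K : Subgroup G) (hK : Subgroup.normalizer ((P : Subgroup G) : Set G) ≤ K) :
    K.index ≡ 1 [MOD p] := by
  have h1 : Nat.card (Sylow p G) ≡ 1 [MOD p] := card_sylow_modEq_one p G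
  have h2 : Nat.card (Sylow p K) ≡ 1 [MOD p] := card_sylow_modEq_one p K
  have h3 : Nat.card (Sylow p G) = (Subgroup.normalizer ((P : Subgroup G) : Set G)).index :=
    P.card_eq_index_normalizer
  have hPK : (P : Subgroup G) ≤ K := Subgroup.le_normalizer.trans hK
  have h4 : Nat.card (Sylow p K)
      = (Subgroup.normalizer (((P.subtype hPK : Sylow p K) : Subgroup K) : Set K)).index :=
    (P.subtype hPK).card_eq_index_normalizer
  rw [Sylow.coe_subtype, Helper4.normalizer_subgroupOf_eq _ _ hPK] at h4
  have h7 : (Subgroup.normalizer ((P : Subgroup G) : Set G)).relIndex K * K.index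
      = (Subgroup.normalizer ((P : Subgroup G) : Set G)).index := Subgroup.relIndex_mul_index hK
  have h8 : (Subgroup.normalizer ((P : Subgroup G) : Set G)).relIndex K ≡ 1 [MOD p] := by
    have : (Subgroup.normalizer ((P : Subgroup G) : Set G)).relIndex K
        = ((Subgroup.normalizer ((P : Subgroup G) : Set G)).subgroupOf K).index := rfl
    rw [this, ← h4]; exact h2
  have h9 : (Subgroup.normalizer ((P : Subgroup G) : Set G)).index ≡ 1 [MOD p] := by
    rw [← h3]; exact h1
  have e1 : 1 * K.index ≡ (Subgroup.normalizer ((P : Subgroup G) : Set G)).relIndex K * K.index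
      [MOD p] := (h8.symm).mul_right _
  rw [h7, one_mul] at e1
  exact e1.trans h9

theorem num_lemma {p q m : ℕ} (hp : p.Prime) (hq : q.Prime) (hqp : q ≤ p)
    (hm : m ≡ 1 [MOD p]) (h : m = q ∨ m = q ^ 2) : m = 4 := by
  have hq2 := hq.two_le
  have hp2 := hp.two_le
  rcases h with rfl | rfl
  · have h11 : p ∣ m - 1 := (Nat.modEq_iff_dvd' hq.one_lt.le).mp hm.symm
    have h12 : p ≤ m - 1 := Nat.le_of_dvd (by omega) h11
    omega
  · have h1 : 1 ≤ q ^ 2 := Nat.one_le_pow _ _ (by omega)
    have h11 : p ∣ q ^ 2 - 1 := (Nat.modEq_iff_dvd' h1).mp hm.symm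
    have h12 : q ^ 2 - 1 = (q - 1) * (q + 1) := by
      obtain ⟨k, rfl⟩ : ∃ k, q = k + 1 := ⟨q - 1, by omega⟩
      have e : (k + 1) ^ 2 = (k + 1 - 1) * (k + 1 + 1) + 1 := by
        simp only [Nat.add_sub_cancel]; ring
      exact Nat.sub_eq_of_eq_add e
    rw [h12] at h11
    rcases (Nat.Prime.dvd_mul hp).mp h11 with h13 | h13
    · have := Nat.le_of_dvd (by omega) h13; omega
    · have h14 : p ≤ q + 1 := Nat.le_of_dvd (by omega) h13
      have h15 : p = q + 1 := by
        rcases Nat.lt_or_ge q p with h | h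
        · omega
        · have hpq : p = q := le_antisymm h hqp
          subst hpq
          have h16 : p ∣ 1 := (Nat.dvd_add_right (dvd_refl p)).mp h13
          have := Nat.le_of_dvd one_pos h16
          omega
      have h16 : q = 2 := by
        rcases hq.eq_two_or_odd with h | h
        · exact h
        · rcases hp.eq_two_or_odd with h' | h'
          · omega
          · omega
      subst h16; norm_num

theorem aux (n : ℕ) : ∀ (G : Type u) [Group G] [Finite G], Nat.card G = n →
    (∀ M : Subgroup G, IsCoatom M → ∃ p : ℕ, p.Prime ∧ (M.index = p ∨ M.index = p ^ 2)) →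
    Group.IsSolvable G := by
  induction n using Nat.strong_induction_on with
  | _ n ih =>
  intro G _ _ hn h
  by_contra hns
  have hquot : ∀ (N : Subgroup G) [N.Normal], N ≠ ⊥ → Group.IsSolvable (G ⧸ N) := by
    intro N _ hNne
    have hlt : Nat.card (G ⧸ N) < Nat.card G := by
      rw [← Subgroup.index_eq_card, ← N.index_mul_card]
      have h1 : 1 < Nat.card N := (Subgroup.one_lt_card_iff_ne_bot _).mpr hNne
      have h2 : 0 < N.index := Nat.pos_of_ne_zero (Subgroup.index_ne_zero_of_finite)
      nlinarith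
    refine ih _ (hn ▸ hlt) (G ⧸ N) rfl ?_
    intro M' hM'
    have hco := Helper4.isCoatom_comap_mk N M' hM'
    have := h _ hco
    rwa [Subgroup.index_comap_of_surjective _ (QuotientGroup.mk'_surjective _)] at this
  have hnosol : ∀ (N : Subgroup G), N.Normal → N ≠ ⊥ → ¬ Group.IsSolvable N := by
    intro N hN hNne hsol
    have := hquot N hNne
    exact hns ((Group.isSolvable_iff_subgroup_quotient N).mpr ⟨hsol, this⟩)
  have hGnt : (⊤ : Subgroup G) ≠ ⊥ := by
    intro htop
    exact hns (Group.isSolvable_of_top_eq_bot G htop)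
  have hex : ∃ k, ∃ N : Subgroup G, N.Normal ∧ N ≠ ⊥ ∧ Nat.card N = k :=
    ⟨_, ⊤, inferInstance, hGnt, rfl⟩
  classical
  obtain ⟨N, hNn, hNne, hNk⟩ := Nat.find_spec hex
  have hNmin : ∀ K : Subgroup G, K.Normal → K ≠ ⊥ → K ≤ N → K = N := by
    intro K hKn hKne hKN
    have h1 : Nat.find hex ≤ Nat.card K := Nat.find_min' hex ⟨K, hKn, hKne, rfl⟩
    rw [← hNk] at h1
    exact Subgroup.eq_of_le_of_card_ge hKN h1
  have hNcard : 1 < Nat.card N := (Subgroup.one_lt_card_iff_ne_bot _).mpr hNne
  obtain ⟨p, hp, hpdvd, hpmax⟩ := Helper4.exists_max_prime_dvd (Nat.card N) hNcard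
  have : Fact p.Prime := ⟨hp⟩
  obtain ⟨P₀⟩ : Nonempty (Sylow p N) := inferInstance
  have hfr : Subgroup.normalizer (((P₀ : Subgroup N).map N.subtype : Subgroup G) : Set G) ⊔ N
      = ⊤ := Sylow.normalizer_sup_eq_top P₀
  obtain ⟨P, hP⟩ : ∃ P : Subgroup G, P = (P₀ : Subgroup N).map N.subtype := ⟨_, rfl⟩
  rw [← hP] at hfr
  have hPN : P ≤ N := by rw [hP]; exact Subgroup.map_subtype_le _
  have hPne : P ≠ ⊥ := by
    rw [hP]
    intro hbot
    rw [Subgroup.map_eq_bot_iff_of_injective _ N.subtype_injective] at hbot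
    exact P₀.ne_bot_of_dvd_card hpdvd hbot
  have hPp : IsPGroup p P := by
    rw [hP]; exact P₀.isPGroup'.map N.subtype
  have hnorm_ne : Subgroup.normalizer (P : Set G) ≠ ⊤ := by
    intro htop
    have hPn : P.Normal := Subgroup.normalizer_eq_top_iff.mp htop
    have : Group.IsNilpotent P := hPp.isNilpotent
    exact hnosol P hPn hPne inferInstance
  obtain ⟨M, hM, hNM⟩ := (eq_top_or_exists_le_coatom _).resolve_left hnorm_ne
  have hMN : M ⊔ N = ⊤ := by
    apply top_le_iff.mp
    rw [← hfr]
    exact sup_le_sup_right hNM N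
  have hidx : M.index = M.relIndex N := by
    have := S4263.relIndex_sup_eq M N
    rw [hMN, Subgroup.relIndex_top_right] at this
    exact this
  have hmod : M.relIndex N ≡ 1 [MOD p] := by
    have hP0 : (P₀ : Subgroup N) = P.subgroupOf N := by
      rw [hP]; exact (Subgroup.comap_map_eq_self_of_injective N.subtype_injective _).symm
    have hle : Subgroup.normalizer ((P₀ : Subgroup N) : Set N) ≤ M.subgroupOf N := by
      rw [hP0, Helper4.normalizer_subgroupOf_eq _ _ hPN]
      exact Subgroup.comap_mono hNM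
    exact index_modEq_one P₀ (M.subgroupOf N) hle
  obtain ⟨q, hq, hqi⟩ := h M hM
  have hdvd : M.relIndex N ∣ Nat.card N := Subgroup.relIndex_dvd_card M N
  have hqdvd : q ∣ Nat.card N := by
    rcases hqi with h1 | h1
    · rw [← h1, hidx]; exact hdvd
    · have h2 : q ∣ q ^ 2 := dvd_pow_self q (by norm_num)
      rw [← h1, hidx] at h2; exact h2.trans hdvd
  have hqp : q ≤ p := hpmax q hq hqdvd
  have h4 : M.index = 4 := num_lemma hp hq hqp (by rw [hidx]; exact hmod) hqi
  have hcard4 : Nat.card (G ⧸ M) = 4 := by rw [← Subgroup.index_eq_card]; exact h4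
  have hsolPerm : Group.IsSolvable (Equiv.Perm (G ⧸ M)) := isSolvable_perm_of_card_four hcard4
  have hker : N ⊓ (MulAction.toPermHom G (G ⧸ M)).ker = ⊥ := by
    by_contra hne
    have hKn : (N ⊓ (MulAction.toPermHom G (G ⧸ M)).ker).Normal := inferInstance
    have hKN := hNmin _ hKn hne inf_le_left
    have hNle : N ≤ M := by
      have h1 : N ≤ (MulAction.toPermHom G (G ⧸ M)).ker := by
        rw [← hKN]; exact inf_le_right
      rw [← Subgroup.normalCore_eq_ker M] at h1
      exact h1.trans (Subgroup.normalCore_le M)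
    rw [sup_eq_left.mpr hNle] at hMN
    exact hM.1 hMN
  have hinj : Function.Injective ((MulAction.toPermHom G (G ⧸ M)).comp N.subtype) := by
    rw [← MonoidHom.ker_eq_bot_iff, eq_bot_iff]
    intro x hx
    rw [MonoidHom.mem_ker] at hx
    have hx' : (x : G) ∈ N ⊓ (MulAction.toPermHom G (G ⧸ M)).ker := ⟨x.2, hx⟩
    rw [hker, Subgroup.mem_bot] at hx'
    rw [Subgroup.mem_bot]
    exact Subtype.ext hx'
  have hsolN : Group.IsSolvable N := Group.isSolvable_of_isSolvable_injective hinj
  exact hnosol N hNn hNne hsolN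

theorem result {G : Type*} [Group G] [Finite G] (h : ∀ M : Subgroup G, IsCoatom M → ∃ p : ℕ, p.Prime ∧ (M.index = p ∨ M.index = p ^ 2)) : Group.IsSolvable G := by
  exact aux _ G rfl h

end Cfsg.Agent.S4203
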