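import Cfsg.Statements.S4227
import Mathlib
import Cfsg.Agent.Helper20.PLength
import Cfsg.Agent.Helper20.HallHigman
import Cfsg.Agent.Helper20.PLengthOne
import Cfsg.Agent.Helper20.SolvPSolv
import Cfsg.Agent.Helper9.Fitting
import Cfsg.Agent.Helper9.PComp
import Cfsg.Agent.Helper4.ElemAb
import Cfsg.Agent.Helper1.Kegel2
import Cfsg.Agent.Helper24.CoprimeAut
import Cfsg.Agent.S0144
import Cfsg.Agent.S0635
import Cfsg.Agent.S3215

set_option autoImplicit false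
open Cfsg
open Cfsg.Agent.Helper20.PLen

namespace Cfsg.Agent.S4227

theorem pow_eq_one_of_coprime_aux {G : Type*} [Group G] {y : G} {a b c : ℕ}
    (h1 : y ^ (a * b) = 1) (h2 : y ^ c = 1) (hbc : Nat.Coprime b c) : y ^ a = 1 := by
  have d1 : orderOf y ∣ a * b := orderOf_dvd_of_pow_eq_one h1
  have d2 : orderOf y ∣ c := orderOf_dvd_of_pow_eq_one h2
  have hcop : Nat.Coprime (orderOf y) b := Nat.Coprime.coprime_dvd_left d2 hbc.symm
  exact orderOf_dvd_iff_pow_eq_one.mp (hcop.dvd_of_dvd_mul_right d1)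

theorem comm_of_sq {X : Type*} [Group X] (hsq : ∀ a : X, a * a = 1) (a b : X) :
    a * b = b * a := by
  have ha' : a⁻¹ = a := inv_eq_of_mul_eq_one_left (hsq a)
  have hb' : b⁻¹ = b := inv_eq_of_mul_eq_one_left (hsq b)
  have hab' : (a * b)⁻¹ = a * b := inv_eq_of_mul_eq_one_left (hsq (a * b))
  rw [mul_inv_rev, ha', hb'] at hab'
  exact hab'.symm

theorem solvable_of_exp6 {G : Type*} [Group G] [Finite G] (h : ∀ x : G, x ^ 6 = 1) :
    Group.IsSolvable G := by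
  classical
  have hprime : ∀ q : ℕ, q.Prime → q ∣ Nat.card G → q = 2 ∨ q = 3 := by
    intro q hq hdvd
    haveI : Fact q.Prime := ⟨hq⟩
    obtain ⟨x, hx⟩ := exists_prime_orderOf_dvd_card' q hdvd
    have h6 : q ∣ 2 * 3 := by
      rw [← hx]
      exact orderOf_dvd_of_pow_eq_one (h x)
    rcases (Nat.Prime.dvd_mul hq).mp h6 with h2 | h3
    · left
      exact (Nat.prime_dvd_prime_iff_eq hq Nat.prime_two).mp h2
    · right
      exact (Nat.prime_dvd_prime_iff_eq hq Nat.prime_three).mp h3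
  haveI : Fact (Nat.Prime 2) := ⟨Nat.prime_two⟩
  obtain ⟨P⟩ := (Sylow.nonempty : Nonempty (Sylow 2 G))
  obtain ⟨a, ha⟩ := P.2.exists_card_eq
  have hidx : (P : Subgroup G).index ≠ 0 := Subgroup.index_ne_zero_of_finite
  obtain ⟨k, hk⟩ : ∃ k, (P : Subgroup G).index = 3 ^ k := by
    refine ⟨_, Nat.eq_prime_pow_of_unique_prime_dvd hidx ?_⟩
    intro d hd hdd
    rcases hprime d hd (hdd.trans (Subgroup.index_dvd_card _)) with h2 | h3
    · exfalso
      rw [h2] at hdd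
      exact P.not_dvd_index hdd
    · exact h3
  have hcard : Nat.card G = 2 ^ a * 3 ^ k := by
    rw [← Subgroup.card_mul_index (P : Subgroup G), ha, hk]
  exact Cfsg.Agent.S0144.result 2 3 a k Nat.prime_two Nat.prime_three hcard

theorem exp6_core {H : Type*} [Group H] [Finite H] (h6 : ∀ x : H, x ^ 6 = 1)
    (hO : Cfsg.pPrimeCore 3 H = ⊥) : (Cfsg.pCore 3 H).index.Coprime 3 := by
  classical
  haveI : Fact (Nat.Prime 2) := ⟨Nat.prime_two⟩
  haveI : Fact (Nat.Prime 3) := ⟨Nat.prime_three⟩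
  haveI hsolH : Group.IsSolvable H := solvable_of_exp6 h6
  have hps3 : Cfsg.IsPSolvable 3 H := isPSolvable_of_isSolvable 3
  obtain ⟨Q, hQdef⟩ : ∃ Q : Subgroup H, Q = Cfsg.pCore 3 H := ⟨_, rfl⟩
  haveI hQn : Q.Normal := by rw [hQdef]; infer_instance
  have hQp : IsPGroup 3 Q := by rw [hQdef]; exact Cfsg.Agent.Helper9.pCore_isPGroup 3
  have hCQ : Subgroup.centralizer (Q : Set H) ≤ Q := by
    rw [hQdef]; exact centralizer_pCore_le_of_psolvable 3 hps3 hO
  have hbar6 : ∀ y : H ⧸ Q, y ^ 6 = 1 := by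
    intro y
    obtain ⟨g, rfl⟩ := QuotientGroup.mk'_surjective Q y
    rw [← map_pow, h6, map_one]
  have hO3 : Cfsg.pCore 3 (H ⧸ Q) = ⊥ := by
    subst hQdef
    exact Cfsg.Agent.S3215.pCore_quot_eq_bot 3
  haveI hsolQ : Group.IsSolvable (H ⧸ Q) := solvable_of_exp6 hbar6
  have hps2 : Cfsg.IsPSolvable 2 (H ⧸ Q) := isPSolvable_of_isSolvable 2
  have hO2' : Cfsg.pPrimeCore 2 (H ⧸ Q) = ⊥ := by
    rw [← le_bot_iff, ← hO3]
    apply Cfsg.Agent.Helper9.le_pCore inferInstance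
    intro y
    refine ⟨1, ?_⟩
    rw [pow_one]
    have hcop : (Nat.card ↥(Cfsg.pPrimeCore 2 (H ⧸ Q))).Coprime 2 :=
      Cfsg.Agent.Helper9.pPrimeCore_coprime 2
    have h1 : y ^ (3 * 2) = 1 := by
      apply Subtype.ext
      rw [Subgroup.coe_pow, Subgroup.coe_one]
      exact hbar6 y.1
    have h2 : y ^ Nat.card ↥(Cfsg.pPrimeCore 2 (H ⧸ Q)) = 1 := pow_card_eq_one'
    exact pow_eq_one_of_coprime_aux h1 h2 hcop.symm
  obtain ⟨R, hRdef⟩ : ∃ R : Subgroup (H ⧸ Q), R = Cfsg.pCore 2 (H ⧸ Q) := ⟨_, rfl⟩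
  haveI hRn : R.Normal := by rw [hRdef]; infer_instance
  have hR2 : IsPGroup 2 R := by rw [hRdef]; exact Cfsg.Agent.Helper9.pCore_isPGroup 2
  have hCR : Subgroup.centralizer (R : Set (H ⧸ Q)) ≤ R := by
    rw [hRdef]; exact centralizer_pCore_le_of_psolvable 2 hps2 hO2'
  have hRsq : ∀ a ∈ R, a * a = 1 := by
    intro a ha
    obtain ⟨k, hk⟩ := hR2 ⟨a, ha⟩
    have hk' : a ^ (2 ^ k) = 1 := by
      have := congrArg Subtype.val hk
      rw [Subgroup.coe_pow] at this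
      exact this
    have h1 : a ^ (2 * 3) = 1 := hbar6 a
    have h2 := pow_eq_one_of_coprime_aux h1 hk'
      (Nat.Coprime.pow_right k (by decide : Nat.Coprime 3 2))
    rw [pow_two] at h2
    exact h2
  have hRc : ∀ a ∈ R, ∀ b ∈ R, Commute a b := by
    intro a ha b hb
    have ha' : a⁻¹ = a := inv_eq_of_mul_eq_one_left (hRsq a ha)
    have hb' : b⁻¹ = b := inv_eq_of_mul_eq_one_left (hRsq b hb)
    have hab' : (a * b)⁻¹ = a * b := inv_eq_of_mul_eq_one_left (hRsq (a * b) (R.mul_mem ha hb))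
    rw [mul_inv_rev, ha', hb'] at hab'
    exact hab'.symm
  by_contra hcon
  have h3dvd : 3 ∣ Nat.card (H ⧸ Q) := by
    rw [← Subgroup.index_eq_card]
    by_contra hnd
    apply hcon
    rw [← hQdef]
    exact Nat.Coprime.symm ((Nat.Prime.coprime_iff_not_dvd Nat.prime_three).mpr hnd)
  obtain ⟨xb, hxb⟩ := exists_prime_orderOf_dvd_card' 3 h3dvd
  have hxb3 : xb ^ 3 = 1 := by rw [← hxb]; exact pow_orderOf_eq_one xb
  have hxb1 : xb ≠ 1 := by
    intro h1
    rw [h1, orderOf_one] at hxb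
    exact absurd hxb (by decide)
  have hxbR : xb ∉ R := by
    intro hR
    have h2 : xb ^ (1 * 2) = 1 := by rw [one_mul, pow_two]; exact hRsq xb hR
    have h3 := pow_eq_one_of_coprime_aux h2 hxb3 (by decide : Nat.Coprime 2 3)
    rw [pow_one] at h3
    exact hxb1 h3
  have hex : ∃ rb ∈ R, rb * xb ≠ xb * rb := by
    by_contra hno
    apply hxbR
    apply hCR
    rw [Subgroup.mem_centralizer_iff]
    intro r hr
    by_contra hne
    exact hno ⟨r, hr, hne⟩
  obtain ⟨rb, hrbR, hrbx⟩ := hex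
  obtain ⟨σ, hσ⟩ : ∃ σ : MulAut (H ⧸ Q), σ = MulAut.conj xb := ⟨_, rfl⟩
  have hσap : ∀ a, σ a = xb * a * xb⁻¹ := by
    intro a
    rw [hσ, MulAut.conj_apply]
  have hσR : ∀ a ∈ R, σ a ∈ R := by
    intro a ha
    rw [hσap]
    exact hRn.conj_mem a ha xb
  have hσ3 : ∀ a, σ (σ (σ a)) = a := by
    intro a
    simp only [hσap]
    calc xb * (xb * (xb * a * xb⁻¹) * xb⁻¹) * xb⁻¹ = xb ^ 3 * a * (xb ^ 3)⁻¹ := by
          simp only [pow_three']
          group
      _ = a := by rw [hxb3]; group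
  obtain ⟨Kb, hKb⟩ : ∃ Kb : Subgroup (H ⧸ Q),
      ∀ a, a ∈ Kb ↔ (a ∈ R ∧ a * σ a * σ (σ a) = 1) :=
    ⟨{ carrier := {a | a ∈ R ∧ a * σ a * σ (σ a) = 1}
       mul_mem' := by
         rintro a b ⟨ha, hna⟩ ⟨hb, hnb⟩
         refine ⟨R.mul_mem ha hb, ?_⟩
         have c1 : Commute b (σ a) := hRc b hb _ (hσR a ha)
         have c2 : Commute (b * σ b) (σ (σ a)) :=
           (hRc b hb _ (hσR _ (hσR a ha))).mul_left (hRc _ (hσR b hb) _ (hσR _ (hσR a ha)))
         simp only [map_mul]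
         rw [c1.mul_mul_mul_comm, c2.mul_mul_mul_comm, hna, hnb, one_mul]
       one_mem' := ⟨R.one_mem, by simp⟩
       inv_mem' := by
         rintro a ⟨ha, hna⟩
         have h1 : a⁻¹ = a := inv_eq_of_mul_eq_one_left (hRsq a ha)
         rw [h1]
         exact ⟨ha, hna⟩ }, fun a => Iff.rfl⟩
  have hub : rb * σ rb ∈ Kb := by
    refine (hKb _).mpr ⟨R.mul_mem hrbR (hσR rb hrbR), ?_⟩
    have e1 : σ (rb * σ rb) = σ rb * σ (σ rb) := map_mul σ _ _
    have e2 : σ (σ (rb * σ rb)) = σ (σ rb) * rb := by rw [e1, map_mul, hσ3]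
    rw [e2, e1]
    have hb2 := hRsq _ (hσR rb hrbR)
    have hc2 := hRsq _ (hσR _ (hσR rb hrbR))
    have ha2 := hRsq rb hrbR
    calc rb * σ rb * (σ rb * σ (σ rb)) * (σ (σ rb) * rb)
        = rb * (σ rb * σ rb) * (σ (σ rb) * σ (σ rb)) * rb := by group
      _ = 1 := by rw [hb2, hc2, mul_one, mul_one, ha2]
  have hub1 : rb * σ rb ≠ 1 := by
    intro h1
    apply hrbx
    rw [hσap] at h1
    have h2 : xb * rb * xb⁻¹ = rb := by
      have h3 : xb * rb * xb⁻¹ = rb⁻¹ := (inv_eq_of_mul_eq_one_right h1).symm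
      rw [h3]
      exact inv_eq_of_mul_eq_one_left (hRsq rb hrbR)
    calc rb * xb = (xb * rb * xb⁻¹) * xb := by rw [h2]
      _ = xb * rb := by group
  obtain ⟨π, hπ⟩ : ∃ π : H →* H ⧸ Q, π = QuotientGroup.mk' Q := ⟨_, rfl⟩
  have hπs : Function.Surjective π := by rw [hπ]; exact QuotientGroup.mk'_surjective Q
  have hker : ∀ g : H, π g = 1 ↔ g ∈ Q := by
    intro g
    rw [hπ, ← MonoidHom.mem_ker, QuotientGroup.ker_mk']
  obtain ⟨x0, hx0⟩ := hπs xb
  obtain ⟨x, hxdef⟩ : ∃ x : H, x = x0 ^ 4 := ⟨_, rfl⟩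
  have hx3 : x ^ 3 = 1 := by
    rw [hxdef, ← pow_mul]
    have h1 : x0 ^ (4 * 3) = (x0 ^ 6) ^ 2 := by rw [← pow_mul]
    rw [h1, h6, one_pow]
  have hπx : π x = xb := by
    rw [hxdef, map_pow, hx0]
    calc xb ^ 4 = xb ^ 3 * xb := pow_succ xb 3
      _ = xb := by rw [hxb3, one_mul]
  obtain ⟨u0, hu0⟩ := hπs (rb * σ rb)
  obtain ⟨t, htdef⟩ : ∃ t : H, t = u0 ^ 3 := ⟨_, rfl⟩
  have ht2 : t ^ 2 = 1 := by
    rw [htdef, ← pow_mul]
    exact h6 u0
  have hπt : π t = rb * σ rb := by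
    rw [htdef, map_pow, hu0]
    have h2 := hRsq _ ((hKb _).mp hub).1
    calc (rb * σ rb) ^ 3 = (rb * σ rb) * (rb * σ rb) * (rb * σ rb) := pow_three' _
      _ = rb * σ rb := by rw [h2, one_mul]
  obtain ⟨M, hMdef⟩ : ∃ M : Subgroup H, M = Kb.comap π := ⟨_, rfl⟩
  have hMmem : ∀ g : H, g ∈ M ↔ π g ∈ Kb := by
    intro g
    rw [hMdef, Subgroup.mem_comap]
  have hxM : ∀ m ∈ M, MulAut.conj x m ∈ M := by
    intro m hm
    rw [hMmem] at hm ⊢
    rw [MulAut.conj_apply, map_mul, map_mul, map_inv, hπx, ← hσap]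
    obtain ⟨h1, h2⟩ := (hKb _).mp hm
    refine (hKb _).mpr ⟨hσR _ h1, ?_⟩
    rw [hσ3]
    have c : Commute (π m) (σ (π m) * σ (σ (π m))) :=
      (hRc _ h1 _ (hσR _ h1)).mul_right (hRc _ h1 _ (hσR _ (hσR _ h1)))
    rw [← c.eq, ← mul_assoc]
    exact h2
  obtain ⟨φ, hφ, hφord⟩ := Cfsg.Agent.Helper24.exists_restrict_aut (MulAut.conj x) M hxM
  have hφ3 : φ ^ 3 = 1 := by
    have h1 : orderOf (MulAut.conj x) ∣ 3 := by
      apply orderOf_dvd_of_pow_eq_one
      rw [← map_pow, hx3, map_one]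
    exact orderOf_dvd_iff_pow_eq_one.mp (hφord.trans h1)
  have hcube : ∀ m ∈ M, (m * x) ^ 3 = 1 := by
    intro m hm
    obtain ⟨h1, h2⟩ := (hKb _).mp ((hMmem m).mp hm)
    have hQmem : (m * x) ^ 3 ∈ Q := by
      rw [← hker, map_pow, map_mul, hπx]
      calc (π m * xb) ^ 3 = π m * σ (π m) * σ (σ (π m)) * xb ^ 3 := by
            simp only [hσap, pow_three']
            group
        _ = 1 := by rw [h2, hxb3, one_mul]
    obtain ⟨k, hk⟩ := hQp ⟨(m * x) ^ 3, hQmem⟩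
    have hk' : ((m * x) ^ 3) ^ (3 ^ k) = 1 := by
      have := congrArg Subtype.val hk
      rw [Subgroup.coe_pow] at this
      exact this
    have h62 : ((m * x) ^ 3) ^ (1 * 2) = 1 := by
      rw [one_mul, ← pow_mul]
      exact h6 _
    have h7 := pow_eq_one_of_coprime_aux h62 hk'
      (Nat.Coprime.pow_right k (by decide : Nat.Coprime 2 3))
    rw [pow_one] at h7
    exact h7
  have hN : ∀ y : ↥M, Cfsg.Agent.Helper1.fpfN φ 3 y = 1 := by
    intro y
    have h3 : Cfsg.Agent.Helper1.fpfN φ 3 y = y * φ y * φ (φ y) := by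
      show Cfsg.Agent.Helper1.fpfN φ 0 y * (φ ^ 0) y * (φ ^ 1) y * (φ ^ 2) y = _
      simp [Cfsg.Agent.Helper1.fpfN_zero, pow_two]
    rw [h3]
    apply Subtype.ext
    simp only [Subgroup.coe_mul, hφ, Subgroup.coe_one, MulAut.conj_apply]
    have hc := hcube y.1 y.2
    calc (y : H) * (x * y * x⁻¹) * (x * (x * y * x⁻¹) * x⁻¹)
        = ((y : H) * x) ^ 3 * (x ^ 3)⁻¹ := by
          simp only [pow_three']
          group
      _ = 1 := by rw [hc, hx3, inv_one, one_mul]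
  haveI hMnil : Group.IsNilpotent ↥M :=
    Cfsg.Agent.Helper1.split_nilpotent 3 Nat.prime_three φ hφ3 hN
  have htM : t ∈ M := by
    rw [hMmem, hπt]
    exact hub
  have hQM : Q ≤ M := by
    intro q hq
    rw [hMmem, (hker q).mpr hq]
    exact Kb.one_mem
  obtain ⟨T⟩ := (Sylow.nonempty : Nonempty (Sylow 2 ↥M))
  haveI hTn : (T : Subgroup ↥M).Normal := inferInstance
  have hTi : (T : Subgroup ↥M).index.Coprime 2 :=
    Nat.Coprime.symm ((Nat.Prime.coprime_iff_not_dvd Nat.prime_two).mpr T.not_dvd_index)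
  have htT : (⟨t, htM⟩ : ↥M) ∈ (T : Subgroup ↥M) := by
    have ht2' : (⟨t, htM⟩ : ↥M) ^ 2 = 1 := by
      apply Subtype.ext
      rw [Subgroup.coe_pow]
      exact ht2
    have hz : IsPGroup 2 ↥(Subgroup.zpowers (⟨t, htM⟩ : ↥M)) :=
      Cfsg.Agent.Helper4.isPGroup_of_isElementaryAbelian
        (Cfsg.Agent.Helper4.isElementaryAbelian_zpowers _ ht2')
    exact isPGroup_le_of_normal_of_coprime_index (T : Subgroup ↥M) hTi _ hz
      (Subgroup.mem_zpowers _)
  have hQ'n : (Q.subgroupOf M).Normal := inferInstance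
  have hQ'p : IsPGroup 3 ↥(Q.subgroupOf M) := hQp.comap_subtype
  have hdis : Disjoint (T : Subgroup ↥M) (Q.subgroupOf M) :=
    IsPGroup.disjoint_of_ne 2 3 (by decide) _ _ T.2 hQ'p
  have htc : t ∈ Subgroup.centralizer (Q : Set H) := by
    rw [Subgroup.mem_centralizer_iff]
    intro q hq
    have hc := Subgroup.commute_of_normal_of_disjoint (T : Subgroup ↥M) (Q.subgroupOf M) hTn hQ'n
      hdis ⟨t, htM⟩ ⟨q, hQM hq⟩ htT (Subgroup.mem_subgroupOf.mpr hq)
    have h1 := congrArg Subtype.val hc.eq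
    exact h1.symm
  have htQ : t ∈ Q := hCQ htc
  have h1 : π t = 1 := (hker t).mpr htQ
  rw [hπt] at h1
  exact hub1 h1

/-- A finite group in which every element has order dividing `6` has `2`-length at most `1` and `3`-length at most `1`. -/
theorem result {G : Type*} [Group G] [Finite G] (h : ∀ x : G, x ^ 6 = 1) : Cfsg.PLengthLE 2 1 G ∧ Cfsg.PLengthLE 3 1 G := by
  classical
  haveI : Fact (Nat.Prime 2) := ⟨Nat.prime_two⟩
  haveI : Fact (Nat.Prime 3) := ⟨Nat.prime_three⟩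
  haveI hsol : Group.IsSolvable G := solvable_of_exp6 h
  constructor
  · have hps2 : Cfsg.IsPSolvable 2 G := isPSolvable_of_isSolvable 2
    obtain ⟨S⟩ := (Sylow.nonempty : Nonempty (Sylow 2 G))
    have h1 := Cfsg.Agent.S0635.result hps2 S
    have hsq : ∀ a : ↥(S : Subgroup G), a * a = 1 := by
      intro a
      obtain ⟨k, hk⟩ := S.2 a
      have h6' : a ^ (2 * 3) = 1 := by
        apply Subtype.ext
        rw [Subgroup.coe_pow, Subgroup.coe_one]
        exact h a.1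
      have h2 := pow_eq_one_of_coprime_aux h6' hk
        (Nat.Coprime.pow_right k (by decide : Nat.Coprime 3 2))
      rw [pow_two] at h2
      exact h2
    have hcl : Group.nilpotencyClass ↥(S : Subgroup G) ≤ 1 := by
      letI : CommGroup ↥(S : Subgroup G) :=
        { (inferInstance : Group ↥(S : Subgroup G)) with mul_comm := comm_of_sq hsq }
      exact CommGroup.nilpotencyClass_le_one
    exact pLengthLE_mono 2 hcl h1
  · have hN0 : PLengthLE 3 0 ↥(Cfsg.pPrimeCore 3 G) :=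
      pLengthLE_zero_of_coprime 3 (Cfsg.Agent.Helper9.pPrimeCore_coprime 3)
    have hbar6 : ∀ y : G ⧸ Cfsg.pPrimeCore 3 G, y ^ 6 = 1 := by
      intro y
      obtain ⟨g, rfl⟩ := QuotientGroup.mk'_surjective _ y
      rw [← map_pow, h, map_one]
    have hO : Cfsg.pPrimeCore 3 (G ⧸ Cfsg.pPrimeCore 3 G) = ⊥ :=
      Cfsg.Agent.Helper9.pPrimeCore_quotient_eq_bot 3
    have hidx := exp6_core hbar6 hO
    have hQ1 : PLengthLE 3 1 (G ⧸ Cfsg.pPrimeCore 3 G) :=
      pLengthLE_one_of_normal_sylow 3 (Cfsg.pCore 3 (G ⧸ Cfsg.pPrimeCore 3 G))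
        (Cfsg.Agent.Helper9.pCore_isPGroup 3) hidx
    exact pLengthLE_ext 3 (Cfsg.pPrimeCore 3 G) 0 1 hN0 hQ1

end Cfsg.Agent.S4227
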