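import Mathlib
import Cfsg.Statements.S4230

set_option autoImplicit false
open Cfsg

namespace Cfsg.Agent.S4230

open Polynomial in
theorem key (p q m : ℕ) [Fact p.Prime] (hpq : ¬ p ∣ q) (hm : ¬ p ∣ m) :
    (cyclotomic m (ZMod p)).eval (q : ZMod p) = 0 ↔ m = orderOf (q : ZMod p) := by
  have hne : NeZero ((m : ℕ) : ZMod p) := ⟨by
    rw [Ne, ZMod.natCast_eq_zero_iff]; exact hm⟩
  have h := (isRoot_cyclotomic_iff (R := ZMod p) (n := m) (μ := (q : ZMod p)))
  rw [IsRoot.def] at h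
  rw [h]
  constructor
  · intro hprim
    exact hprim.eq_orderOf
  · intro hmo
    rw [hmo]
    exact IsPrimitiveRoot.orderOf _

open Polynomial in
theorem result (p q f : ℕ) (hp : p.Prime) (hp2 : p ≠ 2) (hpq : ¬ p ∣ q) :
    ((p : ℤ) ∣ (Polynomial.cyclotomic f ℤ).eval (q : ℤ)) ↔ ∃ j : ℕ, f = orderOf (q : ZMod p) * p ^ j := by
  have := Fact.mk hp
  have hq0 : (q : ZMod p) ≠ 0 := by
    rw [Ne, ZMod.natCast_eq_zero_iff]; exact hpq
  have he1 : orderOf (q : ZMod p) ∣ p - 1 := ZMod.orderOf_dvd_card_sub_one hq0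
  have hp1 : 0 < p - 1 := by have := hp.two_le; omega
  have he0 : 0 < orderOf (q : ZMod p) := Nat.pos_of_dvd_of_pos he1 hp1
  have hpe : ¬ p ∣ orderOf (q : ZMod p) := by
    intro h
    have := Nat.le_of_dvd hp1 (dvd_trans h he1)
    omega
  have hcast : ((p : ℤ) ∣ (cyclotomic f ℤ).eval (q : ℤ)) ↔
      (cyclotomic f (ZMod p)).eval (q : ZMod p) = 0 := by
    rw [← ZMod.intCast_zmod_eq_zero_iff_dvd, ← map_cyclotomic_int f (ZMod p)]
    have := eval_intCast_map (Int.castRingHom (ZMod p)) (cyclotomic f ℤ) (q : ℤ)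
    simp only [Int.cast_natCast, eq_intCast] at this
    rw [this]
  rw [hcast]
  by_cases hf : f = 0
  · subst hf
    simp only [cyclotomic_zero, eval_one, one_ne_zero, false_iff]
    rintro ⟨j, hj⟩
    have : 0 < orderOf (q : ZMod p) * p ^ j := Nat.mul_pos he0 (pow_pos hp.pos j)
    omega
  obtain ⟨j, m, hm, hfm⟩ := Nat.exists_eq_pow_mul_and_not_dvd hf p hp.ne_one
  have hstep : (cyclotomic f (ZMod p)).eval (q : ZMod p) = 0 ↔ m = orderOf (q : ZMod p) := by
    rw [← key p q m hpq hm]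
    rcases Nat.eq_zero_or_pos j with hj | hj
    · subst hj
      rw [hfm, pow_zero, one_mul]
    · rw [hfm, cyclotomic_mul_prime_pow_eq (ZMod p) hm hj, eval_pow]
      have hexp : p ^ j - p ^ (j - 1) ≠ 0 := by
        have : p ^ (j - 1) < p ^ j := Nat.pow_lt_pow_right hp.one_lt (by omega)
        omega
      exact pow_eq_zero_iff hexp
  rw [hstep]
  constructor
  · intro hme
    exact ⟨j, by rw [hfm, hme, mul_comm]⟩
  · rintro ⟨j', hj'⟩
    rw [hfm] at hj'
    have hcm : Nat.Coprime p m := (Nat.Prime.coprime_iff_not_dvd hp).2 hm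
    have hce : Nat.Coprime p (orderOf (q : ZMod p)) := (Nat.Prime.coprime_iff_not_dvd hp).2 hpe
    have h1 : p ^ j ∣ p ^ j' := by
      have : p ^ j ∣ orderOf (q : ZMod p) * p ^ j' := Dvd.intro _ hj'
      exact (Nat.Coprime.pow_left j hce).dvd_of_dvd_mul_left this
    have h2 : p ^ j' ∣ p ^ j := by
      have : p ^ j' ∣ p ^ j * m := Dvd.intro_left _ hj'.symm
      exact (Nat.Coprime.pow_left j' hcm).dvd_of_dvd_mul_right this
    have hjj : p ^ j = p ^ j' := Nat.dvd_antisymm h1 h2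
    rw [hjj, mul_comm] at hj'
    exact Nat.eq_of_mul_eq_mul_right (pow_pos hp.pos j') hj'

end Cfsg.Agent.S4230
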