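import Mathlib
import Cfsg.Statements.S4304

set_option autoImplicit false
open Cfsg

universe u

namespace Cfsg.Agent.S4304

/-! ### generic lemmas -/

theorem sylow_le_of_coprime_index {G : Type u} [Group G] [Finite G] {p : ℕ} [Fact p.Prime]
    (K : Subgroup G) [K.Normal] (hK : Nat.Coprime K.index p) (Q : Sylow p G) :
    (Q : Subgroup G) ≤ K := by
  intro u hu
  obtain ⟨k, hk⟩ := Q.2 ⟨u, hu⟩
  have hk' : u ^ (p ^ k) = 1 := by
    simpa using congrArg (fun z : ↥(Q : Subgroup G) => (z : G)) hk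
  have h1 : orderOf (QuotientGroup.mk' K u) ∣ p ^ k := by
    apply orderOf_dvd_of_pow_eq_one
    rw [← map_pow, hk', map_one]
  have h2 : orderOf (QuotientGroup.mk' K u) ∣ K.index := by
    rw [Subgroup.index_eq_card]
    exact orderOf_dvd_natCard _
  have h3 : orderOf (QuotientGroup.mk' K u) = 1 :=
    Nat.eq_one_of_dvd_coprimes (Nat.Coprime.pow_right k hK) h2 h1
  rw [orderOf_eq_one_iff] at h3
  have h4 : ((u : G) : G ⧸ K) = 1 := h3
  exact (QuotientGroup.eq_one_iff u).mp h4

theorem card_sylow_of_le {G : Type u} [Group G] [Finite G] {p : ℕ} [Fact p.Prime]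
    (H : Subgroup G) (h : ∀ Q : Sylow p G, (Q : Subgroup G) ≤ H) :
    Nat.card (Sylow p ↥H) = Nat.card (Sylow p G) := by
  symm
  apply Nat.card_eq_of_bijective (fun Q : Sylow p G => Q.subtype (h Q))
  constructor
  · intro Q Q' hQQ
    exact Sylow.subtype_injective hQQ
  · intro R
    obtain ⟨Q, hQ⟩ := (R.2.map H.subtype).exists_le_sylow
    refine ⟨Q, ?_⟩
    have hle : (R : Subgroup ↥H) ≤ ((Q.subtype (h Q) : Sylow p ↥H) : Subgroup ↥H) := by
      intro r hr
      rw [Sylow.coe_subtype, Subgroup.mem_subgroupOf]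
      exact hQ (Subgroup.mem_map_of_mem H.subtype hr)
    exact Sylow.ext (R.3 (Q.subtype (h Q)).2 hle)

theorem card_sylow_quotient {G : Type u} [Group G] [Finite G] {p : ℕ} [Fact p.Prime]
    (K : Subgroup G) [K.Normal]
    (hK : ∀ Q : Sylow p G, K ≤ Subgroup.normalizer ((Q : Subgroup G) : Set G)) :
    Nat.card (Sylow p (G ⧸ K)) = Nat.card (Sylow p G) := by
  symm
  apply Nat.card_eq_of_bijective
    (fun Q : Sylow p G => Q.mapSurjective (QuotientGroup.mk'_surjective K))
  constructor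
  · intro Q Q' hQQ
    have h1 : (Q : Subgroup G).map (QuotientGroup.mk' K) =
        (Q' : Subgroup G).map (QuotientGroup.mk' K) :=
      congrArg (fun S : Sylow p (G ⧸ K) => (S : Subgroup (G ⧸ K))) hQQ
    have h2 : (Q' : Subgroup G) ≤ Subgroup.normalizer ((Q : Subgroup G) : Set G) := by
      intro u hu
      have hu' : QuotientGroup.mk' K u ∈ (Q : Subgroup G).map (QuotientGroup.mk' K) := by
        rw [h1]
        exact Subgroup.mem_map_of_mem _ hu
      obtain ⟨v, hv, hvu⟩ := Subgroup.mem_map.mp hu'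
      have hvu' : ((v : G) : G ⧸ K) = ((u : G) : G ⧸ K) := hvu
      have h3 : v⁻¹ * u ∈ K := QuotientGroup.eq.mp hvu'
      have h4 : u = v * (v⁻¹ * u) := by group
      rw [h4]
      exact mul_mem (Subgroup.le_normalizer hv) (hK Q h3)
    have h5 : (Q' : Subgroup G) ⊓ Subgroup.normalizer ((Q : Subgroup G) : Set G) =
        (Q' : Subgroup G) ⊓ Q := IsPGroup.inf_normalizer_sylow Q'.2 Q
    have h6 : (Q' : Subgroup G) ≤ Q := by
      have h7 : (Q' : Subgroup G) ≤ (Q' : Subgroup G) ⊓ Q := by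
        rw [← h5]
        exact le_inf le_rfl h2
      exact le_trans h7 inf_le_right
    exact Sylow.ext (Q'.3 Q.2 h6)
  · exact Sylow.mapSurjective_surjective (QuotientGroup.mk'_surjective K) p

theorem mem_smul_sylow {G : Type u} [Group G] {p : ℕ} (g z : G) (P : Sylow p G) :
    z ∈ ((g • P : Sylow p G) : Subgroup G) ↔ g⁻¹ * z * g ∈ (P : Subgroup G) := by
  constructor
  · rintro ⟨y, hy, rfl⟩
    have h : g⁻¹ * (g * y * g⁻¹) * g = y := by group
    show g⁻¹ * (g * y * g⁻¹) * g ∈ (P : Subgroup G)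
    rw [h]
    exact hy
  · intro h
    refine ⟨g⁻¹ * z * g, h, ?_⟩
    show g * (g⁻¹ * z * g) * g⁻¹ = z
    group

/-! ### the structure of the action when there are `2p+1` Sylow subgroups -/

theorem orbit_facts {G : Type u} [Group G] [Finite G] {p : ℕ} [Fact p.Prime] (hp3 : 3 ≤ p)
    (hcard : Nat.card (Sylow p G) = 2 * p + 1) (X Y : Sylow p G) (hXY : X ≠ Y) :
    (MulAction.orbit ↥(X : Subgroup G) Y).ncard = p ∧
    X ∉ MulAction.orbit ↥(X : Subgroup G) Y ∧
    Nat.card ↥((X : Subgroup G) ⊓ (Y : Subgroup G)) * p = Nat.card ↥(X : Subgroup G) ∧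
    (∀ u ∈ (X : Subgroup G), ∀ w ∈ (X : Subgroup G), w ∈ (Y : Subgroup G) →
      u * w * u⁻¹ ∈ (Y : Subgroup G)) := by
  have hp := (Fact.out : p.Prime)
  have hstab : MulAction.stabilizer ↥(X : Subgroup G) Y =
      (Y : Subgroup G).subgroupOf (X : Subgroup G) := by
    ext u
    rw [MulAction.mem_stabilizer_iff, Subgroup.mem_subgroupOf]
    constructor
    · intro h
      have h0 : (u : G) • Y = Y := h
      have h1 : (u : G) ∈ Subgroup.normalizer ((Y : Subgroup G) : Set G) :=
        Sylow.smul_eq_iff_mem_normalizer.mp h0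
      have h2 : (u : G) ∈ (X : Subgroup G) ⊓ Subgroup.normalizer ((Y : Subgroup G) : Set G) :=
        Subgroup.mem_inf.mpr ⟨u.2, h1⟩
      have h5 : (X : Subgroup G) ⊓ Subgroup.normalizer ((Y : Subgroup G) : Set G) =
          (X : Subgroup G) ⊓ Y := IsPGroup.inf_normalizer_sylow X.2 Y
      rw [h5] at h2
      exact (Subgroup.mem_inf.mp h2).2
    · intro h
      have h0 : (u : G) • Y = Y :=
        Sylow.smul_eq_iff_mem_normalizer.mpr (Subgroup.le_normalizer h)
      exact h0
  have hX_notin : X ∉ MulAction.orbit ↥(X : Subgroup G) Y := by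
    rintro ⟨⟨g, hg⟩, hu⟩
    have h0 : g • Y = X := hu
    have h1 : g⁻¹ • X = X :=
      Sylow.smul_eq_iff_mem_normalizer.mpr (Subgroup.le_normalizer (inv_mem hg))
    have h2 : Y = g⁻¹ • X := by rw [← h0, smul_smul, inv_mul_cancel, one_smul]
    exact hXY (h2.trans h1).symm
  have hidx : (MulAction.stabilizer ↥(X : Subgroup G) Y).index =
      (MulAction.orbit ↥(X : Subgroup G) Y).ncard := MulAction.index_stabilizer _ Y
  obtain ⟨n, hn⟩ := IsPGroup.card_orbit X.2 Y
  rw [Nat.card_coe_set_eq] at hn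
  have hle : (MulAction.orbit ↥(X : Subgroup G) Y).ncard + 1 ≤ 2 * p + 1 := by
    rw [← Set.ncard_insert_of_notMem hX_notin, ← hcard, ← Set.ncard_univ (Sylow p G)]
    exact Set.ncard_le_ncard (Set.subset_univ _)
  have hn0 : n ≠ 0 := by
    rintro rfl
    rw [pow_zero] at hn
    rw [hn, hstab] at hidx
    have h1 : (Y : Subgroup G).subgroupOf (X : Subgroup G) = ⊤ := Subgroup.index_eq_one.mp hidx
    have h2 : (X : Subgroup G) ≤ Y := Subgroup.subgroupOf_eq_top.mp h1
    exact hXY (Sylow.ext (X.3 Y.2 h2)).symm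
  have hn1 : n = 1 := by
    by_contra hne
    have h2 : 2 ≤ n := by omega
    have h3 : p ^ 2 ≤ p ^ n := Nat.pow_le_pow_right hp.pos h2
    rw [hn] at hle
    nlinarith [Nat.mul_le_mul_right p hp3]
  rw [hn1, pow_one] at hn
  have hidx' : ((Y : Subgroup G).subgroupOf (X : Subgroup G)).index = p := by
    rw [← hstab, hidx, hn]
  have hcardXY : Nat.card ↥((X : Subgroup G) ⊓ (Y : Subgroup G)) * p =
      Nat.card ↥(X : Subgroup G) := by
    have h1 := Subgroup.index_mul_card ((Y : Subgroup G).subgroupOf (X : Subgroup G))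
    rw [hidx'] at h1
    have h2 : Nat.card ↥((Y : Subgroup G).subgroupOf (X : Subgroup G)) =
        Nat.card ↥((X : Subgroup G) ⊓ (Y : Subgroup G)) := by
      rw [← Subgroup.inf_subgroupOf_left (Y : Subgroup G) (X : Subgroup G)]
      exact Nat.card_congr (Subgroup.subgroupOfEquivOfLe inf_le_left).toEquiv
    rw [h2] at h1
    exact (mul_comm _ _).trans h1
  have hnormal : ((Y : Subgroup G).subgroupOf (X : Subgroup G)).Normal := by
    apply Subgroup.normal_of_index_eq_minFac_card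
    obtain ⟨k, hk⟩ := IsPGroup.iff_card.mp X.2
    have hk0 : k ≠ 0 := by
      rintro rfl
      rw [pow_zero] at hk
      rw [hk] at hcardXY
      have hdvd : p ∣ 1 := Dvd.intro_left _ hcardXY
      exact hp.one_lt.ne' (Nat.dvd_one.mp hdvd)
    rw [hk, Nat.pow_minFac hk0, hp.minFac_eq, hidx']
  refine ⟨hn, hX_notin, hcardXY, ?_⟩
  intro u hu w hw hwY
  have h1 := hnormal.conj_mem ⟨w, hw⟩ (Subgroup.mem_subgroupOf.mpr hwY) ⟨u, hu⟩
  exact Subgroup.mem_subgroupOf.mp h1

theorem inf_smul_eq {G : Type u} [Group G] [Finite G] {p : ℕ} [Fact p.Prime] (hp3 : 3 ≤ p)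
    (hcard : Nat.card (Sylow p G) = 2 * p + 1) (X Y : Sylow p G) (hXY : X ≠ Y)
    (u : G) (hu : u ∈ (X : Subgroup G)) :
    (X : Subgroup G) ⊓ ((u • Y : Sylow p G) : Subgroup G) =
      (X : Subgroup G) ⊓ (Y : Subgroup G) := by
  obtain ⟨-, -, -, hnorm⟩ := orbit_facts hp3 hcard X Y hXY
  ext z
  rw [Subgroup.mem_inf, Subgroup.mem_inf, mem_smul_sylow]
  constructor
  · rintro ⟨hzX, hz⟩
    refine ⟨hzX, ?_⟩
    have h1 : u⁻¹ * z * u ∈ (X : Subgroup G) := mul_mem (mul_mem (inv_mem hu) hzX) hu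
    have h2 := hnorm u hu (u⁻¹ * z * u) h1 hz
    have h3 : u * (u⁻¹ * z * u) * u⁻¹ = z := by group
    rw [h3] at h2
    exact h2
  · rintro ⟨hzX, hz⟩
    refine ⟨hzX, ?_⟩
    have h2 := hnorm u⁻¹ (inv_mem hu) z hzX hz
    rw [inv_inv] at h2
    exact h2

theorem orbit_inf {G : Type u} [Group G] [Finite G] {p : ℕ} [Fact p.Prime] (hp3 : 3 ≤ p)
    (hcard : Nat.card (Sylow p G) = 2 * p + 1) (X Y : Sylow p G) (hXY : X ≠ Y)
    (Z : Sylow p G) (hZ : Z ∈ MulAction.orbit ↥(X : Subgroup G) Y) :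
    (X : Subgroup G) ⊓ (Z : Subgroup G) = (X : Subgroup G) ⊓ (Y : Subgroup G) := by
  obtain ⟨⟨g, hg⟩, hgZ⟩ := hZ
  have h0 : g • Y = Z := hgZ
  rw [← h0]
  exact inf_smul_eq hp3 hcard X Y hXY g hg

theorem two_values {G : Type u} [Group G] [Finite G] {p : ℕ} [Fact p.Prime] (hp3 : 3 ≤ p)
    (hcard : Nat.card (Sylow p G) = 2 * p + 1) (X Y₁ Y₂ Y₃ : Sylow p G)
    (h1 : X ≠ Y₁) (h2 : X ≠ Y₂) (h3 : X ≠ Y₃)
    (hne : (X : Subgroup G) ⊓ (Y₁ : Subgroup G) ≠ (X : Subgroup G) ⊓ (Y₂ : Subgroup G)) :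
    (X : Subgroup G) ⊓ (Y₃ : Subgroup G) = (X : Subgroup G) ⊓ (Y₁ : Subgroup G) ∨
    (X : Subgroup G) ⊓ (Y₃ : Subgroup G) = (X : Subgroup G) ⊓ (Y₂ : Subgroup G) := by
  by_contra hcon
  push Not at hcon
  obtain ⟨h31, h32⟩ := hcon
  obtain ⟨c1, n1, -, -⟩ := orbit_facts hp3 hcard X Y₁ h1
  obtain ⟨c2, n2, -, -⟩ := orbit_facts hp3 hcard X Y₂ h2
  obtain ⟨c3, n3, -, -⟩ := orbit_facts hp3 hcard X Y₃ h3
  have hdisj : ∀ (A B : Sylow p G), X ≠ A → X ≠ B →
      (X : Subgroup G) ⊓ (A : Subgroup G) ≠ (X : Subgroup G) ⊓ (B : Subgroup G) →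
      Disjoint (MulAction.orbit ↥(X : Subgroup G) A) (MulAction.orbit ↥(X : Subgroup G) B) := by
    intro A B hA hB hAB
    rw [Set.disjoint_left]
    intro Z hZA hZB
    exact hAB ((orbit_inf hp3 hcard X A hA Z hZA).symm.trans (orbit_inf hp3 hcard X B hB Z hZB))
  have d12 := hdisj Y₁ Y₂ h1 h2 hne
  have d13 := hdisj Y₁ Y₃ h1 h3 (Ne.symm h31)
  have d23 := hdisj Y₂ Y₃ h2 h3 (Ne.symm h32)
  have hc : ((MulAction.orbit ↥(X : Subgroup G) Y₁ ∪ MulAction.orbit ↥(X : Subgroup G) Y₂) ∪
      MulAction.orbit ↥(X : Subgroup G) Y₃).ncard = p + p + p := by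
    rw [Set.ncard_union_eq (Set.disjoint_union_left.mpr ⟨d13, d23⟩), Set.ncard_union_eq d12,
      c1, c2, c3]
  have hX : X ∉ (MulAction.orbit ↥(X : Subgroup G) Y₁ ∪ MulAction.orbit ↥(X : Subgroup G) Y₂) ∪
      MulAction.orbit ↥(X : Subgroup G) Y₃ := by
    intro h
    rcases h with (h | h) | h
    · exact n1 h
    · exact n2 h
    · exact n3 h
  have hle : ((MulAction.orbit ↥(X : Subgroup G) Y₁ ∪ MulAction.orbit ↥(X : Subgroup G) Y₂) ∪
      MulAction.orbit ↥(X : Subgroup G) Y₃).ncard + 1 ≤ 2 * p + 1 := by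
    rw [← Set.ncard_insert_of_notMem hX, ← hcard, ← Set.ncard_univ (Sylow p G)]
    exact Set.ncard_le_ncard (Set.subset_univ _)
  omega

theorem inf_eq_of_le {G : Type u} [Group G] [Finite G] {p : ℕ} [Fact p.Prime] (hp3 : 3 ≤ p)
    (hcard : Nat.card (Sylow p G) = 2 * p + 1) (X Y Z : Sylow p G) (hXY : X ≠ Y) (hXZ : X ≠ Z)
    (h : (X : Subgroup G) ⊓ (Y : Subgroup G) ≤ (Z : Subgroup G)) :
    (X : Subgroup G) ⊓ (Y : Subgroup G) = (X : Subgroup G) ⊓ (Z : Subgroup G) := by
  obtain ⟨-, -, cY, -⟩ := orbit_facts hp3 hcard X Y hXY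
  obtain ⟨-, -, cZ, -⟩ := orbit_facts hp3 hcard X Z hXZ
  have hp := (Fact.out : p.Prime)
  apply Subgroup.eq_of_le_of_card_ge (le_inf inf_le_left h)
  have h1 : Nat.card ↥((X : Subgroup G) ⊓ (Z : Subgroup G)) * p =
      Nat.card ↥((X : Subgroup G) ⊓ (Y : Subgroup G)) * p := by rw [cY, cZ]
  exact le_of_eq (Nat.eq_of_mul_eq_mul_right hp.pos h1)

theorem all_inf_eq {G : Type u} [Group G] [Finite G] {p : ℕ} [Fact p.Prime] (hp3 : 3 ≤ p)
    (hcard : Nat.card (Sylow p G) = 2 * p + 1) (P Q R : Sylow p G) (hPQ : P ≠ Q) (hPR : P ≠ R) :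
    (P : Subgroup G) ⊓ (Q : Subgroup G) = (P : Subgroup G) ⊓ (R : Subgroup G) := by
  by_contra hne
  have hQR : Q ≠ R := by
    rintro rfl
    exact hne rfl
  obtain ⟨hRc, hPR_notin, -, -⟩ := orbit_facts hp3 hcard P R hPR
  have h1 : 1 < (MulAction.orbit ↥(P : Subgroup G) R).ncard := by
    rw [hRc]; omega
  obtain ⟨R', hR'mem, hR'ne⟩ := Set.exists_ne_of_one_lt_ncard h1 R
  have hPR' : P ≠ R' := by
    intro h
    rw [← h] at hR'mem
    exact hPR_notin hR'mem
  have hinf' : (P : Subgroup G) ⊓ (R' : Subgroup G) = (P : Subgroup G) ⊓ (R : Subgroup G) :=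
    orbit_inf hp3 hcard P R hPR R' hR'mem
  have hRR' : (R : Subgroup G) ⊓ (P : Subgroup G) = (R : Subgroup G) ⊓ (R' : Subgroup G) := by
    apply inf_eq_of_le hp3 hcard R P R' hPR.symm (Ne.symm hR'ne)
    calc (R : Subgroup G) ⊓ (P : Subgroup G) = (P : Subgroup G) ⊓ (R : Subgroup G) := inf_comm _ _
      _ = (P : Subgroup G) ⊓ (R' : Subgroup G) := hinf'.symm
      _ ≤ (R' : Subgroup G) := inf_le_right
  have hQR' : Q ≠ R' := by
    intro h
    apply hne
    rw [h]
    exact hinf'
  have hA : (Q : Subgroup G) ⊓ (P : Subgroup G) ≠ (Q : Subgroup G) ⊓ (R : Subgroup G) := by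
    intro h
    apply hne
    apply inf_eq_of_le hp3 hcard P Q R hPQ hPR
    calc (P : Subgroup G) ⊓ (Q : Subgroup G) = (Q : Subgroup G) ⊓ (P : Subgroup G) := inf_comm _ _
      _ = (Q : Subgroup G) ⊓ (R : Subgroup G) := h
      _ ≤ (R : Subgroup G) := inf_le_right
  have hB : (Q : Subgroup G) ⊓ (R' : Subgroup G) ≠ (Q : Subgroup G) ⊓ (P : Subgroup G) := by
    intro h
    apply hne
    rw [← hinf']
    apply inf_eq_of_le hp3 hcard P Q R' hPQ hPR'
    calc (P : Subgroup G) ⊓ (Q : Subgroup G) = (Q : Subgroup G) ⊓ (P : Subgroup G) := inf_comm _ _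
      _ = (Q : Subgroup G) ⊓ (R' : Subgroup G) := h.symm
      _ ≤ (R' : Subgroup G) := inf_le_right
  rcases two_values hp3 hcard Q P R R' hPQ.symm hQR hQR' hA with hC | hC
  · exact hB hC
  · apply hA
    symm
    apply inf_eq_of_le hp3 hcard Q R P hQR hPQ.symm
    have h2 : (Q : Subgroup G) ⊓ (R : Subgroup G) ≤ (R : Subgroup G) ⊓ (R' : Subgroup G) := by
      apply le_inf inf_le_right
      rw [← hC]
      exact inf_le_right
    calc (Q : Subgroup G) ⊓ (R : Subgroup G) ≤ (R : Subgroup G) ⊓ (R' : Subgroup G) := h2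
      _ = (R : Subgroup G) ⊓ (P : Subgroup G) := hRR'.symm
      _ ≤ (P : Subgroup G) := inf_le_right

theorem inf_eq_bot {G : Type u} [Group G] [Finite G] {p : ℕ} [Fact p.Prime] (hp3 : 3 ≤ p)
    (hcard : Nat.card (Sylow p G) = 2 * p + 1)
    (hfaith : ∀ g : G, (∀ Q : Sylow p G, g • Q = Q) → g = 1)
    (P Q : Sylow p G) (hPQ : P ≠ Q) : (P : Subgroup G) ⊓ (Q : Subgroup G) = ⊥ := by
  rw [eq_bot_iff]
  intro g hg
  rw [Subgroup.mem_bot]
  apply hfaith
  intro Z
  have hmem : g ∈ (Z : Subgroup G) := by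
    by_cases hZ : P = Z
    · rw [← hZ]
      exact (Subgroup.mem_inf.mp hg).1
    · have h1 := all_inf_eq hp3 hcard P Q Z hPQ hZ
      rw [h1] at hg
      exact (Subgroup.mem_inf.mp hg).2
  exact Sylow.smul_eq_iff_mem_normalizer.mpr (Subgroup.le_normalizer hmem)

theorem card_sylow_eq {G : Type u} [Group G] [Finite G] {p : ℕ} [Fact p.Prime] (hp3 : 3 ≤ p)
    (hcard : Nat.card (Sylow p G) = 2 * p + 1)
    (hfaith : ∀ g : G, (∀ Q : Sylow p G, g • Q = Q) → g = 1)
    (P : Sylow p G) : Nat.card ↥(P : Subgroup G) = p := by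
  have hnt : Nontrivial (Sylow p G) := by
    rw [← Finite.one_lt_card_iff_nontrivial, hcard]
    omega
  obtain ⟨Q, hQ⟩ := exists_ne P
  obtain ⟨-, -, c, -⟩ := orbit_facts hp3 hcard P Q (Ne.symm hQ)
  rw [inf_eq_bot hp3 hcard hfaith P Q (Ne.symm hQ), Subgroup.card_bot, one_mul] at c
  exact c.symm

theorem fix_eq {G : Type u} [Group G] [Finite G] {p : ℕ} [Fact p.Prime] (hp3 : 3 ≤ p)
    (hcard : Nat.card (Sylow p G) = 2 * p + 1)
    (hfaith : ∀ g : G, (∀ Q : Sylow p G, g • Q = Q) → g = 1)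
    (P Q : Sylow p G) (x : G) (hx : x ∈ (P : Subgroup G)) (hx1 : x ≠ 1) (h : x • Q = Q) :
    Q = P := by
  by_contra hne
  have h1 : x ∈ Subgroup.normalizer ((Q : Subgroup G) : Set G) :=
    Sylow.smul_eq_iff_mem_normalizer.mp h
  have h2 : x ∈ (P : Subgroup G) ⊓ Subgroup.normalizer ((Q : Subgroup G) : Set G) :=
    Subgroup.mem_inf.mpr ⟨hx, h1⟩
  have h5 : (P : Subgroup G) ⊓ Subgroup.normalizer ((Q : Subgroup G) : Set G) =
      (P : Subgroup G) ⊓ Q := IsPGroup.inf_normalizer_sylow P.2 Q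
  rw [h5, inf_eq_bot hp3 hcard hfaith P Q (Ne.symm hne)] at h2
  exact hx1 (Subgroup.mem_bot.mp h2)

/-! ### fixed point counts -/

theorem card_compl_support {G : Type u} [Group G] {p : ℕ} [Fintype (Sylow p G)]
    [DecidableEq (Sylow p G)] (y : G) :
    (MulAction.toPerm y : Equiv.Perm (Sylow p G)).supportᶜ.card =
      Nat.card {Q : Sylow p G // y • Q = Q} := by
  classical
  have hcompl : (MulAction.toPerm y : Equiv.Perm (Sylow p G)).supportᶜ =
      Finset.univ.filter (fun Q : Sylow p G => y • Q = Q) := by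
    ext Q
    simp only [Finset.mem_compl, Equiv.Perm.mem_support, ne_eq, not_not, Finset.mem_filter,
      Finset.mem_univ, true_and]
    exact Iff.rfl
  have h1 : Fintype.card {Q : Sylow p G // y • Q = Q} =
      (Finset.univ.filter (fun Q : Sylow p G => y • Q = Q)).card := Fintype.card_subtype _
  rw [hcompl, ← h1, Nat.card_eq_fintype_card]

theorem fix_modEq {G : Type u} [Group G] [Finite G] {p : ℕ} (y : G) (q n : ℕ) [Fact q.Prime]
    (hy : y ^ (q ^ n) = 1) :
    Nat.card {Q : Sylow p G // y • Q = Q} ≡ Nat.card (Sylow p G) [MOD q] := by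
  classical
  haveI : Fintype (Sylow p G) := Fintype.ofFinite _
  have hσ : (MulAction.toPerm y : Equiv.Perm (Sylow p G)) ^ q ^ n = 1 := by
    have h0 : (MulAction.toPerm y : Equiv.Perm (Sylow p G)) =
        MulAction.toPermHom G (Sylow p G) y := rfl
    rw [h0, ← map_pow, hy, map_one]
  have hmod := Equiv.Perm.card_compl_support_modEq hσ
  rw [card_compl_support, ← Nat.card_eq_fintype_card] at hmod
  exact hmod

theorem eq_one_of_fix_all {G : Type u} [Group G] [Finite G] {p : ℕ}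
    (hfaith : ∀ g : G, (∀ Q : Sylow p G, g • Q = Q) → g = 1) (y : G)
    (h : Nat.card {Q : Sylow p G // y • Q = Q} = Nat.card (Sylow p G)) : y = 1 := by
  apply hfaith
  intro Q
  by_contra hQ
  have hlt := Finite.card_subtype_lt (p := fun Q : Sylow p G => y • Q = Q) hQ
  omega

theorem fix_count {G : Type u} [Group G] [Finite G] {p : ℕ} [Fact p.Prime] (hp3 : 3 ≤ p)
    (hcard : Nat.card (Sylow p G) = 2 * p + 1)
    (hfaith : ∀ g : G, (∀ Q : Sylow p G, g • Q = Q) → g = 1)
    (P : Sylow p G) (x : G) (hx : x ∈ (P : Subgroup G)) (hx1 : x ≠ 1)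
    (y : G) (hxy : y * x = x * y) :
    ∃ k, k ≤ 2 ∧ Nat.card {Q : Sylow p G // y • Q = Q} = p * k + 1 := by
  classical
  haveI : Fintype (Sylow p G) := Fintype.ofFinite _
  have hp := (Fact.out : p.Prime)
  have hPcard := card_sylow_eq hp3 hcard hfaith P
  have hyP : y • P = P := by
    have h1 : x ∈ ((y • P : Sylow p G) : Subgroup G) := by
      rw [mem_smul_sylow]
      have h2 : y⁻¹ * x * y = x := by rw [mul_assoc, ← hxy, inv_mul_cancel_left]
      rw [h2]
      exact hx
    have h3 : x • (y • P) = y • P :=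
      Sylow.smul_eq_iff_mem_normalizer.mpr (Subgroup.le_normalizer h1)
    exact fix_eq hp3 hcard hfaith P (y • P) x hx hx1 h3
  have hinv : ∀ Q : Sylow p G, y • ((MulAction.toPerm x : Equiv.Perm (Sylow p G)) Q) =
      (MulAction.toPerm x : Equiv.Perm (Sylow p G)) Q ↔ y • Q = Q := by
    intro Q
    show y • (x • Q) = x • Q ↔ y • Q = Q
    rw [smul_smul, hxy, ← smul_smul]
    exact smul_left_cancel_iff x
  have hxp : x ^ p = 1 := by
    have h1 : (⟨x, hx⟩ : ↥(P : Subgroup G)) ^ Nat.card ↥(P : Subgroup G) = 1 := pow_card_eq_one'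
    rw [hPcard] at h1
    simpa using congrArg (fun z : ↥(P : Subgroup G) => (z : G)) h1
  have hf : (MulAction.toPerm x : Equiv.Perm (Sylow p G)) ^ p = 1 := by
    have h0 : (MulAction.toPerm x : Equiv.Perm (Sylow p G)) =
        MulAction.toPermHom G (Sylow p G) x := rfl
    rw [h0, ← map_pow, hxp, map_one]
  have hσ : (Equiv.Perm.subtypePerm (p := fun Q : Sylow p G => y • Q = Q)
      (MulAction.toPerm x : Equiv.Perm (Sylow p G)) hinv) ^ p ^ 1 = 1 := by
    rw [pow_one, Equiv.Perm.subtypePerm_pow]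
    refine Equiv.ext (fun a => Subtype.ext ?_)
    have h9 : ((MulAction.toPerm x : Equiv.Perm (Sylow p G)) ^ p) (a : Sylow p G) =
        (1 : Equiv.Perm (Sylow p G)) (a : Sylow p G) := by rw [hf]
    exact h9
  have hmod := Equiv.Perm.card_compl_support_modEq hσ
  have hcompl : (Equiv.Perm.subtypePerm (p := fun Q : Sylow p G => y • Q = Q)
      (MulAction.toPerm x : Equiv.Perm (Sylow p G)) hinv).supportᶜ =
      {⟨P, hyP⟩} := by
    ext a
    simp only [Finset.mem_compl, Equiv.Perm.mem_support, ne_eq, not_not, Finset.mem_singleton]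
    constructor
    · intro h
      have h1 : x • (a : Sylow p G) = a :=
        congrArg (fun z : {Q : Sylow p G // y • Q = Q} => (z : Sylow p G)) h
      exact Subtype.ext (fix_eq hp3 hcard hfaith P a x hx hx1 h1)
    · intro h
      rw [h]
      apply Subtype.ext
      show x • P = P
      exact Sylow.smul_eq_iff_mem_normalizer.mpr (Subgroup.le_normalizer hx)
  rw [hcompl, Finset.card_singleton, ← Nat.card_eq_fintype_card] at hmod
  have h1 : Nat.card {Q : Sylow p G // y • Q = Q} % p = 1 := by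
    have h2 : 1 % p = Nat.card {Q : Sylow p G // y • Q = Q} % p := hmod
    rw [← h2]
    exact Nat.mod_eq_of_lt (by omega)
  have hle : Nat.card {Q : Sylow p G // y • Q = Q} ≤ 2 * p + 1 := by
    rw [← hcard]
    exact Finite.card_subtype_le _
  have h3 := Nat.div_add_mod (Nat.card {Q : Sylow p G // y • Q = Q}) p
  rw [h1] at h3
  refine ⟨Nat.card {Q : Sylow p G // y • Q = Q} / p, ?_, h3.symm⟩
  have h4 : p * (Nat.card {Q : Sylow p G // y • Q = Q} / p) ≤ p * 2 := by omega
  exact Nat.le_of_mul_le_mul_left h4 hp.pos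

theorem all_even {G : Type u} [Group G] [Finite G] {p : ℕ} [Fact p.Prime] (hp3 : 3 ≤ p)
    [Fintype (Sylow p G)] [DecidableEq (Sylow p G)]
    (hmin : ∀ H : Subgroup G, (∀ Q : Sylow p G, (Q : Subgroup G) ≤ H) → H = ⊤) (g : G) :
    Equiv.Perm.sign (MulAction.toPerm g : Equiv.Perm (Sylow p G)) = 1 := by
  have hp := (Fact.out : p.Prime)
  have hK : (Equiv.Perm.sign.comp (MulAction.toPermHom G (Sylow p G))).ker = ⊤ := by
    apply hmin
    intro Q u hu
    rw [MonoidHom.mem_ker]
    obtain ⟨k, hk⟩ := Q.2 ⟨u, hu⟩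
    have hk' : u ^ (p ^ k) = 1 := by
      simpa using congrArg (fun z : ↥(Q : Subgroup G) => (z : G)) hk
    have h1 : ((Equiv.Perm.sign.comp (MulAction.toPermHom G (Sylow p G))) u) ^ (p ^ k) = 1 := by
      rw [← map_pow, hk', map_one]
    rcases Int.units_eq_one_or ((Equiv.Perm.sign.comp (MulAction.toPermHom G (Sylow p G))) u)
      with h | h
    · exact h
    · rw [h] at h1
      have hodd : Odd (p ^ k) := Odd.pow (hp.odd_of_ne_two (by omega))
      rw [Odd.neg_one_pow hodd] at h1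
      exact absurd (congrArg (fun z : ℤˣ => (z : ℤ)) h1) (by norm_num)
  have hg : g ∈ (Equiv.Perm.sign.comp (MulAction.toPermHom G (Sylow p G))).ker := by
    rw [hK]
    exact Subgroup.mem_top g
  exact MonoidHom.mem_ker.mp hg

theorem no_invol {G : Type u} [Group G] [Finite G] {p : ℕ} [Fact p.Prime] (hp3 : 3 ≤ p)
    (hcard : Nat.card (Sylow p G) = 2 * p + 1)
    (hfaith : ∀ g : G, (∀ Q : Sylow p G, g • Q = Q) → g = 1)
    (hmin : ∀ H : Subgroup G, (∀ Q : Sylow p G, (Q : Subgroup G) ≤ H) → H = ⊤)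
    (P : Sylow p G) (x : G) (hx : x ∈ (P : Subgroup G)) (hx1 : x ≠ 1)
    (y : G) (hxy : y * x = x * y) (hy2 : y ^ 2 = 1) : y = 1 := by
  classical
  haveI : Fintype (Sylow p G) := Fintype.ofFinite _
  have hp := (Fact.out : p.Prime)
  have hpodd : p % 2 = 1 := by
    rcases hp.eq_two_or_odd with h | h
    · omega
    · exact h
  obtain ⟨k, hk2, hk⟩ := fix_count hp3 hcard hfaith P x hx hx1 y hxy
  have hmod2 : Nat.card {Q : Sylow p G // y • Q = Q} % 2 = (2 * p + 1) % 2 := by
    have h := fix_modEq (p := p) y 2 1 (by rw [pow_one]; exact hy2)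
    rw [hcard] at h
    exact h
  by_contra hy1
  interval_cases k
  · have hc : Nat.card {Q : Sylow p G // y • Q = Q} = 1 := by omega
    have hτ1 : (MulAction.toPerm y : Equiv.Perm (Sylow p G)) ≠ 1 := by
      intro h
      apply hy1
      apply hfaith
      intro Q
      have h8 := congrArg (fun σ : Equiv.Perm (Sylow p G) => σ Q) h
      exact h8
    have hτ2 : (MulAction.toPerm y : Equiv.Perm (Sylow p G)) ^ 2 = 1 := by
      have h0 : (MulAction.toPerm y : Equiv.Perm (Sylow p G)) =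
          MulAction.toPermHom G (Sylow p G) y := rfl
      rw [h0, ← map_pow, hy2, map_one]
    have hord : orderOf (MulAction.toPerm y : Equiv.Perm (Sylow p G)) = 2 :=
      orderOf_eq_prime hτ2 hτ1
    obtain ⟨n, hn⟩ := Equiv.Perm.cycleType_prime_order
      (σ := (MulAction.toPerm y : Equiv.Perm (Sylow p G))) (by rw [hord]; exact Nat.prime_two)
    rw [hord] at hn
    have hsum := Equiv.Perm.sum_cycleType (MulAction.toPerm y : Equiv.Perm (Sylow p G))
    rw [hn, Multiset.sum_replicate, smul_eq_mul] at hsum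
    have hsupp := Finset.card_add_card_compl
      (MulAction.toPerm y : Equiv.Perm (Sylow p G)).support
    rw [card_compl_support, hc, ← Nat.card_eq_fintype_card, hcard] at hsupp
    have hn1 : n + 1 = p := by omega
    have hsign := Equiv.Perm.sign_of_cycleType (MulAction.toPerm y : Equiv.Perm (Sylow p G))
    rw [hn, Multiset.sum_replicate, Multiset.card_replicate, smul_eq_mul, hn1] at hsign
    have hodd : Odd (p * 2 + p) := Nat.odd_iff.mpr (by omega)
    rw [Odd.neg_one_pow hodd, all_even hp3 hmin y] at hsign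
    exact absurd (congrArg (fun z : ℤˣ => (z : ℤ)) hsign) (by norm_num)
  · omega
  · apply hy1
    apply eq_one_of_fix_all hfaith y
    omega

theorem no_two_elt {G : Type u} [Group G] [Finite G] {p : ℕ} [Fact p.Prime] (hp3 : 3 ≤ p)
    (hcard : Nat.card (Sylow p G) = 2 * p + 1)
    (hfaith : ∀ g : G, (∀ Q : Sylow p G, g • Q = Q) → g = 1)
    (hmin : ∀ H : Subgroup G, (∀ Q : Sylow p G, (Q : Subgroup G) ≤ H) → H = ⊤)
    (P : Sylow p G) (x : G) (hx : x ∈ (P : Subgroup G)) (hx1 : x ≠ 1) :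
    ∀ (k : ℕ) (y : G), y * x = x * y → y ^ (2 ^ k) = 1 → y = 1 := by
  intro k
  induction k with
  | zero =>
    intro y _ hy
    simpa using hy
  | succ k ih =>
    intro y hxy hy
    have hc : Commute y x := hxy
    have h1 : y ^ 2 = 1 := by
      apply ih (y ^ 2) (hc.pow_left 2).eq
      rw [← pow_mul, ← pow_succ']
      exact hy
    exact no_invol hp3 hcard hfaith hmin P x hx hx1 y hxy h1

theorem no_five {G : Type u} [Group G] [Finite G] {p : ℕ} [Fact p.Prime] (hp3 : 3 ≤ p)
    (hp5 : p % 5 = 2)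
    (hcard : Nat.card (Sylow p G) = 2 * p + 1)
    (hfaith : ∀ g : G, (∀ Q : Sylow p G, g • Q = Q) → g = 1)
    (P : Sylow p G) (x : G) (hx : x ∈ (P : Subgroup G)) (hx1 : x ≠ 1)
    (y : G) (hxy : y * x = x * y) (hy5 : y ^ 5 = 1) : y = 1 := by
  haveI : Fact (Nat.Prime 5) := ⟨by norm_num⟩
  obtain ⟨k, hk2, hk⟩ := fix_count hp3 hcard hfaith P x hx hx1 y hxy
  have hmod5 : Nat.card {Q : Sylow p G // y • Q = Q} % 5 = (2 * p + 1) % 5 := by
    have h := fix_modEq (p := p) y 5 1 (by rw [pow_one]; exact hy5)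
    rw [hcard] at h
    exact h
  apply eq_one_of_fix_all hfaith y
  interval_cases k <;> omega

/-! ### the contradiction in the reduced situation -/

theorem reduced_false {G : Type u} [Group G] [Finite G] {p : ℕ} [Fact p.Prime] (hp3 : 3 ≤ p)
    (hp5 : p % 5 = 2) (h25 : (2 * p + 1) % 25 ≠ 0)
    (hcard : Nat.card (Sylow p G) = 2 * p + 1)
    (hfaith : ∀ g : G, (∀ Q : Sylow p G, g • Q = Q) → g = 1)
    (hmin : ∀ H : Subgroup G, (∀ Q : Sylow p G, (Q : Subgroup G) ≤ H) → H = ⊤) : False := by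
  classical
  have hp := (Fact.out : p.Prime)
  haveI : Fact (Nat.Prime 5) := ⟨by norm_num⟩
  -- Step A: the order of `G` is odd
  have hodd : ¬ 2 ∣ Nat.card G := by
    intro h2
    obtain ⟨T⟩ := (inferInstance : Nonempty (Sylow 2 G))
    have hfix : (MulAction.fixedPoints ↥(T : Subgroup G) (Sylow p G)).Nonempty :=
      IsPGroup.nonempty_fixed_point_of_prime_not_dvd_card T.2 (Sylow p G)
        (by rw [hcard]; omega)
    obtain ⟨P, hP⟩ := hfix
    have hTN : (T : Subgroup G) ≤ Subgroup.normalizer ((P : Subgroup G) : Set G) :=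
      (Subgroup.sylow_mem_fixedPoints_iff (T : Subgroup G)).mp hP
    have hPcard := card_sylow_eq hp3 hcard hfaith P
    have hex : ∃ x ∈ (P : Subgroup G), x ≠ 1 := by
      by_contra hcon
      push Not at hcon
      have hbot : (P : Subgroup G) = ⊥ := (Subgroup.eq_bot_iff_forall _).mpr hcon
      rw [hbot, Subgroup.card_bot] at hPcard
      omega
    obtain ⟨x, hx, hx1⟩ := hex
    have hcycP : IsCyclic ↥(P : Subgroup G) := isCyclic_of_prime_card hPcard
    have hcycU : IsCyclic (ZMod (Nat.card ↥(P : Subgroup G)))ˣ :=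
      ZMod.isCyclic_units_prime (by rw [hPcard]; exact hp)
    let ψ : ↥(T : Subgroup G) →* (ZMod (Nat.card ↥(P : Subgroup G)))ˣ :=
      ((IsCyclic.mulAutMulEquiv ↥(P : Subgroup G)).toMonoidHom.comp
        (P : Subgroup G).normalizerMonoidHom).comp (Subgroup.inclusion hTN)
    have hψ : Function.Injective ψ := by
      rw [injective_iff_map_eq_one]
      intro t ht
      have h2' : (IsCyclic.mulAutMulEquiv ↥(P : Subgroup G))
          ((P : Subgroup G).normalizerMonoidHom (Subgroup.inclusion hTN t)) = 1 := ht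
      have h1 : (P : Subgroup G).normalizerMonoidHom (Subgroup.inclusion hTN t) = 1 :=
        (MulEquiv.map_eq_one_iff _).mp h2'
      have h3 : Subgroup.inclusion hTN t ∈ ((P : Subgroup G).normalizerMonoidHom).ker :=
        MonoidHom.mem_ker.mpr h1
      rw [Subgroup.normalizerMonoidHom_ker, Subgroup.mem_subgroupOf] at h3
      have h4 : (t : G) ∈ Subgroup.centralizer ((P : Subgroup G) : Set G) := h3
      have h5 : x * (t : G) = (t : G) * x := Subgroup.mem_centralizer_iff.mp h4 x hx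
      obtain ⟨k, hk⟩ := T.2 t
      have hk' : (t : G) ^ (2 ^ k) = 1 := by
        simpa using congrArg (fun z : ↥(T : Subgroup G) => (z : G)) hk
      have h6 := no_two_elt hp3 hcard hfaith hmin P x hx hx1 k (t : G) h5.symm hk'
      exact Subtype.ext h6
    have hcycT : IsCyclic ↥(T : Subgroup G) := isCyclic_of_injective ψ hψ
    have hmf : (Nat.card G).minFac = 2 := (Nat.minFac_eq_two_iff _).mpr h2
    have hcompl := IsCyclic.isComplement' (P := T) hmf hcycT
    have hidx := hcompl.symm.index_eq_card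
    obtain ⟨j, hj⟩ := IsPGroup.iff_card.mp T.2
    rw [hj] at hidx
    have hcop : Nat.Coprime (2 ^ j) p := by
      apply Nat.Coprime.pow_left
      rw [Nat.coprime_primes Nat.prime_two hp]
      omega
    rw [← hidx] at hcop
    have htop := hmin _ (fun Q => sylow_le_of_coprime_index _ hcop Q)
    rw [htop, Subgroup.index_top] at hidx
    have hTbot : (T : Subgroup G) ≠ ⊥ := T.ne_bot_of_dvd_card h2
    apply hTbot
    apply Subgroup.card_eq_one.mp
    rw [hj, ← hidx]
  -- Step B: the Sylow 5-subgroup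
  obtain ⟨P⟩ := (inferInstance : Nonempty (Sylow p G))
  have hPcard := card_sylow_eq hp3 hcard hfaith P
  have hex : ∃ x ∈ (P : Subgroup G), x ≠ 1 := by
    by_contra hcon
    push Not at hcon
    have hbot : (P : Subgroup G) = ⊥ := (Subgroup.eq_bot_iff_forall _).mpr hcon
    rw [hbot, Subgroup.card_bot] at hPcard
    omega
  obtain ⟨x, hx, hx1⟩ := hex
  have hcycP : IsCyclic ↥(P : Subgroup G) := isCyclic_of_prime_card hPcard
  have hindex : (Subgroup.normalizer ((P : Subgroup G) : Set G)).index = 2 * p + 1 := by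
    rw [← hcard]
    exact (Sylow.card_eq_index_normalizer P).symm
  have hGcard : (2 * p + 1) * Nat.card ↥(Subgroup.normalizer ((P : Subgroup G) : Set G)) =
      Nat.card G := by
    rw [← hindex]
    exact Subgroup.index_mul_card _
  have hN5 : ¬ 5 ∣ Nat.card ↥(Subgroup.normalizer ((P : Subgroup G) : Set G)) := by
    intro h5
    obtain ⟨y, hy⟩ := exists_prime_orderOf_dvd_card' 5 h5
    have hy5 : y ^ 5 = 1 := by
      have h0 := pow_orderOf_eq_one y
      rw [hy] at h0
      exact h0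
    have hAut : Nat.card (MulAut ↥(P : Subgroup G)) = p - 1 := by
      rw [IsCyclic.card_mulAut ↥(P : Subgroup G), hPcard, Nat.totient_prime hp]
    have h1 : orderOf ((P : Subgroup G).normalizerMonoidHom y) ∣ 5 := by
      apply orderOf_dvd_of_pow_eq_one
      rw [← map_pow, hy5, map_one]
    have h2 : orderOf ((P : Subgroup G).normalizerMonoidHom y) ∣ p - 1 := by
      rw [← hAut]
      exact orderOf_dvd_natCard _
    have hcop : Nat.Coprime 5 (p - 1) := by
      rw [Nat.Prime.coprime_iff_not_dvd (by norm_num)]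
      omega
    have h3 : orderOf ((P : Subgroup G).normalizerMonoidHom y) = 1 :=
      Nat.eq_one_of_dvd_coprimes hcop h1 h2
    rw [orderOf_eq_one_iff] at h3
    have h4 : y ∈ ((P : Subgroup G).normalizerMonoidHom).ker := MonoidHom.mem_ker.mpr h3
    rw [Subgroup.normalizerMonoidHom_ker, Subgroup.mem_subgroupOf] at h4
    have h5' : x * (y : G) = (y : G) * x := Subgroup.mem_centralizer_iff.mp h4 x hx
    have hy5' : (y : G) ^ 5 = 1 := by
      simpa using congrArg
        (fun z : ↥(Subgroup.normalizer ((P : Subgroup G) : Set G)) => (z : G)) hy5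
    have h6 := no_five hp3 hp5 hcard hfaith P x hx hx1 (y : G) h5'.symm hy5'
    have h7 : y = 1 := Subtype.ext h6
    rw [h7, orderOf_one] at hy
    omega
  have h5G : 5 ∣ Nat.card G := by
    rw [← hGcard]
    exact Dvd.dvd.mul_right (Nat.dvd_of_mod_eq_zero (by omega)) _
  have h25G : ¬ 25 ∣ Nat.card G := by
    intro h
    rw [← hGcard] at h
    obtain ⟨m, hm⟩ : 5 ∣ 2 * p + 1 := Nat.dvd_of_mod_eq_zero (by omega)
    have hm5 : ¬ 5 ∣ m := by
      rintro ⟨m', rfl⟩
      omega
    rw [hm] at h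
    have h' : 5 * 5 ∣ 5 * (m * Nat.card ↥(Subgroup.normalizer ((P : Subgroup G) : Set G))) := by
      have e : (25 : ℕ) = 5 * 5 := by norm_num
      rw [← e, ← mul_assoc]
      exact h
    have h'' : 5 ∣ m * Nat.card ↥(Subgroup.normalizer ((P : Subgroup G) : Set G)) :=
      Nat.dvd_of_mul_dvd_mul_left (by norm_num) h'
    rcases (Nat.Prime.dvd_mul (by norm_num)).mp h'' with h9 | h9
    · exact hm5 h9
    · exact hN5 h9
  obtain ⟨R⟩ := (inferInstance : Nonempty (Sylow 5 G))
  have hRcard : Nat.card ↥(R : Subgroup G) = 5 := by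
    obtain ⟨k, hk⟩ := IsPGroup.iff_card.mp R.2
    have hdvd : 5 ^ k ∣ Nat.card G := by
      rw [← hk]
      exact Subgroup.card_subgroup_dvd_card _
    have hk2 : k < 2 := by
      by_contra hge
      have h : (5 : ℕ) ^ 2 ∣ 5 ^ k := pow_dvd_pow 5 (by omega)
      have e : (5 : ℕ) ^ 2 = 25 := by norm_num
      rw [e] at h
      exact h25G (dvd_trans h hdvd)
    have hk0 : k ≠ 0 := by
      rintro rfl
      rw [pow_zero] at hk
      exact R.ne_bot_of_dvd_card h5G (Subgroup.card_eq_one.mp hk)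
    have hk1 : k = 1 := by omega
    rw [hk, hk1, pow_one]
  have hcycR : IsCyclic ↥(R : Subgroup G) := isCyclic_of_prime_card hRcard
  have hNC : Subgroup.normalizer ((R : Subgroup G) : Set G) ≤
      Subgroup.centralizer ((R : Subgroup G) : Set G) := by
    have key := Subgroup.card_dvd_of_injective _
      (QuotientGroup.kerLift_injective (R : Subgroup G).normalizerMonoidHom)
    rw [Subgroup.normalizerMonoidHom_ker, ← Subgroup.index, ← Subgroup.relIndex] at key
    rw [IsCyclic.card_mulAut ↥(R : Subgroup G), hRcard, Nat.totient_prime (by norm_num)] at key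
    have h4 : Nat.Coprime (Nat.card G) (5 - 1) := by
      have h2 : Nat.Coprime (Nat.card G) 2 := by
        rw [Nat.coprime_comm, Nat.Prime.coprime_iff_not_dvd Nat.prime_two]
        exact hodd
      have h22 := Nat.Coprime.mul_right h2 h2
      exact h22
    have hd : (Subgroup.centralizer ((R : Subgroup G) : Set G)).relIndex
        (Subgroup.normalizer ((R : Subgroup G) : Set G)) ∣ Nat.card G :=
      dvd_trans (Subgroup.relIndex_dvd_card _ _) (Subgroup.card_subgroup_dvd_card _)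
    exact Subgroup.relIndex_eq_one.mp (Nat.eq_one_of_dvd_coprimes h4 hd key)
  have hcompl := MonoidHom.ker_transferSylow_isComplement' R hNC
  have hidx := hcompl.symm.index_eq_card
  rw [hRcard] at hidx
  have hcop : Nat.Coprime (MonoidHom.transferSylow R hNC).ker.index p := by
    rw [hidx, Nat.coprime_primes (by norm_num) hp]
    omega
  have htop := hmin _ (fun Q => sylow_le_of_coprime_index _ hcop Q)
  rw [htop, Subgroup.index_top] at hidx
  omega

/-- For an odd prime `p ≡ 2 (mod 5)` with `25 ∤ 2p+1`, no finite group has exactly `2p+1`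
Sylow `p`-subgroups. -/
theorem main_aux (p : ℕ) [Fact p.Prime] (hp3 : 3 ≤ p) (hp5 : p % 5 = 2)
    (h25 : (2 * p + 1) % 25 ≠ 0) :
    ∀ (n : ℕ) (G : Type u) [Group G] [Finite G], Nat.card G = n →
      Nat.card (Sylow p G) ≠ 2 * p + 1 := by
  intro n
  induction n using Nat.strong_induction_on with
  | _ n ih =>
    intro G _ _ hn hcard
    have hmin : ∀ H : Subgroup G, (∀ Q : Sylow p G, (Q : Subgroup G) ≤ H) → H = ⊤ := by
      intro H hH
      by_contra hne
      have hlt : Nat.card ↥H < n := by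
        rw [← hn]
        have hle : Nat.card ↥H ≤ Nat.card G := Subgroup.card_le_card_group H
        rcases hle.lt_or_eq with h | h
        · exact h
        · exact absurd ((Subgroup.card_eq_iff_eq_top H).mp h) hne
      exact ih _ hlt ↥H rfl ((card_sylow_of_le H hH).trans hcard)
    have hfaith : ∀ g : G, (∀ Q : Sylow p G, g • Q = Q) → g = 1 := by
      intro g hg
      by_contra hg1
      have hKmem : g ∈ (MulAction.toPermHom G (Sylow p G)).ker := by
        rw [MonoidHom.mem_ker]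
        apply Equiv.ext
        intro Q
        exact hg Q
      have hKnorm : ∀ Q : Sylow p G, (MulAction.toPermHom G (Sylow p G)).ker ≤
          Subgroup.normalizer ((Q : Subgroup G) : Set G) := by
        intro Q k hk
        rw [MonoidHom.mem_ker] at hk
        have h1 : k • Q = Q := congrArg (fun σ : Equiv.Perm (Sylow p G) => σ Q) hk
        exact Sylow.smul_eq_iff_mem_normalizer.mp h1
      have hlt : Nat.card (G ⧸ (MulAction.toPermHom G (Sylow p G)).ker) < n := by
        rw [← hn]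
        have h1 := Subgroup.card_eq_card_quotient_mul_card_subgroup
          (MulAction.toPermHom G (Sylow p G)).ker
        have h2 : 1 < Nat.card ↥(MulAction.toPermHom G (Sylow p G)).ker := by
          rw [Subgroup.one_lt_card_iff_ne_bot]
          intro hbot
          rw [hbot, Subgroup.mem_bot] at hKmem
          exact hg1 hKmem
        have h3 : 0 < Nat.card (G ⧸ (MulAction.toPermHom G (Sylow p G)).ker) := Nat.card_pos
        have h4 := Nat.mul_le_mul_left (Nat.card (G ⧸ (MulAction.toPermHom G (Sylow p G)).ker)) h2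
        omega
      exact ih _ hlt (G ⧸ (MulAction.toPermHom G (Sylow p G)).ker) rfl
        ((card_sylow_quotient _ hKnorm).trans hcard)
    exact reduced_false hp3 hp5 h25 hcard hfaith hmin

/-- No finite group has exactly 15 Sylow 7-subgroups. -/
theorem result {G : Type*} [Group G] [Finite G] : Nat.card (Sylow 7 G) ≠ 15 := by
  haveI : Fact (Nat.Prime 7) := ⟨by norm_num⟩
  exact main_aux 7 (by norm_num) (by norm_num) (by norm_num) (Nat.card G) G rfl

end Cfsg.Agent.S4304
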