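import Cfsg.Statements.S4237
import Cfsg.Agent.Helper29.KulC
import Cfsg.Agent.Helper29.KulF

set_option autoImplicit false
open Cfsg

namespace Cfsg.Agent.S4237

/-- Let G be a finite group, p a prime and a a natural number such that p^(a+1) divides the order of G. Then the number of subgroups of G of order p^a is congruent to 1 or to 1 + p modulo p². -/
theorem result {G : Type*} [Group G] [Finite G] (p a : ℕ) (hp : p.Prime) (hdvd : p ^ (a + 1) ∣ Nat.card G) :
    Nat.card {H : Subgroup G // Nat.card H = p ^ a} ≡ 1 [MOD p ^ 2] ∨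
      Nat.card {H : Subgroup G // Nat.card H = p ^ a} ≡ 1 + p [MOD p ^ 2] := by
  classical
haveI : Fact p.Prime := ⟨hp⟩
by_cases hp2 : p = 2
· subst hp2
  have h1 := Helper21.card_subgroups_modEq_one (G := G) 2 a hp
    (Dvd.dvd.trans (pow_dvd_pow 2 (Nat.le_succ a)) hdvd)
  have h2 : Nat.card {H : Subgroup G // Nat.card H = 2 ^ a} % 2 = 1 := h1
  unfold Nat.ModEq
  norm_num
  omega
· obtain ⟨P⟩ := (inferInstance : Nonempty (Sylow p G))
  obtain ⟨n, hn⟩ := IsPGroup.iff_card.1 P.isPGroup'
  have h1 : p ^ (a + 1) ∣ p ^ n := hn ▸ P.pow_dvd_card_of_pow_dvd_card hdvd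
  have han : a < n := by
    have h0 := (Nat.pow_dvd_pow_iff_le_right hp.one_lt).1 h1
    omega
  have h2 := Helper29.Kul.card_subgroups_modEq_sylow P a n hn han
  rcases Nat.eq_zero_or_pos a with ha | ha
  · left
    subst ha
    have h3 : Nat.card {H : Subgroup G // Nat.card H = p ^ 0} = 1 := by
      rw [Nat.card_eq_one_iff_unique]
      refine ⟨⟨?_⟩, ⟨⟨⊥, by rw [pow_zero]; exact Subgroup.card_bot⟩⟩⟩
      rintro ⟨H, hH⟩ ⟨K, hK⟩
      apply Subtype.ext
      rw [pow_zero] at hH hK
      exact (Subgroup.eq_bot_of_card_eq H hH).trans (Subgroup.eq_bot_of_card_eq K hK).symm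
    rw [h3]
  · by_cases hc : IsCyclic (P : Subgroup G)
    · left
      have h3 := Helper21.cyclic_card_subgroups_eq_one (C := (P : Subgroup G)) p a hp
        (by rw [hn]; exact pow_dvd_pow p han.le)
      rw [h3] at h2
      exact h2
    · right
      exact h2.trans (Helper29.Kul.kulakoff p hp2 n (P : Subgroup G) hn hc a ha han)

end Cfsg.Agent.S4237
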