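import Cfsg.Statements.S4238
import Mathlib
import Cfsg.Agent.Lead.Frobenius
import Cfsg.Agent.Lead.HallCentral

set_option autoImplicit false
open Cfsg

namespace Cfsg.Agent.S4238

open scoped commutatorElement

/-- Elementwise coprime-action lemma: if the commutator `x⁻¹g⁻¹xg` is a `p`-element commuting
with the `p'`-element `g`, it is trivial. -/
theorem comm_eq_one_of_coprime {K : Type*} [Group K] {p : ℕ} (g x : K) (k : ℕ)
    (hcop : (orderOf g).Coprime p)
    (hck : (x⁻¹ * g⁻¹ * x * g) ^ p ^ k = 1)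
    (hcg : (x⁻¹ * g⁻¹ * x * g) * g = g * (x⁻¹ * g⁻¹ * x * g)) :
    x⁻¹ * g⁻¹ * x * g = 1 := by
  obtain ⟨c, hc⟩ : ∃ c : K, c = x⁻¹ * g⁻¹ * x * g := ⟨_, rfl⟩
  rw [← hc] at hck hcg ⊢
  have hcgk : ∀ k : ℕ, g⁻¹ * c ^ k * g = c ^ k := by
    intro k
    have : Commute (c ^ k) g := (show Commute c g from hcg).pow_left k
    rw [mul_assoc, this.eq, inv_mul_cancel_left]
  have hxc : g⁻¹ * x * g = x * c := by rw [hc]; group
  have hpow : ∀ k : ℕ, (g ^ k)⁻¹ * x * g ^ k = x * c ^ k := by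
    intro k
    induction k with
    | zero => simp
    | succ k ih =>
      have e1 : (g ^ (k + 1))⁻¹ * x * g ^ (k + 1) = g⁻¹ * ((g ^ k)⁻¹ * x * g ^ k) * g := by
        rw [pow_succ]; group
      have e2 : g⁻¹ * (x * c ^ k) * g = (g⁻¹ * x * g) * (g⁻¹ * c ^ k * g) := by group
      rw [e1, ih, e2, hxc, hcgk, pow_succ', mul_assoc]
  have h1 := hpow (orderOf g)
  rw [pow_orderOf_eq_one, inv_one, one_mul, mul_one] at h1
  have h2 : c ^ orderOf g = 1 := by
    have := h1.symm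
    rwa [mul_eq_left] at this
  have hd1 : orderOf c ∣ p ^ k := orderOf_dvd_of_pow_eq_one hck
  have hd2 : orderOf c ∣ orderOf g := orderOf_dvd_of_pow_eq_one h2
  have hco : (orderOf g).Coprime (p ^ k) := Nat.Coprime.pow_right k hcop
  have : orderOf c = 1 := Nat.eq_one_of_dvd_coprimes hco hd2 hd1
  exact orderOf_eq_one_iff.mp this

/-- A finite `p`-group has an element whose order is the exponent. -/
theorem exists_orderOf_eq_exponent_of_pgroup {Q : Type*} [Group Q] [Finite Q] {p : ℕ}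
    [hp : Fact p.Prime] (hQ : IsPGroup p Q) : ∃ k : Q, orderOf k = Monoid.exponent Q := by
  obtain ⟨g, hg⟩ := Finite.exists_max (fun q : Q => orderOf q)
  refine ⟨g, Nat.dvd_antisymm (Monoid.order_dvd_exponent g) ?_⟩
  apply Monoid.exponent_dvd_of_forall_pow_eq_one
  intro h
  obtain ⟨a, ha⟩ := (IsPGroup.iff_orderOf.mp hQ) g
  obtain ⟨b, hb⟩ := (IsPGroup.iff_orderOf.mp hQ) h
  have hle := hg h
  simp only [ha, hb] at hle
  have hba : b ≤ a := (Nat.pow_le_pow_iff_right hp.out.one_lt).mp hle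
  rw [ha]
  have hd : orderOf h ∣ p ^ a := by rw [hb]; exact pow_dvd_pow p hba
  exact orderOf_dvd_iff_pow_eq_one.mp hd

/-- powers of `a * h` with `a` in a normal subgroup. -/
theorem mul_pow_mem_normal {K : Type*} [Group K] (N : Subgroup K) [hN : N.Normal] (a h : K)
    (ha : a ∈ N) (m : ℕ) : (a * h) ^ m * (h ^ m)⁻¹ ∈ N := by
  induction m with
  | zero => simp
  | succ m ih =>
    have e : (a * h) ^ (m + 1) * (h ^ (m + 1))⁻¹ =
        ((a * h) ^ m * (h ^ m)⁻¹) * (h ^ m * a * (h ^ m)⁻¹) := by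
      rw [pow_succ, pow_succ]; group
    rw [e]
    exact N.mul_mem ih (hN.conj_mem a ha _)

/-- The subgroup `X⟨g⟩` for `g` normalising `X`. -/
theorem exists_semi {G : Type*} [Group G] (X : Subgroup G) (g : G)
    (hgN : g ∈ Subgroup.normalizer (X : Set G)) :
    ∃ Y : Subgroup G, X ≤ Y ∧ g ∈ Y ∧ Y ≤ Subgroup.normalizer (X : Set G) ∧
      ∀ y ∈ Y, ∃ x ∈ X, ∃ k : ℤ, y = x * g ^ k := by
  let Y : Subgroup G :=
    { carrier := {y | ∃ x ∈ X, ∃ k : ℤ, y = x * g ^ k}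
      one_mem' := ⟨1, X.one_mem, 0, by simp⟩
      mul_mem' := by
        rintro _ _ ⟨x, hx, k, rfl⟩ ⟨x', hx', l, rfl⟩
        refine ⟨x * (g ^ k * x' * (g ^ k)⁻¹), X.mul_mem hx ?_, k + l, ?_⟩
        · exact (Subgroup.mem_normalizer_iff.mp (Subgroup.zpow_mem _ hgN k) x').mp hx'
        · rw [zpow_add]; group
      inv_mem' := by
        rintro _ ⟨x, hx, k, rfl⟩
        refine ⟨(g ^ (-k)) * x⁻¹ * (g ^ (-k))⁻¹, ?_, -k, ?_⟩
        · exact (Subgroup.mem_normalizer_iff.mp (Subgroup.zpow_mem _ hgN (-k)) x⁻¹).mp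
            (X.inv_mem hx)
        · rw [zpow_neg]; group }
  refine ⟨Y, fun x hx => ⟨x, hx, 0, by simp⟩, ⟨1, X.one_mem, 1, by simp⟩, ?_, fun y hy => hy⟩
  rintro _ ⟨x, hx, k, rfl⟩
  exact Subgroup.mul_mem _ (Subgroup.le_normalizer hx) (Subgroup.zpow_mem _ hgN k)

/-- The bad section: a normal `p`-subgroup `X` with `Y = X⟨g⟩`, `g` a `p'`-element centralising
`X'` but not `X`, yields a quotient with trivial `p'`-core and no element of order the exponent. -/
theorem bad_section {Y : Type*} [Group Y] [Finite Y] {p : ℕ} [hp : Fact p.Prime]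
    (X : Subgroup Y) [hXn : X.Normal] (hX : IsPGroup p X) (g : Y) (hcop : (orderOf g).Coprime p)
    (hgen : ∀ y : Y, ∃ x ∈ X, ∃ k : ℤ, y = x * g ^ k)
    (hder : ∀ a ∈ X, ∀ b ∈ X, ⁅a, b⁆ * g = g * ⁅a, b⁆)
    (hnc : ∃ x ∈ X, x⁻¹ * g⁻¹ * x * g ≠ 1) :
    ∃ (N : Subgroup Y) (_ : N.Normal), Cfsg.pPrimeCore p (Y ⧸ N) = ⊥ ∧
      ∀ k : Y ⧸ N, orderOf k ≠ Monoid.exponent (Y ⧸ N) := by
  classical
  have hex : ∃ n, ∃ N : Subgroup Y, N.Normal ∧ (∃ x ∈ X, x⁻¹ * g⁻¹ * x * g ∉ N) ∧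
      N.index = n := by
    obtain ⟨x, hx, hxg⟩ := hnc
    exact ⟨_, ⊥, inferInstance, ⟨x, hx, by rwa [Subgroup.mem_bot]⟩, rfl⟩
  obtain ⟨N, hN, ⟨x₀, hx₀, hx₀N⟩, hNn⟩ := Nat.find_spec hex
  have hmax : ∀ M : Subgroup Y, M.Normal → N < M → ∀ x ∈ X, x⁻¹ * g⁻¹ * x * g ∈ M := by
    intro M hM hNM x hx
    by_contra hxM
    have h1 : Nat.find hex ≤ M.index := Nat.find_min' hex ⟨M, hM, ⟨x, hx, hxM⟩, rfl⟩
    rw [← hNn] at h1
    have h2 : M.index < N.index := Subgroup.index_strictAnti hNM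
    omega
  refine ⟨N, hN, ?_⟩
  obtain ⟨π, hπ⟩ : ∃ π : Y →* Y ⧸ N, π = QuotientGroup.mk' N := ⟨_, rfl⟩
  have hπs : Function.Surjective π := by rw [hπ]; exact QuotientGroup.mk'_surjective N
  have hker : ∀ y : Y, π y = 1 ↔ y ∈ N := by
    intro y; rw [hπ]; exact QuotientGroup.eq_one_iff y
  -- F1
  have F1 : ∀ M : Subgroup (Y ⧸ N), M.Normal → M ≠ ⊥ → ∀ x ∈ X, π (x⁻¹ * g⁻¹ * x * g) ∈ M := by
    intro M hM hMb x hx
    have hle : N ≤ M.comap π := by
      intro n hn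
      rw [Subgroup.mem_comap, (hker n).mpr hn]
      exact M.one_mem
    have hne : N ≠ M.comap π := by
      intro h
      apply hMb
      rw [← Subgroup.map_comap_eq_self_of_surjective hπs M, ← h, hπ]
      exact QuotientGroup.map_mk'_self N
    exact hmax _ (hM.comap π) (lt_of_le_of_ne hle hne) x hx
  have F0 : π (x₀⁻¹ * g⁻¹ * x₀ * g) ≠ 1 := fun h => hx₀N ((hker _).mp h)
  have hcX : ∀ x ∈ X, x⁻¹ * g⁻¹ * x * g ∈ X := by
    intro x hx
    have h1 : g⁻¹ * x * g ∈ X := by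
      have := hXn.conj_mem x hx g⁻¹
      rwa [inv_inv] at this
    have := X.mul_mem (X.inv_mem hx) h1
    rw [← mul_assoc, ← mul_assoc] at this
    exact this
  have Fp : ∀ x ∈ X, ∃ k : ℕ, (π x) ^ p ^ k = 1 := by
    intro x hx
    obtain ⟨k, hk⟩ := hX ⟨x, hx⟩
    have hk' : x ^ p ^ k = 1 := by simpa using congrArg Subtype.val hk
    exact ⟨k, by rw [← map_pow, hk', map_one]⟩
  have hcopb : (orderOf (π g)).Coprime p :=
    Nat.Coprime.coprime_dvd_left (orderOf_map_dvd π g) hcop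
  have hπc : ∀ x : Y, (π x)⁻¹ * (π g)⁻¹ * π x * π g = π (x⁻¹ * g⁻¹ * x * g) := by
    intro x; simp
  -- key: the image of c₀ does not commute with π g
  have F3 : ¬ (π (x₀⁻¹ * g⁻¹ * x₀ * g) * π g = π g * π (x₀⁻¹ * g⁻¹ * x₀ * g)) := by
    intro hcomm
    obtain ⟨k, hk⟩ := Fp _ (hcX x₀ hx₀)
    apply F0
    rw [← hπc] at hk hcomm ⊢
    exact comm_eq_one_of_coprime (π g) (π x₀) k hcopb hk hcomm
  -- F4: image of X is abelian
  have hXbn : (X.map π).Normal := hXn.map π hπs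
  have F4 : ∀ a ∈ X, ∀ b ∈ X, π a * π b = π b * π a := by
    by_contra hne
    have hD : ⁅X.map π, X.map π⁆ ≠ ⊥ := by
      intro hD
      apply hne
      intro a ha b hb
      have : ⁅π a, π b⁆ ∈ ⁅X.map π, X.map π⁆ :=
        Subgroup.commutator_mem_commutator (Subgroup.mem_map_of_mem π ha)
          (Subgroup.mem_map_of_mem π hb)
      rw [hD, Subgroup.mem_bot, commutatorElement_eq_one_iff_commute] at this
      exact this
    have h1 := F1 _ inferInstance hD x₀ hx₀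
    have h2 : ⁅X.map π, X.map π⁆ ≤ Subgroup.centralizer {π g} := by
      rw [Subgroup.commutator_le]
      rintro _ ⟨a, ha, rfl⟩ _ ⟨b, hb, rfl⟩
      rw [Subgroup.mem_centralizer_iff]
      intro h hh
      rw [Set.mem_singleton_iff] at hh
      rw [hh, ← map_commutatorElement, ← map_mul, ← map_mul, hder a ha b hb]
    have h3 := Subgroup.mem_centralizer_iff.mp (h2 h1) (π g) rfl
    exact F3 h3.symm
  -- F5: no fixed points
  have F5 : ∀ x ∈ X, π x * π g = π g * π x → π x = 1 := by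
    by_contra hne
    push Not at hne
    obtain ⟨x₁, hx₁, hx₁c, hx₁1⟩ := hne
    obtain ⟨C, hC⟩ : ∃ C : Subgroup (Y ⧸ N), C = X.map π ⊓ Subgroup.centralizer {π g} := ⟨_, rfl⟩
    have hCcen : ∀ n ∈ C, ∀ κ : Y ⧸ N, κ * n * κ⁻¹ = n := by
      intro n hn κ
      rw [hC] at hn
      obtain ⟨⟨a, ha, rfl⟩, hn2⟩ := hn
      obtain ⟨y, rfl⟩ := hπs κ
      obtain ⟨x, hx, k, rfl⟩ := hgen y
      have e1 : Commute (π a) (π x) := F4 a ha x hx
      have e2 : Commute (π a) (π g) := (Subgroup.mem_centralizer_iff.mp hn2 (π g) rfl).symm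
      have e3 : Commute (π a) (π (x * g ^ k)) := by
        rw [map_mul, map_zpow]
        exact e1.mul_right (e2.zpow_right k)
      rw [← e3.eq, mul_inv_cancel_right]
    have hCn : C.Normal := ⟨fun n hn κ => by rw [hCcen n hn κ]; exact hn⟩
    have hCb : C ≠ ⊥ := by
      intro hb
      have : π x₁ ∈ C := by
        rw [hC]
        refine Subgroup.mem_inf.mpr ⟨Subgroup.mem_map_of_mem π hx₁, ?_⟩
        rw [Subgroup.mem_centralizer_iff]
        intro h hh
        rw [Set.mem_singleton_iff] at hh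
        rw [hh]; exact hx₁c.symm
      rw [hb, Subgroup.mem_bot] at this
      exact hx₁1 this
    have h1 := F1 C hCn hCb x₀ hx₀
    rw [hC] at h1
    have h3 := Subgroup.mem_centralizer_iff.mp (Subgroup.mem_inf.mp h1).2 (π g) rfl
    exact F3 h3.symm
  refine ⟨?_, ?_⟩
  · -- p'-core trivial
    unfold Cfsg.pPrimeCore
    rw [sSup_eq_bot]
    rintro M ⟨hMn, hMc⟩
    by_contra hMb
    have h1 := F1 M hMn hMb x₀ hx₀
    obtain ⟨k, hk⟩ := Fp _ (hcX x₀ hx₀)
    have hd1 : orderOf (π (x₀⁻¹ * g⁻¹ * x₀ * g)) ∣ p ^ k := orderOf_dvd_of_pow_eq_one hk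
    have hd2 : orderOf (π (x₀⁻¹ * g⁻¹ * x₀ * g)) ∣ Nat.card M := M.orderOf_dvd_natCard h1
    have hco : (Nat.card M).Coprime (p ^ k) := Nat.Coprime.pow_right k hMc
    have : orderOf (π (x₀⁻¹ * g⁻¹ * x₀ * g)) = 1 := Nat.eq_one_of_dvd_coprimes hco hd2 hd1
    exact F0 (orderOf_eq_one_iff.mp this)
  · -- no element of order the exponent
    intro κ hκ
    obtain ⟨E, hE⟩ : ∃ E : ℕ, E = Monoid.exponent (Y ⧸ N) := ⟨_, rfl⟩
    rw [← hE] at hκ
    obtain ⟨n, hn⟩ : ∃ n : ℕ, n = orderOf (π g) := ⟨_, rfl⟩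
    have hnE : n ∣ E := by rw [hn, hE]; exact Monoid.order_dvd_exponent _
    have hpE : p ∣ E := by
      obtain ⟨k, hk⟩ := Fp _ (hcX x₀ hx₀)
      have hd1 : orderOf (π (x₀⁻¹ * g⁻¹ * x₀ * g)) ∣ p ^ k := orderOf_dvd_of_pow_eq_one hk
      obtain ⟨j, hj, hj2⟩ := (Nat.dvd_prime_pow hp.out).mp hd1
      have hj0 : j ≠ 0 := by
        rintro rfl
        rw [pow_zero] at hj2
        exact F0 (orderOf_eq_one_iff.mp hj2)
      have : p ∣ orderOf (π (x₀⁻¹ * g⁻¹ * x₀ * g)) := by rw [hj2]; exact dvd_pow_self p hj0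
      exact this.trans (hE ▸ Monoid.order_dvd_exponent _)
    have hcopn : n.Coprime p := hn ▸ hcopb
    obtain ⟨y, rfl⟩ := hπs κ
    obtain ⟨x, hx, j, rfl⟩ := hgen y
    obtain ⟨h, hh⟩ : ∃ h : Y ⧸ N, h = π g ^ j := ⟨_, rfl⟩
    have hκ' : π (x * g ^ j) = π x * h := by rw [map_mul, map_zpow, hh]
    rw [hκ'] at hκ
    have hpow : ∀ m : ℕ, ∃ w ∈ X, (π x * h) ^ m = π w * h ^ m := by
      intro m
      have := mul_pow_mem_normal (X.map π) (π x) h (Subgroup.mem_map_of_mem π hx) m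
      obtain ⟨w, hw, hw2⟩ := this
      exact ⟨w, hw, by rw [hw2]; group⟩
    have hhn : orderOf h ∣ n := by
      rw [hn, hh]; exact orderOf_dvd_of_mem_zpowers (Subgroup.zpow_mem_zpowers _ j)
    have hnh : n ∣ orderOf h := by
      obtain ⟨w, hw, hw2⟩ := hpow (orderOf h)
      rw [pow_orderOf_eq_one, mul_one] at hw2
      obtain ⟨e, he⟩ := Fp w hw
      have : (π x * h) ^ (orderOf h * p ^ e) = 1 := by rw [pow_mul, hw2, he]
      have hd : E ∣ orderOf h * p ^ e := by rw [← hκ]; exact orderOf_dvd_of_pow_eq_one this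
      exact (Nat.Coprime.pow_right e hcopn).dvd_of_dvd_mul_right (hnE.trans hd)
    have hoh : orderOf h = n := Nat.dvd_antisymm hhn hnh
    have hgz : π g ∈ Subgroup.zpowers h := by
      have hle : Subgroup.zpowers h ≤ Subgroup.zpowers (π g) := by
        rw [Subgroup.zpowers_le, hh]; exact Subgroup.zpow_mem_zpowers _ j
      have hcard : Nat.card (Subgroup.zpowers (π g)) ≤ Nat.card (Subgroup.zpowers h) := by
        rw [Nat.card_zpowers, Nat.card_zpowers, hoh, hn]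
      rw [Subgroup.eq_of_le_of_card_ge hle hcard]
      exact Subgroup.mem_zpowers _
    obtain ⟨i, hi⟩ := Subgroup.mem_zpowers_iff.mp hgz
    obtain ⟨w, hw, hw2⟩ := hpow n
    rw [← hoh, pow_orderOf_eq_one, mul_one, hoh] at hw2
    have hu1 : π w ≠ 1 := by
      intro h1
      rw [h1] at hw2
      have hd : E ∣ n := by rw [← hκ]; exact orderOf_dvd_of_pow_eq_one hw2
      have hpn : p ∣ n := hpE.trans hd
      have := Nat.Coprime.eq_one_of_dvd hcopn.symm hpn
      exact hp.out.one_lt.ne' this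
    have hc1 : Commute (π w) (π x * h) := by
      rw [← hw2]; exact (Commute.refl _).pow_left n
    have hc2 : Commute (π w) (π x) := F4 w hw x hx
    have hc3 : Commute (π w) h := by
      have : h = (π x)⁻¹ * (π x * h) := by group
      rw [this]
      exact hc2.inv_right.mul_right hc1
    have hc4 : Commute (π w) (π g) := by
      rw [← hi]; exact hc3.zpow_right i
    exact hu1 (F5 w hw hc4.eq)

/-- Let G be a finite group and p a prime. Then G has a normal p-complement if and only if every section K = H/N of G (N a normal subgroup of a subgroup H) whose largest normal subgroup of order prime to p is trivial contains an element whose order equals the exponent of K. -/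
theorem result {G : Type*} [Group G] [Finite G] (p : ℕ) [Fact p.Prime] :
    Cfsg.HasNormalPComplement p G ↔
      ∀ (H : Subgroup G) (N : Subgroup H) [N.Normal], Cfsg.pPrimeCore p (H ⧸ N) = ⊥ →
        ∃ k : H ⧸ N, orderOf k = Monoid.exponent (H ⧸ N) := by
  classical
constructor
· rintro ⟨P, K, hK, hKc⟩ H N hN hcore
  obtain ⟨hidx, hcopK⟩ := Cfsg.Agent.Lead.npc_index_card P K hKc
  have hK1n : (K.subgroupOf H).Normal := hK.subgroupOf H
  have hK1c : (Nat.card (K.subgroupOf H)).Coprime p := by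
    have : Nat.card (K.subgroupOf H) ∣ Nat.card K :=
      Subgroup.card_comap_dvd_of_injective K H.subtype H.subtype_injective
    exact Nat.Coprime.coprime_dvd_left this hcopK
  have hM : (K.subgroupOf H).map (QuotientGroup.mk' N) ≤ Cfsg.pPrimeCore p (H ⧸ N) := by
    apply le_sSup
    refine ⟨hK1n.map _ (QuotientGroup.mk'_surjective N), ?_⟩
    exact Nat.Coprime.coprime_dvd_left (Subgroup.card_map_dvd _ _) hK1c
  rw [hcore, le_bot_iff, Subgroup.map_eq_bot_iff, QuotientGroup.ker_mk'] at hM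
  have hQ : IsPGroup p (H ⧸ N) := by
    intro q
    obtain ⟨h, rfl⟩ := QuotientGroup.mk'_surjective N q
    refine ⟨(Nat.card G).factorization p, ?_⟩
    rw [← map_pow, QuotientGroup.mk'_apply, QuotientGroup.eq_one_iff]
    apply hM
    rw [Subgroup.mem_subgroupOf]
    have := K.pow_index_mem (h : G)
    rw [hidx] at this
    simpa using this
  exact exists_orderOf_eq_exponent_of_pgroup hQ
· intro h
  rw [← Cfsg.Agent.Lead.frobHyp_iff]
  by_contra hF
  unfold Cfsg.Agent.Lead.FrobHyp at hF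
  push Not at hF
  obtain ⟨X₀, hX₀, g, hgN₀, hcop, hgC₀⟩ := hF
  have hex : ∃ n, ∃ X : Subgroup G, IsPGroup p X ∧ g ∈ Subgroup.normalizer (X : Set G) ∧
      g ∉ Subgroup.centralizer (X : Set G) ∧ Nat.card X = n := ⟨_, X₀, hX₀, hgN₀, hgC₀, rfl⟩
  obtain ⟨X, hX, hgN, hgC, hXn⟩ := Nat.find_spec hex
  have hmin : ∀ X' : Subgroup G, IsPGroup p X' → g ∈ Subgroup.normalizer (X' : Set G) →
      g ∉ Subgroup.centralizer (X' : Set G) → Nat.card X ≤ Nat.card X' := by
    intro X' h1 h2 h3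
    rw [hXn]
    exact Nat.find_min' hex ⟨X', h1, h2, h3, rfl⟩
  have hDX : ⁅X, X⁆ ≤ X := by
    rw [Subgroup.commutator_le]
    intro a ha b hb
    rw [commutatorElement_def]
    exact X.mul_mem (X.mul_mem (X.mul_mem ha hb) (X.inv_mem ha)) (X.inv_mem hb)
  have hDp : IsPGroup p (⁅X, X⁆ : Subgroup G) := hX.to_le hDX
  have hgD : g ∈ Subgroup.normalizer ((⁅X, X⁆ : Subgroup G) : Set G) := by
    apply Subgroup.mem_normalizer_fintype
    have : ⁅X, X⁆ ≤ (⁅X, X⁆ : Subgroup G).comap (MulAut.conj g).toMonoidHom := by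
      rw [Subgroup.commutator_le]
      intro a ha b hb
      rw [Subgroup.mem_comap, map_commutatorElement]
      apply Subgroup.commutator_mem_commutator
      · exact (Subgroup.mem_normalizer_iff.mp hgN a).mp ha
      · exact (Subgroup.mem_normalizer_iff.mp hgN b).mp hb
    intro n hn
    exact this hn
  have hXne : X ≠ ⊥ := by
    rintro rfl
    apply hgC
    rw [Subgroup.mem_centralizer_iff]
    intro h hh
    have hh' : h = 1 := Subgroup.mem_bot.mp hh
    rw [hh', one_mul, mul_one]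
  have hDne : ⁅X, X⁆ ≠ X := by
    intro hD
    have : Nontrivial X := (Subgroup.nontrivial_iff_ne_bot X).mpr hXne
    have : Group.IsNilpotent X := hX.isNilpotent
    have hlt := Group.IsSolvable.commutator_lt_top_of_nontrivial X
    apply hlt.ne
    apply Subgroup.map_injective X.subtype_injective
    rw [commutator_def, Subgroup.map_commutator, ← MonoidHom.range_eq_map, Subgroup.range_subtype]
    exact hD
  have hgCD : g ∈ Subgroup.centralizer ((⁅X, X⁆ : Subgroup G) : Set G) := by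
    by_contra hc
    have := hmin _ hDp hgD hc
    exact hDne (Subgroup.eq_of_le_of_card_ge hDX this)
  obtain ⟨Y, hXY, hgY, hYN, hYgen⟩ := exists_semi X g hgN
  have hX1n : (X.subgroupOf Y).Normal := Subgroup.normal_subgroupOf_of_le_normalizer hYN
  have hX1p : IsPGroup p (X.subgroupOf Y) := hX.comap_subtype
  have hg1 : ∀ y : Y, ∃ x ∈ X.subgroupOf Y, ∃ k : ℤ, y = x * (⟨g, hgY⟩ : Y) ^ k := by
    rintro ⟨y, hy⟩
    obtain ⟨x, hx, k, rfl⟩ := hYgen y hy
    exact ⟨⟨x, hXY hx⟩, Subgroup.mem_subgroupOf.mpr hx, k, Subtype.ext (by simp)⟩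
  have hg2 : ∀ a ∈ X.subgroupOf Y, ∀ b ∈ X.subgroupOf Y,
      ⁅a, b⁆ * (⟨g, hgY⟩ : Y) = (⟨g, hgY⟩ : Y) * ⁅a, b⁆ := by
    rintro ⟨a, haY⟩ ha ⟨b, hbY⟩ hb
    apply Subtype.ext
    have hab : ⁅a, b⁆ ∈ ⁅X, X⁆ :=
      Subgroup.commutator_mem_commutator (Subgroup.mem_subgroupOf.mp ha)
        (Subgroup.mem_subgroupOf.mp hb)
    exact Subgroup.mem_centralizer_iff.mp hgCD _ hab
  have hg3 : ∃ x ∈ X.subgroupOf Y, x⁻¹ * (⟨g, hgY⟩ : Y)⁻¹ * x * (⟨g, hgY⟩ : Y) ≠ 1 := by
    have : ∃ x ∈ X, x * g ≠ g * x := by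
      by_contra hne
      push Not at hne
      exact hgC (Subgroup.mem_centralizer_iff.mpr hne)
    obtain ⟨x, hx, hxg⟩ := this
    refine ⟨⟨x, hXY hx⟩, Subgroup.mem_subgroupOf.mpr hx, ?_⟩
    intro h1
    apply hxg
    have h2 : x⁻¹ * g⁻¹ * x * g = 1 := by simpa using congrArg Subtype.val h1
    calc x * g = g * x * (x⁻¹ * g⁻¹ * x * g) := by group
      _ = g * x := by rw [h2, mul_one]
  obtain ⟨N, hN, hcore, hno⟩ := bad_section (X.subgroupOf Y) hX1p (⟨g, hgY⟩ : Y)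
    (by rw [Subgroup.orderOf_mk]; exact hcop) hg1 hg2 hg3
  obtain ⟨k, hk⟩ := h Y N hcore
  exact hno k hk

end Cfsg.Agent.S4238
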