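import Mathlib
import Cfsg.Statements.S4244

set_option autoImplicit false
open Cfsg

namespace Cfsg.Agent.S4244

theorem card_eq_inf_mul {G : Type*} [Group G] (H K : Subgroup G) :
    Nat.card (H ⊓ K : Subgroup G) * K.relIndex H = Nat.card H := by
  have h := Subgroup.relIndex_mul_relIndex (⊥ : Subgroup G) (H ⊓ K) H bot_le inf_le_left
  rw [Subgroup.relIndex_bot_left, Subgroup.relIndex_bot_left, Subgroup.inf_relIndex_left] at h
  exact h

theorem normal_case {G : Type*} [Group G] [Finite G] (H K : Subgroup G) [H.Normal] :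
    K.relIndex H ∣ K.index := by
  have h1 : K.relIndex (H ⊔ K) * (H ⊔ K).index = K.index :=
    Subgroup.relIndex_mul_index le_sup_right
  have h2 : H.relIndex (K ⊔ H) = H.relIndex K := Subgroup.relIndex_sup_right K H
  have h3 : Nat.card K * K.relIndex (H ⊔ K) = Nat.card (H ⊔ K : Subgroup G) := by
    have h := Subgroup.relIndex_mul_relIndex (⊥ : Subgroup G) K (H ⊔ K) bot_le le_sup_right
    rwa [Subgroup.relIndex_bot_left, Subgroup.relIndex_bot_left] at h
  have h4 : Nat.card H * H.relIndex (K ⊔ H) = Nat.card (H ⊔ K : Subgroup G) := by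
    have h := Subgroup.relIndex_mul_relIndex (⊥ : Subgroup G) H (K ⊔ H) bot_le le_sup_right
    rw [Subgroup.relIndex_bot_left, Subgroup.relIndex_bot_left] at h
    rw [sup_comm H K]; exact h
  have h5 := card_eq_inf_mul H K
  have h6 := card_eq_inf_mul K H
  rw [inf_comm] at h6
  have hpos : 0 < Nat.card (H ⊓ K : Subgroup G) := Nat.card_pos
  have hpos2 : 0 < H.relIndex K := by
    rcases Nat.eq_zero_or_pos (H.relIndex K) with h | h
    · rw [h, mul_zero] at h6
      have : 0 < Nat.card K := Nat.card_pos
      omega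
    · exact h
  have key : K.relIndex (H ⊔ K) = K.relIndex H := by
    rw [h2] at h4
    have e : Nat.card (H ⊓ K : Subgroup G) * H.relIndex K * K.relIndex (H ⊔ K) =
        Nat.card (H ⊓ K : Subgroup G) * H.relIndex K * K.relIndex H := by
      calc Nat.card (H ⊓ K : Subgroup G) * H.relIndex K * K.relIndex (H ⊔ K)
          = Nat.card K * K.relIndex (H ⊔ K) := by rw [h6]
        _ = Nat.card H * H.relIndex K := by rw [h3, h4]
        _ = Nat.card (H ⊓ K : Subgroup G) * K.relIndex H * H.relIndex K := by rw [h5]
        _ = Nat.card (H ⊓ K : Subgroup G) * H.relIndex K * K.relIndex H := by ring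
    exact Nat.eq_of_mul_eq_mul_left (Nat.mul_pos hpos hpos2) e
  rw [← key, ← h1]
  exact dvd_mul_right _ _

theorem aux {G : Type*} [Group G] [Finite G] (H : Subgroup G) (hH : H.IsSubnormal) :
    ∀ K : Subgroup G, K.relIndex H ∣ K.index := by
  induction hH with
  | top => intro K; rw [Subgroup.relIndex_top_right]
  | step H L h_le hSubn hN ih =>
    intro K
    refine dvd_trans ?_ (ih K)
    have := normal_case (H.subgroupOf L) (K.subgroupOf L)
    rw [Subgroup.relIndex_subgroupOf h_le] at this
    exact this

theorem result {G : Type*} [Group G] [Finite G] (H : Subgroup G) (hH : H.IsSubnormal) (K : Subgroup G) :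
    (H ⊓ K).relIndex H ∣ K.index := by
  rw [Subgroup.inf_relIndex_left]
  exact aux H hH K

end Cfsg.Agent.S4244
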