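import Cfsg.Statements.S4249
import Mathlib
import Cfsg.Agent.Helper1.Hughes

set_option autoImplicit false
open Cfsg

namespace Cfsg.Agent.S4249

/-- Let G be a finite group and p a prime such that G is not a p-group, and suppose the Hughes subgroup H_p(G), generated by all elements g with g^p ≠ 1, is a proper subgroup. Then H_p(G) is nilpotent and has index p in G. -/
theorem result {G : Type*} [Group G] [Finite G] (p : ℕ) (hp : p.Prime) (hG : ¬ IsPGroup p G)
    (hH : Subgroup.closure {g : G | g ^ p ≠ 1} ≠ ⊤) :
    Group.IsNilpotent (Subgroup.closure {g : G | g ^ p ≠ 1}) ∧ (Subgroup.closure {g : G | g ^ p ≠ 1}).index = p := by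
  haveI hn : (Subgroup.closure {g : G | g ^ p ≠ 1}).Normal :=
    Cfsg.Agent.Helper1.closure_normal_of_conj_invariant _ (by
      intro s hs g
      show (g * s * g⁻¹) ^ p ≠ 1
      rw [conj_pow]
      intro h
      exact hs (conj_eq_one_iff.mp h))
  exact Cfsg.Agent.Helper1.hughes_thompson p hp hG _ hH (by
    intro g hg
    by_contra h
    exact hg (Subgroup.subset_closure h))

end Cfsg.Agent.S4249
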