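import Mathlib
import Cfsg.Statements.S4261

set_option autoImplicit false
open Cfsg

namespace Cfsg.Agent.S4261

open scoped commutatorElement

theorem exists_abelian_normal {G : Type*} [Group G] [Nontrivial G] (hG : Group.IsSolvable G) :
    ∃ V : Subgroup G, V.Normal ∧ V ≠ ⊥ ∧ ∀ a ∈ V, ∀ b ∈ V, a * b = b * a := by
  classical
  have hex := hG.solvable
  have hn0 : Nat.find hex ≠ 0 := by
    intro h0
    have := Nat.find_spec hex
    rw [h0, derivedSeries_zero] at this
    exact top_ne_bot this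
  obtain ⟨m, hm⟩ := Nat.exists_eq_add_one_of_ne_zero hn0
  refine ⟨derivedSeries G m, derivedSeries_normal G m, ?_, ?_⟩
  · exact Nat.find_min hex (by rw [hm]; exact Nat.lt_succ_self m)
  · intro a ha b hb
    have h1 := Nat.find_spec hex
    rw [hm, derivedSeries_succ] at h1
    have h2 : ⁅a, b⁆ ∈ ⁅derivedSeries G m, derivedSeries G m⁆ :=
      Subgroup.commutator_mem_commutator ha hb
    rw [h1, Subgroup.mem_bot] at h2
    exact (commutatorElement_eq_one_iff_mul_comm).1 h2

theorem exists_pgroup_normal {G : Type*} [Group G] [Finite G] [Nontrivial G]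
    (hG : Group.IsSolvable G) :
    ∃ (p : ℕ) (_ : p.Prime) (V : Subgroup G), V.Normal ∧ V ≠ ⊥ ∧
      (∀ a ∈ V, ∀ b ∈ V, a * b = b * a) ∧ IsPGroup p V := by
  obtain ⟨V₀, hV₀n, hV₀ne, hV₀c⟩ := exists_abelian_normal hG
  have hcard : Nat.card V₀ ≠ 1 := by
    intro h
    exact hV₀ne (Subgroup.eq_bot_of_card_eq V₀ h)
  obtain ⟨p, hp, hpd⟩ := Nat.exists_prime_and_dvd hcard
  have : Fact p.Prime := ⟨hp⟩
  obtain ⟨x, hx⟩ := exists_prime_orderOf_dvd_card' (G := V₀) p hpd
  let V : Subgroup G :=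
    { carrier := {v | v ∈ V₀ ∧ v ^ p = 1}
      mul_mem' := fun {a b} ha hb => ⟨V₀.mul_mem ha.1 hb.1, by
        rw [(show Commute a b from hV₀c a ha.1 b hb.1).mul_pow, ha.2, hb.2, one_mul]⟩
      one_mem' := ⟨V₀.one_mem, one_pow _⟩
      inv_mem' := fun {a} ha => ⟨V₀.inv_mem ha.1, by rw [inv_pow, ha.2, inv_one]⟩ }
  refine ⟨p, hp, V, ?_, ?_, ?_, ?_⟩
  · constructor
    intro n hn g
    refine ⟨hV₀n.conj_mem n hn.1 g, ?_⟩
    rw [conj_pow, hn.2, mul_one, mul_inv_cancel]
  · intro hbot
    have hxp : x ^ p = 1 := by rw [← hx]; exact pow_orderOf_eq_one x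
    have hxV : (x : G) ∈ V := ⟨x.2, by
      have := congrArg Subtype.val hxp
      simpa using this⟩
    rw [hbot, Subgroup.mem_bot] at hxV
    have h1 : x = 1 := Subtype.ext hxV
    rw [h1, orderOf_one] at hx
    exact hp.one_lt.ne hx
  · intro a ha b hb
    exact hV₀c a ha.1 b hb.1
  · intro v
    refine ⟨1, ?_⟩
    apply Subtype.ext
    rw [pow_one, Subgroup.coe_pow]
    exact v.2.2

theorem core_free_case {G : Type*} [Group G] [Finite G] (hG : Group.IsSolvable G) (M : Subgroup G)
    (hM : IsCoatom M) (hcore : M.normalCore = ⊥) (hexp : ∀ x : G, x ^ M.index ∈ M) :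
    M.Normal := by
  have hnt : Nontrivial G := by
    by_contra h
    rw [not_nontrivial_iff_subsingleton] at h
    exact hM.1 (Subsingleton.elim _ _)
  obtain ⟨p, hp, V, hVn, hVne, hVc, hVp⟩ := exists_pgroup_normal hG
  have : Fact p.Prime := ⟨hp⟩
  have hVM : ¬ V ≤ M := by
    intro h
    have h1 : V ≤ M.normalCore := Subgroup.normal_le_normalCore.2 h
    rw [hcore] at h1
    exact hVne (le_bot_iff.1 h1)
  have hsup : M ⊔ V = ⊤ := hM.2 _ (left_lt_sup.2 hVM)
  have hdecomp : ∀ g : G, ∃ v ∈ V, ∃ m ∈ M, g = v * m := by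
    intro g
    have hg : g ∈ ((V ⊔ M : Subgroup G) : Set G) := by
      rw [sup_comm, hsup]; trivial
    rw [Subgroup.normal_mul] at hg
    obtain ⟨v, hv, m, hm, rfl⟩ := Set.mem_mul.1 hg
    exact ⟨v, hv, m, hm, rfl⟩
  have hC : ∀ c ∈ M, (∀ v ∈ V, v * c = c * v) → c = 1 := by
    intro c hcM hcV
    have hmem : c ∈ M.normalCore := by
      show ∀ b : G, b * c * b⁻¹ ∈ M
      intro b
      obtain ⟨v, hv, m, hm, rfl⟩ := hdecomp b
      have h1 : v * (m * c * m⁻¹) = (m * c * m⁻¹) * v := by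
        have h2 := hcV (m⁻¹ * v * m) (by
          have := hVn.conj_mem v hv m⁻¹
          simpa using this)
        calc v * (m * c * m⁻¹) = m * ((m⁻¹ * v * m) * c) * m⁻¹ := by group
          _ = m * (c * (m⁻¹ * v * m)) * m⁻¹ := by rw [h2]
          _ = (m * c * m⁻¹) * v := by group
      have h3 : (v * m) * c * (v * m)⁻¹ = m * c * m⁻¹ := by
        calc (v * m) * c * (v * m)⁻¹ = (v * (m * c * m⁻¹)) * v⁻¹ := by group
          _ = ((m * c * m⁻¹) * v) * v⁻¹ := by rw [h1]
          _ = m * c * m⁻¹ := by group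
      rw [h3]
      exact M.mul_mem (M.mul_mem hm hcM) (M.inv_mem hm)
    rw [hcore] at hmem
    exact Subgroup.mem_bot.1 hmem
  have hdisj : ∀ d ∈ M, d ∈ V → d = 1 := by
    intro d hdM hdV
    exact hC d hdM (fun v hv => hVc v hv d hdV)
  have hcompl : Subgroup.IsComplement' V M := by
    apply Subgroup.isComplement'_of_disjoint_and_mul_eq_univ
    · rw [Subgroup.disjoint_def]
      intro x hxV hxM
      exact hdisj x hxM hxV
    · rw [← Subgroup.normal_mul, sup_comm, hsup, Subgroup.coe_top]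
  have hidx : M.index = Nat.card V := hcompl.index_eq_card
  obtain ⟨k, hk⟩ := (IsPGroup.iff_card.1 hVp)
  have key : ∀ v t : G, v * t * v⁻¹ * t⁻¹ = 1 → v * t = t * v := by
    intro v t h
    calc v * t = (v * t * v⁻¹ * t⁻¹) * (t * v) := by group
      _ = t * v := by rw [h, one_mul]
  have hpow : ∀ m ∈ M, m ^ M.index = 1 := by
    intro m hm
    apply hC _ (M.pow_mem hm _)
    intro v hv
    have h1 : (v * m * v⁻¹) ^ M.index ∈ M := hexp _
    rw [conj_pow] at h1
    have hmn : m ^ M.index ∈ M := M.pow_mem hm _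
    generalize m ^ M.index = t at h1 hmn ⊢
    have h2 : v * t * v⁻¹ * t⁻¹ ∈ M := M.mul_mem h1 (M.inv_mem hmn)
    have h3 : v * t * v⁻¹ * t⁻¹ ∈ V := by
      have h5 := hVn.conj_mem v⁻¹ (V.inv_mem hv) t
      have e : v * t * v⁻¹ * t⁻¹ = v * (t * v⁻¹ * t⁻¹) := by group
      rw [e]
      exact V.mul_mem hv h5
    exact key v t (hdisj _ h2 h3)
  have hGp : IsPGroup p G := by
    intro g
    refine ⟨k + k, ?_⟩
    have h1 := hpow (g ^ M.index) (hexp g)
    rw [hidx, hk] at h1
    rw [pow_add, pow_mul]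
    exact h1
  have hnil : Group.IsNilpotent G := hGp.isNilpotent
  exact Subgroup.NormalizerCondition.normal_of_coatom M Group.normalizerCondition_of_isNilpotent hM

theorem result {G : Type*} [Group G] [Finite G] (hG : Group.IsSolvable G) (M : Subgroup G) (hM : IsCoatom M)
    (hexp : ∀ x : G, x ^ M.index ∈ M) : M.Normal := by
  have hKM : M.normalCore ≤ M := M.normalCore_le
  let π : G →* G ⧸ M.normalCore := QuotientGroup.mk' M.normalCore
  have hπs : Function.Surjective π := QuotientGroup.mk'_surjective M.normalCore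
  have hker : π.ker ≤ M := by
    show (QuotientGroup.mk' M.normalCore).ker ≤ M
    rw [QuotientGroup.ker_mk']; exact hKM
  have hcm : (M.map π).comap π = M := Subgroup.comap_map_eq_self hker
  have hMbar : IsCoatom (M.map π) := by
    constructor
    · intro h
      apply hM.1
      rw [← hcm, h, Subgroup.comap_top]
    · intro B hB
      have h1 : (M.map π).comap π < B.comap π :=
        (Subgroup.comap_lt_comap_of_surjective hπs).2 hB
      rw [hcm] at h1
      have h2 := hM.2 _ h1
      rw [← Subgroup.map_comap_eq_self_of_surjective hπs B, h2, Subgroup.map_top_of_surjective π hπs]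
  have hidx : (M.map π).index = M.index := by
    rw [← Subgroup.index_comap_of_surjective (M.map π) hπs, hcm]
  have hcore : (M.map π).normalCore = ⊥ := by
    rw [eq_bot_iff]
    intro y hy
    obtain ⟨x, rfl⟩ := hπs y
    have hx : x ∈ M.normalCore := by
      show ∀ b : G, b * x * b⁻¹ ∈ M
      intro b
      have h1 : π b * π x * (π b)⁻¹ ∈ M.map π := hy (π b)
      rw [← map_inv, ← map_mul, ← map_mul, ← Subgroup.mem_comap, hcm] at h1
      exact h1
    rw [Subgroup.mem_bot]
    exact (QuotientGroup.eq_one_iff x).2 hx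
  have hexp' : ∀ y : G ⧸ M.normalCore, y ^ (M.map π).index ∈ M.map π := by
    intro y
    obtain ⟨x, rfl⟩ := hπs y
    rw [hidx, ← map_pow]
    exact Subgroup.mem_map_of_mem π (hexp x)
  have hsolv : Group.IsSolvable (G ⧸ M.normalCore) := inferInstance
  have hn := core_free_case hsolv (M.map π) hMbar hcore hexp'
  rw [← hcm]
  exact hn.comap π

end Cfsg.Agent.S4261
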