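import Mathlib
import Cfsg.Statements.S4269

set_option autoImplicit false
open Cfsg

namespace Cfsg.Agent.S4269

theorem mem_map_conj {G : Type*} [Group G] (H : Subgroup G) (g x : G) :
    x ∈ H.map (MulAut.conj g).toMonoidHom ↔ g⁻¹ * x * g ∈ H := by
  constructor
  · rintro ⟨h, hh, rfl⟩
    have : g⁻¹ * (MulAut.conj g).toMonoidHom h * g = h := by
      show g⁻¹ * (g * h * g⁻¹) * g = h
      group
    rw [this]; exact hh
  · intro h
    exact ⟨g⁻¹ * x * g, h, by simp [MulAut.conj_apply, mul_assoc]⟩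

theorem map_conj_mul {G : Type*} [Group G] (H : Subgroup G) (a b : G) :
    (H.map (MulAut.conj b).toMonoidHom).map (MulAut.conj a).toMonoidHom =
      H.map (MulAut.conj (a * b)).toMonoidHom := by
  ext x
  rw [mem_map_conj, mem_map_conj, mem_map_conj]
  have : b⁻¹ * (a⁻¹ * x * a) * b = (a * b)⁻¹ * x * (a * b) := by group
  rw [this]

theorem map_conj_of_mem {G : Type*} [Group G] (H : Subgroup G) (h : G) (hh : h ∈ H) :
    H.map (MulAut.conj h).toMonoidHom = H := by
  ext x
  rw [mem_map_conj]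
  constructor
  · intro hx
    have : x = h * (h⁻¹ * x * h) * h⁻¹ := by group
    rw [this]
    exact H.mul_mem (H.mul_mem hh hx) (H.inv_mem hh)
  · intro hx
    exact H.mul_mem (H.mul_mem (H.inv_mem hh) hx) hh

theorem map_conj_of_mem_normalizer {G : Type*} [Group G] (H : Subgroup G) (n : G)
    (hn : n ∈ Subgroup.normalizer (H : Set G)) :
    H.map (MulAut.conj n).toMonoidHom = H :=
  Subgroup.mem_normalizer_iff_map_conj_eq.1 hn

theorem result {G : Type*} [Group G] [Finite G]
    (V : Subgroup G) [V.Normal] (hV : IsMulCommutative ↥V) (H : Subgroup G) (hHV : H ⊔ V = ⊤) :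
    Cfsg.IsPronormal H ↔
      ∀ U : Subgroup G, U ≤ V → (∀ h ∈ H, U.map (MulAut.conj h).toMonoidHom = U) →
        U = (U ⊓ Subgroup.normalizer (H : Set G)) ⊔ ⁅H, U⁆ := by
  have hcomm : ∀ a ∈ V, ∀ b ∈ V, a * b = b * a := by
    intro a ha b hb
    exact congrArg Subtype.val (hV.is_comm.comm ⟨a, ha⟩ ⟨b, hb⟩)
  constructor
  · intro hpro U hUV hU
    have hWU : ⁅H, U⁆ ≤ U := by
      rw [Subgroup.commutator_le]
      intro h hh u hu
      rw [commutatorElement_def]
      have h1 : h * u * h⁻¹ ∈ U := by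
        have : h * u * h⁻¹ ∈ U.map (MulAut.conj h).toMonoidHom := by
          rw [mem_map_conj]
          have : h⁻¹ * (h * u * h⁻¹) * h = u := by group
          rw [this]; exact hu
        rwa [hU h hh] at this
      exact U.mul_mem h1 (U.inv_mem hu)
    apply le_antisymm
    · intro u hu
      obtain ⟨x, hx, hxe⟩ := hpro u
      have hle : H ⊔ H.map (MulAut.conj u).toMonoidHom ≤ ⁅H, U⁆ ⊔ H := by
        apply sup_le le_sup_right
        intro y hy
        rw [mem_map_conj] at hy
        have hy' : y = (u * (u⁻¹ * y * u) * u⁻¹ * (u⁻¹ * y * u)⁻¹) * (u⁻¹ * y * u) := by group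
        rw [hy']
        apply Subgroup.mul_mem_sup _ hy
        rw [Subgroup.commutator_comm]
        have := Subgroup.commutator_mem_commutator hu hy
        rwa [commutatorElement_def] at this
      have hx' : x ∈ ((⁅H, U⁆ ⊔ H : Subgroup G) : Set G) := hle hx
      rw [Subgroup.coe_mul_of_right_le_normalizer_left _ _ (Subgroup.normalizer_commutator_ge_left H U)] at hx'
      obtain ⟨w, hw, h, hh, rfl⟩ := Set.mem_mul.1 hx'
      have hn : w⁻¹ * u ∈ Subgroup.normalizer (H : Set G) := by
        rw [Subgroup.mem_normalizer_iff_map_conj_eq]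
        show H.map (MulAut.conj (w⁻¹ * u)).toMonoidHom = H
        rw [← map_conj_mul, hxe, map_conj_mul]
        have : w⁻¹ * (w * h) = h := by group
        rw [this]
        exact map_conj_of_mem H h hh
      have hu' : u = (w⁻¹ * u) * w := by
        have hwV : w ∈ V := hUV (hWU hw)
        have huV : u ∈ V := hUV hu
        have := hcomm w hwV u huV
        calc u = w⁻¹ * (w * u) := by group
          _ = w⁻¹ * (u * w) := by rw [this]
          _ = (w⁻¹ * u) * w := by group
      rw [hu']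
      apply Subgroup.mul_mem_sup _ hw
      exact ⟨U.mul_mem (U.inv_mem (hWU hw)) hu, hn⟩
    · exact sup_le inf_le_left hWU
  · intro hcond g
    have hg : g ∈ ((V ⊔ H : Subgroup G) : Set G) := by
      rw [sup_comm, hHV]; trivial
    rw [Subgroup.normal_mul] at hg
    obtain ⟨v, hv, h, hh, rfl⟩ := Set.mem_mul.1 hg
    have hgv : H.map (MulAut.conj (v * h)).toMonoidHom = H.map (MulAut.conj v).toMonoidHom := by
      rw [← map_conj_mul, map_conj_of_mem H h hh]
    rw [hgv]
    set S : Set G := {y | ∃ h' ∈ H, y = h' * v * h'⁻¹} with hS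
    set U : Subgroup G := Subgroup.closure S with hUdef
    have hSV : S ⊆ V := by
      rintro y ⟨h', -, rfl⟩
      exact Subgroup.Normal.conj_mem inferInstance v hv h'
    have hUV : U ≤ V := (Subgroup.closure_le V).2 hSV
    have hUinv : ∀ h ∈ H, U.map (MulAut.conj h).toMonoidHom = U := by
      intro h1 hh1
      rw [hUdef, MonoidHom.map_closure]
      congr 1
      ext y
      constructor
      · rintro ⟨z, ⟨h', hh', rfl⟩, rfl⟩
        refine ⟨h1 * h', H.mul_mem hh1 hh', ?_⟩
        simp [MulAut.conj_apply, mul_assoc]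
      · rintro ⟨h', hh', rfl⟩
        refine ⟨h1⁻¹ * h' * v * (h1⁻¹ * h')⁻¹, ⟨h1⁻¹ * h', H.mul_mem (H.inv_mem hh1) hh', rfl⟩, ?_⟩
        simp [MulAut.conj_apply, mul_assoc]
    have hvU : v ∈ U := Subgroup.subset_closure ⟨1, H.one_mem, by simp⟩
    have hdec := hcond U hUV hUinv
    have hvmem : v ∈ (((U ⊓ Subgroup.normalizer (H : Set G)) ⊔ ⁅H, U⁆ : Subgroup G) : Set G) := by
      rw [← hdec]; exact hvU
    have hWV : ⁅H, U⁆ ≤ V := by
      rw [Subgroup.commutator_le]
      intro h1 hh1 u hu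
      rw [commutatorElement_def]
      exact V.mul_mem (Subgroup.Normal.conj_mem inferInstance u (hUV hu) h1) (V.inv_mem (hUV hu))
    have hnorm : U ⊓ Subgroup.normalizer (H : Set G) ≤ Subgroup.normalizer ((⁅H, U⁆ : Subgroup G) : Set G) := by
      intro a ha
      rw [Subgroup.mem_normalizer_iff]
      intro b
      have haV : a ∈ V := hUV ha.1
      constructor
      · intro hb
        have := hcomm a haV b (hWV hb)
        have e : a * b * a⁻¹ = b := by rw [this]; group
        rw [e]; exact hb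
      · intro hb
        have hbV : b ∈ V := by
          have := hWV hb
          have h2 := Subgroup.Normal.conj_mem (inferInstance : V.Normal) _ this a⁻¹
          have e : a⁻¹ * (a * b * a⁻¹) * a⁻¹⁻¹ = b := by group
          rwa [e] at h2
        have := hcomm a haV b hbV
        have e : a * b * a⁻¹ = b := by rw [this]; group
        rwa [e] at hb
    rw [Subgroup.coe_mul_of_left_le_normalizer_right _ _ hnorm] at hvmem
    obtain ⟨n, hn, w, hw, hnw⟩ := Set.mem_mul.1 hvmem
    have hnw' : v = w * n := by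
      rw [← hnw]
      exact hcomm n (hUV hn.1) w (hWV hw)
    have hK : ⁅H, U⁆ ≤ H ⊔ H.map (MulAut.conj v).toMonoidHom := by
      rw [Subgroup.commutator_le]
      intro h1 hh1 u hu
      have key : ∀ u ∈ U, u ∈ V ∧ ∀ h1 ∈ H, h1 * u * h1⁻¹ * u⁻¹ ∈ H ⊔ H.map (MulAut.conj v).toMonoidHom := by
        intro u hu
        induction hu using Subgroup.closure_induction with
        | mem y hy =>
          refine ⟨hSV hy, ?_⟩
          obtain ⟨h', hh', rfl⟩ := hy
          intro h1 hh1
          have e : h1 * (h' * v * h'⁻¹) * h1⁻¹ * (h' * v * h'⁻¹)⁻¹ =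
              (h1 * h') * (v * (h'⁻¹ * h1⁻¹ * h') * v⁻¹) * h'⁻¹ := by group
          rw [e]
          apply Subgroup.mul_mem
          · apply Subgroup.mul_mem
            · exact Subgroup.mem_sup_left (H.mul_mem hh1 hh')
            · apply Subgroup.mem_sup_right
              rw [mem_map_conj]
              have e2 : v⁻¹ * (v * (h'⁻¹ * h1⁻¹ * h') * v⁻¹) * v = h'⁻¹ * h1⁻¹ * h' := by group
              rw [e2]
              exact H.mul_mem (H.mul_mem (H.inv_mem hh') (H.inv_mem hh1)) hh'
          · exact Subgroup.mem_sup_left (H.inv_mem hh')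
        | one =>
          refine ⟨V.one_mem, ?_⟩
          intro h1 _
          simp
        | mul a b _ _ iha ihb =>
          refine ⟨V.mul_mem iha.1 ihb.1, ?_⟩
          intro h1 hh1
          have hb' : h1 * b * h1⁻¹ * b⁻¹ ∈ V :=
            V.mul_mem (Subgroup.Normal.conj_mem inferInstance b ihb.1 h1) (V.inv_mem ihb.1)
          have hc := hcomm (h1 * b * h1⁻¹ * b⁻¹) hb' a⁻¹ (V.inv_mem iha.1)
          have e : h1 * (a * b) * h1⁻¹ * (a * b)⁻¹ =
              (h1 * a * h1⁻¹ * a⁻¹) * (h1 * b * h1⁻¹ * b⁻¹) := by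
            calc h1 * (a * b) * h1⁻¹ * (a * b)⁻¹ = (h1 * a * h1⁻¹) * ((h1 * b * h1⁻¹ * b⁻¹) * a⁻¹) := by group
              _ = (h1 * a * h1⁻¹) * (a⁻¹ * (h1 * b * h1⁻¹ * b⁻¹)) := by rw [hc]
              _ = (h1 * a * h1⁻¹ * a⁻¹) * (h1 * b * h1⁻¹ * b⁻¹) := by group
          rw [e]
          exact Subgroup.mul_mem _ (iha.2 h1 hh1) (ihb.2 h1 hh1)
        | inv a _ iha =>
          refine ⟨V.inv_mem iha.1, ?_⟩
          intro h1 hh1
          have ha' : h1 * a * h1⁻¹ ∈ V := Subgroup.Normal.conj_mem inferInstance a iha.1 h1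
          have hc := hcomm (h1 * a * h1⁻¹)⁻¹ (V.inv_mem ha') a iha.1
          have e : h1 * a⁻¹ * h1⁻¹ * a⁻¹⁻¹ = (h1 * a * h1⁻¹ * a⁻¹)⁻¹ := by
            calc h1 * a⁻¹ * h1⁻¹ * a⁻¹⁻¹ = (h1 * a * h1⁻¹)⁻¹ * a := by group
              _ = a * (h1 * a * h1⁻¹)⁻¹ := hc
              _ = (h1 * a * h1⁻¹ * a⁻¹)⁻¹ := by group
          rw [e]
          exact Subgroup.inv_mem _ (iha.2 h1 hh1)
      rw [commutatorElement_def]
      exact (key u hu).2 h1 hh1
    refine ⟨w, hK hw, ?_⟩
    rw [hnw', ← map_conj_mul, map_conj_of_mem_normalizer H n hn.2]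

end Cfsg.Agent.S4269
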