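import Mathlib
import Cfsg.Statements.S4283
import Cfsg.Agent.Helper1.Frob
import Cfsg.Agent.S4195

set_option autoImplicit false
open Cfsg

namespace Cfsg.Agent.S4283

open scoped Pointwise

theorem mem_conj_smul' {L : Type*} [Group L] {S : Subgroup L} {g x : L} :
    x ∈ MulAut.conj g • S ↔ g⁻¹ * x * g ∈ S := by
  rw [Subgroup.mem_pointwise_smul_iff_inv_smul_mem]
  simp [MulAut.smul_def]

theorem index_centralizer_conj {G : Type*} [Group G] [Finite G] (g x : G) :
    (Subgroup.centralizer ({g * x * g⁻¹} : Set G)).index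
      = (Subgroup.centralizer ({x} : Set G)).index := by
  rw [S4195.centralizer_index_eq, S4195.centralizer_index_eq]
  congr 1
  apply MulAction.orbit_eq_iff.mpr
  exact ⟨ConjAct.toConjAct g, ConjAct.toConjAct_smul g x⟩

theorem malnormal_conj {L : Type*} [Group L] (S : Subgroup L)
    (hTI : ∀ g : L, g ∉ S → S ⊓ MulAut.conj g • S = ⊥) (g u y : L)
    (hu : u ∈ MulAut.conj g • S) (hu1 : u ≠ 1) (hcomm : y * u = u * y) :
    y ∈ MulAut.conj g • S := by
  rw [mem_conj_smul'] at hu ⊢
  by_contra hy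
  have h1 := hTI (g⁻¹ * y * g) hy
  have hv : g⁻¹ * u * g ∈ S ⊓ MulAut.conj (g⁻¹ * y * g) • S := by
    refine Subgroup.mem_inf.mpr ⟨hu, ?_⟩
    rw [mem_conj_smul']
    have e1 : y⁻¹ * u * y = u := by rw [mul_assoc, ← hcomm, inv_mul_cancel_left]
    have e2 : (g⁻¹ * y * g)⁻¹ * (g⁻¹ * u * g) * (g⁻¹ * y * g) = g⁻¹ * (y⁻¹ * u * y) * g := by
      group
    rw [e2, e1]; exact hu
  rw [h1, Subgroup.mem_bot] at hv
  apply hu1
  have e3 : u = g * (g⁻¹ * u * g) * g⁻¹ := by group
  rw [e3, hv]; group

theorem result {G : Type*} [Group G] [Finite G] (K H : Subgroup G) (hZK : Subgroup.center G ≤ K) (hZH : Subgroup.center G ≤ H) (hK : IsMulCommutative K) (hH : IsMulCommutative H) (hFrob : Cfsg.IsFrobeniusComplement (H.map (QuotientGroup.mk' (Subgroup.center G)))) (hker : Cfsg.frobeniusKernel (H.map (QuotientGroup.mk' (Subgroup.center G))) = (K.map (QuotientGroup.mk' (Subgroup.center G)) : Set (G ⧸ Subgroup.center G))) : Set.range (fun x : G => (Subgroup.centralizer ({x} : Set G)).index) = ({1, K.index,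 H.index} : Set ℕ) ∧ K.index.Coprime H.index := by
  obtain ⟨hHne, hHtop, hTI⟩ := hFrob
  obtain ⟨π, hπ⟩ : ∃ π : G →* G ⧸ Subgroup.center G,
      π = QuotientGroup.mk' (Subgroup.center G) := ⟨_, rfl⟩
  rw [← hπ] at hker hHne hHtop hTI
  have hπs : Function.Surjective π := by rw [hπ]; exact QuotientGroup.mk'_surjective _
  have hkerπ : π.ker = Subgroup.center G := by rw [hπ]; exact QuotientGroup.ker_mk' _
  have hπ1 : ∀ x : G, π x = 1 ↔ x ∈ Subgroup.center G := by
    intro x; rw [hπ]; exact QuotientGroup.eq_one_iff x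
  have hmem : ∀ (L : Subgroup G), Subgroup.center G ≤ L → ∀ x : G, π x ∈ L.map π ↔ x ∈ L := by
    intro L hL x
    constructor
    · rintro ⟨y, hy, hyx⟩
      have h1 : y⁻¹ * x ∈ Subgroup.center G := by
        rw [← hπ1, map_mul, map_inv, hyx, inv_mul_cancel]
      have h2 := L.mul_mem hy (hL h1)
      rwa [mul_inv_cancel_left] at h2
    · intro hx; exact Subgroup.mem_map_of_mem π hx
  have hkmem : ∀ y, y ∈ Cfsg.frobeniusKernel (H.map π) ↔
      (y = 1 ∨ ∀ g, y ∉ MulAut.conj g • H.map π) := fun y => Iff.rfl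
  have hmal := malnormal_conj (H.map π) hTI
  have hc1 : Nat.card (Cfsg.frobeniusKernel (H.map π)) = (H.map π).index :=
    Helper1.card_frobeniusKernel _ hTI
  have hc2 : Nat.card (K.map π) = (H.map π).index := by
    rw [← hc1, hker]; rfl
  have hiH : (H.map π).index = H.index :=
    Subgroup.index_map_eq H hπs (by rw [hkerπ]; exact hZH)
  have hiK : (K.map π).index = K.index :=
    Subgroup.index_map_eq K hπs (by rw [hkerπ]; exact hZK)
  have hmod := Helper1.index_mod_card (H.map π) hTI
  have e1 := Subgroup.card_mul_index (K.map π)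
  have e2 := Subgroup.card_mul_index (H.map π)
  have hKi : (K.map π).index = Nat.card (H.map π) := by
    have hpos : 0 < (H.map π).index := Nat.pos_of_ne_zero Subgroup.index_ne_zero_of_finite
    rw [hc2] at e1
    have e3 : (H.map π).index * (K.map π).index = (H.map π).index * Nat.card (H.map π) := by
      rw [e1, ← e2, mul_comm]
    exact Nat.eq_of_mul_eq_mul_left hpos e3
  have hcop : K.index.Coprime H.index := by
    rw [← hiK, ← hiH, hKi]
    have hg : Nat.gcd ((H.map π).index) (Nat.card (H.map π)) = 1 := by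
      have hm : (H.map π).index ≡ 1 [MOD Nat.card (H.map π)] := hmod
      rw [Nat.ModEq.gcd_eq hm]; exact Nat.gcd_one_left _
    exact Nat.Coprime.symm hg
  have fact2 : ∀ x ∈ K, x ∉ Subgroup.center G → Subgroup.centralizer ({x} : Set G) = K := by
    intro x hxK hxZ
    apply le_antisymm
    · intro c hc
      have hcx : x * c = c * x := (Subgroup.mem_centralizer_iff.mp hc) x (Set.mem_singleton x)
      rw [← hmem K hZK]
      have hxk : π x ∈ Cfsg.frobeniusKernel (H.map π) := by
        rw [hker]; exact (hmem K hZK x).mpr hxK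
      rw [← SetLike.mem_coe, ← hker]
      by_contra hck
      rw [hkmem] at hck
      push Not at hck
      obtain ⟨hc1', g, hcg⟩ := hck
      have hxg := hmal g (π c) (π x) hcg hc1' (by rw [← map_mul, ← map_mul, hcx])
      rcases (hkmem _).mp hxk with h1 | h2
      · exact hxZ ((hπ1 x).mp h1)
      · exact h2 g hxg
    · intro k hk
      refine Subgroup.mem_centralizer_iff.mpr (fun h hh => ?_)
      rw [Set.mem_singleton_iff] at hh
      rw [hh]
      exact congrArg Subtype.val (hK.is_comm.comm ⟨x, hxK⟩ ⟨k, hk⟩)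
  have fact3 : ∀ x ∈ H, x ∉ Subgroup.center G → Subgroup.centralizer ({x} : Set G) = H := by
    intro x hxH hxZ
    apply le_antisymm
    · intro c hc
      have hcx : x * c = c * x := (Subgroup.mem_centralizer_iff.mp hc) x (Set.mem_singleton x)
      rw [← hmem H hZH]
      have hx1 : π x ∈ MulAut.conj (1 : G ⧸ Subgroup.center G) • H.map π := by
        rw [mem_conj_smul']; simpa using (hmem H hZH x).mpr hxH
      have hx2 : π x ≠ 1 := fun h1 => hxZ ((hπ1 x).mp h1)
      have h3 := hmal 1 (π x) (π c) hx1 hx2 (by rw [← map_mul, ← map_mul, hcx])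
      rw [mem_conj_smul'] at h3
      simpa using h3
    · intro k hk
      refine Subgroup.mem_centralizer_iff.mpr (fun h hh => ?_)
      rw [Set.mem_singleton_iff] at hh
      rw [hh]
      exact congrArg Subtype.val (hH.is_comm.comm ⟨x, hxH⟩ ⟨k, hk⟩)
  have fact4 : ∀ x : G, x ∉ K →
      ∃ g x', x' ∈ H ∧ x' ∉ Subgroup.center G ∧ x = g * x' * g⁻¹ := by
    intro x hxK
    have h1 : π x ∉ Cfsg.frobeniusKernel (H.map π) := by
      rw [hker]; intro h; exact hxK ((hmem K hZK x).mp h)
    rw [hkmem] at h1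
    push Not at h1
    obtain ⟨hx1, gbar, hg⟩ := h1
    obtain ⟨g, rfl⟩ := hπs gbar
    rw [mem_conj_smul', ← map_inv, ← map_mul, ← map_mul, hmem H hZH] at hg
    refine ⟨g, g⁻¹ * x * g, hg, ?_, by group⟩
    intro hz
    apply hx1
    have h2 := (hπ1 _).mpr hz
    rw [map_mul, map_mul, map_inv] at h2
    have h3 : π x = π g * ((π g)⁻¹ * π x * π g) * (π g)⁻¹ := by group
    rw [h3, h2]; group
  have fact1 : ∀ x ∈ Subgroup.center G, (Subgroup.centralizer ({x} : Set G)).index = 1 := by
    intro x hxZ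
    have h1 : Subgroup.centralizer ({x} : Set G) = ⊤ := by
      rw [Subgroup.centralizer_eq_top_iff_subset]
      intro y hy
      rw [Set.mem_singleton_iff] at hy
      rw [hy]; exact hxZ
    rw [h1, Subgroup.index_top]
  refine ⟨?_, hcop⟩
  ext n
  simp only [Set.mem_range, Set.mem_insert_iff, Set.mem_singleton_iff]
  constructor
  · rintro ⟨x, rfl⟩
    by_cases hxZ : x ∈ Subgroup.center G
    · left; exact fact1 x hxZ
    · by_cases hxK : x ∈ K
      · right; left; rw [fact2 x hxK hxZ]
      · right; right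
        obtain ⟨g, x', hx'H, hx'Z, rfl⟩ := fact4 x hxK
        rw [index_centralizer_conj, fact3 x' hx'H hx'Z]
  · rintro (rfl | rfl | rfl)
    · exact ⟨1, fact1 1 (Subgroup.one_mem _)⟩
    · have hKne : K.map π ≠ ⊥ := by
        apply (Subgroup.one_lt_card_iff_ne_bot _).mp
        rw [hc2]
        have h1 : (H.map π).index ≠ 1 := fun h => hHtop (Subgroup.index_eq_one.mp h)
        have h0 : (H.map π).index ≠ 0 := Subgroup.index_ne_zero_of_finite
        omega
      obtain ⟨a, ha⟩ := (Subgroup.ne_bot_iff_exists_ne_one).mp hKne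
      obtain ⟨k, hk, hka⟩ := a.2
      have hkZ : k ∉ Subgroup.center G := by
        intro hz
        apply ha
        apply Subtype.ext
        rw [← hka, (hπ1 k).mpr hz]; rfl
      exact ⟨k, by rw [fact2 k hk hkZ]⟩
    · obtain ⟨a, ha⟩ := (Subgroup.ne_bot_iff_exists_ne_one).mp hHne
      obtain ⟨h, hh, hha⟩ := a.2
      have hhZ : h ∉ Subgroup.center G := by
        intro hz
        apply ha
        apply Subtype.ext
        rw [← hha, (hπ1 h).mpr hz]; rfl
      exact ⟨h, by rw [fact3 h hh hhZ]⟩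

end Cfsg.Agent.S4283
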