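import Mathlib
import Cfsg.Statements.S4331
import Cfsg.Agent.Helper4.Matsuyama
import Cfsg.Agent.Helper27.Basic

set_option autoImplicit false
open Cfsg

namespace Cfsg.Agent.S4331

open SemidirectProduct

theorem subnormal_of_commute {G : Type*} [Group G] (x g : G) (hc : Commute x g) :
    ((Subgroup.zpowers x).subgroupOf (Subgroup.zpowers x ⊔ Subgroup.zpowers g)).IsSubnormal := by
  apply Subgroup.Normal.isSubnormal
  rw [Subgroup.normal_subgroupOf_iff_le_normalizer le_sup_left]
  apply sup_le Subgroup.le_normalizer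
  rw [Subgroup.zpowers_le, Subgroup.mem_normalizer_iff]
  have key : ∀ z ∈ Subgroup.zpowers x, g * z * g⁻¹ = z ∧ g⁻¹ * z * g = z := by
    intro z hz
    obtain ⟨k, rfl⟩ := Subgroup.mem_zpowers_iff.mp hz
    have h1 : x ^ k * g = g * x ^ k := (hc.zpow_left k).eq
    constructor
    · rw [← h1, mul_inv_cancel_right]
    · rw [mul_assoc, h1, inv_mul_cancel_left]
  intro y
  constructor
  · intro hy; rw [(key y hy).1]; exact hy
  · intro hy
    have hy' : y = g⁻¹ * (g * y * g⁻¹) * g := by group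
    rw [hy', (key _ hy).2]; exact hy

section sdp

variable {N H : Type} [CommGroup N] [Group H] (φ : H →* MulAut N)

theorem isConj_inl_mul (m n : N) (h : H) :
    IsConj (⟨n, h⟩ : N ⋊[φ] H) ⟨m * n * φ h m⁻¹, h⟩ := by
  rw [isConj_iff]
  refine ⟨inl m, ?_⟩
  ext
  · simp
  · simp

theorem isConj_inr_mul (s : H) (n : N) (h : H) :
    IsConj (⟨n, h⟩ : N ⋊[φ] H) ⟨φ s n, s * h * s⁻¹⟩ := by
  rw [isConj_iff]
  refine ⟨inr s, ?_⟩
  ext
  · simp
  · simp

theorem commute_inr_of_fixed (t h : H) (x : N) (hx : φ t x = x) (hth : t * h = h * t) :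
    Commute (inr t : N ⋊[φ] H) ⟨x, h⟩ := by
  show inr t * (⟨x, h⟩ : N ⋊[φ] H) = ⟨x, h⟩ * inr t
  ext
  · simp [hx]
  · simpa using hth

theorem key_lemma [Finite N] [Finite H]
    (hN3 : ∀ n : N, n ^ 3 = 1) (hH : IsPGroup 2 H)
    (t : H) (ht1 : t ≠ 1) (ht2 : t * t = 1)
    (v₀ : N) (htv : φ t v₀ = v₀)
    (htrans : ∀ n : N, n ≠ 1 → ∃ s : H, φ s n = v₀)
    (hstab : ∀ h : H, φ h v₀ = v₀ → h = 1 ∨ h = t)
    (hnt : ∃ n : N, φ t n ≠ n) :
    ∃ A : Subgroup (N ⋊[φ] H), Group.IsSolvable (N ⋊[φ] H) ∧ Nat.card A = 2 ∧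
      (∀ c : N ⋊[φ] H, ∃ g : N ⋊[φ] H, IsConj c g ∧
        (A.subgroupOf (A ⊔ Subgroup.zpowers g)).IsSubnormal) ∧
      ¬ A ≤ Cfsg.pCore 2 (N ⋊[φ] H) := by
  have : Fact (Nat.Prime 2) := ⟨Nat.prime_two⟩
  have hfin : Finite (N ⋊[φ] H) := Finite.of_equiv _ SemidirectProduct.equivProd.symm
  have hnil : Group.IsNilpotent H := hH.isNilpotent
  refine ⟨Subgroup.zpowers (inr t), ?_, ?_, ?_, ?_⟩
  · exact Group.isSolvable_of_ker_le_range (inl : N →* N ⋊[φ] H) rightHom
      (by rw [range_inl_eq_ker_rightHom])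
  · rw [Nat.card_zpowers, orderOf_injective inr inr_injective t]
    exact orderOf_eq_prime (by rw [pow_two]; exact ht2) ht1
  · intro c
    obtain ⟨n, h⟩ := c
    have hRp : IsPGroup 2 (inr : H →* N ⋊[φ] H).range :=
      hH.of_surjective (inr : H →* N ⋊[φ] H).rangeRestrict
        (MonoidHom.rangeRestrict_surjective _)
    have sub_of_le : ∀ g : N ⋊[φ] H, g ∈ (inr : H →* N ⋊[φ] H).range →
        ((Subgroup.zpowers (inr t : N ⋊[φ] H)).subgroupOf
          (Subgroup.zpowers (inr t) ⊔ Subgroup.zpowers g)).IsSubnormal := by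
      intro g hg
      have hK : Subgroup.zpowers (inr t : N ⋊[φ] H) ⊔ Subgroup.zpowers g ≤
          (inr : H →* N ⋊[φ] H).range :=
        sup_le (by rw [Subgroup.zpowers_le]; exact ⟨t, rfl⟩)
          (by rw [Subgroup.zpowers_le]; exact hg)
      have hKp : IsPGroup 2 ↥(Subgroup.zpowers (inr t : N ⋊[φ] H) ⊔ Subgroup.zpowers g) :=
        hRp.to_le hK
      have hKn : Group.IsNilpotent
          ↥(Subgroup.zpowers (inr t : N ⋊[φ] H) ⊔ Subgroup.zpowers g) := hKp.isNilpotent
      exact Cfsg.Agent.Helper4.isSubnormal_of_isNilpotent _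
    have htt : ∀ x : N, φ t (φ t x) = x := by
      intro x
      rw [← MulAut.mul_apply, ← map_mul, ht2, map_one, MulAut.one_apply]
    by_cases hh : h = 1
    · subst hh
      by_cases hn : n = 1
      · subst hn
        exact ⟨⟨1, 1⟩, IsConj.refl _, sub_of_le _ ⟨1, rfl⟩⟩
      · obtain ⟨s, hs⟩ := htrans n hn
        refine ⟨⟨v₀, 1⟩, ?_, ?_⟩
        · have h1 := isConj_inr_mul φ s n 1
          rw [hs, mul_one, mul_inv_cancel] at h1
          exact h1
        · exact subnormal_of_commute _ _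
            (commute_inr_of_fixed φ t 1 v₀ htv (by rw [mul_one, one_mul]))
    · by_cases hfp : ∃ v : N, v ≠ 1 ∧ φ h v = v
      · obtain ⟨v, hv1, hv⟩ := hfp
        obtain ⟨s, hs⟩ := htrans v hv1
        have hsv : φ s⁻¹ v₀ = v := by
          rw [← hs, ← MulAut.mul_apply, ← map_mul, inv_mul_cancel, map_one, MulAut.one_apply]
        have hfix : φ (s * h * s⁻¹) v₀ = v₀ := by
          rw [map_mul, map_mul, MulAut.mul_apply, MulAut.mul_apply, hsv, hv, hs]
        have hst : s * h * s⁻¹ = t := by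
          rcases hstab _ hfix with h1 | h1
          · exfalso
            apply hh
            have e : h = s⁻¹ * (s * h * s⁻¹) * s := by group
            rw [e, h1]; group
          · exact h1
        have hc1 := isConj_inr_mul φ s n h
        rw [hst] at hc1
        have hc2 := isConj_inl_mul φ (φ s n) (φ s n) t
        refine ⟨⟨φ s n * φ s n * φ t (φ s n)⁻¹, t⟩, hc1.trans hc2, ?_⟩
        have hfixed : φ t (φ s n * φ s n * φ t (φ s n)⁻¹) = φ s n * φ s n * φ t (φ s n)⁻¹ := by
          generalize φ s n = b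
          rw [map_mul, map_mul, htt, map_inv]
          have ha : φ t b * φ t b = (φ t b)⁻¹ := by
            rw [eq_inv_iff_mul_eq_one, ← hN3 (φ t b), pow_succ, pow_two]
          have hb : b⁻¹ = b * b := by
            apply inv_eq_of_mul_eq_one_right
            rw [← hN3 b, pow_succ', pow_two]
          rw [ha, hb, mul_comm]
        exact subnormal_of_commute _ _ (commute_inr_of_fixed φ t t _ hfixed rfl)
      · push Not at hfp
        have hinj : Function.Injective (fun m : N => m⁻¹ * φ h m) := by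
          intro m m' hmm
          have hmm' : m⁻¹ * φ h m = m'⁻¹ * φ h m' := hmm
          by_contra hne
          have h1 : m * m'⁻¹ ≠ 1 := fun e => hne (mul_inv_eq_one.mp e)
          apply hfp (m * m'⁻¹) h1
          have h2 : φ h m = m * (m'⁻¹ * φ h m') := by rw [← hmm', mul_inv_cancel_left]
          rw [map_mul, map_inv, h2, ← mul_assoc, mul_inv_cancel_right]
        obtain ⟨m, hm⟩ := (Finite.injective_iff_surjective.mp hinj) n
        have hm' : m⁻¹ * φ h m = n := hm
        have hc := isConj_inl_mul φ m n h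
        have e : m * n * φ h m⁻¹ = 1 := by
          rw [← hm', map_inv, mul_inv_cancel_left, mul_inv_cancel]
        rw [e] at hc
        exact ⟨⟨1, h⟩, hc, sub_of_le _ ⟨h, rfl⟩⟩
  · intro hle
    obtain ⟨n, hn⟩ := hnt
    have hO := Cfsg.Agent.Helper27.pCore_isPGroup 2 (N ⋊[φ] H)
    have hOn := Cfsg.Agent.Helper27.pCore_normal' 2 (N ⋊[φ] H)
    have ht_mem : (inr t : N ⋊[φ] H) ∈ Cfsg.pCore 2 (N ⋊[φ] H) :=
      hle (Subgroup.mem_zpowers _)
    have hx_mem : (inr t * (inl n * (inr t)⁻¹ * (inl n)⁻¹) : N ⋊[φ] H) ∈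
        Cfsg.pCore 2 (N ⋊[φ] H) :=
      Subgroup.mul_mem _ ht_mem (hOn.conj_mem _ (Subgroup.inv_mem _ ht_mem) _)
    have hx_eq : (inr t * (inl n * (inr t)⁻¹ * (inl n)⁻¹) : N ⋊[φ] H) =
        inl (φ t n * n⁻¹) := by
      rw [map_mul, inl_aut, map_inv, map_inv]
      group
    rw [hx_eq] at hx_mem
    obtain ⟨k, hk⟩ := hO ⟨_, hx_mem⟩
    have hk' : (inl (φ t n * n⁻¹) : N ⋊[φ] H) ^ 2 ^ k = 1 := by
      have h1 := congrArg Subtype.val hk
      simpa using h1
    have h3 : (inl (φ t n * n⁻¹) : N ⋊[φ] H) ^ 3 = 1 := by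
      rw [← map_pow, hN3, map_one]
    have hg := pow_gcd_eq_one.mpr ⟨hk', h3⟩
    have hcop : Nat.gcd (2 ^ k) 3 = 1 := Nat.Coprime.pow_left k (by norm_num)
    rw [hcop, pow_one] at hg
    have h4 : φ t n * n⁻¹ = 1 := inl_injective (by rw [hg, map_one])
    exact hn (mul_inv_eq_one.mp h4)

end sdp

section field

variable (F : Type) [Field F] [Finite F]

theorem pow9 (hF : Nat.card F = 9) (x : F) : x ^ 9 = x := by
  have := Fintype.ofFinite F
  have h := FiniteField.pow_card x
  rwa [← Nat.card_eq_fintype_card, hF] at h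

theorem exists_pow_three_ne (hF : Nat.card F = 9) : ∃ x : F, x ^ 3 ≠ x := by
  classical
  by_contra hcon
  push Not at hcon
  have := Fintype.ofFinite F
  obtain ⟨g, hg⟩ := IsCyclic.exists_generator (α := Fˣ)
  have hord : orderOf g = Nat.card Fˣ := orderOf_eq_card_of_forall_mem_zpowers hg
  have hcard : Nat.card Fˣ = 8 := by
    rw [Nat.card_eq_fintype_card, Fintype.card_units, ← Nat.card_eq_fintype_card, hF]
  have h3 := hcon (g : F)
  have h2 : (g : F) ^ 2 = 1 := by
    have h : (g : F) * (g : F) ^ 2 = (g : F) * 1 := by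
      rw [mul_one, ← pow_succ']; exact h3
    exact mul_left_cancel₀ g.ne_zero h
  have h2' : g ^ 2 = 1 := Units.ext (by rw [Units.val_pow_eq_pow_val, h2, Units.val_one])
  have hdvd := orderOf_dvd_of_pow_eq_one h2'
  rw [hord, hcard] at hdvd
  omega

omit [Finite F] in
theorem ext_ofAdd (f g : MulAut (Multiplicative F))
    (h : ∀ x : F, f (Multiplicative.ofAdd x) = g (Multiplicative.ofAdd x)) : f = g :=
  MulEquiv.ext fun n => h (Multiplicative.toAdd n)

omit [Finite F] in
theorem mulLeft_pow (f : MulAut (Multiplicative F)) (b : F)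
    (hb : ∀ x : F, f (Multiplicative.ofAdd x) = Multiplicative.ofAdd (b * x)) (n : ℕ) :
    ∀ x : F, (f ^ n) (Multiplicative.ofAdd x) = Multiplicative.ofAdd (b ^ n * x) := by
  induction n with
  | zero => intro x; rw [pow_zero, MulAut.one_apply, pow_zero, one_mul]
  | succ n ih => intro x; rw [pow_succ, MulAut.mul_apply, hb, ih, pow_succ, mul_assoc]

omit [Finite F] in
theorem pow16 (h9 : ∀ x : F, x ^ 9 = x) (f : MulAut (Multiplicative F))
    (hf : ∃ a : Fˣ, (∀ x : F, f (Multiplicative.ofAdd x) = Multiplicative.ofAdd (a * x)) ∨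
      (∀ x : F, f (Multiplicative.ofAdd x) = Multiplicative.ofAdd (a * x ^ 3))) :
    f ^ 16 = 1 := by
  have h33 : ∀ x : F, (x ^ 3) ^ 3 = x := fun x => by rw [← pow_mul]; exact h9 x
  have h8 : ∀ a : Fˣ, (a : F) ^ 8 = 1 := by
    intro a
    have h : (a : F) * (a : F) ^ 8 = (a : F) * 1 := by
      rw [mul_one, ← pow_succ']; exact h9 a
    exact mul_left_cancel₀ a.ne_zero h
  obtain ⟨a, ha | ha⟩ := hf
  · refine ext_ofAdd F _ _ fun x => ?_
    rw [mulLeft_pow F f a ha 16 x, MulAut.one_apply]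
    have h16 : (a : F) ^ 16 = 1 := by
      have e : (a : F) ^ 16 = ((a : F) ^ 8) ^ 2 := by ring
      rw [e, h8, one_pow]
    rw [h16, one_mul]
  · have hg : ∀ x : F, (f * f) (Multiplicative.ofAdd x) =
        Multiplicative.ofAdd ((a : F) ^ 4 * x) := by
      intro x
      rw [MulAut.mul_apply, ha, ha, mul_pow, h33]
      congr 1
      ring
    have e : f ^ 16 = (f * f) ^ 8 := by
      have h := pow_mul f 2 8
      rw [pow_two] at h
      exact h
    refine ext_ofAdd F _ _ fun x => ?_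
    rw [e, mulLeft_pow F (f * f) ((a : F) ^ 4) hg 8 x, MulAut.one_apply]
    have h32 : ((a : F) ^ 4) ^ 8 = 1 := by
      have e' : ((a : F) ^ 4) ^ 8 = ((a : F) ^ 8) ^ 4 := by ring
      rw [e', h8, one_pow]
    rw [h32, one_mul]

omit [Finite F] in
theorem exists_semilinear (h9 : ∀ x : F, x ^ 9 = x) :
    ∃ S : Subgroup (MulAut (Multiplicative F)), ∀ f : MulAut (Multiplicative F), f ∈ S ↔
      ∃ a : Fˣ, (∀ x : F, f (Multiplicative.ofAdd x) = Multiplicative.ofAdd (a * x)) ∨
        (∀ x : F, f (Multiplicative.ofAdd x) = Multiplicative.ofAdd (a * x ^ 3)) := by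
  have h33 : ∀ x : F, (x ^ 3) ^ 3 = x := fun x => by rw [← pow_mul]; exact h9 x
  refine ⟨{ carrier := {f | ∃ a : Fˣ,
              (∀ x : F, f (Multiplicative.ofAdd x) = Multiplicative.ofAdd (a * x)) ∨
              (∀ x : F, f (Multiplicative.ofAdd x) = Multiplicative.ofAdd (a * x ^ 3))}
            mul_mem' := ?_
            one_mem' := ?_
            inv_mem' := ?_ }, fun f => Iff.rfl⟩
  · rintro f g ⟨a, ha⟩ ⟨b, hb⟩
    rcases ha with ha | ha <;> rcases hb with hb | hb
    · exact ⟨a * b, Or.inl fun x => by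
        rw [MulAut.mul_apply, hb, ha, Units.val_mul, mul_assoc]⟩
    · exact ⟨a * b, Or.inr fun x => by
        rw [MulAut.mul_apply, hb, ha, Units.val_mul, mul_assoc]⟩
    · exact ⟨a * b ^ 3, Or.inr fun x => by
        rw [MulAut.mul_apply, hb, ha, mul_pow, Units.val_mul, Units.val_pow_eq_pow_val,
          mul_assoc]⟩
    · exact ⟨a * b ^ 3, Or.inl fun x => by
        rw [MulAut.mul_apply, hb, ha, mul_pow, h33, Units.val_mul, Units.val_pow_eq_pow_val,
          mul_assoc]⟩
  · exact ⟨1, Or.inl fun x => by rw [MulAut.one_apply, Units.val_one, one_mul]⟩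
  · rintro f ⟨a, ha⟩
    rcases ha with ha | ha
    · refine ⟨a⁻¹, Or.inl fun x => ?_⟩
      apply f.injective
      rw [MulAut.apply_inv_self, ha, Units.mul_inv_cancel_left]
    · refine ⟨a⁻¹ ^ 3, Or.inr fun x => ?_⟩
      apply f.injective
      rw [MulAut.apply_inv_self, ha, mul_pow, h33, Units.val_pow_eq_pow_val, h33,
        Units.mul_inv_cancel_left]

omit [Finite F] in
theorem exists_frob [CharP F 3] (h9 : ∀ x : F, x ^ 9 = x) :
    ∃ t : MulAut (Multiplicative F),
      ∀ x : F, t (Multiplicative.ofAdd x) = Multiplicative.ofAdd (x ^ 3) := by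
  have h33 : ∀ x : F, (x ^ 3) ^ 3 = x := fun x => by rw [← pow_mul]; exact h9 x
  have : Fact (Nat.Prime 3) := ⟨Nat.prime_three⟩
  exact ⟨AddEquiv.toMultiplicative
    ({ toFun := fun x => x ^ 3
       invFun := fun x => x ^ 3
       left_inv := h33
       right_inv := h33
       map_add' := fun x y => add_pow_char x y 3 } : F ≃+ F), fun x => rfl⟩

omit [Finite F] in
theorem exists_mulLeft (a : F) (ha : a ≠ 0) :
    ∃ t : MulAut (Multiplicative F),
      ∀ x : F, t (Multiplicative.ofAdd x) = Multiplicative.ofAdd (a * x) :=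
  ⟨AddEquiv.toMultiplicative
    ({ toFun := fun x => a * x
       invFun := fun x => a⁻¹ * x
       left_inv := fun x => inv_mul_cancel_left₀ ha x
       right_inv := fun x => mul_inv_cancel_left₀ ha x
       map_add' := fun x y => mul_add a x y } : F ≃+ F), fun _ => rfl⟩

theorem main_field [CharP F 3] (hF : Nat.card F = 9) :
    ∃ (G : Type) (_ : Group G) (_ : Finite G) (A : Subgroup G), Group.IsSolvable G ∧
      Nat.card A = 2 ∧
      (∀ c : G, ∃ g : G, IsConj c g ∧ (A.subgroupOf (A ⊔ Subgroup.zpowers g)).IsSubnormal) ∧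
      ¬ A ≤ Cfsg.pCore 2 G := by
  have h9 := pow9 F hF
  have h33 : ∀ x : F, (x ^ 3) ^ 3 = x := fun x => by rw [← pow_mul]; exact h9 x
  obtain ⟨S, hS⟩ := exists_semilinear F h9
  obtain ⟨t₀, ht₀⟩ := exists_frob F h9
  obtain ⟨x₁, hx₁⟩ := exists_pow_three_ne F hF
  have ht₀S : t₀ ∈ S :=
    (hS t₀).mpr ⟨1, Or.inr fun x => by rw [ht₀, Units.val_one, one_mul]⟩
  have hN3 : ∀ n : Multiplicative F, n ^ 3 = 1 := by
    intro n
    have h : (3 : ℕ) • (Multiplicative.toAdd n) = 0 := by
      rw [nsmul_eq_mul, CharP.cast_eq_zero F 3, zero_mul]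
    exact congrArg Multiplicative.ofAdd h
  have hSp : IsPGroup 2 S := by
    intro s
    refine ⟨4, Subtype.ext ?_⟩
    rw [Subgroup.coe_pow, Subgroup.coe_one]
    exact pow16 F h9 s ((hS s).mp s.2)
  have ht1 : (⟨t₀, ht₀S⟩ : S) ≠ 1 := by
    intro e
    have h := congrArg (fun s : S => (s : MulAut (Multiplicative F)) (Multiplicative.ofAdd x₁)) e
    have h' : t₀ (Multiplicative.ofAdd x₁) = Multiplicative.ofAdd x₁ := h
    rw [ht₀] at h'
    exact hx₁ (Multiplicative.ofAdd.injective h')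
  have ht2 : (⟨t₀, ht₀S⟩ : S) * ⟨t₀, ht₀S⟩ = 1 := by
    apply Subtype.ext
    show t₀ * t₀ = 1
    refine ext_ofAdd F _ _ fun x => ?_
    rw [MulAut.mul_apply, ht₀, ht₀, MulAut.one_apply, h33]
  have htv : S.subtype (⟨t₀, ht₀S⟩ : S) (Multiplicative.ofAdd (1 : F)) =
      Multiplicative.ofAdd (1 : F) := by
    show t₀ (Multiplicative.ofAdd (1 : F)) = Multiplicative.ofAdd (1 : F)
    rw [ht₀, one_pow]
  have htrans : ∀ n : Multiplicative F, n ≠ 1 →
      ∃ s : S, S.subtype s n = Multiplicative.ofAdd (1 : F) := by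
    intro n hn
    have hx : Multiplicative.toAdd n ≠ 0 := fun e => hn (congrArg Multiplicative.ofAdd e)
    obtain ⟨s, hs⟩ := exists_mulLeft F (Multiplicative.toAdd n)⁻¹ (inv_ne_zero hx)
    refine ⟨⟨s, (hS s).mpr ⟨Units.mk0 (Multiplicative.toAdd n)⁻¹ (inv_ne_zero hx),
      Or.inl fun y => by rw [hs, Units.val_mk0]⟩⟩, ?_⟩
    show s (Multiplicative.ofAdd (Multiplicative.toAdd n)) = Multiplicative.ofAdd (1 : F)
    rw [hs, inv_mul_cancel₀ hx]
  have hstab : ∀ h : S, S.subtype h (Multiplicative.ofAdd (1 : F)) =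
      Multiplicative.ofAdd (1 : F) → h = 1 ∨ h = ⟨t₀, ht₀S⟩ := by
    intro h hfix
    have hfix' : (h : MulAut (Multiplicative F)) (Multiplicative.ofAdd (1 : F)) =
        Multiplicative.ofAdd (1 : F) := hfix
    obtain ⟨a, ha | ha⟩ := (hS h).mp h.2
    · left
      rw [ha, mul_one] at hfix'
      have ha1 : (a : F) = 1 := Multiplicative.ofAdd.injective hfix'
      apply Subtype.ext
      show (h : MulAut (Multiplicative F)) = 1
      refine ext_ofAdd F _ _ fun x => ?_
      rw [ha, ha1, one_mul, MulAut.one_apply]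
    · right
      rw [ha, one_pow, mul_one] at hfix'
      have ha1 : (a : F) = 1 := Multiplicative.ofAdd.injective hfix'
      apply Subtype.ext
      show (h : MulAut (Multiplicative F)) = t₀
      refine ext_ofAdd F _ _ fun x => ?_
      rw [ha, ha1, one_mul, ht₀]
  have hnt : ∃ n : Multiplicative F, S.subtype (⟨t₀, ht₀S⟩ : S) n ≠ n := by
    refine ⟨Multiplicative.ofAdd x₁, fun e => ?_⟩
    have e' : t₀ (Multiplicative.ofAdd x₁) = Multiplicative.ofAdd x₁ := e
    rw [ht₀] at e'
    exact hx₁ (Multiplicative.ofAdd.injective e')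
  obtain ⟨A, h1, h2, h3, h4⟩ := key_lemma S.subtype hN3 hSp ⟨t₀, ht₀S⟩ ht1 ht2
    (Multiplicative.ofAdd (1 : F)) htv htrans hstab hnt
  exact ⟨Multiplicative F ⋊[S.subtype] S, inferInstance,
    Finite.of_equiv _ SemidirectProduct.equivProd.symm, A, h1, h2, h3, h4⟩

end field

/-- There is a finite solvable group G with a subgroup A of order 2 such that every conjugacy class of G contains an element g for which A is subnormal in the subgroup generated by A and g, and yet A is not contained in O_2(G). (So the corresponding criteria for odd primes fail at the prime 2, even for solvable groups.) -/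
theorem result :
    ∃ (G : Type) (_ : Group G) (_ : Finite G) (A : Subgroup G), Group.IsSolvable G ∧ Nat.card A = 2 ∧
      (∀ c : G, ∃ g : G, IsConj c g ∧ (A.subgroupOf (A ⊔ Subgroup.zpowers g)).IsSubnormal) ∧
      ¬ A ≤ Cfsg.pCore 2 G := by
  have : Fact (Nat.Prime 3) := ⟨Nat.prime_three⟩
  exact main_field (GaloisField 3 2) (by rw [GaloisField.card 3 2 (by norm_num)]; norm_num)

end Cfsg.Agent.S4331
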