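import Mathlib
import Cfsg.Statements.S4332
-- import your own Cfsg.Agent.* helpers here

set_option autoImplicit false
open Pointwise
open Cfsg

namespace Cfsg.Agent.S4332

theorem conj3 {α : Type*} [DecidableEq α] (c : Equiv.Perm α) (x y z : α) :
    c * (Equiv.swap x y * Equiv.swap x z) * c⁻¹
      = Equiv.swap (c x) (c y) * Equiv.swap (c x) (c z) := by
  rw [Equiv.swap_apply_apply, Equiv.swap_apply_apply]; group

theorem rot {α : Type*} [DecidableEq α] (a b c : α) (_hab : a ≠ b) (hac : a ≠ c) (hbc : b ≠ c) :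
    Equiv.swap a b * Equiv.swap a c = Equiv.swap b c * Equiv.swap b a := by
  have h := Equiv.swap_apply_apply (Equiv.swap a b) b c
  rw [Equiv.swap_apply_right, Equiv.swap_apply_of_ne_of_ne hac.symm hbc.symm, Equiv.swap_inv] at h
  rw [h, Equiv.swap_comm b a]
  rw [mul_assoc (Equiv.swap a b) (Equiv.swap b c), ← mul_assoc (Equiv.swap a b) (Equiv.swap a b),
    Equiv.swap_mul_self, one_mul]

theorem swap_comm_of_disjoint {α : Type*} [DecidableEq α] (x y u v : α)
    (hxu : x ≠ u) (hxv : x ≠ v) (hyu : y ≠ u) (hyv : y ≠ v) :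
    Commute (Equiv.swap u v) (Equiv.swap x y) := by
  have h := Equiv.swap_apply_apply (Equiv.swap u v) x y
  rw [Equiv.swap_apply_of_ne_of_ne hxu hxv, Equiv.swap_apply_of_ne_of_ne hyu hyv,
    Equiv.swap_inv] at h
  have h2 : Equiv.swap x y * Equiv.swap u v = Equiv.swap u v * Equiv.swap x y := by
    calc Equiv.swap x y * Equiv.swap u v
        = (Equiv.swap u v * Equiv.swap x y * Equiv.swap u v) * Equiv.swap u v := by rw [← h]
      _ = Equiv.swap u v * Equiv.swap x y := by rw [mul_assoc, Equiv.swap_mul_self, mul_one]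
  exact h2.symm

theorem three_comm_of_disjoint {α : Type*} [DecidableEq α] (x y z u v w : α)
    (h1 : x ≠ u) (h2 : x ≠ v) (h3 : x ≠ w) (h4 : y ≠ u) (h5 : y ≠ v) (h6 : y ≠ w)
    (h7 : z ≠ u) (h8 : z ≠ v) (h9 : z ≠ w) :
    Commute (Equiv.swap u v * Equiv.swap u w) (Equiv.swap x y * Equiv.swap x z) := by
  apply Commute.mul_left
  · apply Commute.mul_right
    · exact swap_comm_of_disjoint x y u v h1 h2 h4 h5
    · exact swap_comm_of_disjoint x z u v h1 h2 h7 h8
  · apply Commute.mul_right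
    · exact swap_comm_of_disjoint x y u w h1 h3 h4 h6
    · exact swap_comm_of_disjoint x z u w h1 h3 h7 h9

theorem exists_triple (c : Equiv.Perm (Fin 8)) :
    ∃ x y z : Fin 8, x ≠ y ∧ x ≠ z ∧ y ≠ z ∧
      ((c x = x ∧ c y = y ∧ c z = z) ∨ (c x = y ∧ c y = z ∧ c z = x) ∨
        (c x ≠ x ∧ c x ≠ y ∧ c x ≠ z ∧ c y ≠ x ∧ c y ≠ y ∧ c y ≠ z ∧
          c z ≠ x ∧ c z ≠ y ∧ c z ≠ z)) := by
  have hinj : ∀ a b, c a = c b → a = b := fun a b h => c.injective h
  by_cases hM : c.support.card ≤ 5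
  · have hcard : 2 < (c.supportᶜ).card := by
      rw [Finset.card_compl, Fintype.card_fin]; omega
    obtain ⟨x, y, z, hx, hy, hz, hxy, hxz, hyz⟩ := Finset.two_lt_card_iff.1 hcard
    refine ⟨x, y, z, hxy, hxz, hyz, Or.inl ⟨?_, ?_, ?_⟩⟩
    · simpa using hx
    · simpa using hy
    · simpa using hz
  push Not at hM
  by_cases h3 : ∃ x, c x ≠ x ∧ c (c (c x)) = x
  · obtain ⟨x, hx, hx3⟩ := h3
    refine ⟨x, c x, c (c x), ?_, ?_, ?_, Or.inr (Or.inl ⟨rfl, rfl, hx3⟩)⟩
    · exact fun h => hx h.symm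
    · intro h
      apply hx
      have h' := congrArg c h
      rw [hx3] at h'
      exact h'
    · intro h; exact hx (hinj _ _ h).symm
  push Not at h3
  have hne : c.support.Nonempty := Finset.card_pos.1 (by omega)
  obtain ⟨x, hx⟩ := hne
  rw [Equiv.Perm.mem_support] at hx
  have hx3 := h3 x hx
  by_cases h2 : c (c x) = x
  · obtain ⟨y, hyM, hy⟩ := Finset.exists_mem_notMem_of_card_lt_card (s := {x, c x})
      (t := c.support) (lt_of_le_of_lt Finset.card_le_two (by omega))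
    obtain ⟨w, hw⟩ := c.surjective y
    obtain ⟨z, hzM, hz⟩ := Finset.exists_mem_notMem_of_card_lt_card (s := {x, c x, y, c y, w})
      (t := c.support) (lt_of_le_of_lt Finset.card_le_five (by omega))
    rw [Equiv.Perm.mem_support] at hyM hzM
    simp only [Finset.mem_insert, Finset.mem_singleton, not_or] at hy hz
    refine ⟨x, y, z, ?_, ?_, ?_, Or.inr (Or.inr ?_)⟩
    all_goals grind
  by_cases h45 : c (c (c (c x))) = x ∨ c (c (c (c (c x)))) = x
  · obtain ⟨z, hzM, hz⟩ := Finset.exists_mem_notMem_of_card_lt_card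
      (s := {x, c x, c (c x), c (c (c x)), c (c (c (c x)))})
      (t := c.support) (lt_of_le_of_lt Finset.card_le_five (by omega))
    rw [Equiv.Perm.mem_support] at hzM
    simp only [Finset.mem_insert, Finset.mem_singleton, not_or] at hz
    refine ⟨x, c (c x), z, ?_, ?_, ?_, Or.inr (Or.inr ?_)⟩
    all_goals grind
  · push Not at h45
    refine ⟨x, c (c x), c (c (c (c x))), ?_, ?_, ?_, Or.inr (Or.inr ?_)⟩
    all_goals grind

theorem exists_three_cycle (c : Equiv.Perm (Fin 8)) :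
    ∃ τ : Equiv.Perm (Fin 8), τ.IsThreeCycle ∧ Commute (c * τ * c⁻¹) τ := by
  obtain ⟨x, y, z, hxy, hxz, hyz, h⟩ := exists_triple c
  refine ⟨Equiv.swap x y * Equiv.swap x z,
    Equiv.Perm.isThreeCycle_swap_mul_swap_same hxy hxz hyz, ?_⟩
  rw [conj3]
  have key : ∀ t, t = Equiv.swap x y * Equiv.swap x z →
      Commute t (Equiv.swap x y * Equiv.swap x z) := by
    rintro t rfl; exact Commute.refl _
  rcases h with ⟨h1, h2, h3⟩ | ⟨h1, h2, h3⟩ | ⟨h1, h2, h3, h4, h5, h6, h7, h8, h9⟩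
  · apply key
    rw [h1, h2, h3]
  · apply key
    rw [h1, h2, h3]
    exact (rot y z x hyz hxy.symm hxz.symm).trans (rot z x y hxz.symm hyz.symm hxy)
  · exact three_comm_of_disjoint x y z (c x) (c y) (c z) h1.symm h4.symm h7.symm h2.symm h5.symm
      h8.symm h3.symm h6.symm h9.symm

theorem part1 (σ : Equiv.Perm (Fin 8)) (hσ : σ.IsThreeCycle) (c : Equiv.Perm (Fin 8)) :
    ∃ g : Equiv.Perm (Fin 8), IsConj c g ∧
      ((Subgroup.zpowers σ).subgroupOf
        (Subgroup.zpowers σ ⊔ MulAut.conj g • Subgroup.zpowers σ)).IsSubnormal := by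
  obtain ⟨τ, hτ, hcomm⟩ := exists_three_cycle c
  have hconj : IsConj σ τ := by
    rw [Equiv.Perm.isConj_iff_cycleType_eq]
    exact hσ.trans hτ.symm
  obtain ⟨h, hh⟩ := isConj_iff.1 hconj
  refine ⟨h⁻¹ * c * h, isConj_iff.2 ⟨h⁻¹, by group⟩, ?_⟩
  have hcomm' : Commute ((h⁻¹ * c * h) * σ * (h⁻¹ * c * h)⁻¹) σ := by
    have hc : c * τ * c⁻¹ * τ = τ * (c * τ * c⁻¹) := hcomm.eq
    have e2 : σ = h⁻¹ * τ * h := by rw [← hh]; group
    show (h⁻¹ * c * h) * σ * (h⁻¹ * c * h)⁻¹ * σ = σ * ((h⁻¹ * c * h) * σ * (h⁻¹ * c * h)⁻¹)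
    rw [e2]
    calc h⁻¹ * c * h * (h⁻¹ * τ * h) * (h⁻¹ * c * h)⁻¹ * (h⁻¹ * τ * h)
        = h⁻¹ * (c * τ * c⁻¹ * τ) * h := by group
      _ = h⁻¹ * (τ * (c * τ * c⁻¹)) * h := by rw [hc]
      _ = h⁻¹ * τ * h * (h⁻¹ * c * h * (h⁻¹ * τ * h) * (h⁻¹ * c * h)⁻¹) := by group
  have hB : MulAut.conj (h⁻¹ * c * h) • Subgroup.zpowers σ
      = Subgroup.zpowers ((h⁻¹ * c * h) * σ * (h⁻¹ * c * h)⁻¹) := by
    exact MonoidHom.map_zpowers (MulAut.conj (h⁻¹ * c * h)).toMonoidHom σ
  apply Subgroup.Normal.isSubnormal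
  rw [Subgroup.normal_subgroupOf_iff_le_normalizer le_sup_left]
  apply sup_le Subgroup.le_normalizer
  rw [hB, Subgroup.zpowers_le]
  apply Subgroup.centralizer_le_normalizer
  rw [Subgroup.mem_centralizer_iff]
  intro x hx
  obtain ⟨k, rfl⟩ := Subgroup.mem_zpowers_iff.1 hx
  exact ((hcomm'.zpow_right k).eq).symm

theorem part2 : Cfsg.pCore 3 (Equiv.Perm (Fin 8)) = ⊥ := by
  unfold Cfsg.pCore
  rw [sSup_eq_bot]
  rintro N ⟨hN, hNp⟩
  by_contra hne
  have hfix : MulAction.fixedPoints N (Fin 8) ≠ Set.univ := by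
    intro h
    apply hne
    rw [Subgroup.eq_bot_iff_forall]
    intro n hn
    refine Equiv.ext fun x => ?_
    have hx : x ∈ MulAction.fixedPoints N (Fin 8) := by rw [h]; exact Set.mem_univ _
    exact hx ⟨n, hn⟩
  have : MulAction.IsPretransitive N (Fin 8) :=
    MulAction.IsQuasiPreprimitive.isPretransitive_of_normal hfix
  have h1 := MulAction.index_stabilizer_of_transitive (G := N) (X := Fin 8) (x := (0 : Fin 8))
  have h2 := Subgroup.index_dvd_card (MulAction.stabilizer N (0 : Fin 8))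
  rw [h1, Nat.card_fin] at h2
  have : Fact (Nat.Prime 3) := ⟨by norm_num⟩
  obtain ⟨k, hk⟩ := (IsPGroup.iff_card.1 hNp)
  rw [hk] at h2
  have h3 : (2 : ℕ) ∣ 3 ^ k := dvd_trans (by norm_num) h2
  have h4 := Nat.Prime.dvd_of_dvd_pow Nat.prime_two h3
  omega

/-- In the symmetric group of degree 8, let A be the subgroup generated by a 3-cycle. Then every conjugacy class contains an element g for which A is subnormal in the subgroup generated by A and its conjugate by g, although O_3 of the symmetric group of degree 8 is trivial. -/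
theorem result
    (σ : Equiv.Perm (Fin 8)) (hσ : σ.IsThreeCycle) :
    (∀ c : Equiv.Perm (Fin 8), ∃ g : Equiv.Perm (Fin 8), IsConj c g ∧
      ((Subgroup.zpowers σ).subgroupOf (Subgroup.zpowers σ ⊔ MulAut.conj g • Subgroup.zpowers σ)).IsSubnormal) ∧
    Cfsg.pCore 3 (Equiv.Perm (Fin 8)) = ⊥ := by
  exact ⟨fun c => part1 σ hσ c, part2⟩

end Cfsg.Agent.S4332
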