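import Mathlib
import Cfsg.Statements.S4333
import Cfsg.Agent.Helper1.Subn

set_option autoImplicit false
open Pointwise
open Cfsg

namespace Cfsg.Agent.S4333

universe u

open Cfsg.Agent.Helper1 in
theorem aux (n : ℕ) : ∀ (G : Type u) [Group G] [Finite G], Nat.card G = n →
    ∀ A : Subgroup G,
      (∀ a ∈ A, ∀ g : G, (A.subgroupOf (A ⊔ MulAut.conj (g⁻¹ * a * g) • A)).IsSubnormal) →
      A.IsSubnormal := by
  induction n using Nat.strong_induction_on with
  | _ n ih =>
  intro G _ _ hn A h
  by_contra hns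
  have hyp : ∀ H : Subgroup G, A ≤ H → H ≠ ⊤ → (A.subgroupOf H).IsSubnormal := by
    intro H hAH hH
    have hlt : Nat.card H < n := by
      rw [← hn]
      exact lt_of_le_of_ne (Subgroup.card_le_card_group H)
        (fun e => hH (Subgroup.eq_top_of_card_eq H e))
    refine ih _ hlt H rfl (A.subgroupOf H) ?_
    intro a ha g
    have ha' : (a : G) ∈ A := Subgroup.mem_subgroupOf.mp ha
    have hx : ((g⁻¹ * a * g : H) : G) = (g : G)⁻¹ * (a : G) * (g : G) := rfl
    generalize g⁻¹ * a * g = x at hx ⊢
    have hgA : MulAut.conj (x : G) • A ≤ H := by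
      intro z hz
      rw [mem_conj_smul] at hz
      have e : z = (x : G) * ((x : G)⁻¹ * z * x) * (x : G)⁻¹ := by group
      rw [e]
      exact H.mul_mem (H.mul_mem x.2 (hAH hz)) (H.inv_mem x.2)
    have e1 : MulAut.conj x • A.subgroupOf H = (MulAut.conj (x : G) • A).subgroupOf H := by
      ext z
      rw [mem_conj_smul, Subgroup.mem_subgroupOf, Subgroup.mem_subgroupOf, mem_conj_smul]
      rfl
    rw [e1, ← Subgroup.subgroupOf_sup hAH hgA]
    have h' := h (a : G) ha' (g : G)
    rw [← hx] at h'
    exact subnormal_subgroupOf_subgroupOf (sup_le hAH hgA) h'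
  obtain ⟨M, hM, hAM, huniq⟩ := zipper A hyp hns
  have hall : ∀ a ∈ A, ∀ g : G, MulAut.conj (g⁻¹ * a * g) • A ≤ M := by
    intro a ha g
    have hne : A ⊔ MulAut.conj (g⁻¹ * a * g) • A ≠ ⊤ := by
      intro htop
      apply hns
      have h1 := h a ha g
      have h2 : (A ⊔ MulAut.conj (g⁻¹ * a * g) • A).IsSubnormal := by
        rw [htop]; exact Subgroup.IsSubnormal.top
      exact Subgroup.IsSubnormal.trans le_sup_left h1 h2
    obtain ⟨M', hM', hle⟩ := (eq_top_or_exists_le_coatom _).resolve_left hne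
    rw [← huniq M' hM' (le_sup_left.trans hle)]
    exact le_sup_right.trans hle
  have hnorm : ∀ a ∈ A, ∀ g : G, g⁻¹ * a * g ∈ Subgroup.normalizer (M : Set G) := by
    intro a ha g
    have h1 := hall a ha g
    have h2 : A ≤ MulAut.conj (g⁻¹ * a * g)⁻¹ • M := by
      have h3 := conj_smul_mono (g⁻¹ * a * g)⁻¹ h1
      rwa [conj_smul_inv_smul] at h3
    have h4 := huniq _ (isCoatom_conj hM (g⁻¹ * a * g)⁻¹) h2
    have h5 : (g⁻¹ * a * g)⁻¹ ∈ Subgroup.normalizer (M : Set G) :=
      mem_normalizer_iff_conj_smul.mpr h4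
    have h6 := (Subgroup.normalizer (M : Set G)).inv_mem h5
    rwa [inv_inv] at h6
  have hNC : Subgroup.normalClosure (A : Set G) ≤ Subgroup.normalizer (M : Set G) := by
    show Subgroup.closure (Group.conjugatesOfSet (A : Set G)) ≤ _
    rw [Subgroup.closure_le]
    intro c hc
    rw [Group.mem_conjugatesOfSet_iff] at hc
    obtain ⟨a, ha, hconj⟩ := hc
    obtain ⟨g, rfl⟩ := isConj_iff.mp hconj
    have h1 := hnorm a ha g⁻¹
    rwa [inv_inv] at h1
  by_cases hNCtop : Subgroup.normalClosure (A : Set G) = ⊤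
  · rw [hNCtop, top_le_iff] at hNC
    have hMn : M.Normal := Subgroup.normalizer_eq_top_iff.mp hNC
    have h1 := hyp M hAM hM.1
    exact hns (Subgroup.IsSubnormal.trans hAM h1 (Subgroup.Normal.isSubnormal hMn))
  · have h1 := hyp _ Subgroup.le_normalClosure hNCtop
    exact hns (Subgroup.IsSubnormal.trans Subgroup.le_normalClosure h1
      (Subgroup.Normal.isSubnormal Subgroup.normalClosure_normal))

/-- Let A be a subgroup of a finite group G. If A is subnormal in the subgroup generated by A and its conjugate by g⁻¹ a g, for every a ∈ A and every g ∈ G, then A is subnormal in G. (A sharpening of Wielandt's subnormality criterion: only conjugates of A by conjugates of elements of A are needed.) -/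
theorem result {G : Type*} [Group G] [Finite G]
    (A : Subgroup G)
    (h : ∀ a ∈ A, ∀ g : G, (A.subgroupOf (A ⊔ MulAut.conj (g⁻¹ * a * g) • A)).IsSubnormal) :
    A.IsSubnormal := by
  exact aux _ G rfl A h

end Cfsg.Agent.S4333
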