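import Mathlib
import Cfsg.Statements.S4337
-- import your own Cfsg.Agent.* helpers here

set_option autoImplicit false
open Cfsg

namespace Cfsg.Agent.S4337

theorem solvable_perm_fin4 : Group.IsSolvable (Equiv.Perm (Fin 4)) := by
  have h4 : Nat.card (Fin 4) = 4 := Nat.card_fin 4
  have hV : Group.IsSolvable (alternatingGroup.kleinFour (Fin 4)) := by
    have hK := alternatingGroup.kleinFour_isKleinFour h4
    have hc := IsKleinFour.isMulCommutative (G := alternatingGroup.kleinFour (Fin 4))
    exact Group.isSolvable_of_comm (fun a b => mul_comm' a b)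
  have hA : Group.IsSolvable (alternatingGroup (Fin 4)) := by
    refine Group.isSolvable_of_ker_le_range (alternatingGroup.kleinFour (Fin 4)).subtype
      (Abelianization.of) ?_
    rw [Abelianization.ker_of, Subgroup.range_subtype, alternatingGroup.kleinFour_eq_commutator h4]
  refine Group.isSolvable_of_ker_le_range (alternatingGroup (Fin 4)).subtype (Equiv.Perm.sign) ?_
  rw [Subgroup.range_subtype]
  exact le_of_eq rfl

theorem solvable_of_supports {α : Type*} [DecidableEq α] [Fintype α] (T : Finset α)
    (hT : T.card ≤ 4) (S : Set (Equiv.Perm α)) (hS : ∀ σ ∈ S, σ.support ⊆ T) :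
    Group.IsSolvable (Subgroup.closure S) := by
  have hle : Subgroup.closure S ≤
      (Equiv.Perm.ofSubtype : Equiv.Perm (Subtype (· ∈ T)) →* Equiv.Perm α).range := by
    rw [Subgroup.closure_le]
    intro σ hσ
    rw [SetLike.mem_coe, Equiv.Perm.mem_range_ofSubtype_iff]
    intro x hx
    exact hS σ hσ hx
  have h4 := solvable_perm_fin4
  have h1 : Group.IsSolvable (Equiv.Perm (Subtype (· ∈ T))) := by
    have hcard : Fintype.card (Subtype (· ∈ T)) ≤ Fintype.card (Fin 4) := by
      rw [Fintype.card_fin]; simpa using hT
    obtain ⟨ι⟩ := Function.Embedding.nonempty_of_card_le hcard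
    exact Group.isSolvable_of_isSolvable_injective (Equiv.Perm.viaEmbeddingHom_injective ι)
  have h2 : Group.IsSolvable
      (Equiv.Perm.ofSubtype : Equiv.Perm (Subtype (· ∈ T)) →* Equiv.Perm α).range :=
    Group.isSolvable_of_surjective (MonoidHom.rangeRestrict_surjective _)
  exact Group.isSolvable_of_isSolvable_injective (Subgroup.inclusion_injective hle)

theorem solvable_of_le_sup_commute {G : Type*} [Group G] (H : Subgroup G) [Group.IsSolvable H]
    (c : G) (hc : ∀ h ∈ H, Commute h c) (K : Subgroup G) (hK : K ≤ H ⊔ Subgroup.zpowers c) :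
    Group.IsSolvable K := by
  have comm : ∀ (m : H) (n : Subgroup.zpowers c),
      Commute (H.subtype m) ((Subgroup.zpowers c).subtype n) := by
    intro m n
    obtain ⟨k, hk⟩ := Subgroup.mem_zpowers_iff.1 n.2
    rw [Subgroup.coe_subtype, Subgroup.coe_subtype, ← hk]
    exact (hc m m.2).zpow_right k
  have hZ : Group.IsSolvable (Subgroup.zpowers c) := by
    apply Group.isSolvable_of_comm
    intro x y
    obtain ⟨i, hi⟩ := Subgroup.mem_zpowers_iff.1 x.2
    obtain ⟨j, hj⟩ := Subgroup.mem_zpowers_iff.1 y.2
    apply Subtype.ext
    rw [Subgroup.coe_mul, Subgroup.coe_mul, ← hi, ← hj, ← zpow_add, ← zpow_add, add_comm]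
  have hrange : (MonoidHom.noncommCoprod H.subtype (Subgroup.zpowers c).subtype comm).range
      = H ⊔ Subgroup.zpowers c := by
    rw [MonoidHom.noncommCoprod_range, Subgroup.range_subtype, Subgroup.range_subtype]
  have h1 : Group.IsSolvable
      (MonoidHom.noncommCoprod H.subtype (Subgroup.zpowers c).subtype comm).range :=
    Group.isSolvable_of_surjective (MonoidHom.rangeRestrict_surjective _)
  rw [← hrange] at hK
  exact Group.isSolvable_of_isSolvable_injective (Subgroup.inclusion_injective hK)

theorem solvable_card {α : Type*} [DecidableEq α] [Fintype α] (a b c : Equiv.Perm α)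
    (h : (a.support ∪ b.support ∪ c.support).card ≤ 4) :
    Group.IsSolvable (Subgroup.closure ({a, b, c} : Set (Equiv.Perm α))) := by
  apply solvable_of_supports _ h
  intro σ hσ
  simp only [Set.mem_insert_iff, Set.mem_singleton_iff] at hσ
  rcases hσ with rfl | rfl | rfl
  · exact Finset.subset_union_left.trans Finset.subset_union_left
  · exact Finset.subset_union_right.trans Finset.subset_union_left
  · exact Finset.subset_union_right

theorem solvable_isolated {α : Type*} [DecidableEq α] [Fintype α] (a b c : Equiv.Perm α)
    (ha : a.support.card = 2) (hb : b.support.card = 2)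
    (hac : Disjoint a.support c.support) (hbc : Disjoint b.support c.support) :
    Group.IsSolvable (Subgroup.closure ({a, b, c} : Set (Equiv.Perm α))) := by
  have hH : Group.IsSolvable (Subgroup.closure ({a, b} : Set (Equiv.Perm α))) := by
    apply solvable_of_supports (a.support ∪ b.support)
    · have := Finset.card_union_le a.support b.support
      omega
    · intro σ hσ
      simp only [Set.mem_insert_iff, Set.mem_singleton_iff] at hσ
      rcases hσ with rfl | rfl
      · exact Finset.subset_union_left
      · exact Finset.subset_union_right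
  have hcomm : ∀ h ∈ Subgroup.closure ({a, b} : Set (Equiv.Perm α)), Commute h c := by
    have hle : Subgroup.closure ({a, b} : Set (Equiv.Perm α)) ≤ Subgroup.centralizer {c} := by
      rw [Subgroup.closure_le]
      intro σ hσ
      simp only [Set.mem_insert_iff, Set.mem_singleton_iff] at hσ
      rw [SetLike.mem_coe, Subgroup.mem_centralizer_iff]
      intro x hx
      rw [Set.mem_singleton_iff] at hx
      subst hx
      rcases hσ with rfl | rfl
      · exact ((Equiv.Perm.disjoint_iff_disjoint_support.2 hac).commute).symm.eq
      · exact ((Equiv.Perm.disjoint_iff_disjoint_support.2 hbc).commute).symm.eq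
    intro h hh
    have := Subgroup.mem_centralizer_iff.1 (hle hh) c (Set.mem_singleton c)
    exact this.symm
  apply solvable_of_le_sup_commute _ c hcomm
  rw [Subgroup.closure_le]
  intro σ hσ
  simp only [Set.mem_insert_iff, Set.mem_singleton_iff] at hσ
  rcases hσ with rfl | rfl | rfl
  · exact (le_sup_left : _ ≤ _ ⊔ Subgroup.zpowers _) (Subgroup.subset_closure (by simp))
  · exact (le_sup_left : _ ≤ _ ⊔ Subgroup.zpowers _) (Subgroup.subset_closure (by simp))
  · exact (le_sup_right : Subgroup.zpowers _ ≤ _) (Subgroup.mem_zpowers _)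

theorem card3 {α : Type*} [DecidableEq α] (X Y Z : Finset α) (hX : X.card = 2) (hY : Y.card = 2)
    (hZ : Z.card = 2) (h1 : ¬ Disjoint X Y) (h2 : ¬ Disjoint (X ∪ Y) Z) :
    (X ∪ Y ∪ Z).card ≤ 4 := by
  have e1 := Finset.card_union_add_card_inter X Y
  have e2 := Finset.card_union_add_card_inter (X ∪ Y) Z
  have p1 := (Finset.not_disjoint_iff_nonempty_inter.1 h1).card_pos
  have p2 := (Finset.not_disjoint_iff_nonempty_inter.1 h2).card_pos
  omega

/-- In a finite symmetric group, any three transpositions generate a solvable subgroup. -/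
theorem result (n : ℕ) (a b c : Equiv.Perm (Fin n))
    (ha : a.IsSwap) (hb : b.IsSwap) (hc : c.IsSwap) :
    Group.IsSolvable (Subgroup.closure ({a, b, c} : Set (Equiv.Perm (Fin n)))) := by
  have ha2 := Equiv.Perm.card_support_eq_two.2 ha
  have hb2 := Equiv.Perm.card_support_eq_two.2 hb
  have hc2 := Equiv.Perm.card_support_eq_two.2 hc
  by_cases h1 : Disjoint a.support c.support ∧ Disjoint b.support c.support
  · exact solvable_isolated a b c ha2 hb2 h1.1 h1.2
  by_cases h2 : Disjoint a.support b.support ∧ Disjoint c.support b.support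
  · have := solvable_isolated a c b ha2 hc2 h2.1 h2.2
    rwa [Set.pair_comm c b] at this
  by_cases h3 : Disjoint b.support a.support ∧ Disjoint c.support a.support
  · have := solvable_isolated b c a hb2 hc2 h3.1 h3.2
    have heq : ({b, c, a} : Set (Equiv.Perm (Fin n))) = {a, b, c} := by
      ext x; simp only [Set.mem_insert_iff, Set.mem_singleton_iff]; tauto
    rwa [heq] at this
  apply solvable_card
  by_cases hab : Disjoint a.support b.support
  · have hcb : ¬ Disjoint c.support b.support := fun h => h2 ⟨hab, h⟩
    have hca : ¬ Disjoint c.support a.support := fun h => h3 ⟨hab.symm, h⟩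
    have := card3 a.support c.support b.support ha2 hc2 hb2 (fun h => hca h.symm)
      (fun h => hcb (Finset.disjoint_union_left.1 h).2)
    rwa [Finset.union_right_comm] at this
  · exact card3 a.support b.support c.support ha2 hb2 hc2 hab
      (fun h => h1 (Finset.disjoint_union_left.1 h))

end Cfsg.Agent.S4337
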