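import Cfsg.Statements.S4344

set_option autoImplicit false
open Cfsg

namespace Cfsg.Agent.S4344

/-- Let S be a finite non-abelian simple group, M a maximal subgroup of S and C a cyclic normal subgroup of M. If a Sylow p-subgroup P of S (for a prime p dividing the order of S) is contained in C, then the number of Sylow p-subgroups of S equals the index of M. -/
theorem result {S : Type*} [Group S] [Finite S]
    [IsSimpleGroup S] (hS : ¬ IsMulCommutative S) (p : ℕ) [Fact p.Prime] (hp : p ∣ Nat.card S)
    (M : Subgroup S) (hM : IsCoatom M) (C : Subgroup S) (hCM : C ≤ M) (hCn : (C.subgroupOf M).Normal)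
    (hC : IsCyclic C) (P : Sylow p S) (hP : (P : Subgroup S) ≤ C) :
    Nat.card (Sylow p S) = M.index := by
  obtain ⟨g, hg⟩ := hC.exists_generator
  have hcomm : ∀ a ∈ C, ∀ b ∈ C, a * b = b * a := by
    intro a ha b hb
    obtain ⟨i, hi⟩ := Subgroup.mem_zpowers_iff.1 (hg ⟨a, ha⟩)
    obtain ⟨j, hj⟩ := Subgroup.mem_zpowers_iff.1 (hg ⟨b, hb⟩)
    have ha' : a = (g : S) ^ i := by
      have := congrArg Subtype.val hi
      simpa using this.symm
    have hb' : b = (g : S) ^ j := by
      have := congrArg Subtype.val hj
      simpa using this.symm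
    rw [ha', hb']
    exact (Commute.zpow_zpow_self (g : S) i j).eq
  have hMN : M ≤ Subgroup.normalizer ((P : Subgroup S) : Set S) := by
    intro m hm
    refine Sylow.smul_eq_iff_mem_normalizer.1 ?_
    have hP2C : ((m • P : Sylow p S) : Subgroup S) ≤ C := by
      intro y hy
      rw [Sylow.coe_subgroup_smul, Subgroup.mem_pointwise_smul_iff_inv_smul_mem] at hy
      have hy' : m⁻¹ * y * m ∈ (P : Subgroup S) := by
        simpa [MulAut.smul_def] using hy
      have hyC : m⁻¹ * y * m ∈ C := hP hy'
      have := hCn.conj_mem ⟨m⁻¹ * y * m, hCM hyC⟩ (Subgroup.mem_subgroupOf.2 hyC) ⟨m, hm⟩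
      rw [Subgroup.mem_subgroupOf] at this
      simpa [mul_assoc] using this
    have hnorm : (P : Subgroup S) ≤ Subgroup.normalizer (((m • P : Sylow p S) : Subgroup S) : Set S) := by
      intro a ha
      rw [Subgroup.mem_normalizer_iff]
      intro b
      constructor
      · intro hb
        have : a * b * a⁻¹ = b := by
          rw [hcomm a (hP ha) b (hP2C hb)]; group
        rw [this]; exact hb
      · intro hb
        have hb' : a * b * a⁻¹ ∈ C := hP2C hb
        have hbC : b ∈ C := by
          have := C.mul_mem (C.mul_mem (C.inv_mem (hP ha)) hb') (hP ha)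
          simpa [mul_assoc] using this
        have : a * b * a⁻¹ = b := by
          rw [hcomm a (hP ha) b hbC]; group
        rw [this] at hb; exact hb
    have hsup : IsPGroup p ((P : Subgroup S) ⊔ ((m • P : Sylow p S) : Subgroup S) : Subgroup S) :=
      IsPGroup.to_sup_of_normal_right' P.isPGroup' (m • P : Sylow p S).isPGroup' hnorm
    have h1 : ((P : Subgroup S) ⊔ ((m • P : Sylow p S) : Subgroup S) : Subgroup S) = P :=
      P.is_maximal' hsup le_sup_left
    have h2 : ((m • P : Sylow p S) : Subgroup S) ≤ P := by
      rw [← h1]; exact le_sup_right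
    exact Sylow.ext ((m • P : Sylow p S).is_maximal' P.isPGroup' h2).symm
  have hNtop : Subgroup.normalizer ((P : Subgroup S) : Set S) ≠ ⊤ := by
    intro htop
    have hPn : (P : Subgroup S).Normal := Subgroup.normalizer_eq_top_iff.1 htop
    rcases hPn.eq_bot_or_eq_top with h | h
    · exact P.ne_bot_of_dvd_card hp h
    · apply hS
      refine ⟨⟨fun a b => ?_⟩⟩
      have ha : a ∈ C := hP (h ▸ Subgroup.mem_top a)
      have hb : b ∈ C := hP (h ▸ Subgroup.mem_top b)
      exact hcomm a ha b hb
  have hNM : Subgroup.normalizer ((P : Subgroup S) : Set S) = M := by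
    rcases eq_or_lt_of_le hMN with h | h
    · exact h.symm
    · exact absurd (hM.2 _ h) hNtop
  rw [Sylow.card_eq_index_normalizer P]
  rw [← hNM]
  rfl

end Cfsg.Agent.S4344
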