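import Mathlib
import Cfsg.Statements.S4354

set_option autoImplicit false
open Cfsg

namespace Cfsg.Agent.S4354

theorem relIndex_dvd_index_of_normal_right {G : Type*} [Group G] [Finite G] (C N : Subgroup G)
    [N.Normal] : C.relIndex N ∣ C.index := by
  have h1 : C.relIndex N * N.index = (C ⊓ N).index := by
    rw [← Subgroup.inf_relIndex_right]; exact Subgroup.relIndex_mul_index inf_le_right
  have h2 : N.relIndex C * C.index = (C ⊓ N).index := by
    rw [← Subgroup.inf_relIndex_left]; exact Subgroup.relIndex_mul_index inf_le_left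
  obtain ⟨d, hd⟩ := Subgroup.relIndex_dvd_index_of_normal N C
  have h0 : N.relIndex C ≠ 0 := (Subgroup.index_ne_zero_of_finite : (N.subgroupOf C).index ≠ 0)
  refine ⟨d, ?_⟩
  have h3 : N.relIndex C * C.index = N.relIndex C * (C.relIndex N * d) := by
    rw [h2, ← h1, hd]; ring
  exact Nat.eq_of_mul_eq_mul_left (Nat.pos_of_ne_zero h0) h3

/-- Let G be a finite group and p a prime such that the Sylow p-subgroups of G are non-abelian while every element of p-power order has conjugacy class size prime to p, and suppose no nontrivial proper normal subgroup N of G has this property and no quotient G/N by such an N has it. Then G is simple. -/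
theorem result {G : Type*} [Group G] [Finite G]
    (p : ℕ) [Fact p.Prime] (h : ((∃ P : Sylow p G, ¬ IsMulCommutative P) ∧ ∀ x : G, (∃ k : ℕ, orderOf x = p ^ k) → ¬ p ∣ (Subgroup.centralizer ({x} : Set G)).index))
    (hmin : ∀ (N : Subgroup G) [N.Normal], N ≠ ⊥ → N ≠ ⊤ →
      ¬ ((∃ P : Sylow p N, ¬ IsMulCommutative P) ∧ ∀ x : N, (∃ k : ℕ, orderOf x = p ^ k) → ¬ p ∣ (Subgroup.centralizer ({x} : Set N)).index) ∧
      ¬ ((∃ P : Sylow p (G ⧸ N), ¬ IsMulCommutative P) ∧ ∀ x : (G ⧸ N), (∃ k : ℕ, orderOf x = p ^ k) → ¬ p ∣ (Subgroup.centralizer ({x} : Set (G ⧸ N))).index)) :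
    IsSimpleGroup G := by
  have hp : p.Prime := Fact.out
  obtain ⟨⟨P₀, hP₀⟩, hC⟩ := h
  have hnt : Nontrivial G := by
    by_contra hnt
    rw [not_nontrivial_iff_subsingleton] at hnt
    exact hP₀ ⟨⟨fun a b => Subsingleton.elim _ _⟩⟩
  refine { exists_pair_ne := hnt.exists_pair_ne, eq_bot_or_eq_top_of_normal := fun N hN => ?_ }
  by_contra hcon
  rw [not_or] at hcon
  obtain ⟨hN1, hN2⟩ := hmin N hcon.1 hcon.2
  -- the class size condition passes to N
  have hCN : ∀ x : N, (∃ k : ℕ, orderOf x = p ^ k) →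
      ¬ p ∣ (Subgroup.centralizer ({x} : Set N)).index := by
    intro x hx hdvd
    have hx' : ∃ k : ℕ, orderOf (x : G) = p ^ k := by
      obtain ⟨k, hk⟩ := hx
      exact ⟨k, by rw [Subgroup.orderOf_coe]; exact hk⟩
    apply hC (x : G) hx'
    have heq : Subgroup.centralizer ({x} : Set N) =
        (Subgroup.centralizer ({(x : G)} : Set G)).subgroupOf N := by
      ext y
      rw [Subgroup.mem_subgroupOf, Subgroup.mem_centralizer_iff, Subgroup.mem_centralizer_iff]
      constructor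
      · intro hy z hz
        rw [Set.mem_singleton_iff] at hz
        rw [hz]
        have := hy x (Set.mem_singleton x)
        exact congrArg Subtype.val this
      · intro hy z hz
        rw [Set.mem_singleton_iff] at hz
        rw [hz]
        exact Subtype.ext (hy (x : G) (Set.mem_singleton _))
    rw [heq] at hdvd
    exact dvd_trans hdvd (relIndex_dvd_index_of_normal_right _ N)
  -- the class size condition passes to G ⧸ N
  have hCQ : ∀ x : G ⧸ N, (∃ k : ℕ, orderOf x = p ^ k) →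
      ¬ p ∣ (Subgroup.centralizer ({x} : Set (G ⧸ N))).index := by
    intro xb hxb hdvd
    obtain ⟨k, hk⟩ := hxb
    obtain ⟨y, rfl⟩ := QuotientGroup.mk_surjective xb
    obtain ⟨e, m, hm, hym⟩ := Nat.exists_eq_pow_mul_and_not_dvd (orderOf_pos y).ne' p hp.ne_one
    have hcop : m.Coprime (orderOf (y : G ⧸ N)) := by
      rw [hk]
      exact Nat.Coprime.pow_right _ ((Nat.Prime.coprime_iff_not_dvd hp).mpr hm).symm
    obtain ⟨t, ht⟩ := exists_pow_eq_self_of_coprime hcop
    have hxq : (((y ^ m) ^ t : G) : G ⧸ N) = (y : G ⧸ N) := by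
      rw [QuotientGroup.mk_pow, QuotientGroup.mk_pow]; exact ht
    have hxp : ((y ^ m) ^ t) ^ (p ^ e) = 1 := by
      have e1 : ((y ^ m) ^ t) ^ (p ^ e) = (y ^ (p ^ e * m)) ^ t := by
        rw [← pow_mul, ← pow_mul, ← pow_mul]; congr 1; ring
      rw [e1, ← hym, pow_orderOf_eq_one, one_pow]
    obtain ⟨j, -, hj⟩ := (Nat.dvd_prime_pow hp).mp (orderOf_dvd_of_pow_eq_one hxp)
    apply hC ((y ^ m) ^ t) ⟨j, hj⟩
    have hle : Subgroup.centralizer ({(y ^ m) ^ t} : Set G) ≤
        (Subgroup.centralizer ({(y : G ⧸ N)} : Set (G ⧸ N))).comap (QuotientGroup.mk' N) := by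
      intro c hc
      rw [Subgroup.mem_comap, Subgroup.mem_centralizer_iff]
      intro z hz
      rw [Set.mem_singleton_iff] at hz
      rw [hz, ← hxq]
      rw [Subgroup.mem_centralizer_iff] at hc
      have := hc _ (Set.mem_singleton _)
      show (QuotientGroup.mk' N) ((y ^ m) ^ t) * (QuotientGroup.mk' N) c =
        (QuotientGroup.mk' N) c * (QuotientGroup.mk' N) ((y ^ m) ^ t)
      rw [← map_mul, ← map_mul, this]
    have hidx : ((Subgroup.centralizer ({(y : G ⧸ N)} : Set (G ⧸ N))).comap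
        (QuotientGroup.mk' N)).index =
        (Subgroup.centralizer ({(y : G ⧸ N)} : Set (G ⧸ N))).index :=
      Subgroup.index_comap_of_surjective _ (QuotientGroup.mk'_surjective N)
    rw [← hidx] at hdvd
    exact dvd_trans hdvd (Subgroup.index_dvd_of_le hle)
  have hNcomm : ∀ S : Sylow p N, IsMulCommutative S := by
    intro S
    by_contra hS
    exact hN1 ⟨⟨S, hS⟩, hCN⟩
  have hQcomm : ∀ S : Sylow p (G ⧸ N), IsMulCommutative S := by
    intro S
    by_contra hS
    exact hN2 ⟨⟨S, hS⟩, hCQ⟩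
  have h1' : ∀ a ∈ (P₀ : Subgroup G), a ∈ N → ∀ b ∈ (P₀ : Subgroup G), b ∈ N →
      a * b = b * a := by
    intro a haP haN b hbP hbN
    have hpg : IsPGroup p ((P₀ : Subgroup G).subgroupOf N) := P₀.2.comap_subtype
    obtain ⟨S, hS⟩ := hpg.exists_le_sylow
    have ha : (⟨a, haN⟩ : N) ∈ (S : Subgroup N) := hS (Subgroup.mem_subgroupOf.mpr haP)
    have hb : (⟨b, hbN⟩ : N) ∈ (S : Subgroup N) := hS (Subgroup.mem_subgroupOf.mpr hbP)
    have := (hNcomm S).is_comm.comm ⟨⟨a, haN⟩, ha⟩ ⟨⟨b, hbN⟩, hb⟩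
    exact congrArg (fun z : (S : Subgroup N) => ((z : N) : G)) this
  have h2' : ∀ a ∈ (P₀ : Subgroup G), ∀ b ∈ (P₀ : Subgroup G),
      (QuotientGroup.mk' N) a * (QuotientGroup.mk' N) b =
      (QuotientGroup.mk' N) b * (QuotientGroup.mk' N) a := by
    intro a ha b hb
    have hpg : IsPGroup p ((P₀ : Subgroup G).map (QuotientGroup.mk' N)) := P₀.2.map _
    obtain ⟨S, hS⟩ := hpg.exists_le_sylow
    have ha' : (QuotientGroup.mk' N) a ∈ (S : Subgroup (G ⧸ N)) :=
      hS (Subgroup.mem_map_of_mem _ ha)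
    have hb' : (QuotientGroup.mk' N) b ∈ (S : Subgroup (G ⧸ N)) :=
      hS (Subgroup.mem_map_of_mem _ hb)
    have := (hQcomm S).is_comm.comm ⟨_, ha'⟩ ⟨_, hb'⟩
    exact congrArg (fun z : (S : Subgroup (G ⧸ N)) => (z : G ⧸ N)) this
  -- a conjugate of P₀ centralizes x
  have hF1 : ∀ x : G, (∃ k : ℕ, orderOf x = p ^ k) →
      ∃ g : G, ∀ s ∈ (P₀ : Subgroup G), g⁻¹ * s * g * x = x * (g⁻¹ * s * g) := by
    intro x hx
    have hnd := hC x hx
    obtain ⟨q, hq⟩ := P₀.2.nonempty_fixed_point_of_prime_not_dvd_card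
      (G ⧸ Subgroup.centralizer ({x} : Set G)) hnd
    obtain ⟨g, rfl⟩ := QuotientGroup.mk_surjective q
    refine ⟨g, fun s hs => ?_⟩
    have h1 := (MulAction.mem_fixedPoints.mp hq) ⟨s⁻¹, inv_mem hs⟩
    have h2 : ((s⁻¹ * g : G) : G ⧸ Subgroup.centralizer ({x} : Set G)) =
        (g : G ⧸ Subgroup.centralizer ({x} : Set G)) := h1
    rw [QuotientGroup.eq] at h2
    rw [Subgroup.mem_centralizer_iff] at h2
    have h3 := h2 x (Set.mem_singleton x)
    have h4 : (s⁻¹ * g)⁻¹ * g = g⁻¹ * s * g := by group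
    rw [h4] at h3
    exact h3.symm
  -- fusion: every x ∈ P₀ is (central element of P₀) * (element of P₀ ⊓ N)
  have hdec : ∀ x ∈ (P₀ : Subgroup G), ∃ z m : G, x = z * m ∧
      (∀ w ∈ (P₀ : Subgroup G), z * w = w * z) ∧ m ∈ (P₀ : Subgroup G) ∧ m ∈ N := by
    intro x hx
    have hxo : ∃ k : ℕ, orderOf x = p ^ k := by
      obtain ⟨k, hk⟩ := IsPGroup.iff_orderOf.mp P₀.2 ⟨x, hx⟩
      refine ⟨k, ?_⟩
      rw [← hk, ← Subgroup.orderOf_coe]
    obtain ⟨g, hg⟩ := hF1 x hxo
    obtain ⟨Ct, hmemCt⟩ : ∃ Ct : Subgroup G, ∀ c : G, c ∈ Ct ↔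
        (QuotientGroup.mk' N) x * (QuotientGroup.mk' N) c =
        (QuotientGroup.mk' N) c * (QuotientGroup.mk' N) x := by
      refine ⟨(Subgroup.centralizer ({(QuotientGroup.mk' N) x} : Set (G ⧸ N))).comap
        (QuotientGroup.mk' N), fun c => ?_⟩
      rw [Subgroup.mem_comap, Subgroup.mem_centralizer_iff]
      constructor
      · intro h; exact h _ (Set.mem_singleton _)
      · intro h z hz; rw [Set.mem_singleton_iff] at hz; rw [hz]; exact h
    have h1 : (P₀ : Subgroup G) ≤ Ct := fun w hw => (hmemCt w).mpr (h2' x hx w hw)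
    have h2 : ((g⁻¹ • P₀ : Sylow p G) : Subgroup G) ≤ Ct := by
      rintro y ⟨s, hs, rfl⟩
      rw [hmemCt]
      have key : g⁻¹ * s * g * x = x * (g⁻¹ * s * g) := hg s hs
      show (QuotientGroup.mk' N) x * (QuotientGroup.mk' N) (g⁻¹ * s * g⁻¹⁻¹) =
        (QuotientGroup.mk' N) (g⁻¹ * s * g⁻¹⁻¹) * (QuotientGroup.mk' N) x
      rw [inv_inv, ← map_mul, ← map_mul, key]
    obtain ⟨c, hc⟩ := MulAction.exists_smul_eq (↥Ct) ((g⁻¹ • P₀).subtype h2) (P₀.subtype h1)
    simp_rw [Sylow.smul_subtype, Subgroup.smul_def, smul_smul] at hc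
    have hn : (c : G) * g⁻¹ ∈ Subgroup.normalizer ((P₀ : Subgroup G) : Set G) :=
      Sylow.smul_eq_iff_mem_normalizer.mp (Sylow.subtype_injective hc)
    have hcC : (QuotientGroup.mk' N) x * (QuotientGroup.mk' N) (c : G) =
        (QuotientGroup.mk' N) (c : G) * (QuotientGroup.mk' N) x := (hmemCt c).mp c.2
    have hzcent : ∀ w ∈ (P₀ : Subgroup G),
        (c : G) * x * (c : G)⁻¹ * w = w * ((c : G) * x * (c : G)⁻¹) := by
      intro w hw
      have hs : ((c : G) * g⁻¹)⁻¹ * w * ((c : G) * g⁻¹)⁻¹⁻¹ ∈ (P₀ : Subgroup G) :=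
        (Subgroup.mem_normalizer_iff.mp (inv_mem hn) w).mp hw
      have key := hg _ hs
      have e1 : g⁻¹ * (((c : G) * g⁻¹)⁻¹ * w * ((c : G) * g⁻¹)⁻¹⁻¹) * g =
          (c : G)⁻¹ * w * (c : G) := by group
      rw [e1] at key
      calc (c : G) * x * (c : G)⁻¹ * w
          = (c : G) * (x * ((c : G)⁻¹ * w * (c : G))) * (c : G)⁻¹ := by group
        _ = (c : G) * ((c : G)⁻¹ * w * (c : G) * x) * (c : G)⁻¹ := by rw [key]
        _ = w * ((c : G) * x * (c : G)⁻¹) := by group
    have hzP : (c : G) * x * (c : G)⁻¹ ∈ (P₀ : Subgroup G) := by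
      obtain ⟨k, hk⟩ := hxo
      have hzo : orderOf ((c : G) * x * (c : G)⁻¹) = p ^ k := by
        rw [← hk]; exact (MulAut.conj (c : G)).orderOf_eq x
      have hzp : IsPGroup p (Subgroup.zpowers ((c : G) * x * (c : G)⁻¹)) :=
        IsPGroup.of_card (n := k) (by rw [Nat.card_zpowers, hzo])
      have hmemn : (c : G) * x * (c : G)⁻¹ ∈ Subgroup.normalizer ((P₀ : Subgroup G) : Set G) :=
        Subgroup.centralizer_le_normalizer _
          (Subgroup.mem_centralizer_iff.mpr (fun w hw => (hzcent w hw).symm))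
      have hinf := hzp.inf_normalizer_sylow P₀
      have hmem : (c : G) * x * (c : G)⁻¹ ∈ Subgroup.zpowers ((c : G) * x * (c : G)⁻¹) ⊓
          Subgroup.normalizer ((P₀ : Subgroup G) : Set G) :=
        ⟨Subgroup.mem_zpowers _, hmemn⟩
      exact (hinf.le hmem).2
    refine ⟨(c : G) * x * (c : G)⁻¹, ((c : G) * x * (c : G)⁻¹)⁻¹ * x, by group, hzcent, ?_, ?_⟩
    · exact mul_mem (inv_mem hzP) hx
    · rw [← QuotientGroup.eq_one_iff]
      show (QuotientGroup.mk' N) (((c : G) * x * (c : G)⁻¹)⁻¹ * x) = 1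
      rw [map_mul, map_inv, map_mul, map_mul, map_inv, ← hcC, mul_inv_cancel_right,
        inv_mul_cancel]
  have h3 : ∀ x ∈ (P₀ : Subgroup G), ∀ y ∈ (P₀ : Subgroup G), y ∈ N → x * y = y * x := by
    intro x hx y hy hyN
    obtain ⟨z, m, rfl, hz, hmP, hmN⟩ := hdec x hx
    have e1 := hz y hy
    have e2 := h1' m hmP hmN y hy hyN
    calc z * m * y = z * (m * y) := by group
      _ = z * (y * m) := by rw [e2]
      _ = z * y * m := by group
      _ = y * z * m := by rw [e1]
      _ = y * (z * m) := by group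
  have h4 : ∀ x ∈ (P₀ : Subgroup G), ∀ w ∈ (P₀ : Subgroup G), x * w = w * x := by
    intro x hx w hw
    obtain ⟨z, m, rfl, hz, hmP, hmN⟩ := hdec x hx
    have e1 := hz w hw
    have e2 := h3 w hw m hmP hmN
    calc z * m * w = z * (m * w) := by group
      _ = z * (w * m) := by rw [e2]
      _ = z * w * m := by group
      _ = w * z * m := by rw [e1]
      _ = w * (z * m) := by group
  exact hP₀ ⟨⟨fun a b => Subtype.ext (h4 a a.2 b b.2)⟩⟩

end Cfsg.Agent.S4354
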