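import Mathlib
import Cfsg.Agent.Helper1.Quat
import Cfsg.Agent.S1473

set_option autoImplicit false
set_option linter.style.haveILetI false

open Cfsg

namespace Cfsg.Agent.S4370

universe u

theorem cyc_of_le {G : Type*} [Group G] {A C : Subgroup G} (hle : A ≤ C) (hC : IsCyclic C) :
    IsCyclic A := by
  haveI := hC
  exact isCyclic_of_surjective (Subgroup.subgroupOfEquivOfLe hle)
    (Subgroup.subgroupOfEquivOfLe hle).surjective

theorem comm_of_isCyclic {K : Type*} [Group K] (hK : IsCyclic K) (a b : K) : a * b = b * a := by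
  haveI := hK
  obtain ⟨g, hg⟩ := IsCyclic.exists_generator (α := K)
  obtain ⟨i, rfl⟩ := Subgroup.mem_zpowers_iff.mp (hg a)
  obtain ⟨j, rfl⟩ := Subgroup.mem_zpowers_iff.mp (hg b)
  exact zpow_mul_comm g i j

theorem two_torsion (N : ℕ) [NeZero N] (l : ZMod (2 * N)) (h : l + l = 0) :
    l = 0 ∨ l = (N : ZMod (2 * N)) := by
  have hN : 0 < N := Nat.pos_of_ne_zero (NeZero.ne N)
  haveI : NeZero (2 * N) := ⟨by omega⟩
  have hlt : l.val < 2 * N := ZMod.val_lt l
  have hl : ((l.val : ℕ) : ZMod (2 * N)) = l := ZMod.natCast_zmod_val l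
  have h2 : ((l.val + l.val : ℕ) : ZMod (2 * N)) = 0 := by
    rw [Nat.cast_add, hl]; exact h
  rw [ZMod.natCast_eq_zero_iff] at h2
  obtain ⟨c, hc⟩ := h2
  have hc2 : c = 0 ∨ c = 1 := by
    by_contra hcon
    push Not at hcon
    have h3 : 2 ≤ c := by omega
    have h4 : 2 * N * 2 ≤ 2 * N * c := Nat.mul_le_mul_left (2 * N) h3
    omega
  rcases hc2 with rfl | rfl
  · left
    have hv : l.val = 0 := by omega
    rw [hv, Nat.cast_zero] at hl
    exact hl.symm
  · right
    have hv : l.val = N := by omega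
    rw [hv] at hl
    exact hl.symm

theorem pow_eq_of_modEq {M : Type*} [Monoid M] (x : M) (h4 : x ^ 4 = 1) {r e : ℕ}
    (h : Nat.ModEq 4 r e) : x ^ r = x ^ e := by
  have h1 : ∀ k : ℕ, x ^ k = x ^ (k % 4) := by
    intro k
    conv_lhs => rw [← Nat.mod_add_div k 4]
    rw [pow_add, pow_mul, h4, one_pow, mul_one]
  have h' : r % 4 = e % 4 := h
  rw [h1 r, h1 e, h']

theorem quat_cent (N m : ℕ) [NeZero N] [NeZero m] (hc1 : Nat.Coprime (2 * N) m)
    (hc4 : Nat.Coprime 4 m) (t : QuaternionGroup N × Multiplicative (ZMod m))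
    (ht : ∃ s, s * t ≠ t * s) :
    ∃ z : QuaternionGroup N × Multiplicative (ZMod m),
      ∀ y, y * t = t * y → y ∈ Subgroup.zpowers z := by
  have hN : 0 < N := Nat.pos_of_ne_zero (NeZero.ne N)
  haveI : NeZero (2 * N) := ⟨by omega⟩
  obtain ⟨q, c⟩ := t
  cases q with
  | a i =>
    have hi : i + i ≠ 0 := by
      intro h0
      obtain ⟨s, hs⟩ := ht
      apply hs
      obtain ⟨q', d⟩ := s
      cases q' with
      | a j =>
        rw [Prod.mk_mul_mk, Prod.mk_mul_mk, QuaternionGroup.a_mul_a, QuaternionGroup.a_mul_a,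
          add_comm j i, mul_comm d c]
      | xa j =>
        rw [Prod.mk_mul_mk, Prod.mk_mul_mk, QuaternionGroup.xa_mul_a, QuaternionGroup.a_mul_xa,
          mul_comm d c]
        have e1 : j + i = j - i := by linear_combination h0
        rw [e1]
    refine ⟨(QuaternionGroup.a 1, Multiplicative.ofAdd (1 : ZMod m)), ?_⟩
    rintro ⟨q', c'⟩ hy
    have h1 : q' * QuaternionGroup.a i = QuaternionGroup.a i * q' := congrArg Prod.fst hy
    cases q' with
    | a l =>
      obtain ⟨r, hr1, hr2⟩ := Nat.chineseRemainder hc1 l.val (Multiplicative.toAdd c').val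
      have e1 : ((r : ℕ) : ZMod (2 * N)) = l :=
        ((ZMod.natCast_eq_natCast_iff _ _ _).mpr hr1).trans (ZMod.natCast_zmod_val l)
      have e2 : ((r : ℕ) : ZMod m) = Multiplicative.toAdd c' :=
        ((ZMod.natCast_eq_natCast_iff _ _ _).mpr hr2).trans (ZMod.natCast_zmod_val _)
      have key : ((QuaternionGroup.a l, c') : QuaternionGroup N × Multiplicative (ZMod m)) =
          (QuaternionGroup.a 1, Multiplicative.ofAdd (1 : ZMod m)) ^ r := by
        rw [Prod.pow_mk, QuaternionGroup.a_one_pow, ← ofAdd_nsmul, nsmul_one, e1, e2, ofAdd_toAdd]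
      rw [key]
      exact Subgroup.npow_mem_zpowers _ r
    | xa l =>
      exfalso
      rw [QuaternionGroup.xa_mul_a, QuaternionGroup.a_mul_xa] at h1
      have h2 := QuaternionGroup.xa.inj h1
      apply hi
      linear_combination h2
  | xa i =>
    have h2N : ((N : ℕ) : ZMod (2 * N)) + (N : ZMod (2 * N)) = 0 := by
      have h := ZMod.natCast_self (2 * N)
      push_cast at h
      linear_combination h
    have fin : ∀ (e : ℕ) (c' : Multiplicative (ZMod m)),
        ((QuaternionGroup.xa i ^ e, c') : QuaternionGroup N × Multiplicative (ZMod m)) ∈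
          Subgroup.zpowers ((QuaternionGroup.xa i, Multiplicative.ofAdd (1 : ZMod m)) :
            QuaternionGroup N × Multiplicative (ZMod m)) := by
      intro e c'
      obtain ⟨r, hr1, hr2⟩ := Nat.chineseRemainder hc4 e (Multiplicative.toAdd c').val
      have e2 : ((r : ℕ) : ZMod m) = Multiplicative.toAdd c' :=
        ((ZMod.natCast_eq_natCast_iff _ _ _).mpr hr2).trans (ZMod.natCast_zmod_val _)
      have key : ((QuaternionGroup.xa i ^ e, c') : QuaternionGroup N × Multiplicative (ZMod m)) =
          (QuaternionGroup.xa i, Multiplicative.ofAdd (1 : ZMod m)) ^ r := by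
        rw [Prod.pow_mk, ← ofAdd_nsmul, nsmul_one, e2, ofAdd_toAdd,
          pow_eq_of_modEq _ (QuaternionGroup.xa_pow_four i) hr1]
      rw [key]
      exact Subgroup.npow_mem_zpowers _ r
    refine ⟨(QuaternionGroup.xa i, Multiplicative.ofAdd (1 : ZMod m)), ?_⟩
    rintro ⟨q', c'⟩ hy
    have h1 : q' * QuaternionGroup.xa i = QuaternionGroup.xa i * q' := congrArg Prod.fst hy
    cases q' with
    | a l =>
      rw [QuaternionGroup.a_mul_xa, QuaternionGroup.xa_mul_a] at h1
      have h2 := QuaternionGroup.xa.inj h1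
      have h3 : l + l = 0 := by linear_combination -h2
      rcases two_torsion N l h3 with h4 | h4
      · have e0 : (QuaternionGroup.a l : QuaternionGroup N) = QuaternionGroup.xa i ^ 0 := by
          rw [h4, pow_zero, QuaternionGroup.one_def]
        rw [e0]; exact fin 0 c'
      · have e0 : (QuaternionGroup.a l : QuaternionGroup N) = QuaternionGroup.xa i ^ 2 := by
          rw [h4, QuaternionGroup.xa_sq]
        rw [e0]; exact fin 2 c'
    | xa l =>
      rw [QuaternionGroup.xa_mul_xa, QuaternionGroup.xa_mul_xa] at h1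
      have h2 := QuaternionGroup.a.inj h1
      have h3 : (l - i) + (l - i) = 0 := by linear_combination -h2
      rcases two_torsion N (l - i) h3 with h4 | h4
      · have e0 : (QuaternionGroup.xa l : QuaternionGroup N) = QuaternionGroup.xa i ^ 1 := by
          have h5 : l = i := by linear_combination h4
          rw [h5, pow_one]
        rw [e0]; exact fin 1 c'
      · have e0 : (QuaternionGroup.xa l : QuaternionGroup N) = QuaternionGroup.xa i ^ 3 := by
          have h5 : l = i - N := by linear_combination h4 + h2N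
          have e3 : (QuaternionGroup.xa i : QuaternionGroup N) ^ 3 =
              QuaternionGroup.xa i ^ 2 * QuaternionGroup.xa i := pow_succ _ 2
          rw [e3, QuaternionGroup.xa_sq, QuaternionGroup.a_mul_xa, h5]
        rw [e0]; exact fin 3 c'

theorem abcyc_of_injective {G K : Type*} [Group G] [Group K] (f : K →* G)
    (hf : Function.Injective f)
    (hab : ∀ B : Subgroup G, (∀ x ∈ B, ∀ y ∈ B, x * y = y * x) → IsCyclic B) :
    ∀ B : Subgroup K, (∀ x ∈ B, ∀ y ∈ B, x * y = y * x) → IsCyclic B := by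
  intro B hB
  have hB' : ∀ x ∈ B.map f, ∀ y ∈ B.map f, x * y = y * x := by
    intro x hx y hy
    obtain ⟨x', hx', rfl⟩ := Subgroup.mem_map.mp hx
    obtain ⟨y', hy', rfl⟩ := Subgroup.mem_map.mp hy
    rw [← map_mul, ← map_mul, hB x' hx' y' hy']
  haveI := hab _ hB'
  exact isCyclic_of_surjective (B.equivMapOfInjective f hf).symm
    (B.equivMapOfInjective f hf).symm.surjective

theorem odd_pgroup_cyclic {P : Type u} [Group P] [Finite P] (p : ℕ) [Fact p.Prime]
    (hodd : p ≠ 2) (hP : IsPGroup p P)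
    (hab : ∀ B : Subgroup P, (∀ x ∈ B, ∀ y ∈ B, x * y = y * x) → IsCyclic B) : IsCyclic P :=
  Helper1.pgroup_unique_cyclic_odd p hodd hP (Helper1.unique_of_abelian_cyclic p hP hab)

theorem comm_of_odd_nilpotent {H : Type u} [Group H] [Finite H] [hH : Group.IsNilpotent H]
    (hodd : ¬ 2 ∣ Nat.card H)
    (hab : ∀ B : Subgroup H, (∀ x ∈ B, ∀ y ∈ B, x * y = y * x) → IsCyclic B) :
    ∀ a b : H, a * b = b * a := by
  obtain ⟨e⟩ := ((Group.isNilpotent_of_finite_tfae (G := H)).out 0 4).mp hH
  have hfac : ∀ (p : (Nat.card H).primeFactors) (P : Sylow p H) (u v : (P : Subgroup H)),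
      u * v = v * u := by
    intro p P u v
    haveI : Fact (p : ℕ).Prime := ⟨Nat.prime_of_mem_primeFactors p.2⟩
    have hp2 : (p : ℕ) ≠ 2 := by
      intro h2
      apply hodd
      rw [← h2]
      exact Nat.dvd_of_mem_primeFactors p.2
    have hcyc : IsCyclic (P : Subgroup H) :=
      odd_pgroup_cyclic (p : ℕ) hp2 P.isPGroup'
        (abcyc_of_injective (P : Subgroup H).subtype (P : Subgroup H).subtype_injective hab)
    exact comm_of_isCyclic hcyc u v
  intro a b
  have hab' : e.symm a * e.symm b = e.symm b * e.symm a := by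
    funext p P
    exact hfac p P _ _
  have h1 := congrArg e hab'
  rw [map_mul, map_mul, MulEquiv.apply_symm_apply, MulEquiv.apply_symm_apply] at h1
  exact h1

theorem forward {G : Type*} [Group G] [Finite G] (hG : Group.IsNilpotent G)
    (hna : ¬ IsMulCommutative G)
    (h : ∀ x : G, x ∉ Subgroup.center G → IsCyclic (Subgroup.centralizer ({x} : Set G))) :
    ∃ (k m : ℕ), 1 ≤ k ∧ Odd m ∧
      Nonempty (G ≃* QuaternionGroup (2 ^ k) × Multiplicative (ZMod m)) := by
  classical
  haveI := hG
  have hx0 : ∃ x₀ : G, x₀ ∉ Subgroup.center G := by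
    by_contra hcon
    push Not at hcon
    exact hna ⟨⟨fun a b => Subgroup.mem_center_iff.mp (hcon b) a⟩⟩
  obtain ⟨x₀, hx₀⟩ := hx0
  have habcyc : ∀ B : Subgroup G, (∀ x ∈ B, ∀ y ∈ B, x * y = y * x) → IsCyclic B := by
    intro B hB
    by_cases hBc : B ≤ Subgroup.center G
    · refine cyc_of_le ?_ (h x₀ hx₀)
      intro b hb
      rw [Subgroup.mem_centralizer_singleton_iff]
      exact (Subgroup.mem_center_iff.mp (hBc hb) x₀).symm
    · obtain ⟨b, hb, hbc⟩ := SetLike.not_le_iff_exists.mp hBc
      refine cyc_of_le ?_ (h b hbc)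
      intro y hy
      rw [Subgroup.mem_centralizer_singleton_iff]
      exact hB y hy b hb
  haveI : Fact (Nat.Prime 2) := ⟨Nat.prime_two⟩
  obtain ⟨P⟩ : Nonempty (Sylow 2 G) := inferInstance
  have hN3 : ∀ (p : ℕ) (_hp : Fact p.Prime) (P : Sylow p G), (↑P : Subgroup G).Normal :=
    ((Group.isNilpotent_of_finite_tfae (G := G)).out 0 3).mp hG
  haveI hPn : (P : Subgroup G).Normal := hN3 2 ⟨Nat.prime_two⟩ P
  obtain ⟨H, hc⟩ := Subgroup.exists_right_complement'_of_coprime (N := (P : Subgroup G))
    P.card_coprime_index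
  have hHcard : (P : Subgroup G).index = Nat.card H := hc.symm.index_eq_card
  have hHodd : ¬ 2 ∣ Nat.card H := by rw [← hHcard]; exact P.not_dvd_index
  have hcop : (Nat.card (P : Subgroup G)).Coprime (Nat.card H) := by
    rw [← hHcard]; exact P.card_coprime_index
  have hHab : ∀ B : Subgroup H, (∀ x ∈ B, ∀ y ∈ B, x * y = y * x) → IsCyclic B :=
    abcyc_of_injective H.subtype H.subtype_injective habcyc
  have hHcomm : ∀ a b : H, a * b = b * a := comm_of_odd_nilpotent hHodd hHab
  have hHcyc : IsCyclic H :=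
    habcyc H (fun x hx y hy => congrArg Subtype.val (hHcomm ⟨x, hx⟩ ⟨y, hy⟩))
  have hPH : ∀ (a : (P : Subgroup G)) (b : H), (a : G) * (b : G) = (b : G) * (a : G) := by
    intro a b
    apply S1473.comm_of_coprime
    have h1 : orderOf (a : G) ∣ Nat.card (P : Subgroup G) := by
      rw [Subgroup.orderOf_coe]; exact orderOf_dvd_natCard a
    have h2 : orderOf (b : G) ∣ Nat.card H := by
      rw [Subgroup.orderOf_coe]; exact orderOf_dvd_natCard b
    exact Nat.Coprime.coprime_dvd_left h1 (Nat.Coprime.coprime_dvd_right h2 hcop)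
  let f : ↥(P : Subgroup G) × ↥H →* G :=
    { toFun := fun ab => (ab.1 : G) * (ab.2 : G)
      map_one' := by simp
      map_mul' := by
        intro x y
        show ((x.1 * y.1 : (P : Subgroup G)) : G) * ((x.2 * y.2 : H) : G) =
          (x.1 : G) * (x.2 : G) * ((y.1 : G) * (y.2 : G))
        rw [Subgroup.coe_mul, Subgroup.coe_mul]
        have e := hPH y.1 x.2
        calc (x.1 : G) * (y.1 : G) * ((x.2 : G) * (y.2 : G))
            = (x.1 : G) * ((y.1 : G) * (x.2 : G)) * (y.2 : G) := by group
          _ = (x.1 : G) * ((x.2 : G) * (y.1 : G)) * (y.2 : G) := by rw [e]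
          _ = (x.1 : G) * (x.2 : G) * ((y.1 : G) * (y.2 : G)) := by group }
  have hbij : Function.Bijective f := hc
  let eG : ↥(P : Subgroup G) × ↥H ≃* G := MulEquiv.ofBijective f hbij
  have hprod : (∀ a b : (P : Subgroup G), a * b = b * a) → IsMulCommutative G := by
    intro hPcomm
    have hpr : ∀ u v : ↥(P : Subgroup G) × ↥H, u * v = v * u :=
      fun u v => Prod.ext (hPcomm _ _) (hHcomm _ _)
    refine ⟨⟨fun x y => ?_⟩⟩
    have e := congrArg eG (hpr (eG.symm x) (eG.symm y))
    rw [map_mul, map_mul, MulEquiv.apply_symm_apply, MulEquiv.apply_symm_apply] at e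
    exact e
  have hPnc : ¬ IsCyclic (P : Subgroup G) := fun hcyc => hna (hprod (comm_of_isCyclic hcyc))
  have hPab := abcyc_of_injective (P : Subgroup G).subtype (P : Subgroup G).subtype_injective
    habcyc
  have hPu := Helper1.unique_of_abelian_cyclic 2 P.isPGroup' hPab
  rcases Helper1.two_group_unique_invol P.isPGroup' hPu with hPcyc | ⟨n, ⟨eP⟩⟩
  · exact absurd hPcyc hPnc
  · have hn : 1 ≤ n := by
      by_contra hn0
      have hn0' : n = 0 := by omega
      subst hn0'
      apply hPnc
      haveI : IsCyclic (QuaternionGroup (2 ^ 0)) := QuaternionGroup.quaternionGroup_one_isCyclic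
      exact isCyclic_of_surjective eP.symm eP.symm.surjective
    exact ⟨n, Nat.card H, hn, Nat.odd_iff.mpr (Nat.two_dvd_ne_zero.mp hHodd),
      ⟨eG.symm.trans (MulEquiv.prodCongr eP (zmodCyclicMulEquiv hHcyc).symm)⟩⟩

theorem backward {G : Type*} [Group G] [Finite G]
    (hex : ∃ (k m : ℕ), 1 ≤ k ∧ Odd m ∧
      Nonempty (G ≃* QuaternionGroup (2 ^ k) × Multiplicative (ZMod m)))
    (x : G) (hx : x ∉ Subgroup.center G) : IsCyclic (Subgroup.centralizer ({x} : Set G)) := by
  obtain ⟨k, m, hk, hm, ⟨e⟩⟩ := hex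
  obtain ⟨j, hj⟩ := hm
  haveI : NeZero m := ⟨by omega⟩
  haveI : NeZero (2 ^ k) := ⟨by positivity⟩
  have h2 : Nat.Coprime 2 m := (Nat.prime_two.coprime_iff_not_dvd).mpr (by omega)
  have hc1 : Nat.Coprime (2 * 2 ^ k) m := by
    rw [← pow_succ']; exact Nat.Coprime.pow_left _ h2
  have hc4 : Nat.Coprime 4 m := by
    have h4 : (4 : ℕ) = 2 ^ 2 := by norm_num
    rw [h4]; exact Nat.Coprime.pow_left _ h2
  have hs : ∃ s, s * e x ≠ e x * s := by
    by_contra hcon
    push Not at hcon
    apply hx
    rw [Subgroup.mem_center_iff]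
    intro g
    apply e.injective
    rw [map_mul, map_mul]
    exact hcon (e g)
  obtain ⟨z, hz⟩ := quat_cent (2 ^ k) m hc1 hc4 (e x) hs
  have hle : Subgroup.centralizer ({x} : Set G) ≤ Subgroup.zpowers (e.symm z) := by
    intro y hy
    rw [Subgroup.mem_centralizer_singleton_iff] at hy
    have h1 : e y * e x = e x * e y := by rw [← map_mul, ← map_mul, hy]
    obtain ⟨i, hi⟩ := Subgroup.mem_zpowers_iff.mp (hz (e y) h1)
    rw [Subgroup.mem_zpowers_iff]
    refine ⟨i, ?_⟩
    rw [← map_zpow, hi, MulEquiv.symm_apply_apply]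
  exact cyc_of_le hle inferInstance

/-- Let G be a finite non-abelian nilpotent group. Then the centralizer of every non-central element of G is cyclic if and only if G is isomorphic to the direct product of a generalized quaternion group and a cyclic group of odd order. -/
theorem result {G : Type*} [Group G] [Finite G] (hG : Group.IsNilpotent G)
    (hna : ¬ IsMulCommutative G) :
    (∀ x : G, x ∉ Subgroup.center G → IsCyclic (Subgroup.centralizer ({x} : Set G))) ↔
      ∃ (k m : ℕ), 1 ≤ k ∧ Odd m ∧ Nonempty (G ≃* QuaternionGroup (2 ^ k) × Multiplicative (ZMod m)) := by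
  constructor
  · exact forward hG hna
  · intro hex x hx
    exact backward hex x hx

end Cfsg.Agent.S4370
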