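import Mathlib
import Cfsg.Statements.S4376
import Cfsg.Agent.Helper14.OTBasic
import Cfsg.Agent.Helper14.OTU
import Cfsg.Agent.Helper14.OTSL
import Cfsg.Agent.Helper14.OTA

set_option autoImplicit false
open Cfsg

namespace Cfsg.Agent.S4376

open Cfsg.Agent.Helper14.OT

set_option maxRecDepth 100000

/-- the metabelian factors of the solvable group, with multiplicities -/
def LG : List (Par × ℕ) :=
[
  (⟨[(4, 1, 1)], 1, 1⟩, 8),
  (⟨[(7, 1, 1)], 1, 1⟩, 8),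
  (⟨[(3, 2, 1)], 2, 1⟩, 6),
  (⟨[(3, 2, 1), (3, 2, 1)], 2, 1⟩, 9),
  (⟨[(4, 3, 1)], 6, 1⟩, 2),
  (⟨[(4, 3, 1), (4, 3, 1)], 2, 1⟩, 3),
  (⟨[(7, 3, 1)], 6, 1⟩, 12),
  (⟨[(7, 6, 1), (7, 6, 1)], 2, 1⟩, 4),
  (⟨[(3, 2, 1), (3, 2, 1), (7, 6, 1)], 12, 1⟩, 6),
  (⟨[(7, 3, 1), (7, 6, 1)], 12, 1⟩, 2),
  (⟨[(3, 1, 2), (3, 2, 1), (7, 6, 6)], 2, 4⟩, 6),
  (⟨[(4, 1, 3), (4, 3, 1), (3, 1, 2), (3, 2, 2)], 2, 2⟩, 3),
  (⟨[(4, 1, 3), (7, 6, 1), (7, 6, 6)], 2, 2⟩, 6)]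

/-- the metabelian factors of the non-solvable group, with multiplicities -/
def LH : List (Par × ℕ) :=
[
  (⟨[(2, 1, 1)], 1, 1⟩, 29),
  (⟨[(3, 1, 1)], 1, 1⟩, 14),
  (⟨[(7, 2, 1)], 6, 1⟩, 8),
  (⟨[(3, 2, 1), (3, 2, 1)], 4, 1⟩, 6),
  (⟨[(7, 6, 1)], 4, 1⟩, 10),
  (⟨[(3, 2, 1)], 28, 1⟩, 6),
  (⟨[(4, 3, 1), (7, 6, 1)], 2, 1⟩, 8),
  (⟨[(4, 3, 1), (4, 3, 1), (3, 2, 1), (3, 2, 1)], 2, 1⟩, 3),
  (⟨[(3, 2, 1), (3, 2, 1), (7, 6, 1)], 2, 1⟩, 6),
  (⟨[(7, 3, 1), (7, 6, 1)], 6, 1⟩, 6),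
  (⟨[(3, 1, 2), (3, 2, 1), (7, 6, 6)], 2, 2⟩, 6)]

/-- the product of the powers of the metabelian groups of a list -/
abbrev PiU (L : List (Par × ℕ)) : Type :=
  ∀ i : Fin L.length, Fin (L.get i).2 → U (L.get i).1

theorem fc_PiU (L : List (Par × ℕ)) (hL : ∀ q ∈ L, q.1.Valid) (d : ℕ) :
    fc (PiU L) d = (L.map fun q => q.1.F d ^ q.2).prod := by
  rw [fc_pi, ← Fin.prod_univ_fun_getElem]
  apply Finset.prod_congr rfl
  intro i _
  rw [fc_pow, fc_U _ (hL _ (List.get_mem L i))]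
  rfl

theorem PiU_finite (L : List (Par × ℕ)) (hL : ∀ q ∈ L, q.1.Valid) : Finite (PiU L) := by
  have : ∀ i : Fin L.length, Finite (U (L.get i).1) :=
    fun i => U_finite _ (hL _ (List.get_mem L i))
  infer_instance

theorem PiU_isSolvable (L : List (Par × ℕ)) : Group.IsSolvable (PiU L) := by
  have : ∀ i : Fin L.length, Group.IsSolvable (Fin (L.get i).2 → U (L.get i).1) :=
    fun i => isSolvable_pi _
  exact isSolvable_pi _

theorem PiU_pow (L : List (Par × ℕ)) (hL : ∀ q ∈ L, q.1.Valid ∧ q.1.F 84 = q.1.card)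
    (x : PiU L) : x ^ 84 = 1 := by
  funext i j
  exact U_pow_eq_one _ (hL _ (List.get_mem L i)).1 84 (hL _ (List.get_mem L i)).2 (x i j)

theorem validG : ∀ q ∈ LG, q.1.Valid ∧ q.1.F 84 = q.1.card := by
  decide +kernel

theorem validH : ∀ q ∈ LH, q.1.Valid ∧ q.1.F 84 = q.1.card := by
  decide +kernel

theorem numeric : ∀ d ∈ Nat.divisors 84,
    (LG.map fun q => q.1.F d ^ q.2).prod * fA d ^ 6 =
      (LH.map fun q => q.1.F d ^ q.2).prod * fSL d ^ 6 := by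
  decide +kernel

theorem AG_pow (x : AG) : x ^ 84 = 1 := by
  apply pow_eq_one_of_fc
  rw [fc_AG_eq 84 (by norm_num), card_AG]
  decide +kernel

theorem SL3_pow (x : SL3) : x ^ 84 = 1 := by
  apply pow_eq_one_of_fc
  rw [fc_SL3_eq 84 (by norm_num), card_SL3]
  decide +kernel

/-- There are finite groups G and H having the same number of elements of each order (the same order type) with G solvable and H not solvable. -/
theorem result :
    ∃ (G : Type) (_ : Group G) (_ : Finite G) (H : Type) (_ : Group H) (_ : Finite H),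
      Group.IsSolvable G ∧ ¬ Group.IsSolvable H ∧ ∀ n : ℕ, Nat.card {g : G // orderOf g = n} = Nat.card {h : H // orderOf h = n} := by
  have hvG := validG
  have hvH := validH
  have hfG : Finite (PiU LG) := PiU_finite LG (fun q hq => (hvG q hq).1)
  have hfH : Finite (PiU LH) := PiU_finite LH (fun q hq => (hvH q hq).1)
  have hsG : Group.IsSolvable (PiU LG) := PiU_isSolvable LG
  have hsA : Group.IsSolvable (Fin 6 → AG) := isSolvable_pi _
  refine ⟨PiU LG × (Fin 6 → AG), inferInstance, inferInstance,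
    PiU LH × (Fin 6 → SL3), inferInstance, inferInstance, inferInstance, ?_, ?_⟩
  · intro h
    apply SL3_not_isSolvable
    let f : SL3 →* PiU LH × (Fin 6 → SL3) :=
      MonoidHom.prod 1 (MonoidHom.pi fun _ => MonoidHom.id SL3)
    have hf : Function.Injective f := by
      intro a b hab
      have h1 : (f a).2 0 = (f b).2 0 := by rw [hab]
      exact h1
    exact Group.isSolvable_of_isSolvable_injective hf
  · intro n
    have hG : ∀ x : PiU LG × (Fin 6 → AG), x ^ 84 = 1 := fun x =>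
      Prod.ext (PiU_pow LG hvG x.1) (funext fun j => AG_pow (x.2 j))
    have hH : ∀ x : PiU LH × (Fin 6 → SL3), x ^ 84 = 1 := fun x =>
      Prod.ext (PiU_pow LH hvH x.1) (funext fun j => SL3_pow (x.2 j))
    refine cnt_eq_of_fc_eq_divisors _ _ 84 (by norm_num) hG hH ?_ n
    intro d hd
    have hd0 : d ≠ 0 := (Nat.pos_of_mem_divisors hd).ne'
    rw [fc_prod, fc_prod, fc_PiU LG (fun q hq => (hvG q hq).1), fc_PiU LH (fun q hq => (hvH q hq).1),
      fc_pow, fc_pow, fc_AG_eq d hd0, fc_SL3_eq d hd0]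
    exact numeric d hd

end Cfsg.Agent.S4376
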