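import Cfsg.Statements.S4377

set_option autoImplicit false
open Cfsg

namespace Cfsg.Agent.S4377

theorem card_pow_eq_sum (G : Type*) [Group G] [Finite G] (n : ℕ) (hn : n ≠ 0) :
    Nat.card {g : G // g ^ n = 1} = ∑ m ∈ n.divisors, Nat.card {g : G // orderOf g = m} := by
  classical
  have := Fintype.ofFinite G
  simp_rw [Nat.card_eq_fintype_card, Fintype.card_subtype]
  exact (sum_card_orderOf_eq_card_pow_eq_one hn).symm

theorem card_pow_card_mul (G : Type*) [Group G] [Finite G] (k : ℕ) :
    Nat.card {g : G // g ^ (Nat.card G * k) = 1} = Nat.card G := by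
  have : ∀ g : G, g ^ (Nat.card G * k) = 1 := fun g => by
    rw [pow_mul, pow_card_eq_one', one_pow]
  rw [Nat.card_congr (Equiv.subtypeUnivEquiv this)]

theorem card_pow_zero (G : Type*) [Group G] [Finite G] :
    Nat.card {g : G // g ^ 0 = 1} = Nat.card G := by
  have : ∀ g : G, g ^ 0 = 1 := fun g => pow_zero g
  rw [Nat.card_congr (Equiv.subtypeUnivEquiv this)]

theorem card_order_zero (G : Type*) [Group G] [Finite G] :
    Nat.card {g : G // orderOf g = 0} = 0 := by
  have : IsEmpty {g : G // orderOf g = 0} := ⟨fun g => (orderOf_pos g.1).ne' g.2⟩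
  exact Nat.card_of_isEmpty

/-- Two finite groups have the same number of elements of each order if and only if, for every n, they have the same number of elements g with gⁿ = 1. -/
theorem result {G H : Type*} [Group G] [Finite G] [Group H] [Finite H] :
    (∀ n : ℕ, Nat.card {g : G // orderOf g = n} = Nat.card {h : H // orderOf h = n}) ↔
      ∀ n : ℕ, Nat.card {g : G // g ^ n = 1} = Nat.card {h : H // h ^ n = 1} := by
  constructor
  · intro h
    have hpos : ∀ n : ℕ, n ≠ 0 → Nat.card {g : G // g ^ n = 1} = Nat.card {h : H // h ^ n = 1} := by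
      intro n hn
      rw [card_pow_eq_sum G n hn, card_pow_eq_sum H n hn]
      exact Finset.sum_congr rfl fun m _ => h m
    intro n
    by_cases hn : n = 0
    · subst hn
      rw [card_pow_zero, card_pow_zero]
      have hN : Nat.card G * Nat.card H ≠ 0 := by
        have h1 : Nat.card G ≠ 0 := Nat.card_pos.ne'
        have h2 : Nat.card H ≠ 0 := Nat.card_pos.ne'
        exact mul_ne_zero h1 h2
      have h3 := hpos _ hN
      rw [card_pow_card_mul G (Nat.card H)] at h3
      rw [mul_comm, card_pow_card_mul H (Nat.card G)] at h3
      exact h3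
    · exact hpos n hn
  · intro h n
    induction n using Nat.strong_induction_on with
    | _ n ih =>
      by_cases hn : n = 0
      · subst hn
        rw [card_order_zero, card_order_zero]
      · have h1 := card_pow_eq_sum G n hn
        have h2 := card_pow_eq_sum H n hn
        rw [← Nat.cons_self_properDivisors hn, Finset.sum_cons] at h1 h2
        have h3 : ∑ m ∈ n.properDivisors, Nat.card {g : G // orderOf g = m} =
            ∑ m ∈ n.properDivisors, Nat.card {g : H // orderOf g = m} :=
          Finset.sum_congr rfl fun m hm => ih m (Nat.mem_properDivisors.1 hm).2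
        have h4 := h n
        omega

end Cfsg.Agent.S4377
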