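import Cfsg.Statements.S4381
import Cfsg.Agent.Helper1.Coprime2
import Cfsg.Agent.Helper5.Maschke
import Cfsg.Agent.Lead.PGroup

set_option autoImplicit false
open Pointwise
open Cfsg

namespace Cfsg.Agent.S4381

open scoped commutatorElement

theorem exists_compl_elem {V : Type*} [CommGroup V] [Finite V] (p : ℕ) [Fact p.Prime]
    (hV : ∀ v : V, v ^ p = 1) (U : Subgroup V) :
    ∃ W : Subgroup V, U ⊓ W = ⊥ ∧ U ⊔ W = ⊤ := by
  classical
  let S : Set (Subgroup V) := {W | U ⊓ W = ⊥}
  have hS : S.Nonempty := ⟨⊥, inf_bot_eq U⟩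
  obtain ⟨W, hW, hmax⟩ := Set.exists_max_image S (fun W => Nat.card W) (Set.toFinite S) hS
  have hUW : U ⊓ W = ⊥ := hW
  refine ⟨W, hUW, ?_⟩
  rw [eq_top_iff]
  intro v _
  by_contra hv
  have hv1 : v ≠ 1 := fun h => hv (h ▸ (U ⊔ W).one_mem)
  have hord : orderOf v = p := orderOf_eq_prime (hV v) hv1
  have hcard : Nat.card (Subgroup.zpowers v) = p := by rw [Nat.card_zpowers, hord]
  have hD : (U ⊔ W) ⊓ Subgroup.zpowers v = ⊥ := by
    have hdvd : Nat.card ((U ⊔ W) ⊓ Subgroup.zpowers v : Subgroup V) ∣ p := by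
      rw [← hcard]; exact Subgroup.card_dvd_of_le inf_le_right
    rcases (Nat.dvd_prime (Fact.out : p.Prime)).mp hdvd with h1 | h1
    · exact Subgroup.card_eq_one.mp h1
    · exfalso
      have h2 : (U ⊔ W) ⊓ Subgroup.zpowers v = Subgroup.zpowers v :=
        Subgroup.eq_of_le_of_card_ge inf_le_right (by rw [h1, hcard])
      have h3 : v ∈ (U ⊔ W) ⊓ Subgroup.zpowers v := by
        rw [h2]; exact Subgroup.mem_zpowers v
      exact hv (Subgroup.mem_inf.mp h3).1
  have hnew : U ⊓ (W ⊔ Subgroup.zpowers v) = ⊥ := by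
    rw [eq_bot_iff]
    intro x hx
    obtain ⟨hxU, hxW⟩ := Subgroup.mem_inf.mp hx
    obtain ⟨w, hw, z, hz, hwz⟩ := Subgroup.mem_sup.mp hxW
    have hz' : z ∈ (U ⊔ W) ⊓ Subgroup.zpowers v := by
      refine Subgroup.mem_inf.mpr ⟨?_, hz⟩
      have hzz : z = w⁻¹ * x := by rw [← hwz, inv_mul_cancel_left]
      rw [hzz]
      exact (U ⊔ W).mul_mem (Subgroup.mem_sup_right (W.inv_mem hw)) (Subgroup.mem_sup_left hxU)
    rw [hD, Subgroup.mem_bot] at hz'
    rw [hz', mul_one] at hwz
    have hx2 : x ∈ U ⊓ W := Subgroup.mem_inf.mpr ⟨hxU, hwz ▸ hw⟩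
    rw [hUW] at hx2
    exact hx2
  have hle := hmax (W ⊔ Subgroup.zpowers v) hnew
  have heq : W = W ⊔ Subgroup.zpowers v := Subgroup.eq_of_le_of_card_ge le_sup_left hle
  apply hv
  have hvW : v ∈ W := by
    rw [heq]; exact Subgroup.mem_sup_right (Subgroup.mem_zpowers v)
  exact Subgroup.mem_sup_right hvW

theorem maschke_pull {A G V : Type*} [Group A] [Finite A] [Group G] [MulDistribMulAction A G]
    [CommGroup V] [Finite V] (c : A →* MulAut V) (π : G →* V)
    (heq : ∀ (a : A) (x : G), π (a • x) = c a (π x))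
    (hcop : (Nat.card A).Coprime (Nat.card V)) (p : ℕ) [Fact p.Prime] (hV : ∀ v : V, v ^ p = 1)
    (L : Subgroup G) (hL : ∀ a : A, ∀ x ∈ L, a • x ∈ L) (hLne : ¬ L ≤ π.ker) :
    ∃ K : Subgroup G, (∀ a : A, ∀ x ∈ K, a • x ∈ K) ∧ K ≠ ⊤ ∧ L ⊔ K = ⊤ := by
  have hU : ∀ a : A, ∀ u ∈ L.map π, c a u ∈ L.map π := by
    intro a u hu
    obtain ⟨l, hl, rfl⟩ := Subgroup.mem_map.mp hu
    rw [← heq]
    exact Subgroup.mem_map_of_mem π (hL a l hl)
  obtain ⟨W, hW1, hW2⟩ := exists_compl_elem p hV (L.map π)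
  obtain ⟨W', hW'inv, hW'1, hW'2⟩ := Helper5.maschke_abstract c hcop (L.map π) W hW1 hW2 hU
  refine ⟨W'.comap π, ?_, ?_, ?_⟩
  · intro a x hx
    rw [Subgroup.mem_comap] at hx ⊢
    rw [heq]
    exact hW'inv a _ hx
  · intro htop
    apply hLne
    intro l hl
    rw [MonoidHom.mem_ker]
    have h1 : π l ∈ L.map π ⊓ W' := by
      refine Subgroup.mem_inf.mpr ⟨Subgroup.mem_map_of_mem π hl, ?_⟩
      have hl' : l ∈ W'.comap π := by rw [htop]; exact Subgroup.mem_top l
      exact Subgroup.mem_comap.mp hl'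
    rw [hW'1, Subgroup.mem_bot] at h1
    exact h1
  · rw [eq_top_iff]
    intro g _
    have hg : π g ∈ L.map π ⊔ W' := by rw [hW'2]; exact Subgroup.mem_top _
    obtain ⟨u, hu, w, hw, huw⟩ := Subgroup.mem_sup.mp hg
    obtain ⟨l, hl, rfl⟩ := Subgroup.mem_map.mp hu
    have h2 : l⁻¹ * g ∈ W'.comap π := by
      rw [Subgroup.mem_comap, map_mul, map_inv, ← huw, inv_mul_cancel_left]
      exact hw
    have h3 : g = l * (l⁻¹ * g) := by rw [mul_inv_cancel_left]
    rw [h3]
    exact Subgroup.mul_mem_sup hl h2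

theorem frattini_inv {A G : Type*} [Group A] [Group G] [MulDistribMulAction A G] (a : A) (x : G)
    (hx : x ∈ frattini G) : a • x ∈ frattini G := by
  have h := Subgroup.characteristic_iff_le_comap.mp (inferInstance : (frattini G).Characteristic)
    (MulDistribMulAction.toMulEquiv G a)
  exact h hx

noncomputable def quotAct (A G : Type*) [Group A] [Group G] [MulDistribMulAction A G] :
    A →* MulAut (G ⧸ frattini G) where
  toFun a := QuotientGroup.congr (frattini G) (frattini G) (MulDistribMulAction.toMulEquiv G a)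
    (Subgroup.characteristic_iff_map_eq.mp inferInstance (MulDistribMulAction.toMulEquiv G a))
  map_one' := by
    apply MulEquiv.ext
    intro x
    refine QuotientGroup.induction_on x (fun y => ?_)
    show (QuotientGroup.mk ((1 : A) • y) : G ⧸ frattini G) = QuotientGroup.mk y
    rw [one_smul]
  map_mul' := by
    intro a b
    apply MulEquiv.ext
    intro x
    refine QuotientGroup.induction_on x (fun y => ?_)
    show (QuotientGroup.mk ((a * b) • y) : G ⧸ frattini G) = QuotientGroup.mk (a • b • y)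
    rw [mul_smul]

@[reducible] def quotComm {G : Type*} [Group G] (N : Subgroup G) [N.Normal]
    (h : ∀ x y : G ⧸ N, x * y = y * x) : CommGroup (G ⧸ N) :=
  { (inferInstance : Group (G ⧸ N)) with mul_comm := h }

theorem exists_inv_supp {A G : Type*} [Group A] [Finite A] [Group G] [Finite G]
    [MulDistribMulAction A G]
    (hcop : (Nat.card A).Coprime (Nat.card G)) (p : ℕ) [Fact p.Prime] (hG : IsPGroup p G)
    (L : Subgroup G) (hL : ∀ a : A, ∀ x ∈ L, a • x ∈ L) (hLne : ¬ L ≤ frattini G) :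
    ∃ K : Subgroup G, (∀ a : A, ∀ x ∈ K, a • x ∈ K) ∧ K ≠ ⊤ ∧ L ⊔ K = ⊤ := by
  have hcomm : ∀ x y : G ⧸ frattini G, x * y = y * x := by
    intro x y
    refine QuotientGroup.induction_on x (fun x => ?_)
    refine QuotientGroup.induction_on y (fun y => ?_)
    rw [← QuotientGroup.mk_mul, ← QuotientGroup.mk_mul, QuotientGroup.eq]
    have h1 : ⁅y⁻¹, x⁻¹⁆ ∈ commutator G := by
      rw [commutator_def]
      exact Subgroup.commutator_mem_commutator (Subgroup.mem_top _) (Subgroup.mem_top _)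
    have h2 : (x * y)⁻¹ * (y * x) = ⁅y⁻¹, x⁻¹⁆ := by
      rw [commutatorElement_def]; group
    rw [h2]
    exact Lead.commutator_le_frattini hG h1
  have hpow : ∀ v : G ⧸ frattini G, v ^ p = 1 := by
    intro v
    refine QuotientGroup.induction_on v (fun x => ?_)
    rw [← QuotientGroup.mk_pow, QuotientGroup.eq_one_iff]
    exact Lead.pow_mem_frattini hG x
  have hcop' : (Nat.card A).Coprime (Nat.card (G ⧸ frattini G)) := by
    apply Nat.Coprime.coprime_dvd_right _ hcop
    rw [← Subgroup.index_eq_card]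
    exact Subgroup.index_dvd_card _
  have hker : ¬ L ≤ (QuotientGroup.mk' (frattini G)).ker := by
    rw [QuotientGroup.ker_mk']; exact hLne
  letI : CommGroup (G ⧸ frattini G) := quotComm (frattini G) hcomm
  exact maschke_pull (quotAct A G) (QuotientGroup.mk' (frattini G)) (fun a x => rfl) hcop' p hpow
    L hL hker

theorem inv_sylow_aux {A G : Type*} [Group A] [Finite A] [Group G] [Finite G]
    (φ : A →* MulAut G)
    (hcop : (Nat.card A).Coprime (Nat.card G)) (hsol : Group.IsSolvable A ∨ Group.IsSolvable G)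
    (q : ℕ) [Fact q.Prime] :
    ∃ Q : Subgroup G, Nat.card Q = q ^ (Nat.card G).factorization q ∧
      ∀ a : A, ∀ x ∈ Q, φ a x ∈ Q := by
  classical
  haveI : Finite (G ⋊[φ] A) := Finite.of_equiv _ (SemidirectProduct.equivProd (φ := φ)).symm
  have hinl : Function.Injective (SemidirectProduct.inl : G →* G ⋊[φ] A) :=
    SemidirectProduct.inl_injective
  have hinr : Function.Injective (SemidirectProduct.inr : A →* G ⋊[φ] A) :=
    SemidirectProduct.inr_injective
  have hKn : ((SemidirectProduct.inl : G →* G ⋊[φ] A).range).Normal := by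
    rw [SemidirectProduct.range_inl_eq_ker_rightHom]
    infer_instance
  have hAK : (SemidirectProduct.inr : A →* G ⋊[φ] A).range ≤
      Subgroup.normalizer (((SemidirectProduct.inl : G →* G ⋊[φ] A).range : Subgroup (G ⋊[φ] A)) :
        Set (G ⋊[φ] A)) := by
    rw [Subgroup.normalizer_eq_top]
    exact le_top
  have hcA : Nat.card (SemidirectProduct.inr : A →* G ⋊[φ] A).range = Nat.card A :=
    (Nat.card_congr (MonoidHom.ofInjective hinr).toEquiv).symm
  have hcK : Nat.card (SemidirectProduct.inl : G →* G ⋊[φ] A).range = Nat.card G :=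
    (Nat.card_congr (MonoidHom.ofInjective hinl).toEquiv).symm
  have hsol' : Group.IsSolvable (SemidirectProduct.inr : A →* G ⋊[φ] A).range ∨
      Group.IsSolvable (SemidirectProduct.inl : G →* G ⋊[φ] A).range := by
    rcases hsol with h | h
    · left
      haveI := h
      exact solvable_of_surjective
        (MonoidHom.rangeRestrict_surjective (SemidirectProduct.inr : A →* G ⋊[φ] A))
    · right
      haveI := h
      exact solvable_of_surjective
        (MonoidHom.rangeRestrict_surjective (SemidirectProduct.inl : G →* G ⋊[φ] A))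
  obtain ⟨Q, hQK, hQc, hQn⟩ := Helper1.inv_sylow_exists
    (SemidirectProduct.inr : A →* G ⋊[φ] A).range (SemidirectProduct.inl : G →* G ⋊[φ] A).range
    hAK (by rw [hcA, hcK]; exact hcop) hsol' q
  refine ⟨Q.comap (SemidirectProduct.inl : G →* G ⋊[φ] A), ?_, ?_⟩
  · have h1 : (Q.comap (SemidirectProduct.inl : G →* G ⋊[φ] A)).map SemidirectProduct.inl = Q :=
      Subgroup.map_comap_eq_self hQK
    calc Nat.card (Q.comap (SemidirectProduct.inl : G →* G ⋊[φ] A))
        = Nat.card ((Q.comap (SemidirectProduct.inl : G →* G ⋊[φ] A)).map SemidirectProduct.inl) :=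
          (Subgroup.card_map_of_injective hinl).symm
      _ = Nat.card Q := by rw [h1]
      _ = q ^ (Nat.card (SemidirectProduct.inl : G →* G ⋊[φ] A).range).factorization q := hQc
      _ = q ^ (Nat.card G).factorization q := by rw [hcK]
  · intro a x hx
    rw [Subgroup.mem_comap] at hx ⊢
    have h1 : (SemidirectProduct.inl (φ a x) : G ⋊[φ] A) =
        SemidirectProduct.inr a * SemidirectProduct.inl x * (SemidirectProduct.inr a)⁻¹ := by
      have h0 := SemidirectProduct.inl_aut (φ := φ) a x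
      rw [map_inv] at h0
      exact h0
    rw [h1]
    exact (Subgroup.mem_normalizer_iff.mp (hQn ⟨a, rfl⟩) _).mp hx

theorem inv_sylow {A G : Type*} [Group A] [Finite A] [Group G] [Finite G] [MulDistribMulAction A G]
    (hcop : (Nat.card A).Coprime (Nat.card G)) (hsol : Group.IsSolvable A ∨ Group.IsSolvable G)
    (q : ℕ) [Fact q.Prime] :
    ∃ Q : Subgroup G, Nat.card Q = q ^ (Nat.card G).factorization q ∧
      ∀ a : A, ∀ x ∈ Q, a • x ∈ Q :=
  inv_sylow_aux (MulDistribMulAction.toMulAut A G) hcop hsol q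

theorem exists_maxInv {A G : Type*} [Group A] [Group G] [Finite G] [MulDistribMulAction A G]
    (H : Subgroup G) (hH : H ≠ ⊤) (hHinv : ∀ a : A, ∀ x ∈ H, a • x ∈ H) :
    ∃ M : Subgroup G, H ≤ M ∧ (M ≠ ⊤ ∧ (∀ a : A, ∀ x ∈ M, a • x ∈ M) ∧
      ∀ L : Subgroup G, M < L → (∀ a : A, ∀ x ∈ L, a • x ∈ L) → L = ⊤) := by
  classical
  let S : Set (Subgroup G) := {M | H ≤ M ∧ M ≠ ⊤ ∧ ∀ a : A, ∀ x ∈ M, a • x ∈ M}
  have hS : S.Nonempty := ⟨H, le_refl H, hH, hHinv⟩
  obtain ⟨M, hM, hmax⟩ := Set.exists_max_image S (fun M => Nat.card M) (Set.toFinite S) hS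
  have hM' : H ≤ M ∧ M ≠ ⊤ ∧ ∀ a : A, ∀ x ∈ M, a • x ∈ M := hM
  obtain ⟨hHM, hMtop, hMinv⟩ := hM'
  refine ⟨M, hHM, hMtop, hMinv, ?_⟩
  intro L hML hL
  by_contra hne
  have h1 := hmax L ⟨hHM.trans hML.le, hne, hL⟩
  exact hML.ne (Subgroup.eq_of_le_of_card_ge hML.le h1)

theorem sup_frattini_inv {A G : Type*} [Group A] [Group G] [MulDistribMulAction A G]
    (M : Subgroup G) (hM : ∀ a : A, ∀ x ∈ M, a • x ∈ M) :
    ∀ a : A, ∀ x ∈ M ⊔ frattini G, a • x ∈ M ⊔ frattini G := by
  intro a x hx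
  obtain ⟨y, hy, z, hz, rfl⟩ := Subgroup.mem_sup_of_normal_right.mp hx
  rw [smul_mul']
  exact Subgroup.mul_mem_sup (hM a y hy) (frattini_inv a z hz)

theorem frattini_le_of_maxInv {A G : Type*} [Group A] [Group G] [Finite G]
    [MulDistribMulAction A G]
    (M : Subgroup G) (hM : M ≠ ⊤ ∧ (∀ a : A, ∀ x ∈ M, a • x ∈ M) ∧
      ∀ L : Subgroup G, M < L → (∀ a : A, ∀ x ∈ L, a • x ∈ L) → L = ⊤) : frattini G ≤ M := by
  by_contra h
  have h1 : M < M ⊔ frattini G := left_lt_sup.mpr h
  have h2 := hM.2.2 _ h1 (sup_frattini_inv M hM.2.1)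
  exact hM.1 (frattini_nongenerating h2)

theorem normal_of_frattini_le {G : Type*} [Group G] [Finite G] {p : ℕ} [Fact p.Prime]
    (hG : IsPGroup p G) (M : Subgroup G) (hM : frattini G ≤ M) : M.Normal := by
  refine ⟨fun n hn g => ?_⟩
  have h1 : ⁅g, n⁆ ∈ commutator G := by
    rw [commutator_def]
    exact Subgroup.commutator_mem_commutator (Subgroup.mem_top _) (Subgroup.mem_top _)
  have h2 : g * n * g⁻¹ = ⁅g, n⁆ * n := by
    rw [commutatorElement_def]; group
  rw [h2]
  exact M.mul_mem (hM (Lead.commutator_le_frattini hG h1)) hn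


/-- Let the finite group A act by automorphisms on the finite group G with the orders of A and G coprime, and assume that A or G is solvable. Call a proper A-invariant subgroup of G maximal A-invariant when no A-invariant subgroup lies strictly between it and G. Then all maximal A-invariant subgroups of G are conjugate under elements of the fixed-point subgroup C_G(A) if and only if G is a p-group for some prime p and A leaves invariant no subgroup strictly between the Frattini subgroup of G and G. In that case, if G is nontrivial, the Frattini subgroup is the only maximal A-invariant subgroup (a trivial G has none). -/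
theorem result {A G : Type*} [Group A] [Finite A]
    [Group G] [Finite G] [MulDistribMulAction A G] (hcop : (Nat.card A).Coprime (Nat.card G)) (hsol : Group.IsSolvable A ∨ Group.IsSolvable G) :
    ((∀ M N : Subgroup G, (M ≠ ⊤ ∧ (∀ a : A, ∀ x ∈ M, a • x ∈ M) ∧ ∀ L : Subgroup G, M < L → (∀ a : A, ∀ x ∈ L, a • x ∈ L) → L = ⊤) → (N ≠ ⊤ ∧ (∀ a : A, ∀ x ∈ N, a • x ∈ N) ∧ ∀ L : Subgroup G, N < L → (∀ a : A, ∀ x ∈ L, a • x ∈ L) → L = ⊤) →
        ∃ c : G, (∀ a : A, a • c = c) ∧ N = MulAut.conj c • M) ↔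
      ((∃ p : ℕ, p.Prime ∧ IsPGroup p G) ∧ ∀ L : Subgroup G, frattini G < L → (∀ a : A, ∀ x ∈ L, a • x ∈ L) → L = ⊤)) ∧
    (((∃ p : ℕ, p.Prime ∧ IsPGroup p G) ∧ ∀ L : Subgroup G, frattini G < L → (∀ a : A, ∀ x ∈ L, a • x ∈ L) → L = ⊤) →
      ∀ M : Subgroup G, (M ≠ ⊤ ∧ (∀ a : A, ∀ x ∈ M, a • x ∈ M) ∧ ∀ L : Subgroup G, M < L → (∀ a : A, ∀ x ∈ L, a • x ∈ L) → L = ⊤) ↔ (M = frattini G ∧ M ≠ ⊤)) := by
  classical
  have hII : ((∃ p : ℕ, p.Prime ∧ IsPGroup p G) ∧ ∀ L : Subgroup G, frattini G < L →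
      (∀ a : A, ∀ x ∈ L, a • x ∈ L) → L = ⊤) →
      ∀ M : Subgroup G, (M ≠ ⊤ ∧ (∀ a : A, ∀ x ∈ M, a • x ∈ M) ∧ ∀ L : Subgroup G, M < L →
        (∀ a : A, ∀ x ∈ L, a • x ∈ L) → L = ⊤) ↔ (M = frattini G ∧ M ≠ ⊤) := by
    intro hR M
    constructor
    · intro hM
      have h1 : frattini G ≤ M := frattini_le_of_maxInv M hM
      refine ⟨?_, hM.1⟩
      by_contra hne
      have h2 : frattini G < M := lt_of_le_of_ne h1 (fun e => hne e.symm)
      exact hM.1 (hR.2 M h2 hM.2.1)
    · rintro ⟨rfl, hne⟩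
      exact ⟨hne, fun a x hx => frattini_inv a x hx, fun L hL hLinv => hR.2 L hL hLinv⟩
  refine ⟨⟨?_, ?_⟩, hII⟩
  · intro hconj
    by_cases htriv : Subsingleton G
    · refine ⟨⟨2, Nat.prime_two, fun g => ⟨0, Subsingleton.elim _ _⟩⟩, ?_⟩
      intro L _ _
      rw [eq_top_iff]
      intro x _
      rw [Subsingleton.elim x 1]
      exact L.one_mem
    · haveI : Nontrivial G := not_subsingleton_iff_nontrivial.mp htriv
      have hbot : (⊥ : Subgroup G) ≠ ⊤ := bot_ne_top
      have hbotinv : ∀ a : A, ∀ x ∈ (⊥ : Subgroup G), a • x ∈ (⊥ : Subgroup G) := by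
        intro a x hx
        rw [Subgroup.mem_bot] at hx ⊢
        rw [hx, smul_one]
      obtain ⟨M₀, -, hM₀⟩ := exists_maxInv (A := A) ⊥ hbot hbotinv
      have hpg : ∃ p : ℕ, p.Prime ∧ IsPGroup p G := by
        have hidx : M₀.index ≠ 1 := fun h => hM₀.1 (Subgroup.index_eq_one.mp h)
        obtain ⟨q, hq, hqdvd⟩ := Nat.exists_prime_and_dvd hidx
        haveI : Fact q.Prime := ⟨hq⟩
        obtain ⟨Q, hQc, hQinv⟩ := inv_sylow (A := A) (G := G) hcop hsol q
        by_cases hQtop : Q = ⊤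
        · refine ⟨q, hq, IsPGroup.of_card (n := (Nat.card G).factorization q) ?_⟩
          rw [← hQc, hQtop, Subgroup.card_top]
        · exfalso
          obtain ⟨N, hQN, hN⟩ := exists_maxInv (A := A) Q hQtop hQinv
          obtain ⟨c, -, hc⟩ := hconj M₀ N hM₀ hN
          have hcard : Nat.card N = Nat.card M₀ := by
            rw [hc]
            exact (Nat.card_congr (Subgroup.equivSMul (MulAut.conj c) M₀).toEquiv).symm
          have hidxN : N.index = M₀.index := by
            have h1 := Subgroup.card_mul_index N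
            have h2 := Subgroup.card_mul_index M₀
            rw [hcard] at h1
            have hpos : 0 < Nat.card M₀ := Nat.card_pos
            exact Nat.eq_of_mul_eq_mul_left hpos (h1.trans h2.symm)
          have hd1 : q ^ (Nat.card G).factorization q ∣ Nat.card N := by
            rw [← hQc]; exact Subgroup.card_dvd_of_le hQN
          have hd2 : q ∣ N.index := by rw [hidxN]; exact hqdvd
          have hd3 : q ^ ((Nat.card G).factorization q + 1) ∣ Nat.card G := by
            have h := Nat.mul_dvd_mul hd1 hd2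
            rw [Subgroup.card_mul_index N, ← pow_succ] at h
            exact h
          exact Nat.pow_succ_factorization_not_dvd Nat.card_pos.ne' hq hd3
      obtain ⟨p, hp, hG⟩ := hpg
      haveI : Fact p.Prime := ⟨hp⟩
      refine ⟨⟨p, hp, hG⟩, ?_⟩
      intro L hΦL hLinv
      by_contra hLtop
      obtain ⟨K, hKinv, hKtop, hLK⟩ := exists_inv_supp hcop p hG L hLinv (not_le_of_gt hΦL)
      obtain ⟨M, hLM, hM⟩ := exists_maxInv (A := A) L hLtop hLinv
      obtain ⟨N, hKN, hN⟩ := exists_maxInv (A := A) K hKtop hKinv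
      obtain ⟨c, -, hc⟩ := hconj M N hM hN
      haveI : M.Normal := normal_of_frattini_le hG M (frattini_le_of_maxInv M hM)
      rw [Subgroup.Normal.conj_smul_eq_self c M] at hc
      apply hM.1
      rw [eq_top_iff, ← hLK]
      exact sup_le hLM (hc ▸ hKN)
  · intro hR M N hM hN
    refine ⟨1, fun a => smul_one a, ?_⟩
    rw [((hII hR M).mp hM).1, ((hII hR N).mp hN).1, map_one, one_smul]

end Cfsg.Agent.S4381
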