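import Cfsg.Statements.S4387

set_option autoImplicit false
open Cfsg

open Pointwise

namespace Cfsg.Agent.S4387

theorem mem_conj_smul_iff {G : Type*} [Group G] (M : Subgroup G) (g x : G) :
    x ∈ MulAut.conj g • M ↔ g⁻¹ * x * g ∈ M := by
  rw [Subgroup.mem_pointwise_smul_iff_inv_smul_mem]
  simp [MulAut.smul_def]

theorem exists_not_mem_conj {G : Type*} [Group G] [Finite G] (M : Subgroup G) (hM : M ≠ ⊤) :
    ∃ x : G, ∀ g : G, x ∉ MulAut.conj g • M := by
  classical
  by_contra hcon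
  push Not at hcon
  have := Fintype.ofFinite G
  have key := MulAction.sum_card_fixedBy_eq_card_orbits_mul_card_group G (G ⧸ M)
  have h1 : Fintype.card (Quotient (MulAction.orbitRel G (G ⧸ M))) = 1 := by
    rw [Fintype.card_eq_one_iff]
    refine ⟨Quotient.mk _ ((1 : G) : G ⧸ M), fun q => ?_⟩
    induction q using Quotient.inductionOn with
    | _ a =>
      apply Quotient.sound
      obtain ⟨g, hg⟩ := MulAction.exists_smul_eq G ((1 : G) : G ⧸ M) a
      exact ⟨g, hg⟩
  rw [h1, one_mul] at key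
  have hpos : ∀ g : G, 1 ≤ Fintype.card (MulAction.fixedBy (G ⧸ M) g) := by
    intro g
    obtain ⟨x, hx⟩ := hcon g
    rw [mem_conj_smul_iff] at hx
    apply Fintype.card_pos_iff.2
    refine ⟨⟨(x : G ⧸ M), ?_⟩⟩
    rw [MulAction.mem_fixedBy]
    show ((g * x : G) : G ⧸ M) = (x : G ⧸ M)
    rw [QuotientGroup.eq]
    have := M.inv_mem hx
    simpa [mul_assoc] using this
  have hone : 1 < Fintype.card (MulAction.fixedBy (G ⧸ M) (1 : G)) := by
    have h2 : Fintype.card (MulAction.fixedBy (G ⧸ M) (1 : G)) = Fintype.card (G ⧸ M) := by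
      apply Fintype.card_of_subtype
      intro q
      simp
    rw [h2, ← Nat.card_eq_fintype_card]
    have h3 : M.index ≠ 1 := fun h => hM (Subgroup.index_eq_one.1 h)
    have h4 : M.index ≠ 0 := Subgroup.index_ne_zero_of_finite
    have h5 : Nat.card (G ⧸ M) = M.index := rfl
    omega
  have hlt : ∑ g : G, 1 < ∑ g : G, Fintype.card (MulAction.fixedBy (G ⧸ M) g) :=
    Finset.sum_lt_sum (fun g _ => hpos g) ⟨1, Finset.mem_univ _, hone⟩
  rw [key] at hlt
  simp at hlt

/-- Let G be a non-trivial finite group in which any two maximal subgroups are conjugate. Then G is cyclic of prime-power order. -/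
theorem result {G : Type*} [Group G] [Finite G] [Nontrivial G]
    (h : ∀ M N : Subgroup G, IsCoatom M → IsCoatom N → ∃ g : G, N = MulAut.conj g • M) :
    IsCyclic G ∧ IsPrimePow (Nat.card G) := by
  have hbot : (⊥ : Subgroup G) ≠ ⊤ := bot_ne_top
  obtain ⟨M, hM, -⟩ := (eq_top_or_exists_le_coatom (⊥ : Subgroup G)).resolve_left hbot
  obtain ⟨x, hx⟩ := exists_not_mem_conj M hM.1
  have hxtop : Subgroup.zpowers x = ⊤ := by
    by_contra hne
    obtain ⟨N, hN, hxN⟩ := (eq_top_or_exists_le_coatom (Subgroup.zpowers x)).resolve_left hne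
    obtain ⟨g, hg⟩ := h M N hM hN
    exact hx g (hg ▸ hxN (Subgroup.mem_zpowers x))
  have hcyc : IsCyclic G := isCyclic_iff_exists_zpowers_eq_top.2 ⟨x, hxtop⟩
  refine ⟨hcyc, ?_⟩
  have hcomm : ∀ a b : G, a * b = b * a := by
    intro a b
    have ha : a ∈ Subgroup.zpowers x := hxtop ▸ Subgroup.mem_top a
    have hb : b ∈ Subgroup.zpowers x := hxtop ▸ Subgroup.mem_top b
    obtain ⟨i, rfl⟩ := Subgroup.mem_zpowers_iff.1 ha
    obtain ⟨j, rfl⟩ := Subgroup.mem_zpowers_iff.1 hb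
    exact (Commute.zpow_zpow_self x i j).eq
  have hord : orderOf x = Nat.card G := orderOf_eq_card_of_zpowers_eq_top hxtop
  have hxM : x ∉ M := fun hxM => hM.1 (eq_top_iff.2 (hxtop ▸ (Subgroup.zpowers_le.2 hxM)))
  have hpM : ∀ p : ℕ, p.Prime → p ∣ Nat.card G → x ^ p ∈ M := by
    intro p hp hpn
    have hne : Subgroup.zpowers (x ^ p) ≠ ⊤ := by
      intro htop
      have h1 := orderOf_eq_card_of_zpowers_eq_top htop
      rw [orderOf_pow' x hp.ne_zero, hord, Nat.gcd_eq_right hpn] at h1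
      have h2 : 0 < Nat.card G := Nat.card_pos
      have h3 : Nat.card G / p < Nat.card G := Nat.div_lt_self h2 hp.one_lt
      omega
    obtain ⟨N, hN, hxN⟩ := (eq_top_or_exists_le_coatom (Subgroup.zpowers (x ^ p))).resolve_left hne
    obtain ⟨g, hg⟩ := h M N hM hN
    have h1 : x ^ p ∈ MulAut.conj g • M := hg ▸ hxN (Subgroup.mem_zpowers _)
    rw [mem_conj_smul_iff] at h1
    have h2 : g⁻¹ * x ^ p * g = x ^ p := by
      rw [mul_assoc, hcomm (x ^ p) g, ← mul_assoc, inv_mul_cancel, one_mul]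
    rwa [h2] at h1
  rw [isPrimePow_iff_unique_prime_dvd]
  have hn1 : Nat.card G ≠ 1 := by
    have : 1 < Nat.card G := Finite.one_lt_card
    omega
  obtain ⟨p, hp, hpn⟩ := Nat.exists_prime_and_dvd hn1
  refine ⟨p, ⟨hp, hpn⟩, ?_⟩
  rintro q ⟨hq, hqn⟩
  by_contra hne
  have hcop : Nat.Coprime p q := (Nat.coprime_primes hp hq).2 (fun h => hne h.symm)
  have h1 := hpM p hp hpn
  have h2 := hpM q hq hqn
  apply hxM
  have hb : (p : ℤ) * Nat.gcdA p q + (q : ℤ) * Nat.gcdB p q = 1 := by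
    have := Nat.gcd_eq_gcd_ab p q
    rw [hcop.gcd_eq_one] at this
    simpa using this.symm
  have h3 : x = (x ^ p) ^ (Nat.gcdA p q) * (x ^ q) ^ (Nat.gcdB p q) := by
    rw [← zpow_natCast, ← zpow_natCast, ← zpow_mul, ← zpow_mul, ← zpow_add, hb, zpow_one]
  rw [h3]
  exact M.mul_mem (M.zpow_mem h1 _) (M.zpow_mem h2 _)

end Cfsg.Agent.S4387
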