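import Cfsg.Statements.S4405
import Cfsg.Agent.Helper19.Ord320b

set_option autoImplicit false
open Cfsg

namespace Cfsg.Agent.S4405

/-- Let G be a finite group of order 320 = 64·5 whose largest normal 2-subgroup H = O₂(G) equals the Fitting subgroup F(G) and is extraspecial of order 32 containing no elementary abelian subgroup of order 8 (so H is the central product of a quaternion group and a dihedral group of order 8). If T is an involution of G outside H whose centralizer in H contains an elementary abelian subgroup of order 4, then C_H(T) itself is elementary abelian of order 4. -/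
theorem result {G : Type*} [Group G] [Finite G]
    (hG : Nat.card G = 320) (hHF : Cfsg.pCore 2 G = Cfsg.fittingSubgroup G)
    (hex : Cfsg.IsExtraspecial 2 ↥(Cfsg.pCore 2 G)) (h32 : Nat.card ↥(Cfsg.pCore 2 G) = 32)
    (hminus : ∀ A : Subgroup G, A ≤ Cfsg.pCore 2 G → Cfsg.IsElementaryAbelian 2 A → Nat.card ↥A ≤ 4)
    (T : G) (hT : orderOf T = 2) (hTH : T ∉ Cfsg.pCore 2 G)
    (V : Subgroup G) (hV : V ≤ Cfsg.pCore 2 G ⊓ Subgroup.centralizer ({T} : Set G)) (hV4 : Nat.card ↥V = 4) (hVe : Cfsg.IsElementaryAbelian 2 V) :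
    Nat.card ↥(Cfsg.pCore 2 G ⊓ Subgroup.centralizer ({T} : Set G)) = 4 ∧
      Cfsg.IsElementaryAbelian 2 (Cfsg.pCore 2 G ⊓ Subgroup.centralizer ({T} : Set G)) := by
  haveI hHn : (Cfsg.pCore 2 G).Normal := Subgroup.sSup_normal _ (fun _ h => h.1)
  have hO2 : ∀ N : Subgroup G, N.Normal → IsPGroup 2 N → N ≤ Cfsg.pCore 2 G :=
    fun N hN hp => le_sSup ⟨hN, hp⟩
  have hF : ∀ N : Subgroup G, N.Normal → Group.IsNilpotent N → N ≤ Cfsg.pCore 2 G := by
    intro N hN hp
    rw [hHF]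
    exact le_sSup ⟨hN, hp⟩
  have hexp := Cfsg.Agent.Helper19.o320_extra hG (Cfsg.pCore 2 G) h32 hO2 hF hex.1.1 hex.1.2.1
    hex.2 T hT hTH
  have hexp' : ∀ a ∈ Cfsg.pCore 2 G ⊓ Subgroup.centralizer ({T} : Set G), a * a = 1 := by
    intro a ha
    exact hexp a ha.1 (Subgroup.mem_centralizer_iff.mp ha.2 T rfl)
  have hel : Cfsg.IsElementaryAbelian 2 (Cfsg.pCore 2 G ⊓ Subgroup.centralizer ({T} : Set G)) := by
    refine ⟨⟨⟨fun a b => ?_⟩⟩, fun a ha => by rw [pow_two]; exact hexp' a ha⟩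
    apply Subtype.ext
    have h1 := hexp' (a.1 * b.1) (mul_mem a.2 b.2)
    have ha := hexp' a.1 a.2
    have hb := hexp' b.1 b.2
    show a.1 * b.1 = b.1 * a.1
    calc a.1 * b.1 = (a.1 * b.1)⁻¹ := (inv_eq_of_mul_eq_one_left h1).symm
      _ = b.1⁻¹ * a.1⁻¹ := mul_inv_rev _ _
      _ = b.1 * a.1 := by rw [inv_eq_of_mul_eq_one_left hb, inv_eq_of_mul_eq_one_left ha]
  refine ⟨le_antisymm (hminus _ inf_le_left hel) ?_, hel⟩
  rw [← hV4]
  exact Subgroup.card_le_of_le hV

end Cfsg.Agent.S4405
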