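import Mathlib
import Cfsg.Statements.S4406
-- import your own Cfsg.Agent.* helpers here

set_option autoImplicit false
open Cfsg

namespace Cfsg.Agent.S4406

set_option maxRecDepth 100000 in
theorem a4_pow6 : ∀ a : alternatingGroup (Fin 4), a ^ 6 = 1 := by decide +kernel

/-- The check predicate for the action of elements of order three on the four-group. -/
abbrev a4Chk (s t d : alternatingGroup (Fin 4)) : Prop :=
  s * s ≠ 1 ∨ s = 1 ∨ t * t ≠ 1 ∨ t = 1 ∨ s = t ∨
    d * d * d ≠ 1 ∨ d = 1 ∨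
      (d * s * d⁻¹ = t ∧ d * t * d⁻¹ = s * t ∧ (d * d) * s * (d * d)⁻¹ = s * t ∧
        (d * d) * t * (d * d)⁻¹ = s) ∨
      (d * s * d⁻¹ = s * t ∧ d * t * d⁻¹ = s ∧ (d * d) * s * (d * d)⁻¹ = t ∧
        (d * d) * t * (d * d)⁻¹ = s * t)

instance a4ChkDec (s t d : alternatingGroup (Fin 4)) : Decidable (a4Chk s t d) := by
  unfold a4Chk
  infer_instance

set_option maxRecDepth 100000 in
set_option synthInstance.maxHeartbeats 400000 in
set_option synthInstance.maxSize 4096 in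
theorem a4_types : ∀ s t d : alternatingGroup (Fin 4), a4Chk s t d := by decide +kernel

theorem a4_types' (s t d : alternatingGroup (Fin 4)) (hs : s * s = 1) (hs1 : s ≠ 1)
    (ht : t * t = 1) (ht1 : t ≠ 1) (hst : s ≠ t) (hd : d * d * d = 1) (hd1 : d ≠ 1) :
    (d * s * d⁻¹ = t ∧ d * t * d⁻¹ = s * t ∧ (d * d) * s * (d * d)⁻¹ = s * t ∧
        (d * d) * t * (d * d)⁻¹ = s) ∨
      (d * s * d⁻¹ = s * t ∧ d * t * d⁻¹ = s ∧ (d * d) * s * (d * d)⁻¹ = t ∧
        (d * d) * t * (d * d)⁻¹ = s * t) := by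
  rcases a4_types s t d with h | h | h | h | h | h | h | h
  · exact absurd hs h
  · exact absurd h hs1
  · exact absurd ht h
  · exact absurd h ht1
  · exact absurd h hst
  · exact absurd hd h
  · exact absurd h hd1
  · exact h

theorem pow_p_of_six {G : Type*} [Group G] {p : ℕ} (hp : p.Prime) (hp6 : ¬ p ^ 2 ∣ 6) (x : G)
    (k : ℕ) (h1 : x ^ p ^ k = 1) (h6 : x ^ 6 = 1) : x ^ p = 1 := by
  have d1 : orderOf x ∣ p ^ k := orderOf_dvd_of_pow_eq_one h1
  have d2 : orderOf x ∣ 6 := orderOf_dvd_of_pow_eq_one h6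
  obtain ⟨j, hj, hoj⟩ := (Nat.dvd_prime_pow hp).1 d1
  have hj1 : j ≤ 1 := by
    by_contra hlt
    apply hp6
    have h2 : p ^ 2 ∣ p ^ j := pow_dvd_pow p (by omega)
    rw [← hoj] at h2
    exact h2.trans d2
  apply orderOf_dvd_iff_pow_eq_one.1
  rw [hoj]
  have h3 := pow_dvd_pow p hj1
  rw [pow_one] at h3
  exact h3

theorem norm_of_four {G : Type*} [Group G] [Fintype G] (B : Subgroup G) (hB4 : Nat.card B = 4)
    (s t r : G) (hs : s ∈ B) (ht : t ∈ B) (hs1 : s ≠ 1) (ht1 : t ≠ 1) (hst : s ≠ t)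
    (hss : s * s = 1) (hrs : r * s * r⁻¹ ∈ B) (hrt : r * t * r⁻¹ ∈ B) :
    r ∈ Subgroup.normalizer (B : Set G) := by
  classical
  have hBf : (Finset.univ.filter (fun x => x ∈ B)).card = 4 := by
    rw [← hB4, Nat.card_eq_fintype_card, Fintype.card_subtype]
  have hsub : ({1, s, t, s * t} : Finset G) ⊆ Finset.univ.filter (fun x => x ∈ B) := by
    intro x hx
    rw [Finset.mem_filter]
    refine ⟨Finset.mem_univ _, ?_⟩
    simp only [Finset.mem_insert, Finset.mem_singleton] at hx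
    rcases hx with rfl | rfl | rfl | rfl
    · exact B.one_mem
    · exact hs
    · exact ht
    · exact B.mul_mem hs ht
  have hcard : ({1, s, t, s * t} : Finset G).card = 4 := by
    have h1 : (1 : G) ∉ ({s, t, s * t} : Finset G) := by
      simp only [Finset.mem_insert, Finset.mem_singleton, not_or]
      refine ⟨fun h => hs1 h.symm, fun h => ht1 h.symm, fun h => ?_⟩
      apply hst
      calc s = s * (s * t) := by rw [← h, mul_one]
        _ = (s * s) * t := (mul_assoc _ _ _).symm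
        _ = t := by rw [hss, one_mul]
    have h2 : s ∉ ({t, s * t} : Finset G) := by
      simp only [Finset.mem_insert, Finset.mem_singleton, not_or]
      refine ⟨hst, fun h => ?_⟩
      exact ht1 (mul_left_cancel (a := s) (by rw [mul_one]; exact h.symm))
    have h3 : t ∉ ({s * t} : Finset G) := by
      simp only [Finset.mem_singleton]
      intro h
      exact hs1 (mul_right_cancel (b := t) (by rw [one_mul]; exact h.symm))
    rw [Finset.card_insert_of_notMem h1, Finset.card_insert_of_notMem h2,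
      Finset.card_insert_of_notMem h3, Finset.card_singleton]
  have heq : ({1, s, t, s * t} : Finset G) = Finset.univ.filter (fun x => x ∈ B) :=
    Finset.eq_of_subset_of_card_le hsub (by rw [hcard, hBf])
  have hel : ∀ b ∈ B, b = 1 ∨ b = s ∨ b = t ∨ b = s * t := by
    intro b hb
    have hb' : b ∈ Finset.univ.filter (fun x => x ∈ B) := by
      rw [Finset.mem_filter]
      exact ⟨Finset.mem_univ _, hb⟩
    rw [← heq] at hb'
    simpa only [Finset.mem_insert, Finset.mem_singleton] using hb'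
  have hconj : ∀ b ∈ B, r * b * r⁻¹ ∈ B := by
    intro b hb
    rcases hel b hb with h | h | h | h
    · rw [h, mul_one, mul_inv_cancel]
      exact B.one_mem
    · rw [h]
      exact hrs
    · rw [h]
      exact hrt
    · have h4 : r * (s * t) * r⁻¹ = (r * s * r⁻¹) * (r * t * r⁻¹) := by group
      rw [h, h4]
      exact B.mul_mem hrs hrt
  haveI : Finite B := Nat.finite_of_card_ne_zero (by rw [hB4]; norm_num)
  have hinj : Function.Injective (fun b : B => (⟨r * b.1 * r⁻¹, hconj b.1 b.2⟩ : B)) := by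
    intro a b hab
    have h5 : r * a.1 * r⁻¹ = r * b.1 * r⁻¹ := congrArg Subtype.val hab
    exact Subtype.ext (mul_left_cancel (mul_right_cancel h5))
  have hsurj := Finite.surjective_of_injective hinj
  rw [Subgroup.mem_normalizer_iff]
  intro h
  constructor
  · exact hconj h
  · intro hh
    obtain ⟨b, hb⟩ := hsurj ⟨r * h * r⁻¹, hh⟩
    have h5 : r * b.1 * r⁻¹ = r * h * r⁻¹ := congrArg Subtype.val hb
    have h6 : b.1 = h := mul_left_cancel (mul_right_cancel h5)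
    rw [← h6]
    exact b.2

/-- In the direct product P = A₄ × A₄, let X be the Sylow 2-subgroup, X₁ and X₂ its intersections with the two direct factors, Q a Sylow 3-subgroup and Q₁, Q₂ its intersections with the two factors. Then every subgroup B of X of order 4 either meets X₁ or X₂ nontrivially, or is normalized by one of the two subgroups of Q of order 3 other than Q₁ and Q₂. -/
theorem result
    (X : Sylow 2 (↥(alternatingGroup (Fin 4)) × ↥(alternatingGroup (Fin 4))))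
    (Q : Sylow 3 (↥(alternatingGroup (Fin 4)) × ↥(alternatingGroup (Fin 4))))
    (B : Subgroup (↥(alternatingGroup (Fin 4)) × ↥(alternatingGroup (Fin 4)))) (hBX : B ≤ (X : Subgroup _)) (hB4 : Nat.card ↥B = 4) :
    B ⊓ ((X : Subgroup _) ⊓ Subgroup.prod ⊤ ⊥) ≠ ⊥ ∨ B ⊓ ((X : Subgroup _) ⊓ Subgroup.prod ⊥ ⊤) ≠ ⊥ ∨
      ∃ R : Subgroup (↥(alternatingGroup (Fin 4)) × ↥(alternatingGroup (Fin 4))), R ≤ (Q : Subgroup _) ∧ Nat.card ↥R = 3 ∧
        R ≠ (Q : Subgroup _) ⊓ Subgroup.prod ⊤ ⊥ ∧ R ≠ (Q : Subgroup _) ⊓ Subgroup.prod ⊥ ⊤ ∧ R ≤ Subgroup.normalizer (B : Set _) := by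
  haveI : Fact (Nat.Prime 2) := ⟨Nat.prime_two⟩
  haveI : Fact (Nat.Prime 3) := ⟨Nat.prime_three⟩
  by_cases h1 : B ⊓ ((X : Subgroup (↥(alternatingGroup (Fin 4)) × ↥(alternatingGroup (Fin 4)))) ⊓ Subgroup.prod ⊤ ⊥) = ⊥
  swap
  · exact Or.inl h1
  by_cases h2 : B ⊓ ((X : Subgroup (↥(alternatingGroup (Fin 4)) × ↥(alternatingGroup (Fin 4)))) ⊓ Subgroup.prod ⊥ ⊤) = ⊥
  swap
  · exact Or.inr (Or.inl h2)
  right
  right
  have hexp : ∀ x : ↥(alternatingGroup (Fin 4)) × ↥(alternatingGroup (Fin 4)), x ^ 6 = 1 :=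
    fun x => Prod.ext (a4_pow6 x.1) (a4_pow6 x.2)
  have hX2 : ∀ x ∈ (X : Subgroup (↥(alternatingGroup (Fin 4)) × ↥(alternatingGroup (Fin 4)))), x * x = 1 := by
    intro x hx
    obtain ⟨k, hk⟩ := X.isPGroup' ⟨x, hx⟩
    have hk' : x ^ 2 ^ k = 1 := congrArg Subtype.val hk
    have h3 := pow_p_of_six Nat.prime_two (by norm_num) x k hk' (hexp x)
    rw [pow_two] at h3
    exact h3
  have hQ3 : ∀ x ∈ (Q : Subgroup (↥(alternatingGroup (Fin 4)) × ↥(alternatingGroup (Fin 4)))), x ^ 3 = 1 := by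
    intro x hx
    obtain ⟨k, hk⟩ := Q.isPGroup' ⟨x, hx⟩
    have hk' : x ^ 3 ^ k = 1 := congrArg Subtype.val hk
    exact pow_p_of_six Nat.prime_three (by norm_num) x k hk' (hexp x)
  have hBinv : ∀ b ∈ B, b * b = 1 := fun b hb => hX2 b (hBX hb)
  have hB1 : ∀ b ∈ B, b ≠ 1 → b.1 ≠ 1 ∧ b.2 ≠ 1 := by
    intro b hb hb1
    constructor
    · intro h
      apply hb1
      have h3 : b ∈ B ⊓ ((X : Subgroup (↥(alternatingGroup (Fin 4)) × ↥(alternatingGroup (Fin 4)))) ⊓ Subgroup.prod ⊥ ⊤) := by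
        have h5 : b ∈ Subgroup.prod (⊥ : Subgroup ↥(alternatingGroup (Fin 4)))
            (⊤ : Subgroup ↥(alternatingGroup (Fin 4))) := by
          rw [Subgroup.mem_prod]
          exact ⟨by rw [Subgroup.mem_bot]; exact h, Subgroup.mem_top _⟩
        exact ⟨hb, hBX hb, h5⟩
      rw [h2, Subgroup.mem_bot] at h3
      exact h3
    · intro h
      apply hb1
      have h3 : b ∈ B ⊓ ((X : Subgroup (↥(alternatingGroup (Fin 4)) × ↥(alternatingGroup (Fin 4)))) ⊓ Subgroup.prod ⊤ ⊥) := by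
        have h5 : b ∈ Subgroup.prod (⊤ : Subgroup ↥(alternatingGroup (Fin 4)))
            (⊥ : Subgroup ↥(alternatingGroup (Fin 4))) := by
          rw [Subgroup.mem_prod]
          exact ⟨Subgroup.mem_top _, by rw [Subgroup.mem_bot]; exact h⟩
        exact ⟨hb, hBX hb, h5⟩
      rw [h1, Subgroup.mem_bot] at h3
      exact h3
  -- choose s and t
  obtain ⟨s, hs, hs1⟩ : ∃ s ∈ B, s ≠ 1 := by
    by_contra hcon
    have hbot : B = ⊥ := by
      rw [Subgroup.eq_bot_iff_forall]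
      intro x hx
      by_contra hx1
      exact hcon ⟨x, hx, hx1⟩
    rw [hbot, Subgroup.card_bot] at hB4
    omega
  obtain ⟨t, ht, ht1, hts⟩ : ∃ t ∈ B, t ≠ 1 ∧ t ≠ s := by
    classical
    by_contra hcon
    have hBf : (Finset.univ.filter (fun x => x ∈ B)).card = 4 := by
      have h := hB4
      rw [Nat.card_eq_fintype_card, Fintype.card_subtype] at h
      exact h
    have hsub : Finset.univ.filter (fun x => x ∈ B) ⊆ ({1, s} : Finset _) := by
      intro x hx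
      rw [Finset.mem_filter] at hx
      rw [Finset.mem_insert, Finset.mem_singleton]
      by_contra hne
      rw [not_or] at hne
      exact hcon ⟨x, hx.2, hne.1, hne.2⟩
    have h3 := Finset.card_le_card hsub
    have h4 : ({1, s} : Finset (↥(alternatingGroup (Fin 4)) × ↥(alternatingGroup (Fin 4)))).card
        ≤ 2 := Finset.card_le_two
    omega
  have hst : s ≠ t := fun h => hts h.symm
  have hmul1 : s * t ≠ 1 := by
    intro h
    apply hst
    calc s = s * (t * t) := by rw [hBinv t ht, mul_one]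
      _ = (s * t) * t := (mul_assoc _ _ _).symm
      _ = t := by rw [h, one_mul]
  have hstB : s * t ∈ B := B.mul_mem hs ht
  obtain ⟨hs11, hs21⟩ := hB1 s hs hs1
  obtain ⟨ht11, ht21⟩ := hB1 t ht ht1
  obtain ⟨hm11, hm21⟩ := hB1 (s * t) hstB hmul1
  have hss1 : s.1 * s.1 = 1 := congrArg Prod.fst (hBinv s hs)
  have hss2 : s.2 * s.2 = 1 := congrArg Prod.snd (hBinv s hs)
  have htt1 : t.1 * t.1 = 1 := congrArg Prod.fst (hBinv t ht)
  have htt2 : t.2 * t.2 = 1 := congrArg Prod.snd (hBinv t ht)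
  have hst1 : s.1 ≠ t.1 := by
    intro h
    apply hm11
    show s.1 * t.1 = 1
    rw [← h]
    exact hss1
  have hst2 : s.2 ≠ t.2 := by
    intro h
    apply hm21
    show s.2 * t.2 = 1
    rw [← h]
    exact hss2
  -- structure of Q
  have hA : Nat.card ↥(alternatingGroup (Fin 4)) = 12 := by
    rw [nat_card_alternatingGroup, Nat.card_eq_fintype_card, Fintype.card_fin]
    decide
  have hG : Nat.card (↥(alternatingGroup (Fin 4)) × ↥(alternatingGroup (Fin 4))) = 144 := by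
    rw [Nat.card_prod, hA]
  have hQ9 : Nat.card (Q : Subgroup (↥(alternatingGroup (Fin 4)) × ↥(alternatingGroup (Fin 4)))) = 9 := by
    obtain ⟨k, hk⟩ := IsPGroup.iff_card.1 Q.isPGroup'
    have hidx := Q.not_dvd_index
    have hci := Subgroup.card_mul_index (Q : Subgroup (↥(alternatingGroup (Fin 4)) × ↥(alternatingGroup (Fin 4))))
    rw [hG, hk] at hci
    have hk2 : k ≤ 2 := by
      by_contra hlt
      have h3 : 3 ^ 3 ∣ 3 ^ k := pow_dvd_pow 3 (by omega)
      have h4 : 3 ^ k ∣ 144 := Dvd.intro _ hci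
      have h5 : 3 ^ 3 ∣ 144 := h3.trans h4
      norm_num at h5
    rw [hk]
    interval_cases k
    · exfalso
      apply hidx
      omega
    · exfalso
      apply hidx
      omega
    · norm_num
  obtain ⟨C₁, hC₁⟩ : ∃ C₁ : Subgroup ↥(alternatingGroup (Fin 4)),
      C₁ = (Q : Subgroup (↥(alternatingGroup (Fin 4)) × ↥(alternatingGroup (Fin 4)))).map (MonoidHom.fst _ _) := ⟨_, rfl⟩
  obtain ⟨C₂, hC₂⟩ : ∃ C₂ : Subgroup ↥(alternatingGroup (Fin 4)),
      C₂ = (Q : Subgroup (↥(alternatingGroup (Fin 4)) × ↥(alternatingGroup (Fin 4)))).map (MonoidHom.snd _ _) := ⟨_, rfl⟩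
  have hcle : ∀ C : Subgroup ↥(alternatingGroup (Fin 4)), IsPGroup 3 C →
      Nat.card C = 1 ∨ Nat.card C = 3 := by
    intro C hC
    obtain ⟨j, hj⟩ := IsPGroup.iff_card.1 hC
    have hd : Nat.card C ∣ 12 := by
      rw [← hA]
      exact Subgroup.card_subgroup_dvd_card C
    rw [hj] at hd ⊢
    have hj1 : j ≤ 1 := by
      by_contra hlt
      have h3 : 3 ^ 2 ∣ 3 ^ j := pow_dvd_pow 3 (by omega)
      have h5 : 3 ^ 2 ∣ 12 := h3.trans hd
      norm_num at h5
    interval_cases j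
    · left
      norm_num
    · right
      norm_num
  have hP1 : IsPGroup 3 C₁ := by
    rw [hC₁]
    exact Q.isPGroup'.map _
  have hP2 : IsPGroup 3 C₂ := by
    rw [hC₂]
    exact Q.isPGroup'.map _
  have hQle : (Q : Subgroup (↥(alternatingGroup (Fin 4)) × ↥(alternatingGroup (Fin 4)))) ≤ C₁.prod C₂ := by
    intro q hq
    rw [Subgroup.mem_prod, hC₁, hC₂]
    exact ⟨⟨q, hq, rfl⟩, ⟨q, hq, rfl⟩⟩
  have hprod : Nat.card (C₁.prod C₂) = Nat.card C₁ * Nat.card C₂ := by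
    rw [Nat.card_congr (Subgroup.prodEquiv C₁ C₂).toEquiv, Nat.card_prod]
  have hle9 : 9 ≤ Nat.card C₁ * Nat.card C₂ := by
    rw [← hprod, ← hQ9]
    exact Nat.le_of_dvd Nat.card_pos (Subgroup.card_dvd_of_le hQle)
  have hc1 : Nat.card C₁ = 3 := by
    rcases hcle C₁ hP1 with h | h
    · rcases hcle C₂ hP2 with h' | h'
      · rw [h, h'] at hle9
        omega
      · rw [h, h'] at hle9
        omega
    · exact h
  have hc2 : Nat.card C₂ = 3 := by
    rcases hcle C₂ hP2 with h | h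
    · rw [hc1, h] at hle9
      omega
    · exact h
  have hQeq : (Q : Subgroup (↥(alternatingGroup (Fin 4)) × ↥(alternatingGroup (Fin 4)))) = C₁.prod C₂ :=
    Subgroup.eq_of_le_of_card_ge hQle (by rw [hprod, hc1, hc2, hQ9])
  obtain ⟨c₁, hc₁, hc₁1⟩ : ∃ c ∈ C₁, c ≠ 1 := by
    by_contra hcon
    have hbot : C₁ = ⊥ := by
      rw [Subgroup.eq_bot_iff_forall]
      intro x hx
      by_contra hx1
      exact hcon ⟨x, hx, hx1⟩
    rw [hbot, Subgroup.card_bot] at hc1
    omega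
  obtain ⟨c₂, hc₂, hc₂1⟩ : ∃ c ∈ C₂, c ≠ 1 := by
    by_contra hcon
    have hbot : C₂ = ⊥ := by
      rw [Subgroup.eq_bot_iff_forall]
      intro x hx
      by_contra hx1
      exact hcon ⟨x, hx, hx1⟩
    rw [hbot, Subgroup.card_bot] at hc2
    omega
  have hc₁3 : c₁ * c₁ * c₁ = 1 := by
    rw [hC₁] at hc₁
    obtain ⟨q, hq, hqc⟩ := hc₁
    have h3 : q.1 ^ 3 = 1 := congrArg Prod.fst (hQ3 q hq)
    have h4 : q.1 = c₁ := hqc
    rw [h4, pow_three'] at h3
    exact h3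
  have hc₂3 : c₂ * c₂ * c₂ = 1 := by
    rw [hC₂] at hc₂
    obtain ⟨q, hq, hqc⟩ := hc₂
    have h3 : q.2 ^ 3 = 1 := congrArg Prod.snd (hQ3 q hq)
    have h4 : q.2 = c₂ := hqc
    rw [h4, pow_three'] at h3
    exact h3
  have hcc1 : c₂ * c₂ ≠ 1 := by
    intro h
    apply hc₂1
    calc c₂ = (c₂ * c₂)⁻¹ * (c₂ * c₂ * c₂) := by group
      _ = 1 := by rw [hc₂3, h, inv_one, one_mul]
  -- the normalizing element
  obtain ⟨r, hrQ, hr1, hr2, hrs, hrt⟩ :
      ∃ r : ↥(alternatingGroup (Fin 4)) × ↥(alternatingGroup (Fin 4)),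
        r ∈ (Q : Subgroup (↥(alternatingGroup (Fin 4)) × ↥(alternatingGroup (Fin 4)))) ∧ r.1 ≠ 1 ∧ r.2 ≠ 1 ∧ r * s * r⁻¹ ∈ B ∧ r * t * r⁻¹ ∈ B := by
    have hmemQ : ∀ d ∈ C₂, (c₁, d) ∈ (Q : Subgroup (↥(alternatingGroup (Fin 4)) × ↥(alternatingGroup (Fin 4)))) := by
      intro d hd
      rw [hQeq, Subgroup.mem_prod]
      exact ⟨hc₁, hd⟩
    rcases a4_types' s.1 t.1 c₁ hss1 hs11 htt1 ht11 hst1 hc₁3 hc₁1 with
      ⟨p1, p2, _, _⟩ | ⟨p1, p2, _, _⟩
    · rcases a4_types' s.2 t.2 c₂ hss2 hs21 htt2 ht21 hst2 hc₂3 hc₂1 with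
        ⟨q1, q2, q3, q4⟩ | ⟨q1, q2, q3, q4⟩
      · refine ⟨(c₁, c₂), hmemQ c₂ hc₂, hc₁1, hc₂1, ?_, ?_⟩
        · have e : (c₁, c₂) * s * (c₁, c₂)⁻¹ = t := Prod.ext p1 q1
          rw [e]
          exact ht
        · have e : (c₁, c₂) * t * (c₁, c₂)⁻¹ = s * t := Prod.ext p2 q2
          rw [e]
          exact hstB
      · refine ⟨(c₁, c₂ * c₂), hmemQ _ (C₂.mul_mem hc₂ hc₂), hc₁1, hcc1, ?_, ?_⟩
        · have e : (c₁, c₂ * c₂) * s * (c₁, c₂ * c₂)⁻¹ = t := Prod.ext p1 q3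
          rw [e]
          exact ht
        · have e : (c₁, c₂ * c₂) * t * (c₁, c₂ * c₂)⁻¹ = s * t := Prod.ext p2 q4
          rw [e]
          exact hstB
    · rcases a4_types' s.2 t.2 c₂ hss2 hs21 htt2 ht21 hst2 hc₂3 hc₂1 with
        ⟨q1, q2, q3, q4⟩ | ⟨q1, q2, q3, q4⟩
      · refine ⟨(c₁, c₂ * c₂), hmemQ _ (C₂.mul_mem hc₂ hc₂), hc₁1, hcc1, ?_, ?_⟩
        · have e : (c₁, c₂ * c₂) * s * (c₁, c₂ * c₂)⁻¹ = s * t := Prod.ext p1 q3
          rw [e]
          exact hstB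
        · have e : (c₁, c₂ * c₂) * t * (c₁, c₂ * c₂)⁻¹ = s := Prod.ext p2 q4
          rw [e]
          exact hs
      · refine ⟨(c₁, c₂), hmemQ c₂ hc₂, hc₁1, hc₂1, ?_, ?_⟩
        · have e : (c₁, c₂) * s * (c₁, c₂)⁻¹ = s * t := Prod.ext p1 q1
          rw [e]
          exact hstB
        · have e : (c₁, c₂) * t * (c₁, c₂)⁻¹ = s := Prod.ext p2 q2
          rw [e]
          exact hs
  have hrne : r ≠ 1 := by
    intro h
    apply hr1
    rw [h]
    rfl
  have hord : orderOf r = 3 := orderOf_eq_prime (hQ3 r hrQ) hrne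
  refine ⟨Subgroup.zpowers r, Subgroup.zpowers_le.2 hrQ, ?_, ?_, ?_, ?_⟩
  · rw [Nat.card_zpowers, hord]
  · intro h
    have h3 : r ∈ (Q : Subgroup (↥(alternatingGroup (Fin 4)) × ↥(alternatingGroup (Fin 4)))) ⊓ Subgroup.prod ⊤ ⊥ := by
      rw [← h]
      exact Subgroup.mem_zpowers r
    have h4 := (Subgroup.mem_prod.1 h3.2).2
    rw [Subgroup.mem_bot] at h4
    exact hr2 h4
  · intro h
    have h3 : r ∈ (Q : Subgroup (↥(alternatingGroup (Fin 4)) × ↥(alternatingGroup (Fin 4)))) ⊓ Subgroup.prod ⊥ ⊤ := by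
      rw [← h]
      exact Subgroup.mem_zpowers r
    have h4 := (Subgroup.mem_prod.1 h3.2).1
    rw [Subgroup.mem_bot] at h4
    exact hr1 h4
  · exact Subgroup.zpowers_le.2
      (norm_of_four B hB4 s t r hs ht hs1 ht1 hst (hBinv s hs) hrs hrt)

end Cfsg.Agent.S4406
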