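import Cfsg.Statements.S4408
import Cfsg.Agent.Helper29.DihLemma
import Cfsg.Agent.Helper9.Fitting
import Cfsg.Agent.S1264

set_option autoImplicit false
open Cfsg

namespace Cfsg.Agent.S4408

/-- Let S be a finite solvable group whose Fitting subgroup F(S) has odd order, and let I be an elementary abelian 2-subgroup of S of order 2ⁿ with n ≥ 1. Then F(S) contains subgroups A₁, …, Aₙ of prime order, each normalized by I, pairwise commuting and generating a subgroup A of order |A₁|⋯|Aₙ| (their internal direct product), such that no non-identity element of I centralizes A. -/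
theorem result {S : Type*} [Group S] [Finite S]
    [Group.IsSolvable S] (hF : Odd (Nat.card ↥(Cfsg.fittingSubgroup S)))
    (I : Subgroup S) (hI : Cfsg.IsElementaryAbelian 2 I) (n : ℕ) (hn : 1 ≤ n) (hIn : Nat.card ↥I = 2 ^ n) :
    ∃ f : Fin n → Subgroup S, (∀ i, (Nat.card ↥(f i)).Prime) ∧ (∀ i, f i ≤ Cfsg.fittingSubgroup S) ∧
      (∀ i, I ≤ Subgroup.normalizer ((f i) : Set S)) ∧ (∀ i j, i ≠ j → ∀ a ∈ f i, ∀ b ∈ f j, a * b = b * a) ∧
      Nat.card ↥(⨆ i, f i) = ∏ i, Nat.card ↥(f i) ∧ I ⊓ Subgroup.centralizer ((⨆ i, f i : Subgroup S) : Set S) = ⊥ := by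
  classical
obtain ⟨hIcomm, hIsq⟩ := hI
have hI2 : ∀ a ∈ I, a * a = 1 := fun a ha => by rw [← pow_two]; exact hIsq a ha
have hIc : ∀ a ∈ I, ∀ b ∈ I, a * b = b * a := by
  intro a ha b hb
  have := hIcomm.is_comm.comm (⟨a, ha⟩ : I) ⟨b, hb⟩
  exact congrArg Subtype.val this
obtain ⟨F, hFdef⟩ : ∃ F : Subgroup S, F = Cfsg.fittingSubgroup S := ⟨_, rfl⟩
have hFn : F.Normal := by rw [hFdef]; exact Cfsg.Agent.Helper9.fitting_normal
have hFnil : Group.IsNilpotent ↥F := by rw [hFdef]; exact Cfsg.Agent.Helper9.fitting_nilpotent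
have hFodd : Odd (Nat.card F) := by rw [hFdef]; exact hF
have hCF : Subgroup.centralizer (F : Set S) ≤ F := by
  rw [hFdef]
  have h1 := Cfsg.Agent.S1264.result (Subgroup.centralizer (Cfsg.fittingSubgroup S : Set S))
    le_rfl Subgroup.le_normalizer inferInstance
  exact h1.trans (Subgroup.map_subtype_le _)
have hIF : ∀ a ∈ I, ∀ f ∈ F, a * f * a⁻¹ ∈ F := fun a _ f hf => hFn.conj_mem f hf a
have hFodd' : ∀ x ∈ F, x * x = 1 → x = 1 := by
  intro x hx hxx
  have := Cfsg.Agent.Helper29.dih_odd_of_card F ⊥ hFodd x hx (by rw [hxx]; exact one_mem _)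
  rwa [Subgroup.mem_bot] at this
obtain ⟨M, hMF, hMab, hMnF, hMnI, hMC⟩ :=
  Cfsg.Agent.Helper29.dih_max_abelian F I hFnil hFodd hI2 hIc hIF
have hModd : Odd (Nat.card M) := Odd.of_dvd_nat hFodd (Subgroup.card_dvd_of_le hMF)
have hfaithM : ∀ a ∈ I, (∀ m ∈ M, a * m * a⁻¹ = m) → a = 1 := by
  intro a ha hcent
  have h1 : ∀ f ∈ F, a * f * a⁻¹ = f :=
    Cfsg.Agent.Helper29.dih_centralize F M hMnF hMC hFodd' a (hI2 a ha) (hIF a ha) hcent
  have h2 : a ∈ Subgroup.centralizer (F : Set S) := by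
    rw [Subgroup.mem_centralizer_iff]
    intro f hf
    exact (mul_inv_eq_iff_eq_mul.1 (h1 f hf)).symm
  exact hFodd' a (hCF h2) (hI2 a ha)
obtain ⟨y0, hy0, hind0⟩ :=
  Cfsg.Agent.Helper29.dih_indep M I hMab hModd hI2 hIc hMnI hfaithM n I le_rfl hIn
choose k hk using fun i => Cfsg.Agent.Helper29.dih_prime_power (y0 i) (hy0 i).2.1
obtain ⟨y, hydef⟩ : ∃ y : Fin n → S, ∀ i, y i = y0 i ^ k i := ⟨_, fun _ => rfl⟩
have hyprime : ∀ i, (orderOf (y i)).Prime := fun i => by rw [hydef]; exact hk i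
have hyM : ∀ i, y i ∈ M := fun i => by rw [hydef]; exact pow_mem (hy0 i).1 _
have hy1 : ∀ i, y i ≠ 1 := fun i h => by
  have := hyprime i
  rw [h, orderOf_one] at this
  exact Nat.not_prime_one this
have hyinv : ∀ i, (y i)⁻¹ ≠ y i := by
  intro i h
  apply hy1 i
  apply hFodd' _ (hMF (hyM i))
  calc y i * y i = (y i)⁻¹ * y i := by rw [h]
    _ = 1 := inv_mul_cancel _
have hyeig : ∀ i, ∀ a ∈ I, a * y i * a⁻¹ = y i ∨ a * y i * a⁻¹ = (y i)⁻¹ := by
  intro i a ha
  rw [hydef]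
  rcases (hy0 i).2.2 a ha with h | h
  · left; rw [← conj_pow, h]
  · right; rw [← conj_pow, h, inv_pow]
have hind : ∀ b ∈ I, (∀ i, b * y i * b⁻¹ = y i) → b = 1 := by
  intro b hb hall
  apply hind0 b hb
  intro i
  rcases (hy0 i).2.2 b hb with h | h
  · exact h
  · exfalso
    have h1 := hall i
    rw [hydef, ← conj_pow, h, inv_pow, ← hydef] at h1
    exact hyinv i h1
obtain ⟨a, ha, -⟩ := Cfsg.Agent.Helper29.dih_dual I n hIn hI2 y hyeig hyinv hind
have hle : (⨆ i, Subgroup.zpowers (y i)) ≤ M :=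
  iSup_le (fun i => by rw [Subgroup.zpowers_le]; exact hyM i)
refine ⟨fun i => Subgroup.zpowers (y i), ?_, ?_, ?_, ?_, ?_, ?_⟩
· intro i
  show (Nat.card ↥(Subgroup.zpowers (y i))).Prime
  rw [Nat.card_zpowers]; exact hyprime i
· intro i
  show Subgroup.zpowers (y i) ≤ Cfsg.fittingSubgroup S
  rw [Subgroup.zpowers_le, ← hFdef]; exact hMF (hyM i)
· intro i b hb
  exact Cfsg.Agent.Helper29.dih_mem_normalizer _ b (hI2 b hb)
    (Cfsg.Agent.Helper29.dih_conj_mem_zpowers b (y i) (hyeig i b hb))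
· intro i j _ u hu v hv
  have hu' : u ∈ Subgroup.zpowers (y i) := hu
  have hv' : v ∈ Subgroup.zpowers (y j) := hv
  exact hMab u ((Subgroup.zpowers_le.2 (hyM i)) hu') v ((Subgroup.zpowers_le.2 (hyM j)) hv')
· exact Cfsg.Agent.Helper29.dih_card_iSup n y a (fun i j => hMab _ (hyM i) _ (hyM j))
    (fun x hx hxx => hFodd' x (hMF (hle hx)) hxx) (fun i => (ha i).2.1) (fun i => (ha i).2.2)
· rw [eq_bot_iff]
  intro b hb
  obtain ⟨hbI, hbc⟩ := Subgroup.mem_inf.1 hb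
  rw [Subgroup.mem_bot]
  apply hind b hbI
  intro i
  have h1 : y i ∈ (⨆ i, Subgroup.zpowers (y i) : Subgroup S) :=
    Subgroup.mem_iSup_of_mem i (Subgroup.mem_zpowers (y i))
  have h2 := Subgroup.mem_centralizer_iff.1 hbc (y i) h1
  rw [← h2, mul_inv_cancel_right]

end Cfsg.Agent.S4408
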