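import Cfsg.Statements.S4420

set_option autoImplicit false
open Cfsg

namespace Cfsg.Agent.S4420

theorem comm_of_sq {H : Type*} [Group H] (h : ∀ x : H, x ^ 2 = 1) (a b : H) : a * b = b * a := by
  have ha : a⁻¹ = a := by
    have := h a
    rw [pow_two] at this
    exact inv_eq_of_mul_eq_one_left this
  have hb : b⁻¹ = b := by
    have := h b
    rw [pow_two] at this
    exact inv_eq_of_mul_eq_one_left this
  have hab : (a * b)⁻¹ = a * b := by
    have := h (a * b)
    rw [pow_two] at this
    exact inv_eq_of_mul_eq_one_left this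
  calc a * b = (a * b)⁻¹ := hab.symm
    _ = b⁻¹ * a⁻¹ := mul_inv_rev a b
    _ = b * a := by rw [ha, hb]

theorem inverts {H : Type*} [Group H] (A : Subgroup H) (hD : ∀ x : H, x ∉ A → x ^ 2 = 1)
    (x : H) (hx : x ∉ A) (a : H) (ha : a ∈ A) : x * a * x⁻¹ = a⁻¹ := by
  have hxa : x * a ∉ A := fun h => hx ((Subgroup.mul_mem_cancel_right A ha).1 h)
  have h1 := hD x hx
  have h2 := hD (x * a) hxa
  rw [pow_two] at h1 h2
  have hxinv : x⁻¹ = x := inv_eq_of_mul_eq_one_left h1
  rw [hxinv]
  have : x * a * x * a = 1 := by simpa [mul_assoc] using h2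
  exact eq_inv_of_mul_eq_one_left this

/-- Structure of groups in which every element outside some proper subgroup has square 1. Let H be a finite group with a proper subgroup A such that every element outside A has square 1. Then H has an abelian normal subgroup B of index 2 such that every element outside B is an involution inverting every element of B; and if H is not an elementary abelian 2-group, B is the only abelian normal subgroup of index 2 with this property. -/
theorem result {H : Type*} [Group H] [Finite H] (A : Subgroup H) (hA : A ≠ ⊤) (hD : ∀ x : H, x ∉ A → x ^ 2 = 1) :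
    ∃ B : Subgroup H, B.Normal ∧ IsMulCommutative ↥B ∧ B.index = 2 ∧
      (∀ x : H, x ∉ B → x ^ 2 = 1 ∧ ∀ b ∈ B, x * b * x⁻¹ = b⁻¹) ∧
      (¬ (IsMulCommutative H ∧ ∀ x : H, x ^ 2 = 1) →
        ∀ B' : Subgroup H, B'.Normal → IsMulCommutative ↥B' → B'.index = 2 →
          (∀ x : H, x ∉ B' → x ^ 2 = 1 ∧ ∀ b ∈ B', x * b * x⁻¹ = b⁻¹) → B' = B) := by
  obtain ⟨x₀, hx₀⟩ : ∃ x : H, x ∉ A := by
    by_contra hcon
    push Not at hcon
    exact hA (eq_top_iff.2 fun x _ => hcon x)
  by_cases hidx : A.index = 2
  · have hAcomm : ∀ a ∈ A, ∀ b ∈ A, a * b = b * a := by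
      intro a ha b hb
      have h1 := inverts A hD x₀ hx₀ a ha
      have h2 := inverts A hD x₀ hx₀ b hb
      have h3 := inverts A hD x₀ hx₀ (a * b) (A.mul_mem ha hb)
      have h4 : x₀ * (a * b) * x₀⁻¹ = (x₀ * a * x₀⁻¹) * (x₀ * b * x₀⁻¹) := by group
      rw [h4, h1, h2, mul_inv_rev] at h3
      have h5 := congrArg (fun t => t⁻¹) h3
      simpa using h5.symm
    refine ⟨A, Subgroup.normal_of_index_eq_two hidx, ?_, hidx, ?_, ?_⟩
    · exact IsMulCommutative.of_comm fun a b => Subtype.ext (hAcomm a a.2 b b.2)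
    · intro x hx
      exact ⟨hD x hx, fun b hb => inverts A hD x hx b hb⟩
    · intro hnot B' hB'n hB'c hB'i hB'
      by_contra hne
      apply hnot
      have hnle : ¬ A ≤ B' := by
        intro hle
        apply hne
        have hrel := Subgroup.relIndex_mul_index hle
        rw [hidx, hB'i] at hrel
        have hrel1 : A.relIndex B' = 1 := by omega
        exact (le_antisymm hle (Subgroup.relIndex_eq_one.1 hrel1)).symm
      obtain ⟨y, hyA, hyB'⟩ := Set.not_subset.1 hnle
      have hsq : ∀ x : H, x ^ 2 = 1 := by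
        intro x
        by_cases hxA : x ∈ A
        · by_cases hxB' : x ∈ B'
          · have h1 := (hB' y hyB').2 x hxB'
            have h2 : y * x * y⁻¹ = x := by
              rw [hAcomm y hyA x hxA]; group
            rw [h2] at h1
            rw [pow_two]
            nth_rewrite 1 [h1]
            exact inv_mul_cancel x
          · exact (hB' x hxB').1
        · exact hD x hxA
      exact ⟨IsMulCommutative.of_comm (comm_of_sq hsq), hsq⟩
  · have hex : ∃ b : H, b ∉ A ∧ b * x₀ ∉ A := by
      have h1 : ¬ ∃ a, ∀ b, Xor (b * a ∈ A) (b ∈ A) := fun h => hidx (Subgroup.index_eq_two_iff.2 h)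
      push Not at h1
      obtain ⟨b, hb⟩ := h1 x₀
      by_cases hbA : b ∈ A
      · exfalso
        apply hb
        right
        exact ⟨hbA, fun h => hx₀ ((Subgroup.mul_mem_cancel_left A hbA).1 h)⟩
      · refine ⟨b, hbA, fun h => hb ?_⟩
        left
        exact ⟨h, hbA⟩
    obtain ⟨b, hbA, hbx⟩ := hex
    have hsqA : ∀ a ∈ A, a ^ 2 = 1 := by
      intro a ha
      have h1 := inverts A hD x₀ hx₀ a ha
      have h2 := inverts A hD b hbA a⁻¹ (A.inv_mem ha)
      have h3 := inverts A hD (b * x₀) hbx a ha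
      have h4 : b * x₀ * a * (b * x₀)⁻¹ = b * (x₀ * a * x₀⁻¹) * b⁻¹ := by group
      rw [h4, h1, h2, inv_inv] at h3
      rw [pow_two]
      nth_rewrite 1 [h3]
      exact inv_mul_cancel a
    have hsq : ∀ x : H, x ^ 2 = 1 := by
      intro x
      by_cases hxA : x ∈ A
      · exact hsqA x hxA
      · exact hD x hxA
    have hcomm := comm_of_sq hsq
    have hpg : IsPGroup 2 H := fun g => ⟨1, by simpa using hsq g⟩
    obtain ⟨n, hn⟩ := IsPGroup.iff_card.1 hpg
    have hnt : Nontrivial H := ⟨⟨x₀, 1, fun h => hx₀ (h ▸ A.one_mem)⟩⟩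
    have hn1 : n ≠ 0 := by
      rintro rfl
      have : Nat.card H = 1 := by simpa using hn
      have h1 : 1 < Nat.card H := Finite.one_lt_card
      omega
    obtain ⟨m, rfl⟩ := Nat.exists_eq_succ_of_ne_zero hn1
    have hdvd : 2 ^ m ∣ Nat.card H := by
      rw [hn]; exact pow_dvd_pow 2 (Nat.le_succ m)
    obtain ⟨B, hB⟩ := Sylow.exists_subgroup_card_pow_prime 2 hdvd
    have hBi : B.index = 2 := by
      have h1 := Subgroup.card_mul_index B
      rw [hB, hn, pow_succ] at h1
      have h2 : 0 < 2 ^ m := by positivity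
      exact Nat.eq_of_mul_eq_mul_left h2 h1
    refine ⟨B, ⟨fun n hn g => ?_⟩, ?_, hBi, ?_, ?_⟩
    · have : g * n * g⁻¹ = n := by rw [hcomm g n]; group
      rw [this]; exact hn
    · exact IsMulCommutative.of_comm fun a b => Subtype.ext (hcomm a b)
    · intro x _
      refine ⟨hsq x, fun b _ => ?_⟩
      have h1 : x * b * x⁻¹ = b := by rw [hcomm x b]; group
      rw [h1]
      have := hsq b
      rw [pow_two] at this
      exact (inv_eq_of_mul_eq_one_left this).symm
    · intro hnot
      exact absurd ⟨IsMulCommutative.of_comm hcomm, hsq⟩ hnot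

end Cfsg.Agent.S4420
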