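import Mathlib
import Cfsg.Statements.S4497
import Cfsg.Agent.S4495
import Cfsg.Agent.Helper11.PPrime
import Cfsg.Agent.Helper17.PCore

set_option autoImplicit false
open Cfsg
open scoped commutatorElement

namespace Cfsg.Agent.S4497

theorem centralizer_subgroup {G : Type*} [Group G] (x : G)
    (hC : Subgroup.centralizer ({x} : Set G) = Subgroup.zpowers x) (H : Subgroup G)
    (hxH : x ∈ H) :
    Subgroup.centralizer ({(⟨x, hxH⟩ : H)} : Set H) = Subgroup.zpowers (⟨x, hxH⟩ : H) := by
  apply le_antisymm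
  · intro h hh
    have h1 : (⟨x, hxH⟩ : H) * h = h * ⟨x, hxH⟩ :=
      Subgroup.mem_centralizer_iff.1 hh _ (Set.mem_singleton _)
    have h2 : (h : G) ∈ Subgroup.zpowers x := by
      rw [← hC, Subgroup.mem_centralizer_iff]
      intro y hy
      rw [Set.mem_singleton_iff.1 hy]
      exact congrArg Subtype.val h1
    obtain ⟨k, hk⟩ := Subgroup.mem_zpowers_iff.1 h2
    rw [Subgroup.mem_zpowers_iff]
    exact ⟨k, Subtype.ext (by rw [Subgroup.coe_zpow]; exact hk)⟩
  · apply Subgroup.zpowers_le.2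
    rw [Subgroup.mem_centralizer_iff]
    intro h hh
    rw [Set.mem_singleton_iff.1 hh]

theorem simple_quotient {G : Type*} [Group G] [Finite G] (p : ℕ) [hp : Fact p.Prime] (x : G)
    (hx : orderOf x = p) (hC : Subgroup.centralizer ({x} : Set G) = Subgroup.zpowers x)
    (hxG : x ∈ commutator G)
    (h : ((Cfsg.pPrimeCore p G).subgroupOf (commutator G)).Normal) :
    IsSimpleGroup (↥(commutator G) ⧸ (Cfsg.pPrimeCore p G).subgroupOf (commutator G)) := by
  have hcop : (Nat.card (Cfsg.pPrimeCore p G)).Coprime p :=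
    Cfsg.Agent.Helper9.pPrimeCore_coprime p
  have hx' : orderOf (⟨x, hxG⟩ : commutator G) = p := by rw [Subgroup.orderOf_mk]; exact hx
  have hC' := centralizer_subgroup x hC (commutator G) hxG
  have hxS : x ∉ Cfsg.pPrimeCore p G := by
    intro hxS
    have h1 : orderOf (⟨x, hxS⟩ : Cfsg.pPrimeCore p G) ∣ Nat.card (Cfsg.pPrimeCore p G) :=
      orderOf_dvd_natCard _
    rw [Subgroup.orderOf_mk, hx] at h1
    exact (Nat.Prime.coprime_iff_not_dvd hp.out).1 hcop.symm h1
  generalize hS' : (Cfsg.pPrimeCore p G).subgroupOf (commutator G) = S' at h ⊢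
  have hmemS' : ∀ c : commutator G, c ∈ S' ↔ (c : G) ∈ Cfsg.pPrimeCore p G := by
    intro c; rw [← hS']; exact Subgroup.mem_subgroupOf
  have hnt : Nontrivial (↥(commutator G) ⧸ S') := by
    refine ⟨⟨((⟨x, hxG⟩ : commutator G) : ↥(commutator G) ⧸ S'), 1, ?_⟩⟩
    intro h1
    exact hxS ((hmemS' _).1 ((QuotientGroup.eq_one_iff _).1 h1))
  refine ⟨fun H hH => ?_⟩
  obtain ⟨M', hM'⟩ : ∃ M' : Subgroup (commutator G), M' = H.comap (QuotientGroup.mk' S') :=
    ⟨_, rfl⟩
  have hM'n : M'.Normal := by rw [hM']; exact hH.comap _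
  have hmemM' : ∀ c : commutator G, c ∈ M' ↔ (QuotientGroup.mk' S') c ∈ H := by
    intro c; rw [hM']; exact Subgroup.mem_comap
  by_cases hpM : p ∣ Nat.card M'
  · right
    have hx'M : (⟨x, hxG⟩ : commutator G) ∈ M' :=
      Cfsg.Agent.S4496.mem_of_dvd_card p _ hx' hC' M' hpM
    have hconj : ∀ g : G, g * x * g⁻¹ ∈ M'.map (commutator G).subtype := by
      intro g
      obtain ⟨n, hn, s, hs, hns⟩ :=
        Cfsg.Agent.S4496.frattini p x hx hC (commutator G) hxG g⁻¹
      have hg : g = s⁻¹ * n⁻¹ := by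
        rw [← mul_inv_rev, hns, inv_inv]
      have hn' : n⁻¹ * x * n⁻¹⁻¹ ∈ Subgroup.zpowers x :=
        (Subgroup.mem_normalizer_iff.1 (Subgroup.inv_mem _ hn) x).1 (Subgroup.mem_zpowers x)
      obtain ⟨k, hk⟩ := Subgroup.mem_zpowers_iff.1 hn'
      have h1 : (⟨s⁻¹, Subgroup.inv_mem _ hs⟩ : commutator G) *
          (⟨x, hxG⟩ : commutator G) ^ k *
          (⟨s⁻¹, Subgroup.inv_mem _ hs⟩ : commutator G)⁻¹ ∈ M' :=
        hM'n.conj_mem _ (M'.zpow_mem hx'M k) _
      refine Subgroup.mem_map.2 ⟨_, h1, ?_⟩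
      show s⁻¹ * x ^ k * s⁻¹⁻¹ = g * x * g⁻¹
      rw [hk, hg]; group
    have hxD : x ∈ Subgroup.normalCore (M'.map (commutator G).subtype) := hconj
    have hdvd : p ∣ Nat.card (Subgroup.normalCore (M'.map (commutator G).subtype)) := by
      have h1 := orderOf_dvd_natCard
        (⟨x, hxD⟩ : Subgroup.normalCore (M'.map (commutator G).subtype))
      rw [Subgroup.orderOf_mk, hx] at h1
      exact h1
    have hle := Cfsg.Agent.S4496.commutator_le_of_dvd p x hx hC _ hdvd
    have hM'top : ∀ c : commutator G, c ∈ M' := by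
      intro c
      obtain ⟨c', hc', hcc⟩ := Subgroup.mem_map.1 (Subgroup.normalCore_le _ (hle c.2))
      have hc'c : c' = c := Subtype.ext hcc
      rw [← hc'c]; exact hc'
    rw [eq_top_iff]
    intro q _
    obtain ⟨c, rfl⟩ := QuotientGroup.mk_surjective q
    exact (hmemM' c).1 (hM'top c)
  · left
    have e : (M'.map (commutator G).subtype).subgroupOf (commutator G) = M' :=
      Subgroup.comap_map_eq_self_of_injective (Subgroup.subtype_injective _) M'
    have hsub : (M'.map (commutator G).subtype).IsSubnormal := by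
      refine Subgroup.IsSubnormal.step _ (commutator G) (Subgroup.map_subtype_le M')
        (Subgroup.Normal.isSubnormal inferInstance) ?_
      rw [e]; exact hM'n
    have hcopM : (Nat.card (M'.map (commutator G).subtype)).Coprime p := by
      rw [Subgroup.card_subtype]
      exact ((Nat.Prime.coprime_iff_not_dvd hp.out).2 hpM).symm
    have hMle := Cfsg.Agent.Helper11.subnormal_coprime_le_pPrimeCore p _ hsub hcopM
    rw [eq_bot_iff]
    intro q hq
    obtain ⟨c, rfl⟩ := QuotientGroup.mk_surjective q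
    have hc : c ∈ M' := (hmemM' c).2 hq
    have hcS : c ∈ S' := (hmemS' c).2 (hMle (Subgroup.mem_map_of_mem _ hc))
    exact Subgroup.mem_bot.2 ((QuotientGroup.eq_one_iff c).2 hcS)

/-- Let the finite group G contain an element x of prime order p with C_G(x) = ⟨x⟩, let t be the number of conjugacy classes of elements of order p, and let S* = O_{p′}(G) be the largest normal subgroup of order prime to p. Then S* ≤ G′; if t ≠ p − 1 the quotient G′/S* is simple (in particular non-trivial); if t = p − 1 then G′ = S*. -/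
theorem result {G : Type*} [Group G] [Finite G] (p : ℕ) (hp : p.Prime) (x : G) (hx : orderOf x = p) (hC : Subgroup.centralizer ({x} : Set G) = Subgroup.zpowers x) (t : ℕ) (ht : Nat.card {C : ConjClasses G // ∃ g ∈ C.carrier, orderOf g = p} = t) : Cfsg.pPrimeCore p G ≤ commutator G ∧ (t ≠ p - 1 → ∀ h : ((Cfsg.pPrimeCore p G).subgroupOf (commutator G)).Normal, IsSimpleGroup (↥(commutator G) ⧸ (Cfsg.pPrimeCore p G).subgroupOf (commutator G))) ∧ (t = p - 1 → commutator G = Cfsg.pPrimeCore p G) := by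
  have : Fact p.Prime := ⟨hp⟩
  have hSn : (Cfsg.pPrimeCore p G).Normal := Cfsg.Agent.Helper11.pPrimeCore_normal p G
  have hcop : (Nat.card (Cfsg.pPrimeCore p G)).Coprime p :=
    Cfsg.Agent.Helper9.pPrimeCore_coprime p
  have hnd : ¬ p ∣ Nat.card (Cfsg.pPrimeCore p G) :=
    (Nat.Prime.coprime_iff_not_dvd hp).1 hcop.symm
  refine ⟨Cfsg.Agent.S4496.le_commutator_of_not_dvd p hp x hx hC _ hnd, ?_, ?_⟩
  · intro hne h
    have he1 := Cfsg.Agent.S4495.relIndex_ne_one p x hx hC t ht hne
    exact simple_quotient p x hx hC (Cfsg.Agent.S4495.mem_commutator_of_ne p hp x hx hC he1) h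
  · intro heq
    have he1 := Cfsg.Agent.S4495.relIndex_eq_one p x hx hC t ht heq
    obtain ⟨P, K, hKn, hcompl, hGK, hPc⟩ := Cfsg.Agent.S4495.exists_complement p x hx hC he1
    rw [hGK]
    exact (Cfsg.Agent.Helper17.pPrimeCore_eq_of_normal_complement P K hcompl).symm

end Cfsg.Agent.S4497
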