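import Cfsg.Statements.S4517
import Cfsg.Agent.Helper25.BlockReal
open Cfsg.Agent.Helper25

set_option autoImplicit false
open Cfsg

namespace Cfsg.Agent.S4517

/-- Let G be a finite group, M a maximal ideal of the algebraic integers containing 2, and k a natural number coprime to the order of G with g ^ k = g⁻¹ for every element g of odd order (so that g ↦ g ^ k induces a field automorphism of the character values inverting the roots of unity of odd order). If B is a 2-block of full defect (its defect equals the exponent of 2 in the order of G) that is stable under χ ↦ χ ∘ (· ^ k), then B is the principal 2-block. -/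
theorem result {G : Type*} [Group G] [Finite G] (M : Ideal Cfsg.AlgInt) (hM : Cfsg.IsPModular 2 M) (k : ℕ) (hk : Nat.Coprime k (Nat.card G)) (hk₂ : ∀ g : G, Odd (orderOf g) → g ^ k = g⁻¹) (B : Set (Cfsg.IrrCharacter G)) (hB : Cfsg.IsPBlock M B) (hdef : Cfsg.blockDefect 2 B = (Nat.card G).factorization 2) (hstab : ∀ χ ∈ B, ∃ ψ ∈ B, ∀ g : G, (ψ : G → ℂ) g = (χ : G → ℂ) (g ^ k)) : B = Cfsg.principalBlock M G := by
  classical
  have : Fintype G := Fintype.ofFinite G
  have hM' := hM.2.1.isPrime
  have hreal : ∀ χ ∈ B, barIrr χ ∈ B := by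
    intro χ hχ
    obtain ⟨ψ, hψB, hψ⟩ := hstab χ hχ
    have hs : SameBlock M (ψ : G → ℂ) (barIrr χ : G → ℂ) := by
      apply sameBlock_of_regular hM
      intro g hg
      have hodd : Odd (orderOf g) := Nat.odd_iff.2 (by omega)
      have e : centralChar (ψ : G → ℂ) g = centralChar (barIrr χ : G → ℂ) g := by
        unfold centralChar
        rw [hψ g, hψ 1, hk₂ g hodd, one_pow, barIrr_apply, barIrr_apply, inv_one]
      rw [e, sub_self]
      exact MemLocalIdeal.zero hM'.ne_top
    obtain ⟨χ₁, rfl⟩ := hB
    exact sameBlock_trans hM' (mem_blockOf.1 hψB) hs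
  have h1 := mem_of_real_full_defect hM hB hreal hdef
  obtain ⟨χ₁, rfl⟩ := hB
  have h2 : blockOf M (χ₁ : G → ℂ) = blockOf M ((oneIrr G : IrrCharacter G) : G → ℂ) :=
    blockOf_eq_of_mem hM' h1
  rw [h2]
  rfl

end Cfsg.Agent.S4517
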