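import Cfsg.Statements.S4518
-- import your own Cfsg.Agent.* helpers here
import Cfsg.Agent.Helper24.GaloisChar
import Cfsg.Agent.Helper6.GoingDown

set_option autoImplicit false
open Cfsg

namespace Cfsg.Agent.S4518

open Cfsg.Agent.Helper24 Cfsg.Agent

/-- Let N be a normal subgroup of the finite group G whose index is not divisible by the prime p, and let k be coprime to the order of G with k ^ (p ^ e) ≡ 1 modulo the order of G for some e (so g ↦ g ^ k induces a field automorphism of p-power order on character values). If an irreducible character χ of G satisfies χ (g ^ k) = χ g for all g, then every irreducible constituent θ of the restriction of χ to N satisfies θ (n ^ k) = θ n for all n. -/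
theorem result {G : Type*} [Group G] [Fintype G] (p : ℕ) [Fact p.Prime] (N : Subgroup G) [N.Normal] [Fintype N] (hidx : ¬ p ∣ N.index) (k e : ℕ) (hk : Nat.Coprime k (Nat.card G)) (hke : k ^ (p ^ e) ≡ 1 [MOD Nat.card G]) (χ : Cfsg.IrrCharacter G) (hχ : ∀ g : G, (χ : G → ℂ) (g ^ k) = (χ : G → ℂ) g) (θ : Cfsg.IrrCharacter N) (hθ : Cfsg.classInner (fun n : N => (χ : G → ℂ) n) (θ : N → ℂ) ≠ 0) : ∀ n : N, (θ : N → ℂ) (n ^ k) = (θ : N → ℂ) n := by
  classical
  have hNn : N.Normal := inferInstance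
  have hkN : k.Coprime (Nat.card N) :=
    Nat.Coprime.coprime_dvd_right (Subgroup.card_subgroup_dvd_card N) hk
  obtain ⟨e₀, F, he₀, hFconj, hθF, hFcard, hres, hFall, -⟩ :=
    Helper6.clifford_finset N χ.2 θ.2 hθ
  have hχcf := Helper2.IsIrrCharacter.isClassFunction χ.2
  have hFirr : ∀ ψ ∈ F, Cfsg.IsIrrCharacter N ψ ∧
      Cfsg.classInner (fun n : N => (χ : G → ℂ) n) ψ ≠ 0 := by
    intro ψ hψ
    obtain ⟨g, rfl⟩ := hFconj ψ hψ
    refine ⟨Helper6.isIrrCharacter_conjFun N g θ.2, ?_⟩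
    rw [Helper6.classInner_res_conjFun N g θ hχcf]
    exact hθ
  have hT : ∀ ψ ∈ F, (fun n : N => ψ (n ^ k)) ∈ F := by
    intro ψ hψ
    obtain ⟨hirr, hne⟩ := hFirr ψ hψ
    apply hFall _ (isIrrCharacter_comp_pow hirr k hkN)
    have h1 : Cfsg.classInner (fun n : N => (χ : G → ℂ) n) (fun n : N => ψ (n ^ k)) =
        Cfsg.classInner (fun n : N => (χ : G → ℂ) n) ψ := by
      unfold Cfsg.classInner
      congr 1
      have h2 : ∀ n : N, (χ : G → ℂ) (n : G) = (χ : G → ℂ) ((n ^ k : N) : G) := by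
        intro n
        rw [Subgroup.coe_pow, hχ]
      calc ∑ n : N, (χ : G → ℂ) n * (starRingEnd ℂ) (ψ (n ^ k))
          = ∑ n : N, (fun m : N => (χ : G → ℂ) m * (starRingEnd ℂ) (ψ m)) (n ^ k) := by
            apply Finset.sum_congr rfl
            intro n _
            rw [h2 n]
        _ = ∑ m : N, (χ : G → ℂ) m * (starRingEnd ℂ) (ψ m) :=
            Fintype.sum_equiv (powCoprime hkN.symm) _
              (fun m : N => (χ : G → ℂ) m * (starRingEnd ℂ) (ψ m)) (fun n => rfl)
    rw [h1]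
    exact hne
  have hFp : ¬ p ∣ F.card := by
    intro hdiv
    apply hidx
    have hle := Helper6.le_inertia N (Helper2.IsIrrCharacter.isClassFunction θ.2)
    have h1 := Subgroup.card_mul_index N
    obtain ⟨c, hc⟩ := Subgroup.card_dvd_of_le hle
    rw [hc] at hFcard
    have h3 : Nat.card N * (F.card * c) = Nat.card N * N.index := by
      rw [h1, ← hFcard]
      ring
    have h4 : F.card * c = N.index := Nat.eq_of_mul_eq_mul_left Nat.card_pos h3
    rw [← h4]
    exact Dvd.dvd.mul_right hdiv c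
  let f : F → F := fun ψ => ⟨fun n : N => ψ.1 (n ^ k), hT ψ.1 ψ.2⟩
  have hfinj : Function.Injective f := by
    intro ψ₁ ψ₂ h
    apply Subtype.ext
    funext n
    have h1 : (fun n : N => ψ₁.1 (n ^ k)) = fun n : N => ψ₂.1 (n ^ k) :=
      congrArg Subtype.val h
    obtain ⟨m, rfl⟩ := (powCoprime hkN.symm).surjective n
    exact congrFun h1 m
  let τ : Equiv.Perm F := Equiv.ofBijective f (Finite.injective_iff_bijective.mp hfinj)
  have hτpow : ∀ (j : ℕ) (ψ : F),
      (((τ ^ j) ψ : F) : N → ℂ) = fun n : N => (ψ : N → ℂ) (n ^ (k ^ j)) := by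
    intro j
    induction j with
    | zero =>
      intro ψ
      funext n
      simp
    | succ j ih =>
      intro ψ
      rw [pow_succ, Equiv.Perm.mul_apply, ih]
      funext n
      show (ψ : N → ℂ) ((n ^ k ^ j) ^ k) = _
      rw [← pow_mul, ← pow_succ]
  have hτ : τ ^ p ^ e = 1 := by
    apply Equiv.Perm.ext
    intro ψ
    apply Subtype.ext
    rw [hτpow]
    funext n
    show (ψ : N → ℂ) (n ^ k ^ p ^ e) = (ψ : N → ℂ) n
    congr 1
    have h1 : (k ^ p ^ e) ≡ 1 [MOD orderOf n] :=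
      hke.of_dvd ((orderOf_dvd_natCard n).trans (Subgroup.card_subgroup_dvd_card N))
    have h2 := (pow_eq_pow_iff_modEq).mpr h1
    rw [h2, pow_one]
  have hcardF : ¬ p ∣ Fintype.card F := by rwa [Fintype.card_coe]
  obtain ⟨φ₀, hφ₀⟩ := Equiv.Perm.exists_fixed_point_of_prime hcardF hτ
  obtain ⟨g, hg⟩ := hFconj φ₀.1 φ₀.2
  have hfix : (fun n : N => (φ₀ : N → ℂ) (n ^ k)) = (φ₀ : N → ℂ) := congrArg Subtype.val hφ₀
  intro m
  have hm' : g⁻¹ * (m : G) * g ∈ N := by
    have h1 := hNn.conj_mem (m : G) m.2 g⁻¹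
    rwa [inv_inv] at h1
  have h1 := congrFun hfix ⟨g⁻¹ * (m : G) * g, hm'⟩
  rw [hg] at h1
  simp only [Helper6.conjFun_apply] at h1
  have key : ∀ (a b : N), (a : G) = (b : G) → (θ : N → ℂ) a = (θ : N → ℂ) b :=
    fun a b h => by rw [Subtype.ext h]
  refine (key _ _ ?_).trans (h1.trans (key _ _ ?_))
  · show ((m : G)) ^ k = g * (g⁻¹ * (m : G) * g) ^ k * g⁻¹
    exact (conj_inv_pow g (m : G) k).symm
  · show g * (g⁻¹ * (m : G) * g) * g⁻¹ = (m : G)
    group

end Cfsg.Agent.S4518
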