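import Cfsg.Statements.S4520
import Cfsg.Agent.Helper25.BlockOdd
open Cfsg.Agent.Helper25

set_option autoImplicit false
open Cfsg

namespace Cfsg.Agent.S4520

/-- Let N be a normal subgroup of odd index in the finite group G, M a maximal ideal of the algebraic integers containing 2, and k coprime to the order of G with k ^ (2 ^ e) ≡ 1 modulo the order of G for some e and g ^ k = g⁻¹ for every element g of odd order. Let θ be an irreducible character of N and χ an irreducible character of G over θ, both unchanged by composing with g ↦ g ^ k. Then χ lies in the principal 2-block of G if and only if θ lies in the principal 2-block of N. -/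
theorem result {G : Type*} [Group G] [Fintype G] (M : Ideal Cfsg.AlgInt) (hM : Cfsg.IsPModular 2 M) (N : Subgroup G) [N.Normal] [Fintype N] (hidx : Odd N.index) (k e : ℕ) (hk : Nat.Coprime k (Nat.card G)) (hke : k ^ (2 ^ e) ≡ 1 [MOD Nat.card G]) (hk₂ : ∀ g : G, Odd (orderOf g) → g ^ k = g⁻¹) (θ : Cfsg.IrrCharacter N) (hθ : ∀ n : N, (θ : N → ℂ) (n ^ k) = (θ : N → ℂ) n) (χ : Cfsg.IrrCharacter G) (hχ : ∀ g : G, (χ : G → ℂ) (g ^ k) = (χ : G → ℂ) g) (hover : Cfsg.classInner (fun n : N => (χ : G → ℂ) n) (θ : N → ℂ) ≠ 0) : χ ∈ Cfsg.principalBlock M G ↔ θ ∈ Cfsg.principalBlock M N := by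
  classical
  have hMp : M.IsPrime := hM.2.1.isPrime
  have hN : N.Normal := inferInstance
  have := Helper24.finite_irrCharacter (G := G)
  have : Fintype (IrrCharacter G) := Fintype.ofFinite _
  have := Helper24.finite_irrCharacter (G := N)
  have : Fintype (IrrCharacter N) := Fintype.ofFinite _
  constructor
  · intro hχp
    have hb : IsPBlock M (principalBlock M N) := ⟨oneIrr N, rfl⟩
    have hs : SameBlock M ((oneIrr G : IrrCharacter G) : G → ℂ) (χ : G → ℂ) := hχp
    have h1 : classInner (fun n : N => ((oneIrr G : IrrCharacter G) : G → ℂ) n)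
        ((oneIrr N : IrrCharacter N) : N → ℂ) ≠ 0 :=
      (over_one_iff N (oneIrr G)).2 (fun n _ => by rw [oneIrr_apply, oneIrr_apply])
    have h0 : oneIrr N ∈ principalBlock M N := mem_blockOf_self hMp.ne_top (oneIrr N)
    obtain ⟨g, θ', hθ', hθeq⟩ := cover_conj hMp N hb hs h0 h1 hover
    have h2 : SameBlock M (fun _ : N => (1 : ℂ)) (θ' : N → ℂ) := hθ'
    have h3 := sameBlock_conjFun N g h2
    show SameBlock M (fun _ : N => (1 : ℂ)) (θ : N → ℂ)
    rw [hθeq, conjIrr_coe]
    exact h3
  · intro hθp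
    rw [mem_principal_iff hM χ]
    have hsplit : ∑ g : G, (if 2 ∣ orderOf g then 0 else (χ : G → ℂ) g / (χ : G → ℂ) 1)
        = ∑ g : G, (if 2 ∣ orderOf g then 0 else
            indFun N (θ : N → ℂ) g / indFun N (θ : N → ℂ) 1)
          + ∑ g : G, (if (2 ∣ orderOf g ∨ g ∈ N) then 0 else
            (χ : G → ℂ) g / (χ : G → ℂ) 1) := by
      rw [← Finset.sum_add_distrib]
      refine Finset.sum_congr rfl (fun g _ => ?_)
      by_cases h2 : 2 ∣ orderOf g
      · rw [if_pos h2, if_pos h2, if_pos (Or.inl h2), add_zero]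
      · by_cases hg : g ∈ N
        · rw [if_neg h2, if_neg h2, if_pos (Or.inr hg), add_zero]
          exact (constituent_iff_ratio N χ θ).1 hover ⟨g, hg⟩
        · rw [if_neg h2, if_neg h2, if_neg (not_or.2 ⟨h2, hg⟩),
            indFun_eq_zero_of_not_mem N (θ : N → ℂ) g hg, zero_div, zero_add]
    have h1 : ∑ g : G, (if 2 ∣ orderOf g then 0 else
          indFun N (θ : N → ℂ) g / indFun N (θ : N → ℂ) 1)
        = ∑ h : N, (if 2 ∣ orderOf h then 0 else (θ : N → ℂ) h / (θ : N → ℂ) 1) := by
      rw [← sum_regular_induced (p := 2) N (θ : N → ℂ)]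
      refine Finset.sum_congr rfl (fun g _ => ?_)
      by_cases h2 : 2 ∣ orderOf g
      · rw [if_pos h2, if_pos h2]
      · rw [if_neg h2, if_neg h2, inducedCentralChar_eq]
        unfold centralChar
        have hidx : ((Subgroup.centralizer ({g} : Set G)).index : ℂ) ≠ 0 := by
          have : (Subgroup.centralizer ({g} : Set G)).index ≠ 0 := Subgroup.index_ne_zero_of_finite
          exact_mod_cast this
        field_simp
    have h1' := regSum_sub_mem hM θ hθp
    have h2 : MemLocalIdeal M (∑ g : G, (if (2 ∣ orderOf g ∨ g ∈ N) then 0 else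
        (χ : G → ℂ) g / (χ : G → ℂ) 1)) := by
      have hcf := Helper2.IsIrrCharacter.isClassFunction χ.2
      refine real_class_sum_mem (localIdeal M hMp) _ (fun g h => ?_) (fun g => ?_) (fun g hc => ?_)
      · show (if (2 ∣ orderOf (h * g * h⁻¹) ∨ h * g * h⁻¹ ∈ N) then (0 : ℂ) else
          (χ : G → ℂ) (h * g * h⁻¹) / (χ : G → ℂ) 1)
            = (if (2 ∣ orderOf g ∨ g ∈ N) then 0 else (χ : G → ℂ) g / (χ : G → ℂ) 1)
        have e1 : h * g * h⁻¹ ∈ N ↔ g ∈ N := by
          constructor
          · intro hh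
            have := hN.conj_mem _ hh h⁻¹
            simpa [mul_assoc] using this
          · intro hh
            exact hN.conj_mem _ hh h
        rw [orderOf_conj', hcf g h, e1]
      · show ((Subgroup.centralizer ({g} : Set G)).index : ℂ) *
          ((if (2 ∣ orderOf g ∨ g ∈ N) then (0 : ℂ) else (χ : G → ℂ) g / (χ : G → ℂ) 1)
            + (if (2 ∣ orderOf g⁻¹ ∨ g⁻¹ ∈ N) then (0 : ℂ) else
              (χ : G → ℂ) g⁻¹ / (χ : G → ℂ) 1)) ∈ localIdeal M hMp
        rw [orderOf_inv, inv_mem_iff]
        by_cases hcond : (2 ∣ orderOf g ∨ g ∈ N)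
        · rw [if_pos hcond, if_pos hcond, add_zero, mul_zero]
          exact MemLocalIdeal.zero hMp.ne_top
        · rw [if_neg hcond, if_neg hcond]
          have hodd : Odd (orderOf g) := by
            rw [← Nat.not_even_iff_odd, even_iff_two_dvd]
            exact fun h => hcond (Or.inl h)
          have hinv : (χ : G → ℂ) g⁻¹ = (χ : G → ℂ) g := by
            rw [← hk₂ g hodd]
            exact hχ g
          rw [hinv]
          have e : ((Subgroup.centralizer ({g} : Set G)).index : ℂ) *
              ((χ : G → ℂ) g / (χ : G → ℂ) 1 + (χ : G → ℂ) g / (χ : G → ℂ) 1)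
              = ((2 : ℕ) : ℂ) * centralChar (χ : G → ℂ) g := by
            unfold centralChar
            push_cast
            ring
          rw [e]
          exact MemLocalIdeal.mul_right hMp ((memLocalIdeal_natCast_iff hM 2).mpr (dvd_refl 2))
            (memLocalRing_of_isIntegral hMp.ne_top (centralChar_isIntegral χ g))
      · show ((Subgroup.centralizer ({g} : Set G)).index : ℂ) *
          (if (2 ∣ orderOf g ∨ g ∈ N) then (0 : ℂ) else (χ : G → ℂ) g / (χ : G → ℂ) 1)
            ∈ localIdeal M hMp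
        by_cases hcond : (2 ∣ orderOf g ∨ g ∈ N)
        · rw [if_pos hcond, mul_zero]
          exact MemLocalIdeal.zero hMp.ne_top
        · exact absurd hc (not_isConj_inv_of_odd_index N hidx g (fun h => hcond (Or.inr h)))
    intro hcon
    rw [hsplit, h1] at hcon
    apply regCount_not_mem (G := N) hM
    have e : (Nat.card {g : N // ¬ 2 ∣ orderOf g} : ℂ)
        = (∑ h : N, (if 2 ∣ orderOf h then 0 else (θ : N → ℂ) h / (θ : N → ℂ) 1)
            + ∑ g : G, (if (2 ∣ orderOf g ∨ g ∈ N) then 0 else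
              (χ : G → ℂ) g / (χ : G → ℂ) 1))
          - ∑ g : G, (if (2 ∣ orderOf g ∨ g ∈ N) then 0 else (χ : G → ℂ) g / (χ : G → ℂ) 1)
          - (∑ h : N, (if 2 ∣ orderOf h then 0 else (θ : N → ℂ) h / (θ : N → ℂ) 1)
            - (Nat.card {g : N // ¬ 2 ∣ orderOf g} : ℂ)) := by ring
    rw [e]
    exact MemLocalIdeal.sub hMp (MemLocalIdeal.sub hMp hcon h2) h1'

end Cfsg.Agent.S4520
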