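import Cfsg.Statements.S4521
import Cfsg.Agent.Helper25.BlockCentral
open Cfsg.Agent.Helper25

set_option autoImplicit false
open Cfsg

namespace Cfsg.Agent.S4521

/-- Let the finite group G be generated by subgroups U₁ and U₂ that commute elementwise and whose intersection is a p-group, and let M be a maximal ideal of the algebraic integers containing the prime p. If the irreducible character χ of G has the irreducible constituents ψ₁ on U₁ and ψ₂ on U₂, then χ lies in the principal block of G if and only if ψ₁ and ψ₂ lie in the principal blocks of U₁ and U₂. -/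
theorem result {G : Type*} [Group G] [Fintype G] (p : ℕ) [Fact p.Prime] (M : Ideal Cfsg.AlgInt) (hM : Cfsg.IsPModular p M) (U₁ U₂ : Subgroup G) [Fintype U₁] [Fintype U₂] (hcomm : ∀ u ∈ U₁, ∀ v ∈ U₂, u * v = v * u) (hgen : U₁ ⊔ U₂ = ⊤) (hZ : IsPGroup p ↥(U₁ ⊓ U₂)) (χ : Cfsg.IrrCharacter G) (ψ₁ : Cfsg.IrrCharacter U₁) (ψ₂ : Cfsg.IrrCharacter U₂) (h₁ : Cfsg.classInner (fun u : U₁ => (χ : G → ℂ) u) (ψ₁ : U₁ → ℂ) ≠ 0) (h₂ : Cfsg.classInner (fun u : U₂ => (χ : G → ℂ) u) (ψ₂ : U₂ → ℂ) ≠ 0) : χ ∈ Cfsg.principalBlock M G ↔ (ψ₁ ∈ Cfsg.principalBlock M U₁ ∧ ψ₂ ∈ Cfsg.principalBlock M U₂) := by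
  classical
  have hMp : M.IsPrime := hM.2.1.isPrime
  have hmul := central_product_mul U₁ U₂ hcomm hgen
  have hcomm' : ∀ u ∈ U₂, ∀ v ∈ U₁, u * v = v * u := fun u hu v hv => (hcomm v hv u hu).symm
  have hmul' : ∀ g : G, ∃ u ∈ U₂, ∃ v ∈ U₁, g = u * v := by
    intro g
    obtain ⟨u, hu, v, hv, rfl⟩ := hmul g
    exact ⟨v, hv, u, hu, hcomm u hu v hv⟩
  have hχ1 : (χ : G → ℂ) 1 ≠ 0 := irr_one_ne_zero χ.2
  have hsum : ∑ g : G, (if p ∣ orderOf g then 0 else (χ : G → ℂ) g / (χ : G → ℂ) 1)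
      = (∑ u : U₁, (if p ∣ orderOf u then 0 else (ψ₁ : U₁ → ℂ) u / (ψ₁ : U₁ → ℂ) 1))
        * (∑ v : U₂, (if p ∣ orderOf v then 0 else (ψ₂ : U₂ → ℂ) v / (ψ₂ : U₂ → ℂ) 1)) := by
    rw [sum_regular_central_product p U₁ U₂ hcomm hmul hZ, Finset.sum_mul_sum,
      ← Finset.sum_product', Finset.univ_product_univ]
    refine Finset.sum_congr rfl (fun x _ => ?_)
    rw [Subgroup.orderOf_coe, Subgroup.orderOf_coe]
    by_cases h1 : p ∣ orderOf x.1
    · rw [if_pos h1, if_pos h1, zero_mul]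
    · by_cases h2 : p ∣ orderOf x.2
      · rw [if_neg h1, if_pos h2, if_neg h1, if_pos h2, mul_zero]
      · rw [if_neg h1, if_neg h2, if_neg h1, if_neg h2,
          ← central_product_ratio U₁ U₂ hcomm hmul χ ψ₁ h₁ x.1,
          ← central_product_ratio U₂ U₁ hcomm' hmul' χ ψ₂ h₂ x.2]
        have h3 := central_product_mul_char U₁ U₂ hcomm hmul χ x.1 x.1.2 x.2 x.2.2
        field_simp
        rw [h3]
        ring
  have hR1 := regSum_memLocalRing (M := M) p hMp ψ₁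
  have hR2 := regSum_memLocalRing (M := M) p hMp ψ₂
  rw [mem_principal_iff hM χ, mem_principal_iff hM ψ₁, mem_principal_iff hM ψ₂, hsum]
  constructor
  · intro h
    refine ⟨fun h1 => h (MemLocalIdeal.mul_right hMp h1 hR2),
      fun h2 => h (MemLocalIdeal.mul_left hMp hR1 h2)⟩
  · intro h
    exact not_memLocalIdeal_mul hMp hR1 h.1 h.2

end Cfsg.Agent.S4521
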