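import Cfsg.Statements.S4550
import Cfsg.Agent.Helper25.GaloisTwo
open Cfsg.Agent.Helper25

set_option autoImplicit false
open Cfsg

namespace Cfsg.Agent.S4550

/-- Let G be a finite group of even order and M a maximal ideal of the algebraic integers containing 2. Let k be a natural number with g ^ k = g ^ 3 for every 2-element g and g ^ k = g for every element g of odd order (such k exist); an irreducible character χ is unchanged by g ↦ g ^ k exactly when it is fixed by the field automorphism that cubes the 2-power roots of unity and fixes the roots of unity of odd order. Then the number of members χ of the principal 2-block of odd degree with χ (g ^ k) = χ g for all g is even. -/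
theorem result {G : Type*} [Group G] [Finite G] (M : Ideal Cfsg.AlgInt) (hM : Cfsg.IsPModular 2 M) (hev : Even (Nat.card G)) (k : ℕ) (hk₁ : ∀ g : G, (∃ j : ℕ, orderOf g = 2 ^ j) → g ^ k = g ^ 3) (hk₂ : ∀ g : G, Odd (orderOf g) → g ^ k = g) : Even (Nat.card {χ : Cfsg.IrrCharacter G // χ ∈ Cfsg.principalBlock M G ∧ Odd (Cfsg.charDegree (χ : G → ℂ)) ∧ ∀ g : G, (χ : G → ℂ) (g ^ k) = (χ : G → ℂ) g}) := by
  classical
  have : Fintype G := Fintype.ofFinite G
  have hMp : M.IsPrime := hM.2.1.isPrime
  have := Helper24.finite_irrCharacter (G := G)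
  have : Fintype (IrrCharacter G) := Fintype.ofFinite _
  have hk : Nat.Coprime k (Nat.card G) := coprime_of_pow_two_odd k 3 (by decide) hk₁ hk₂
  have hfix := pow_pow_two_fix k hk₁ hk₂
  -- the number of odd-degree characters in the principal block is even
  have hB0 : IsPBlock M (principalBlock M G) := ⟨oneIrr G, rfl⟩
  have hevenX : Even (Finset.univ.filter (fun χ : IrrCharacter G =>
      χ ∈ principalBlock M G ∧ Odd (charDegree (χ : G → ℂ)))).card := by
    have hN : MemLocalIdeal M (((∑ χ ∈ Finset.univ.filter
        (fun χ : IrrCharacter G => χ ∈ principalBlock M G),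
        charDegree (χ : G → ℂ) ^ 2 : ℕ)) : ℂ) := by
      have h1 := blockCoeff_memLocalRing hMp hB0 (1 : G)
      have h2 : (((∑ χ ∈ Finset.univ.filter
          (fun χ : IrrCharacter G => χ ∈ principalBlock M G),
          charDegree (χ : G → ℂ) ^ 2 : ℕ)) : ℂ)
          = ((Nat.card G : ℕ) : ℂ) * blockCoeff (principalBlock M G) (1 : G) := by
        unfold blockCoeff
        rw [← mul_assoc, mul_inv_cancel₀ card_ne_zero_complex, one_mul,
          finsum_mem_eq_sum_ite, ← Finset.sum_filter]
        push_cast
        refine Finset.sum_congr rfl (fun χ _ => ?_)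
        rw [Helper24.charDegree_spec (Helper24.isCharacter_of_irr χ.2)]
        simp [pow_two]
      rw [h2]
      exact MemLocalIdeal.mul_right hMp
        ((memLocalIdeal_natCast_iff hM _).mpr (even_iff_two_dvd.mp hev)) h1
    have h3 : Even (∑ χ ∈ Finset.univ.filter
        (fun χ : IrrCharacter G => χ ∈ principalBlock M G), charDegree (χ : G → ℂ) ^ 2) :=
      even_iff_two_dvd.mpr ((memLocalIdeal_natCast_iff hM _).mp hN)
    rw [Finset.even_sum_iff_even_card_odd, Finset.filter_filter] at h3
    have e : Finset.univ.filter (fun χ : IrrCharacter G =>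
        χ ∈ principalBlock M G ∧ Odd (charDegree (χ : G → ℂ)))
        = Finset.univ.filter (fun χ : IrrCharacter G =>
          χ ∈ principalBlock M G ∧ Odd (charDegree (χ : G → ℂ) ^ 2)) := by
      refine Finset.filter_congr (fun χ _ => ?_)
      rw [Nat.odd_pow_iff (by norm_num)]
    rw [e]
    exact h3
  -- the Galois action on the odd-degree characters of the principal block
  obtain ⟨f, hf⟩ : ∃ f : {χ : IrrCharacter G // χ ∈ principalBlock M G ∧
      Odd (charDegree (χ : G → ℂ))} → {χ : IrrCharacter G // χ ∈ principalBlock M G ∧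
      Odd (charDegree (χ : G → ℂ))}, ∀ x, ((f x).1 : G → ℂ) = fun g => (x.1 : G → ℂ) (g ^ k) := by
    refine ⟨fun x => ⟨powIrr hk x.1, (powIrr_mem_principal_iff hM hk x.1).2 x.2.1, ?_⟩,
      fun x => rfl⟩
    have h1 : charDegree (powIrr hk x.1 : G → ℂ) = charDegree (x.1 : G → ℂ) := by
      unfold charDegree
      rw [powIrr_apply, one_pow]
    rw [h1]
    exact x.2.2
  have hiter : ∀ (m : ℕ) (x : {χ : IrrCharacter G // χ ∈ principalBlock M G ∧
      Odd (charDegree (χ : G → ℂ))}),
      ((f^[m] x).1 : G → ℂ) = fun g => (x.1 : G → ℂ) (g ^ (k ^ m)) := by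
    intro m
    induction m with
    | zero =>
      intro x
      funext g
      simp
    | succ m ih =>
      intro x
      rw [Function.iterate_succ_apply, ih (f x), hf x]
      funext g
      show (x.1 : G → ℂ) ((g ^ k ^ m) ^ k) = _
      rw [← pow_mul, pow_succ]
  have hfpow : ∀ x, f^[2 ^ Nat.card G] x = x := by
    intro x
    apply Subtype.ext
    apply Subtype.ext
    rw [hiter]
    funext g
    rw [hfix]
  have hXeven : Even (Nat.card {χ : IrrCharacter G // χ ∈ principalBlock M G ∧
      Odd (charDegree (χ : G → ℂ))}) := by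
    rw [Nat.card_eq_fintype_card, Fintype.card_subtype]
    exact hevenX
  have hfixed := even_card_fixedPoints f (Nat.card G) hfpow hXeven
  have hT : Nat.card {χ : IrrCharacter G // χ ∈ principalBlock M G ∧
      Odd (charDegree (χ : G → ℂ)) ∧ ∀ g : G, (χ : G → ℂ) (g ^ k) = (χ : G → ℂ) g}
      = Nat.card (Function.fixedPoints f) := by
    refine Nat.card_congr ⟨fun t => ⟨⟨t.1, t.2.1, t.2.2.1⟩, ?_⟩,
      fun y => ⟨y.1.1, y.1.2.1, y.1.2.2, ?_⟩, fun t => rfl, fun y => rfl⟩
    · show f _ = _
      apply Subtype.ext
      apply Subtype.ext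
      rw [hf]
      funext g
      exact t.2.2.2 g
    · intro g
      have h1 : f y.1 = y.1 := y.2
      have h2 := hf y.1
      rw [h1] at h2
      exact (congrFun h2 g).symm
  rw [hT]
  exact hfixed

end Cfsg.Agent.S4550
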