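import Cfsg.Statements.S4558
-- import your own Cfsg.Agent.* helpers here
import Cfsg.Agent.Helper24.CharValues
import Mathlib.RingTheory.Polynomial.Cyclotomic.Eval
import Mathlib.RingTheory.Polynomial.Cyclotomic.Roots

set_option autoImplicit false
open Cfsg

namespace Cfsg.Agent.S4558

/-- Let χ be a character of the finite group G and g an element of p-power order for the prime p. If χ g = 0, then p divides the degree of χ. -/
theorem result {G : Type*} [Group G] [Finite G] (p : ℕ) [Fact p.Prime] (χ : G → ℂ) (hχ : Cfsg.IsCharacter G χ) (g : G) (hg : ∃ j : ℕ, orderOf g = p ^ j) (h0 : χ g = 0) : p ∣ Cfsg.charDegree χ := by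
  obtain ⟨j, hj⟩ := hg
  have hp : p.Prime := Fact.out
  rcases Nat.eq_zero_or_pos j with rfl | hjpos
  · rw [pow_zero, orderOf_eq_one_iff] at hj
    subst hj
    have h1 := Cfsg.Agent.Helper24.charDegree_spec hχ
    rw [h0] at h1
    have h2 : Cfsg.charDegree χ = 0 := by exact_mod_cast h1.symm
    rw [h2]; exact dvd_zero p
  · obtain ⟨j', rfl⟩ : ∃ j', j = j' + 1 := ⟨j - 1, by omega⟩
    have hN : 0 < p ^ (j' + 1) := pow_pos hp.pos _
    have hgN : g ^ (p ^ (j' + 1)) = 1 := by rw [← hj]; exact pow_orderOf_eq_one g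
    have hζ : IsPrimitiveRoot (Complex.exp (2 * Real.pi * Complex.I / (p ^ (j' + 1) : ℕ)))
        (p ^ (j' + 1)) := Complex.isPrimitiveRoot_exp _ hN.ne'
    obtain ⟨d, hd⟩ := Cfsg.Agent.Helper24.char_pow_expansion hχ g _ hN hgN _ hζ
    have h1 := hd 1
    have h00 := hd 0
    simp only [pow_one, mul_one] at h1
    simp only [pow_zero, mul_zero, mul_one] at h00
    have hP : Polynomial.aeval (Complex.exp (2 * Real.pi * Complex.I / (p ^ (j' + 1) : ℕ)))
        (∑ i ∈ Finset.range (p ^ (j' + 1)), Polynomial.C (d i : ℤ) * Polynomial.X ^ i) = 0 := by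
      rw [map_sum, ← h0, h1]
      refine Finset.sum_congr rfl fun i _ => ?_
      simp
    have hdvd : Polynomial.cyclotomic (p ^ (j' + 1)) ℤ ∣
        (∑ i ∈ Finset.range (p ^ (j' + 1)), Polynomial.C (d i : ℤ) * Polynomial.X ^ i) := by
      rw [Polynomial.cyclotomic_eq_minpoly hζ hN]
      exact minpoly.isIntegrallyClosed_dvd (hζ.isIntegral hN) hP
    obtain ⟨Q, hQ⟩ := hdvd
    have heval := congrArg (Polynomial.eval 1) hQ
    rw [Polynomial.eval_mul, Polynomial.eval_one_cyclotomic_prime_pow, Polynomial.eval_finsetSum]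
      at heval
    simp only [Polynomial.eval_mul, Polynomial.eval_C, Polynomial.eval_pow, Polynomial.eval_X,
      one_pow, mul_one] at heval
    have hdeg : (Cfsg.charDegree χ : ℂ) = ∑ i ∈ Finset.range (p ^ (j' + 1)), (d i : ℂ) := by
      rw [← Cfsg.Agent.Helper24.charDegree_spec hχ]; exact h00
    have hdeg' : (Cfsg.charDegree χ : ℤ) = ∑ i ∈ Finset.range (p ^ (j' + 1)), (d i : ℤ) := by
      exact_mod_cast hdeg
    rw [← hdeg'] at heval
    exact Int.natCast_dvd_natCast.mp ⟨_, heval⟩

end Cfsg.Agent.S4558
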