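import Cfsg.Statements.S4565
import Cfsg.Agent.Helper25.SchurTrace
import Cfsg.Agent.Helper24.ClassSum
import Cfsg.Agent.Helper6.GcdBezout

set_option autoImplicit false
open Cfsg

namespace Cfsg.Agent.S4565

open Cfsg.Agent Cfsg.Agent.Helper6 in
/-- Let χ be an irreducible character of the finite group H that is fully ramified over the normal subgroup Z: the restriction of χ to Z is e times an irreducible character of Z with e ^ 2 equal to the index of Z. If Z ≠ H, then H/Z has no cyclic subgroup that is its own centralizer. -/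
theorem result {H : Type*} [Group H] [Finite H] (Z : Subgroup H) [Z.Normal] (χ : Cfsg.IrrCharacter H) (hfr : ∃ (θ : Cfsg.IrrCharacter ↥Z) (e : ℕ), e ^ 2 = Z.index ∧ ∀ z : ↥Z, (χ : H → ℂ) z = (e : ℂ) * (θ : ↥Z → ℂ) z) (hZ : Z ≠ ⊤) (C : Subgroup (H ⧸ Z)) (hC : IsCyclic C) : Subgroup.centralizer (C : Set (H ⧸ Z)) ≠ C := by
  classical
  haveI : Fintype H := Fintype.ofFinite H
  haveI : Fintype ↥Z := Fintype.ofFinite _
  haveI : Fintype (H ⧸ Z) := Fintype.ofFinite _
  obtain ⟨θ, e, he, hχθ⟩ := hfr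
  intro hcent
  have hχchar := Helper24.isCharacter_of_irr χ.2
  have hθchar := Helper24.isCharacter_of_irr θ.2
  have hcf : ∀ g h : H, (χ : H → ℂ) (h * g * h⁻¹) = (χ : H → ℂ) g :=
    fun g h => Helper24.char_conj_invariant hχchar g h
  have hZpos : 0 < Nat.card ↥Z := Nat.card_pos
  have hZC : (Nat.card ↥Z : ℂ) ≠ 0 := by exact_mod_cast hZpos.ne'
  have hHC : (Nat.card H : ℂ) ≠ 0 := by exact_mod_cast (Nat.card_pos (α := H)).ne'
  have he0 : e ≠ 0 := by
    intro h0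
    rw [h0] at he
    have h1 : Z.index ≠ 0 := Subgroup.index_ne_zero_of_finite
    exact h1 (by simpa using he.symm)
  have heC : (e : ℂ) ≠ 0 := Nat.cast_ne_zero.2 he0
  have hχsum : ∑ g : H, (χ : H → ℂ) g * (χ : H → ℂ) g⁻¹ = (Nat.card H : ℂ) := by
    have h1 := Helper24.irr_orthonormal χ.2 χ.2
    rw [if_pos rfl, inv_mul_eq_iff_eq_mul₀ hHC] at h1
    rw [h1, mul_one]
  have hθsum : ∑ z : ↥Z, (θ : ↥Z → ℂ) z * (θ : ↥Z → ℂ) z⁻¹ = (Nat.card ↥Z : ℂ) := by
    have h1 := Helper24.irr_orthonormal θ.2 θ.2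
    rw [if_pos rfl, inv_mul_eq_iff_eq_mul₀ hZC] at h1
    rw [h1, mul_one]
  have hsumχ : ∑ h : H, Complex.normSq ((χ : H → ℂ) h) = (Nat.card H : ℝ) := by
    have h3 : ((∑ h : H, Complex.normSq ((χ : H → ℂ) h) : ℝ) : ℂ) = (Nat.card H : ℂ) := by
      rw [← hχsum]
      push_cast
      refine Finset.sum_congr rfl fun g _ => ?_
      rw [Helper24.char_inv hχchar, Complex.mul_conj]
    exact_mod_cast h3
  have hsumθ : ∑ z : ↥Z, Complex.normSq ((θ : ↥Z → ℂ) z) = (Nat.card ↥Z : ℝ) := by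
    have h3 : ((∑ z : ↥Z, Complex.normSq ((θ : ↥Z → ℂ) z) : ℝ) : ℂ) = (Nat.card ↥Z : ℂ) := by
      rw [← hθsum]
      push_cast
      refine Finset.sum_congr rfl fun g _ => ?_
      rw [Helper24.char_inv hθchar, Complex.mul_conj]
    exact_mod_cast h3
  have hvanish : ∀ h : H, h ∉ Z → (χ : H → ℂ) h = 0 := by
    have hsplit := Finset.sum_filter_add_sum_filter_not (Finset.univ : Finset H)
      (fun h => h ∈ Z) (fun h => Complex.normSq ((χ : H → ℂ) h))
    have hZsum : ∑ h ∈ Finset.univ.filter (fun h : H => h ∈ Z),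
        Complex.normSq ((χ : H → ℂ) h) = (Nat.card H : ℝ) := by
      rw [Finset.sum_subtype (Finset.univ.filter (fun h : H => h ∈ Z)) (p := fun h => h ∈ Z)
        (by simp)]
      have h4 : ∀ z : ↥Z, Complex.normSq ((χ : H → ℂ) z)
          = (e : ℝ) ^ 2 * Complex.normSq ((θ : ↥Z → ℂ) z) := by
        intro z
        rw [hχθ z, Complex.normSq_mul, Complex.normSq_natCast]
        ring
      rw [Finset.sum_congr rfl (fun z _ => h4 z), ← Finset.mul_sum, hsumθ]
      have h5 : Z.index * Nat.card ↥Z = Nat.card H := Subgroup.index_mul_card Z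
      rw [← h5, ← he]
      push_cast
      ring
    rw [hZsum, hsumχ] at hsplit
    have hrest : ∑ h ∈ Finset.univ.filter (fun h : H => ¬ h ∈ Z),
        Complex.normSq ((χ : H → ℂ) h) = 0 := by linarith
    intro h hh
    have h6 := (Finset.sum_eq_zero_iff_of_nonneg
      (fun i _ => Complex.normSq_nonneg ((χ : H → ℂ) i))).1 hrest h (by simp [hh])
    exact Complex.normSq_eq_zero.1 h6
  obtain ⟨g, hg⟩ := hC.exists_generator
  obtain ⟨c, hc⟩ := QuotientGroup.mk_surjective (g : H ⧸ Z)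
  have hCpow : ∀ q ∈ C, ∃ j : ℤ, (c : H ⧸ Z) ^ j = q := by
    intro q hq
    obtain ⟨j, hj⟩ := Subgroup.mem_zpowers_iff.1 (hg ⟨q, hq⟩)
    refine ⟨j, ?_⟩
    rw [hc]
    have h1 := congrArg Subtype.val hj
    simpa using h1
  have hcentmem : ∀ h : H, (h : H ⧸ Z) * (c : H ⧸ Z) = (c : H ⧸ Z) * (h : H ⧸ Z) →
      (h : H ⧸ Z) ∈ C := by
    intro h hcomm
    have h1 : (h : H ⧸ Z) ∈ Subgroup.centralizer (C : Set (H ⧸ Z)) := by
      apply Subgroup.mem_centralizer_iff.2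
      intro q hq
      obtain ⟨j, hj⟩ := hCpow q hq
      rw [← hj]
      have hcm : Commute (c : H ⧸ Z) (h : H ⧸ Z) := hcomm.symm
      exact (Commute.zpow_left hcm j).eq
    rw [hcent] at h1
    exact h1
  have hcZ : c ∉ Z := by
    intro hcz
    have hc1 : (c : H ⧸ Z) = 1 := (QuotientGroup.eq_one_iff c).2 hcz
    apply hZ
    rw [eq_top_iff]
    intro h _
    have h1 : (h : H ⧸ Z) ∈ C := hcentmem h (by rw [hc1, mul_one, one_mul])
    obtain ⟨j, hj⟩ := hCpow _ h1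
    rw [hc1, one_zpow] at hj
    exact (QuotientGroup.eq_one_iff h).1 hj.symm
  have hkey : ∀ w : ↥Z, ∑ z : ↥Z,
      (χ : H → ℂ) ((z : H) * (c * w) * (z : H)⁻¹ * (c * w)⁻¹) = 0 := by
    intro w
    obtain ⟨c', hc'⟩ : ∃ c' : H, c' = c * w := ⟨_, rfl⟩
    rw [← hc']
    have hc'q : (c' : H ⧸ Z) = (c : H ⧸ Z) := by
      rw [hc', QuotientGroup.mk_mul, (QuotientGroup.eq_one_iff (w : H)).2 w.2, mul_one]
    have hc'Z : c' ∉ Z := by
      intro hh
      apply hcZ
      have h1 := (QuotientGroup.eq_one_iff c').2 hh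
      rw [hc'q] at h1
      exact (QuotientGroup.eq_one_iff c).1 h1
    have hstar : ∑ h : H, (χ : H → ℂ) (h * c' * h⁻¹ * c'⁻¹) = 0 := by
      have h1 := Helper25.irr_sum_conj_mul χ.2 c' c'⁻¹
      rw [hvanish c' hc'Z, mul_zero, zero_mul] at h1
      rcases mul_eq_zero.1 h1 with h | h
      · exact absurd h (Helper24.irr_one_ne_zero χ.2)
      · exact h
    have hfib := Finset.sum_fiberwise (Finset.univ : Finset H) (fun h : H => (h : H ⧸ Z))
      (fun h => (χ : H → ℂ) (h * c' * h⁻¹ * c'⁻¹))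
    rw [hstar] at hfib
    have hinner : ∀ q : H ⧸ Z, ∑ h ∈ Finset.univ.filter (fun h : H => (h : H ⧸ Z) = q),
        (χ : H → ℂ) (h * c' * h⁻¹ * c'⁻¹)
        = if q ∈ C then ∑ z : ↥Z, (χ : H → ℂ) ((z : H) * c' * (z : H)⁻¹ * c'⁻¹) else 0 := by
      intro q
      by_cases hq : q ∈ C
      · rw [if_pos hq]
        obtain ⟨j, hj⟩ := hCpow q hq
        symm
        refine Finset.sum_bij (fun z _ => (z : H) * c' ^ j) ?_ ?_ ?_ ?_
        · intro z _
          rw [Finset.mem_filter]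
          refine ⟨Finset.mem_univ _, ?_⟩
          rw [QuotientGroup.mk_mul, (QuotientGroup.eq_one_iff (z : H)).2 z.2, one_mul,
            QuotientGroup.mk_zpow, hc'q, hj]
        · intro z₁ _ z₂ _ h12
          exact Subtype.ext (mul_right_cancel h12)
        · intro h hh
          rw [Finset.mem_filter] at hh
          refine ⟨⟨h * (c' ^ j)⁻¹, ?_⟩, Finset.mem_univ _, ?_⟩
          · rw [← QuotientGroup.eq_one_iff, QuotientGroup.mk_mul, QuotientGroup.mk_inv,
              QuotientGroup.mk_zpow, hc'q, hj, hh.2, mul_inv_cancel]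
          · simp
        · intro z _
          group
      · rw [if_neg hq]
        apply Finset.sum_eq_zero
        intro h hh
        rw [Finset.mem_filter] at hh
        apply hvanish
        intro hmem
        apply hq
        rw [← hh.2]
        apply hcentmem
        have h1 := (QuotientGroup.eq_one_iff _).2 hmem
        rw [QuotientGroup.mk_mul, QuotientGroup.mk_mul, QuotientGroup.mk_mul,
          QuotientGroup.mk_inv, QuotientGroup.mk_inv, hc'q, mul_inv_eq_one] at h1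
        calc (h : H ⧸ Z) * (c : H ⧸ Z)
            = (h : H ⧸ Z) * (c : H ⧸ Z) * (h : H ⧸ Z)⁻¹ * (h : H ⧸ Z) := by group
          _ = (c : H ⧸ Z) * (h : H ⧸ Z) := by rw [h1]
    rw [Finset.sum_congr rfl (fun q _ => hinner q), ← Finset.sum_filter, Finset.sum_const,
      nsmul_eq_mul] at hfib
    rcases mul_eq_zero.1 hfib with h | h
    · exfalso
      have h1 : (Finset.univ.filter (fun q : H ⧸ Z => q ∈ C)).card ≠ 0 := by
        rw [Finset.card_ne_zero]
        exact ⟨1, by simp [C.one_mem]⟩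
      exact h1 (by exact_mod_cast h)
    · exact h
  have htot : ∑ w : ↥Z, ∑ z : ↥Z,
      (χ : H → ℂ) ((z : H) * (c * w) * (z : H)⁻¹ * (c * w)⁻¹) = 0 :=
    Finset.sum_eq_zero fun w _ => hkey w
  rw [Finset.sum_comm] at htot
  have hz : ∀ z : ↥Z, ∑ w : ↥Z,
      (χ : H → ℂ) ((z : H) * (c * w) * (z : H)⁻¹ * (c * w)⁻¹)
      = (e : ℂ) * ((Nat.card ↥Z : ℂ) * (θ : ↥Z → ℂ) z⁻¹ * (θ : ↥Z → ℂ) z
        / (θ : ↥Z → ℂ) 1) := by
    intro z
    obtain ⟨zc, hzc⟩ : ∃ zc : ↥Z, (zc : H) = c⁻¹ * z * c := ⟨⟨c⁻¹ * z * c, by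
      have h1 := (inferInstance : Z.Normal).conj_mem z z.2 c⁻¹
      simpa using h1⟩, rfl⟩
    have hθzc : (θ : ↥Z → ℂ) zc = (θ : ↥Z → ℂ) z := by
      have h1 := hχθ zc
      rw [hzc] at h1
      have h2 := hcf (z : H) c⁻¹
      rw [inv_inv] at h2
      rw [h2, hχθ z] at h1
      exact (mul_left_cancel₀ heC h1).symm
    have hterm : ∀ w : ↥Z, (χ : H → ℂ) ((z : H) * (c * w) * (z : H)⁻¹ * (c * w)⁻¹)
        = (e : ℂ) * (θ : ↥Z → ℂ) (w * z⁻¹ * w⁻¹ * zc) := by
      intro w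
      rw [← hχθ]
      have h3 : (z : H) * (c * w) * (z : H)⁻¹ * (c * w)⁻¹
          = ((z : H) * c) * (((w * z⁻¹ * w⁻¹ * zc : ↥Z) : H)) * ((z : H) * c)⁻¹ := by
        push_cast
        rw [hzc]
        group
      rw [h3, hcf]
    rw [Finset.sum_congr rfl (fun w _ => hterm w), ← Finset.mul_sum]
    have h4 := Helper25.irr_sum_conj_mul θ.2 z⁻¹ zc
    rw [hθzc] at h4
    congr 1
    rw [eq_div_iff (Helper24.irr_one_ne_zero θ.2), mul_comm, h4]
  rw [Finset.sum_congr rfl (fun z _ => hz z), ← Finset.mul_sum] at htot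
  have h5 : ∑ z : ↥Z, (Nat.card ↥Z : ℂ) * (θ : ↥Z → ℂ) z⁻¹ * (θ : ↥Z → ℂ) z
      / (θ : ↥Z → ℂ) 1 = (Nat.card ↥Z : ℂ) * (Nat.card ↥Z : ℂ) / (θ : ↥Z → ℂ) 1 := by
    rw [← hθsum, Finset.mul_sum, Finset.sum_div]
    refine Finset.sum_congr rfl fun z _ => ?_
    ring
  rw [h5] at htot
  rcases mul_eq_zero.1 htot with h | h
  · exact heC h
  · rw [div_eq_zero_iff] at h
    rcases h with h | h
    · exact hZC (mul_self_eq_zero.1 h)
    · exact Helper24.irr_one_ne_zero θ.2 h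

end Cfsg.Agent.S4565
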