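import Cfsg.Statements.S4566
-- import your own Cfsg.Agent.* helpers here
import Cfsg.Agent.Helper24.Schur

set_option autoImplicit false
open Cfsg

namespace Cfsg.Agent.S4566

/-- Let N be a central subgroup of the finite group G, ψ a faithful irreducible (hence degree-one) character of N, and χ an irreducible character of G whose restriction to N contains ψ. If g ∈ G and some x ∈ G has commutator x⁻¹ g⁻¹ x g in N but different from 1, then χ g = 0. -/
theorem result {G : Type*} [Group G] [Fintype G] (N : Subgroup G) [Fintype N] (hN : N ≤ Subgroup.center G) (ψ : Cfsg.IrrCharacter ↥N) (hfaith : ∀ n : ↥N, (ψ : ↥N → ℂ) n = (ψ : ↥N → ℂ) 1 → n = 1) (χ : Cfsg.IrrCharacter G) (hover : Cfsg.classInner (fun n : ↥N => (χ : G → ℂ) n) (ψ : ↥N → ℂ) ≠ 0) (g x : G) (hcomm : x⁻¹ * g⁻¹ * x * g ∈ N) (hne : x⁻¹ * g⁻¹ * x * g ≠ 1) : (χ : G → ℂ) g = 0 := by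
  classical
  by_contra hχg
  have hzc : x⁻¹ * g⁻¹ * x * g ∈ Subgroup.center G := hN hcomm
  obtain ⟨c, hc, -⟩ := Cfsg.Agent.Helper24.char_central_mul χ.2 _ hzc
  have hg : x⁻¹ * g * x * (x⁻¹ * g⁻¹ * x * g) = g := by group
  have h1 : (χ : G → ℂ) g = c * (χ : G → ℂ) g := by
    have h2 := hc (x⁻¹ * g * x)
    rw [hg] at h2
    have h3 := Cfsg.Agent.Helper24.char_conj_invariant
      (Cfsg.Agent.Helper24.isCharacter_of_irr χ.2) g x⁻¹
    rw [inv_inv] at h3
    rw [h3] at h2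
    exact h2
  have hc1 : c = 1 := by
    have : (1 - c) * (χ : G → ℂ) g = 0 := by linear_combination h1
    rcases mul_eq_zero.mp this with h | h
    · linear_combination -h
    · exact absurd h hχg
  have hzN : (⟨x⁻¹ * g⁻¹ * x * g, hcomm⟩ : N) ∈ Subgroup.center N := by
    rw [Subgroup.mem_center_iff]
    intro n
    apply Subtype.ext
    have := Subgroup.mem_center_iff.mp hzc (n : G)
    simpa using this
  obtain ⟨c', hc', -⟩ := Cfsg.Agent.Helper24.char_central_mul ψ.2 _ hzN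
  have hS : ∑ n : N, (χ : G → ℂ) n * (starRingEnd ℂ) ((ψ : N → ℂ) n) ≠ 0 := by
    intro h
    apply hover
    unfold Cfsg.classInner
    rw [h, mul_zero]
  have hre : ∑ n : N, (χ : G → ℂ) n * (starRingEnd ℂ) ((ψ : N → ℂ) n)
      = ∑ n : N, (χ : G → ℂ) ((n * ⟨x⁻¹ * g⁻¹ * x * g, hcomm⟩ : N) : G)
          * (starRingEnd ℂ) ((ψ : N → ℂ) (n * ⟨x⁻¹ * g⁻¹ * x * g, hcomm⟩)) :=
    (Fintype.sum_equiv (Equiv.mulRight (⟨x⁻¹ * g⁻¹ * x * g, hcomm⟩ : N)) _ _
      (fun n => rfl)).symm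
  have hre2 : ∑ n : N, (χ : G → ℂ) ((n * ⟨x⁻¹ * g⁻¹ * x * g, hcomm⟩ : N) : G)
          * (starRingEnd ℂ) ((ψ : N → ℂ) (n * ⟨x⁻¹ * g⁻¹ * x * g, hcomm⟩))
      = (starRingEnd ℂ) c' * ∑ n : N, (χ : G → ℂ) n * (starRingEnd ℂ) ((ψ : N → ℂ) n) := by
    rw [Finset.mul_sum]
    refine Finset.sum_congr rfl fun n _ => ?_
    rw [hc' n, Subgroup.coe_mul, hc (n : G), hc1, map_mul]
    ring
  rw [hre2] at hre
  have hc'1 : (starRingEnd ℂ) c' = 1 := by
    have : (1 - (starRingEnd ℂ) c')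
        * ∑ n : N, (χ : G → ℂ) n * (starRingEnd ℂ) ((ψ : N → ℂ) n) = 0 := by
      linear_combination hre
    rcases mul_eq_zero.mp this with h | h
    · linear_combination -h
    · exact absurd h hS
  have hc'2 : c' = 1 := by
    have := congrArg (starRingEnd ℂ) hc'1
    simpa using this
  have hψz := hc' 1
  rw [one_mul, hc'2, one_mul] at hψz
  have := hfaith _ hψz
  exact hne (congrArg Subtype.val this)

end Cfsg.Agent.S4566
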