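import Cfsg.Statements.S4567
-- import your own Cfsg.Agent.* helpers here
import Cfsg.Agent.Helper13.CentralOver

set_option autoImplicit false
open Cfsg

namespace Cfsg.Agent.S4567

/-- Let N be a central subgroup of the finite group G and ψ a faithful irreducible (hence degree-one) character of N. Call a coset g N special when every x ∈ G whose commutator x⁻¹ g⁻¹ x g lies in N actually commutes with g (this depends only on the coset). Then the number of irreducible characters of G whose restriction to N contains ψ equals the number of conjugacy classes of G/N consisting of special cosets. -/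
theorem result {G : Type*} [Group G] [Fintype G] (N : Subgroup G) [N.Normal] [Fintype N] (hN : N ≤ Subgroup.center G) (ψ : Cfsg.IrrCharacter ↥N) (hfaith : ∀ n : ↥N, (ψ : ↥N → ℂ) n = (ψ : ↥N → ℂ) 1 → n = 1) : Nat.card {χ : Cfsg.IrrCharacter G // Cfsg.classInner (fun n : ↥N => (χ : G → ℂ) n) (ψ : ↥N → ℂ) ≠ 0} = Nat.card {C : ConjClasses (G ⧸ N) // ∃ g : G, ConjClasses.mk (g : G ⧸ N) = C ∧ ∀ x : G, x⁻¹ * g⁻¹ * x * g ∈ N → x * g = g * x} := by
  classical
  haveI : Fintype (G ⧸ N) := Fintype.ofFinite _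
  have hG0 : (Nat.card G : ℂ) ≠ 0 := by exact_mod_cast Nat.card_pos.ne'
  have hN0 : (Nat.card N : ℂ) ≠ 0 := by exact_mod_cast Nat.card_pos.ne'
  have hcount := Helper13.card_irr_over_central N hN ψ hfaith
  have hs : ∑ q : G ⧸ N, (if (∃ g : G, ConjClasses.mk (g : G ⧸ N) = ConjClasses.mk q ∧
        ∀ x : G, x⁻¹ * g⁻¹ * x * g ∈ N → x * g = g * x)
        then ((Nat.card {x : G ⧸ N // IsConj x q} : ℂ))⁻¹ else 0)
      = (Nat.card {C : ConjClasses (G ⧸ N) // ∃ g : G, ConjClasses.mk (g : G ⧸ N) = C ∧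
        ∀ x : G, x⁻¹ * g⁻¹ * x * g ∈ N → x * g = g * x} : ℂ) :=
    Helper2.sum_class_weight (G := G ⧸ N)
      (fun C : ConjClasses (G ⧸ N) => ∃ g : G, ConjClasses.mk (g : G ⧸ N) = C ∧
        ∀ x : G, x⁻¹ * g⁻¹ * x * g ∈ N → x * g = g * x)
  have hfib := Helper13.sum_comp_quotient_mk N
    (fun q : G ⧸ N => if (∃ g : G, ConjClasses.mk (g : G ⧸ N) = ConjClasses.mk q ∧
        ∀ x : G, x⁻¹ * g⁻¹ * x * g ∈ N → x * g = g * x)
        then ((Nat.card {x : G ⧸ N // IsConj x q} : ℂ))⁻¹ else 0)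
  have hF : ∀ g : G, (if (∃ g' : G, ConjClasses.mk (g' : G ⧸ N) = ConjClasses.mk (g : G ⧸ N) ∧
        ∀ x : G, x⁻¹ * g'⁻¹ * x * g' ∈ N → x * g' = g' * x)
        then ((Nat.card {x : G ⧸ N // IsConj x (g : G ⧸ N)} : ℂ))⁻¹ else 0)
      = (if (∀ x : G, x⁻¹ * g⁻¹ * x * g ∈ N → x * g = g * x)
          then (Nat.card (Subgroup.centralizer ({g} : Set G)) : ℂ) else 0) / (Nat.card G : ℂ) := by
    intro g
    by_cases hsp : ∀ x : G, x⁻¹ * g⁻¹ * x * g ∈ N → x * g = g * x
    · rw [if_pos ⟨g, rfl, hsp⟩, if_pos hsp]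
      have e1 : Subgroup.centralizer ({g} : Set G)
          = (Subgroup.centralizer ({(g : G ⧸ N)} : Set (G ⧸ N))).comap (QuotientGroup.mk' N) := by
        ext x
        rw [Subgroup.mem_comap, Subgroup.mem_centralizer_singleton_iff,
          Subgroup.mem_centralizer_singleton_iff]
        constructor
        · intro h
          show (x : G ⧸ N) * (g : G ⧸ N) = (g : G ⧸ N) * (x : G ⧸ N)
          rw [← QuotientGroup.mk_mul, ← QuotientGroup.mk_mul, h]
        · intro h
          have h' : ((g * x : G) : G ⧸ N) = ((x * g : G) : G ⧸ N) := h.symm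
          rw [QuotientGroup.eq] at h'
          have h2 : x⁻¹ * g⁻¹ * x * g ∈ N := by
            have h3 : (g * x)⁻¹ * (x * g) = x⁻¹ * g⁻¹ * x * g := by group
            rwa [h3] at h'
          exact hsp x h2
      have e2 : Nat.card {x : G ⧸ N // IsConj x (g : G ⧸ N)}
          = (Subgroup.centralizer ({g} : Set G)).index := by
        rw [← Helper2.index_centralizer_eq_card_conj, e1,
          Subgroup.index_comap_of_surjective _ (QuotientGroup.mk'_surjective N)]
      have e3 := Subgroup.index_mul_card (Subgroup.centralizer ({g} : Set G))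
      rw [← e2] at e3
      have e4 : (Nat.card {x : G ⧸ N // IsConj x (g : G ⧸ N)} : ℂ)
          * (Nat.card (Subgroup.centralizer ({g} : Set G)) : ℂ) = (Nat.card G : ℂ) := by
        exact_mod_cast e3
      have e5 : (Nat.card {x : G ⧸ N // IsConj x (g : G ⧸ N)} : ℂ) ≠ 0 := by
        intro h0
        rw [h0, zero_mul] at e4
        exact hG0 e4.symm
      rw [← e4]
      field_simp
    · rw [if_neg hsp, zero_div, if_neg]
      rintro ⟨g', hC, hs'⟩
      apply hsp
      obtain ⟨c, hc⟩ := isConj_iff.1 (ConjClasses.mk_eq_mk_iff_isConj.1 hC)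
      obtain ⟨x, rfl⟩ := QuotientGroup.mk_surjective c
      have h1 : ((x * g' * x⁻¹ : G) : G ⧸ N) = (g : G ⧸ N) := hc
      rw [QuotientGroup.eq] at h1
      have h2 := Helper13.special_conj_mul N hN g' x _ h1 hs'
      have h3 : x * g' * x⁻¹ * ((x * g' * x⁻¹)⁻¹ * g) = g := by group
      rw [h3] at h2
      exact h2
  have hsum : ∑ g : G, (if (∃ g' : G, ConjClasses.mk (g' : G ⧸ N) = ConjClasses.mk (g : G ⧸ N) ∧
        ∀ x : G, x⁻¹ * g'⁻¹ * x * g' ∈ N → x * g' = g' * x)
        then ((Nat.card {x : G ⧸ N // IsConj x (g : G ⧸ N)} : ℂ))⁻¹ else 0)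
      = (∑ g : G, (if (∀ x : G, x⁻¹ * g⁻¹ * x * g ∈ N → x * g = g * x)
          then (Nat.card (Subgroup.centralizer ({g} : Set G)) : ℂ) else 0)) / (Nat.card G : ℂ) := by
    rw [Finset.sum_div]
    exact Finset.sum_congr rfl (fun g _ => hF g)
  rw [hs, hsum, ← hcount] at hfib
  have hfinal : (Nat.card {χ : Cfsg.IrrCharacter G //
      Cfsg.classInner (fun n : ↥N => (χ : G → ℂ) n) (ψ : ↥N → ℂ) ≠ 0} : ℂ)
      = (Nat.card {C : ConjClasses (G ⧸ N) // ∃ g : G, ConjClasses.mk (g : G ⧸ N) = C ∧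
        ∀ x : G, x⁻¹ * g⁻¹ * x * g ∈ N → x * g = g * x} : ℂ) := by
    apply mul_left_cancel₀ hN0
    rw [← hfib]
    field_simp
  exact_mod_cast hfinal

end Cfsg.Agent.S4567
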