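import Cfsg.Statements.S4574
-- import your own Cfsg.Agent.* helpers here
import Cfsg.Agent.Helper24.CharInv

set_option autoImplicit false
open Cfsg

namespace Cfsg.Agent.S4574

open Cfsg.Agent.Helper24

/-- Let χ be an irreducible character of the finite group G, of degree d, and let Z(χ) be the set of elements g with |χ g| = d (the centre of χ). Then χ vanishes on at least (d ^ 2 - 1) · |Z(χ)| elements of G, with equality when every value |χ g| is 0, 1 or d. -/
theorem result {G : Type*} [Group G] [Fintype G] [DecidableEq G] (χ : G → ℂ) (hχ : Cfsg.IsIrrCharacter G χ) : (Cfsg.charDegree χ ^ 2 - 1) * (Finset.univ.filter (fun g : G => ‖χ g‖ = (Cfsg.charDegree χ : ℝ))).card ≤ (Finset.univ.filter (fun g : G => χ g = 0)).card ∧ ((∀ g : G, ‖χ g‖ = 0 ∨ ‖χ g‖ = 1 ∨ ‖χ g‖ = (Cfsg.charDegree χ : ℝ)) → (Cfsg.charDegree χ ^ 2 - 1) * (Finset.univ.filter (fun g : G => ‖χ g‖ = (Cfsg.charDegree χ : ℝ))).card = (Finset.univ.filter (fun g : G => χ g = 0)).card) := by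
  classical
  have hchar := isCharacter_of_irr hχ
  have hdpos : 0 < Cfsg.charDegree χ := irr_degree_pos hχ
  generalize hd : Cfsg.charDegree χ = d at hdpos ⊢
  have hn : 0 < Nat.card G := Nat.card_pos
  generalize hn_def : Nat.card G = n at hn
  have hgn : ∀ g : G, g ^ n = 1 := fun g => by rw [← hn_def]; exact pow_card_eq_one'
  have hζ := Complex.isPrimitiveRoot_exp n hn.ne'
  generalize Complex.exp (2 * Real.pi * Complex.I / n) = ζ at hζ
  have hP : ∀ g : G, ∃ P : Polynomial ℤ, ∀ k : ℕ, χ (g ^ k) = Polynomial.aeval (ζ ^ k) P :=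
    fun g => char_poly hchar g n hn (hgn g) ζ hζ
  choose P hP using hP
  have hP1 : ∀ g : G, χ g = Polynomial.aeval ζ (P g) := by
    intro g
    have := hP g 1
    rwa [pow_one, pow_one] at this
  -- Galois stability of zeros
  have hzero : ∀ (g : G) (k : ℕ), k.Coprime n → (χ (g ^ k) = 0 ↔ χ g = 0) := by
    intro g k hk
    rw [hP g k, hP1 g]
    exact ⟨aeval_primitive_transfer hn (hζ.pow_of_coprime k hk) hζ (P g),
      aeval_primitive_transfer hn hζ (hζ.pow_of_coprime k hk) (P g)⟩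
  -- Galois stability of the centre
  have hnormF : ∀ (g : G) (j : ℕ), (‖χ (g ^ j)‖ = (d : ℝ) ↔
      Polynomial.aeval (ζ ^ j) (P g * (P g).comp (Polynomial.X ^ (n - 1))
        - Polynomial.C ((d : ℤ) ^ 2)) = 0) := by
    intro g j
    have hinv : g ^ (j * (n - 1)) = (g ^ j)⁻¹ := by
      rw [eq_inv_iff_mul_eq_one, ← pow_add, ← Nat.mul_succ, Nat.succ_eq_add_one,
        Nat.sub_add_cancel hn, mul_comm, pow_mul, hgn, one_pow]
    rw [map_sub, map_mul, Polynomial.aeval_C, Polynomial.aeval_comp, map_pow, Polynomial.aeval_X,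
      ← pow_mul, ← hP g j, ← hP g (j * (n - 1)), hinv, char_inv hchar, Complex.mul_conj,
      Complex.normSq_eq_norm_sq, sub_eq_zero]
    rw [← sq_eq_sq₀ (norm_nonneg _) (Nat.cast_nonneg _)]
    constructor
    · intro h
      rw [h]
      simp
    · intro h
      have h2 : ((‖χ (g ^ j)‖ ^ 2 : ℝ) : ℂ) = (((d : ℝ) ^ 2 : ℝ) : ℂ) := by
        rw [h]; simp
      exact_mod_cast h2
  have hnorm : ∀ (g : G) (k : ℕ), k.Coprime n → (‖χ (g ^ k)‖ = (d : ℝ) ↔ ‖χ g‖ = (d : ℝ)) := by
    intro g k hk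
    have h1 := hnormF g 1
    rw [pow_one, pow_one] at h1
    rw [hnormF g k, h1]
    exact ⟨aeval_primitive_transfer hn (hζ.pow_of_coprime k hk) hζ _,
      aeval_primitive_transfer hn hζ (hζ.pow_of_coprime k hk) _⟩
  -- the defect function
  obtain ⟨φ, hφ⟩ : ∃ φ : G → ℝ, ∀ g, φ g =
      if (χ g ≠ 0 ∧ ‖χ g‖ ≠ (d : ℝ)) then ‖χ g‖ ^ 2 - 1 else 0 := ⟨_, fun _ => rfl⟩
  obtain ⟨K, hK⟩ : ∃ K : Finset ℕ, K = (Finset.range n).filter (fun k => k.Coprime n) :=
    ⟨_, rfl⟩
  have hKmem : ∀ k ∈ K, k.Coprime n := by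
    intro k hk
    rw [hK, Finset.mem_filter] at hk
    exact hk.2
  have hφsum : ∀ g : G, 0 ≤ ∑ k ∈ K, φ (g ^ k) := by
    intro g
    by_cases hR : (χ g ≠ 0 ∧ ‖χ g‖ ≠ (d : ℝ))
    · have h1 : ∀ k ∈ K, φ (g ^ k) = ‖Polynomial.aeval (ζ ^ k) (P g)‖ ^ 2 - 1 := by
        intro k hk
        have hc := hKmem k hk
        rw [hφ, if_pos, hP g k]
        exact ⟨fun h => hR.1 ((hzero g k hc).mp h), fun h => hR.2 ((hnorm g k hc).mp h)⟩
      rw [Finset.sum_congr rfl h1, hK,
        ← sum_primitiveRoots_eq hn hζ (fun η => ‖Polynomial.aeval η (P g)‖ ^ 2 - 1),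
        Finset.sum_sub_distrib, Finset.sum_const, nsmul_eq_mul, mul_one, sub_nonneg]
      apply sum_normSq_primitiveRoots_ge hn hζ
      rw [← hP1 g]
      exact hR.1
    · have h1 : ∀ k ∈ K, φ (g ^ k) = 0 := by
        intro k hk
        have hc := hKmem k hk
        rw [hφ, if_neg]
        rintro ⟨ha, hb⟩
        exact hR ⟨fun h => ha ((hzero g k hc).mpr h), fun h => hb ((hnorm g k hc).mpr h)⟩
      rw [Finset.sum_congr rfl h1, Finset.sum_const_zero]
  have hinvar : ∀ k ∈ K, ∑ g : G, φ (g ^ k) = ∑ g : G, φ g := by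
    intro k hk
    have hc : (Nat.card G).Coprime k := by
      rw [hn_def]; exact (hKmem k hk).symm
    exact Equiv.sum_comp (powCoprime hc) φ
  have hKpos : 0 < K.card := by
    rw [Finset.card_pos]
    rcases Nat.lt_or_ge 1 n with h1 | h1
    · exact ⟨1, by rw [hK, Finset.mem_filter, Finset.mem_range]; exact ⟨h1, Nat.coprime_one_left n⟩⟩
    · have : n = 1 := by omega
      subst this
      exact ⟨0, by rw [hK, Finset.mem_filter, Finset.mem_range]; exact ⟨Nat.one_pos, by decide⟩⟩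
  have hφtot : 0 ≤ ∑ g : G, φ g := by
    have h1 : (K.card : ℝ) * ∑ g : G, φ g = ∑ g : G, ∑ k ∈ K, φ (g ^ k) := by
      rw [Finset.sum_comm, Finset.sum_congr rfl hinvar, Finset.sum_const, nsmul_eq_mul]
    have h2 : 0 ≤ (K.card : ℝ) * ∑ g : G, φ g := by
      rw [h1]
      exact Finset.sum_nonneg fun g _ => hφsum g
    have h3 : (0 : ℝ) < K.card := by exact_mod_cast hKpos
    exact nonneg_of_mul_nonneg_right h2 h3
  -- counting
  have hdR : (1 : ℝ) ≤ d := by exact_mod_cast hdpos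
  have hpt : ∀ g : G, ‖χ g‖ ^ 2 - 1 = ((d : ℝ) ^ 2 - 1) * (if ‖χ g‖ = (d : ℝ) then 1 else 0)
      - (if χ g = 0 then 1 else 0) + φ g := by
    intro g
    rw [hφ]
    by_cases h0 : χ g = 0
    · have h1 : ¬ ‖χ g‖ = (d : ℝ) := by
        rw [h0, norm_zero]
        intro h
        linarith
      rw [if_neg h1, if_pos h0, if_neg (by tauto), h0, norm_zero]
      ring
    · by_cases h1 : ‖χ g‖ = (d : ℝ)
      · rw [if_pos h1, if_neg h0, if_neg (by tauto), h1]
        ring
      · rw [if_neg h1, if_neg h0, if_pos ⟨h0, h1⟩]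
        ring
  have hsum := irr_norm_sum hχ
  have hcard : (Nat.card G : ℝ) = ∑ _g : G, (1 : ℝ) := by
    rw [Finset.sum_const, Finset.card_univ, Nat.card_eq_fintype_card]
    simp
  have htot : ((Finset.univ.filter (fun g : G => χ g = 0)).card : ℝ)
      = ((d : ℝ) ^ 2 - 1) * ((Finset.univ.filter (fun g : G => ‖χ g‖ = (d : ℝ))).card : ℝ)
        + ∑ g : G, φ g := by
    rw [Finset.natCast_card_filter, Finset.natCast_card_filter, Finset.mul_sum]
    have h1 : ∑ g : G, (‖χ g‖ ^ 2 - 1) = 0 := by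
      rw [Finset.sum_sub_distrib, hsum, hcard]
      ring
    rw [Finset.sum_congr rfl (fun g _ => hpt g), Finset.sum_add_distrib,
      Finset.sum_sub_distrib] at h1
    linarith
  have hd1 : 1 ≤ d ^ 2 := Nat.one_le_pow _ _ hdpos
  constructor
  · have : (((d ^ 2 - 1) * (Finset.univ.filter (fun g : G => ‖χ g‖ = (d : ℝ))).card : ℕ) : ℝ)
        ≤ ((Finset.univ.filter (fun g : G => χ g = 0)).card : ℝ) := by
      rw [htot]
      push_cast [Nat.cast_sub hd1]
      linarith
    exact_mod_cast this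
  · intro hall
    have hφ0 : ∀ g : G, φ g = 0 := by
      intro g
      rw [hφ]
      split_ifs with hR
      · rcases hall g with h | h | h
        · exact absurd (norm_eq_zero.mp h) hR.1
        · rw [h]; ring
        · exact absurd h hR.2
      · rfl
    have : (((d ^ 2 - 1) * (Finset.univ.filter (fun g : G => ‖χ g‖ = (d : ℝ))).card : ℕ) : ℝ)
        = ((Finset.univ.filter (fun g : G => χ g = 0)).card : ℝ) := by
      rw [htot, Finset.sum_congr rfl (fun g _ => hφ0 g), Finset.sum_const_zero]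
      push_cast [Nat.cast_sub hd1]
      ring
    exact_mod_cast this

end Cfsg.Agent.S4574
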