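import Cfsg.Statements.S4580
import Cfsg.Agent.Helper25.Gallagher
open Cfsg.Agent.Helper25

set_option autoImplicit false
open Cfsg

namespace Cfsg.Agent.S4580

/-- Let N be a normal subgroup of the finite group G, M a maximal ideal of the algebraic integers containing 2, and θ a real-valued irreducible character of N of odd degree that extends to G (some irreducible character of G restricts to θ). Then θ has an extension to G lying in the principal 2-block of G. -/
theorem result {G : Type*} [Group G] [Finite G] (N : Subgroup G) [N.Normal] (M : Ideal Cfsg.AlgInt) (hM : Cfsg.IsPModular 2 M) (θ : Cfsg.IrrCharacter N) (hreal : ∀ n : N, ((θ : N → ℂ) n).im = 0) (hodd : Odd (Cfsg.charDegree (θ : N → ℂ))) (hext : ∃ η : Cfsg.IrrCharacter G, ∀ n : N, (η : G → ℂ) n = (θ : N → ℂ) n) :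
    ∃ η : Cfsg.IrrCharacter G, (∀ n : N, (η : G → ℂ) n = (θ : N → ℂ) n) ∧ η ∈ Cfsg.principalBlock M G := by
  classical
  have : Fintype G := Fintype.ofFinite G
  have : Fintype N := Fintype.ofFinite N
  have hMp : M.IsPrime := hM.2.1.isPrime
  obtain ⟨η, hη⟩ := hext
  have hbar : ∀ n : N, (barIrr η : G → ℂ) n = (η : G → ℂ) n := by
    intro n
    rw [barIrr_apply, hη]
    have h1 : (η : G → ℂ) ((n : G)⁻¹) = (θ : N → ℂ) n⁻¹ := hη n⁻¹
    rw [h1, ← char_conj_eq_inv θ n]
    exact Complex.conj_eq_iff_im.mpr (hreal n)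
  have hirrN : IsIrrCharacter N (fun n : N => (η : G → ℂ) n) := by
    have e : (fun n : N => (η : G → ℂ) n) = (θ : N → ℂ) := funext hη
    rw [e]
    exact θ.2
  obtain ⟨lam, hlamN, hlam⟩ := gallagher_unique N η.2 (barIrr η).2 hbar hirrN
  obtain ⟨a, ha⟩ : ∃ a : ℕ, a = (Nat.card G).factorization 2 := ⟨_, rfl⟩
  obtain ⟨m', hm'⟩ : ∃ m' : ℕ, m' = Nat.card G / 2 ^ a := ⟨_, rfl⟩
  have hN0 : Nat.card G ≠ 0 := Nat.card_pos.ne'
  have hGm : 2 ^ a * m' = Nat.card G := by
    rw [hm', ha]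
    exact Nat.ordProj_mul_ordCompl_eq_self _ 2
  have hm2 : ¬ 2 ∣ m' := by
    rw [hm', ha]
    exact Nat.not_dvd_ordCompl Nat.prime_two hN0
  have hm'odd : Odd m' := by
    rw [← Nat.not_even_iff_odd, even_iff_two_dvd]
    exact hm2
  obtain ⟨i, hi⟩ := hm'odd
  obtain ⟨t, ht⟩ : ∃ t : ℕ, m' + 1 = 2 * t := ⟨i + 1, by omega⟩
  have hirr' : IsIrrCharacter G (fun g => (((lam ^ t) g : ℂˣ) : ℂ) * (η : G → ℂ) g) :=
    Helper24.isIrrCharacter_hom_mul (lam ^ t) η.2
  refine ⟨⟨_, hirr'⟩, fun n => ?_, ?_⟩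
  · show (((lam ^ t) (n : G) : ℂˣ) : ℂ) * (η : G → ℂ) n = (θ : N → ℂ) n
    rw [MonoidHom.pow_apply, hlamN n n.2, one_pow, Units.val_one, one_mul, hη]
  · apply mem_principal_of_real_on_regular hM
    · intro g hg
      show (((lam ^ t) g⁻¹ : ℂˣ) : ℂ) * (η : G → ℂ) g⁻¹
        = (((lam ^ t) g : ℂˣ) : ℂ) * (η : G → ℂ) g
      have h1 : (η : G → ℂ) g⁻¹ = ((lam g : ℂˣ) : ℂ) * (η : G → ℂ) g := by
        rw [← barIrr_apply, hlam]
      have h2 : (lam g) ^ m' = 1 := by
        rw [← map_pow]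
        have h3 : g ^ m' = 1 := by
          rw [← orderOf_dvd_iff_pow_eq_one]
          have h4 : orderOf g ∣ 2 ^ a * m' := by
            rw [hGm]
            exact orderOf_dvd_natCard g
          have h5 : Nat.Coprime (orderOf g) (2 ^ a) :=
            Nat.Coprime.pow_right a ((Nat.Prime.coprime_iff_not_dvd Nat.prime_two).mpr hg).symm
          exact h5.dvd_of_dvd_mul_left h4
        rw [h3, map_one]
      have h6 : ((lam g)⁻¹) ^ t * lam g = (lam g) ^ t := by
        have h7 : (lam g) ^ (2 * t) = lam g := by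
          rw [← ht, pow_succ, h2, one_mul]
        rw [inv_pow, inv_mul_eq_iff_eq_mul, ← pow_add, ← two_mul]
        exact h7.symm
      have h8 := congrArg (fun u : ℂˣ => (u : ℂ)) h6
      simp only [Units.val_mul] at h8
      rw [h1, MonoidHom.pow_apply, MonoidHom.pow_apply, map_inv, ← mul_assoc, h8]
    · have e : charDegree (fun g => (((lam ^ t) g : ℂˣ) : ℂ) * (η : G → ℂ) g)
          = charDegree (θ : N → ℂ) := by
        unfold charDegree
        have e1 : (((lam ^ t) (1 : G) : ℂˣ) : ℂ) * (η : G → ℂ) 1 = (θ : N → ℂ) 1 := by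
          rw [map_one, Units.val_one, one_mul]
          exact hη 1
        show ⌊((((lam ^ t) (1 : G) : ℂˣ) : ℂ) * (η : G → ℂ) 1).re⌋₊ = _
        rw [e1]
      show Odd (charDegree (fun g => (((lam ^ t) g : ℂˣ) : ℂ) * (η : G → ℂ) g))
      rw [e]
      exact hodd

end Cfsg.Agent.S4580
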