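import Cfsg.Statements.S4583
import Cfsg.Agent.Helper6.PDegOver

set_option autoImplicit false
open Cfsg

namespace Cfsg.Agent.S4583

open Cfsg.Agent Cfsg.Agent.Helper6 in
/-- Let N be a normal subgroup of the finite group G, p a prime, M a maximal ideal of the algebraic integers containing p, and P a Sylow p-subgroup of G. Let θ be an irreducible character of N of degree prime to p lying in the principal p-block of N, and suppose θ extends to the subgroup NP (some irreducible character of NP restricts to θ). Then some irreducible character χ of G of degree prime to p in the principal p-block of G lies over θ (θ is a constituent of the restriction of χ to N). -/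
theorem result {G : Type*} [Group G] [Finite G] (N : Subgroup G) [N.Normal] (p : ℕ) [Fact p.Prime] (M : Ideal Cfsg.AlgInt) (hM : Cfsg.IsPModular p M) (P : Sylow p G)
    (θ : Cfsg.IrrCharacter N) (hθ : θ ∈ Cfsg.principalBlock M N) (hdeg : ¬ p ∣ Cfsg.charDegree (θ : N → ℂ))
    (hext : ∃ η : Cfsg.IrrCharacter ↥(N ⊔ (P : Subgroup G)), ∀ n : N, (η : ↥(N ⊔ (P : Subgroup G)) → ℂ) (Subgroup.inclusion le_sup_left n) = (θ : N → ℂ) n) :
    ∃ χ : Cfsg.IrrCharacter G, χ ∈ Cfsg.principalBlock M G ∧ ¬ p ∣ Cfsg.charDegree (χ : G → ℂ) ∧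
      haveI := Fintype.ofFinite N; Cfsg.classInner (fun n : N => (χ : G → ℂ) n) (θ : N → ℂ) ≠ 0 := by
  classical
  obtain ⟨η, hη⟩ := hext
  have : Fintype G := Fintype.ofFinite G
  have hp : p.Prime := hM.1
  have hidx : ¬ p ∣ (N ⊔ (P : Subgroup G)).index := by
    intro h
    exact P.not_dvd_index (dvd_trans h (Subgroup.index_dvd_of_le le_sup_right))
  have hreg : ∀ x : ↥(N ⊔ (P : Subgroup G)), ¬ p ∣ orderOf x → (x : G) ∈ N := by
    intro x hx
    obtain ⟨n, hn, q, hq, hxe⟩ : ∃ n ∈ N, ∃ q ∈ (P : Subgroup G), n * q = (x : G) := by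
      have h1 := x.2
      rw [← SetLike.mem_coe, Subgroup.normal_mul] at h1
      exact Set.mem_mul.1 h1
    have hxo : ¬ p ∣ orderOf (x : G) := by
      rw [Subgroup.orderOf_coe]
      exact hx
    obtain ⟨k, hk⟩ := P.isPGroup' ⟨q, hq⟩
    have hk' : q ^ p ^ k = 1 := by
      have h2 := congrArg (fun z : (P : Subgroup G) => (z : G)) hk
      simpa using h2
    have hmk : ((x : G) : G ⧸ N) = ((q : G) : G ⧸ N) := by
      rw [← hxe]
      apply (QuotientGroup.eq (s := N)).2
      have h3 : (n * q)⁻¹ * q = q⁻¹ * n⁻¹ * q := by group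
      rw [h3]
      have h4 := (inferInstance : N.Normal).conj_mem n⁻¹ (N.inv_mem hn) q⁻¹
      rwa [inv_inv] at h4
    have h5 : ((x : G) : G ⧸ N) ^ p ^ k = 1 := by
      rw [hmk, ← QuotientGroup.mk_pow, hk', QuotientGroup.mk_one]
    have h6 : ((x : G) : G ⧸ N) ^ orderOf (x : G) = 1 := by
      rw [← QuotientGroup.mk_pow, pow_orderOf_eq_one, QuotientGroup.mk_one]
    have h7 : orderOf ((x : G) : G ⧸ N) = 1 :=
      Nat.eq_one_of_dvd_coprimes
        (Nat.Coprime.pow_left k ((Nat.Prime.coprime_iff_not_dvd hp).2 hxo))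
        (orderOf_dvd_of_pow_eq_one h5) (orderOf_dvd_of_pow_eq_one h6)
    exact (QuotientGroup.eq_one_iff _).1 (orderOf_eq_one_iff.1 h7)
  exact @pdo_main G _ _ M p _ hM N (N ⊔ (P : Subgroup G)) le_sup_left (Fintype.ofFinite N)
    (Fintype.ofFinite _) hidx hreg θ hθ hdeg η hη

end Cfsg.Agent.S4583
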