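import Cfsg.Statements.S4586
-- import your own Cfsg.Agent.* helpers here
import Cfsg.Agent.Helper24.IndexP

set_option autoImplicit false
open Cfsg

namespace Cfsg.Agent.S4586

open Cfsg.Agent.Helper24

/-- Let p be a prime, P a finite p-group and N a normal subgroup of P of index p. For x ∈ P write c(x) for the number of elements n of N whose commutator x n x⁻¹ n⁻¹ lies in the derived subgroup N' (so c(x)/#N' is the order of the centralizer of x acting on N/N'). Then [P : P'] = p² if and only if c(x) = p·#N' for every x ∈ P outside N, and also if and only if c(x) = p·#N' for some x ∈ P outside N. -/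
theorem result {P : Type*} [Group P] [Finite P] (p : ℕ) [Fact p.Prime] (hP : IsPGroup p P) (N : Subgroup P) [N.Normal] (hN : N.index = p) :
    ((commutator P).index = p ^ 2 ↔ ∀ x : P, x ∉ N →
        Nat.card {n : N // x * n * x⁻¹ * (n : P)⁻¹ ∈ (commutator N).map N.subtype} = p * Nat.card (commutator N)) ∧
    ((commutator P).index = p ^ 2 ↔ ∃ x : P, x ∉ N ∧
        Nat.card {n : N // x * n * x⁻¹ * (n : P)⁻¹ ∈ (commutator N).map N.subtype} = p * Nat.card (commutator N)) := by
  classical
  have hp : p.Prime := Fact.out
  have key : ∀ x : P, x ∉ N → ((commutator P).index = p ^ 2 ↔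
      Nat.card {n : N // x * n * x⁻¹ * (n : P)⁻¹ ∈ (commutator N).map N.subtype}
        = p * Nat.card (commutator N)) := by
    intro x hx
    have h1 := card_mul_card_commutator_eq N x (closure_insert_eq_top N hp hN hx)
    have h2 := Subgroup.card_mul_index N
    have h3 := Subgroup.card_mul_index (commutator P)
    rw [hN] at h2
    generalize Nat.card {n : N // x * n * x⁻¹ * (n : P)⁻¹ ∈ (commutator N).map N.subtype} = c
      at h1 ⊢
    have hpos1 : 0 < Nat.card (commutator P) := Nat.card_pos
    have hpos2 : 0 < Nat.card (commutator N) := Nat.card_pos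
    have h4 : (commutator P).index * Nat.card (commutator N) = p * c := by
      apply Nat.eq_of_mul_eq_mul_left hpos1
      calc Nat.card (commutator P) * ((commutator P).index * Nat.card (commutator N))
          = (Nat.card (commutator P) * (commutator P).index) * Nat.card (commutator N) := by ring
        _ = Nat.card N * p * Nat.card (commutator N) := by rw [h3, h2]
        _ = p * (Nat.card N * Nat.card (commutator N)) := by ring
        _ = Nat.card (commutator P) * (p * c) := by rw [h1]; ring
    constructor
    · intro h
      rw [h] at h4
      have : p * (p * Nat.card (commutator N)) = p * c := by rw [← h4]; ring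
      exact (Nat.eq_of_mul_eq_mul_left hp.pos this).symm
    · intro h
      rw [h] at h4
      have : (commutator P).index * Nat.card (commutator N)
          = p ^ 2 * Nat.card (commutator N) := by rw [h4]; ring
      exact Nat.eq_of_mul_eq_mul_right hpos2 this
  have hex : ∃ x : P, x ∉ N := by
    by_contra hcon
    push Not at hcon
    have : N = ⊤ := by
      rw [eq_top_iff]; intro x _; exact hcon x
    rw [this, Subgroup.index_top] at hN
    exact hp.one_lt.ne hN
  refine ⟨⟨fun h x hx => (key x hx).mp h, fun h => ?_⟩,
    ⟨fun h => ?_, fun ⟨x, hx, h⟩ => (key x hx).mpr h⟩⟩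
  · obtain ⟨x, hx⟩ := hex
    exact (key x hx).mpr (h x hx)
  · obtain ⟨x, hx⟩ := hex
    exact ⟨x, hx, (key x hx).mp h⟩

end Cfsg.Agent.S4586
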