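import Cfsg.Statements.S4604
import Cfsg.Agent.Helper6.PowCongr
import Cfsg.Agent.S0876

set_option autoImplicit false
open Cfsg

namespace Cfsg.Agent.S4604

open Cfsg.Agent Cfsg.Agent.Helper6 in
/-- Let G be a finite group, p a prime and p^a the p-part of the order of G. Let x, y ∈ G and let x′, y′ be their p-regular parts: x′ has order prime to p, commutes with x·x′⁻¹, and x·x′⁻¹ has p-power order (likewise for y). Then x′ and y′ are conjugate in G if and only if for every irreducible character χ of G the algebraic integer χ(x)^(p^a) − χ(y)^(p^a) is p times an algebraic integer. -/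
theorem result {G : Type*} [Group G] [Finite G] (p : ℕ) [Fact p.Prime] (x y x' y' : G)
    (hx : (∃ k : ℕ, orderOf (x * x'⁻¹) = p ^ k) ∧ Commute (x * x'⁻¹) x' ∧ ¬ p ∣ orderOf x')
    (hy : (∃ k : ℕ, orderOf (y * y'⁻¹) = p ^ k) ∧ Commute (y * y'⁻¹) y' ∧ ¬ p ∣ orderOf y') :
    IsConj x' y' ↔ ∀ χ : Cfsg.IrrCharacter G, ∃ γ : Cfsg.AlgInt,
      (χ : G → ℂ) x ^ (p ^ (Nat.card G).factorization p) - (χ : G → ℂ) y ^ (p ^ (Nat.card G).factorization p) = (p : ℂ) * (γ : ℂ) := by
  classical
  have hp : p.Prime := Fact.out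
  obtain ⟨q, hq⟩ : ∃ q : ℕ, q = p ^ (Nat.card G).factorization p := ⟨_, rfl⟩
  rw [← hq]
  have hcard0 : Nat.card G ≠ 0 := Nat.card_pos.ne'
  -- the `q`-th power kills the `p`-part
  have hkill : ∀ u : G, (∃ k : ℕ, orderOf u = p ^ k) → u ^ q = 1 := by
    rintro u ⟨k, hk⟩
    have h1 : p ^ k ∣ Nat.card G := hk ▸ orderOf_dvd_natCard u
    have h2 : k ≤ (Nat.card G).factorization p :=
      (hp.pow_dvd_iff_le_factorization hcard0).mp h1
    rw [← orderOf_dvd_iff_pow_eq_one, hk, hq]
    exact pow_dvd_pow p h2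
  have hpowx : x ^ q = x' ^ q := by
    have h1 : x = (x * x'⁻¹) * x' := by group
    rw [h1, hx.2.1.mul_pow, hkill _ hx.1, one_mul]
  have hpowy : y ^ q = y' ^ q := by
    have h1 : y = (y * y'⁻¹) * y' := by group
    rw [h1, hy.2.1.mul_pow, hkill _ hy.1, one_mul]
  constructor
  · intro hconj χ
    have hχc := Helper24.isCharacter_of_irr χ.2
    obtain ⟨γx, hγx⟩ := PowCongr.char_pow_congr hp hχc x ((Nat.card G).factorization p)
    obtain ⟨γy, hγy⟩ := PowCongr.char_pow_congr hp hχc y ((Nat.card G).factorization p)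
    rw [← hq] at hγx hγy
    have h3 : (χ : G → ℂ) (x ^ q) = (χ : G → ℂ) (y ^ q) := by
      obtain ⟨c, hc⟩ := isConj_iff.mp hconj
      rw [hpowx, hpowy, ← hc, conj_pow]
      exact (Helper2.IsCharacter.isClassFunction hχc (x' ^ q) c).symm
    refine ⟨γx - γy, ?_⟩
    push_cast
    linear_combination hγx - hγy + h3
  · intro hall
    obtain ⟨M, hM⟩ := PowCongr.exists_pModular p hp
    have hMp := Helper25.IsPModular.isPrime hM
    have ha : Cfsg.IsPPart p (x' ^ q) 1 :=
      ⟨x' ^ q, one_mul _, Commute.one_left _, ⟨0, by simp⟩,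
        fun h => hx.2.2 (dvd_trans h (orderOf_pow_dvd q))⟩
    have hb : Cfsg.IsPPart p (y' ^ q) 1 :=
      ⟨y' ^ q, one_mul _, Commute.one_left _, ⟨0, by simp⟩,
        fun h => hy.2.2 (dvd_trans h (orderOf_pow_dvd q))⟩
    have hconj : IsConj (x' ^ q) (y' ^ q) := by
      have h1 := (Cfsg.Agent.S0876.result p M hM (x' ^ q) (y' ^ q) 1 1 ha hb).mpr ?_
      · simpa using h1
      · intro χ
        have hχc := Helper24.isCharacter_of_irr χ.2
        obtain ⟨γx, hγx⟩ := PowCongr.char_pow_congr hp hχc x ((Nat.card G).factorization p)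
        obtain ⟨γy, hγy⟩ := PowCongr.char_pow_congr hp hχc y ((Nat.card G).factorization p)
        rw [← hq] at hγx hγy
        obtain ⟨γ, hγ⟩ := hall χ
        have h2 : (χ : G → ℂ) (x' ^ q) - (χ : G → ℂ) (y' ^ q) =
            (((p : Cfsg.AlgInt) * (γ - γx + γy) : Cfsg.AlgInt) : ℂ) := by
          rw [← hpowx, ← hpowy]
          push_cast
          linear_combination hγ - hγx + hγy
        rw [h2, Helper25.memLocalIdeal_coe_iff hMp]
        exact M.mul_mem_right _ hM.2.2
    -- recover `x'` and `y'` as powers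
    obtain ⟨N, hN⟩ : ∃ N : ℕ, N = orderOf x' * orderOf y' := ⟨_, rfl⟩
    have hcopN : Nat.Coprime q N := by
      rw [hq, hN]
      apply Nat.Coprime.pow_left
      exact Nat.Coprime.mul_right ((Nat.Prime.coprime_iff_not_dvd hp).mpr hx.2.2)
        ((Nat.Prime.coprime_iff_not_dvd hp).mpr hy.2.2)
    have hxN : x' ^ N = 1 := by
      rw [hN, pow_mul, pow_orderOf_eq_one, one_pow]
    have hyN : y' ^ N = 1 := by
      rw [hN, mul_comm, pow_mul, pow_orderOf_eq_one, one_pow]
    by_cases hN1 : N = 1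
    · rw [hN1, pow_one] at hxN hyN
      rw [hxN, hyN]
    · have hNpos : 0 < N := by
        rw [hN]
        exact Nat.mul_pos (orderOf_pos x') (orderOf_pos y')
      have hN2 : 1 < N := by omega
      obtain ⟨m, hm⟩ := Nat.exists_mul_mod_eq_one_of_coprime hcopN hN2
      have hdecomp : q * m = N * (q * m / N) + 1 := by
        have := Nat.div_add_mod (q * m) N
        omega
      have hxm : (x' ^ q) ^ m = x' := by
        rw [← pow_mul, hdecomp, pow_add, pow_mul, hxN, one_pow, one_mul, pow_one]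
      have hym : (y' ^ q) ^ m = y' := by
        rw [← pow_mul, hdecomp, pow_add, pow_mul, hyN, one_pow, one_mul, pow_one]
      obtain ⟨c, hc⟩ := isConj_iff.mp hconj
      rw [isConj_iff]
      refine ⟨c, ?_⟩
      rw [← hxm, ← hym, ← hc, conj_pow]

end Cfsg.Agent.S4604
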