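import Cfsg.Statements.S4611
import Cfsg.Agent.Helper25.FongPrincipal
import Cfsg.Agent.Helper20.SolvPSolv
open Cfsg.Agent.Helper25
open Cfsg.Agent

set_option autoImplicit false
open Cfsg

namespace Cfsg.Agent.S4611

/-- Let G be a finite solvable group and π a nonempty set of primes, each dividing the order of G; fix for each p in π a maximal ideal M p of the algebraic integers containing p. Then the only irreducible character lying in the principal p-block for every p in π is the principal character if and only if G is generated by the subgroups O_{p'}(G), p in π (the largest normal subgroups of order prime to p). -/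
theorem result {G : Type*} [Group G] [Finite G] [Group.IsSolvable G] (π : Set ℕ) (hπ : ∀ p ∈ π, p.Prime ∧ p ∣ Nat.card G) (hne : π.Nonempty) (M : ℕ → Ideal Cfsg.AlgInt) (hM : ∀ p ∈ π, Cfsg.IsPModular p (M p)) :
    (∀ χ : Cfsg.IrrCharacter G, (∀ p ∈ π, χ ∈ Cfsg.principalBlock (M p) G) → (χ : G → ℂ) = fun _ => 1) ↔
      ⨆ p ∈ π, Cfsg.pPrimeCore p G = ⊤ := by
  classical
  have : Fintype G := Fintype.ofFinite G
  constructor
  · intro h
    by_contra hK
    obtain ⟨K, hKdef⟩ : ∃ K : Subgroup G, K = ⨆ p ∈ π, pPrimeCore p G := ⟨_, rfl⟩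
    have hKn : K.Normal := by
      rw [hKdef]
      exact Subgroup.biSup_normal π (fun p => pPrimeCore p G)
        (fun p _ => Helper11.pPrimeCore_normal p G)
    rw [← hKdef] at hK
    have := Helper24.finite_irrCharacter (G := G ⧸ K)
    have : Fintype (IrrCharacter (G ⧸ K)) := Fintype.ofFinite _
    have : Fintype (G ⧸ K) := Fintype.ofFinite _
    have hex : ∃ β : IrrCharacter (G ⧸ K), (β : G ⧸ K → ℂ) ≠ fun _ => 1 := by
      by_contra hall
      push Not at hall
      obtain ⟨g, hg⟩ : ∃ g : G, g ∉ K := by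
        by_contra hcon
        push Not at hcon
        exact hK (eq_top_iff.mpr fun x _ => hcon x)
      have hne1 : (QuotientGroup.mk g : G ⧸ K) ≠ 1 := by
        rwa [Ne, QuotientGroup.eq_one_iff]
      have h1 := coeffT_one (G := G ⧸ K) (QuotientGroup.mk g : G ⧸ K)
      rw [if_neg hne1] at h1
      unfold coeffT at h1
      have h2 : ∑ χ : IrrCharacter (G ⧸ K), (χ : G ⧸ K → ℂ) 1
          * (1 : IrrCharacter (G ⧸ K) → ℂ) χ
          * (starRingEnd ℂ) ((χ : G ⧸ K → ℂ) (QuotientGroup.mk g))
          = (Fintype.card (IrrCharacter (G ⧸ K)) : ℂ) := by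
        rw [Finset.sum_congr rfl (fun χ _ =>
          show _ = (1 : ℂ) by rw [hall χ]; simp)]
        simp
      rw [h2] at h1
      have h3 : (Fintype.card (IrrCharacter (G ⧸ K)) : ℂ) ≠ 0 := by
        exact_mod_cast (Fintype.card_pos_iff.mpr ⟨oneIrr (G ⧸ K)⟩).ne'
      exact (mul_ne_zero (inv_ne_zero (card_ne_zero_complex (G := G ⧸ K))) h3) h1
    obtain ⟨β, hβ⟩ := hex
    apply hβ
    have hχ := h (inflIrr K β) (by
      intro p hp
      have : Fact p.Prime := ⟨(hπ p hp).1⟩
      apply mem_principalBlock_of_ker (hM p hp) (Helper20.PLen.isPSolvable_of_isSolvable p)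
      intro n hn
      have hnK : n ∈ K := by
        rw [hKdef]
        exact (le_biSup (fun p => pPrimeCore p G) hp) hn
      rw [inflIrr_coe]
      simp only [Function.comp_apply]
      rw [(QuotientGroup.eq_one_iff n).mpr hnK, QuotientGroup.mk_one])
    rw [inflIrr_coe] at hχ
    funext x
    obtain ⟨g, rfl⟩ := QuotientGroup.mk_surjective x
    exact congrFun hχ g
  · intro hsup χ hχ
    have hker : ∀ g : G, (χ : G → ℂ) g = (χ : G → ℂ) 1 := by
      have hle : (⨆ p ∈ π, pPrimeCore p G) ≤ blockKerSubgroup {χ} := by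
        refine iSup₂_le fun p hp => ?_
        intro n hn
        rw [mem_blockKerSubgroup]
        intro χ' hχ'
        rw [Set.mem_singleton_iff] at hχ'
        rw [hχ']
        exact principalBlock_ker (hM p hp) χ (hχ p hp) n hn
      rw [hsup] at hle
      intro g
      exact (mem_blockKerSubgroup {χ} g).mp (hle (Subgroup.mem_top g)) χ rfl
    have h1 := row_orth χ χ
    rw [if_pos rfl] at h1
    have hdeg := Helper24.charDegree_spec (Helper24.isCharacter_of_irr χ.2)
    have h2 : ∑ g : G, (χ : G → ℂ) g * (starRingEnd ℂ) ((χ : G → ℂ) g)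
        = (Nat.card G : ℂ)
          * ((charDegree (χ : G → ℂ) : ℂ) * (charDegree (χ : G → ℂ) : ℂ)) := by
      rw [Finset.sum_congr rfl (fun g _ => by rw [hker g, hdeg, Complex.conj_natCast]),
        Finset.sum_const, Finset.card_univ, nsmul_eq_mul, Nat.card_eq_fintype_card]
    rw [h2] at h1
    have h3 : (charDegree (χ : G → ℂ) : ℂ) * (charDegree (χ : G → ℂ) : ℂ) = 1 :=
      (mul_eq_left₀ (card_ne_zero_complex (G := G))).mp h1
    have h4 : charDegree (χ : G → ℂ) * charDegree (χ : G → ℂ) = 1 := by exact_mod_cast h3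
    have h5 : charDegree (χ : G → ℂ) = 1 := Nat.eq_one_of_mul_eq_one_left h4
    funext g
    rw [hker g, hdeg, h5, Nat.cast_one]

end Cfsg.Agent.S4611
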