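import Cfsg.Statements.S4620
import Cfsg.Agent.Helper17.CharP
import Cfsg.Agent.Helper17.PPrimeCore

set_option autoImplicit false
open scoped Pointwise
open Cfsg

namespace Cfsg.Agent.S4620

open scoped Pointwise

section TI

variable {G : Type*} [Group G]

/-- a subgroup meeting its conjugates trivially -/
def TIsub (K : Subgroup G) : Prop :=
  ∀ g : G, g ∉ Subgroup.normalizer (K : Set G) → K ⊓ (MulAut.conj g • K) = ⊥

theorem mem_conj_smul (K : Subgroup G) (g x : G) :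
    x ∈ MulAut.conj g • K ↔ g⁻¹ * x * g ∈ K := by
  rw [Subgroup.mem_pointwise_smul_iff_inv_smul_mem]
  simp [MulAut.smul_def]

theorem tisub_conj {K : Subgroup G} (hK : TIsub K) (h : G) : TIsub (MulAut.conj h • K) := by
  intro g hg
  rw [Subgroup.eq_bot_iff_forall]
  intro x hx
  obtain ⟨hx1, hx2⟩ := Subgroup.mem_inf.1 hx
  rw [mem_conj_smul] at hx1 hx2
  rw [mem_conj_smul] at hx2
  have hg' : h⁻¹ * g * h ∉ Subgroup.normalizer (K : Set G) := by
    intro hn
    apply hg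
    rw [Subgroup.mem_normalizer_iff] at hn ⊢
    intro w
    rw [mem_conj_smul, mem_conj_smul, hn (h⁻¹ * w * h)]
    have : h⁻¹ * g * h * (h⁻¹ * w * h) * (h⁻¹ * g * h)⁻¹ = h⁻¹ * (g * w * g⁻¹) * h := by group
    rw [this]
  have h1 := hK _ hg'
  have h2 : h⁻¹ * x * h ∈ K ⊓ MulAut.conj (h⁻¹ * g * h) • K := by
    refine Subgroup.mem_inf.2 ⟨hx1, ?_⟩
    rw [mem_conj_smul]
    have : (h⁻¹ * g * h)⁻¹ * (h⁻¹ * x * h) * (h⁻¹ * g * h) = h⁻¹ * (g⁻¹ * x * g) * h := by group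
    rw [this]; exact hx2
  rw [h1, Subgroup.mem_bot] at h2
  have : x = h * (h⁻¹ * x * h) * h⁻¹ := by group
  rw [this, h2]; group

theorem tisub_normalizer {K : Subgroup G} (hK : TIsub K) {x y : G} (hy : y ∈ K) (hy1 : y ≠ 1)
    (hxy : x * y = y * x) : x ∈ Subgroup.normalizer (K : Set G) := by
  by_contra hx
  have h1 := hK x hx
  have h2 : y ∈ K ⊓ MulAut.conj x • K := by
    refine Subgroup.mem_inf.2 ⟨hy, ?_⟩
    rw [mem_conj_smul]
    have : x⁻¹ * y * x = y := by rw [mul_assoc, ← hxy]; group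
    rw [this]; exact hy
  rw [h1, Subgroup.mem_bot] at h2
  exact hy1 h2

theorem tisub_sub (N : Subgroup G) {P' : Subgroup G} (hP : TIsub P') (Q : Subgroup ↥N)
    (hQ : ∀ m : ↥N, m ∈ Q ↔ (m : G) ∈ P') : TIsub Q := by
  intro n hn
  have hn' : (n : G) ∉ Subgroup.normalizer (P' : Set G) := by
    intro h
    apply hn
    rw [Subgroup.mem_normalizer_iff] at h ⊢
    intro m
    rw [hQ, hQ]
    exact h m
  have h1 := hP _ hn'
  rw [Subgroup.eq_bot_iff_forall]
  intro m hm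
  obtain ⟨hm1, hm2⟩ := Subgroup.mem_inf.1 hm
  rw [mem_conj_smul, hQ] at hm2
  rw [hQ] at hm1
  have h2 : (m : G) ∈ P' ⊓ MulAut.conj (n : G) • P' := by
    refine Subgroup.mem_inf.2 ⟨hm1, ?_⟩
    rw [mem_conj_smul]
    exact hm2
  rw [h1, Subgroup.mem_bot] at h2
  exact Subtype.ext h2

theorem pCore_sub_eq_bot [Finite G] (p : ℕ) [Fact p.Prime] (N : Subgroup G) [hN : N.Normal]
    (h : Cfsg.pCore p G = ⊥) : Cfsg.pCore p ↥N = ⊥ := by
  have hO : (Cfsg.pCore p ↥N).Normal := Cfsg.Agent.Helper17.pCore_normal' p ↥N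
  have hOp : IsPGroup p (Cfsg.pCore p ↥N) := Cfsg.Agent.Helper17.pCore_isPGroup' p ↥N
  have hnorm : ((Cfsg.pCore p ↥N).map N.subtype).Normal := by
    constructor
    intro x hx g
    obtain ⟨o, ho, rfl⟩ := Subgroup.mem_map.1 hx
    have h1 : ((Cfsg.pCore p ↥N).map (MulAut.conjNormal g : MulAut ↥N).toMonoidHom)
        ≤ Cfsg.pCore p ↥N :=
      Cfsg.Agent.Helper17.le_pCore' (hO.map _ (MulEquiv.surjective _)) (hOp.map _)
    have h2 : (MulAut.conjNormal g : MulAut ↥N) o ∈ Cfsg.pCore p ↥N :=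
      h1 (Subgroup.mem_map_of_mem _ ho)
    refine Subgroup.mem_map.2 ⟨_, h2, ?_⟩
    exact MulAut.conjNormal_apply g o
  have hle : (Cfsg.pCore p ↥N).map N.subtype ≤ Cfsg.pCore p G :=
    Cfsg.Agent.Helper17.le_pCore' hnorm (hOp.map _)
  rw [h, le_bot_iff] at hle
  exact (Subgroup.map_eq_bot_iff_of_injective _ N.subtype_injective).1 hle

theorem pPrimeCore_sub_eq_bot [Finite G] (p : ℕ) (N : Subgroup G) [hN : N.Normal]
    (h : Cfsg.pPrimeCore p G = ⊥) : Cfsg.pPrimeCore p ↥N = ⊥ := by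
  have hO : (Cfsg.pPrimeCore p ↥N).Normal := Cfsg.Agent.Helper17.pPrimeCore_normal' p ↥N
  have hOc : (Nat.card (Cfsg.pPrimeCore p ↥N)).Coprime p :=
    Cfsg.Agent.Helper17.pPrimeCore_card_coprime p
  have hnorm : ((Cfsg.pPrimeCore p ↥N).map N.subtype).Normal := by
    constructor
    intro x hx g
    obtain ⟨o, ho, rfl⟩ := Subgroup.mem_map.1 hx
    have h1 : ((Cfsg.pPrimeCore p ↥N).map (MulAut.conjNormal g : MulAut ↥N).toMonoidHom)
        ≤ Cfsg.pPrimeCore p ↥N := by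
      refine Cfsg.Agent.Helper17.le_pPrimeCore' (hO.map _ (MulEquiv.surjective _)) ?_
      rw [Subgroup.card_map_of_injective (MulEquiv.injective _)]
      exact hOc
    have h2 : (MulAut.conjNormal g : MulAut ↥N) o ∈ Cfsg.pPrimeCore p ↥N :=
      h1 (Subgroup.mem_map_of_mem _ ho)
    refine Subgroup.mem_map.2 ⟨_, h2, ?_⟩
    exact MulAut.conjNormal_apply g o
  have hle : (Cfsg.pPrimeCore p ↥N).map N.subtype ≤ Cfsg.pPrimeCore p G := by
    refine Cfsg.Agent.Helper17.le_pPrimeCore' hnorm ?_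
    rw [Subgroup.card_map_of_injective N.subtype_injective]
    exact hOc
  rw [h, le_bot_iff] at hle
  exact (Subgroup.map_eq_bot_iff_of_injective _ N.subtype_injective).1 hle

theorem p_dvd_card_normal [Finite G] (p : ℕ) [hp : Fact p.Prime]
    (hOp' : Cfsg.pPrimeCore p G = ⊥)
    (K : Subgroup G) (hK : K.Normal) (hK1 : K ≠ ⊥) : p ∣ Nat.card K := by
  by_contra hnd
  have hc : (Nat.card K).Coprime p := ((Nat.Prime.coprime_iff_not_dvd hp.out).2 hnd).symm
  have := Cfsg.Agent.Helper17.le_pPrimeCore' hK hc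
  rw [hOp', le_bot_iff] at this
  exact hK1 this

theorem sylow_not_normal [Finite G] (p : ℕ) [hp : Fact p.Prime] (hOp : Cfsg.pCore p G = ⊥)
    (hdvd : p ∣ Nat.card G) (Q : Sylow p G) : ¬ (Q : Subgroup G).Normal := by
  intro hn
  have h1 := Cfsg.Agent.Helper17.le_pCore' hn Q.2
  rw [hOp, le_bot_iff] at h1
  exact Q.ne_bot_of_dvd_card hdvd h1

theorem exists_mem_sylow_of_dvd [Finite G] (p : ℕ) [hp : Fact p.Prime] (K : Subgroup G)
    [hK : K.Normal] (hdvd : p ∣ Nat.card K) (P' : Sylow p G) :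
    ∃ y ∈ K, y ∈ (P' : Subgroup G) ∧ y ≠ 1 := by
  obtain ⟨k, hk⟩ := exists_prime_orderOf_dvd_card' p hdvd
  have hk' : orderOf (k : G) = p := by rw [Subgroup.orderOf_coe]; exact hk
  have hpg : IsPGroup p (Subgroup.zpowers (k : G)) :=
    IsPGroup.of_card (n := 1) (by rw [Nat.card_zpowers, hk', pow_one])
  obtain ⟨P'', hP''⟩ := hpg.exists_le_sylow
  obtain ⟨g, hg⟩ := MulAction.exists_smul_eq G P'' P'
  refine ⟨g * k * g⁻¹, hK.conj_mem _ k.2 g, ?_, ?_⟩
  · rw [← hg, Sylow.coe_subgroup_smul, mem_conj_smul]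
    have : g⁻¹ * (g * (k : G) * g⁻¹) * g = k := by group
    rw [this]
    exact hP'' (Subgroup.mem_zpowers _)
  · intro h
    have h3 : (k : G) = 1 := by
      have h2 : (k : G) = g⁻¹ * (g * (k : G) * g⁻¹) * g := by group
      rw [h2, h]; group
    rw [h3, orderOf_one] at hk'
    exact hp.out.one_lt.ne hk'

theorem normal_inf_ne_bot [Finite G] (p : ℕ) [hp : Fact p.Prime] (hOp : Cfsg.pCore p G = ⊥)
    (hOp' : Cfsg.pPrimeCore p G = ⊥)
    (hTI : ∀ P : Sylow p G, TIsub (P : Subgroup G))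
    (K₁ K₂ : Subgroup G) (h1 : K₁.Normal) (h2 : K₂.Normal) (hK₁ : K₁ ≠ ⊥) (hK₂ : K₂ ≠ ⊥) :
    K₁ ⊓ K₂ ≠ ⊥ := by
  intro hdis
  have hd1 : p ∣ Nat.card K₁ := p_dvd_card_normal p hOp' K₁ h1 hK₁
  have hd2 : p ∣ Nat.card K₂ := p_dvd_card_normal p hOp' K₂ h2 hK₂
  obtain ⟨Q⟩ : Nonempty (Sylow p ↥K₁) := inferInstance
  have hQn : ¬ (Q : Subgroup ↥K₁).Normal := by
    haveI := h1
    exact sylow_not_normal p (pCore_sub_eq_bot p K₁ hOp) hd1 Q
  obtain ⟨P', hP'⟩ := Sylow.exists_comap_subtype_eq Q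
  have hQmem : ∀ m : ↥K₁, m ∈ (Q : Subgroup ↥K₁) ↔ (m : G) ∈ (P' : Subgroup G) := by
    intro m
    rw [← hP']
    exact Subgroup.mem_comap
  haveI := h2
  obtain ⟨y, hyK, hyP, hy1⟩ := exists_mem_sylow_of_dvd p K₂ hd2 P'
  apply hQn
  rw [← Subgroup.normalizer_eq_top_iff, eq_top_iff]
  intro n _
  have hcomm : Commute (n : G) y :=
    Subgroup.commute_of_normal_of_disjoint K₁ K₂ h1 h2 (disjoint_iff.2 hdis) n y n.2 hyK
  have hn : (n : G) ∈ Subgroup.normalizer ((P' : Subgroup G) : Set G) :=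
    tisub_normalizer (hTI P') hyP hy1 hcomm.eq
  rw [Subgroup.mem_normalizer_iff] at hn ⊢
  intro m
  rw [hQmem, hQmem]
  exact hn m

end TI

/-- Let H be a finite group with no nontrivial normal p-subgroup and no nontrivial normal subgroup of order prime to p, whose Sylow p-subgroup P is nontrivial and a trivial-intersection set (P meets its conjugates by elements outside N_H(P) trivially). Then H has a unique minimal normal subgroup N; N is non-abelian simple with trivial centralizer in H (so H embeds in Aut(N)), and a Sylow p-subgroup of N is again a nontrivial trivial-intersection set in N. -/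
theorem result {H : Type*} [Group H] [Finite H] (p : ℕ) [Fact p.Prime] (hOp : Cfsg.pCore p H = ⊥) (hOp' : Cfsg.pPrimeCore p H = ⊥) (P : Sylow p H) (hP1 : (P : Subgroup H) ≠ ⊥)
    (hTI : ∀ g : H, g ∉ Subgroup.normalizer ((P : Subgroup H) : Set H) → (P : Subgroup H) ⊓ (MulAut.conj g • (P : Subgroup H)) = ⊥) :
    ∃ N : Subgroup H, N.Normal ∧ N ≠ ⊥ ∧ (∀ K : Subgroup H, K.Normal → K ≠ ⊥ → N ≤ K) ∧
      IsSimpleGroup N ∧ ¬ IsMulCommutative N ∧ Subgroup.centralizer (N : Set H) = ⊥ ∧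
      ∀ Q : Sylow p N, (Q : Subgroup N) ≠ ⊥ ∧
        ∀ n : N, n ∉ Subgroup.normalizer ((Q : Subgroup N) : Set N) → (Q : Subgroup N) ⊓ (MulAut.conj n • (Q : Subgroup N)) = ⊥ := by
  classical
have hTI' : TIsub (P : Subgroup H) := hTI
have hTIall : ∀ P' : Sylow p H, TIsub (P' : Subgroup H) := by
  intro P'
  obtain ⟨g, hg⟩ := MulAction.exists_smul_eq H P P'
  rw [← hg, Sylow.coe_subgroup_smul]
  exact tisub_conj hTI' g
obtain ⟨N, ⟨hNn, hN1⟩, hmin⟩ := Set.exists_min_image {K : Subgroup H | K.Normal ∧ K ≠ ⊥}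
  (fun K => Nat.card K) (Set.toFinite _)
  ⟨⊤, (inferInstance : (⊤ : Subgroup H).Normal), fun h => hP1 (le_bot_iff.1 (h ▸ le_top))⟩
haveI := hNn
have huniq : ∀ K : Subgroup H, K.Normal → K ≠ ⊥ → N ≤ K := by
  intro K hK hK1
  have h1 := normal_inf_ne_bot p hOp hOp' hTIall N K hNn hK hN1 hK1
  have h2 : (N ⊓ K).Normal := by
    haveI := hK; infer_instance
  have h3 := hmin (N ⊓ K) ⟨h2, h1⟩
  have h4 : N ⊓ K = N := Subgroup.eq_of_le_of_card_ge inf_le_left h3
  exact inf_eq_left.1 h4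
have hNOp : Cfsg.pCore p ↥N = ⊥ := pCore_sub_eq_bot p N hOp
have hNOp' : Cfsg.pPrimeCore p ↥N = ⊥ := pPrimeCore_sub_eq_bot p N hOp'
have hNdvd : p ∣ Nat.card N := p_dvd_card_normal p hOp' N hNn hN1
have hNTI : ∀ Q : Sylow p ↥N, TIsub (Q : Subgroup ↥N) := by
  intro Q
  obtain ⟨P', hP'⟩ := Sylow.exists_comap_subtype_eq Q
  refine tisub_sub N (hTIall P') (Q : Subgroup ↥N) ?_
  intro m
  rw [← hP']
  exact Subgroup.mem_comap
have hNnt : Nontrivial ↥N := (Subgroup.nontrivial_iff_ne_bot N).2 hN1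
have hsimple : IsSimpleGroup ↥N := by
  refine { toNontrivial := hNnt, eq_bot_or_eq_top_of_normal := ?_ }
  intro M hM
  by_contra hcon
  push Not at hcon
  obtain ⟨hMb, hMt⟩ := hcon
  obtain ⟨M₀, ⟨hM₀n, hM₀1⟩, hmin₀⟩ := Set.exists_min_image {K : Subgroup ↥N | K.Normal ∧ K ≠ ⊥}
    (fun K => Nat.card K) (Set.toFinite _) ⟨M, hM, hMb⟩
  have hM₀t : M₀ ≠ ⊤ := by
    intro h
    have h1 := hmin₀ M ⟨hM, hMb⟩
    rw [h] at h1
    exact hMt (Subgroup.eq_of_le_of_card_ge le_top h1)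
  by_cases hall : ∀ g : H, M₀.map (MulAut.conjNormal g : MulAut ↥N).toMonoidHom = M₀
  · have hn : (M₀.map N.subtype).Normal := by
      constructor
      intro x hx g
      obtain ⟨m, hm, rfl⟩ := Subgroup.mem_map.1 hx
      have h2 : (MulAut.conjNormal g : MulAut ↥N) m ∈ M₀ := by
        have := Subgroup.mem_map_of_mem (MulAut.conjNormal g : MulAut ↥N).toMonoidHom hm
        rw [hall g] at this
        exact this
      refine Subgroup.mem_map.2 ⟨_, h2, ?_⟩
      exact MulAut.conjNormal_apply g m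
    have h1 : M₀.map N.subtype ≠ ⊥ := by
      intro h
      exact hM₀1 ((Subgroup.map_eq_bot_iff_of_injective _ N.subtype_injective).1 h)
    have h2 := huniq _ hn h1
    apply hM₀t
    rw [eq_top_iff]
    intro n _
    obtain ⟨m, hm, hmn⟩ := Subgroup.mem_map.1 (h2 n.2)
    have : m = n := Subtype.ext hmn
    rw [← this]; exact hm
  · push Not at hall
    obtain ⟨g, hg⟩ := hall
    have hM₂n : (M₀.map (MulAut.conjNormal g : MulAut ↥N).toMonoidHom).Normal :=
      hM₀n.map _ (MulEquiv.surjective _)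
    have hM₂1 : M₀.map (MulAut.conjNormal g : MulAut ↥N).toMonoidHom ≠ ⊥ := by
      intro h
      exact hM₀1 ((Subgroup.map_eq_bot_iff_of_injective _ (MulEquiv.injective _)).1 h)
    have hcard : Nat.card (M₀.map (MulAut.conjNormal g : MulAut ↥N).toMonoidHom) = Nat.card M₀ :=
      Subgroup.card_map_of_injective (MulEquiv.injective _)
    have h1 := normal_inf_ne_bot p hNOp hNOp' hNTI M₀ _ hM₀n hM₂n hM₀1 hM₂1
    have h2 : (M₀ ⊓ M₀.map (MulAut.conjNormal g : MulAut ↥N).toMonoidHom).Normal := by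
      haveI := hM₀n; haveI := hM₂n; infer_instance
    have h3 := hmin₀ _ ⟨h2, h1⟩
    have h4 : M₀ ⊓ M₀.map (MulAut.conjNormal g : MulAut ↥N).toMonoidHom = M₀ :=
      Subgroup.eq_of_le_of_card_ge inf_le_left h3
    have h5 : M₀ ≤ M₀.map (MulAut.conjNormal g : MulAut ↥N).toMonoidHom := inf_eq_left.1 h4
    exact hg (Subgroup.eq_of_le_of_card_ge h5 hcard.le).symm
have hnc : ¬ IsMulCommutative ↥N := by
  intro hc
  obtain ⟨Q⟩ : Nonempty (Sylow p ↥N) := inferInstance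
  refine sylow_not_normal p hNOp hNdvd Q ?_
  constructor
  intro x hx g
  have : g * x * g⁻¹ = x := by
    rw [hc.is_comm.comm g x]; group
  rw [this]; exact hx
have hcent : Subgroup.centralizer (N : Set H) = ⊥ := by
  by_contra hC
  have hCn : (Subgroup.centralizer (N : Set H)).Normal := inferInstance
  have h1 := huniq _ hCn hC
  apply hnc
  refine ⟨⟨fun a b => ?_⟩⟩
  apply Subtype.ext
  exact Subgroup.mem_centralizer_iff.1 (h1 b.2) a.1 a.2
exact ⟨N, hNn, hN1, huniq, hsimple, hnc, hcent, fun Q => ⟨Q.ne_bot_of_dvd_card hNdvd, hNTI Q⟩⟩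

end Cfsg.Agent.S4620
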