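import Cfsg.Statements.S4744
-- import your own Cfsg.Agent.* helpers here
import Cfsg.Agent.S4742
import Cfsg.Agent.Helper13.OddCent

set_option autoImplicit false
open Cfsg

namespace Cfsg.Agent.S4744

/-- Let p be an odd prime and G a finite group of even order divisible by p in which the centralizer of every non-identity p-element has odd order. Then either G has an irreducible character of p-defect zero, or the normalizer of every Sylow p-subgroup P of G has even order and P is abelian. -/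
theorem result {G : Type*} [Group G] [Finite G] (p : ℕ) [Fact p.Prime] (hp2 : p ≠ 2) (hpG : p ∣ Nat.card G) (h2G : 2 ∣ Nat.card G) (hC : ∀ g : G, g ≠ 1 → (∃ k : ℕ, orderOf g = p ^ k) → Odd (Nat.card ↥(Subgroup.centralizer ({g} : Set G)))) : (∃ χ : Cfsg.IrrCharacter G, (Cfsg.charDegree (χ : G → ℂ)).factorization p = (Nat.card G).factorization p) ∨ ∀ P : Sylow p G, Even (Nat.card ↥(Subgroup.normalizer ((P : Subgroup G) : Set G))) ∧ IsMulCommutative ↥(P : Subgroup G) := by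
  classical
  have hp : p.Prime := Fact.out
  haveI : Fact (Nat.Prime 2) := ⟨Nat.prime_two⟩
  by_contra hcon
  have hC' : ∀ g : G, g ≠ 1 → (∃ k : ℕ, orderOf g = p ^ k) →
      ¬ 2 ∣ Nat.card ↥(Subgroup.centralizer ({g} : Set G)) := by
    intro g hg1 hgk h2
    exact (Nat.not_even_iff_odd.mpr (hC g hg1 hgk)) (even_iff_two_dvd.mpr h2)
  have hAp := (S4742.result p 2 hp2 hpG h2G hC').resolve_left (fun h => hcon (Or.inl h))
  have hfpf : ∀ (Q : Subgroup G), IsPGroup p Q → ∀ t : G, orderOf t = 2 → ∀ c : G, c ∈ Q →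
      t * c * t⁻¹ = c → c = 1 := by
    intro Q hQ t ht c hc htc
    by_contra hc1
    obtain ⟨k, hk⟩ := (IsPGroup.iff_orderOf.mp hQ) ⟨c, hc⟩
    rw [Subgroup.orderOf_mk] at hk
    have hodd := hC c hc1 ⟨k, hk⟩
    have htmem : t ∈ Subgroup.centralizer ({c} : Set G) := by
      rw [Subgroup.mem_centralizer_singleton_iff]
      calc t * c = t * c * t⁻¹ * t := by group
        _ = c * t := by rw [htc]
    have h2 := Subgroup.orderOf_dvd_natCard _ htmem
    rw [ht] at h2
    exact (Nat.not_even_iff_odd.mpr hodd) (even_iff_two_dvd.mpr h2)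
  have hmain : ∃ (P₀ : Sylow p G) (t : G), orderOf t = 2 ∧
      ∀ c : G, c ∈ (P₀ : Subgroup G) → t * c * t⁻¹ ∈ (P₀ : Subgroup G) := by
    obtain ⟨z₀, hz₀⟩ := exists_prime_orderOf_dvd_card' (G := G) 2 h2G
    have hz₀1 : z₀ ≠ 1 := by
      intro h
      rw [h, orderOf_one] at hz₀
      exact absurd hz₀ (by norm_num)
    obtain ⟨g, h, hg, hh, hu1, ku, hku⟩ := hAp z₀ hz₀1 ⟨1, by rw [hz₀, pow_one]⟩
    have hconjord : ∀ y : G, IsConj z₀ y → orderOf y = 2 := by
      intro y hy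
      obtain ⟨s, hs⟩ := isConj_iff.mp hy
      rw [← hs]
      show orderOf (MulAut.conj s z₀) = 2
      rw [(MulAut.conj s).orderOf_eq]
      exact hz₀
    have hg2 := hconjord g hg
    have hh2 := hconjord h hh
    have hginv := Helper13.inv_eq_self_of_orderOf_two g hg2
    have hhinv := Helper13.inv_eq_self_of_orderOf_two h hh2
    have hgg : g * g = 1 := by
      have h1 := mul_inv_cancel g
      rw [hginv] at h1
      exact h1
    have hgu : g * (g * h⁻¹) * g⁻¹ = (g * h⁻¹)⁻¹ := by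
      rw [hhinv, hginv, mul_inv_rev, hhinv, hginv, ← mul_assoc, hgg, one_mul]
    obtain ⟨u, hu⟩ : ∃ u : G, u = g * h⁻¹ := ⟨_, rfl⟩
    rw [← hu] at hgu hu1 hku
    have hRp : IsPGroup p (Subgroup.zpowers u) :=
      IsPGroup.of_card (n := ku) (by rw [Nat.card_zpowers, hku])
    have hRK : Subgroup.zpowers u ≤ Subgroup.centralizer ({u} : Set G) := by
      rw [Subgroup.zpowers_le]
      exact Subgroup.mem_centralizer_singleton_iff.mpr rfl
    obtain ⟨Q, hRQ, hQK, hQp, hQcard, t', ht', hnorm⟩ :=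
      Helper13.exists_involution_normalizing_sylow_centralizer p u g hgu hg2
        (hC u hu1 ⟨ku, hku⟩) _ hRK hRp
    have hinvQ := (Helper13.inverts_of_fpf_involution Q t' ht' hnorm (hfpf Q hQp t' ht')).1
    obtain ⟨P₀, hQP⟩ := hQp.exists_le_sylow
    have huQ : u ∈ Q := hRQ (Subgroup.mem_zpowers u)
    have huP : u ∈ (P₀ : Subgroup G) := hQP huQ
    haveI : Nontrivial ↥(P₀ : Subgroup G) :=
      ⟨⟨⟨u, huP⟩, 1, fun h => hu1 (congrArg Subtype.val h)⟩⟩
    haveI := IsPGroup.center_nontrivial P₀.isPGroup'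
    obtain ⟨z', hz'⟩ := exists_ne (1 : ↥(Subgroup.center ↥(P₀ : Subgroup G)))
    obtain ⟨z, hz⟩ : ∃ z : G, z = ((z' : ↥(P₀ : Subgroup G)) : G) := ⟨_, rfl⟩
    have hzP : z ∈ (P₀ : Subgroup G) := by rw [hz]; exact (z' : ↥(P₀ : Subgroup G)).2
    have hz1 : z ≠ 1 := by
      intro h
      apply hz'
      apply Subtype.ext
      apply Subtype.ext
      rw [← hz, h]
      rfl
    have hzcomm : ∀ y : G, y ∈ (P₀ : Subgroup G) → y * z = z * y := by
      intro y hy
      have h1 := Subgroup.mem_center_iff.mp z'.2 ⟨y, hy⟩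
      have h2 := congrArg Subtype.val h1
      rw [hz]
      exact h2
    have hQeq : Q = (P₀ : Subgroup G) ⊓ Subgroup.centralizer ({u} : Set G) := by
      apply Subgroup.eq_of_le_of_card_ge (le_inf hQP hQK)
      obtain ⟨n, hn⟩ := IsPGroup.iff_card.mp
        (P₀.isPGroup'.to_inf_left (K := Subgroup.centralizer ({u} : Set G)))
      rw [hn, hQcard]
      apply Nat.pow_le_pow_right hp.pos
      have hdvd : p ^ n ∣ Nat.card (Subgroup.centralizer ({u} : Set G)) := by
        rw [← hn]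
        exact Subgroup.card_dvd_of_le inf_le_right
      exact (hp.pow_dvd_iff_le_factorization Nat.card_pos.ne').mp hdvd
    have hzQ : z ∈ Q := by
      rw [hQeq]
      refine Subgroup.mem_inf.mpr ⟨hzP, ?_⟩
      rw [Subgroup.mem_centralizer_singleton_iff]
      exact (hzcomm u huP).symm
    have htz : t' * z * t'⁻¹ = z⁻¹ := hinvQ z hzQ
    obtain ⟨kz, hkz⟩ := (IsPGroup.iff_orderOf.mp P₀.isPGroup') ⟨z, hzP⟩
    rw [Subgroup.orderOf_mk] at hkz
    have hPK : (P₀ : Subgroup G) ≤ Subgroup.centralizer ({z} : Set G) := by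
      intro y hy
      rw [Subgroup.mem_centralizer_singleton_iff]
      exact hzcomm y hy
    obtain ⟨Q₂, hPQ₂, -, hQ₂p, -, t₂, ht₂, hnorm₂⟩ :=
      Helper13.exists_involution_normalizing_sylow_centralizer p z t' htz ht'
        (hC z hz1 ⟨kz, hkz⟩) _ hPK P₀.isPGroup'
    have hQ₂eq : Q₂ = (P₀ : Subgroup G) := P₀.is_maximal' hQ₂p hPQ₂
    rw [hQ₂eq] at hnorm₂
    exact ⟨P₀, t₂, ht₂, hnorm₂⟩
  obtain ⟨P₀, t, ht, hnorm⟩ := hmain
  apply hcon
  right
  intro P
  obtain ⟨g₀, hg₀⟩ := MulAction.exists_smul_eq G P₀ P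
  have ht₃ : orderOf (g₀ * t * g₀⁻¹) = 2 := by
    show orderOf (MulAut.conj g₀ t) = 2
    rw [(MulAut.conj g₀).orderOf_eq]
    exact ht
  have hmemP : ∀ c : G, c ∈ (P : Subgroup G) ↔ g₀⁻¹ * c * g₀ ∈ (P₀ : Subgroup G) := by
    intro c
    rw [← hg₀, Sylow.coe_subgroup_smul, Subgroup.mem_pointwise_smul_iff_inv_smul_mem,
      ← map_inv, MulAut.smul_def, MulAut.conj_apply, inv_inv]
  have hnorm₃ : ∀ c : G, c ∈ (P : Subgroup G) →
      (g₀ * t * g₀⁻¹) * c * (g₀ * t * g₀⁻¹)⁻¹ ∈ (P : Subgroup G) := by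
    intro c hc
    rw [hmemP] at hc ⊢
    have h1 := hnorm _ hc
    have e : g₀⁻¹ * ((g₀ * t * g₀⁻¹) * c * (g₀ * t * g₀⁻¹)⁻¹) * g₀ =
        t * (g₀⁻¹ * c * g₀) * t⁻¹ := by group
    rw [e]
    exact h1
  have hcomm := (Helper13.inverts_of_fpf_involution (P : Subgroup G) _ ht₃ hnorm₃
    (hfpf _ P.isPGroup' _ ht₃)).2
  constructor
  · rw [even_iff_two_dvd, ← ht₃]
    apply Subgroup.orderOf_dvd_natCard
    exact Subgroup.mem_normalizer_fintype hnorm₃
  · exact ⟨⟨fun a b => Subtype.ext (hcomm a b a.2 b.2)⟩⟩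

end Cfsg.Agent.S4744
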