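import Cfsg.Statements.S4746
import Cfsg.Agent.S4744
import Cfsg.Agent.Helper19.RealOdd

set_option autoImplicit false
open Cfsg

namespace Cfsg.Agent.S4746

/-- Let p be an odd prime and G a finite group of even order divisible by p in which the centralizer of every non-identity p-element has odd order. Then G has an irreducible character of p-defect zero or an irreducible character of even degree. -/
theorem result {G : Type*} [Group G] [Finite G] (p : ℕ) [Fact p.Prime] (hp2 : p ≠ 2) (hpG : p ∣ Nat.card G) (h2G : 2 ∣ Nat.card G) (hC : ∀ g : G, g ≠ 1 → (∃ k : ℕ, orderOf g = p ^ k) → Odd (Nat.card ↥(Subgroup.centralizer ({g} : Set G)))) : (∃ χ : Cfsg.IrrCharacter G, (Cfsg.charDegree (χ : G → ℂ)).factorization p = (Nat.card G).factorization p) ∨ ∃ χ : Cfsg.IrrCharacter G, Even (Cfsg.charDegree (χ : G → ℂ)) := by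
  classical
  rcases Cfsg.Agent.S4744.result p hp2 hpG h2G hC with h | h
  · exact Or.inl h
  · right
    obtain ⟨P⟩ : Nonempty (Sylow p G) := inferInstance
    obtain ⟨hev, hab⟩ := h P
    have hPne : (P : Subgroup G) ≠ ⊥ := P.ne_bot_of_dvd_card hpG
    obtain ⟨⟨x, hxP⟩, hx1'⟩ := (Subgroup.ne_bot_iff_exists_ne_one).mp hPne
    have hx1 : x ≠ 1 := fun h0 => hx1' (Subtype.ext h0)
    have hpel : ∀ y ∈ (P : Subgroup G), ∃ k : ℕ, orderOf y = p ^ k := by
      intro y hy
      obtain ⟨k, hk⟩ := (IsPGroup.iff_orderOf.mp P.isPGroup') ⟨y, hy⟩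
      exact ⟨k, by rw [← hk, Subgroup.orderOf_mk]⟩
    haveI : Fact (Nat.Prime 2) := ⟨Nat.prime_two⟩
    obtain ⟨t', ht'⟩ := exists_prime_orderOf_dvd_card' (G := ↥(Subgroup.normalizer ((P : Subgroup G) : Set G))) 2
      (even_iff_two_dvd.mp hev)
    obtain ⟨t, htN⟩ := t'
    have hto : orderOf t = 2 := by rw [← ht', Subgroup.orderOf_mk]
    have ht2 : t * t = 1 := by
      have := pow_orderOf_eq_one t
      rwa [hto, pow_two] at this
    obtain ⟨u, hu⟩ : ∃ u, u = t * x * t⁻¹ := ⟨_, rfl⟩
    have huP : u ∈ (P : Subgroup G) := by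
      rw [hu]
      exact (Subgroup.mem_normalizer_iff.mp htN x).mp hxP
    have htu : t * u * t⁻¹ = x := by
      rw [hu, show t * (t * x * t⁻¹) * t⁻¹ = (t * t) * x * (t * t)⁻¹ by group, ht2]
      simp
    have hcomm : x * u = u * x := by
      have := hab.is_comm.comm (⟨x, hxP⟩ : (P : Subgroup G)) ⟨u, huP⟩
      exact congrArg Subtype.val this
    have hy : t * (x * u) * t⁻¹ = x * u := by
      rw [show t * (x * u) * t⁻¹ = (t * x * t⁻¹) * (t * u * t⁻¹) by group, htu, ← hu, hcomm]
    have hy1 : x * u = 1 := by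
      by_contra hne
      have hyP : x * u ∈ (P : Subgroup G) := mul_mem hxP huP
      have hoddc := hC (x * u) hne (hpel _ hyP)
      have htc : t ∈ Subgroup.centralizer ({x * u} : Set G) := by
        rw [Subgroup.mem_centralizer_iff]
        intro z hz
        rw [Set.mem_singleton_iff] at hz
        rw [hz]
        exact (mul_inv_eq_iff_eq_mul.mp hy).symm
      have hdvd := Subgroup.orderOf_dvd_natCard _ htc
      rw [hto] at hdvd
      exact (Nat.not_even_iff_odd.mpr hoddc) (even_iff_two_dvd.mpr hdvd)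
    have hinv : t * x * t⁻¹ = x⁻¹ := by
      rw [← hu]
      exact eq_inv_of_mul_eq_one_right hy1
    exact Helper19.ro_exists_even_degree_of_real x t hx1 hinv (hC x hx1 (hpel x hxP))

end Cfsg.Agent.S4746
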