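import Cfsg.Statements.S4750
-- import your own Cfsg.Agent.* helpers here
import Cfsg.Agent.Helper24.TISmall

set_option autoImplicit false
open scoped Pointwise
open Cfsg

namespace Cfsg.Agent.S4750

open Cfsg.Agent.Helper24

/-- Let P be a Sylow p-subgroup of the finite group G that meets each conjugate g P g⁻¹ with g outside N_G(P) trivially, χ a character of G with χ(1)² ≤ |P|, and H a subgroup of G containing N_G(P). Then the inner product of χ with itself over G equals the inner product over H of the restriction of χ to H. -/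
theorem result {G : Type*} [Group G] [Fintype G] [DecidableEq G] (p : ℕ) [Fact p.Prime] (P : Sylow p G) (hTI : ∀ g : G, g ∉ Subgroup.normalizer ((P : Subgroup G) : Set G) → (P : Subgroup G) ⊓ (MulAut.conj g • (P : Subgroup G)) = ⊥) (χ : G → ℂ) (hχ : Cfsg.IsCharacter G χ) (hdeg : Cfsg.charDegree χ ^ 2 ≤ Nat.card ↥(P : Subgroup G)) (H : Subgroup G) [Fintype ↥H] (hH : Subgroup.normalizer ((P : Subgroup G) : Set G) ≤ H) : Cfsg.classInner χ χ = Cfsg.classInner (fun h : ↥H => χ h) (fun h : ↥H => χ h) := by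
  classical
  obtain ⟨n, ρ, rfl⟩ := hχ
  have hχ' : Cfsg.IsCharacter G ρ.character := ⟨n, ρ, rfl⟩
  have hdegn : Cfsg.charDegree ρ.character = n := by
    have h1 := charDegree_spec hχ'
    have h2 : ρ.character 1 = (n : ℂ) := by rw [Representation.char_one]; simp
    rw [h2] at h1
    exact (Nat.cast_injective h1).symm
  rw [hdegn] at hdeg
  let R : G →* Matrix (Fin n) (Fin n) ℂ :=
    { toFun := fun g => LinearMap.toMatrix' (ρ g)
      map_one' := by rw [map_one]; exact LinearMap.toMatrix'_one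
      map_mul' := fun g h => by rw [map_mul]; exact LinearMap.toMatrix'_mul _ _ }
  have hR : ∀ g, ρ.character g = (R g).trace := by
    intro g
    show LinearMap.trace ℂ (Fin n → ℂ) (ρ g) = (LinearMap.toMatrix' (ρ g)).trace
    rw [LinearMap.trace_eq_matrix_trace ℂ (Pi.basisFun ℂ (Fin n)),
      LinearMap.toMatrix_eq_toMatrix']
  have hinv : ∀ g, (starRingEnd ℂ) (ρ.character g) = (R g⁻¹).trace := by
    intro g; rw [← char_inv hχ' g, hR]
  have hRinv : ∀ g : G, R g * R g⁻¹ = 1 := fun g => by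
    rw [← map_mul, mul_inv_cancel, map_one]
  let avG : Matrix (Fin n) (Fin n) ℂ → Matrix (Fin n) (Fin n) ℂ :=
    fun T => (Nat.card G : ℂ)⁻¹ • ∑ g : G, R g * T * R g⁻¹
  let avH : Matrix (Fin n) (Fin n) ℂ → Matrix (Fin n) (Fin n) ℂ :=
    fun T => (Nat.card ↥H : ℂ)⁻¹ • ∑ h : ↥H, R (h : G) * T * R (h : G)⁻¹
  have hentry : ∀ (A B : Matrix (Fin n) (Fin n) ℂ) (i j : Fin n),
      (A * Matrix.single i j (1 : ℂ) * B) i j = A i i * B j j := by
    intro A B i j
    rw [Matrix.mul_apply, Finset.sum_eq_single j]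
    · rw [Matrix.mul_single_apply_same, mul_one]
    · intro k _ hk
      rw [Matrix.mul_single_apply_of_ne (hbj := hk), zero_mul]
    · intro h; exact absurd (Finset.mem_univ _) h
  have h3 : ∀ g : G, ρ.character g * (starRingEnd ℂ) (ρ.character g) =
      ∑ i : Fin n, ∑ j : Fin n, R g i i * R g⁻¹ j j := by
    intro g
    rw [hinv, hR, Matrix.trace, Matrix.trace, Finset.sum_mul_sum]
    rfl
  have hGinner : Cfsg.classInner ρ.character ρ.character =
      ∑ i : Fin n, ∑ j : Fin n, (avG (Matrix.single i j (1 : ℂ))) i j := by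
    have h1 : ∀ i j : Fin n, (avG (Matrix.single i j (1 : ℂ))) i j =
        (Nat.card G : ℂ)⁻¹ * ∑ g : G, R g i i * R g⁻¹ j j := by
      intro i j
      simp only [avG, Matrix.smul_apply, Matrix.sum_apply, smul_eq_mul, hentry]
    simp only [h1]
    rw [Cfsg.classInner]
    simp only [← Finset.mul_sum]
    congr 1
    rw [Finset.sum_congr rfl (fun g _ => h3 g), Finset.sum_comm]
    exact Finset.sum_congr rfl fun i _ => Finset.sum_comm
  have hHinner : Cfsg.classInner (fun h : ↥H => ρ.character h) (fun h : ↥H => ρ.character h) =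
      ∑ i : Fin n, ∑ j : Fin n, (avH (Matrix.single i j (1 : ℂ))) i j := by
    have h1 : ∀ i j : Fin n, (avH (Matrix.single i j (1 : ℂ))) i j =
        (Nat.card ↥H : ℂ)⁻¹ * ∑ h : ↥H, R (h : G) i i * R (h : G)⁻¹ j j := by
      intro i j
      simp only [avH, Matrix.smul_apply, Matrix.sum_apply, smul_eq_mul, hentry]
    simp only [h1]
    rw [Cfsg.classInner]
    simp only [← Finset.mul_sum]
    congr 1
    rw [Finset.sum_congr rfl (fun (h : ↥H) _ => h3 (h : G)), Finset.sum_comm]
    exact Finset.sum_congr rfl fun i _ => Finset.sum_comm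
  have hav : ∀ T, avH T = avG T := by
    intro T
    have hcomm : ∀ h₀ ∈ H, R h₀ * avH T = avH T * R h₀ := by
      intro h₀ hh₀
      show R h₀ * ((Nat.card ↥H : ℂ)⁻¹ • ∑ h : ↥H, R (h : G) * T * R (h : G)⁻¹) =
        ((Nat.card ↥H : ℂ)⁻¹ • ∑ h : ↥H, R (h : G) * T * R (h : G)⁻¹) * R h₀
      rw [Matrix.mul_smul, Matrix.smul_mul, Finset.mul_sum, Finset.sum_mul]
      congr 1
      refine Fintype.sum_equiv (Equiv.mulLeft (⟨h₀, hh₀⟩ : ↥H)) _ _ (fun h => ?_)
      show R h₀ * (R (h : G) * T * R (h : G)⁻¹) =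
        R (h₀ * (h : G)) * T * R (h₀ * (h : G))⁻¹ * R h₀
      rw [mul_inv_rev, map_mul, map_mul]
      simp only [mul_assoc]
      rw [← map_mul R h₀⁻¹ h₀, inv_mul_cancel, map_one, mul_one]
    have hcommG : ∀ g, R g * avH T = avH T * R g :=
      fun g => ti_commute p P hTI H hH R hdeg (avH T) hcomm g
    have h1 : avG (avH T) = avH T := by
      show (Nat.card G : ℂ)⁻¹ • ∑ g : G, R g * avH T * R g⁻¹ = avH T
      have : ∀ g : G, R g * avH T * R g⁻¹ = avH T := fun g => by
        rw [hcommG g, mul_assoc, hRinv, mul_one]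
      rw [Finset.sum_congr rfl (fun g _ => this g), Finset.sum_const, Finset.card_univ,
        ← Nat.card_eq_fintype_card, ← Nat.cast_smul_eq_nsmul ℂ, smul_smul,
        inv_mul_cancel₀ (Nat.cast_ne_zero.mpr Nat.card_pos.ne'), one_smul]
    have h2 : avG (avH T) = avG T := by
      show (Nat.card G : ℂ)⁻¹ • ∑ g : G, R g *
          ((Nat.card ↥H : ℂ)⁻¹ • ∑ h : ↥H, R (h : G) * T * R (h : G)⁻¹) * R g⁻¹ =
        (Nat.card G : ℂ)⁻¹ • ∑ g : G, R g * T * R g⁻¹
      congr 1
      have e1 : ∀ g : G, R g *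
          ((Nat.card ↥H : ℂ)⁻¹ • ∑ h : ↥H, R (h : G) * T * R (h : G)⁻¹) * R g⁻¹ =
          (Nat.card ↥H : ℂ)⁻¹ • ∑ h : ↥H, R (g * h) * T * R (g * h)⁻¹ := by
        intro g
        rw [Matrix.mul_smul, Matrix.smul_mul, Finset.mul_sum, Finset.sum_mul]
        congr 1
        refine Finset.sum_congr rfl fun h _ => ?_
        rw [mul_inv_rev, map_mul, map_mul]; simp only [mul_assoc]
      rw [Finset.sum_congr rfl (fun g _ => e1 g), ← Finset.smul_sum, Finset.sum_comm]
      have e2 : ∀ h : ↥H, ∑ g : G, R (g * h) * T * R (g * h)⁻¹ = ∑ g : G, R g * T * R g⁻¹ := by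
        intro h
        exact Fintype.sum_equiv (Equiv.mulRight (h : G)) _ _ (fun g => rfl)
      rw [Finset.sum_congr rfl (fun h _ => e2 h), Finset.sum_const, Finset.card_univ,
        ← Nat.card_eq_fintype_card, ← Nat.cast_smul_eq_nsmul ℂ, smul_smul,
        inv_mul_cancel₀ (Nat.cast_ne_zero.mpr Nat.card_pos.ne'), one_smul]
    rw [← h1, h2]
  rw [hGinner, hHinner]
  simp only [hav]

end Cfsg.Agent.S4750
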