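import Cfsg.Statements.S4754
-- import your own Cfsg.Agent.* helpers here
import Cfsg.Agent.Helper24.ClassSum

set_option autoImplicit false
open Cfsg

namespace Cfsg.Agent.S4754

open Cfsg.Agent.Helper24

/-- For elements x, y of a finite group G, the conjugacy class of x y equals the set of all products of a conjugate of x with a conjugate of y if and only if χ(1) χ(a x a⁻¹ b y b⁻¹) = χ(x) χ(y) for all a, b ∈ G and every irreducible character χ. -/
theorem result {G : Type*} [Group G] [Finite G] (x y : G) : (∀ z : G, IsConj (x * y) z ↔ ∃ a b : G, z = a * x * a⁻¹ * (b * y * b⁻¹)) ↔ ∀ (a b : G) (χ : Cfsg.IrrCharacter G), (χ : G → ℂ) 1 * (χ : G → ℂ) (a * x * a⁻¹ * (b * y * b⁻¹)) = (χ : G → ℂ) x * (χ : G → ℂ) y := by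
  classical
  have := Fintype.ofFinite G
  have hcardne : (Nat.card G : ℂ) ≠ 0 := by exact_mod_cast Nat.card_pos.ne'
  constructor
  · intro hcl a b χ
    have hclass : ∀ u v : G, IsConj u v → (χ : G → ℂ) u = (χ : G → ℂ) v := by
      intro u v huv
      obtain ⟨c, hc⟩ := isConj_iff.mp huv
      rw [← hc]
      exact (char_conj_invariant (isCharacter_of_irr χ.2) u c).symm
    have hval : ∀ a b : G, (χ : G → ℂ) (a * x * a⁻¹ * (b * y * b⁻¹)) = (χ : G → ℂ) (x * y) :=
      fun a b => (hclass _ _ ((hcl _).mpr ⟨a, b, rfl⟩)).symm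
    have hf := irr_class_sum_formula χ.2 x y
    have hsum : ∑ t : G, (χ : G → ℂ) (x * (t * y * t⁻¹))
        = (Nat.card G : ℂ) * (χ : G → ℂ) (x * y) := by
      have h1 : ∀ t : G, (χ : G → ℂ) (x * (t * y * t⁻¹)) = (χ : G → ℂ) (x * y) := by
        intro t
        have h2 := hval 1 t
        simpa using h2
      rw [Finset.sum_congr rfl (fun t _ => h1 t), Finset.sum_const, Finset.card_univ,
        Nat.card_eq_fintype_card, nsmul_eq_mul]
    rw [hsum] at hf
    rw [hval a b]
    have h3 : (Nat.card G : ℂ) * ((χ : G → ℂ) 1 * (χ : G → ℂ) (x * y))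
        = (Nat.card G : ℂ) * ((χ : G → ℂ) x * (χ : G → ℂ) y) := by
      rw [← mul_assoc (Nat.card G : ℂ) ((χ : G → ℂ) x), ← hf]
      ring
    exact mul_left_cancel₀ hcardne h3
  · intro hχ z
    constructor
    · intro hz
      obtain ⟨c, hc⟩ := isConj_iff.mp hz
      exact ⟨c, c, by rw [← hc]; group⟩
    · rintro ⟨a, b, rfl⟩
      apply isConj_of_irr_eq
      intro χ
      have h1 := hχ a b χ
      have h2 := hχ 1 1 χ
      simp only [one_mul, inv_one, mul_one] at h2
      exact mul_left_cancel₀ (irr_one_ne_zero χ.2) (h2.trans h1.symm)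

end Cfsg.Agent.S4754
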