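import Cfsg.Statements.S4755
-- import your own Cfsg.Agent.* helpers here
import Cfsg.Agent.Helper24.LinearChar

set_option autoImplicit false
open Cfsg

namespace Cfsg.Agent.S4755

open Cfsg.Agent.Helper24
open scoped commutatorElement

/-- Let x, y be non-identity elements of the finite group G such that χ(x' y') = χ(x') χ(y') for all conjugates x' of x, y' of y and every irreducible character χ. Then the conjugacy class of x y is the set of all products of a conjugate of x with a conjugate of y; every irreducible character of degree greater than 1 vanishes at x y; and the conjugacy class of x y is the coset of the commutator subgroup containing x y. -/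
theorem result {G : Type*} [Group G] [Finite G] (x y : G) (hx : x ≠ 1) (hy : y ≠ 1) (h : ∀ (a b : G) (χ : Cfsg.IrrCharacter G), (χ : G → ℂ) (a * x * a⁻¹ * (b * y * b⁻¹)) = (χ : G → ℂ) (a * x * a⁻¹) * (χ : G → ℂ) (b * y * b⁻¹)) : (∀ z : G, IsConj (x * y) z ↔ ∃ a b : G, z = a * x * a⁻¹ * (b * y * b⁻¹)) ∧ (∀ χ : Cfsg.IrrCharacter G, (χ : G → ℂ) 1 ≠ 1 → (χ : G → ℂ) (x * y) = 0) ∧ (∀ z : G, IsConj (x * y) z ↔ (x * y)⁻¹ * z ∈ commutator G) := by
  classical
  have := Fintype.ofFinite G
  have hcardne : (Nat.card G : ℂ) ≠ 0 := by exact_mod_cast Nat.card_pos.ne'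
  have hconj : ∀ (χ : Cfsg.IrrCharacter G) (u c : G),
      (χ : G → ℂ) (c * u * c⁻¹) = (χ : G → ℂ) u :=
    fun χ u c => char_conj_invariant (isCharacter_of_irr χ.2) u c
  have hval : ∀ (a b : G) (χ : Cfsg.IrrCharacter G),
      (χ : G → ℂ) (a * x * a⁻¹ * (b * y * b⁻¹)) = (χ : G → ℂ) x * (χ : G → ℂ) y := by
    intro a b χ
    rw [h a b χ, hconj, hconj]
  have hxy : ∀ χ : Cfsg.IrrCharacter G,
      (χ : G → ℂ) (x * y) = (χ : G → ℂ) x * (χ : G → ℂ) y := by
    intro χ
    have h1 := hval 1 1 χ
    simpa using h1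
  have part1 : ∀ z : G, IsConj (x * y) z ↔ ∃ a b : G, z = a * x * a⁻¹ * (b * y * b⁻¹) := by
    intro z
    constructor
    · intro hz
      obtain ⟨c, hc⟩ := isConj_iff.mp hz
      exact ⟨c, c, by rw [← hc]; group⟩
    · rintro ⟨a, b, rfl⟩
      apply isConj_of_irr_eq
      intro χ
      rw [hxy, hval]
  have part2 : ∀ χ : Cfsg.IrrCharacter G, (χ : G → ℂ) 1 ≠ 1 → (χ : G → ℂ) (x * y) = 0 := by
    intro χ hχ1
    have hf := irr_class_sum_formula χ.2 x y
    have hsum : ∑ t : G, (χ : G → ℂ) (x * (t * y * t⁻¹))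
        = (Nat.card G : ℂ) * ((χ : G → ℂ) x * (χ : G → ℂ) y) := by
      have h1 : ∀ t : G, (χ : G → ℂ) (x * (t * y * t⁻¹)) = (χ : G → ℂ) x * (χ : G → ℂ) y := by
        intro t
        have h2 := hval 1 t χ
        simpa using h2
      rw [Finset.sum_congr rfl (fun t _ => h1 t), Finset.sum_const, Finset.card_univ,
        Nat.card_eq_fintype_card, nsmul_eq_mul]
    rw [hsum] at hf
    rw [hxy]
    have h3 : ((χ : G → ℂ) 1 - 1) * ((Nat.card G : ℂ) * ((χ : G → ℂ) x * (χ : G → ℂ) y)) = 0 := by
      rw [sub_mul, hf]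
      ring
    rcases mul_eq_zero.mp h3 with h4 | h4
    · exact absurd (sub_eq_zero.mp h4) hχ1
    · exact (mul_eq_zero.mp h4).resolve_left hcardne
  refine ⟨part1, part2, ?_⟩
  have := finite_irrCharacter (G := G)
  have := Fintype.ofFinite (IrrCharacter G)
  have hcol := (Cfsg.Agent.S0145.result (x * y) (x * y)).1 (IsConj.refl _)
  rw [finsum_eq_sum_of_fintype] at hcol
  have hterm : ∀ χ : IrrCharacter G,
      (χ : G → ℂ) (x * y) * (starRingEnd ℂ) ((χ : G → ℂ) (x * y))
        = if (χ : G → ℂ) 1 = 1 then 1 else 0 := by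
    intro χ
    split_ifs with h1
    · rw [Complex.mul_conj, Complex.normSq_eq_norm_sq,
        linear_char_norm (isCharacter_of_irr χ.2) h1]
      simp
    · rw [part2 χ h1, zero_mul]
  rw [Finset.sum_congr rfl (fun χ _ => hterm χ), Finset.sum_boole] at hcol
  have hL : Nat.card (Subgroup.centralizer ({x * y} : Set G)) ≤ (commutator G).index := by
    have h5 : Nat.card (Subgroup.centralizer ({x * y} : Set G))
        = Nat.card {χ : IrrCharacter G // (χ : G → ℂ) 1 = 1} := by
      rw [Nat.card_eq_fintype_card (α := {χ : IrrCharacter G // (χ : G → ℂ) 1 = 1}),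
        Fintype.card_subtype]
      exact_mod_cast hcol.symm
    rw [h5]
    exact card_linear_le_index
  have hcls := Helper2.card_conj_mul_card_centralizer (x * y)
  have hidx := Subgroup.index_mul_card (commutator G)
  have hge : Nat.card (commutator G) ≤ Nat.card {z : G // IsConj z (x * y)} := by
    have h6 : (commutator G).index * Nat.card (commutator G)
        ≤ (commutator G).index * Nat.card {z : G // IsConj z (x * y)} := by
      rw [hidx, ← hcls, mul_comm]
      exact Nat.mul_le_mul_right _ hL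
    exact Nat.le_of_mul_le_mul_left h6 (Nat.pos_of_ne_zero Subgroup.index_ne_zero_of_finite)
  have hsub : {z : G | IsConj z (x * y)} ⊆ {z : G | (x * y)⁻¹ * z ∈ commutator G} := by
    intro z hz
    obtain ⟨c, hc⟩ := isConj_iff.mp hz
    show (x * y)⁻¹ * z ∈ commutator G
    rw [← hc]
    have h7 : (c * z * c⁻¹)⁻¹ * z = ⁅c, z⁻¹⁆ := by
      rw [commutatorElement_def]; group
    rw [h7, commutator_def]
    exact Subgroup.commutator_mem_commutator (Subgroup.mem_top _) (Subgroup.mem_top _)
  have hcardS : Nat.card {z : G | (x * y)⁻¹ * z ∈ commutator G} = Nat.card (commutator G) := by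
    apply Nat.card_congr
    exact
      { toFun := fun z => ⟨(x * y)⁻¹ * z.1, z.2⟩
        invFun := fun c => ⟨(x * y) * c.1, by
          show (x * y)⁻¹ * ((x * y) * c.1) ∈ commutator G
          rw [inv_mul_cancel_left]; exact c.2⟩
        left_inv := fun z => Subtype.ext (by
          show (x * y) * ((x * y)⁻¹ * z.1) = z.1
          group)
        right_inv := fun c => Subtype.ext (by
          show (x * y)⁻¹ * ((x * y) * c.1) = c.1
          group) }
  have heq : {z : G | IsConj z (x * y)} = {z : G | (x * y)⁻¹ * z ∈ commutator G} := by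
    apply Set.eq_of_subset_of_ncard_le hsub _ (Set.toFinite _)
    rw [← Nat.card_coe_set_eq, ← Nat.card_coe_set_eq, hcardS]
    exact hge
  intro z
  constructor
  · intro hz
    exact hsub (show IsConj z (x * y) from hz.symm)
  · intro hz
    have h8 : z ∈ {z : G | IsConj z (x * y)} := by
      rw [heq]; exact hz
    exact (show IsConj z (x * y) from h8).symm

end Cfsg.Agent.S4755
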