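import Cfsg.Statements.S4765
-- import your own Cfsg.Agent.* helpers here
import Cfsg.Agent.Helper13.PSL2Count

set_option autoImplicit false
open Cfsg

namespace Cfsg.Agent.S4765

/-- Let F be a finite field of characteristic p with at least 4 elements. Then PSL(2,F) has exactly one irreducible complex character of degree divisible by p, and its degree is the order of F. -/
theorem result (p : ℕ) [Fact p.Prime] (F : Type*) [Field F] [Fintype F] [CharP F p] (hF : 4 ≤ Fintype.card F) : Nat.card {χ : Cfsg.IrrCharacter (Matrix.ProjectiveSpecialLinearGroup (Fin 2) F) // p ∣ Cfsg.charDegree (χ : Matrix.ProjectiveSpecialLinearGroup (Fin 2) F → ℂ)} = 1 ∧ ∀ χ : Cfsg.IrrCharacter (Matrix.ProjectiveSpecialLinearGroup (Fin 2) F), p ∣ Cfsg.charDegree (χ : Matrix.ProjectiveSpecialLinearGroup (Fin 2) F → ℂ) → Cfsg.charDegree (χ : Matrix.ProjectiveSpecialLinearGroup (Fin 2) F → ℂ) = Fintype.card F := by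
  classical
  have key : ∀ χ : Cfsg.IrrCharacter (Matrix.ProjectiveSpecialLinearGroup (Fin 2) F),
      p ∣ Cfsg.charDegree (χ : Matrix.ProjectiveSpecialLinearGroup (Fin 2) F → ℂ) →
      (χ : Matrix.ProjectiveSpecialLinearGroup (Fin 2) F → ℂ) ∘
        (QuotientGroup.mk' (Subgroup.center (Matrix.SpecialLinearGroup (Fin 2) F))) =
        Helper13.stS F := fun χ h => Helper13.psl_p_singular p χ.2 h
  have hstq : ∀ χ : Cfsg.IrrCharacter (Matrix.ProjectiveSpecialLinearGroup (Fin 2) F),
      p ∣ Cfsg.charDegree (χ : Matrix.ProjectiveSpecialLinearGroup (Fin 2) F → ℂ) →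
      Cfsg.charDegree (χ : Matrix.ProjectiveSpecialLinearGroup (Fin 2) F → ℂ) =
        Fintype.card F := by
    intro χ h
    apply Helper13.charDegree_of_eq
    have h1 := congrFun (key χ h) 1
    rw [Function.comp_apply, map_one, Helper13.stS_one] at h1
    exact h1
  refine ⟨?_, hstq⟩
  rw [Nat.card_eq_one_iff_unique]
  constructor
  · constructor
    intro a b
    apply Subtype.ext
    apply Subtype.ext
    have h : (a.1 : Matrix.ProjectiveSpecialLinearGroup (Fin 2) F → ℂ) ∘
        (QuotientGroup.mk' (Subgroup.center (Matrix.SpecialLinearGroup (Fin 2) F))) =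
        (b.1 : Matrix.ProjectiveSpecialLinearGroup (Fin 2) F → ℂ) ∘
        (QuotientGroup.mk' (Subgroup.center (Matrix.SpecialLinearGroup (Fin 2) F))) :=
      (key a.1 a.2).trans (key b.1 b.2).symm
    exact (QuotientGroup.mk'_surjective _).injective_comp_right h
  · obtain ⟨β, hβ, hval⟩ := Helper13.exists_deflation_of_ker
      (Subgroup.center (Matrix.SpecialLinearGroup (Fin 2) F)) (Helper13.stS_spec (F := F)).1
      (fun z hz => Helper13.stS_center hz)
    have h1 : β 1 = (Fintype.card F : ℂ) := by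
      have h2 := hval 1
      rw [Helper13.stS_one] at h2
      exact h2
    refine ⟨⟨⟨β, hβ⟩, ?_⟩⟩
    show p ∣ Cfsg.charDegree β
    rw [Helper13.charDegree_of_eq h1]
    obtain ⟨n, -, hn⟩ := FiniteField.card F p
    rw [hn]
    exact dvd_pow_self p n.ne_zero

end Cfsg.Agent.S4765
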