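import Cfsg.Statements.S4774
-- import your own Cfsg.Agent.* helpers here
import Cfsg.Agent.Helper13.PSL2Count

set_option autoImplicit false
open Cfsg

namespace Cfsg.Agent.S4774

/-- Let F be a finite field of odd characteristic t with q > 5 elements and let S be isomorphic to PSL(2,F) or to SL(2,F). Then the vertices of the character degree graph of S are the primes dividing q(q²−1); the prime t is adjacent to no vertex; two distinct primes dividing q² − 1 are adjacent exactly when one of them is 2, or both divide q + 1, or both divide q − 1. -/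
theorem result (F : Type*) [Field F] [Fintype F] (t : ℕ) [Fact t.Prime] [CharP F t] (ht : t ≠ 2) (q : ℕ) (hq : Fintype.card F = q) (h5 : 5 < q) {S : Type*} [Group S] [Finite S] (hS : Nonempty (S ≃* Matrix.ProjectiveSpecialLinearGroup (Fin 2) F) ∨ Nonempty (S ≃* Matrix.SpecialLinearGroup (Fin 2) F)) : Cfsg.degreePrimes S = {r : ℕ | r.Prime ∧ r ∣ q * (q ^ 2 - 1)} ∧ ∀ r s : ℕ, (Cfsg.degreeGraph S).Adj r s ↔ (r ≠ s ∧ r.Prime ∧ s.Prime ∧ r ∣ q ^ 2 - 1 ∧ s ∣ q ^ 2 - 1 ∧ (r = 2 ∨ s = 2 ∨ (r ∣ q + 1 ∧ s ∣ q + 1) ∨ (r ∣ q - 1 ∧ s ∣ q - 1))) := by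
  classical
  obtain ⟨n, htp, hn⟩ := FiniteField.card F t
  have hqn : q = t ^ (n : ℕ) := by rw [← hq, hn]
  have hodd : Odd (Fintype.card F) := by
    rw [hn]
    exact Odd.pow (htp.odd_of_ne_two ht)
  have hodd' : Odd q := hq ▸ hodd
  have h5' : 5 < Fintype.card F := by omega
  have hsubSL := Helper13.charDegrees_SL2_odd_sub hodd
  rw [hq] at hsubSL
  rcases hS with ⟨⟨e⟩⟩ | ⟨⟨e⟩⟩
  · have hmem := Helper13.charDegrees_PSL2_odd_mem hodd h5'
    rw [hq] at hmem
    have hsub : ∀ d ∈ charDegrees S, d = 1 ∨ d = q ∨ d = q + 1 ∨ d = q - 1 ∨ d = (q + 1) / 2 ∨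
        d = (q - 1) / 2 := by
      intro d hd
      rw [Helper13.charDegrees_mulEquiv e] at hd
      exact hsubSL d (Helper13.charDegrees_quotient_subset _ hd)
    rw [← Helper13.charDegrees_mulEquiv e] at hmem
    exact Helper13.degGraph_odd q t n htp hqn hodd' hsub hmem.1 hmem.2.1 hmem.2.2
  · have hmem := Helper13.charDegrees_SL2_odd_mem hodd (by omega)
    rw [hq] at hmem
    rw [← Helper13.charDegrees_mulEquiv e] at hmem hsubSL
    exact Helper13.degGraph_odd q t n htp hqn hodd' hsubSL hmem.1 hmem.2.1 hmem.2.2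

end Cfsg.Agent.S4774
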