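import Cfsg.Statements.S4784
import Cfsg.Agent.Helper25.PermChar
open Cfsg.Agent.Helper25
open scoped ComplexConjugate

set_option autoImplicit false
open Cfsg

namespace Cfsg.Agent.S4784

/-- Let H be a subgroup of the finite group G and consider the permutation character of G on the cosets of H (the function induced from the principal character of H). Then exactly one irreducible constituent of it is real-valued with Frobenius–Schur indicator +1 (namely the principal character) if and only if the normal core of H has odd index in G. -/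
theorem result {G : Type*} [Group G] [Fintype G] (H : Subgroup G) : Nat.card {χ : Cfsg.IrrCharacter G // Cfsg.classInner (Cfsg.indFun H (fun _ : H => (1 : ℂ))) (χ : G → ℂ) ≠ 0 ∧ (∀ g : G, (starRingEnd ℂ) ((χ : G → ℂ) g) = (χ : G → ℂ) g) ∧ (Nat.card G : ℂ)⁻¹ * ∑ g : G, (χ : G → ℂ) (g * g) = 1} = 1 ↔ Odd H.normalCore.index := by
  classical
  have : Fintype H := Fintype.ofFinite H
  have := Helper24.finite_irrCharacter (G := G)
  have : Fintype (IrrCharacter G) := Fintype.ofFinite (IrrCharacter G)
  set π : G → ℂ := indFun H (fun _ : H => (1 : ℂ)) with hπ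
  have hπc : IsCharacter G π := Helper2.isCharacter_indFun H Helper2.isCharacter_one
  have hG0 : (Nat.card G : ℂ) ≠ 0 := by exact_mod_cast Nat.card_pos.ne'
  have hH0 : (Nat.card H : ℂ) ≠ 0 := by exact_mod_cast (Nat.card_pos (α := H)).ne'
  let triv : IrrCharacter G := ⟨fun _ => (1 : ℂ), isIrrCharacter_one⟩
  -- the trivial character belongs to the set
  have htriv1 : classInner π (triv : G → ℂ) = 1 := by
    rw [hπ, Helper2.frobenius_reciprocity H _ _ (Helper2.IsCharacter.isClassFunction
      (Helper24.isCharacter_of_irr triv.2))]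
    unfold classInner
    simp [triv, Nat.card_eq_fintype_card]
  have htrivmem : classInner π (triv : G → ℂ) ≠ 0 ∧
      (∀ g : G, (starRingEnd ℂ) ((triv : G → ℂ) g) = (triv : G → ℂ) g) ∧
      (Nat.card G : ℂ)⁻¹ * ∑ g : G, (triv : G → ℂ) (g * g) = 1 := by
    refine ⟨by rw [htriv1]; exact one_ne_zero, fun g => by simp [triv], ?_⟩
    simp [triv, Nat.card_eq_fintype_card]
  constructor
  · intro hcard
    -- uniqueness
    have huniq : ∀ ψ : IrrCharacter G, classInner π (ψ : G → ℂ) ≠ 0 →
        (∀ g : G, (starRingEnd ℂ) ((ψ : G → ℂ) g) = (ψ : G → ℂ) g) →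
        (Nat.card G : ℂ)⁻¹ * ∑ g : G, (ψ : G → ℂ) (g * g) = 1 → ψ = triv := by
      intro ψ h1 h2 h3
      obtain ⟨hss, -⟩ := (Nat.card_eq_one_iff_unique).1 hcard
      have := @Subsingleton.elim _ hss ⟨ψ, h1, h2, h3⟩ ⟨triv, htrivmem⟩
      exact congrArg Subtype.val this
    -- real part of the FS sum of π is at most 1
    have hexp := Helper2.class_fn_expansion (Helper2.IsCharacter.isClassFunction hπc)
    have hν : (Nat.card G : ℂ)⁻¹ * ∑ g : G, π (g * g) =
        ∑ ψ : IrrCharacter G, classInner π (ψ : G → ℂ) *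
          ((Nat.card G : ℂ)⁻¹ * ∑ g : G, (ψ : G → ℂ) (g * g)) := by
      have h1 : ∀ g : G, π (g * g) =
          ∑ ψ : IrrCharacter G, classInner π (ψ : G → ℂ) * (ψ : G → ℂ) (g * g) := by
        intro g
        conv_lhs => rw [hexp]
        rw [Finset.sum_apply]
        rfl
      rw [Finset.sum_congr rfl (fun g _ => h1 g), Finset.sum_comm, Finset.mul_sum]
      refine Finset.sum_congr rfl fun ψ _ => ?_
      rw [← Finset.mul_sum]; ring
    have hterm : ∀ ψ : IrrCharacter G, ψ ≠ triv →
        (classInner π (ψ : G → ℂ) *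
          ((Nat.card G : ℂ)⁻¹ * ∑ g : G, (ψ : G → ℂ) (g * g))).re ≤ 0 := by
      intro ψ hne
      obtain ⟨n, hn⟩ := Helper2.classInner_char_nat hπc (Helper24.isCharacter_of_irr ψ.2)
      rw [hn]
      by_cases hn0 : n = 0
      · rw [hn0]; simp
      have hne0 : classInner π (ψ : G → ℂ) ≠ 0 := by
        rw [hn]; exact_mod_cast hn0
      obtain ⟨hreal, hnonreal⟩ := fs_indicator ψ.2
      by_cases hr : ∀ s : G, ((ψ : G → ℂ) s).im = 0
      · rcases hreal hr with h | h
        · exact absurd (huniq ψ hne0 (fun g => Complex.conj_eq_iff_im.2 (hr g)) h) hne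
        · rw [h]; simp
      · push Not at hr
        rw [hnonreal hr]; simp
    have hle : ((Nat.card G : ℂ)⁻¹ * ∑ g : G, π (g * g)).re ≤ 1 := by
      rw [hν, Complex.re_sum, ← Finset.add_sum_erase _ _ (Finset.mem_univ triv)]
      have h1 : (classInner π (triv : G → ℂ) *
          ((Nat.card G : ℂ)⁻¹ * ∑ g : G, (triv : G → ℂ) (g * g))).re = 1 := by
        rw [htriv1, htrivmem.2.2]; simp
      rw [h1]
      have h2 : ∑ ψ ∈ Finset.univ.erase triv, (classInner π (ψ : G → ℂ) *
          ((Nat.card G : ℂ)⁻¹ * ∑ g : G, (ψ : G → ℂ) (g * g))).re ≤ 0 :=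
        Finset.sum_nonpos fun ψ hψ => hterm ψ (Finset.ne_of_mem_erase hψ)
      linarith
    rw [hπ, fs_indFun_one H] at hle
    -- count
    have hcnt : (Finset.univ.filter (fun g : G => g * g ∈ H)).card ≤ Nat.card H := by
      have h1 : (((Finset.univ.filter (fun g : G => g * g ∈ H)).card : ℂ) /
          (Nat.card H : ℂ)).re = ((Finset.univ.filter (fun g : G => g * g ∈ H)).card : ℝ) /
          (Nat.card H : ℝ) := by
        rw [← Complex.ofReal_natCast, ← Complex.ofReal_natCast, ← Complex.ofReal_div,
          Complex.ofReal_re]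
      rw [h1, div_le_one (by exact_mod_cast (Nat.card_pos (α := H)))] at hle
      exact_mod_cast hle
    have hsub : Finset.univ.filter (fun g : G => g ∈ H) ⊆
        Finset.univ.filter (fun g : G => g * g ∈ H) := by
      intro g hg
      rw [Finset.mem_filter] at hg ⊢
      exact ⟨hg.1, H.mul_mem hg.2 hg.2⟩
    have hcardH : (Finset.univ.filter (fun g : G => g ∈ H)).card = Nat.card H := by
      rw [Nat.card_eq_fintype_card, Fintype.card_subtype]
    have heq := Finset.eq_of_subset_of_card_le hsub (by rw [hcardH]; exact hcnt)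
    have hsq : ∀ g : G, g * g ∈ H → g ∈ H := by
      intro g hg
      have : g ∈ Finset.univ.filter (fun g : G => g * g ∈ H) := by
        rw [Finset.mem_filter]; exact ⟨Finset.mem_univ _, hg⟩
      rw [← heq, Finset.mem_filter] at this
      exact this.2
    -- the core has odd index
    rw [← Nat.not_even_iff_odd, even_iff_two_dvd]
    intro h2
    rw [Subgroup.index_eq_card] at h2
    have : Fact (Nat.Prime 2) := ⟨Nat.prime_two⟩
    obtain ⟨q, hq⟩ := exists_prime_orderOf_dvd_card' 2 h2
    obtain ⟨g, rfl⟩ := QuotientGroup.mk_surjective q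
    have hg2 : g * g ∈ H.normalCore := by
      have : ((g * g : G) : G ⧸ H.normalCore) = 1 := by
        rw [QuotientGroup.mk_mul, ← sq, ← hq, pow_orderOf_eq_one]
      exact (QuotientGroup.eq_one_iff _).1 this
    have hg : g ∈ H.normalCore := by
      intro b
      apply hsq
      have : b * g * b⁻¹ * (b * g * b⁻¹) = b * (g * g) * b⁻¹ := by group
      rw [this]
      have h3 : ∀ c : G, c * (g * g) * c⁻¹ ∈ H := hg2
      exact h3 b
    have : ((g : G) : G ⧸ H.normalCore) = 1 := (QuotientGroup.eq_one_iff _).2 hg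
    rw [this, orderOf_one] at hq
    exact absurd hq (by norm_num)
  · intro hodd
    rw [Nat.card_eq_one_iff_unique]
    refine ⟨⟨?_⟩, ⟨⟨triv, htrivmem⟩⟩⟩
    have hall : ∀ ψ : IrrCharacter G, classInner π (ψ : G → ℂ) ≠ 0 →
        (Nat.card G : ℂ)⁻¹ * ∑ g : G, (ψ : G → ℂ) (g * g) = 1 → ψ = triv := by
      intro ψ h1 h3
      set K := H.normalCore with hK
      have : Fintype K := Fintype.ofFinite K
      -- the kernel of ψ contains the core
      have hker : ∀ x ∈ K, (ψ : G → ℂ) x = (ψ : G → ℂ) 1 := by
        by_contra hcon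
        push Not at hcon
        exact h1 (Helper6.classInner_eq_zero_of_not_ker K π (ψ : G → ℂ)
          (fun m g => indFun_one_core_mul H (m : G) m.2 g) ψ.2 hcon)
      have hψc := Helper24.isCharacter_of_irr ψ.2
      -- a power map
      set n := K.index with hn
      set t := Nat.card K / 2 ^ (Nat.card K).factorization 2 with ht
      have hK0 : Nat.card K ≠ 0 := Nat.card_pos.ne'
      have hnK : Nat.card K * n = Nat.card G := K.card_mul_index
      have hcop : Nat.Coprime (Nat.card G) (2 + n * t) := by
        apply Nat.Coprime.symm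
        apply Nat.coprime_of_dvd
        intro q hq hqM hqN
        have hnodd : ¬ 2 ∣ n := by
          rw [← even_iff_two_dvd, Nat.not_even_iff_odd]; exact hodd
        have htodd : ¬ 2 ∣ t := Nat.not_dvd_ordCompl Nat.prime_two hK0
        by_cases hq2 : q = 2
        · subst hq2
          have : 2 ∣ n * t := (Nat.dvd_add_right (dvd_refl 2)).1 hqM
          rcases (Nat.Prime.dvd_mul Nat.prime_two).1 this with h | h
          · exact hnodd h
          · exact htodd h
        · have hqnt : q ∣ n * t := by
            rw [← hnK] at hqN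
            rcases (Nat.Prime.dvd_mul hq).1 hqN with h | h
            · -- q ∣ card K, q odd, so q ∣ t
              have hKt : Nat.card K = 2 ^ (Nat.card K).factorization 2 * t :=
                (Nat.ordProj_mul_ordCompl_eq_self (Nat.card K) 2).symm
              rw [hKt] at h
              rcases (Nat.Prime.dvd_mul hq).1 h with h' | h'
              · exact absurd ((Nat.prime_dvd_prime_iff_eq hq Nat.prime_two).1
                  (hq.dvd_of_dvd_pow h')) hq2
              · exact dvd_mul_of_dvd_right h' n
            · exact dvd_mul_of_dvd_left h t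
          have : q ∣ 2 := (Nat.dvd_add_left hqnt).1 hqM
          exact hq2 ((Nat.prime_dvd_prime_iff_eq hq Nat.prime_two).1 this)
      have hpow : ∀ g : G, (ψ : G → ℂ) (g ^ (2 + n * t)) = (ψ : G → ℂ) (g * g) := by
        intro g
        have hmem : (g ^ n) ^ t ∈ K := K.pow_mem (Subgroup.pow_index_mem K g) t
        have : g ^ (2 + n * t) = (g ^ n) ^ t * (g * g) := by
          rw [← pow_mul, ← pow_two, ← pow_add, add_comm]
        rw [this]
        exact Helper6.char_mul_of_eq_degree hψc (hker _ hmem) _
      have hsum : ∑ g : G, (ψ : G → ℂ) (g * g) = ∑ g : G, (ψ : G → ℂ) g := by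
        rw [← Finset.sum_congr rfl (fun g _ => hpow g)]
        exact Equiv.sum_comp (powCoprime hcop) (fun g => (ψ : G → ℂ) g)
      have hinner : classInner (ψ : G → ℂ) (triv : G → ℂ) = 1 := by
        unfold classInner
        rw [← h3, hsum]
        simp [triv]
      rw [Helper2.classInner_irr ψ.2 triv.2] at hinner
      by_contra hne
      rw [if_neg (fun h => hne (Subtype.ext h))] at hinner
      exact zero_ne_one hinner
    rintro ⟨ψ, h1, h2, h3⟩ ⟨ψ', h1', h2', h3'⟩
    apply Subtype.ext
    show ψ = ψ'
    rw [hall ψ h1 h3, hall ψ' h1' h3']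

end Cfsg.Agent.S4784
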