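import Cfsg.Statements.S4798
import Cfsg.Agent.Helper25.ListSum
open Cfsg.Agent.Helper25

set_option autoImplicit false
open Cfsg

namespace Cfsg.Agent.S4798

/-- Let p be a prime and χ a faithful irreducible complex character of the finite group G (χ(g) = χ(1) only for g = 1), so that its codegree is #G / χ(1). Then #G / χ(1) is a power of p if and only if χ is induced from a character of a Sylow p-subgroup of G. -/
theorem result {G : Type*} [Group G] [Fintype G] (p : ℕ) [Fact p.Prime] (χ : Cfsg.IrrCharacter G) (hfaith : ∀ g : G, (χ : G → ℂ) g = (χ : G → ℂ) 1 → g = 1) : (∃ k : ℕ, Nat.card G = p ^ k * Cfsg.charDegree (χ : G → ℂ)) ↔ ∃ (P : Sylow p G) (θ : ↥(P : Subgroup G) → ℂ), Cfsg.IsCharacter ↥(P : Subgroup G) θ ∧ (χ : G → ℂ) = Cfsg.indFun (P : Subgroup G) θ := by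
  classical
  have hp : p.Prime := Fact.out
  have hχc : IsCharacter G (χ : G → ℂ) := Helper24.isCharacter_of_irr χ.2
  have hG0 : Nat.card G ≠ 0 := Nat.card_pos.ne'
  have hdeg : ∀ (P : Sylow p G) (θ : ↥(P : Subgroup G) → ℂ), IsCharacter ↥(P : Subgroup G) θ →
      charDegree (indFun (P : Subgroup G) θ) = (P : Subgroup G).index * charDegree θ :=
    fun P θ hθ => charDegree_indFun (P : Subgroup G) hθ
  constructor
  · rintro ⟨k, hk⟩
    obtain ⟨P⟩ : Nonempty (Sylow p G) := inferInstance
    set a := (Nat.card G).factorization p with ha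
    have hPcard : Nat.card (P : Subgroup G) = p ^ a := P.card_eq_multiplicity
    have hidx : Nat.card (P : Subgroup G) * (P : Subgroup G).index = Nat.card G :=
      (P : Subgroup G).card_mul_index
    set m := (P : Subgroup G).index with hm
    have hm0 : m ≠ 0 := by
      intro h0; rw [h0, mul_zero] at hidx; exact hG0 hidx.symm
    have hpm : ¬ p ∣ m := by
      intro hdvd
      have : p ^ (a + 1) ∣ Nat.card G := by
        rw [← hidx, hPcard, pow_succ]; exact Nat.mul_dvd_mul_left _ hdvd
      exact (Nat.pow_succ_factorization_not_dvd hG0 hp) this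
    set d := charDegree (χ : G → ℂ) with hd
    have hd0 : d ≠ 0 := (Helper24.irr_degree_pos χ.2).ne'
    -- k ≤ a and d = p^(a-k) * m
    have hka : k ≤ a := by
      have : p ^ k ∣ Nat.card G := ⟨d, hk⟩
      exact (hp.pow_dvd_iff_le_factorization hG0).1 this
    have hdm : d = p ^ (a - k) * m := by
      have h1 : p ^ k * d = p ^ k * (p ^ (a - k) * m) := by
        rw [← hk, ← mul_assoc, ← pow_add, Nat.add_sub_cancel' hka, ← hPcard, hidx]
      exact Nat.eq_of_mul_eq_mul_left (pow_pos hp.pos k) h1
    have hres : IsCharacter ↥(P : Subgroup G) (fun h : ↥(P : Subgroup G) => (χ : G → ℂ) h) :=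
      Helper24.isCharacter_restrict (P : Subgroup G) hχc
    obtain ⟨l, hl, hsum⟩ := Helper2.IsCharacter.exists_list hres
    have hdsum : d = (l.map (fun φ => charDegree φ)).sum := by
      have h1 := list_sum_apply_one l hl
      rw [← hsum] at h1
      have h2 : (χ : G → ℂ) ((1 : ↥(P : Subgroup G)) : G) = (d : ℂ) := by
        rw [OneMemClass.coe_one]; exact Helper24.charDegree_spec hχc
      have h3 : ((d : ℕ) : ℂ) = (((l.map (fun φ => charDegree φ)).sum : ℕ) : ℂ) := h2.symm.trans h1
      exact_mod_cast h3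
    -- some constituent has small degree
    have hex : ∃ θ ∈ l, ¬ p ^ (a - k + 1) ∣ charDegree θ := by
      by_contra hcon
      push Not at hcon
      have : p ^ (a - k + 1) ∣ d := by
        rw [hdsum]
        apply List.dvd_sum
        intro x hx
        obtain ⟨φ, hφ, rfl⟩ := List.mem_map.1 hx
        exact hcon φ hφ
      rw [hdm, pow_succ] at this
      exact hpm (Nat.dvd_of_mul_dvd_mul_left (pow_pos hp.pos _) this)
    obtain ⟨θ, hθl, hθd⟩ := hex
    have hθirr := hl θ hθl
    have hθc := Helper24.isCharacter_of_irr hθirr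
    have hθle : charDegree θ ≤ p ^ (a - k) := by
      have hdvd : charDegree θ ∣ p ^ a := by
        rw [← hPcard]; exact Helper2.irr_degree_dvd_card hθirr
      obtain ⟨j, hj, hj'⟩ := (Nat.dvd_prime_pow hp).1 hdvd
      rw [hj'] at hθd ⊢
      have : j < a - k + 1 := by
        by_contra hlt
        push Not at hlt
        exact hθd (pow_dvd_pow p hlt)
      exact Nat.pow_le_pow_right hp.pos (by omega)
    refine ⟨P, θ, hθc, ?_⟩
    symm
    apply Helper6.char_eq_of_degree_le (Helper2.isCharacter_indFun (P : Subgroup G) hθc) χ.2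
    · rw [Helper2.frobenius_reciprocity (P : Subgroup G) θ _
        (Helper2.IsCharacter.isClassFunction hχc), hsum]
      obtain ⟨n, hn, hpos⟩ := classInner_list_sum_pos hθirr l hl
      rw [hn]
      exact_mod_cast (hpos hθl).ne'
    · rw [hdeg P θ hθc, ← hd, hdm, mul_comm]
      exact Nat.mul_le_mul_right _ hθle
  · rintro ⟨P, θ, hθ, hχeq⟩
    set a := (Nat.card G).factorization p with ha
    have hPcard : Nat.card (P : Subgroup G) = p ^ a := P.card_eq_multiplicity
    have hidx : Nat.card (P : Subgroup G) * (P : Subgroup G).index = Nat.card G :=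
      (P : Subgroup G).card_mul_index
    set m := (P : Subgroup G).index with hm
    have hm0 : m ≠ 0 := by
      intro h0; rw [h0, mul_zero] at hidx; exact hG0 hidx.symm
    have hd : charDegree (χ : G → ℂ) = m * charDegree θ := by
      rw [hχeq]; exact hdeg P θ hθ
    have hdvd : charDegree (χ : G → ℂ) ∣ Nat.card G := Helper2.irr_degree_dvd_card χ.2
    rw [hd, ← hidx, mul_comm m] at hdvd
    have hdvd' : charDegree θ ∣ p ^ a := by
      rw [← hPcard]; exact Nat.dvd_of_mul_dvd_mul_right (Nat.pos_of_ne_zero hm0) hdvd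
    obtain ⟨j, hj, hj'⟩ := (Nat.dvd_prime_pow hp).1 hdvd'
    refine ⟨a - j, ?_⟩
    rw [hd, hj', ← hidx, hPcard, mul_comm m, ← mul_assoc, ← pow_add, Nat.sub_add_cancel hj]

end Cfsg.Agent.S4798
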