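import Cfsg.Statements.S4801
-- import your own Cfsg.Agent.* helpers here
import Cfsg.Agent.Helper13.Codeg

set_option autoImplicit false
open Cfsg

namespace Cfsg.Agent.S4801

/-- The codegree of an irreducible complex character χ of a finite group G is [G : ker χ] / χ(1), where ker χ is the set of elements at which χ takes the value χ(1). Let S be a finite simple group and G a finite group such that every codegree of an irreducible character of S is a codegree of an irreducible character of G. Then the order of S divides the order of G. -/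
theorem result {S : Type*} [Group S] [Finite S] (hS : IsSimpleGroup S) {G : Type*} [Group G] [Finite G] (hsub : ∀ χ : Cfsg.IrrCharacter S, ∃ ψ : Cfsg.IrrCharacter G, (Nat.card S / (Nat.card {g : S // (χ : S → ℂ) g = (χ : S → ℂ) 1} * Cfsg.charDegree (χ : S → ℂ))) = (Nat.card G / (Nat.card {g : G // (ψ : G → ℂ) g = (ψ : G → ℂ) 1} * Cfsg.charDegree (ψ : G → ℂ)))) : Nat.card S ∣ Nat.card G := by
  classical
  rw [Nat.dvd_iff_prime_pow_dvd_dvd]
  intro p k hp hpk
  by_cases hk : k = 0
  · rw [hk, pow_zero]; exact one_dvd _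
  have hpS : p ∣ Nat.card S := (dvd_pow_self p hk).trans hpk
  obtain ⟨χ, hχ1, hχp⟩ := Helper13.exists_irr_not_dvd hp hpS
  -- the kernel of χ is trivial
  have hker : Helper13.cker χ.2 = ⊥ := by
    rcases (Helper13.cker_normal χ.2).eq_bot_or_eq_top with h | h
    · exact h
    · exfalso
      apply hχ1
      apply Helper13.irr_eq_one_of_const χ.2
      intro g
      have hg : g ∈ Helper13.cker χ.2 := by rw [h]; exact Subgroup.mem_top g
      exact (Helper13.mem_cker χ.2 g).1 hg
  obtain ⟨ψ, hψ⟩ := hsub χ
  have h1 := Helper13.codeg_mul_degree χ.2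
  rw [hker, Subgroup.index_bot] at h1
  have h2 : p ^ k ∣ Nat.card S / (Nat.card {g : S // (χ : S → ℂ) g = (χ : S → ℂ) 1} *
      Cfsg.charDegree (χ : S → ℂ)) := by
    have hcop : Nat.Coprime (p ^ k) (Cfsg.charDegree (χ : S → ℂ)) :=
      Nat.Coprime.pow_left k ((Nat.Prime.coprime_iff_not_dvd hp).2 hχp)
    rw [← h1] at hpk
    exact hcop.dvd_of_dvd_mul_right hpk
  rw [hψ] at h2
  exact h2.trans (Helper13.codeg_dvd_card ψ.2)

end Cfsg.Agent.S4801
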