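import Cfsg.Statements.S4802
import Cfsg.Agent.Helper25.SchurTrace
import Cfsg.Agent.S0145
open Cfsg.Agent.Helper25 Cfsg.Agent.Helper24

set_option autoImplicit false
open Cfsg

namespace Cfsg.Agent.S4802

/-- Let N < M be normal subgroups of the finite group G and g ∈ M ∖ N. Then the conjugacy class of g is exactly M ∖ N if and only if every irreducible complex character of G whose kernel contains N takes the same value at all elements of M ∖ N, and every irreducible complex character of G whose kernel does not contain N vanishes at g. -/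
theorem result {G : Type*} [Group G] [Finite G] (N M : Subgroup G) [N.Normal] [M.Normal] (hNM : N < M) (g : G) (hgM : g ∈ M) (hgN : g ∉ N) : {h : G | IsConj g h} = (M : Set G) \ (N : Set G) ↔ ((∀ χ : Cfsg.IrrCharacter G, (∀ x ∈ N, (χ : G → ℂ) x = (χ : G → ℂ) 1) → ∀ x ∈ M, x ∉ N → ∀ y ∈ M, y ∉ N → (χ : G → ℂ) x = (χ : G → ℂ) y) ∧ (∀ χ : Cfsg.IrrCharacter G, (∃ x ∈ N, (χ : G → ℂ) x ≠ (χ : G → ℂ) 1) → (χ : G → ℂ) g = 0)) := by
  classical
  have := Fintype.ofFinite G
  have hconjval : ∀ (χ : IrrCharacter G) (a b : G), IsConj a b → (χ : G → ℂ) a = (χ : G → ℂ) b := by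
    intro χ a b hab
    obtain ⟨c, hc⟩ := isConj_iff.mp hab
    rw [← hc]
    exact (char_conj_invariant (isCharacter_of_irr χ.2) a c).symm
  constructor
  · intro hcl
    have hmem : ∀ x : G, x ∈ M → x ∉ N → IsConj g x := by
      intro x hxM hxN
      have : x ∈ (M : Set G) \ (N : Set G) := ⟨hxM, hxN⟩
      rw [← hcl] at this
      exact this
    refine ⟨fun χ _ x hxM hxN y hyM hyN => ?_, fun χ hχ => ?_⟩
    · rw [← hconjval χ g x (hmem x hxM hxN), ← hconjval χ g y (hmem y hyM hyN)]
    · have h0 := irr_sum_normal_mul_eq_zero χ.2 N hχ g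
      have h1 : ∀ m : N, (χ : G → ℂ) ((m : G) * g) = (χ : G → ℂ) g := by
        intro m
        refine (hconjval χ g _ (hmem _ (M.mul_mem (hNM.le m.2) hgM) ?_)).symm
        intro hmg
        exact hgN ((Subgroup.mul_mem_cancel_left N m.2).mp hmg)
      rw [Finset.sum_congr rfl (fun m _ => h1 m), Finset.sum_const, Finset.card_univ,
        nsmul_eq_mul] at h0
      have hcard : ((Fintype.card N : ℕ) : ℂ) ≠ 0 := by
        exact_mod_cast Fintype.card_ne_zero
      exact (mul_eq_zero.mp h0).resolve_left hcard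
  · rintro ⟨h1, h2⟩
    ext h
    simp only [Set.mem_ofPred_eq, Set.mem_sdiff, SetLike.mem_coe]
    constructor
    · intro hc
      obtain ⟨c, hc⟩ := isConj_iff.mp hc
      rw [← hc]
      refine ⟨Subgroup.Normal.conj_mem inferInstance g hgM c, fun hN' => hgN ?_⟩
      have := Subgroup.Normal.conj_mem (inferInstance : N.Normal) _ hN' c⁻¹
      simpa [mul_assoc] using this
    · rintro ⟨hM, hN'⟩
      by_contra hnc
      have ho1 := (Cfsg.Agent.S0145.result g h).2 hnc
      have ho2 := (Cfsg.Agent.S0145.result g g).1 (IsConj.refl g)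
      have heq : ∀ χ : IrrCharacter G, (χ : G → ℂ) g * (starRingEnd ℂ) ((χ : G → ℂ) h)
          = (χ : G → ℂ) g * (starRingEnd ℂ) ((χ : G → ℂ) g) := by
        intro χ
        by_cases hk : ∀ x ∈ N, (χ : G → ℂ) x = (χ : G → ℂ) 1
        · rw [h1 χ hk h hM hN' g hgM hgN]
        · push Not at hk
          rw [h2 χ hk, zero_mul, zero_mul]
      rw [finsum_congr heq, ho2] at ho1
      have hpos : (Nat.card (Subgroup.centralizer ({g} : Set G)) : ℂ) ≠ 0 := by
        exact_mod_cast Nat.card_pos.ne'
      exact hpos ho1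

end Cfsg.Agent.S4802
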