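import Cfsg.Statements.S4814
import Cfsg.Agent.Helper25.Frobenius
open Cfsg.Agent.Helper25 Cfsg.Agent.Helper24

set_option autoImplicit false
open Cfsg

namespace Cfsg.Agent.S4814

/-- Let G be a finite group such that the sum, over the irreducible complex characters χ of G, of 1/χ(1)² is less than 2. Then every element of G is a product of two commutators. -/
theorem result {G : Type*} [Group G] [Finite G]
    (h : ∑ᶠ χ : Cfsg.IrrCharacter G, 1 / ‖(χ : G → ℂ) 1‖ ^ 2 < (2 : ℝ)) (g : G) :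
    ∃ a b c d : G, (a * b * a⁻¹ * b⁻¹) * (c * d * c⁻¹ * d⁻¹) = g := by
  classical
  have := Fintype.ofFinite G
  have := finite_irrCharacter (G := G)
  have := Fintype.ofFinite (IrrCharacter G)
  rw [finsum_eq_sum_of_fintype] at h
  by_contra hcon
  push Not at hcon
  have hn : (Nat.card G : ℂ) ≠ 0 := by exact_mod_cast Nat.card_pos.ne'
  have hd1 : ∀ χ : IrrCharacter G, (χ : G → ℂ) 1 ≠ 0 := fun χ => irr_one_ne_zero χ.2
  have h1 : ∀ a b : G, ∑ χ : IrrCharacter G,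
      (χ : G → ℂ) (a * b * a⁻¹ * b⁻¹ * g) / (χ : G → ℂ) 1 = 0 := by
    intro a b
    have hc := commutator_count (a * b * a⁻¹ * b⁻¹ * g)
    have hempty : IsEmpty {xy : G × G // xy.1 * xy.2 * xy.1⁻¹ * xy.2⁻¹ = a * b * a⁻¹ * b⁻¹ * g} := by
      constructor
      rintro ⟨⟨c, d⟩, hcd⟩
      apply hcon b a c d
      simp only at hcd
      rw [hcd]
      group
    rw [Nat.card_of_isEmpty, Nat.cast_zero] at hc
    exact (mul_eq_zero.mp hc.symm).resolve_left hn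
  have h2 : ∑ χ : IrrCharacter G, (Nat.card G : ℂ) * (Nat.card G : ℂ)
      * ((χ : G → ℂ) g / ((χ : G → ℂ) 1) ^ 3) = 0 := by
    have h3 : ∑ a : G, ∑ b : G, ∑ χ : IrrCharacter G,
        (χ : G → ℂ) (a * b * a⁻¹ * b⁻¹ * g) / (χ : G → ℂ) 1 = 0 := by
      simp only [h1, Finset.sum_const_zero]
    rw [← h3, Finset.sum_congr rfl (fun a _ => Finset.sum_comm), Finset.sum_comm]
    refine Finset.sum_congr rfl fun χ _ => ?_
    have h4 := irr_sum_commutator_mul χ.2 g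
    have h5 : ∑ a : G, ∑ b : G, (χ : G → ℂ) (a * b * a⁻¹ * b⁻¹ * g) / (χ : G → ℂ) 1
        = (∑ a : G, ∑ b : G, (χ : G → ℂ) (a * b * a⁻¹ * b⁻¹ * g)) / (χ : G → ℂ) 1 := by
      simp only [Finset.sum_div]
    have h6 : ∑ a : G, ∑ b : G, (χ : G → ℂ) (a * b * a⁻¹ * b⁻¹ * g)
        = (Nat.card G : ℂ) * (Nat.card G : ℂ) * (χ : G → ℂ) g
          / ((χ : G → ℂ) 1 * (χ : G → ℂ) 1) := by
      rw [eq_div_iff (mul_ne_zero (hd1 χ) (hd1 χ)), mul_comm]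
      exact h4
    rw [h5, h6]
    have := hd1 χ
    field_simp
  have h6 : ∑ χ : IrrCharacter G, ((χ : G → ℂ) g / ((χ : G → ℂ) 1) ^ 3) = 0 := by
    rw [← Finset.mul_sum] at h2
    exact (mul_eq_zero.mp h2).resolve_left (mul_ne_zero hn hn)
  have h5 : (0 : ℝ) = ∑ χ : IrrCharacter G, ((χ : G → ℂ) g / ((χ : G → ℂ) 1) ^ 3).re := by
    rw [← Complex.re_sum, h6, Complex.zero_re]
  have h7 : ∀ χ : IrrCharacter G,
      0 ≤ ((χ : G → ℂ) g / ((χ : G → ℂ) 1) ^ 3).re + 1 / ‖(χ : G → ℂ) 1‖ ^ 2 := by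
    intro χ
    have hchar := isCharacter_of_irr χ.2
    have hle := char_norm_le hchar g
    have hpos : 0 < ‖(χ : G → ℂ) 1‖ := norm_pos_iff.mpr (hd1 χ)
    have h8 : ‖(χ : G → ℂ) g / ((χ : G → ℂ) 1) ^ 3‖ ≤ 1 / ‖(χ : G → ℂ) 1‖ ^ 2 := by
      rw [norm_div, norm_pow, div_le_div_iff₀ (pow_pos hpos 3) (pow_pos hpos 2)]
      have h9 : ‖(χ : G → ℂ) g‖ * ‖(χ : G → ℂ) 1‖ ^ 2 ≤ ‖(χ : G → ℂ) 1‖ * ‖(χ : G → ℂ) 1‖ ^ 2 :=
        mul_le_mul_of_nonneg_right hle (pow_pos hpos 2).le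
      calc ‖(χ : G → ℂ) g‖ * ‖(χ : G → ℂ) 1‖ ^ 2 ≤ ‖(χ : G → ℂ) 1‖ * ‖(χ : G → ℂ) 1‖ ^ 2 := h9
        _ = 1 * ‖(χ : G → ℂ) 1‖ ^ 3 := by ring
    have h9 := Complex.abs_re_le_norm ((χ : G → ℂ) g / ((χ : G → ℂ) 1) ^ 3)
    have h10 := neg_abs_le (((χ : G → ℂ) g / ((χ : G → ℂ) 1) ^ 3).re)
    linarith
  have h11 : (((⟨fun _ => 1, isIrrCharacter_one⟩ : IrrCharacter G) : G → ℂ) g
      / (((⟨fun _ => 1, isIrrCharacter_one⟩ : IrrCharacter G) : G → ℂ) 1) ^ 3).re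
      + 1 / ‖((⟨fun _ => 1, isIrrCharacter_one⟩ : IrrCharacter G) : G → ℂ) 1‖ ^ 2 = 2 := by
    norm_num
  have h12 := Finset.single_le_sum (fun χ _ => h7 χ)
    (Finset.mem_univ (⟨fun _ => 1, isIrrCharacter_one⟩ : IrrCharacter G))
  rw [h11, Finset.sum_add_distrib, ← h5] at h12
  linarith

end Cfsg.Agent.S4814
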