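import Cfsg.Statements.S4835
import Cfsg.Agent.Helper25.TwoClass
import Cfsg.Agent.S0145
open Cfsg.Agent.Helper25 Cfsg.Agent.Helper24

set_option autoImplicit false
open Cfsg

namespace Cfsg.Agent.S4835

/-- Let G be a finite group of order greater than 2 with an irreducible character χ that is nonzero on exactly two conjugacy classes. Then G has a unique minimal normal subgroup N; N is an elementary abelian p-group for some prime p; χ is nonzero exactly at the elements of N; and any two nonidentity elements of N are conjugate in G. -/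
theorem result {G : Type*} [Group G] [Finite G] (hG : 2 < Nat.card G) (χ : Cfsg.IrrCharacter G) (hχ : Nat.card {C : ConjClasses G // ∃ g ∈ C.carrier, (χ : G → ℂ) g ≠ 0} = 2) :
    ∃ N : Subgroup G, N.Normal ∧ N ≠ ⊥ ∧ (∀ K : Subgroup G, K.Normal → K ≠ ⊥ → N ≤ K) ∧
      (∃ p : ℕ, p.Prime ∧ Cfsg.IsElementaryAbelian p N) ∧
      (∀ g : G, (χ : G → ℂ) g ≠ 0 ↔ g ∈ N) ∧
      (∀ x ∈ N, ∀ y ∈ N, x ≠ 1 → y ≠ 1 → ∃ g : G, g * x * g⁻¹ = y) := by
  classical
  have := Fintype.ofFinite G
  have := finite_irrCharacter (G := G)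
  have := Fintype.ofFinite (IrrCharacter G)
  obtain ⟨c, hc1, hχc, hsupp, hne, hker, h0⟩ := two_class_setup hG χ hχ
  have hχ1 : (χ : G → ℂ) 1 ≠ 0 := irr_one_ne_zero χ.2
  have hclass : ∀ (ψ : IrrCharacter G) (a b : G), IsConj a b →
      (ψ : G → ℂ) a = (ψ : G → ℂ) b := fun ψ a b hab =>
    Cfsg.Agent.Helper2.IsClassFunction.apply_eq_of_isConj
      (Cfsg.Agent.Helper2.IsIrrCharacter.isClassFunction ψ.2) hab
  obtain ⟨N, hN⟩ : ∃ N : Subgroup G, N = ⨅ ψ : {ψ : IrrCharacter G // ψ ≠ χ},
      irrKer (ψ.1 : G → ℂ) ψ.1.2 := ⟨_, rfl⟩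
  have hmemN : ∀ g : G, g ∈ N ↔
      ∀ ψ : IrrCharacter G, ψ ≠ χ → (ψ : G → ℂ) g = (ψ : G → ℂ) 1 := by
    intro g
    rw [hN]
    simp only [Subgroup.mem_iInf, Subtype.forall, mem_irrKer]
  have hNsupp : ∀ g : G, (χ : G → ℂ) g ≠ 0 ↔ g ∈ N := by
    intro g
    rw [hmemN]
    constructor
    · intro hg ψ hψ
      rcases hsupp g hg with h | h
      · rw [h]
      · rw [hclass ψ g c h]
        exact hker ψ hψ
    · intro hg
      by_cases hg1 : g = 1
      · rw [hg1]
        exact hχ1
      · have hcol := (Cfsg.Agent.S0145.result g 1).2 (fun h => hg1 (isConj_one_left.mp h))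
        rw [finsum_eq_sum_of_fintype] at hcol
        intro hχg
        have hterm : ∀ ψ : IrrCharacter G,
            0 ≤ ((ψ : G → ℂ) g * (starRingEnd ℂ) ((ψ : G → ℂ) 1)).re := by
          intro ψ
          by_cases hψ : ψ = χ
          · rw [hψ, hχg, zero_mul]
            simp
          · rw [hg ψ hψ, Complex.mul_conj]
            simp [Complex.normSq_nonneg]
        have h1 := Finset.single_le_sum (fun ψ _ => hterm ψ)
          (Finset.mem_univ (⟨fun _ => 1, isIrrCharacter_one⟩ : IrrCharacter G))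
        rw [← Complex.re_sum, hcol] at h1
        norm_num at h1
  have hcN : c ∈ N := (hNsupp c).mp hχc
  have hNnormal : N.Normal := by
    constructor
    intro n hn g
    rw [← hNsupp] at hn ⊢
    rwa [char_conj_invariant (isCharacter_of_irr χ.2) n g]
  have hNmem : ∀ x ∈ N, x = 1 ∨ IsConj x c := fun x hx => hsupp x ((hNsupp x).mpr hx)
  refine ⟨N, hNnormal, ?_, ?_, ?_, hNsupp, ?_⟩
  · intro hbot
    rw [hbot, Subgroup.mem_bot] at hcN
    exact hc1 hcN
  · intro K hK hK1 x hx
    obtain ⟨⟨k, hkK⟩, hk1'⟩ := Subgroup.ne_bot_iff_exists_ne_one.mp hK1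
    have hk1 : k ≠ 1 := fun h => hk1' (Subtype.ext h)
    have hcK : c ∈ K := by
      by_cases hχk : ∃ k ∈ K, k ≠ 1 ∧ (χ : G → ℂ) k ≠ 0
      · obtain ⟨k, hkK, hk1, hχk⟩ := hχk
        rcases hsupp k hχk with h | h
        · exact absurd h hk1
        · obtain ⟨t, ht⟩ := isConj_iff.mp h
          rw [← ht]
          exact hK.conj_mem k hkK t
      · push Not at hχk
        exfalso
        have := Fintype.ofFinite K
        have hsum := @irr_sum_normal_mul_eq_zero G _ _ χ.2 K hK _
          ⟨k, hkK, by rw [hχk k hkK hk1]; exact hχ1.symm⟩ 1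
        have h2 : ∑ m : K, (χ : G → ℂ) ((m : G) * 1) = (χ : G → ℂ) 1 := by
          rw [Finset.sum_eq_single (1 : K)]
          · simp
          · intro m _ hm
            rw [mul_one]
            exact hχk m m.2 (fun h => hm (Subtype.ext h))
          · intro h
            exact absurd (Finset.mem_univ _) h
        rw [h2] at hsum
        exact hχ1 hsum
    rcases hNmem x hx with h | h
    · rw [h]
      exact K.one_mem
    · obtain ⟨t, ht⟩ := isConj_iff.mp h
      have hxt : x = t⁻¹ * c * t := by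
        rw [← ht]; group
      rw [hxt]
      have h3 := hK.conj_mem c hcK t⁻¹
      simpa using h3
  · have hord : ∀ x ∈ N, x ≠ 1 → orderOf x = orderOf c := by
      intro x hx hx1
      obtain ⟨t, ht⟩ := isConj_iff.mp ((hNmem x hx).resolve_left hx1)
      rw [← ht, ← MulAut.conj_apply]
      exact (MulEquiv.orderOf_eq (MulAut.conj t) x).symm
    obtain ⟨p, hp, hpdvd⟩ := Nat.exists_prime_and_dvd
      (show orderOf c ≠ 1 from fun h => hc1 (orderOf_eq_one_iff.mp h))
    have hcp : orderOf c = p := by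
      have hpos : orderOf c ≠ 0 := (orderOf_pos c).ne'
      have h1 : orderOf (c ^ (orderOf c / p)) = p := orderOf_pow_orderOf_div hpos hpdvd
      have h2 : c ^ (orderOf c / p) ∈ N := N.pow_mem hcN _
      have h3 : c ^ (orderOf c / p) ≠ 1 := by
        intro h
        rw [h, orderOf_one] at h1
        exact hp.one_lt.ne h1
      rw [← hord _ h2 h3, h1]
    have hpow : ∀ a ∈ N, a ^ p = 1 := by
      intro a ha
      by_cases ha1 : a = 1
      · rw [ha1, one_pow]
      · rw [← hcp, ← hord a ha ha1]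
        exact pow_orderOf_eq_one a
    refine ⟨p, hp, ?_, hpow⟩
    have : Fact p.Prime := ⟨hp⟩
    have hPG : IsPGroup p N := by
      intro a
      refine ⟨1, ?_⟩
      rw [pow_one]
      exact Subtype.ext (hpow a a.2)
    have hNnt : Nontrivial N := ⟨⟨⟨c, hcN⟩, 1, fun h => hc1 (congrArg Subtype.val h)⟩⟩
    have hZ := hPG.center_nontrivial
    obtain ⟨z, hz1⟩ := exists_ne (1 : Subgroup.center N)
    have hzc : IsConj (z.1.1 : G) c := (hNmem _ z.1.2).resolve_left
      (fun h => hz1 (Subtype.ext (Subtype.ext h)))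
    have hzcomm : ∀ b ∈ N, (z.1.1 : G) * b = b * z.1.1 := by
      intro b hb
      have h4 := Subgroup.mem_center_iff.mp z.2 ⟨b, hb⟩
      exact (congrArg Subtype.val h4).symm
    refine ⟨⟨fun a b => ?_⟩⟩
    apply Subtype.ext
    show (a : G) * b = b * a
    by_cases ha1 : (a : G) = 1
    · rw [ha1, one_mul, mul_one]
    · obtain ⟨t, ht⟩ := isConj_iff.mp (hzc.trans ((hNmem a a.2).resolve_left ha1).symm)
      have hb' : t⁻¹ * b * t ∈ N := by
        have h5 := hNnormal.conj_mem b b.2 t⁻¹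
        simpa using h5
      have h5 := hzcomm _ hb'
      rw [← ht]
      calc t * (z.1.1 : G) * t⁻¹ * b = t * ((z.1.1 : G) * (t⁻¹ * b * t)) * t⁻¹ := by group
        _ = t * ((t⁻¹ * b * t) * (z.1.1 : G)) * t⁻¹ := by rw [h5]
        _ = b * (t * (z.1.1 : G) * t⁻¹) := by group
  · intro x hx y hy hx1 hy1
    have hxc : IsConj x c := (hNmem x hx).resolve_left hx1
    have hyc : IsConj y c := (hNmem y hy).resolve_left hy1
    exact isConj_iff.mp (hxc.trans hyc.symm)

end Cfsg.Agent.S4835
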