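import Cfsg.Statements.S4836
import Cfsg.Agent.Helper25.TwoClass
open Cfsg.Agent.Helper25 Cfsg.Agent.Helper24

set_option autoImplicit false
open Cfsg

namespace Cfsg.Agent.S4836

/-- Let G be a finite group of order greater than 2 with an irreducible character χ that is nonzero on exactly two conjugacy classes. Then χ is faithful (it takes the value χ(1) only at the identity), it is the only faithful irreducible character of G, and it is the only irreducible character of G that is nonzero on exactly two conjugacy classes. -/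
theorem result {G : Type*} [Group G] [Finite G] (hG : 2 < Nat.card G) (χ : Cfsg.IrrCharacter G) (hχ : Nat.card {C : ConjClasses G // ∃ g ∈ C.carrier, (χ : G → ℂ) g ≠ 0} = 2) :
    (∀ g : G, (χ : G → ℂ) g = (χ : G → ℂ) 1 → g = 1) ∧
      (∀ ψ : Cfsg.IrrCharacter G, (∀ g : G, (ψ : G → ℂ) g = (ψ : G → ℂ) 1 → g = 1) → ψ = χ) ∧
      (∀ ψ : Cfsg.IrrCharacter G, Nat.card {C : ConjClasses G // ∃ g ∈ C.carrier, (ψ : G → ℂ) g ≠ 0} = 2 → ψ = χ) := by
  have hfaith : ∀ ψ : IrrCharacter G,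
      Nat.card {C : ConjClasses G // ∃ g ∈ C.carrier, (ψ : G → ℂ) g ≠ 0} = 2 →
      ∀ g : G, (ψ : G → ℂ) g = (ψ : G → ℂ) 1 → g = 1 := by
    intro ψ hψ g hg
    obtain ⟨c, hc1, hψc, hsupp, hne, -, -⟩ := two_class_setup hG ψ hψ
    have h1 : (ψ : G → ℂ) g ≠ 0 := by
      rw [hg]; exact irr_one_ne_zero ψ.2
    rcases hsupp g h1 with h | h
    · exact h
    · exfalso
      apply hne
      rw [← hg]
      exact (Cfsg.Agent.Helper2.IsClassFunction.apply_eq_of_isConj
        (Cfsg.Agent.Helper2.IsIrrCharacter.isClassFunction ψ.2) h).symm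
  obtain ⟨c, hc1, hχc, hsupp, hne, hker, -⟩ := two_class_setup hG χ hχ
  have h2 : ∀ ψ : IrrCharacter G,
      (∀ g : G, (ψ : G → ℂ) g = (ψ : G → ℂ) 1 → g = 1) → ψ = χ := by
    intro ψ hψ
    by_contra hne'
    exact hc1 (hψ c (hker ψ hne'))
  exact ⟨hfaith χ hχ, h2, fun ψ hψ => h2 ψ (hfaith ψ hψ)⟩

end Cfsg.Agent.S4836
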