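import Cfsg.Statements.S4837
import Cfsg.Agent.Helper25.TwoClass2
import Cfsg.Agent.S4835
open Cfsg.Agent.Helper25 Cfsg.Agent.Helper24

set_option autoImplicit false
open Cfsg

namespace Cfsg.Agent.S4837

/-- Let G be a finite group of order greater than 2 with an irreducible character χ nonzero on exactly two conjugacy classes, and let N be the set of elements where χ is nonzero, given as a nontrivial normal p-subgroup of G for the prime p. Then for every nonidentity x in N the centralizer C_G(x) is a Sylow p-subgroup of G, and for every irreducible character λ ≠ 1 of N the stabilizer of λ in G (its inertia group) is a Sylow p-subgroup of G. -/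
theorem result {G : Type*} [Group G] [Finite G] (hG : 2 < Nat.card G) (χ : Cfsg.IrrCharacter G) (hχ : Nat.card {C : ConjClasses G // ∃ g ∈ C.carrier, (χ : G → ℂ) g ≠ 0} = 2) (p : ℕ) [Fact p.Prime] (N : Subgroup G) [N.Normal] (hN : ∀ g : G, g ∈ N ↔ (χ : G → ℂ) g ≠ 0) (hNp : IsPGroup p N) (hN1 : N ≠ ⊥) :
    (∀ x ∈ N, x ≠ 1 → ∃ P : Sylow p G, Subgroup.centralizer ({x} : Set G) = P) ∧
      (∀ μ : Cfsg.IrrCharacter N, (μ : N → ℂ) ≠ (fun _ => (1 : ℂ)) → ∃ P : Sylow p G, ∀ g : G, g ∈ (P : Subgroup G) ↔ ∀ n n' : N, (n' : G) = g * n * g⁻¹ → (μ : N → ℂ) n' = (μ : N → ℂ) n) := by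
  classical
  have hp := (Fact.out : p.Prime)
  obtain ⟨c, hc1, hχc, hsupp, hne, hker, h0⟩ := two_class_setup hG χ hχ
  have hchar := isCharacter_of_irr χ.2
  have hd := charDegree_spec hchar
  have hnorm := two_class_norm χ c hc1 hsupp h0
  have hNcard := two_class_card χ N hN c hc1 hχc hsupp
  have hcm := Cfsg.Agent.Helper2.card_conj_mul_card_centralizer c
  have hmpos : 0 < Nat.card {x : G // IsConj x c} :=
    Nat.card_pos_iff.mpr ⟨⟨⟨c, IsConj.refl c⟩⟩, inferInstance⟩
  obtain ⟨j, hj⟩ := IsPGroup.iff_card.mp hNp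
  have hD : ∀ q : ℕ, q.Prime → q ≠ p →
      q ^ ((Nat.card G).factorization q) ∣ charDegree (χ : G → ℂ) := by
    intro q hq hqp
    have : Fact q.Prime := ⟨hq⟩
    obtain ⟨Q⟩ : Nonempty (Sylow q G) := inferInstance
    have hQcard := Q.card_eq_multiplicity
    have := Fintype.ofFinite (Q : Subgroup G)
    obtain ⟨k, hk⟩ := sum_character_eq (isCharacter_restrict (Q : Subgroup G) hchar)
    have hvan : ∀ h : (Q : Subgroup G), h ≠ 1 → (χ : G → ℂ) (h : G) = 0 := by
      intro h hh1
      by_contra hne'
      have hN' : (h : G) ∈ N := (hN _).mpr hne'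
      obtain ⟨a, ha⟩ := (IsPGroup.iff_orderOf.mp hNp) ⟨h, hN'⟩
      obtain ⟨b, hb⟩ := (IsPGroup.iff_orderOf.mp Q.isPGroup') h
      rw [Subgroup.orderOf_mk] at ha
      rw [← Subgroup.orderOf_coe] at hb
      have hcop : Nat.Coprime (p ^ a) (q ^ b) :=
        Nat.Coprime.pow a b ((Nat.coprime_primes hp hq).mpr (Ne.symm hqp))
      rw [← ha, ← hb, Nat.coprime_self] at hcop
      apply hh1
      exact Subtype.ext (orderOf_eq_one_iff.mp hcop)
    rw [Finset.sum_eq_single (1 : (Q : Subgroup G)) (fun h _ hh => hvan h hh)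
      (fun h => absurd (Finset.mem_univ _) h)] at hk
    have hk' : charDegree (χ : G → ℂ) = Nat.card (Q : Subgroup G) * k := by
      have h1 : ((charDegree (χ : G → ℂ) : ℕ) : ℂ) = ((Nat.card (Q : Subgroup G) * k : ℕ) : ℂ) := by
        rw [← hd]
        push_cast
        exact hk
      exact_mod_cast h1
    rw [← hQcard, hk']
    exact Dvd.intro _ rfl
  have hz : Nat.card (Subgroup.centralizer ({c} : Set G)) = p ^ ((Nat.card G).factorization p) :=
    gagola_arith p hp (Nat.card G) _ _ (charDegree (χ : G → ℂ)) j hcm hnorm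
      (by rw [← hj, hNcard]; ring) hmpos Nat.card_pos hD
  constructor
  · intro x hx hx1
    have hxc : IsConj x c := (hsupp x ((hN x).mp hx)).resolve_left hx1
    have hzx : Nat.card (Subgroup.centralizer ({x} : Set G))
        = p ^ ((Nat.card G).factorization p) := by
      rw [Cfsg.Agent.Helper2.card_centralizer_eq_of_isConj hxc, hz]
    exact ⟨Sylow.ofCard _ hzx, (Sylow.coe_ofCard _ hzx).symm⟩
  · intro μ hμ1
    have hab : IsMulCommutative N := by
      obtain ⟨N', -, -, -, ⟨p', -, hel⟩, hN', -⟩ := Cfsg.Agent.S4835.result hG χ hχ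
      have hNN : N' = N := by
        ext g
        rw [hN, hN']
      rw [← hNN]
      exact hel.1
    have hlin := irr_one_eq_one_of_comm μ.2
    have hcN : c ∈ N := (hN c).mpr hχc
    have htrans : ∀ n : N, n ≠ 1 → ∃ t : G, n = MulAut.conjNormal t ⟨c, hcN⟩ := by
      intro n hn
      have hnc : IsConj (n : G) c :=
        (hsupp n ((hN n).mp n.2)).resolve_left (fun h => hn (Subtype.ext h))
      obtain ⟨t, ht⟩ := isConj_iff.mp hnc.symm
      exact ⟨t, Subtype.ext (by rw [MulAut.conjNormal_apply]; exact ht.symm)⟩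
    have hI := inertia_card N (μ : N → ℂ) μ.2 hμ1 hlin ⟨c, hcN⟩ htrans
    obtain ⟨I, hIdef⟩ : ∃ I : Subgroup G, ∀ g : G, g ∈ I ↔
        ∀ n n' : N, (n' : G) = g * n * g⁻¹ → (μ : N → ℂ) n' = (μ : N → ℂ) n := by
      refine ⟨{ carrier := {g | ∀ n n' : N, (n' : G) = g * n * g⁻¹ →
                  (μ : N → ℂ) n' = (μ : N → ℂ) n}
                mul_mem' := ?_
                one_mem' := ?_
                inv_mem' := ?_ }, fun g => Iff.rfl⟩
      · intro a b ha hb n n' hn'
        have h1 := hb n (MulAut.conjNormal b n) (MulAut.conjNormal_apply b n)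
        have h2 := ha (MulAut.conjNormal b n) n' (by
          rw [hn', MulAut.conjNormal_apply]; group)
        rw [h2, h1]
      · intro n n' hn'
        have h1 : n' = n := Subtype.ext (by rw [hn']; group)
        rw [h1]
      · intro a ha n n' hn'
        have h1 := ha n' n (by rw [hn']; group)
        exact h1.symm
    have hIcard : Nat.card I = p ^ ((Nat.card G).factorization p) := by
      have h1 : Nat.card I = Nat.card {g : G // ∀ n : N,
          (μ : N → ℂ) (MulAut.conjNormal g n) = (μ : N → ℂ) n} := by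
        apply Nat.card_congr
        apply Equiv.subtypeEquivRight
        intro g
        rw [hIdef]
        constructor
        · intro hg n
          exact hg n _ (MulAut.conjNormal_apply g n)
        · intro hg n n' hn'
          have h2 : n' = MulAut.conjNormal g n :=
            Subtype.ext (by rw [hn', MulAut.conjNormal_apply])
          rw [h2]
          exact hg n
      rw [h1]
      rw [hNcard, Nat.add_sub_cancel_left, ← hcm, mul_comm] at hI
      rw [← hz]
      exact Nat.eq_of_mul_eq_mul_left hmpos hI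
    exact ⟨Sylow.ofCard I hIcard, fun g => by rw [Sylow.coe_ofCard]; exact hIdef g⟩

end Cfsg.Agent.S4837
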