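import Cfsg.Statements.S4838
-- import your own Cfsg.Agent.* helpers here
import Cfsg.Agent.Helper13.Gagola

set_option autoImplicit false
open Cfsg

namespace Cfsg.Agent.S4838

/-- Let G be a finite group of order greater than 2 with an irreducible character χ nonzero on exactly two conjugacy classes, N the normal p-subgroup of elements where χ is nonzero, and P a Sylow p-subgroup of G. Then (a) for every x outside N the centralizer of x in G has the same order as the centralizer of xN in G/N; (b) the centre of P lies in N, and equals N exactly when P is normal in G; (c) N, viewed inside P, is a term of the upper central series of P. -/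
theorem result {G : Type*} [Group G] [Finite G] (hG : 2 < Nat.card G) (χ : Cfsg.IrrCharacter G) (hχ : Nat.card {C : ConjClasses G // ∃ g ∈ C.carrier, (χ : G → ℂ) g ≠ 0} = 2) (p : ℕ) [Fact p.Prime] (N : Subgroup G) [N.Normal] (hN : ∀ g : G, g ∈ N ↔ (χ : G → ℂ) g ≠ 0) (hNp : IsPGroup p N) (hN1 : N ≠ ⊥) (P : Sylow p G) :
    (∀ x : G, x ∉ N → Nat.card (Subgroup.centralizer ({x} : Set G)) = Nat.card (Subgroup.centralizer ({(x : G ⧸ N)} : Set (G ⧸ N)))) ∧
      ((Subgroup.center ↥(P : Subgroup G)).map (P : Subgroup G).subtype ≤ N ∧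
        ((Subgroup.center ↥(P : Subgroup G)).map (P : Subgroup G).subtype = N ↔ (P : Subgroup G).Normal)) ∧
      (∃ i : ℕ, Subgroup.upperCentralSeries ↥(P : Subgroup G) i = N.subgroupOf (P : Subgroup G)) := by
  classical
  have hχirr := χ.2
  have h1 : (χ : G → ℂ) 1 ≠ 0 := (hN 1).mp N.one_mem
  have hconj : ∀ a b : G, a ∈ N → b ∈ N → a ≠ 1 → b ≠ 1 → IsConj a b :=
    fun a b ha hb ha1 hb1 => Cfsg.Agent.Helper13.Gagola.conj_of_card_two _ hχ h1 a b
      ((hN a).mp ha) ((hN b).mp hb) ha1 hb1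
  have hNtop : N ≠ ⊤ := Cfsg.Agent.Helper13.Gagola.ne_top N hN1 hconj hG
  have hcam : ∀ x : G, x ∉ N → ∀ n ∈ N, IsConj x (n * x) :=
    fun x hx n hn => Cfsg.Agent.Helper13.Gagola.isConj_mul _ hχirr N hN hconj hNtop x hx n hn
  have hcent : ∀ x : G, x ∉ N → Nat.card (Subgroup.centralizer ({x} : Set G))
      = Nat.card (Subgroup.centralizer ({(x : G ⧸ N)} : Set (G ⧸ N))) :=
    fun x hx => Cfsg.Agent.Helper13.Gagola.card_centralizer_eq N x (hcam x hx)
  have hNP : N ≤ (P : Subgroup G) := Cfsg.Agent.Helper13.Gagola.normal_le_sylow N p hNp P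
  have hZN : ∀ z : G, (∀ y ∈ (P : Subgroup G), y * z = z * y) → z ∈ N :=
    fun z hzc => Cfsg.Agent.Helper13.Gagola.center_le N p hNp hN1 hcent P z hzc
  have hZle : (Subgroup.center ↥(P : Subgroup G)).map (P : Subgroup G).subtype ≤ N := by
    rintro _ ⟨z, hz, rfl⟩
    apply hZN
    intro y hy
    have h2 := Subgroup.mem_center_iff.mp hz ⟨y, hy⟩
    exact congrArg Subtype.val h2
  refine ⟨hcent, ⟨hZle, ⟨?_, ?_⟩⟩, Cfsg.Agent.Helper13.Gagola.exists_upper N p hNp hcent P hNP⟩
  · intro heq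
    apply Cfsg.Agent.Helper13.Gagola.normal_of_central N p hNp hN1 P hcam
    intro n hn y hy
    rw [← heq] at hn
    obtain ⟨z, hz, rfl⟩ := hn
    have h2 := Subgroup.mem_center_iff.mp hz ⟨y, hy⟩
    exact congrArg Subtype.val h2
  · intro hPn
    apply le_antisymm hZle
    intro n hn
    refine ⟨⟨n, hNP hn⟩, ?_, rfl⟩
    show (⟨n, hNP hn⟩ : (P : Subgroup G)) ∈ Subgroup.center ↥(P : Subgroup G)
    rw [Subgroup.mem_center_iff]
    intro y
    apply Subtype.ext
    exact Cfsg.Agent.Helper13.Gagola.le_center_of_normal N p P hNP hN1 hconj hZN hPn n hn y.1 y.2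

end Cfsg.Agent.S4838
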