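import Cfsg.Statements.S4870
-- import your own Cfsg.Agent.* helpers here
import Cfsg.Agent.Helper13.MinNormLin

set_option autoImplicit false
open Cfsg

namespace Cfsg.Agent.S4870

/-- Let G be a finite group with a non-abelian minimal normal subgroup N, and let φ be an irreducible complex character of N with stabilizer I in G (the elements g with φ(g n g⁻¹) = φ(n) for all n ∈ N) such that φ extends to an irreducible character of I. Put d = φ(1)·[G : I]. Then the number of linear characters of G is at most [G : I] times the number of irreducible characters of G of degree d. -/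
theorem result {G : Type*} [Group G] [Finite G] (N : Subgroup G) (hN : N.Normal) (hN1 : N ≠ ⊥) (hmin : ∀ M : Subgroup G, M.Normal → M ≤ N → M = ⊥ ∨ M = N) (hna : ¬ IsMulCommutative ↥N) (φ : Cfsg.IrrCharacter ↥N) (I : Subgroup G) (hI : ∀ g : G, g ∈ I ↔ ∀ n n' : ↥N, (n' : G) = g * (n : G) * g⁻¹ → (φ : ↥N → ℂ) n' = (φ : ↥N → ℂ) n) (hNI : N ≤ I) (hext : ∃ ψ : Cfsg.IrrCharacter ↥I, ∀ n : ↥N, (ψ : ↥I → ℂ) (Subgroup.inclusion hNI n) = (φ : ↥N → ℂ) n) : Nat.card {χ : Cfsg.IrrCharacter G // Cfsg.charDegree (χ : G → ℂ) = 1} ≤ I.index * Nat.card {χ : Cfsg.IrrCharacter G // Cfsg.charDegree (χ : G → ℂ) = Cfsg.charDegree (φ : ↥N → ℂ) * I.index} := by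
  classical
  haveI := Fintype.ofFinite G
  haveI : Fintype N := Fintype.ofFinite N
  haveI : Fintype I := Fintype.ofFinite I
  haveI := hN
  haveI := Helper24.finite_irrCharacter (G := G)
  haveI := Fintype.ofFinite (IrrCharacter G)
  obtain ⟨ψ, hψ⟩ := hext
  have hI' : ∀ g, g ∈ I ↔ ∀ n : N, (φ : N → ℂ) ⟨g * n * g⁻¹, hN.conj_mem (n : G) n.2 g⟩ =
      (φ : N → ℂ) n := by
    intro g
    rw [hI]
    constructor
    · intro h n
      exact h n ⟨g * n * g⁻¹, hN.conj_mem (n : G) n.2 g⟩ rfl
    · intro h n n' hn'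
      have e : n' = ⟨g * n * g⁻¹, hN.conj_mem (n : G) n.2 g⟩ := Subtype.ext hn'
      rw [e]
      exact h n
  obtain ⟨χ₀, hχ₀, hdeg, hnorm⟩ := Helper13.exists_irr_over_ext N φ.2 I hI' hNI ψ.2 hψ
  have hNN : ⁅N, N⁆ = N := by
    rcases hmin ⁅N, N⁆ (Subgroup.commutator_normal N N) (Subgroup.commutator_le_right N N)
      with h | h
    · exfalso
      apply hna
      rw [Subgroup.commutator_eq_bot_iff_le_centralizer] at h
      refine ⟨⟨fun a b => Subtype.ext ?_⟩⟩
      exact ((h a.2) b b.2).symm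
    · exact h
  have hker : ∀ lam : G →* ℂˣ, ∀ n ∈ N, lam n = 1 := by
    intro lam n hn
    have h1 : ⁅N, N⁆ ≤ lam.ker :=
      (Subgroup.commutator_mono le_top le_top).trans (Abelianization.commutator_subset_ker lam)
    rw [hNN] at h1
    exact h1 hn
  have hhom : ∀ l : {χ : IrrCharacter G // charDegree (χ : G → ℂ) = 1},
      ∃ lam : G →* ℂˣ, ∀ g, (l.1 : G → ℂ) g = ((lam g : ℂˣ) : ℂ) := by
    intro l
    have hc := Helper24.isCharacter_of_irr l.1.2
    have h1 := Helper24.charDegree_spec hc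
    rw [l.2] at h1
    exact Helper24.exists_hom_of_linear hc (by rw [h1]; simp)
  choose lam hlam using hhom
  have hdegmul : ∀ l : {χ : IrrCharacter G // charDegree (χ : G → ℂ) = 1},
      charDegree (fun g => ((lam l g : ℂˣ) : ℂ) * χ₀ g) =
        charDegree (φ : N → ℂ) * I.index := by
    intro l
    rw [← hdeg]
    show Nat.floor ((((lam l 1 : ℂˣ) : ℂ) * χ₀ 1).re) = Nat.floor ((χ₀ 1).re)
    rw [map_one, Units.val_one, one_mul]
  obtain ⟨Fmap, hFmap⟩ : ∃ Fmap : {χ : IrrCharacter G // charDegree (χ : G → ℂ) = 1} →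
      {χ : IrrCharacter G // charDegree (χ : G → ℂ) = charDegree (φ : N → ℂ) * I.index},
      ∀ l g, ((Fmap l).1 : G → ℂ) g = ((lam l g : ℂˣ) : ℂ) * χ₀ g :=
    ⟨fun l => ⟨⟨fun g => ((lam l g : ℂˣ) : ℂ) * χ₀ g,
      Helper24.isIrrCharacter_hom_mul (lam l) hχ₀⟩, hdegmul l⟩, fun l g => rfl⟩
  have hfib : ∀ b ∈ (Finset.univ : Finset {χ : IrrCharacter G // charDegree (χ : G → ℂ) = 1}).image
      Fmap, (Finset.univ.filter (fun x => Fmap x = b)).card ≤ I.index := by
    intro b hb
    obtain ⟨l₀, _, rfl⟩ := Finset.mem_image.mp hb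
    have h := Helper13.linear_fiber_le N hχ₀ I.index hnorm
      ((Finset.univ.filter (fun x => Fmap x = Fmap l₀)).image Subtype.val)
      (fun g => ((lam l₀ g : ℂˣ) : ℂ))
      (fun g => by
        rw [Complex.normSq_eq_norm_sq, Helper10.norm_hom_units]
        norm_num)
      (fun l hl n g => by
        obtain ⟨l', _, rfl⟩ := Finset.mem_image.mp hl
        rw [hlam, hlam, map_mul, hker (lam l') (n : G) n.2, one_mul])
      (fun l hl g => by
        obtain ⟨l', hl', rfl⟩ := Finset.mem_image.mp hl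
        have h1 := (Finset.mem_filter.mp hl').2
        have h2 := congrArg (fun b => (b.1 : G → ℂ) g) h1
        simp only [hFmap] at h2
        rw [hlam]
        exact h2)
    rw [Finset.card_image_of_injective _ Subtype.val_injective] at h
    exact h
  rw [Nat.card_eq_fintype_card, Nat.card_eq_fintype_card]
  calc Fintype.card {χ : IrrCharacter G // charDegree (χ : G → ℂ) = 1}
      = (Finset.univ : Finset {χ : IrrCharacter G // charDegree (χ : G → ℂ) = 1}).card :=
        Finset.card_univ.symm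
    _ ≤ I.index * (Finset.univ.image Fmap).card := Finset.card_le_mul_card_image _ _ hfib
    _ ≤ I.index * Fintype.card _ := Nat.mul_le_mul_left _ (Finset.card_le_univ _)

end Cfsg.Agent.S4870
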