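import Cfsg.Statements.S4888
import Cfsg.Agent.Helper6.NpcBlock

set_option autoImplicit false
open Cfsg

namespace Cfsg.Agent.S4888

open Cfsg.Agent Cfsg.Agent.Helper6 in
/-- Let G be a finite group, p a prime and M a maximal ideal of the algebraic integers containing p. Then all height-zero irreducible characters of the principal p-block of G (equivalently, all its characters of degree prime to p) have the same degree if and only if G has a normal p-complement. -/
theorem result {G : Type*} [Group G] [Finite G] (p : ℕ) [Fact p.Prime] (M : Ideal Cfsg.AlgInt) (hM : Cfsg.IsPModular p M) : (∃ d : ℕ, ∀ χ : Cfsg.IrrCharacter G, χ ∈ (Cfsg.principalBlock M G) → Cfsg.blockHeight p (Cfsg.principalBlock M G) (χ : G → ℂ) = 0 → Cfsg.charDegree (χ : G → ℂ) = d) ↔ Cfsg.HasNormalPComplement p G := by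
  classical
  haveI : Fintype G := Fintype.ofFinite G
  have hMp := hM.2.1.isPrime
  have hp : p.Prime := Fact.out
  have hone : Helper25.oneIrr G ∈ principalBlock M G :=
    Helper25.mem_blockOf_self hMp.ne_top (Helper25.oneIrr G)
  have hdeg1 : charDegree ((Helper25.oneIrr G : IrrCharacter G) : G → ℂ) = 1 := by
    have h := Helper25.irr_one_eq_degree (Helper25.oneIrr G)
    rw [Helper25.oneIrr_apply] at h
    exact_mod_cast h.symm
  constructor
  · rintro ⟨d, hd⟩
    have hh1 : blockHeight p (principalBlock M G)
        ((Helper25.oneIrr G : IrrCharacter G) : G → ℂ) = 0 := by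
      unfold blockHeight
      rw [hdeg1, Nat.factorization_one, Finsupp.zero_apply, Nat.zero_sub]
    have hd1 : d = 1 := by rw [← hd _ hone hh1, hdeg1]
    subst hd1
    have hlin : ∀ χ : IrrCharacter G, χ ∈ principalBlock M G →
        ¬ p ∣ charDegree (χ : G → ℂ) → charDegree (χ : G → ℂ) = 1 := by
      intro χ hχ hnd
      apply hd χ hχ
      unfold blockHeight
      rw [Nat.factorization_eq_zero_of_not_dvd hnd, Nat.zero_sub]
    obtain ⟨P⟩ : Nonempty (Sylow p G) := inferInstance
    apply Helper17.npc_of_fusion_inv P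
    intro Msub hMP hPN hidx a g ha hg
    by_contra hnot
    obtain ⟨y, hy⟩ : ∃ y : ↥(P : Subgroup G), (y : G) = a⁻¹ * (g⁻¹ * a * g) :=
      ⟨⟨_, (P : Subgroup G).mul_mem ((P : Subgroup G).inv_mem ha) hg⟩, rfl⟩
    haveI hMn : (Msub.subgroupOf (P : Subgroup G)).Normal :=
      (Subgroup.normal_subgroupOf_iff_le_normalizer hMP).2 hPN
    have hcardQ : Nat.card (↥(P : Subgroup G) ⧸ Msub.subgroupOf (P : Subgroup G)) = p := by
      rw [← Subgroup.index_eq_card]
      exact hidx
    haveI : IsCyclic (↥(P : Subgroup G) ⧸ Msub.subgroupOf (P : Subgroup G)) :=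
      isCyclic_of_prime_card hcardQ
    have hcomm : ∀ u v : ↥(P : Subgroup G) ⧸ Msub.subgroupOf (P : Subgroup G),
        u * v = v * u := by
      letI := IsCyclic.commGroup (α := ↥(P : Subgroup G) ⧸ Msub.subgroupOf (P : Subgroup G))
      exact fun u v => mul_comm u v
    have hcomle : commutator ↥(P : Subgroup G) ≤ Msub.subgroupOf (P : Subgroup G) := by
      rw [commutator_def, Subgroup.commutator_le]
      intro u _ v _
      rw [← QuotientGroup.eq_one_iff, commutatorElement_def]
      simp only [QuotientGroup.mk_mul, QuotientGroup.mk_inv]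
      rw [hcomm (u : ↥(P : Subgroup G) ⧸ Msub.subgroupOf (P : Subgroup G)) v,
        mul_inv_cancel_right, mul_inv_cancel]
    have hynot : y ∉ commutator ↥(P : Subgroup G) := by
      intro h
      apply hnot
      have h2 := hcomle h
      rw [Subgroup.mem_subgroupOf, hy] at h2
      exact h2
    have hab : (Abelianization.of y : Abelianization ↥(P : Subgroup G)) ≠ 1 := by
      intro h
      apply hynot
      rw [← Abelianization.ker_of]
      exact MonoidHom.mem_ker.2 h
    haveI : NeZero (Monoid.exponent (Abelianization ↥(P : Subgroup G))) :=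
      ⟨Monoid.exponent_ne_zero_of_finite⟩
    obtain ⟨φ, hφ⟩ := CommGroup.exists_apply_ne_one_of_hasEnoughRootsOfUnity
      (Abelianization ↥(P : Subgroup G)) ℂ hab
    obtain ⟨χ, h1, hχ⟩ := nb_extend hM P hlin (φ.comp Abelianization.of)
    apply hφ
    apply Units.ext
    have h3 := hχ y
    rw [MonoidHom.comp_apply] at h3
    rw [← h3, hy, Units.val_one]
    have hmul := Helper24.linear_char_mul (Helper24.isCharacter_of_irr χ.2) h1
    have hcl := Helper2.IsIrrCharacter.isClassFunction χ.2 a g⁻¹
    rw [inv_inv] at hcl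
    rw [hmul, hcl, ← hmul, inv_mul_cancel, h1]
  · rintro ⟨P, K, hK, hc⟩
    haveI := hK
    refine ⟨1, fun χ hχ hh => ?_⟩
    apply nb_easy hM P K hc χ hχ
    unfold blockHeight at hh
    have hle : sInf ((fun ψ : IrrCharacter G => (charDegree (ψ : G → ℂ)).factorization p) ''
        principalBlock M G) = 0 := by
      apply Nat.eq_zero_of_le_zero
      apply Nat.sInf_le
      refine ⟨Helper25.oneIrr G, hone, ?_⟩
      show (charDegree ((Helper25.oneIrr G : IrrCharacter G) : G → ℂ)).factorization p = 0
      rw [hdeg1, Nat.factorization_one, Finsupp.zero_apply]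
    rw [hle, Nat.sub_zero] at hh
    exact hh

end Cfsg.Agent.S4888
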