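import Cfsg.Statements.S4911
-- import your own Cfsg.Agent.* helpers here
import Cfsg.Agent.Helper24.CoprimeReal

set_option autoImplicit false
open Cfsg

namespace Cfsg.Agent.S4911

open Cfsg.Agent.Helper24

/-- Let P and K be subgroups of a finite group with P a p-group normalizing K and K of order prime to p. Then the number of P-invariant real-valued irreducible complex characters of K equals the number of conjugacy classes of K that are real (closed under inversion) and P-invariant. Moreover, if every real-valued irreducible character of K is P-invariant, then every real element of K (one conjugate in K to its inverse) is conjugate in K to an element centralized by P. -/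
theorem result {G : Type*} [Group G] [Finite G] (p : ℕ) [Fact p.Prime] (P K : Subgroup G) (hP : IsPGroup p ↥P) (hK : ¬ p ∣ Nat.card ↥K) (hPK : P ≤ Subgroup.normalizer (K : Set G)) : Nat.card {θ : Cfsg.IrrCharacter ↥K // (∀ k : ↥K, ((θ : ↥K → ℂ) k).im = 0) ∧ (∀ x ∈ P, ∀ k k' : ↥K, (k' : G) = x * (k : G) * x⁻¹ → (θ : ↥K → ℂ) k' = (θ : ↥K → ℂ) k)} = Nat.card {c : ConjClasses ↥K // (∀ k : ↥K, ConjClasses.mk k = c → IsConj k k⁻¹) ∧ ∀ k : ↥K, ConjClasses.mk k = c → ∀ x ∈ P, ∀ k' : ↥K, (k' : G) = x * (k : G) * x⁻¹ → ConjClasses.mk k' = c} ∧ ((∀ θ : Cfsg.IrrCharacter ↥K, (∀ k : ↥K, ((θ : ↥K → ℂ) k).im = 0) → (∀ x ∈ P, ∀ k k' : ↥K, (k' : G) = x * (k : G) * x⁻¹ → (θ : ↥K → ℂ) k' = (θ : ↥K → ℂ) k)) → ∀ k : ↥K, IsConj k k⁻¹ → ∃ k' : ↥K, IsConj k k' ∧ ∀ x ∈ P, x * (k' : G) * x⁻¹ = (k' : G)) := by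
  classical
  obtain ⟨f, hf⟩ : ∃ f : ↥P →* MulAut ↥K, ∀ (a : ↥P) (k : ↥K),
      ((f a k : ↥K) : G) = (a : G) * (k : G) * (a : G)⁻¹ :=
    ⟨conjNormHom P K hPK, fun a k => rfl⟩
  have hX : ∀ θ : Cfsg.IrrCharacter ↥K,
      (∀ x ∈ P, ∀ k k' : ↥K, (k' : G) = x * (k : G) * x⁻¹ →
        (θ : ↥K → ℂ) k' = (θ : ↥K → ℂ) k) ↔
      ∀ (a : ↥P) (k : ↥K), (θ : ↥K → ℂ) (f a k) = (θ : ↥K → ℂ) k := by
    intro θ
    constructor
    · intro h a k
      exact h a.1 a.2 k (f a k) (hf a k)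
    · intro h x hx k k' e
      have e' : k' = f ⟨x, hx⟩ k := Subtype.ext (e.trans (hf ⟨x, hx⟩ k).symm)
      rw [e']
      exact h _ _
  have hY : ∀ c : ConjClasses ↥K,
      (∀ k : ↥K, ConjClasses.mk k = c → ∀ x ∈ P, ∀ k' : ↥K, (k' : G) = x * (k : G) * x⁻¹ →
        ConjClasses.mk k' = c) ↔
      ∀ a : ↥P, ConjClasses.map (MulEquiv.toMonoidHom (f a)) c = c := by
    intro c
    constructor
    · intro h a
      obtain ⟨k, rfl⟩ := ConjClasses.mk_surjective c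
      exact h k rfl a.1 a.2 (f a k) (hf a k)
    · intro h k hk x hx k' e
      subst hk
      have e' : k' = f ⟨x, hx⟩ k := Subtype.ext (e.trans (hf ⟨x, hx⟩ k).symm)
      rw [e']
      exact h ⟨x, hx⟩
  constructor
  · have h := coprime_real_count f hP hK
    have eX : Nat.card {θ : Cfsg.IrrCharacter ↥K // (∀ k : ↥K, ((θ : ↥K → ℂ) k).im = 0) ∧
        (∀ x ∈ P, ∀ k k' : ↥K, (k' : G) = x * (k : G) * x⁻¹ →
          (θ : ↥K → ℂ) k' = (θ : ↥K → ℂ) k)} =
        Nat.card {θ : Cfsg.IrrCharacter ↥K // (∀ k : ↥K, ((θ : ↥K → ℂ) k).im = 0) ∧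
          ∀ (a : ↥P) (k : ↥K), (θ : ↥K → ℂ) (f a k) = (θ : ↥K → ℂ) k} :=
      Nat.card_congr (Equiv.subtypeEquivRight fun θ => and_congr Iff.rfl (hX θ))
    have eY : Nat.card {c : ConjClasses ↥K // (∀ k : ↥K, ConjClasses.mk k = c → IsConj k k⁻¹) ∧
        ∀ k : ↥K, ConjClasses.mk k = c → ∀ x ∈ P, ∀ k' : ↥K, (k' : G) = x * (k : G) * x⁻¹ →
          ConjClasses.mk k' = c} =
        Nat.card {c : ConjClasses ↥K // (∀ k : ↥K, ConjClasses.mk k = c → IsConj k k⁻¹) ∧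
          ∀ a : ↥P, ConjClasses.map (MulEquiv.toMonoidHom (f a)) c = c} :=
      Nat.card_congr (Equiv.subtypeEquivRight fun c => and_congr Iff.rfl (hY c))
    rw [eX, eY]
    exact h
  · intro hall k hk
    obtain ⟨k', hk', hfix⟩ := coprime_real_fixed f hP hK
      (fun θ hθ => (hX θ).1 (hall θ hθ)) k hk
    refine ⟨k', hk', fun x hx => ?_⟩
    have h1 := congrArg Subtype.val (hfix ⟨x, hx⟩)
    rw [hf] at h1
    exact h1

end Cfsg.Agent.S4911
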