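import Cfsg.Statements.S4912
-- import your own Cfsg.Agent.* helpers here
import Cfsg.Agent.Helper13.IndReal

set_option autoImplicit false
open Cfsg

namespace Cfsg.Agent.S4912

/-- Let G be a finite group with a non-abelian minimal normal subgroup N, and let φ be an irreducible complex character of N with stabilizer I in G such that φ extends to an irreducible character of I with Frobenius–Schur indicator +1. Put d = φ(1)·[G : I]. Then the number of linear characters of G with Frobenius–Schur indicator +1 is at most [G : I] times the number of irreducible characters of G of degree d with Frobenius–Schur indicator +1. -/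
theorem result {G : Type*} [Group G] [Finite G] (N : Subgroup G) (hN : N.Normal) (hN1 : N ≠ ⊥) (hmin : ∀ M : Subgroup G, M.Normal → M ≤ N → M = ⊥ ∨ M = N) (hna : ¬ IsMulCommutative ↥N) (φ : Cfsg.IrrCharacter ↥N) (I : Subgroup G) (hI : ∀ g : G, g ∈ I ↔ ∀ n n' : ↥N, (n' : G) = g * (n : G) * g⁻¹ → (φ : ↥N → ℂ) n' = (φ : ↥N → ℂ) n) (hNI : N ≤ I) (hext : ∃ ψ : Cfsg.IrrCharacter ↥I, (Nat.card ↥I : ℂ)⁻¹ * ∑ᶠ g : ↥I, (ψ : ↥I → ℂ) (g * g) = 1 ∧ ∀ n : ↥N, (ψ : ↥I → ℂ) (Subgroup.inclusion hNI n) = (φ : ↥N → ℂ) n) : Nat.card {χ : Cfsg.IrrCharacter G // Cfsg.charDegree (χ : G → ℂ) = 1 ∧ (Nat.card G : ℂ)⁻¹ * ∑ᶠ g : G, (χ : G → ℂ) (g * g) = 1} ≤ I.index * Nat.card {χ : Cfsg.IrrCharacter G // Cfsg.charDegree (χ : G → ℂ) = Cfsg.charDegree (φ : ↥N → ℂ) * I.index ∧ (Nat.card G : ℂ)⁻¹ * ∑ᶠ g : G, (χ : G → ℂ) (g * g) = 1} := by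
  classical
  haveI := Fintype.ofFinite G
  haveI := Fintype.ofFinite N
  haveI := Fintype.ofFinite I
  haveI := hN
  haveI : Finite (IrrCharacter G) := Helper24.finite_irrCharacter
  haveI : Fintype (IrrCharacter G) := Fintype.ofFinite _
  obtain ⟨ψ, hν, hres⟩ := hext
  rw [finsum_eq_sum_of_fintype] at hν
  have hI' : ∀ g : G, g ∈ I ↔ Helper6.conjFun N g (φ : N → ℂ) = (φ : N → ℂ) := by
    intro g
    rw [hI]
    constructor
    · intro h
      funext n
      rw [Helper6.conjFun_apply]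
      exact h n ⟨g * n * g⁻¹, _⟩ rfl
    · intro h n n' hn'
      have h2 := congrFun h n
      rw [Helper6.conjFun_apply] at h2
      have e : n' = ⟨g * n * g⁻¹, hN.conj_mem (n : G) n.2 g⟩ := Subtype.ext hn'
      rw [e]
      exact h2
  obtain ⟨hχ₁, hnorm⟩ := Helper13.ind_ext_irr N φ.2 I hI' hNI ψ.2 hres
  have hν₁ := Helper13.fs_ind_of_ext N φ.2 I hI' hNI ψ.2 hres hν
  have hdeg₁ : indFun I (ψ : I → ℂ) 1 = ((charDegree (φ : N → ℂ) * I.index : ℕ) : ℂ) := by
    rw [Helper2.indFun_apply_one]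
    have h1 := hres 1
    rw [map_one] at h1
    rw [h1, Helper24.charDegree_spec (Helper24.isCharacter_of_irr φ.2)]
    push_cast
    ring
  obtain ⟨χ₁, hχ₁def⟩ : ∃ χ₁ : G → ℂ, χ₁ = indFun I (ψ : I → ℂ) := ⟨_, rfl⟩
  rw [← hχ₁def] at hχ₁ hnorm hν₁ hdeg₁
  have hcomm : ⁅N, N⁆ = N := by
    rcases hmin ⁅N, N⁆ inferInstance (Subgroup.commutator_le_left N N) with h | h
    · exfalso
      apply hna
      refine ⟨⟨fun a b => ?_⟩⟩
      have h2 := (Subgroup.commutator_eq_bot_iff_le_centralizer).1 h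
      have h3 := Subgroup.mem_centralizer_iff.1 (h2 a.2) b b.2
      exact Subtype.ext h3.symm
    · exact h
  have hlin : ∀ η : G → ℂ, IsIrrCharacter G η → charDegree η = 1 →
      ∃ lam : G →* ℂˣ, (∀ g, η g = ((lam g : ℂˣ) : ℂ)) ∧ ∀ n ∈ N, lam n = 1 := by
    intro η hη hd
    have h1 : η 1 = 1 := by
      rw [Helper24.charDegree_spec (Helper24.isCharacter_of_irr hη), hd, Nat.cast_one]
    obtain ⟨lam, hlam⟩ := Helper24.exists_hom_of_linear (Helper24.isCharacter_of_irr hη) h1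
    refine ⟨lam, hlam, fun n hn => ?_⟩
    have hle : ⁅N, N⁆ ≤ lam.ker := by
      rw [Subgroup.commutator_le]
      intro a _ b _
      rw [MonoidHom.mem_ker, map_commutatorElement]
      exact commutatorElement_eq_one_iff_commute.2 (Commute.all _ _)
    rw [hcomm] at hle
    exact MonoidHom.mem_ker.1 (hle hn)
  have hrealsq : ∀ η : G → ℂ, IsIrrCharacter G η → charDegree η = 1 →
      (Nat.card G : ℂ)⁻¹ * ∑ g : G, η (g * g) = 1 → ∀ g, η g * η g = 1 := by
    intro η hη hd hνη g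
    obtain ⟨lam, hlam, -⟩ := hlin η hη hd
    have hreal : ∀ s : G, (η s).im = 0 := by
      by_contra hcon
      obtain ⟨s, hs⟩ := not_forall.1 hcon
      have h0 := (Helper25.fs_indicator hη).2 ⟨s, hs⟩
      rw [hνη] at h0
      exact one_ne_zero h0
    have h1 : η g⁻¹ = (starRingEnd ℂ) (η g) :=
      Helper24.char_inv (Helper24.isCharacter_of_irr hη) g
    have h2 : (starRingEnd ℂ) (η g) = η g := Complex.conj_eq_iff_im.2 (hreal g)
    have h3 : η g * η g⁻¹ = 1 := by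
      rw [hlam, hlam, ← Units.val_mul, ← map_mul, mul_inv_cancel, map_one, Units.val_one]
    rw [h1, h2] at h3
    exact h3
  have hprod : ∀ η : G → ℂ, IsIrrCharacter G η → charDegree η = 1 →
      ∀ χ : G → ℂ, IsIrrCharacter G χ → IsIrrCharacter G (η * χ) := by
    intro η hη hd χ hχ
    obtain ⟨lam, hlam, -⟩ := hlin η hη hd
    have h := Helper24.isIrrCharacter_hom_mul lam hχ
    have e : (fun g => ((lam g : ℂˣ) : ℂ) * χ g) = η * χ := by
      funext g
      rw [Pi.mul_apply, hlam]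
    rwa [e] at h
  have hfprop : ∀ η : IrrCharacter G, charDegree (η : G → ℂ) = 1 →
      (Nat.card G : ℂ)⁻¹ * ∑ᶠ g : G, (η : G → ℂ) (g * g) = 1 →
      charDegree ((η : G → ℂ) * χ₁) = charDegree (φ : N → ℂ) * I.index ∧
        (Nat.card G : ℂ)⁻¹ * ∑ᶠ g : G, ((η : G → ℂ) * χ₁) (g * g) = 1 := by
    intro η hd hνη
    rw [finsum_eq_sum_of_fintype] at hνη ⊢
    have hsq := hrealsq η η.2 hd hνη
    obtain ⟨lam, hlam, -⟩ := hlin η η.2 hd
    constructor
    · have h1 := Helper24.charDegree_spec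
        (Helper24.isCharacter_of_irr (hprod η η.2 hd χ₁ hχ₁))
      have h2 : (η : G → ℂ) 1 = 1 := by
        rw [hlam, map_one, Units.val_one]
      rw [Pi.mul_apply, h2, one_mul, hdeg₁] at h1
      exact_mod_cast h1.symm
    · rw [← hν₁]
      congr 1
      refine Finset.sum_congr rfl fun g _ => ?_
      rw [Pi.mul_apply]
      have h3 : (η : G → ℂ) (g * g) = 1 := by
        rw [hlam, map_mul, Units.val_mul, ← hlam]
        exact hsq g
      rw [h3, one_mul]
  have hfib : ∀ (f : {χ : IrrCharacter G // charDegree (χ : G → ℂ) = 1 ∧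
        (Nat.card G : ℂ)⁻¹ * ∑ᶠ g : G, (χ : G → ℂ) (g * g) = 1} → IrrCharacter G)
      (hf : ∀ x, (f x : G → ℂ) = (x.1 : G → ℂ) * χ₁)
      (μ : {χ : IrrCharacter G // charDegree (χ : G → ℂ) = 1 ∧
        (Nat.card G : ℂ)⁻¹ * ∑ᶠ g : G, (χ : G → ℂ) (g * g) = 1}),
      (Finset.univ.filter (fun x => f x = f μ)).card ≤ I.index := by
    intro f hf μ
    have hμsq : ∀ g, (μ.1 : G → ℂ) g * (μ.1 : G → ℂ) g = 1 := by
      have h := μ.2.2
      rw [finsum_eq_sum_of_fintype] at h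
      exact hrealsq _ μ.1.2 μ.2.1 h
    obtain ⟨gmap, hgmap⟩ : ∃ gmap : {χ : IrrCharacter G // charDegree (χ : G → ℂ) = 1 ∧
        (Nat.card G : ℂ)⁻¹ * ∑ᶠ g : G, (χ : G → ℂ) (g * g) = 1} → IrrCharacter G,
        ∀ x, (gmap x : G → ℂ) = (x.1 : G → ℂ) * (μ.1 : G → ℂ) :=
      ⟨fun x => ⟨(x.1 : G → ℂ) * (μ.1 : G → ℂ), hprod _ x.1.2 x.2.1 _ μ.1.2⟩, fun x => rfl⟩
    have hginj : Function.Injective gmap := by
      intro x y hxy
      have h1 : (x.1 : G → ℂ) * (μ.1 : G → ℂ) = (y.1 : G → ℂ) * (μ.1 : G → ℂ) := by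
        rw [← hgmap, ← hgmap, hxy]
      apply Subtype.ext
      apply Subtype.ext
      funext g
      have h2 := congrFun h1 g
      rw [Pi.mul_apply, Pi.mul_apply] at h2
      have hμ0 : (μ.1 : G → ℂ) g ≠ 0 := by
        intro h0
        have h3 := hμsq g
        rw [h0, mul_zero] at h3
        exact zero_ne_one h3
      exact mul_right_cancel₀ hμ0 h2
    rw [← Finset.card_image_of_injective _ hginj]
    apply Helper13.card_linear_stab_le N hχ₁ I.index hnorm
    intro η hη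
    obtain ⟨x, hx, rfl⟩ := Finset.mem_image.1 hη
    have hfx : f x = f μ := (Finset.mem_filter.1 hx).2
    have hfx' : (x.1 : G → ℂ) * χ₁ = (μ.1 : G → ℂ) * χ₁ := by
      rw [← hf, ← hf, hfx]
    obtain ⟨lx, hlx, hlxN⟩ := hlin _ x.1.2 x.2.1
    obtain ⟨lμ, hlμ, hlμN⟩ := hlin _ μ.1.2 μ.2.1
    rw [hgmap]
    constructor
    · intro m g
      rw [Pi.mul_apply, Pi.mul_apply, hlx, hlμ, map_mul, map_mul, hlxN m m.2, hlμN m m.2,
        one_mul, one_mul, ← hlx, ← hlμ]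
    · funext g
      have h2 := congrFun hfx' g
      rw [Pi.mul_apply, Pi.mul_apply] at h2
      rw [Pi.mul_apply, Pi.mul_apply]
      calc (x.1 : G → ℂ) g * (μ.1 : G → ℂ) g * χ₁ g
          = (μ.1 : G → ℂ) g * ((x.1 : G → ℂ) g * χ₁ g) := by ring
        _ = (μ.1 : G → ℂ) g * ((μ.1 : G → ℂ) g * χ₁ g) := by rw [h2]
        _ = ((μ.1 : G → ℂ) g * (μ.1 : G → ℂ) g) * χ₁ g := by ring
        _ = χ₁ g := by rw [hμsq g, one_mul]
  obtain ⟨F, hF⟩ : ∃ F : {χ : IrrCharacter G // charDegree (χ : G → ℂ) = 1 ∧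
        (Nat.card G : ℂ)⁻¹ * ∑ᶠ g : G, (χ : G → ℂ) (g * g) = 1} →
      {χ : IrrCharacter G // charDegree (χ : G → ℂ) = charDegree (φ : N → ℂ) * I.index ∧
        (Nat.card G : ℂ)⁻¹ * ∑ᶠ g : G, (χ : G → ℂ) (g * g) = 1},
      ∀ x, ((F x).1 : G → ℂ) = (x.1 : G → ℂ) * χ₁ :=
    ⟨fun η => ⟨⟨(η.1 : G → ℂ) * χ₁, hprod _ η.1.2 η.2.1 χ₁ hχ₁⟩, hfprop η.1 η.2.1 η.2.2⟩,
      fun x => rfl⟩
  have hfibF : ∀ a ∈ (Finset.univ).image F,
      ((Finset.univ).filter (fun x => F x = a)).card ≤ I.index := by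
    intro a ha
    obtain ⟨μ, -, rfl⟩ := Finset.mem_image.1 ha
    have h1 := hfib (fun x => (F x).1) hF μ
    have h2 : (Finset.univ.filter (fun x => F x = F μ))
        = (Finset.univ.filter (fun x => (F x).1 = (F μ).1)) := by
      ext x
      simp only [Finset.mem_filter, Finset.mem_univ, true_and]
      exact ⟨fun h => congrArg Subtype.val h, fun h => Subtype.ext h⟩
    rw [h2]
    exact h1
  have h1 := Finset.card_le_mul_card_image (Finset.univ) I.index hfibF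
  have h2 : (Finset.univ.image F).card ≤ Fintype.card _ := Finset.card_le_univ _
  rw [Finset.card_univ] at h1
  refine le_trans (le_of_eq Nat.card_eq_fintype_card) (le_trans h1 ?_)
  exact Nat.mul_le_mul_left _ (le_trans h2 (le_of_eq Nat.card_eq_fintype_card.symm))

end Cfsg.Agent.S4912
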