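import Cfsg.Statements.S4916
import Cfsg.Agent.Helper25.GaloisTwo
open Cfsg.Agent.Helper25

set_option autoImplicit false
open Cfsg

namespace Cfsg.Agent.S4916

/-- Let G be a finite group, p a prime and M a maximal ideal of the algebraic integers containing p. Then the principal character is the only irreducible character of degree prime to p in the principal p-block of G if and only if p does not divide the order of G. -/
theorem result {G : Type*} [Group G] [Finite G] (p : ℕ) [Fact p.Prime] (M : Ideal Cfsg.AlgInt) (hM : Cfsg.IsPModular p M) : (∀ χ : Cfsg.IrrCharacter G, χ ∈ Cfsg.principalBlock M G → ¬ p ∣ Cfsg.charDegree (χ : G → ℂ) → (χ : G → ℂ) = fun _ => (1 : ℂ)) ↔ ¬ p ∣ Nat.card G := by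
  classical
  have : Fintype G := Fintype.ofFinite G
  have hMp : M.IsPrime := hM.2.1.isPrime
  have := Helper24.finite_irrCharacter (G := G)
  have : Fintype (IrrCharacter G) := Fintype.ofFinite _
  have hB0 : IsPBlock M (principalBlock M G) := ⟨oneIrr G, rfl⟩
  constructor
  · intro h hp
    have hN : MemLocalIdeal M (((∑ χ ∈ Finset.univ.filter
        (fun χ : IrrCharacter G => χ ∈ principalBlock M G),
        charDegree (χ : G → ℂ) ^ 2 : ℕ)) : ℂ) := by
      have h1 := blockCoeff_memLocalRing hMp hB0 (1 : G)
      have h2 : (((∑ χ ∈ Finset.univ.filter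
          (fun χ : IrrCharacter G => χ ∈ principalBlock M G),
          charDegree (χ : G → ℂ) ^ 2 : ℕ)) : ℂ)
          = ((Nat.card G : ℕ) : ℂ) * blockCoeff (principalBlock M G) (1 : G) := by
        unfold blockCoeff
        rw [← mul_assoc, mul_inv_cancel₀ card_ne_zero_complex, one_mul,
          finsum_mem_eq_sum_ite, ← Finset.sum_filter]
        push_cast
        refine Finset.sum_congr rfl (fun χ _ => ?_)
        rw [Helper24.charDegree_spec (Helper24.isCharacter_of_irr χ.2)]
        simp [pow_two]
      rw [h2]
      exact MemLocalIdeal.mul_right hMp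
        ((memLocalIdeal_natCast_iff hM _).mpr hp) h1
    have h3 : p ∣ (∑ χ ∈ Finset.univ.filter
        (fun χ : IrrCharacter G => χ ∈ principalBlock M G), charDegree (χ : G → ℂ) ^ 2) :=
      (memLocalIdeal_natCast_iff hM _).mp hN
    have hmem : oneIrr G ∈ Finset.univ.filter
        (fun χ : IrrCharacter G => χ ∈ principalBlock M G) := by
      rw [Finset.mem_filter]
      refine ⟨Finset.mem_univ _, ?_⟩
      show SameBlock M (fun _ => 1) (oneIrr G : G → ℂ)
      exact sameBlock_refl hMp.ne_top _
    rw [← Finset.add_sum_erase _ _ hmem] at h3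
    have h4 : p ∣ ∑ χ ∈ (Finset.univ.filter
        (fun χ : IrrCharacter G => χ ∈ principalBlock M G)).erase (oneIrr G),
        charDegree (χ : G → ℂ) ^ 2 := by
      refine Finset.dvd_sum (fun χ hχ => ?_)
      rw [Finset.mem_erase, Finset.mem_filter] at hχ
      have h5 : p ∣ charDegree (χ : G → ℂ) := by
        by_contra h6
        exact hχ.1 (Subtype.ext (h χ hχ.2.2 h6))
      exact dvd_pow h5 (by norm_num)
    have h7 : p ∣ charDegree (oneIrr G : G → ℂ) ^ 2 := (Nat.dvd_add_left h4).mp h3
    have h8 : charDegree (oneIrr G : G → ℂ) = 1 := by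
      have h9 := Helper24.charDegree_spec (Helper24.isCharacter_of_irr (oneIrr G).2)
      have h10 : ((oneIrr G : IrrCharacter G) : G → ℂ) 1 = 1 := rfl
      rw [h10] at h9
      exact_mod_cast h9.symm
    rw [h8] at h7
    have := (Fact.out : p.Prime).one_lt
    have := Nat.le_of_dvd (by norm_num) h7
    omega
  · intro hG χ hχ _
    have h1 : χ = oneIrr G := eq_of_sameBlock_of_pprime hM hG (oneIrr G) χ hχ
    rw [h1]
    rfl

end Cfsg.Agent.S4916
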