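import Cfsg.Statements.S4969
import Cfsg.Agent.Helper25.Bessel
import Mathlib.Algebra.Order.Chebyshev
open Cfsg.Agent.Helper25 Cfsg.Agent.Helper24

set_option autoImplicit false
open Cfsg

namespace Cfsg.Agent.S4969

/-- Let G be a finite group with k conjugacy classes, g ∈ G, and N > 0. Then the sum over the irreducible complex characters χ of G with χ(1) ≥ N of |χ(g)|/χ(1) is at most √(k · #C_G(g)) / N. -/
theorem result {G : Type*} [Group G] [Finite G] (g : G) (N : ℝ) (hN : 0 < N) :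
    ∑ᶠ χ : Cfsg.IrrCharacter G, (if N ≤ ‖(χ : G → ℂ) 1‖ then ‖(χ : G → ℂ) g‖ / ‖(χ : G → ℂ) 1‖ else 0) ≤
      Real.sqrt ((Nat.card (ConjClasses G) : ℝ) * (Nat.card ↥(Subgroup.centralizer ({g} : Set G)) : ℝ)) / N := by
  classical
  have := Fintype.ofFinite G
  have := finite_irrCharacter (G := G)
  have := Fintype.ofFinite (IrrCharacter G)
  rw [finsum_eq_sum_of_fintype]
  have hbes := irr_sum_normSq_le_centralizer g (Finset.univ : Finset (IrrCharacter G))
  have hk := card_irr_le_card_conjClasses (G := G)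
  have hterm : ∀ χ : IrrCharacter G,
      (if N ≤ ‖(χ : G → ℂ) 1‖ then ‖(χ : G → ℂ) g‖ / ‖(χ : G → ℂ) 1‖ else 0)
        ≤ ‖(χ : G → ℂ) g‖ / N := by
    intro χ
    split_ifs with h
    · exact div_le_div_of_nonneg_left (norm_nonneg _) hN h
    · exact div_nonneg (norm_nonneg _) hN.le
  have hsq : (∑ χ : IrrCharacter G, ‖(χ : G → ℂ) g‖) ^ 2
      ≤ (Nat.card (ConjClasses G) : ℝ) * (Nat.card ↥(Subgroup.centralizer ({g} : Set G)) : ℝ) := by
    calc (∑ χ : IrrCharacter G, ‖(χ : G → ℂ) g‖) ^ 2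
        ≤ ((Finset.univ : Finset (IrrCharacter G)).card : ℝ)
            * ∑ χ : IrrCharacter G, ‖(χ : G → ℂ) g‖ ^ 2 := sq_sum_le_card_mul_sum_sq
      _ ≤ (Nat.card (ConjClasses G) : ℝ)
            * (Nat.card ↥(Subgroup.centralizer ({g} : Set G)) : ℝ) := by
          apply mul_le_mul _ hbes (Finset.sum_nonneg fun χ _ => sq_nonneg _) (Nat.cast_nonneg _)
          rw [Finset.card_univ, ← Nat.card_eq_fintype_card]
          exact_mod_cast hk
  calc ∑ χ : IrrCharacter G,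
        (if N ≤ ‖(χ : G → ℂ) 1‖ then ‖(χ : G → ℂ) g‖ / ‖(χ : G → ℂ) 1‖ else 0)
      ≤ ∑ χ : IrrCharacter G, ‖(χ : G → ℂ) g‖ / N := Finset.sum_le_sum fun χ _ => hterm χ
    _ = (∑ χ : IrrCharacter G, ‖(χ : G → ℂ) g‖) / N := by rw [Finset.sum_div]
    _ ≤ _ := by
      apply div_le_div_of_nonneg_right _ hN.le
      exact Real.le_sqrt_of_sq_le hsq

end Cfsg.Agent.S4969
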