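import Cfsg.Statements.S4989
import Cfsg.Agent.Helper25.CharZeros
open Cfsg.Agent.Helper25 Cfsg.Agent.Helper24

set_option autoImplicit false
open Cfsg

namespace Cfsg.Agent.S4989

/-- Let H be a subgroup of the finite group G and χ an irreducible complex character of G. Then the inner product of the restriction of χ to H with itself, (1/#H)·Σ_{h ∈ H} |χ(h)|², is at most 1 + #(Z ∖ H)/#H, where Z is the set of zeros of χ in G. -/
theorem result {G : Type*} [Group G] [Finite G] (H : Subgroup G) (χ : Cfsg.IrrCharacter G) : (Nat.card ↥H : ℝ)⁻¹ * ∑ᶠ h : ↥H, ‖(χ : G → ℂ) h‖ ^ 2 ≤ 1 + (Set.ncard ({x : G | (χ : G → ℂ) x = 0} \ (H : Set G)) : ℝ) / (Nat.card ↥H : ℝ) := by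
  classical
  have := Fintype.ofFinite G
  obtain ⟨χ, hχ⟩ := χ
  simp only
  have hchar := isCharacter_of_irr hχ
  have hHpos : (0 : ℝ) < Nat.card H := by exact_mod_cast Nat.card_pos
  obtain ⟨φ, hφ⟩ : ∃ φ : G → ℝ, ∀ g, φ g =
      if (g ∉ H ∧ χ g ≠ 0) then ‖χ g‖ ^ 2 - 1 else 0 := ⟨_, fun _ => rfl⟩
  have hφnn : 0 ≤ ∑ g : G, φ g := by
    apply char_sum_normSq_sub_one_nonneg hchar ((H : Set G)ᶜ) _ φ
    · intro g hg h0
      rw [hφ, if_pos ⟨hg, h0⟩]
    · intro g hg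
      have hg' : ¬ (g ∉ H ∧ χ g ≠ 0) := hg
      rw [hφ, if_neg hg']
    · intro g k hk
      simp only [Set.mem_compl_iff, SetLike.mem_coe]
      rw [pow_coprime_mem_iff H g k hk]
  have hsum := irr_norm_sum hχ
  have hpt : ∀ g : G, ‖χ g‖ ^ 2 - 1 = (if g ∈ H then ‖χ g‖ ^ 2 - 1 else 0)
      - (if (χ g = 0 ∧ g ∉ H) then 1 else 0) + φ g := by
    intro g
    rw [hφ]
    by_cases hH : g ∈ H
    · simp [hH]
    · by_cases h0 : χ g = 0
      · simp [hH, h0]
      · simp [hH, h0]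
  have hcard : (Nat.card G : ℝ) = ∑ _g : G, (1 : ℝ) := by
    rw [Finset.sum_const, Finset.card_univ, Nat.card_eq_fintype_card]
    simp
  have h1 : ∑ g : G, (‖χ g‖ ^ 2 - 1) = 0 := by
    rw [Finset.sum_sub_distrib, hsum, hcard]
    ring
  rw [Finset.sum_congr rfl (fun g _ => hpt g), Finset.sum_add_distrib,
    Finset.sum_sub_distrib] at h1
  have hA : ∑ g : G, (if g ∈ H then ‖χ g‖ ^ 2 - 1 else 0)
      = (∑ᶠ h : H, ‖χ h‖ ^ 2) - Nat.card H := by
    rw [finsum_eq_sum_of_fintype, ← Finset.sum_filter,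
      Finset.sum_subtype (p := fun g => g ∈ H) _ (by simp), Finset.sum_sub_distrib,
      Finset.sum_const, Finset.card_univ, Nat.card_eq_fintype_card]
    simp
  have hB : ∑ g : G, (if (χ g = 0 ∧ g ∉ H) then (1 : ℝ) else 0)
      = Set.ncard ({x : G | χ x = 0} \ (H : Set G)) := by
    rw [Finset.sum_boole, Set.ncard_eq_toFinset_card']
    congr 2
    ext g
    simp
  rw [hA, hB] at h1
  rw [inv_mul_le_iff₀ hHpos, mul_add, mul_one, mul_div_cancel₀ _ hHpos.ne']
  linarith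

end Cfsg.Agent.S4989
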