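import Cfsg.Statements.S4996
import Cfsg.Agent.Helper25.CharPos
open Cfsg.Agent.Helper25
open scoped ComplexConjugate

set_option autoImplicit false
open Cfsg

namespace Cfsg.Agent.S4996

/-- Let N be a normal subgroup of the finite group G and χ an irreducible complex character of G. Then the restriction of χ to N is not irreducible if and only if χ vanishes on some whole coset Nx of N in G. -/
theorem result {G : Type*} [Group G] [Finite G] (N : Subgroup G) [N.Normal] (χ : Cfsg.IrrCharacter G) : ¬ Cfsg.IsIrrCharacter ↥N (fun n : ↥N => (χ : G → ℂ) n) ↔ ∃ x : G, ∀ n : ↥N, (χ : G → ℂ) ((n : G) * x) = 0 := by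
  classical
  have : Fintype G := Fintype.ofFinite G
  have : Fintype N := Fintype.ofFinite N
  have := Helper24.finite_irrCharacter (G := G)
  have : Fintype (IrrCharacter G) := Fintype.ofFinite (IrrCharacter G)
  have hχc : IsCharacter G (χ : G → ℂ) := Helper24.isCharacter_of_irr χ.2
  set s : G → ℂ := cosetNorm N (χ : G → ℂ) with hs
  have hsc : IsCharacter G s := isCharacter_cosetNorm N hχc
  have hG0 : (Nat.card G : ℂ) ≠ 0 := by exact_mod_cast Nat.card_pos.ne'
  have hN0 : (0 : ℝ) < (Nat.card N : ℝ) := by exact_mod_cast (Nat.card_pos (α := N))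
  let triv : IrrCharacter G := ⟨fun _ => (1 : ℂ), isIrrCharacter_one⟩
  have htriv : classInner s (triv : G → ℂ) = 1 := by
    rw [hs]
    show classInner (cosetNorm N (χ : G → ℂ)) (fun _ => (1 : ℂ)) = 1
    rw [classInner_cosetNorm_one, Helper2.classInner_irr χ.2 χ.2, if_pos rfl]
  -- real form of s
  have hsreal : ∀ g : G, s g = (((Nat.card N : ℝ)⁻¹ * ∑ n : N, ‖(χ : G → ℂ) ((n : G) * g)‖ ^ 2 : ℝ) : ℂ) :=
    fun g => cosetNorm_eq_ofReal N (χ : G → ℂ) g
  have hszero : ∀ g : G, s g = 0 ↔ ∀ n : N, (χ : G → ℂ) ((n : G) * g) = 0 := by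
    intro g
    rw [hsreal g, Complex.ofReal_eq_zero]
    constructor
    · intro h n
      rcases mul_eq_zero.1 h with h | h
      · exact absurd (inv_eq_zero.1 h) hN0.ne'
      · have := (Finset.sum_eq_zero_iff_of_nonneg (fun n _ => by positivity)).1 h n (Finset.mem_univ n)
        exact norm_eq_zero.1 (pow_eq_zero_iff (two_ne_zero) |>.1 this)
    · intro h
      rw [Finset.sum_eq_zero (fun n _ => by rw [h n, norm_zero]; ring), mul_zero]
  have hs1 : s 1 = classInner (fun n : N => (χ : G → ℂ) n) (fun n : N => (χ : G → ℂ) n) :=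
    cosetNorm_one N (χ : G → ℂ)
  have hresc : IsCharacter N (fun n : N => (χ : G → ℂ) n) := Helper24.isCharacter_restrict N hχc
  constructor
  · -- not irreducible ⇒ vanishing coset
    intro hnirr
    by_contra hcon
    push Not at hcon
    apply hnirr
    apply Helper6.isIrr_of_norm_one hresc
    rw [← hs1]
    have hsne : ∀ g : G, s g ≠ 0 := by
      intro g h0
      obtain ⟨n, hn⟩ := hcon g
      exact hn ((hszero g).1 h0 n)
    -- norms
    have hnorm : ∀ g : G, ((‖s g‖ : ℝ) : ℂ) = s g := by
      intro g
      rw [hsreal g, Complex.norm_real, Real.norm_of_nonneg (by positivity)]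
    -- AM-GM over nonidentity elements
    have hAM := char_sum_norm_sub_one_nonneg hsc {g : G | g ≠ 1}
      (fun g k hk => by
        have := pow_coprime_mem_iff (⊥ : Subgroup G) g k hk
        simp only [Subgroup.mem_bot] at this
        simp only [Set.mem_ofPred_eq, ne_eq, this])
      (fun g => if g ≠ 1 then ‖s g‖ - 1 else 0)
      (fun g hg _ => if_pos hg)
      (fun g hg => by
        by_cases h1 : g ≠ 1
        · exact absurd ⟨h1, hsne g⟩ hg
        · rw [if_neg h1])
    -- total sum
    have htot : ∑ g : G, s g = (Nat.card G : ℂ) := by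
      have h1 := htriv
      unfold classInner at h1
      have h2 : ∑ g : G, s g * conj ((triv : G → ℂ) g) = ∑ g : G, s g := by
        refine Finset.sum_congr rfl fun g _ => ?_
        show s g * conj (1 : ℂ) = s g
        simp
      rw [h2] at h1
      field_simp at h1
      exact h1
    have htot' : ∑ g : G, ‖s g‖ = (Nat.card G : ℝ) := by
      have : ((∑ g : G, ‖s g‖ : ℝ) : ℂ) = ((Nat.card G : ℝ) : ℂ) := by
        rw [Complex.ofReal_sum, Finset.sum_congr rfl (fun g _ => hnorm g), htot]
        simp
      exact_mod_cast this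
    have hsplit : ∑ g : G, (if g ≠ 1 then ‖s g‖ - 1 else 0) =
        (Nat.card G : ℝ) - ‖s 1‖ - ((Nat.card G : ℝ) - 1) := by
      have h1 : ∀ g : G, (if g ≠ 1 then ‖s g‖ - 1 else 0) =
          (‖s g‖ - 1) - (if g = 1 then ‖s 1‖ - 1 else 0) := by
        intro g
        by_cases h : g = 1
        · subst h; simp
        · simp [h]
      rw [Finset.sum_congr rfl (fun g _ => h1 g), Finset.sum_sub_distrib, Finset.sum_sub_distrib,
        htot', Finset.sum_ite_eq' Finset.univ (1 : G), if_pos (Finset.mem_univ _),
        Finset.sum_const, Finset.card_univ, nsmul_eq_mul, mul_one, ← Nat.card_eq_fintype_card]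
      ring
    rw [hsplit] at hAM
    have hle : ‖s 1‖ ≤ 1 := by linarith
    obtain ⟨m, hm⟩ := Helper2.classInner_char_nat hresc hresc
    rw [← hs1] at hm
    have hm1 : m ≤ 1 := by
      rw [hm, Complex.norm_natCast] at hle
      exact_mod_cast hle
    have hm0 : m ≠ 0 := by
      rintro rfl
      exact hsne 1 (by rw [hm]; simp)
    have : m = 1 := by omega
    rw [hm, this]; simp
  · -- vanishing coset ⇒ not irreducible
    rintro ⟨x, hx⟩ hirr
    have hsx : s x = 0 := (hszero x).2 hx
    have hs1' : s 1 = 1 := by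
      rw [hs1, Helper2.classInner_irr hirr hirr, if_pos rfl]
    have hexp := Helper2.class_fn_expansion (Helper2.IsCharacter.isClassFunction hsc)
    have hnat : ∀ β : IrrCharacter G, ∃ m : ℕ, classInner s (β : G → ℂ) = (m : ℂ) :=
      fun β => classInner_cosetNorm_nat N hχc β.2
    choose a ha using hnat
    have hat : a triv = 1 := by
      have := ha triv
      rw [htriv] at this
      exact_mod_cast this.symm
    have heval : ∀ g : G, s g = ∑ β : IrrCharacter G, (a β : ℂ) * (β : G → ℂ) g := by
      intro g
      conv_lhs => rw [hexp]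
      rw [Finset.sum_apply]
      refine Finset.sum_congr rfl fun β _ => ?_
      rw [Pi.smul_apply, smul_eq_mul, ha]
    have h1 : (1 : ℕ) = ∑ β : IrrCharacter G, a β * charDegree (β : G → ℂ) := by
      have h2 := heval 1
      rw [hs1'] at h2
      have h3 : ∀ β : IrrCharacter G, (a β : ℂ) * (β : G → ℂ) 1 =
          ((a β * charDegree (β : G → ℂ) : ℕ) : ℂ) := by
        intro β
        rw [Helper24.charDegree_spec (Helper24.isCharacter_of_irr β.2), Nat.cast_mul]
      rw [Finset.sum_congr rfl (fun β _ => h3 β), ← Nat.cast_sum] at h2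
      exact_mod_cast h2
    have hzero : ∀ β : IrrCharacter G, β ≠ triv → a β = 0 := by
      intro β hβ
      rw [← Finset.add_sum_erase _ _ (Finset.mem_univ triv)] at h1
      have hd1 : charDegree (triv : G → ℂ) = 1 := by
        have := Helper24.charDegree_spec (Helper24.isCharacter_of_irr triv.2)
        have h4 : (triv : G → ℂ) 1 = 1 := rfl
        rw [h4] at this
        exact_mod_cast this.symm
      rw [hat, hd1] at h1
      have h5 : ∑ β ∈ Finset.univ.erase triv, a β * charDegree (β : G → ℂ) = 0 := by omega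
      have h6 := (Finset.sum_eq_zero_iff.1 h5) β (Finset.mem_erase.2 ⟨hβ, Finset.mem_univ _⟩)
      rcases Nat.mul_eq_zero.1 h6 with h | h
      · exact h
      · exact absurd h (Helper24.irr_degree_pos β.2).ne'
    have hsx' : s x = 1 := by
      rw [heval x, Finset.sum_eq_single triv]
      · rw [hat]; show ((1 : ℕ) : ℂ) * (1 : ℂ) = 1; simp
      · intro β _ hβ
        rw [hzero β hβ]; simp
      · intro h; exact absurd (Finset.mem_univ _) h
    rw [hsx] at hsx'
    exact zero_ne_one hsx'

end Cfsg.Agent.S4996
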