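import Cfsg.Statements.S5001
import Cfsg.Agent.Helper6.ProjHeight

set_option autoImplicit false
open Cfsg

namespace Cfsg.Agent.S5001

open Cfsg.Agent Cfsg.Agent.Helper6 in
/-- Let p be a prime, G a finite group and B a p-block of G (relative to a maximal ideal M of the algebraic integers containing p) with defect group D. Let Z be a central p-subgroup of G contained in D and λ a linear character of Z (a homomorphism to the nonzero complex numbers). Say an irreducible character χ of G lies over λ when χ(z) = χ(1)λ(z) for all z ∈ Z. If some irreducible character in B lying over λ has height zero, then λ extends to a linear character of D. -/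
theorem result {G : Type*} [Group G] [Finite G] (p : ℕ) [Fact p.Prime] (M : Ideal Cfsg.AlgInt) (hM : Cfsg.IsPModular p M) (B : Set (Cfsg.IrrCharacter G)) (hB : Cfsg.IsPBlock M B) (D : Subgroup G) (hD : Cfsg.IsDefectGroup p M B D) (Z : Subgroup G) (hZc : Z ≤ Subgroup.center G) (hZp : IsPGroup p ↥Z) (hZD : Z ≤ D) (lam : ↥Z →* ℂˣ) (χ : Cfsg.IrrCharacter G) (hχ : χ ∈ B) (hover : (∀ z : ↥Z, (χ : G → ℂ) z = (χ : G → ℂ) 1 * (lam z : ℂ))) (h0 : Cfsg.blockHeight p B (χ : G → ℂ) = 0) : (∃ μ : ↥D →* ℂˣ, ∀ z : ↥Z, μ ⟨(z : G), hZD z.2⟩ = lam z) := by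
  classical
  haveI : Fintype G := Fintype.ofFinite G
  obtain ⟨g₀, hg₀, P, rfl⟩ := hD
  have hg₀C : g₀ ∈ Subgroup.centralizer ({g₀} : Set G) := by
    rw [Subgroup.mem_centralizer_iff]
    intro t ht
    rw [Set.mem_singleton_iff] at ht
    rw [ht]
  have hcomm : ∀ c ∈ Subgroup.centralizer ({g₀} : Set G), c * g₀ = g₀ * c := by
    intro c hc
    exact (Subgroup.mem_centralizer_iff.mp hc g₀ (Set.mem_singleton g₀)).symm
  exact Helper6.ph_key hM (Subgroup.centralizer ({g₀} : Set G)) g₀ hg₀C hcomm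
    (P : Subgroup (Subgroup.centralizer ({g₀} : Set G))) Z hZc hZp hZD lam χ hover
    (Helper6.ph_unit hM hB χ hχ h0 g₀ hg₀)

end Cfsg.Agent.S5001
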