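import Cfsg.Statements.S5011
-- import your own Cfsg.Agent.* helpers here

set_option autoImplicit false
open Cfsg

namespace Cfsg.Agent.S5011

/-- Let G be a finite non-abelian simple group and ρ an irreducible complex representation of G on a space of dimension greater than one (irreducible in the sense that the only subspaces invariant under every ρ(x) are 0 and the whole space). Then for every non-identity element g of G, the centralizer of g does not act irreducibly: there is a non-zero proper subspace invariant under ρ(c) for every c commuting with g. -/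
theorem result {G : Type*} [Group G] [Finite G] [IsSimpleGroup G]
    (hG : ¬ IsMulCommutative G) {V : Type*} [AddCommGroup V] [Module ℂ V] [FiniteDimensional ℂ V]
    (ρ : Representation ℂ G V)
    (hirr : ∀ W : Submodule ℂ V, (∀ x : G, ∀ v ∈ W, ρ x v ∈ W) → W = ⊥ ∨ W = ⊤)
    (hdim : 1 < Module.finrank ℂ V) (g : G) (hg : g ≠ 1) :
    ∃ W : Submodule ℂ V, W ≠ ⊥ ∧ W ≠ ⊤ ∧ ∀ c ∈ Subgroup.centralizer ({g} : Set G), ∀ v ∈ W, ρ c v ∈ W := by
  have hnt : Nontrivial V := Module.nontrivial_of_finrank_pos (R := ℂ) (by omega)
  obtain ⟨μ, hμ⟩ := Module.End.exists_eigenvalue (ρ g)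
  refine ⟨Module.End.eigenspace (ρ g) μ, hμ, ?_, ?_⟩
  · intro htop
    have hgv : ∀ v : V, ρ g v = μ • v := by
      intro v
      have hv : v ∈ Module.End.eigenspace (ρ g) μ := by rw [htop]; trivial
      exact Module.End.mem_eigenspace_iff.mp hv
    have hgZ : g ∈ (Subgroup.center (V →ₗ[ℂ] V)ˣ).comap ρ.asGroupHom := by
      rw [Subgroup.mem_comap, Subgroup.mem_center_iff]
      intro u
      apply Units.ext
      apply LinearMap.ext
      intro v
      simp only [Units.val_mul, Module.End.mul_apply, Representation.asGroupHom_apply]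
      rw [hgv, hgv, map_smul]
    have hZ : (Subgroup.center (V →ₗ[ℂ] V)ˣ).comap ρ.asGroupHom = ⊤ := by
      rcases IsSimpleGroup.eq_bot_or_eq_top_of_normal
        ((Subgroup.center (V →ₗ[ℂ] V)ˣ).comap ρ.asGroupHom) inferInstance with h | h
      · rw [h, Subgroup.mem_bot] at hgZ
        exact absurd hgZ hg
      · exact h
    have hcomm : ∀ x y : G, ∀ v : V, ρ x (ρ y v) = ρ y (ρ x v) := by
      intro x y v
      have hx : x ∈ (Subgroup.center (V →ₗ[ℂ] V)ˣ).comap ρ.asGroupHom := by rw [hZ]; trivial
      rw [Subgroup.mem_comap, Subgroup.mem_center_iff] at hx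
      have h1 := hx (ρ.asGroupHom y)
      have h2 := congrArg (fun u : (V →ₗ[ℂ] V)ˣ => (u : V →ₗ[ℂ] V) v) h1
      simp only [Units.val_mul, Module.End.mul_apply, Representation.asGroupHom_apply] at h2
      exact h2.symm
    have hscal : ∀ x : G, ∃ ν : ℂ, ∀ v : V, ρ x v = ν • v := by
      intro x
      obtain ⟨ν, hν⟩ := Module.End.exists_eigenvalue (ρ x)
      refine ⟨ν, ?_⟩
      have hinv : ∀ y : G, ∀ v ∈ Module.End.eigenspace (ρ x) ν, ρ y v ∈ Module.End.eigenspace (ρ x) ν := by
        intro y v hv
        rw [Module.End.mem_eigenspace_iff] at hv ⊢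
        rw [hcomm x y v, hv, map_smul]
      rcases hirr _ hinv with h | h
      · exact absurd h hν
      · intro v
        have hv : v ∈ Module.End.eigenspace (ρ x) ν := by rw [h]; trivial
        exact Module.End.mem_eigenspace_iff.mp hv
    obtain ⟨v, hv⟩ := exists_ne (0 : V)
    have hL : ∀ x : G, ∀ w ∈ Submodule.span ℂ ({v} : Set V), ρ x w ∈ Submodule.span ℂ ({v} : Set V) := by
      intro x w hw
      obtain ⟨ν, hν⟩ := hscal x
      rw [hν]
      exact Submodule.smul_mem _ _ hw
    rcases hirr _ hL with h | h
    · have : v ∈ Submodule.span ℂ ({v} : Set V) := Submodule.mem_span_singleton_self v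
      rw [h, Submodule.mem_bot] at this
      exact hv this
    · have h1 : Module.finrank ℂ (Submodule.span ℂ ({v} : Set V)) = 1 := finrank_span_singleton hv
      rw [h, finrank_top] at h1
      omega
  · intro c hc v hv
    rw [Module.End.mem_eigenspace_iff] at hv ⊢
    have hcg : c * g = g * c := by
      rw [Subgroup.mem_centralizer_iff] at hc
      exact (hc g (Set.mem_singleton g)).symm
    have : ρ g (ρ c v) = ρ c (ρ g v) := by
      rw [← Module.End.mul_apply, ← Module.End.mul_apply, ← map_mul, ← map_mul, hcg]
    rw [this, hv, map_smul]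

end Cfsg.Agent.S5011
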