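import Cfsg.Statements.S5222
import Cfsg.Agent.Helper27.TTg
import Cfsg.Agent.S5098

set_option autoImplicit false
open Cfsg

namespace Cfsg.Agent.S5222

/-- Let F be a saturated fusion system over a finite p-group S whose normalizer fusion system of S is the inner fusion system of S (Aut_F(S) is a p-group). Then for every subgroup Q of S with [S, S] ≤ Q ≤ Φ(S), the normalizer fusion system of Q in F is the inner fusion system of N_S(Q) = S. -/
theorem result {Ω : Type*} [Group Ω] {S : Subgroup Ω} [Finite S] (p : ℕ) [Fact p.Prime] (hS : IsPGroup p S) (F : Cfsg.FusionSystem S) (hF : F.IsSaturated p) (hN : ∀ N : Cfsg.FusionSystem (Cfsg.FusionSystem.normalizerIn S S), F.IsNormalizerSystem S N → ∀ P : Subgroup Ω, N.Hom P = (Cfsg.innerFusionSystem (Cfsg.FusionSystem.normalizerIn S S)).Hom P) (Q : Subgroup Ω) (h1 : (commutator ↥S).map S.subtype ≤ Q) (h2 : Q ≤ (frattini ↥S).map S.subtype) : ∀ N : Cfsg.FusionSystem (Cfsg.FusionSystem.normalizerIn S Q),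 F.IsNormalizerSystem Q N → ∀ P : Subgroup Ω, N.Hom P = (Cfsg.innerFusionSystem (Cfsg.FusionSystem.normalizerIn S Q)).Hom P := by
  intro N hNQ
  have hQS : Q ≤ S := h2.trans (Subgroup.map_subtype_le _)
  have hcommS := Cfsg.Agent.Helper27.TT.comm_mem_of_commutator_le h1
  have hSN : S ≤ Subgroup.normalizer (Q : Set Ω) := by
    intro g hg
    rw [Subgroup.mem_normalizer_iff]
    intro q
    constructor
    · intro hq
      have e : g * q * g⁻¹ = q * (q⁻¹ * (g * q * g⁻¹)) := by group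
      rw [e]; exact Q.mul_mem hq (hcommS g hg q (hQS hq))
    · intro hq
      have e : q = (g * q * g⁻¹) *
          ((g * q * g⁻¹)⁻¹ * (g⁻¹ * (g * q * g⁻¹) * g⁻¹⁻¹)) := by group
      rw [e]; exact Q.mul_mem hq (hcommS g⁻¹ (S.inv_mem hg) _ (hQS hq))
  have hle : S ≤ Cfsg.FusionSystem.normalizerIn S Q := le_inf le_rfl hSN
  have hle' : Cfsg.FusionSystem.normalizerIn S Q ≤ S := inf_le_left
  have hQn : F.IsFullyNormalized Q := by
    refine ⟨hQS, fun Q' _ => ?_⟩
    have hfin : Finite ↥(Cfsg.FusionSystem.normalizerIn S Q) :=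
      Cfsg.Agent.Helper26.finite_of_le hle'
    exact (Subgroup.card_le_of_le (inf_le_left : Cfsg.FusionSystem.normalizerIn S Q' ≤ S)).trans
      (Subgroup.card_le_of_le hle)
  haveI hfinS' : Finite ↥(Cfsg.FusionSystem.normalizerIn S Q) :=
    Cfsg.Agent.Helper26.finite_of_le hle'
  have hS' : IsPGroup p ↥(Cfsg.FusionSystem.normalizerIn S Q) := hS.to_le hle'
  have hsat : N.IsSaturated p := Cfsg.Agent.S5098.result p hS F hF Q hQn N hNQ
  have hQsc : N.StronglyClosed Q := by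
    refine ⟨le_inf hQS Subgroup.le_normalizer, fun R hR φ hφ x => ?_⟩
    rw [hNQ R] at hφ
    obtain ⟨-, -, -, ψ, hψ, hψφ, hψQ⟩ := hφ
    have h3 : ψ (Subgroup.inclusion le_sup_left x) ∈ (Q.subgroupOf (R ⊔ Q)).map ψ :=
      ⟨_, Subgroup.mem_subgroupOf.2 (hR x.2), rfl⟩
    rw [hψQ, hψφ x] at h3
    exact h3
  have hcomm' : ∀ g ∈ Cfsg.FusionSystem.normalizerIn S Q,
      ∀ x ∈ Cfsg.FusionSystem.normalizerIn S Q, x⁻¹ * (g * x * g⁻¹) ∈ Q :=
    fun g hg x hx => hcommS g (hle' hg) x (hle' hx)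
  have htop : ∀ φ ∈ N.Hom (Cfsg.FusionSystem.normalizerIn S Q),
      ∀ x : ↥(Cfsg.FusionSystem.normalizerIn S Q), (x : Ω)⁻¹ * φ x ∈ Q := by
    intro φ hφ x
    have hφF : φ ∈ F.Hom (Cfsg.FusionSystem.normalizerIn S Q) := by
      rw [hNQ _] at hφ; exact hφ.1
    have hφ' : φ.comp (Subgroup.inclusion hle) ∈ F.Hom S :=
      Cfsg.Agent.Helper26.restrict_mem F hφF hle (fun _ => rfl)
    obtain ⟨g, hg, hφg⟩ := Cfsg.Agent.Helper27.TT.top_inner_of_normalizer_inner F hN hφ'
    have h4 := hφg ⟨x, hle' x.2⟩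
    have h5 : φ x = g * (x : Ω) * g⁻¹ := h4
    rw [h5]
    exact hcommS g hg x (hle' x.2)
  have hleT := Cfsg.Agent.Helper27.TT.le_trivSystem p hS' N hsat Q hQsc hcomm' htop
  have hN' : N = Cfsg.innerFusionSystem (Cfsg.FusionSystem.normalizerIn S Q) := by
    apply Cfsg.Agent.Helper27.TT.fusion_tate p hS' N hsat
    intro l t ht
    have hAcard : Nat.card (Multiplicative (ZMod p)) = p := by
      rw [Nat.card_eq_fintype_card, Fintype.card_multiplicative, ZMod.card]
    have ht2 := h2 (Cfsg.Agent.Helper27.TT.hyperfocal_le_of_le_trivSystem N p Q hcomm' hleT ht)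
    obtain ⟨t', ht', htt⟩ := ht2
    have e : Subgroup.inclusion hle t' = t := Subtype.ext htt
    have h6 := Cfsg.Agent.Lead.frattini_le_ker hAcard hS (l.comp (Subgroup.inclusion hle)) ht'
    have h7 : l (Subgroup.inclusion hle t') = 1 := MonoidHom.mem_ker.1 h6
    rw [e] at h7
    exact h7
  intro P
  rw [hN']

end Cfsg.Agent.S5222
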