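import Cfsg.Statements.S5236
import Cfsg.Agent.Helper27.CoprimeAut
import Cfsg.Agent.Helper26.FusionNormal2

set_option autoImplicit false
open Cfsg

namespace Cfsg.Agent.S5236

open scoped commutatorElement

/-- `Ω₁(P)` is invariant under the automorphisms of `P`. -/
theorem omegaOne_aut_mem {Ω : Type*} [Group Ω] (p : ℕ) (P : Subgroup Ω) (α : MulAut P)
    (y : Ω) (hy : y ∈ Cfsg.omegaOne p P) :
    ∃ h : y ∈ P, ((α ⟨y, h⟩ : P) : Ω) ∈ Cfsg.omegaOne p P := by
  unfold Cfsg.omegaOne at hy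
  induction hy using Subgroup.closure_induction with
  | mem x hx =>
    refine ⟨hx.1, ?_⟩
    apply Subgroup.subset_closure
    refine ⟨(α ⟨x, hx.1⟩).2, ?_⟩
    have h1 : (α ⟨x, hx.1⟩) ^ p = 1 := by
      rw [← map_pow]
      have : (⟨x, hx.1⟩ : P) ^ p = 1 := Subtype.ext hx.2
      rw [this, map_one]
    have h2 := congrArg Subtype.val h1
    simpa using h2
  | one =>
    refine ⟨P.one_mem, ?_⟩
    have : (⟨1, P.one_mem⟩ : P) = 1 := rfl
    rw [this, map_one]
    exact Subgroup.one_mem _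
  | mul a b _ _ iha ihb =>
    obtain ⟨ha, ha'⟩ := iha
    obtain ⟨hb, hb'⟩ := ihb
    refine ⟨P.mul_mem ha hb, ?_⟩
    have : (⟨a * b, P.mul_mem ha hb⟩ : P) = ⟨a, ha⟩ * ⟨b, hb⟩ := rfl
    rw [this, map_mul]
    exact Subgroup.mul_mem _ ha' hb'
  | inv a _ iha =>
    obtain ⟨ha, ha'⟩ := iha
    refine ⟨P.inv_mem ha, ?_⟩
    have : (⟨a⁻¹, P.inv_mem ha⟩ : P) = (⟨a, ha⟩ : P)⁻¹ := rfl
    rw [this, map_inv]
    exact Subgroup.inv_mem _ ha'

theorem omegaOne_le {Ω : Type*} [Group Ω] (p : ℕ) (P : Subgroup Ω) : Cfsg.omegaOne p P ≤ P := by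
  unfold Cfsg.omegaOne
  rw [Subgroup.closure_le]
  intro x hx
  exact hx.1

open Cfsg.Agent.Helper26 Cfsg.Agent.Helper27 Cfsg.FusionSystem in
/-- Let p be an odd prime, F a saturated fusion system over a finite p-group S and P a subgroup of S strongly closed in F. Then P is normal in F if and only if Ω₁(P) (the subgroup generated by the elements of order p of P) has a chain of subgroups 1 = Q₀ ≤ Q₁ ≤ ⋯ ≤ Qₙ = Ω₁(P), each strongly closed in F, with [Qᵢ₊₁, P] ≤ Qᵢ for all i. -/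
theorem result {Ω : Type*} [Group Ω] {S : Subgroup Ω} [Finite S] (p : ℕ) [Fact p.Prime] (hS : IsPGroup p S) (F : Cfsg.FusionSystem S) (hF : F.IsSaturated p) (hp : p ≠ 2) (P : Subgroup Ω) (hP : F.StronglyClosed P) : F.IsNormal P ↔ ∃ (n : ℕ) (Q : Fin (n + 1) → Subgroup Ω), Q 0 = ⊥ ∧ Q (Fin.last n) = Cfsg.omegaOne p P ∧ Monotone Q ∧ (∀ i : Fin (n + 1), F.StronglyClosed (Q i)) ∧ ∀ i : Fin n, ⁅Q i.succ, P⁆ ≤ Q i.castSucc := by
  have hPS : P ≤ S := hP.1
  have hPfin : Finite P := finite_of_le hPS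
  constructor
  · intro hN
    have hnil : Group.IsNilpotent P := (hS.to_le hPS).isNilpotent
    refine ⟨Group.nilpotencyClass P,
      fun i => Cfsg.omegaOne p P ⊓ (Subgroup.upperCentralSeries P (i : ℕ)).map P.subtype,
      ?_, ?_, ?_, ?_, ?_⟩
    · show Cfsg.omegaOne p P ⊓ (Subgroup.upperCentralSeries P
        ((0 : Fin (Group.nilpotencyClass P + 1)) : ℕ)).map P.subtype = ⊥
      rw [Fin.val_zero, Subgroup.upperCentralSeries_zero, Subgroup.map_bot, inf_bot_eq]
    · show Cfsg.omegaOne p P ⊓ (Subgroup.upperCentralSeries P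
        ((Fin.last (Group.nilpotencyClass P)) : ℕ)).map P.subtype = Cfsg.omegaOne p P
      rw [Fin.val_last, Subgroup.upperCentralSeries_nilpotencyClass, ← MonoidHom.range_eq_map,
        Subgroup.range_subtype]
      exact inf_eq_left.2 (omegaOne_le p P)
    · intro i j hij
      exact inf_le_inf_left _ (Subgroup.map_mono (Subgroup.upperCentralSeries_mono P hij))
    · intro i
      apply stronglyClosed_of_normal
      apply Cfsg.Agent.S5085.result F P _ hN (inf_le_left.trans (omegaOne_le p P))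
      rw [Subgroup.characteristic_iff_map_le]
      intro α
      rintro _ ⟨x, hx, rfl⟩
      rw [SetLike.mem_coe, Subgroup.mem_subgroupOf] at hx
      rw [Subgroup.mem_subgroupOf]
      obtain ⟨hx1, hx2⟩ := Subgroup.mem_inf.1 hx
      refine Subgroup.mem_inf.2 ⟨?_, ?_⟩
      · obtain ⟨h, h'⟩ := omegaOne_aut_mem p P α _ hx1
        exact h'
      · obtain ⟨z, hz, hzx⟩ := hx2
        have hzx' : z = x := Subtype.ext hzx
        rw [hzx'] at hz
        have hc : (Subgroup.upperCentralSeries P (i : ℕ)).Characteristic := inferInstance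
        exact ⟨α x, Subgroup.characteristic_iff_map_le.1 hc α ⟨x, hz, rfl⟩, rfl⟩
    · intro i
      rw [Subgroup.commutator_le]
      intro a ha g hg
      obtain ⟨ha1, ha2⟩ := Subgroup.mem_inf.1 ha
      refine Subgroup.mem_inf.2 ⟨?_, ?_⟩
      · -- Ω₁(P) is normalized by P
        have haP : a ∈ P := omegaOne_le p P ha1
        obtain ⟨h, h'⟩ := omegaOne_aut_mem p P (MulAut.conj (⟨g, hg⟩ : P)) a⁻¹
          (Subgroup.inv_mem _ ha1)
        have e : ⁅a, g⁆ = a * (g * a⁻¹ * g⁻¹) := by rw [commutatorElement_def]; group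
        rw [e]
        exact Subgroup.mul_mem _ ha1 h'
      · obtain ⟨z, hz, rfl⟩ := ha2
        have hz1 : z ∈ Subgroup.upperCentralSeries P ((i : ℕ) + 1) := by
          have e : ((i.succ : Fin (Group.nilpotencyClass P + 1)) : ℕ) = (i : ℕ) + 1 :=
            Fin.val_succ i
          rw [← e]; exact hz
        have hz2 := Subgroup.mem_upperCentralSeries_succ_iff.1 hz1 ⟨g, hg⟩
        exact ⟨⁅z, (⟨g, hg⟩ : P)⁆, hz2, rfl⟩
  · rintro ⟨n, Q, h0, hlast, hmono, hsc, hcomm⟩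
    rw [normal_iff_stronglyClosed p hS F hF]
    refine ⟨hP, fun U hUc hUr => ?_⟩
    have hUS : U ≤ S := hUc.1
    have hUfin : Finite U := finite_of_le hUS
    have hUp : IsPGroup p U := hS.to_le hUS
    apply le_of_normalizer_le hS F hP hUS
    intro g hgP hgN
    have hlt : ∀ j : ℕ, n - j < n + 1 := fun j => by omega
    -- the two chains
    obtain ⟨D1, hD1z, hD1s⟩ : ∃ D1 : ℕ → Subgroup U, D1 0 = ⊤ ∧ ∀ j, D1 (j + 1) = P.subgroupOf U :=
      ⟨fun j => if j = 0 then ⊤ else P.subgroupOf U, by simp, fun j => by simp⟩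
    obtain ⟨D2, hD2⟩ : ∃ D2 : ℕ → Subgroup U, ∀ j, D2 j = (Q ⟨n - j, hlt j⟩).subgroupOf U :=
      ⟨_, fun j => rfl⟩
    have hanti1 : ∀ j, D1 (j + 1) ≤ D1 j := by
      intro j
      cases j with
      | zero => rw [hD1z]; exact le_top
      | succ j => rw [hD1s, hD1s]
    have hanti2 : ∀ j, D2 (j + 1) ≤ D2 j := by
      intro j
      rw [hD2, hD2]
      intro x hx
      rw [Subgroup.mem_subgroupOf] at hx ⊢
      exact hmono (Fin.mk_le_mk.2 (by omega)) hx
    have hD2n : ∀ x ∈ D2 n, x = 1 := by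
      intro x hx
      rw [hD2, Subgroup.mem_subgroupOf] at hx
      have e : (⟨n - n, hlt n⟩ : Fin (n + 1)) = 0 := Fin.ext (by simp)
      rw [e, h0, Subgroup.mem_bot] at hx
      exact Subtype.ext hx
    have hD20 : ∀ x : U, (x : Ω) ∈ P → x ^ p = 1 → x ∈ D2 0 := by
      intro x hxP hxp
      rw [hD2, Subgroup.mem_subgroupOf]
      have e : (⟨n - 0, hlt 0⟩ : Fin (n + 1)) = Fin.last n := Fin.ext (by simp)
      rw [e, hlast]
      unfold Cfsg.omegaOne
      apply Subgroup.subset_closure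
      refine ⟨hxP, ?_⟩
      have h2 := congrArg Subtype.val hxp
      simpa using h2
    -- invariance of the chains under Aut_F(U)
    have hinv1 : ∀ α ∈ F.autGroup U, ∀ j, ∀ x ∈ D1 j, α x ∈ D1 j := by
      intro α hα j x hx
      cases j with
      | zero => rw [hD1z]; exact Subgroup.mem_top _
      | succ j =>
        rw [hD1s] at hx ⊢
        rw [Subgroup.mem_subgroupOf] at hx ⊢
        exact stronglyClosed_autGroup_maps F hP hUS hα x hx
    have hinv2 : ∀ α ∈ F.autGroup U, ∀ j, ∀ x ∈ D2 j, α x ∈ D2 j := by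
      intro α hα j x hx
      rw [hD2] at hx ⊢
      rw [Subgroup.mem_subgroupOf] at hx ⊢
      exact stronglyClosed_autGroup_maps F (hsc _) hUS hα x hx
    -- conjugation by elements of P ∩ N(U) stabilizes both chains
    have hconj : ∀ (g' : Ω) (hg'N : g' ∈ Subgroup.normalizer (U : Set Ω)), g' ∈ P →
        StabChain D1 (U.normalizerMonoidHom ⟨g', hg'N⟩) ∧
        StabChain D2 (U.normalizerMonoidHom ⟨g', hg'N⟩) := by
      intro g' hg'N hg'P
      constructor
      · intro j x hx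
        rw [hD1s, Subgroup.mem_subgroupOf]
        show (x : Ω)⁻¹ * (g' * (x : Ω) * g'⁻¹) ∈ P
        have h1 : (x : Ω)⁻¹ * g' * ((x : Ω)⁻¹)⁻¹ ∈ P :=
          stronglyClosed_conj_mem F hP (S.inv_mem (hUS x.2)) hg'P
        have e : (x : Ω)⁻¹ * (g' * (x : Ω) * g'⁻¹) = ((x : Ω)⁻¹ * g' * ((x : Ω)⁻¹)⁻¹) * g'⁻¹ := by
          group
        rw [e]
        exact P.mul_mem h1 (P.inv_mem hg'P)
      · intro j x hx
        rw [hD2, Subgroup.mem_subgroupOf] at hx
        rw [hD2, Subgroup.mem_subgroupOf]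
        show (x : Ω)⁻¹ * (g' * (x : Ω) * g'⁻¹) ∈ Q ⟨n - (j + 1), hlt (j + 1)⟩
        by_cases hj : j < n
        · have hi : n - (j + 1) < n := by omega
          have e1 : (⟨n - j, hlt j⟩ : Fin (n + 1)) = (⟨n - (j + 1), hi⟩ : Fin n).succ :=
            Fin.ext (by simp; omega)
          have e2 : (⟨n - (j + 1), hlt (j + 1)⟩ : Fin (n + 1)) =
              (⟨n - (j + 1), hi⟩ : Fin n).castSucc := rfl
          rw [e1] at hx
          rw [e2]
          apply hcomm ⟨n - (j + 1), hi⟩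
          have e : (x : Ω)⁻¹ * (g' * (x : Ω) * g'⁻¹) = ⁅(x : Ω)⁻¹, g'⁆ := by
            rw [commutatorElement_def]; group
          rw [e]
          exact Subgroup.commutator_mem_commutator (Subgroup.inv_mem _ hx) hg'P
        · have e1 : (⟨n - j, hlt j⟩ : Fin (n + 1)) = 0 := Fin.ext (by simp; omega)
          rw [e1, h0, Subgroup.mem_bot] at hx
          rw [hx]
          simp
    refine mem_of_mem_normal_pSubgroup p F hUc hUr
      (stabSubgroup D1 hanti1 ⊓ stabSubgroup D2 hanti2) ?_ ?_ (hPS hgP) hgN ?_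
    · intro α hα γ hγ _
      have hα' : α⁻¹ ∈ F.autGroup U := Subgroup.inv_mem _ hα
      obtain ⟨hγ1, hγ2⟩ := Subgroup.mem_inf.1 hγ
      have e : (α * γ * α⁻¹)⁻¹ = α * γ⁻¹ * α⁻¹ := by group
      refine Subgroup.mem_inf.2 ⟨⟨stabChain_conj (hinv1 α hα) (hinv1 α⁻¹ hα') hγ1.1, ?_⟩,
        ⟨stabChain_conj (hinv2 α hα) (hinv2 α⁻¹ hα') hγ2.1, ?_⟩⟩
      · rw [e]; exact stabChain_conj (hinv1 α hα) (hinv1 α⁻¹ hα') hγ1.2
      · rw [e]; exact stabChain_conj (hinv2 α hα) (hinv2 α⁻¹ hα') hγ2.2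
    · intro γ hγ _
      obtain ⟨hγ1, hγ2⟩ := Subgroup.mem_inf.1 hγ
      obtain ⟨c, hc⟩ : ∃ c, ∀ u : U, u ^ p ^ c = 1 := by
        obtain ⟨c, hcard⟩ := IsPGroup.iff_card.1 hUp
        exact ⟨c, fun u => by rw [← hcard]; exact pow_card_eq_one'⟩
      refine exists_pow_eq_one_of_fix_small hUp (P.subgroupOf U) γ ?_ ?_ (fun h2 => absurd h2 hp)
      · intro u
        have h1 := hγ1.1 0 u (by rw [hD1z]; exact Subgroup.mem_top u)
        rwa [hD1s] at h1
      · intro j m hm hcop x hx hxp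
        have hδ : StabChain D2 (γ ^ j) := stabChain_pow hanti2 hγ2.1 j
        obtain ⟨k, hk⟩ := stab_pow_fix hc (γ ^ j) D2 hanti2 n
          ⟨0, fun y hy => by rw [hD2n y hy, map_one]⟩ hδ n le_rfl
        rw [Nat.sub_self] at hk
        have hx0 : x ∈ D2 0 := hD20 x (Subgroup.mem_subgroupOf.1 hx) hxp
        have hfixk : ((γ ^ j) ^ p ^ k) x = x := hk x hx0
        have hord : orderOf (γ ^ j) ∣ m := orderOf_dvd_of_pow_eq_one hm
        have hcop2 : Nat.Coprime (p ^ k) (orderOf (γ ^ j)) :=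
          Nat.Coprime.coprime_dvd_right hord (Nat.Coprime.pow_left k hcop.symm)
        obtain ⟨a, ha⟩ := exists_pow_eq_self_of_coprime hcop2
        have hiter : ∀ t : ℕ, (((γ ^ j) ^ p ^ k) ^ t) x = x := by
          intro t
          induction t with
          | zero => simp
          | succ t ih => rw [pow_succ, MulAut.mul_apply, hfixk, ih]
        have h3 := hiter a
        rwa [ha] at h3
    · have hinvmem : g⁻¹ ∈ Subgroup.normalizer (U : Set Ω) := Subgroup.inv_mem _ hgN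
      have e : (U.normalizerMonoidHom ⟨g, hgN⟩)⁻¹ = U.normalizerMonoidHom ⟨g⁻¹, hinvmem⟩ := by
        rw [← map_inv]; rfl
      obtain ⟨h1, h2⟩ := hconj g hgN hgP
      obtain ⟨h1', h2'⟩ := hconj g⁻¹ hinvmem (P.inv_mem hgP)
      refine Subgroup.mem_inf.2 ⟨⟨h1, ?_⟩, ⟨h2, ?_⟩⟩
      · rw [e]; exact h1'
      · rw [e]; exact h2'

end Cfsg.Agent.S5236
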