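import Cfsg.Statements.S5245
import Cfsg.Agent.Helper27.CyclicExt
import Cfsg.Agent.Helper26.FusionNormal4

set_option autoImplicit false
open Cfsg Cfsg.FusionSystem Cfsg.Agent.Helper26 Cfsg.Agent.Helper27

namespace Cfsg.Agent.S5245

/-- Let F be an extremely sparse fusion system over a finite p-group S (saturated, not the inner system, and every saturated fusion system over any subgroup T of S contained in F is F itself or the inner system of T). Then S is normal in F, the focal and hyperfocal subgroups of F are both S, and Aut_F(S) is generated by the inner automorphisms of S together with a single automorphism of prime order q ≠ p (F is the fusion system of the semidirect product of S by a cyclic group of prime order). -/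
theorem result {Ω : Type*} [Group Ω] {S : Subgroup Ω} [Finite S] (p : ℕ) [Fact p.Prime] (hS : IsPGroup p S) (F : Cfsg.FusionSystem S) (hF : F.IsSaturated p) (hxs : ¬ (∀ P : Subgroup Ω, F.Hom P = (Cfsg.innerFusionSystem S).Hom P) ∧ ∀ (T : Subgroup Ω) (E : Cfsg.FusionSystem T), E.IsSaturated p → E.IsSubsystemOf F → (T = S ∧ ∀ P : Subgroup Ω, E.Hom P = F.Hom P) ∨ (∀ P : Subgroup Ω, E.Hom P = (Cfsg.innerFusionSystem T).Hom P)) : F.IsNormal S ∧ F.focalSubgroup = S ∧ F.hyperfocalSubgroup p = S ∧ ∃ (q : ℕ) (β : MulAut ↥S), q.Prime ∧ q ≠ p ∧ β ∈ F.autGroup S ∧ orderOf β = q ∧ (F.autGroup S : Subgroup (MulAut ↥S)) = Cfsg.Inn ↥S ⊔ Subgroup.zpowers β := by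
  obtain ⟨hne, hsp⟩ := hxs
  -- a subgroup whose automizer is not a p-group
  have h1 : ∃ P : Subgroup Ω, P ≤ S ∧ ¬ IsPGroup p (F.autGroup P) := by
    by_contra hcon
    push Not at hcon
    have h := eq_inner_of_pGroups p hS F hF hcon
    exact hne (fun P => by rw [h])
  obtain ⟨P, hP, hnp⟩ := h1
  have hPfin : Finite P := finite_of_le hP
  have hfinA : Finite (MulAut P) := inferInstance
  have h2 : ∃ (β : MulAut P) (q : ℕ), β ∈ F.autGroup P ∧ q.Prime ∧ q ≠ p ∧ orderOf β = q := by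
    unfold IsPGroup at hnp
    push Not at hnp
    obtain ⟨g, hg⟩ := hnp
    have hpos : orderOf (g : MulAut P) ≠ 0 := (orderOf_pos (g : MulAut P)).ne'
    have hex : ∃ q : ℕ, q.Prime ∧ q ∣ orderOf (g : MulAut P) ∧ q ≠ p := by
      by_contra hcon
      push Not at hcon
      have h := Nat.eq_prime_pow_of_unique_prime_dvd hpos (fun {d} hd hdvd => hcon d hd hdvd)
      apply hg (orderOf (g : MulAut P)).primeFactorsList.length
      apply Subtype.ext
      rw [Subgroup.coe_pow, ← h, pow_orderOf_eq_one]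
      rfl
    obtain ⟨q, hq, hqd, hqp⟩ := hex
    exact ⟨(g : MulAut P) ^ (orderOf (g : MulAut P) / q), q, Subgroup.pow_mem _ g.2 _, hq, hqp,
      orderOf_pow_orderOf_div hpos hqd⟩
  obtain ⟨β, q, hβ, hq, hqp, hβq⟩ := h2
  obtain ⟨rfl, hHom⟩ := sparse_aux p hS F hsp hP hβ hq hqp hβq
  have hInn : Cfsg.Inn P ≤ F.autGroup P := by
    rintro _ ⟨n, rfl⟩
    rw [mem_autGroup_iff F hP]
    exact mem_of_eq F (F.conj_mem hP (hP n.2)) (fun x => rfl)
  have hAF : Cfsg.Inn P ⊔ Subgroup.zpowers β ≤ F.autGroup P :=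
    sup_le hInn ((Subgroup.zpowers_le).2 hβ)
  have hcop : Nat.Coprime q p := (Nat.coprime_primes hq Fact.out).2 hqp
  have hβpow : β ^ q = 1 := hβq ▸ pow_orderOf_eq_one β
  -- the commutator subgroup [P, β]
  obtain ⟨T0, hT0⟩ : ∃ T0 : Subgroup P, T0 = Subgroup.closure {y : P | ∃ x : P, y = x⁻¹ * β x} :=
    ⟨_, rfl⟩
  have hgen : ∀ x : P, x⁻¹ * β x ∈ T0 := fun x => hT0 ▸ Subgroup.subset_closure ⟨x, rfl⟩
  have hinv : ∀ t ∈ T0, β t ∈ T0 := by
    have hle : T0 ≤ T0.comap β.toMonoidHom := by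
      rw [hT0, Subgroup.closure_le]
      rintro _ ⟨x, rfl⟩
      show β (x⁻¹ * β x) ∈ Subgroup.closure {y : P | ∃ x : P, y = x⁻¹ * β x}
      rw [map_mul, map_inv]
      exact Subgroup.subset_closure ⟨β x, rfl⟩
    exact fun t ht => hle ht
  have hT'S : T0.map P.subtype ≤ P := by
    rintro _ ⟨t, -, rfl⟩
    exact t.2
  have hβF : P.subtype.comp β.toMonoidHom ∈ F.Hom P := (mem_autGroup_iff F le_rfl).1 hβ
  have hT'fin : Finite (T0.map P.subtype : Subgroup Ω) := finite_of_le hT'S
  -- the restriction of β to [P, β]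
  obtain ⟨φ', hφ'⟩ : ∃ φ' : (T0.map P.subtype : Subgroup Ω) →* Ω,
      ∀ x : (T0.map P.subtype : Subgroup Ω), φ' x = ((β ⟨x, hT'S x.2⟩ : P) : Ω) :=
    ⟨(P.subtype.comp β.toMonoidHom).comp (Subgroup.inclusion hT'S), fun x => rfl⟩
  have hφ'F : φ' ∈ F.Hom (T0.map P.subtype) := restrict_mem F hβF hT'S (fun x => hφ' x)
  have hφ'inj : Function.Injective φ' := F.injective_of_mem hφ'F
  have hφ'range : φ'.range = T0.map P.subtype := by
    have hle : φ'.range ≤ T0.map P.subtype := by
      rintro _ ⟨x, rfl⟩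
      obtain ⟨t, ht, htx⟩ := x.2
      rw [hφ']
      have e : (⟨x, hT'S x.2⟩ : P) = t := Subtype.ext htx.symm
      rw [e]
      exact ⟨β t, hinv t ht, rfl⟩
    apply Subgroup.eq_of_le_of_card_ge hle
    exact (Nat.card_congr (Equiv.ofInjective φ' hφ'inj)).le
  obtain ⟨β', hβ'⟩ : ∃ β' : MulAut (T0.map P.subtype : Subgroup Ω),
      ∀ x, ((β' x : (T0.map P.subtype : Subgroup Ω)) : Ω) = φ' x :=
    ⟨isoOfInj φ' hφ'inj hφ'range, fun x => rfl⟩
  have hβ'F : β' ∈ F.autGroup (T0.map P.subtype) := by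
    rw [mem_autGroup_iff F hT'S]
    exact mem_of_eq F hφ'F (fun x => hβ' x)
  have hβ'pow : ∀ (k : ℕ) (x : (T0.map P.subtype : Subgroup Ω)),
      (((β' ^ k) x : (T0.map P.subtype : Subgroup Ω)) : Ω) = (((β ^ k) ⟨x, hT'S x.2⟩ : P) : Ω) := by
    intro k
    induction k with
    | zero => intro x; simp
    | succ k ih =>
      intro x
      have e : (⟨((β' x : (T0.map P.subtype : Subgroup Ω)) : Ω), hT'S (β' x).2⟩ : P) =
          β ⟨x, hT'S x.2⟩ := Subtype.ext (by rw [hβ', hφ'])
      rw [pow_succ, pow_succ, MulAut.mul_apply, MulAut.mul_apply, ih, e]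
  have hβ'q : orderOf β' = q := by
    have hd : orderOf β' ∣ q := by
      apply orderOf_dvd_of_pow_eq_one
      ext x
      rw [hβ'pow, hβpow]
      rfl
    rcases (Nat.dvd_prime hq).1 hd with h1 | h1
    · exfalso
      have hβ'1 : β' = 1 := orderOf_eq_one_iff.1 h1
      have hfix : ∀ x : P, β x = x := by
        intro x
        apply fix_of_fix_comm hS β hβpow hcop x
        have hm : ((x⁻¹ * β x : P) : Ω) ∈ T0.map P.subtype := ⟨_, hgen x, rfl⟩
        have h3 := hβ' ⟨_, hm⟩
        rw [hβ'1, hφ'] at h3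
        apply Subtype.ext
        exact h3.symm
      have hβ1 : β = 1 := by
        ext x
        rw [hfix x]
        rfl
      rw [hβ1, orderOf_one] at hβq
      exact hq.one_lt.ne' hβq.symm
    · exact h1
  obtain ⟨hT'eq, -⟩ := sparse_aux p hS F hsp hT'S hβ'F hq hqp hβ'q
  refine ⟨?_, ?_, ?_, q, β, hq, hqp, hβ, hβq, ?_⟩
  · -- normality of S
    rw [normal_iff_extend p hS F hF P le_rfl]
    intro R hRP φ hφ
    rw [← hHom R] at hφ
    obtain ⟨hR, α, hα, h⟩ := hφ
    exact ⟨α, hAF hα, fun x => (h x).symm⟩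
  · -- focal subgroup
    apply le_antisymm
    · unfold focalSubgroup
      rw [Subgroup.closure_le]
      rintro _ ⟨R, φ, x, hφ, rfl⟩
      exact P.mul_mem (P.inv_mem ((F.le_of_mem hφ).1 x.2)) ((F.le_of_mem hφ).2 x)
    · intro y hy
      rw [← hT'eq] at hy
      obtain ⟨t, ht, rfl⟩ := hy
      have hle : T0 ≤ (F.focalSubgroup).comap P.subtype := by
        rw [hT0, Subgroup.closure_le]
        rintro _ ⟨x, rfl⟩
        show ((x⁻¹ * β x : P) : Ω) ∈ F.focalSubgroup
        unfold focalSubgroup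
        exact Subgroup.subset_closure ⟨P, _, x, hβF, rfl⟩
      exact hle ht
  · -- hyperfocal subgroup
    apply le_antisymm (hyperfocal_le F p)
    intro y hy
    rw [← hT'eq] at hy
    obtain ⟨t, ht, rfl⟩ := hy
    have hle : T0 ≤ (F.hyperfocalSubgroup p).comap P.subtype := by
      rw [hT0, Subgroup.closure_le]
      rintro _ ⟨x, rfl⟩
      exact comm_mem_hyp F p le_rfl hβ hβpow hcop x
    exact hle ht
  · apply le_antisymm _ hAF
    intro α hα
    have h3 := (mem_autGroup_iff F le_rfl).1 hα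
    rw [← hHom P] at h3
    obtain ⟨_, α', hα', h⟩ := h3
    have e : α = α' := by
      ext x
      exact h x
    rw [e]
    exact hα'

end Cfsg.Agent.S5245
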