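import Cfsg.Statements.S5246
import Cfsg.Agent.Helper27.PStable

set_option autoImplicit false
open Cfsg

namespace Cfsg.Agent.S5246

open Cfsg.Agent.Helper27 Cfsg.Agent.Helper26 in
theorem autGroup_eq_range {Ω : Type*} [Group Ω] {P Q : Subgroup Ω} (hQ : Q ≤ P) :
    (Cfsg.groupFusionSystem P).autGroup Q = Q.normalizerMonoidHom.range := by
  rw [groupFusion_autGroup hQ, autInducedBy_eq_map, Subgroup.top_subgroupOf, MonoidHom.range_eq_map]

open Cfsg.Agent.Helper27 Cfsg.Agent.Helper26 in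
/-- Let p be an odd prime, G a finite group and P a Sylow p-subgroup. Call a fusion system F p-stable when, for every fully normalized subgroup Q and every χ ∈ Aut_F(Q) acting quadratically on Q (that is, χ fixes a⁻¹χ(a) for every a ∈ Q; equivalently χ(a⁻¹)·a·χ(a⁻¹)·χ(χ(a)) = 1), χ lies in O_p(Aut_F(Q)). Then G is p-stable in the normalizer form (for every p-subgroup Q and x ∈ N_G(Q) with [Q, x, x] = 1, the image of x lies in O_p(N_G(Q)/C_G(Q))) if and only if the fusion system of G on P is p-stable. -/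
theorem result {Ω : Type*} [Group Ω] [Finite Ω] {p : ℕ} [Fact p.Prime] (hp : p ≠ 2) (P : Sylow p Ω) : Cfsg.IsNormalizerPStable p Ω ↔ (∀ Q : Subgroup Ω, (Cfsg.groupFusionSystem (P : Subgroup Ω)).IsFullyNormalized Q → ∀ χ : MulAut ↥Q, χ ∈ (Cfsg.groupFusionSystem (P : Subgroup Ω)).autGroup Q → (∀ a : ↥Q, (χ a⁻¹) * a * (χ a⁻¹) * (χ (χ a)) = 1) → χ ∈ ((Cfsg.pCore p ↥((Cfsg.groupFusionSystem (P : Subgroup Ω)).autGroup Q)).map ((Cfsg.groupFusionSystem (P : Subgroup Ω)).autGroup Q).subtype : Subgroup (MulAut ↥Q))) := by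
  constructor
  · intro hst Q hQ χ hχ hquad
    have hQp : IsPGroup p Q := P.isPGroup'.to_le hQ.1
    rw [autGroup_eq_range hQ.1] at hχ ⊢
    obtain ⟨⟨g, hg⟩, rfl⟩ := hχ
    have hq : QuadElt Q g := (quad_aut_iff Q g hg).mp hquad
    exact (jcond_range p Q g hg).mpr
      ((jcond_quot p Q g hg).mp (hst Q hQp g hg ((quad_iff Q g).mpr hq)))
  · intro hfs Q hQp g hg hq
    have hqe : QuadElt Q g := (quad_iff Q g).mp hq
    obtain ⟨h₁, h₁le⟩ := exists_conj_le_sylow P hQp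
    obtain ⟨Q₂, hconj, hfn⟩ :=
      exists_fullyNormalized_conj (Cfsg.groupFusionSystem (P : Subgroup Ω)) h₁le
    obtain ⟨-, hQ₂P, h₂, hh₂⟩ := groupFusion_isConj_iff.mp hconj
    rw [map_conj_mul] at hh₂
    have hqe₂ : QuadElt Q₂ ((h₂ * h₁) * g * (h₂ * h₁)⁻¹) := by
      rw [← hh₂]; exact quadElt_conj hqe _
    have hg₂ : (h₂ * h₁) * g * (h₂ * h₁)⁻¹ ∈ Subgroup.normalizer (Q₂ : Set Ω) := by
      rw [← hh₂, ← map_conj_normalizer]
      exact ⟨g, hg, rfl⟩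
    have h1 := hfs Q₂ hfn (Q₂.normalizerMonoidHom ⟨_, hg₂⟩)
      (by rw [autGroup_eq_range hQ₂P]; exact ⟨_, rfl⟩)
      ((quad_aut_iff Q₂ _ hg₂).mpr hqe₂)
    rw [autGroup_eq_range hQ₂P] at h1
    have h2 : JCond p Q₂ ((h₂ * h₁) * g * (h₂ * h₁)⁻¹) := (jcond_range p Q₂ _ hg₂).mp h1
    have h3 := jcond_conj h2 (h₂ * h₁)⁻¹
    rw [← hh₂, map_conj_map_conj_inv] at h3
    have e : (h₂ * h₁)⁻¹ * ((h₂ * h₁) * g * (h₂ * h₁)⁻¹) * (h₂ * h₁)⁻¹⁻¹ = g := by group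
    rw [e] at h3
    exact (jcond_quot p Q g hg).mpr h3

end Cfsg.Agent.S5246
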