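import Cfsg.Statements.S5251
import Cfsg.Agent.Helper27.StabCore
import Cfsg.Agent.Helper26.FusionIso
import Cfsg.Agent.Helper26.AutInduced

set_option autoImplicit false
open Cfsg Cfsg.FusionSystem Cfsg.Agent.Helper26 Cfsg.Agent.Helper27

namespace Cfsg.Agent.S5251

/-- Let F be a saturated fusion system over a finite p-group S, E a normal subsystem of F over T, and P an F-centric subgroup of S such that P ∩ T is not E-centric. Then some F-conjugate P* of P satisfies Out_S(P*) ∩ O_p(Out_F(P*)) ≠ 1: there is an element of N_S(P*) outside P* whose conjugation action on P* lies in O_p(Aut_F(P*)). In particular P is not both centric and radical in F. -/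
theorem result {Ω : Type*} [Group Ω] {S : Subgroup Ω} [Finite S] (p : ℕ) [Fact p.Prime] (hS : IsPGroup p S) (F : Cfsg.FusionSystem S) (hF : F.IsSaturated p) {T : Subgroup Ω} (E : Cfsg.FusionSystem T) (hE : E.IsNormalIn F p) (P : Subgroup Ω) (hP : F.IsCentric P) (hPT : ¬ E.IsCentric (P ⊓ T)) : (∃ φ ∈ F.Hom P, ∃ x ∈ S ⊓ Subgroup.normalizer (φ.range : Set Ω), x ∉ φ.range ∧ ∃ α ∈ ((Cfsg.pCore p ↥(F.autGroup φ.range)).map (F.autGroup φ.range).subtype : Subgroup (MulAut ↥φ.range)), ∀ y : ↥φ.range, ((α y : ↥φ.range) : Ω) = x * (y : Ω) * x⁻¹) ∧ ¬ F.IsRadical p P := by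
  obtain ⟨⟨hEsat, -, hEF, hTsc, -, -⟩, -⟩ := hE
  have hTS : T ≤ S := hTsc.1
  have hPS : P ≤ S := hP.1
  have hex : ∃ Q, E.IsConj (P ⊓ T) Q ∧ ¬ centralizerIn T Q ≤ Q := by
    by_contra hcon
    push Not at hcon
    exact hPT ⟨inf_le_right, hcon⟩
  obtain ⟨Q, ⟨χ, hχ, hχr⟩, hQ⟩ := hex
  have hRS : P ⊓ T ≤ S := inf_le_left.trans hPS
  obtain ⟨R', hRR', hR'a, hR'r⟩ := hF (P ⊓ T) hRS
  obtain ⟨ρ, hρ, hρN, hρmap⟩ := exists_normalizer_hom p hS F hR'a hR'r hRR'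
  have hPN : P ≤ normalizerIn S (P ⊓ T) := by
    intro g hg
    refine Subgroup.mem_inf.2 ⟨hPS hg, ?_⟩
    exact le_normalizer_of_conj_mem (N := P) (K := P ⊓ T) (fun n hn x hx =>
      Subgroup.mem_inf.2 ⟨P.mul_mem (P.mul_mem hn (Subgroup.mem_inf.1 hx).1) (P.inv_mem hn),
        stronglyClosed_conj_mem F hTsc (hPS hn) (Subgroup.mem_inf.1 hx).2⟩) hg
  obtain ⟨φ, hφdef⟩ : ∃ φ : P →* Ω, ∀ u : P, φ u = ρ ⟨u, hPN u.2⟩ :=
    ⟨ρ.comp (Subgroup.inclusion hPN), fun _ => rfl⟩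
  have hφF : φ ∈ F.Hom P := restrict_mem F hρ hPN (fun u => hφdef u)
  have hφT : ∀ u : P, φ u ∈ T ↔ (u : Ω) ∈ T := fun u => stronglyClosed_mem_iff_sc F hTsc hφF u
  -- φ.range ⊓ T = R'
  have hrangeT : ∀ y, y ∈ φ.range → (y ∈ T ↔ y ∈ R') := by
    rintro _ ⟨u, rfl⟩
    constructor
    · intro h
      have huT : (u : Ω) ∈ T := (hφT u).1 h
      rw [← hρmap, hφdef]
      exact ⟨⟨u, hPN u.2⟩, Subgroup.mem_subgroupOf.2 (Subgroup.mem_inf.2 ⟨u.2, huT⟩), rfl⟩
    · intro h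
      rw [← hρmap] at h
      obtain ⟨w, hw, hwe⟩ := h
      rw [hφdef] at hwe
      have h1 := F.injective_of_mem hρ hwe
      have hw' := Subgroup.mem_subgroupOf.1 hw
      rw [h1] at hw'
      exact (hφT u).2 (Subgroup.mem_inf.1 hw').2
  have hR'le : R' ≤ φ.range := by
    intro r hr
    rw [← hρmap] at hr
    obtain ⟨w, hw, rfl⟩ := hr
    have hwP : (w : Ω) ∈ P := (Subgroup.mem_inf.1 (Subgroup.mem_subgroupOf.1 hw)).1
    exact ⟨⟨w, hwP⟩, by rw [hφdef]⟩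
  have hR'T : R' ≤ T := fun r hr => (hrangeT r (hR'le hr)).2 hr
  -- C_T(R') is not contained in R'
  have hC : ¬ centralizerIn T R' ≤ R' := by
    intro hle
    apply hQ
    have hQR' : F.IsConj Q R' := isConj_trans F (isConj_symm F ⟨χ, hEF _ hχ, hχr⟩) hRR'
    obtain ⟨ψ, hψ, hψr⟩ := hQR'
    obtain ⟨ψ', hψ', hext⟩ := hR'r.2 Q ψ hψ hψr
    intro c hc
    obtain ⟨hcT, hcQ⟩ := Subgroup.mem_inf.1 hc
    have hcQ' := Subgroup.mem_centralizer_iff.1 hcQ
    have hcE : c ∈ extender S Q ψ :=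
      centralizerIn_le_extender S Q ψ (mem_centralizerIn.2 ⟨hTS hcT, hcQ'⟩)
    have h1 : ψ' ⟨c, hcE⟩ ∈ centralizerIn T R' := by
      refine Subgroup.mem_inf.2 ⟨stronglyClosed_hom_mem F hTsc hψ' ⟨c, hcE⟩ hcT, ?_⟩
      rw [Subgroup.mem_centralizer_iff]
      intro r hr
      rw [← hψr] at hr
      obtain ⟨q, rfl⟩ := hr
      have hqE : (q : Ω) ∈ extender S Q ψ := le_extender F hψ q.2
      rw [← hext q q.2 hqE, ← map_mul, ← map_mul]
      congr 1
      exact Subtype.ext (hcQ' q q.2)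
    have h2 := hle h1
    rw [← hψr] at h2
    obtain ⟨q, hq⟩ := h2
    have hqE : (q : Ω) ∈ extender S Q ψ := le_extender F hψ q.2
    rw [← hext q q.2 hqE] at hq
    have h3 := F.injective_of_mem hψ' hq
    have h4 : (q : Ω) = c := congrArg Subtype.val h3
    rw [← h4]; exact q.2
  obtain ⟨c0, hc0, hc0R⟩ := SetLike.not_le_iff_exists.1 hC
  have hPstS : φ.range ≤ S := by
    rintro _ ⟨u, rfl⟩
    exact (F.le_of_mem hφF).2 u
  have hPstN : φ.range ≤ Subgroup.normalizer ((centralizerIn T R' : Subgroup Ω) : Set Ω) := by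
    apply le_normalizer_of_conj_mem
    intro n hn x hx
    obtain ⟨hxT, hxc⟩ := Subgroup.mem_inf.1 hx
    have hxc' := Subgroup.mem_centralizer_iff.1 hxc
    refine Subgroup.mem_inf.2 ⟨stronglyClosed_conj_mem F hTsc (hPstS hn) hxT, ?_⟩
    rw [Subgroup.mem_centralizer_iff]
    intro r hr
    have hr' : n⁻¹ * r * n ∈ R' := by
      have h1 : n⁻¹ * r * n ∈ φ.range :=
        Subgroup.mul_mem _ (Subgroup.mul_mem _ (Subgroup.inv_mem _ hn) (hR'le hr)) hn
      refine (hrangeT _ h1).1 ?_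
      have h2 := stronglyClosed_conj_mem F hTsc (S.inv_mem (hPstS hn)) (hR'T hr)
      rwa [inv_inv] at h2
    have h3 := hxc' _ hr'
    calc r * (n * x * n⁻¹) = n * ((n⁻¹ * r * n) * x) * n⁻¹ := by group
      _ = n * (x * (n⁻¹ * r * n)) * n⁻¹ := by rw [h3]
      _ = n * x * n⁻¹ * r := by group
  have hMS : φ.range ⊔ centralizerIn T R' ≤ S := sup_le hPstS (inf_le_left.trans hTS)
  have hMfin : Finite ↥(φ.range ⊔ centralizerIn T R') := finite_of_le hMS
  have hne : φ.range ≠ φ.range ⊔ centralizerIn T R' := by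
    intro h
    have h1 : c0 ∈ φ.range := by rw [h]; exact Subgroup.mem_sup_right hc0
    exact hc0R ((hrangeT c0 h1).1 (Subgroup.mem_inf.1 hc0).1)
  obtain ⟨a, haM, haP, haN⟩ := exists_normalizing_not_mem (hS.to_le hMS)
    (le_sup_left : φ.range ≤ φ.range ⊔ centralizerIn T R') hne
  obtain ⟨u, hu, x, hx, rfl⟩ := mem_sup_of_le_normalizer hPstN haM
  have hxN : x ∈ Subgroup.normalizer (φ.range : Set Ω) := by
    have e : x = u⁻¹ * (u * x) := by group
    rw [e]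
    exact Subgroup.mul_mem _ (Subgroup.inv_mem _ (Subgroup.le_normalizer hu)) haN
  have hxP : x ∉ φ.range := fun h => haP (Subgroup.mul_mem _ hu h)
  have hxT : x ∈ T := (Subgroup.mem_inf.1 hx).1
  have hxc := Subgroup.mem_centralizer_iff.1 (Subgroup.mem_inf.1 hx).2
  have hαA : φ.range.normalizerMonoidHom ⟨x, hxN⟩ ∈ F.autGroup φ.range :=
    autInducedBy_le_autGroup F hPstS (mem_autInducedBy_iff.2 ⟨x, hTS hxT, fun _ => rfl⟩)
  have hα1 : ∀ y : φ.range, (y : Ω) ∈ T → φ.range.normalizerMonoidHom ⟨x, hxN⟩ y = y := by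
    intro y hy
    apply Subtype.ext
    show x * (y : Ω) * x⁻¹ = y
    rw [← hxc y ((hrangeT y y.2).1 hy), mul_inv_cancel_right]
  have hα2 : ∀ y : φ.range, (y : Ω)⁻¹ *
      ((φ.range.normalizerMonoidHom ⟨x, hxN⟩ y : φ.range) : Ω) ∈ T := by
    intro y
    show (y : Ω)⁻¹ * (x * (y : Ω) * x⁻¹) ∈ T
    have h1 := stronglyClosed_conj_mem F hTsc (S.inv_mem (hPstS y.2)) hxT
    rw [inv_inv] at h1
    have e : (y : Ω)⁻¹ * (x * (y : Ω) * x⁻¹) = ((y : Ω)⁻¹ * x * (y : Ω)) * x⁻¹ := by group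
    rw [e]
    exact T.mul_mem h1 (T.inv_mem hxT)
  have hαcore := stab_mem_pCore p hS F hTsc hPstS _ hαA hα1 hα2
  refine ⟨⟨φ, hφF, x, Subgroup.mem_inf.2 ⟨hTS hxT, hxN⟩, hxP, _, hαcore, fun y => rfl⟩, ?_⟩
  -- P is not radical
  intro hPr
  obtain ⟨e, he⟩ : ∃ e : P ≃* φ.range, ∀ y : P, ((e y : φ.range) : Ω) = φ y :=
    ⟨isoOfInj φ (F.injective_of_mem hφF) rfl, fun _ => rfl⟩
  have heF : φ.range.subtype.comp e.toMonoidHom ∈ F.Hom P := mem_of_eq F hφF (fun y => he y)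
  have hs := iso_symm_mem F e heF
  have hγA : MulAut.congr e.symm (φ.range.normalizerMonoidHom ⟨x, hxN⟩) ∈ F.autGroup P :=
    congr_mem_autGroup F e.symm hs hαA
  have hγapp : ∀ y : P, MulAut.congr e.symm (φ.range.normalizerMonoidHom ⟨x, hxN⟩) y =
      e.symm (φ.range.normalizerMonoidHom ⟨x, hxN⟩ (e y)) := fun _ => rfl
  have hγ1 : ∀ y : P, (y : Ω) ∈ T →
      MulAut.congr e.symm (φ.range.normalizerMonoidHom ⟨x, hxN⟩) y = y := by
    intro y hy
    have h1 : ((e y : φ.range) : Ω) ∈ T := by rw [he]; exact (hφT y).2 hy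
    rw [hγapp, hα1 _ h1]
    simp
  have hγ2 : ∀ y : P, (y : Ω)⁻¹ *
      ((MulAut.congr e.symm (φ.range.normalizerMonoidHom ⟨x, hxN⟩) y : P) : Ω) ∈ T := by
    intro y
    have h1 := hα2 (e y)
    have h2 : ((e (y⁻¹ * MulAut.congr e.symm (φ.range.normalizerMonoidHom ⟨x, hxN⟩) y) :
        φ.range) : Ω) ∈ T := by
      rw [map_mul, map_inv, hγapp]
      simp only [MulEquiv.apply_symm_apply]
      exact h1
    rw [he] at h2
    exact (hφT _).1 h2
  have hγcore := stab_mem_pCore p hS F hTsc hPS _ hγA hγ1 hγ2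
  rw [hPr.2] at hγcore
  obtain ⟨v, hv⟩ := hγcore
  -- x acts on φ.range as the inner automorphism of e v
  have hact : ∀ w : φ.range, x * (w : Ω) * x⁻¹ = ((e v : φ.range) : Ω) * (w : Ω) *
      ((e v : φ.range) : Ω)⁻¹ := by
    intro w
    have h1 := congrArg (fun f : MulAut P => f (e.symm w)) hv
    have h2 : v * e.symm w * v⁻¹ =
        e.symm (φ.range.normalizerMonoidHom ⟨x, hxN⟩ (e (e.symm w))) := h1
    rw [MulEquiv.apply_symm_apply] at h2
    have h3 := congrArg e h2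
    rw [MulEquiv.apply_symm_apply, map_mul, map_mul, map_inv, MulEquiv.apply_symm_apply] at h3
    have h4 := congrArg (fun z : φ.range => (z : Ω)) h3
    exact h4.symm
  have hcen : ((e v : φ.range) : Ω)⁻¹ * x ∈ centralizerIn S φ.range := by
    rw [mem_centralizerIn]
    refine ⟨S.mul_mem (S.inv_mem (hPstS (e v).2)) (hTS hxT), fun w hw => ?_⟩
    have h1 := hact ⟨w, hw⟩
    have h1' : x * w * x⁻¹ = ((e v : φ.range) : Ω) * w * ((e v : φ.range) : Ω)⁻¹ := h1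
    calc w * (((e v : φ.range) : Ω)⁻¹ * x)
        = ((e v : φ.range) : Ω)⁻¹ * (((e v : φ.range) : Ω) * w * ((e v : φ.range) : Ω)⁻¹) * x := by
          group
      _ = ((e v : φ.range) : Ω)⁻¹ * (x * w * x⁻¹) * x := by rw [h1']
      _ = ((e v : φ.range) : Ω)⁻¹ * x * w := by group
  have hcen2 := hP.2 φ.range ⟨φ, hφF, rfl⟩ hcen
  apply hxP
  have e2 : x = ((e v : φ.range) : Ω) * (((e v : φ.range) : Ω)⁻¹ * x) := by group
  rw [e2]
  exact Subgroup.mul_mem _ (e v).2 hcen2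

end Cfsg.Agent.S5251
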