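import Cfsg.Agent.Helper27.LiftMod

set_option autoImplicit false

namespace Cfsg.Agent.S5256

open Cfsg Cfsg.FusionSystem Cfsg.Agent.Helper26 Cfsg.Agent.Helper27

variable {Ω : Type*} [Group Ω] {S : Subgroup Ω} {Ω' : Type*} [Group Ω']

theorem pow_induced (θ : S →* Ω') {P : Subgroup Ω} (hPS : P ≤ S) {P' : Subgroup Ω'}
    (hP' : ∀ x : P, θ ⟨x, hPS x.2⟩ ∈ P') (α : MulAut P) (α' : MulAut P')
    (hrel : ∀ x : P, ((α' ⟨θ ⟨x, hPS x.2⟩, hP' x⟩ : P') : Ω') = θ ⟨α x, hPS (α x).2⟩) :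
    ∀ (j : ℕ) (x : P), (((α' ^ j) ⟨θ ⟨x, hPS x.2⟩, hP' x⟩ : P') : Ω') =
      θ ⟨(α ^ j) x, hPS ((α ^ j) x).2⟩ := by
  intro j
  induction j with
  | zero => intro x; rfl
  | succ j ih =>
    intro x
    rw [pow_succ', pow_succ', MulAut.mul_apply, MulAut.mul_apply]
    have e : (α' ^ j) ⟨θ ⟨x, hPS x.2⟩, hP' x⟩ =
        ⟨θ ⟨(α ^ j) x, hPS ((α ^ j) x).2⟩, hP' _⟩ := Subtype.ext (ih x)
    rw [e]
    exact hrel _

theorem range_eq_of_maps_into [Finite S] (F : FusionSystem S) {P : Subgroup Ω} {φ : P →* Ω}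
    (hφ : φ ∈ F.Hom P) (h : ∀ x : P, φ x ∈ P) : φ.range = P := by
  have hP : P ≤ S := (F.le_of_mem hφ).1
  have : Finite P := finite_of_le hP
  apply Subgroup.eq_of_le_of_card_ge
  · rintro _ ⟨x, rfl⟩; exact h x
  · rw [← Nat.card_congr (MonoidHom.ofInjective (F.injective_of_mem hφ)).toEquiv]

theorem residual_induction {P : Subgroup Ω} (A : Subgroup (MulAut P)) (p : ℕ) (M : Subgroup Ω)
    (hgen : ∀ a ∈ A, Nat.Coprime (orderOf a) p → ∀ x : P, (x : Ω)⁻¹ * ((a x : P) : Ω) ∈ M)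
    (a : A) (ha : a ∈ pResidual p A) :
    ∀ x : P, (x : Ω)⁻¹ * (((a : MulAut P) x : P) : Ω) ∈ M := by
  unfold pResidual at ha
  induction ha using Subgroup.closure_induction with
  | mem b hb =>
    intro x
    have hb' : Nat.Coprime (orderOf (b : MulAut P)) p := by
      rw [Subgroup.orderOf_coe]; exact hb
    exact hgen b b.2 hb' x
  | one =>
    intro x
    show (x : Ω)⁻¹ * (x : Ω) ∈ M
    rw [inv_mul_cancel]; exact M.one_mem
  | mul b c _ _ hb hc =>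
    intro x
    have e : (x : Ω)⁻¹ * ((((b * c : A) : MulAut P) x : P) : Ω) =
        ((x : Ω)⁻¹ * (((c : MulAut P) x : P) : Ω)) *
          ((((c : MulAut P) x : P) : Ω)⁻¹ * (((b : MulAut P) ((c : MulAut P) x) : P) : Ω)) := by
      show (x : Ω)⁻¹ * (((b : MulAut P) ((c : MulAut P) x) : P) : Ω) = _
      group
    rw [e]
    exact M.mul_mem (hc x) (hb _)
  | inv b _ hb =>
    intro x
    have h1 := hb ((b : MulAut P)⁻¹ x)
    rw [MulAut.apply_inv_self] at h1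
    have e : (x : Ω)⁻¹ * ((((b⁻¹ : A) : MulAut P) x : P) : Ω) =
        ((((b : MulAut P)⁻¹ x : P) : Ω)⁻¹ * (x : Ω))⁻¹ := by
      show (x : Ω)⁻¹ * ((((b : MulAut P)⁻¹) x : P) : Ω) = _
      group
    rw [e]
    exact M.inv_mem h1

theorem gen_E_mem [Finite S] (p : ℕ) [Fact p.Prime] (F : FusionSystem S) (T : Subgroup Ω)
    {S' : Subgroup Ω'} (θ : S →* Ω') (E : FusionSystem S') (hE : F.IsFactorSystem T θ E)
    {P' : Subgroup Ω'} (hP' : P' ≤ S') {a : MulAut P'} (ha : a ∈ E.autGroup P')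
    (hco : Nat.Coprime (orderOf a) p) (x' : P') :
    (x' : Ω')⁻¹ * ((a x' : P') : Ω') ∈ ((F.hyperfocalSubgroup p).subgroupOf S).map θ := by
  obtain ⟨hTS, hker, hrange, hHom⟩ := hE
  have haE : P'.subtype.comp a.toMonoidHom ∈ E.Hom P' := (mem_autGroup_iff E hP').1 ha
  obtain ⟨-, φ, hφ, hPS, hφS, hθP, hind⟩ := (hHom P' _).1 haE
  have hφP : ∀ x : ↥(preimageAlong θ P'), φ x ∈ preimageAlong θ P' := by
    intro x
    refine ⟨⟨φ x, hφS x⟩, ?_, rfl⟩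
    show θ ⟨φ x, hφS x⟩ ∈ P'
    rw [← hind x]
    exact (a _).2
  have hr := range_eq_of_maps_into F hφ hφP
  obtain ⟨α, hα⟩ : ∃ α : MulAut ↥(preimageAlong θ P'),
      α = isoOfInj φ (F.injective_of_mem hφ) hr := ⟨_, rfl⟩
  have hαv : ∀ x : ↥(preimageAlong θ P'), ((α x : ↥(preimageAlong θ P')) : Ω) = φ x :=
    fun x => by rw [hα]; rfl
  have hαF : α ∈ F.autGroup (preimageAlong θ P') := by
    rw [mem_autGroup_iff F hPS]; exact mem_of_eq F hφ hαv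
  have hrel : ∀ x : ↥(preimageAlong θ P'),
      ((a ⟨θ ⟨x, hPS x.2⟩, hθP x⟩ : P') : Ω') = θ ⟨α x, hPS (α x).2⟩ := by
    intro x
    have h1 := hind x
    rw [show (⟨((α x : ↥(preimageAlong θ P')) : Ω), hPS (α x).2⟩ : S) = ⟨φ x, hφS x⟩ from
      Subtype.ext (hαv x)]
    exact h1
  have hpow := pow_induced θ hPS hθP α a hrel
  obtain ⟨x, hx⟩ : ∃ x : ↥(preimageAlong θ P'), θ ⟨x, hPS x.2⟩ = (x' : Ω') := by
    have h1 : (x' : Ω') ∈ θ.range := by rw [hrange]; exact hP' x'.2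
    obtain ⟨s, hs⟩ := h1
    have hsP : (s : Ω) ∈ preimageAlong θ P' := by
      refine ⟨s, ?_, rfl⟩
      show θ s ∈ P'
      rw [hs]; exact x'.2
    exact ⟨⟨s, hsP⟩, hs⟩
  have hx'eq : x' = ⟨θ ⟨x, hPS x.2⟩, hθP x⟩ := Subtype.ext hx.symm
  have hfinP : Finite ↥(preimageAlong θ P') := finite_of_le hPS
  have hfinA : Finite (MulAut ↥(preimageAlong θ P')) := inferInstance
  by_cases hr1 : orderOf a = 1
  · have ha1 : a = 1 := orderOf_eq_one_iff.1 hr1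
    have e : (x' : Ω')⁻¹ * ((a x' : P') : Ω') = 1 := by
      rw [ha1]
      show (x' : Ω')⁻¹ * (x' : Ω') = 1
      exact inv_mul_cancel _
    rw [e]; exact Subgroup.one_mem _
  · have hn : orderOf α ≠ 0 := (orderOf_pos α).ne'
    obtain ⟨e, m, hm, hnm⟩ := Nat.exists_eq_pow_mul_and_not_dvd hn p (Fact.out : p.Prime).ne_one
    have han : a ^ orderOf α = 1 := by
      apply MulEquiv.ext
      intro y
      obtain ⟨z, hz⟩ : ∃ z : ↥(preimageAlong θ P'), θ ⟨z, hPS z.2⟩ = (y : Ω') := by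
        have h1 : (y : Ω') ∈ θ.range := by rw [hrange]; exact hP' y.2
        obtain ⟨s, hs⟩ := h1
        have hsP : (s : Ω) ∈ preimageAlong θ P' := by
          refine ⟨s, ?_, rfl⟩
          show θ s ∈ P'
          rw [hs]; exact y.2
        exact ⟨⟨s, hsP⟩, hs⟩
      have hyeq : y = ⟨θ ⟨z, hPS z.2⟩, hθP z⟩ := Subtype.ext hz.symm
      apply Subtype.ext
      rw [hyeq, hpow (orderOf α) z, pow_orderOf_eq_one]
      rfl
    have hrdvd : orderOf a ∣ orderOf α := orderOf_dvd_of_pow_eq_one han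
    have hr0 : orderOf a ≠ 0 := fun h0 => hn (by rw [h0] at hrdvd; exact Nat.eq_zero_of_zero_dvd hrdvd)
    have hr2 : 1 < orderOf a := by omega
    have hcop : Nat.Coprime (p ^ e) (orderOf a) := Nat.Coprime.pow_left e hco.symm
    obtain ⟨u, -, hu⟩ := Nat.exists_mul_mod_eq_one_of_coprime hcop hr2
    obtain ⟨β, hβ⟩ : ∃ β : MulAut ↥(preimageAlong θ P'), β = α ^ (p ^ e * u) := ⟨_, rfl⟩
    have hβF : β ∈ F.autGroup (preimageAlong θ P') := by rw [hβ]; exact Subgroup.pow_mem _ hαF _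
    have hβm : β ^ m = 1 := by
      rw [hβ, ← pow_mul]
      have e1 : p ^ e * u * m = orderOf α * u := by rw [hnm]; ring
      rw [e1, pow_mul, pow_orderOf_eq_one, one_pow]
    have hβco : Nat.Coprime (orderOf β) p := by
      have h1 : orderOf β ∣ m := orderOf_dvd_of_pow_eq_one hβm
      have h2 : Nat.Coprime m p :=
        (((Nat.Prime.coprime_iff_not_dvd (Fact.out : p.Prime)).2 hm)).symm
      exact Nat.Coprime.coprime_dvd_left h1 h2
    have hak : a ^ (p ^ e * u) = a := by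
      rw [← pow_mod_orderOf, hu, pow_one]
    have hrelβ : ((a ⟨θ ⟨x, hPS x.2⟩, hθP x⟩ : P') : Ω') = θ ⟨β x, hPS (β x).2⟩ := by
      have h1 := hpow (p ^ e * u) x
      rw [hak] at h1
      rw [h1, hβ]
    have hgen : (x : Ω)⁻¹ * ((β x : ↥(preimageAlong θ P')) : Ω) ∈ F.hyperfocalSubgroup p := by
      refine Subgroup.subset_closure ⟨preimageAlong θ P', ⟨β, hβF⟩, x, hPS, ?_, rfl⟩
      refine Subgroup.subset_closure ?_
      show Nat.Coprime (orderOf (⟨β, hβF⟩ : F.autGroup (preimageAlong θ P'))) p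
      rw [Subgroup.orderOf_mk]; exact hβco
    refine ⟨(⟨x, hPS x.2⟩ : S)⁻¹ * ⟨β x, hPS (β x).2⟩, Subgroup.mem_subgroupOf.2 hgen, ?_⟩
    rw [map_mul, map_inv, ← hrelβ, hx'eq]

theorem gen_F_mem [Finite S] (p : ℕ) [Fact p.Prime] (hS : IsPGroup p S) (F : FusionSystem S)
    (hF : F.IsSaturated p) (T : Subgroup Ω) (hT : F.StronglyClosed T)
    {S' : Subgroup Ω'} (θ : S →* Ω') (E : FusionSystem S') (hE : F.IsFactorSystem T θ E)
    {P : Subgroup Ω} (hPS : P ≤ S) {a : MulAut P} (ha : a ∈ F.autGroup P)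
    (hco : Nat.Coprime (orderOf a) p) (x : P) :
    (x : Ω)⁻¹ * ((a x : P) : Ω) ∈ ((E.hyperfocalSubgroup p).comap θ).map S.subtype := by
  obtain ⟨hTS, hker, hrange, hHom⟩ := hE
  have hfinS' : Finite S' := by
    have h1 : Finite θ.range := Finite.of_surjective θ.rangeRestrict θ.rangeRestrict_surjective
    rw [hrange] at h1; exact h1
  have hPfin : Finite P := finite_of_le hPS
  -- the image
  obtain ⟨P', hP'def⟩ : ∃ P' : Subgroup Ω', P' = (P.subgroupOf S).map θ := ⟨_, rfl⟩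
  have hθP : ∀ y : P, θ ⟨y, hPS y.2⟩ ∈ P' := by
    intro y; rw [hP'def]
    exact ⟨⟨y, hPS y.2⟩, Subgroup.mem_subgroupOf.2 y.2, rfl⟩
  have hP'S' : P' ≤ S' := by
    rw [hP'def, ← hrange]
    rintro _ ⟨s, -, rfl⟩
    exact ⟨s, rfl⟩
  have hP'ex : ∀ y' : P', ∃ y : P, θ ⟨y, hPS y.2⟩ = (y' : Ω') := by
    intro y'
    have h1 : (y' : Ω') ∈ (P.subgroupOf S).map θ := by rw [← hP'def]; exact y'.2
    obtain ⟨s, hs, hsy⟩ := h1
    exact ⟨⟨s, Subgroup.mem_subgroupOf.1 hs⟩, hsy⟩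
  -- kernel facts
  have hK : ∀ (A B : Ω) (hA : A ∈ S) (hB : B ∈ S), A * B⁻¹ ∈ T → θ ⟨A, hA⟩ = θ ⟨B, hB⟩ := by
    intro A B hA hB hAB
    have h1 : θ (⟨A, hA⟩ * (⟨B, hB⟩ : S)⁻¹) = 1 := (hker _).2 hAB
    rw [map_mul, map_inv, mul_inv_eq_one] at h1
    exact h1
  have hK' : ∀ (A B : Ω) (hA : A ∈ S) (hB : B ∈ S), θ ⟨A, hA⟩ = θ ⟨B, hB⟩ → A * B⁻¹ ∈ T := by
    intro A B hA hB hAB
    have h1 : θ (⟨A, hA⟩ * (⟨B, hB⟩ : S)⁻¹) = 1 := by
      rw [map_mul, map_inv, mul_inv_eq_one]; exact hAB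
    exact (hker _).1 h1
  -- the induced hom on the image
  obtain ⟨f, hf⟩ : ∃ f : P →* P', ∀ y : P, (f y : Ω') = θ ⟨y, hPS y.2⟩ :=
    ⟨(θ.comp (Subgroup.inclusion hPS)).codRestrict P' hθP, fun _ => rfl⟩
  have hfsurj : Function.Surjective f := by
    intro y'
    obtain ⟨y, hy⟩ := hP'ex y'
    exact ⟨y, Subtype.ext ((hf y).trans hy)⟩
  obtain ⟨g, hg⟩ : ∃ g : P →* Ω', ∀ y : P, g y = θ ⟨a y, hPS (a y).2⟩ :=
    ⟨θ.comp ((Subgroup.inclusion hPS).comp a.toMonoidHom), fun _ => rfl⟩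
  have hkerfg : f.ker ≤ g.ker := by
    intro y hy
    rw [MonoidHom.mem_ker] at hy ⊢
    have h1 : θ ⟨y, hPS y.2⟩ = 1 := by rw [← hf y, hy]; rfl
    have h2 : (y : Ω) ∈ T := (hker _).1 h1
    have h3 : ((a y : P) : Ω) ∈ T := stronglyClosed_autGroup_maps F hT hPS ha y h2
    rw [hg]
    exact (hker _).2 h3
  obtain ⟨φ', hφ'⟩ : ∃ φ' : P' →* Ω', ∀ y : P, φ' (f y) = g y :=
    ⟨f.liftOfRightInverse (Function.surjInv hfsurj) (Function.rightInverse_surjInv hfsurj)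
      ⟨g, hkerfg⟩, fun y => f.liftOfRightInverse_comp_apply _ _ ⟨g, hkerfg⟩ y⟩
  have hφ'v : ∀ y : P, φ' ⟨θ ⟨y, hPS y.2⟩, hθP y⟩ = θ ⟨a y, hPS (a y).2⟩ := by
    intro y
    have e : (⟨θ ⟨y, hPS y.2⟩, hθP y⟩ : P') = f y := Subtype.ext (hf y).symm
    rw [e, hφ' y, hg y]
  -- the lift
  have haF : P.subtype.comp a.toMonoidHom ∈ F.Hom P := (mem_autGroup_iff F hPS).1 ha
  obtain ⟨ψ, hψ, hψl⟩ := exists_lift_mod p hS F hF hT haF
  have hψS : ∀ z, ψ z ∈ S := (F.le_of_mem hψ).2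
  have hle : preimageAlong θ P' ≤ P ⊔ T := by
    rintro _ ⟨s, hs, rfl⟩
    have hs' : θ s ∈ P' := hs
    obtain ⟨y, hy⟩ := hP'ex ⟨θ s, hs'⟩
    have h1 : (s : Ω) * (y : Ω)⁻¹ ∈ T := hK' _ _ s.2 (hPS y.2) hy.symm
    have e : (s : Ω) = ((s : Ω) * (y : Ω)⁻¹) * (y : Ω) := by group
    show (s : Ω) ∈ P ⊔ T
    rw [e]
    exact Subgroup.mul_mem _ (Subgroup.mem_sup_right h1) (Subgroup.mem_sup_left y.2)
  have hPreS : preimageAlong θ P' ≤ S := hle.trans (sup_le hPS hTS)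
  have hφ'E : φ' ∈ E.Hom P' := by
    rw [hHom]
    refine ⟨hP'S', ψ.comp (Subgroup.inclusion hle), restrict_mem F hψ hle (fun _ => rfl),
      hPreS, fun z => hψS _, ?_, ?_⟩
    · rintro ⟨_, s, hs, rfl⟩
      exact hs
    · intro z
      have hzP' : θ ⟨z, hPreS z.2⟩ ∈ P' := by
        obtain ⟨_, s, hs, rfl⟩ := z
        exact hs
      obtain ⟨y, hy⟩ := hP'ex ⟨θ ⟨z, hPreS z.2⟩, hzP'⟩
      have h1 : (z : Ω) * (y : Ω)⁻¹ ∈ T := hK' _ _ (hPreS z.2) (hPS y.2) hy.symm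
      have e1 : (⟨θ ⟨z, hPreS z.2⟩, hzP'⟩ : P') = ⟨θ ⟨y, hPS y.2⟩, hθP y⟩ := Subtype.ext hy.symm
      show φ' ⟨θ ⟨z, hPreS z.2⟩, hzP'⟩ = θ ⟨ψ (Subgroup.inclusion hle z), hψS _⟩
      rw [e1, hφ'v y]
      symm
      apply hK
      -- ψ z * (a y)⁻¹ ∈ T
      have hzT : (z : Ω) * (y : Ω)⁻¹ ∈ P ⊔ T := Subgroup.mem_sup_right h1
      have e2 : Subgroup.inclusion hle z =
          (⟨(z : Ω) * (y : Ω)⁻¹, hzT⟩ : ↥(P ⊔ T)) * Subgroup.inclusion le_sup_left y := by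
        apply Subtype.ext
        show (z : Ω) = (z : Ω) * (y : Ω)⁻¹ * (y : Ω)
        group
      have h2 : ψ ⟨(z : Ω) * (y : Ω)⁻¹, hzT⟩ ∈ T := (stronglyClosed_mem_iff F hT hψ _).1 h1
      have h3 := hψl y
      have e3 : ψ (Subgroup.inclusion hle z) * (((a y : P) : Ω))⁻¹ =
          ψ ⟨(z : Ω) * (y : Ω)⁻¹, hzT⟩ *
            (ψ (Subgroup.inclusion le_sup_left y) * ((P.subtype.comp a.toMonoidHom) y)⁻¹) := by
        rw [e2, map_mul]
        show _ = ψ ⟨(z : Ω) * (y : Ω)⁻¹, hzT⟩ *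
            (ψ (Subgroup.inclusion le_sup_left y) * (((a y : P) : Ω))⁻¹)
        group
      rw [e3]
      exact T.mul_mem h2 h3
  have hφ'P : ∀ y' : P', φ' y' ∈ P' := by
    intro y'
    obtain ⟨y, hy⟩ := hP'ex y'
    have e : y' = ⟨θ ⟨y, hPS y.2⟩, hθP y⟩ := Subtype.ext hy.symm
    rw [e, hφ'v y]
    exact hθP _
  have hr' := range_eq_of_maps_into E hφ'E hφ'P
  obtain ⟨a', ha'⟩ : ∃ a' : MulAut P', a' = isoOfInj φ' (E.injective_of_mem hφ'E) hr' := ⟨_, rfl⟩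
  have ha'v : ∀ y' : P', ((a' y' : P') : Ω') = φ' y' := fun y' => by rw [ha']; rfl
  have ha'E : a' ∈ E.autGroup P' := by
    rw [mem_autGroup_iff E hP'S']; exact mem_of_eq E hφ'E ha'v
  have hrel : ∀ y : P, ((a' ⟨θ ⟨y, hPS y.2⟩, hθP y⟩ : P') : Ω') = θ ⟨a y, hPS (a y).2⟩ := by
    intro y
    rw [ha'v, hφ'v]
  have hpow := pow_induced θ hPS hθP a a' hrel
  have ha'n : a' ^ orderOf a = 1 := by
    apply MulEquiv.ext
    intro y'
    obtain ⟨y, hy⟩ := hP'ex y'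
    have e : y' = ⟨θ ⟨y, hPS y.2⟩, hθP y⟩ := Subtype.ext hy.symm
    apply Subtype.ext
    rw [e, hpow (orderOf a) y, pow_orderOf_eq_one]
    rfl
  have ha'co : Nat.Coprime (orderOf a') p :=
    Nat.Coprime.coprime_dvd_left (orderOf_dvd_of_pow_eq_one ha'n) hco
  have hgen : ((⟨θ ⟨x, hPS x.2⟩, hθP x⟩ : P') : Ω')⁻¹ *
      ((a' ⟨θ ⟨x, hPS x.2⟩, hθP x⟩ : P') : Ω') ∈ E.hyperfocalSubgroup p := by
    refine Subgroup.subset_closure ⟨P', ⟨a', ha'E⟩, ⟨θ ⟨x, hPS x.2⟩, hθP x⟩, hP'S', ?_, rfl⟩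
    refine Subgroup.subset_closure ?_
    show Nat.Coprime (orderOf (⟨a', ha'E⟩ : E.autGroup P')) p
    rw [Subgroup.orderOf_mk]; exact ha'co
  refine ⟨(⟨x, hPS x.2⟩ : S)⁻¹ * ⟨a x, hPS (a x).2⟩, ?_, rfl⟩
  show θ ((⟨x, hPS x.2⟩ : S)⁻¹ * ⟨a x, hPS (a x).2⟩) ∈ E.hyperfocalSubgroup p
  rw [map_mul, map_inv, ← hrel x]
  exact hgen

/-- Let F be a saturated fusion system over a finite p-group S, T a subgroup of S strongly closed in F, and E a factor system F/T realised along a homomorphism θ of S with kernel T. Then the hyperfocal subgroup of E is the image under θ of the hyperfocal subgroup of F (hyp(F/T) = T·hyp(F)/T). -/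
theorem result {Ω : Type*} [Group Ω] {S : Subgroup Ω} [Finite S] (p : ℕ) [Fact p.Prime] (hS : IsPGroup p S) (F : Cfsg.FusionSystem S) (hF : F.IsSaturated p) (T : Subgroup Ω) (hT : F.StronglyClosed T) {Ω' : Type*} [Group Ω'] {S' : Subgroup Ω'} (θ : ↥S →* Ω') (E : Cfsg.FusionSystem S') (hE : F.IsFactorSystem T θ E) : E.hyperfocalSubgroup p = ((F.hyperfocalSubgroup p).subgroupOf S).map θ := by
  apply le_antisymm
  · have h1 : ∀ y ∈ {y : Ω' | ∃ (P : Subgroup Ω') (α : E.autGroup P) (x : P), P ≤ S' ∧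
        α ∈ pResidual p (E.autGroup P) ∧ y = (x : Ω')⁻¹ * ((α : MulAut P) x : P)},
        y ∈ ((F.hyperfocalSubgroup p).subgroupOf S).map θ := by
      rintro y ⟨P', a, x', hP'S', ha, rfl⟩
      exact residual_induction (E.autGroup P') p _
        (fun b hb hco z => gen_E_mem p F T θ E hE hP'S' hb hco z) a ha x'
    exact (Subgroup.closure_le _).2 h1
  · have h1 : ∀ y ∈ {y : Ω | ∃ (P : Subgroup Ω) (α : F.autGroup P) (x : P), P ≤ S ∧
        α ∈ pResidual p (F.autGroup P) ∧ y = (x : Ω)⁻¹ * ((α : MulAut P) x : P)},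
        y ∈ ((E.hyperfocalSubgroup p).comap θ).map S.subtype := by
      rintro y ⟨P, a, x, hPS, ha, rfl⟩
      exact residual_induction (F.autGroup P) p _
        (fun b hb hco z => gen_F_mem p hS F hF T hT θ E hE hPS hb hco z) a ha x
    have h2 : F.hyperfocalSubgroup p ≤ ((E.hyperfocalSubgroup p).comap θ).map S.subtype :=
      (Subgroup.closure_le _).2 h1
    rintro _ ⟨s, hs, rfl⟩
    obtain ⟨z, hz, hzs⟩ := h2 (Subgroup.mem_subgroupOf.1 hs)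
    have e : z = s := Subtype.ext hzs
    rw [← e]; exact hz

end Cfsg.Agent.S5256
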