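import Cfsg.Statements.S5276
import Cfsg.Agent.Helper27.TTf
import Cfsg.Agent.Helper26.FusionNC

set_option autoImplicit false
open Cfsg

namespace Cfsg.Agent.S5276

/-- Let p be a prime and F a saturated fusion system over a finite p-group S. Then F is the inner fusion system of S if and only if the normalizer fusion system of S itself in F is the inner fusion system (equivalently, Aut_F(S) is induced by S) and the Frattini subgroup Φ(S) is strongly closed in F. -/
theorem result {Ω : Type*} [Group Ω] {S : Subgroup Ω} [Finite S] (p : ℕ) [Fact p.Prime] (hS : IsPGroup p ↥S) (F : Cfsg.FusionSystem S) (hF : F.IsSaturated p) : (∀ P : Subgroup Ω, F.Hom P = (Cfsg.innerFusionSystem S).Hom P) ↔ (∀ N : Cfsg.FusionSystem (Cfsg.FusionSystem.normalizerIn S S), F.IsNormalizerSystem S N → ∀ P : Subgroup Ω, N.Hom P = (Cfsg.innerFusionSystem (Cfsg.FusionSystem.normalizerIn S S)).Hom P) ∧ F.StronglyClosed ((frattini ↥S).map S.subtype) := by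
  constructor
  · intro h
    refine ⟨fun N hN P => ?_, ?_⟩
    · rw [hN P]
      ext φ
      constructor
      · rintro ⟨hφ, hPN, -, -⟩
        rw [h P] at hφ
        obtain ⟨hP, g, hg, hφg⟩ := hφ
        exact ⟨hPN, g, Subgroup.mem_inf.2 ⟨hg, Subgroup.le_normalizer hg⟩, hφg⟩
      · rintro ⟨hPN, g, hgN, hφg⟩
        have hgS : g ∈ S := (Subgroup.mem_inf.1 hgN).1
        have hPS : P ≤ S := hPN.trans inf_le_left
        refine ⟨?_, hPN, fun x => ?_, Cfsg.conjHom (P ⊔ S) g,
          F.conj_mem (sup_le hPS le_rfl) hgS, fun x => ?_, ?_⟩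
        · rw [h P]; exact ⟨hPS, g, hgS, hφg⟩
        · rw [hφg]
          have hx : g * (x : Ω) * g⁻¹ ∈ S :=
            S.mul_mem (S.mul_mem hgS (hPS x.2)) (S.inv_mem hgS)
          exact Subgroup.mem_inf.2 ⟨hx, Subgroup.le_normalizer hx⟩
        · rw [hφg]; rfl
        · ext y
          constructor
          · rintro ⟨z, hz, rfl⟩
            have hz' : (z : Ω) ∈ S := Subgroup.mem_subgroupOf.1 hz
            exact S.mul_mem (S.mul_mem hgS hz') (S.inv_mem hgS)
          · intro hy
            have hz : g⁻¹ * y * g ∈ S := S.mul_mem (S.mul_mem (S.inv_mem hgS) hy) hgS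
            refine ⟨⟨g⁻¹ * y * g, (le_sup_right : S ≤ P ⊔ S) hz⟩,
              Subgroup.mem_subgroupOf.2 hz, ?_⟩
            show g * (g⁻¹ * y * g) * g⁻¹ = y
            group
    · refine ⟨Subgroup.map_subtype_le _, fun R hR φ hφ x => ?_⟩
      rw [h R] at hφ
      obtain ⟨hRS, g, hg, hφg⟩ := hφ
      rw [hφg]
      obtain ⟨t, ht, htx⟩ := hR x.2
      have hn : (frattini ↥S).Normal := inferInstance
      refine ⟨⟨g, hg⟩ * t * ⟨g, hg⟩⁻¹, hn.conj_mem t ht ⟨g, hg⟩, ?_⟩
      rw [← htx]; rfl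
  · rintro ⟨h1, h2⟩
    have hcomm : ∀ g ∈ S, ∀ x ∈ S, x⁻¹ * (g * x * g⁻¹) ∈ (frattini ↥S).map S.subtype := by
      intro g hg x hx
      have h3 : (⟨x, hx⟩ : ↥S)⁻¹ * ⟨g, hg⟩ * (⟨x, hx⟩ : ↥S)⁻¹⁻¹ * (⟨g, hg⟩ : ↥S)⁻¹ ∈
          frattini ↥S := by
        apply Cfsg.Agent.Lead.commutator_le_frattini hS
        rw [commutator_def]
        exact Subgroup.commutator_mem_commutator (Subgroup.mem_top ((⟨x, hx⟩ : ↥S)⁻¹))
          (Subgroup.mem_top (⟨g, hg⟩ : ↥S))
      refine ⟨_, h3, ?_⟩
      show x⁻¹ * g * x⁻¹⁻¹ * g⁻¹ = _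
      group
    have htop : ∀ φ ∈ F.Hom S, ∀ x : S, (x : Ω)⁻¹ * φ x ∈ (frattini ↥S).map S.subtype := by
      intro φ hφ x
      have hN := Cfsg.Agent.Helper26.normalizerSystem_isNormalizerSystem F S le_rfl
      have h3 := h1 _ hN S
      have hmem : φ ∈ (Cfsg.Agent.Helper26.normalizerSystem F S le_rfl).Hom S := by
        rw [hN S]
        have hle : S ⊔ S ≤ S := sup_le le_rfl le_rfl
        refine ⟨hφ, le_inf le_rfl Subgroup.le_normalizer,
          fun y => Subgroup.mem_inf.2 ⟨(F.le_of_mem hφ).2 y,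
            Subgroup.le_normalizer ((F.le_of_mem hφ).2 y)⟩,
          φ.comp (Subgroup.inclusion hle),
          Cfsg.Agent.Helper26.restrict_mem F hφ hle (fun _ => rfl), fun y => rfl, ?_⟩
        ext y
        constructor
        · rintro ⟨z, -, rfl⟩
          exact (F.le_of_mem hφ).2 _
        · intro hy
          have hr : φ.range = S := Cfsg.Agent.Helper26.isConj_top_eq F ⟨φ, hφ, rfl⟩
          rw [← hr] at hy
          obtain ⟨w, rfl⟩ := hy
          exact ⟨⟨w, (le_sup_left : S ≤ S ⊔ S) w.2⟩, Subgroup.mem_subgroupOf.2 w.2, rfl⟩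
      rw [h3] at hmem
      obtain ⟨-, g, hg, hφg⟩ := hmem
      rw [hφg]
      exact hcomm g (Subgroup.mem_inf.1 hg).1 x x.2
    have hle := Cfsg.Agent.Helper27.TT.le_trivSystem p hS F hF _ h2 hcomm htop
    have hF' : F = Cfsg.innerFusionSystem S := by
      apply Cfsg.Agent.Helper27.TT.fusion_tate p hS F hF
      intro l t ht
      have hAcard : Nat.card (Multiplicative (ZMod p)) = p := by
        rw [Nat.card_eq_fintype_card, Fintype.card_multiplicative, ZMod.card]
      have hyp_le : F.hyperfocalSubgroup p ≤ (frattini ↥S).map S.subtype := by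
        unfold Cfsg.FusionSystem.hyperfocalSubgroup
        rw [Subgroup.closure_le]
        rintro _ ⟨P, β, x, hPS, -, rfl⟩
        exact (hle P ((Cfsg.Agent.Helper26.mem_autGroup_iff F hPS).1 β.2)).2 x
      obtain ⟨t', ht', htt⟩ := hyp_le ht
      have e : t' = t := Subtype.ext htt
      rw [e] at ht'
      exact MonoidHom.mem_ker.1 (Cfsg.Agent.Lead.frattini_le_ker hAcard hS l ht')
    intro P
    rw [hF']

end Cfsg.Agent.S5276
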