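import Cfsg.Statements.S5283
import Cfsg.Agent.Helper27.SuperSol2

set_option autoImplicit false
open Cfsg

namespace Cfsg.Agent.S5283

/-- Call a saturated fusion system F over a finite p-group S supersoluble when S has a chain of subgroups 1 = S_0 ≤ S_1 ≤ … ≤ S_m = S, each strongly closed in F, with each S_{i+1} generated by S_i together with one further element (cyclic steps). Then every saturated fusion system over S is supersoluble if and only if S is normal in every saturated fusion system over S (S is resistant) and every subgroup of Aut(S) of order prime to p is abelian of exponent dividing p − 1. -/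
theorem result {Ω : Type*} [Group Ω] {S : Subgroup Ω} [Finite S] (p : ℕ) [Fact p.Prime] (hS : IsPGroup p ↥S) : (∀ F : Cfsg.FusionSystem S, F.IsSaturated p → (∃ (m : ℕ) (c : Fin (m + 1) → Subgroup Ω), c 0 = ⊥ ∧ c (Fin.last m) = S ∧ (∀ i : Fin (m + 1), F.StronglyClosed (c i)) ∧ ∀ i : Fin m, c i.castSucc ≤ c i.succ ∧ ∃ x ∈ S, c i.succ = c i.castSucc ⊔ Subgroup.zpowers x)) ↔ (∀ F : Cfsg.FusionSystem S, F.IsSaturated p → F.IsNormal S) ∧ ∀ H : Subgroup (MulAut ↥S), (Nat.card ↥H).Coprime p → IsMulCommutative ↥H ∧ ∀ h ∈ H, h ^ (p - 1) = 1 := by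
  constructor
  · intro h
    refine ⟨fun F hF => ?_, fun H hH => ?_⟩
    · obtain ⟨m, c, h0, hl, hsc, hstep⟩ := h F hF
      exact Cfsg.Agent.Helper27.resistant_of_chain p hS F hF m c h0 hl hsc hstep
    · obtain ⟨m, c, h0, hl, hsc, hstep⟩ := h _ (Cfsg.Agent.Helper27.autSys_saturated' S p hS H hH)
      obtain ⟨h1, h2⟩ := Cfsg.Agent.Helper27.pprime_of_chain p hS H hH m c h0 hl hsc hstep
      exact ⟨⟨⟨fun a b => Subtype.ext (h1 a.1 a.2 b.1 b.2)⟩⟩, h2⟩
  · rintro ⟨hres, hab⟩ F hF
    obtain ⟨m, c, h0, hl, hsc, hstep⟩ :=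
      Cfsg.Agent.Helper27.chain_of_resistant p hS F hF (hres F hF) hab
    exact ⟨m, c, h0, hl, hsc, hstep⟩

end Cfsg.Agent.S5283
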