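import Cfsg.Agent.Helper26.FusionNormal2
import Cfsg.Agent.Helper27.InnerSys

set_option autoImplicit false

namespace Cfsg.Agent.S5290

open Cfsg Cfsg.FusionSystem Cfsg.Agent.Helper26 Cfsg.Agent.Helper27

theorem lcs_aut_mem {Ω : Type*} [Group Ω] (Q : Subgroup Ω) (j : ℕ) (α : MulAut Q) (x : Q)
    (hx : (x : Ω) ∈ Q.lowerCentralSeries j) : ((α x : Q) : Ω) ∈ Q.lowerCentralSeries j := by
  rw [← Subgroup.top_subtype_lowerCentralSeries] at hx ⊢
  obtain ⟨y, hy, hyx⟩ := hx
  have hyx' : y = x := Subtype.ext hyx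
  subst hyx'
  refine ⟨α y, ?_, rfl⟩
  have hc : ((⊤ : Subgroup Q).lowerCentralSeries j).Characteristic := inferInstance
  exact Subgroup.characteristic_iff_map_le.mp hc α ⟨y, hy, rfl⟩

theorem lcs_conj_mem {Ω : Type*} [Group Ω] (Q : Subgroup Ω) (j : ℕ) {g x : Ω} (hg : g ∈ Q)
    (hx : x ∈ Q.lowerCentralSeries j) : g * x * g⁻¹ ∈ Q.lowerCentralSeries j := by
  have h := Q.self_le_normalizer_lowerCentralSeries j hg
  rw [Subgroup.mem_normalizer_iff] at h
  exact (h x).mp hx

/-- Let F be a saturated fusion system over a finite p-group S and Q a subgroup of S. Then Q is normal in F (F = N_F(Q)) if and only if the inner fusion system of Q, consisting of the conjugations by elements of Q on subgroups of Q, is a weakly normal subsystem of F (both saturated, Q strongly closed, invariant under F-conjugation, with the Frattini property). -/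
theorem result {Ω : Type*} [Group Ω] {S : Subgroup Ω} [Finite S] (p : ℕ) [Fact p.Prime] (hS : IsPGroup p S)
    (F : Cfsg.FusionSystem S) (hF : F.IsSaturated p)
    (Q : Subgroup Ω) (hQ : Q ≤ S) :
    F.IsNormal Q ↔ (Cfsg.innerFusionSystem Q).IsWeaklyNormalIn F p := by
  have hQfin : Finite Q := finite_of_le hQ
  constructor
  · intro hN
    have hsc := stronglyClosed_of_normal F hN
    refine ⟨inner_saturated Q p (hS.to_le hQ), hF, ?_, hsc, ?_, ?_⟩
    · rintro P φ ⟨hP, g, hg, h⟩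
      exact mem_of_eq F (F.conj_mem (hP.trans hQ) (hQ hg)) h
    · intro P hPQ φ hφ α hα
      obtain ⟨hP, g, hg, h⟩ := hφ
      have hI : (P.subgroupOf Q).map (Q.subtype.comp α.toMonoidHom) ≤ Q := by
        rintro _ ⟨y, -, rfl⟩
        exact (α y).2
      refine ⟨conjHom _ ((α ⟨g, hg⟩ : Q) : Ω), ⟨hI, _, (α ⟨g, hg⟩).2, fun x => rfl⟩, ?_⟩
      intro x hφx hαx
      have e : (⟨φ x, hφx⟩ : Q) = ⟨g, hg⟩ * ⟨x, hPQ x.2⟩ * (⟨g, hg⟩ : Q)⁻¹ :=
        Subtype.ext (h x)
      rw [e, map_mul, map_mul, map_inv]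
      rfl
    · intro P hPQ φ hφ
      obtain ⟨ψ, hψ, hext, hmap⟩ := hN.2 P φ hφ
      obtain ⟨θ, hθ⟩ : ∃ θ : Q →* Ω, θ = ψ.comp (Subgroup.inclusion (le_sup_right : Q ≤ P ⊔ Q)) :=
        ⟨_, rfl⟩
      have hθF : θ ∈ F.Hom Q := restrict_mem F hψ le_sup_right (fun x => by rw [hθ]; rfl)
      have hr : θ.range = Q := by
        refine Eq.trans ?_ hmap
        ext y; constructor
        · rintro ⟨x, rfl⟩
          exact ⟨Subgroup.inclusion le_sup_right x, Subgroup.mem_subgroupOf.2 x.2, by rw [hθ]; rfl⟩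
        · rintro ⟨x, hx, rfl⟩
          exact ⟨⟨x, Subgroup.mem_subgroupOf.1 hx⟩, by rw [hθ]; rfl⟩
      refine ⟨isoOfInj θ (F.injective_of_mem hθF) hr, ?_, P.subtype,
        ⟨hPQ, 1, Q.one_mem, fun x => by
          show (x : Ω) = 1 * (x : Ω) * 1⁻¹
          simp⟩, ?_⟩
      · rw [mem_autGroup_iff F hQ]
        exact mem_of_eq F hθF (fun _ => rfl)
      · intro x hx
        rw [isoOfInj_apply, hθ, ← hext x]
        rfl
  · rintro ⟨-, -, -, hsc, -, hfr⟩
    have hnil : Group.IsNilpotent Q := (hS.to_le hQ).isNilpotent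
    obtain ⟨n, hn⟩ := (Subgroup.isNilpotent_iff_lowerCentralSeries Q).mp hnil
    refine normal_of_series p hS F hF (fun i => Q.lowerCentralSeries (n - i)) n ?_ ?_ ?_ ?_ ?_
    · show Q.lowerCentralSeries (n - n) = Q
      rw [Nat.sub_self]; rfl
    · intro i
      exact Q.lowerCentralSeries_antitone (by omega)
    · intro i _
      have hle : Q.lowerCentralSeries (n - i) ≤ Q := Q.lowerCentralSeries_le_self _
      refine ⟨hle.trans hQ, fun R hR φ hφ x => ?_⟩
      obtain ⟨α, -, φ₀, ⟨-, g, hg, hφ₀⟩, h⟩ := hfr R (hR.trans hle) φ hφ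
      have hmem : φ₀ x ∈ Q.lowerCentralSeries (n - i) := by
        rw [hφ₀ x]
        exact lcs_conj_mem Q _ hg (hR x.2)
      rw [h x (hle hmem)]
      exact lcs_aut_mem Q _ α ⟨φ₀ x, hle hmem⟩ hmem
    · intro i hi
      show ⁅Q, Q.lowerCentralSeries (n - (i + 1))⁆ ≤ Q.lowerCentralSeries (n - i)
      have e : n - i = (n - (i + 1)) + 1 := by omega
      rw [e, Subgroup.lowerCentralSeries_succ, Subgroup.commutator_comm]
    · intro P _ _ γ _
      refine ⟨0, fun x hx => ?_⟩
      have hx' : (x : Ω) ∈ Q.lowerCentralSeries n := by simpa using hx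
      rw [hn, Subgroup.mem_bot] at hx'
      have hx1 : x = 1 := Subtype.ext hx'
      rw [hx1, map_one]

end Cfsg.Agent.S5290
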