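import Cfsg.Agent.Helper27.WeakNormal

set_option autoImplicit false

namespace Cfsg.Agent.S5291

open Cfsg Cfsg.FusionSystem Cfsg.Agent.Helper26 Cfsg.Agent.Helper27

theorem lcs_end_mem {Ω : Type*} [Group Ω] (Q : Subgroup Ω) (j : ℕ) (f : Q →* Q) (x : Q)
    (hx : (x : Ω) ∈ Q.lowerCentralSeries j) : ((f x : Q) : Ω) ∈ Q.lowerCentralSeries j := by
  rw [← Subgroup.top_subtype_lowerCentralSeries] at hx ⊢
  obtain ⟨y, hy, hyx⟩ := hx
  have hyx' : y = x := Subtype.ext hyx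
  subst hyx'
  refine ⟨f y, ?_, rfl⟩
  have h1 : f y ∈ ((⊤ : Subgroup Q).lowerCentralSeries j).map f := ⟨y, hy, rfl⟩
  rw [Subgroup.map_lowerCentralSeries] at h1
  exact Subgroup.lowerCentralSeries_mono j le_top h1

/-- Let F be a saturated fusion system over a finite p-group S and E a weakly normal subsystem of F over a subgroup T. Suppose a subgroup R of T is normal in E (E = N_E(R)), and let R* be the subgroup of T generated by the images of R under all maps of F with source R. Then R* is normal in F (F = N_F(R*)). -/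
theorem result {Ω : Type*} [Group Ω] {S : Subgroup Ω} [Finite S] (p : ℕ) [Fact p.Prime] (hS : IsPGroup p S)
    (F : Cfsg.FusionSystem S) (hF : F.IsSaturated p)
    {T : Subgroup Ω} (E : Cfsg.FusionSystem T) (hE : E.IsWeaklyNormalIn F p)
    (R : Subgroup Ω) (hR : E.IsNormal R) :
    F.IsNormal (Subgroup.closure {x : Ω | ∃ φ ∈ F.Hom R, ∃ r : R, x = φ r}) := by
  obtain ⟨hEs, -, hEinv⟩ := hE
  have hEinv' := hEinv
  obtain ⟨hsub, hTsc, hinv, hfr⟩ := hEinv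
  have hTS : T ≤ S := hTsc.1
  have hTfin : Finite T := finite_of_le hTS
  have hRT : R ≤ T := hR.1
  have hC : E.IsNormal E.core := Cfsg.Agent.S5145.result E
  have hRC : R ≤ E.core := le_sSup hR
  have hCT : E.core ≤ T := hC.1
  obtain ⟨Q, hQdef⟩ : ∃ Q : Subgroup Ω,
      Q = Subgroup.closure {x : Ω | ∃ φ ∈ F.Hom R, ∃ r : R, x = φ r} := ⟨_, rfl⟩
  rw [← hQdef]
  have hQgen : ∀ φ ∈ F.Hom R, ∀ r : R, φ r ∈ Q := by
    intro φ hφ r
    rw [hQdef]
    exact Subgroup.subset_closure ⟨φ, hφ, r, rfl⟩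
  have hQle : ∀ K : Subgroup Ω, (∀ φ ∈ F.Hom R, ∀ r : R, φ r ∈ K) → Q ≤ K := by
    intro K hK
    rw [hQdef, Subgroup.closure_le]
    rintro _ ⟨φ, hφ, r, rfl⟩
    exact hK φ hφ r
  have hRsc : E.StronglyClosed R := stronglyClosed_of_normal E hR
  have hQC : Q ≤ E.core := by
    apply hQle
    intro φ hφ r
    obtain ⟨α, hα, φ₀, hφ₀, h⟩ := hfr R hRT φ hφ
    have h0 : φ₀ r ∈ R := hRsc.2 R le_rfl φ₀ hφ₀ r
    rw [h r (hRT h0)]
    exact core_autGroup_invariant F E hEinv' hα _ (hRC h0)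
  have hQT : Q ≤ T := hQC.trans hCT
  have key1 : ∀ (N : Subgroup Ω) (ψ : N →* Ω), ψ ∈ F.Hom N → ∀ (hQN : Q ≤ N) (x : Ω)
      (hx : x ∈ Q), ψ ⟨x, hQN hx⟩ ∈ Q := by
    intro N ψ hψ hQN x hx
    have hK : Q ≤ (Q.comap ψ).map N.subtype := by
      apply hQle
      intro φ hφ r
      have hφN : ∀ r : R, φ r ∈ N := fun r => hQN (hQgen φ hφ r)
      refine ⟨⟨φ r, hφN r⟩, ?_, rfl⟩
      show ψ ⟨φ r, hφN r⟩ ∈ Q
      exact hQgen (ψ.comp (φ.codRestrict N hφN)) (F.comp_mem hφ hψ hφN) r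
    obtain ⟨z, hz, hzx⟩ := hK hx
    have e : z = ⟨x, hQN hx⟩ := Subtype.ext hzx
    rw [← e]; exact hz
  have hQS : Q ≤ S := hQT.trans hTS
  have hQfin : Finite Q := finite_of_le hQS
  have hnil : Group.IsNilpotent Q := (hS.to_le hQS).isNilpotent
  obtain ⟨n, hn⟩ := (Subgroup.isNilpotent_iff_lowerCentralSeries Q).mp hnil
  refine normal_of_series p hS F hF (fun i => Q.lowerCentralSeries (n - i)) n ?_ ?_ ?_ ?_ ?_
  · show Q.lowerCentralSeries (n - n) = Q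
    rw [Nat.sub_self]; rfl
  · intro i
    exact Q.lowerCentralSeries_antitone (by omega)
  · intro i _
    have hle : Q.lowerCentralSeries (n - i) ≤ Q := Q.lowerCentralSeries_le_self _
    refine ⟨hle.trans hQS, fun P hP φ hφ x => ?_⟩
    have hPQ : P ≤ Q := hP.trans hle
    obtain ⟨α, hα, φ₀, hφ₀, h⟩ := hfr P (hPQ.trans hQT) φ hφ
    obtain ⟨ψ, hψ, hψext, -⟩ := hC.2 P φ₀ hφ₀
    have hψF : ψ ∈ F.Hom (P ⊔ E.core) := hsub _ hψ
    have hQN : Q ≤ P ⊔ E.core := hQC.trans le_sup_right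
    obtain ⟨f, hf⟩ : ∃ f : Q →* Q, ∀ y : Q, ((f y : Q) : Ω) = ψ ⟨y, hQN y.2⟩ :=
      ⟨(ψ.comp (Subgroup.inclusion hQN)).codRestrict Q (fun y => key1 _ ψ hψF hQN y y.2),
        fun _ => rfl⟩
    have h1 : φ₀ x ∈ Q.lowerCentralSeries (n - i) := by
      have h2 := lcs_end_mem Q (n - i) f ⟨x, hPQ x.2⟩ (hP x.2)
      rw [hf] at h2
      rw [← hψext x]; exact h2
    have hαF : T.subtype.comp α.toMonoidHom ∈ F.Hom T := (mem_autGroup_iff F hTS).1 hα
    obtain ⟨g, hg⟩ : ∃ g : Q →* Q, ∀ y : Q, ((g y : Q) : Ω) = ((α ⟨y, hQT y.2⟩ : T) : Ω) :=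
      ⟨((T.subtype.comp α.toMonoidHom).comp (Subgroup.inclusion hQT)).codRestrict Q
        (fun y => key1 _ _ hαF hQT y y.2), fun _ => rfl⟩
    rw [h x (hQT (hle h1))]
    have h3 := lcs_end_mem Q (n - i) g ⟨φ₀ x, hle h1⟩ h1
    rw [hg] at h3
    exact h3
  · intro i hi
    show ⁅Q, Q.lowerCentralSeries (n - (i + 1))⁆ ≤ Q.lowerCentralSeries (n - i)
    have e : n - i = (n - (i + 1)) + 1 := by omega
    rw [e, Subgroup.lowerCentralSeries_succ, Subgroup.commutator_comm]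
  · intro P _ _ γ _
    refine ⟨0, fun x hx => ?_⟩
    have hx' : (x : Ω) ∈ Q.lowerCentralSeries n := by simpa using hx
    rw [hn, Subgroup.mem_bot] at hx'
    have hx1 : x = 1 := Subtype.ext hx'
    rw [hx1, map_one]

end Cfsg.Agent.S5291
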