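import Cfsg.Statements.S5297
import Cfsg.Agent.Helper27.SmallCyclic
import Cfsg.Agent.Helper26.FusionAlperin

set_option autoImplicit false
universe u
open Cfsg

namespace Cfsg.Agent.S5297

open Cfsg.Agent.Helper26 Cfsg.Agent.Helper27 Cfsg.FusionSystem in
/-- Let F be a saturated fusion system over a finite p-group S. If every map of F between cyclic subgroups of the hyperfocal subgroup of F of order p or 4 is a map of the normalizer system of S (it extends to a map of F defined on all of S), then S is normal in F. -/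
theorem result {Ω : Type u} [Group Ω] {S : Subgroup Ω} [Finite S] (p : ℕ) [Fact p.Prime] (hS : IsPGroup p S)
    (F : Cfsg.FusionSystem S) (hF : F.IsSaturated p)
    (h : ∀ A B : Subgroup Ω, A ≤ (F.hyperfocalSubgroup p) → B ≤ (F.hyperfocalSubgroup p) → IsCyclic ↥A → (Nat.card ↥A = p ∨ Nat.card ↥A = 4) → IsCyclic ↥B → (Nat.card ↥B = p ∨ Nat.card ↥B = 4) →
      F.homSet A B ⊆ F.normalizerHom S A) :
    F.IsNormal S := by
  have hhyp : F.StronglyClosed (F.hyperfocalSubgroup p) := hyperfocal_stronglyClosed p hS F hF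
  haveI hnil : Group.IsNilpotent S := hS.isNilpotent
  have hScl : F.StronglyClosed S := ⟨le_rfl, fun R _ φ hφ x => (F.le_of_mem hφ).2 x⟩
  have key : ∀ P : Subgroup Ω, F.IsEssential p P → S ≤ P := by
    intro P hess
    have hcen : F.IsCentric P := hess.1
    have hrad := radical_of_essential p hS F hess
    have hPS : P ≤ S := hcen.1
    have hPfin : Finite P := finite_of_le hPS
    have hPp : IsPGroup p P := hS.to_le hPS
    -- depth invariance of small elements of the hyperfocal subgroup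
    have hdepth : ∀ k ∈ F.autGroup P, ∀ x : P, (x : Ω) ∈ F.hyperfocalSubgroup p →
        (x ^ p = 1 ∨ (p = 2 ∧ x ^ 4 = 1)) → ∀ i : ℕ, x ∈ zsub S P i → k x ∈ zsub S P i := by
      intro k hk x hxh hxs i hxi
      by_cases hx1 : x = 1
      · rw [hx1, map_one]; exact Subgroup.one_mem _
      obtain ⟨φ, hφ, hφx⟩ := restrict_zpowers F hPS hk x
      have hx1' : (x : Ω) ≠ 1 := fun h => hx1 (Subtype.ext h)
      have hxs' : (x : Ω) ^ p = 1 ∨ (p = 2 ∧ (x : Ω) ^ 4 = 1) := by
        rcases hxs with h | ⟨h2, h⟩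
        · left
          have := congrArg Subtype.val h
          simpa using this
        · right
          refine ⟨h2, ?_⟩
          have := congrArg Subtype.val h
          simpa using this
      have hkx1 : ((k x : P) : Ω) ≠ 1 := fun h =>
        hx1 (k.injective (by rw [map_one]; exact Subtype.ext h))
      have hkxs : ((k x : P) : Ω) ^ p = 1 ∨ (p = 2 ∧ ((k x : P) : Ω) ^ 4 = 1) := by
        rcases hxs with h | ⟨h2, h⟩
        · left
          have h' : (k x) ^ p = 1 := by rw [← map_pow, h, map_one]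
          have := congrArg Subtype.val h'
          simpa using this
        · right
          refine ⟨h2, ?_⟩
          have h' : (k x) ^ 4 = 1 := by rw [← map_pow, h, map_one]
          have := congrArg Subtype.val h'
          simpa using this
      have hkxh : ((k x : P) : Ω) ∈ F.hyperfocalSubgroup p :=
        stronglyClosed_autGroup_maps F hhyp hPS hk x hxh
      have hin := h _ _ (Subgroup.zpowers_le.2 hxh) (Subgroup.zpowers_le.2 hkxh) inferInstance
        (card_zpowers_small hx1' hxs') inferInstance (card_zpowers_small hkx1 hkxs) hφ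
      obtain ⟨_, _, _, ψ, hψ, hres, _⟩ := hin
      have hle : S ≤ Subgroup.zpowers (x : Ω) ⊔ S := le_sup_right
      have hβ : ψ.comp (Subgroup.inclusion hle) ∈ F.Hom S := restrict_mem F hψ hle (fun _ => rfl)
      refine zsub_hom_mem F hPS hβ ?_ hxi
      have h1 := hres ⟨x, Subgroup.mem_zpowers _⟩
      rw [hφx] at h1
      rw [← h1]
      rfl
    apply le_of_normalizer_le hS F hScl hPS
    intro g hgS hgN
    obtain ⟨c, hc⟩ : ∃ c : ℕ, c = Group.nilpotencyClass S := ⟨_, rfl⟩
    have hctop : zsub S P c = ⊤ := by rw [hc]; exact zsub_top hPS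
    obtain ⟨D, hD⟩ : ∃ D : Subgroup P, D = (F.hyperfocalSubgroup p).subgroupOf P := ⟨_, rfl⟩
    have hDmem : ∀ x : P, x ∈ D ↔ (x : Ω) ∈ F.hyperfocalSubgroup p := fun x => by
      rw [hD, Subgroup.mem_subgroupOf]
    obtain ⟨cond, hcond⟩ : ∃ cond : Subgroup P → Prop, cond = fun R => R ≤ D ∧
        (∀ g ∈ F.autGroup P, ∀ x ∈ R, g x ∈ R) ∧
        ∀ x ∈ R, x ^ p = 1 ∨ (p = 2 ∧ x ^ 4 = 1) := ⟨_, rfl⟩
    obtain ⟨K, hKdef⟩ : ∃ K : Subgroup (MulAut P),
        K = ⨅ R : {R : Subgroup P // cond R},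
          stabSubgroup (zchain S P R.1 c) (zchain_anti S P R.1 c) := ⟨_, rfl⟩
    have hKmem : ∀ k : MulAut P, k ∈ K ↔ ∀ R : Subgroup P, cond R →
        StabChain (zchain S P R c) k ∧ StabChain (zchain S P R c) k⁻¹ := by
      intro k
      rw [hKdef, Subgroup.mem_iInf]
      constructor
      · intro h R hR; exact h ⟨R, hR⟩
      · intro h R; exact h R.1 R.2
    have hchaininv : ∀ R : Subgroup P, cond R → ∀ β ∈ F.autGroup P, ∀ j, ∀ x ∈ zchain S P R c j,
        β x ∈ zchain S P R c j := by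
      intro R hR β hβ j x hx
      rw [hcond] at hR
      exact ⟨hR.2.1 β hβ x hx.1,
        hdepth β hβ x ((hDmem x).1 (hR.1 hx.1)) (hR.2.2 x hx.1) _ hx.2⟩
    have hKn : ∀ α ∈ F.autGroup P, ∀ γ ∈ K, α * γ * α⁻¹ ∈ K := by
      intro α hα γ hγ
      rw [hKmem] at hγ ⊢
      intro R hR
      have hαinv : α⁻¹ ∈ F.autGroup P := Subgroup.inv_mem _ hα
      have e : (α * γ * α⁻¹)⁻¹ = α * γ⁻¹ * α⁻¹ := by group
      refine ⟨stabChain_conj (hchaininv R hR α hα) (hchaininv R hR α⁻¹ hαinv) (hγ R hR).1, ?_⟩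
      rw [e]
      exact stabChain_conj (hchaininv R hR α hα) (hchaininv R hR α⁻¹ hαinv) (hγ R hR).2
    refine mem_of_mem_normal_pSubgroup p F hcen hrad K (fun α hα γ hγ _ => hKn α hα γ hγ)
      ?_ hgS hgN ?_
    · intro γ hγ hγA
      refine pGroup_of_small_chain hPp D (F.autGroup P) (K ⊓ F.autGroup P)
        (fun g hg x hx => (hDmem _).2
          (stronglyClosed_autGroup_maps F hhyp hPS hg x ((hDmem x).1 hx)))
        (fun g hg m hm hcop u => (hDmem _).2 (comm_mem_hyp F p hPS hg hm hcop u))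
        inf_le_right
        (fun g hg k hk => Subgroup.mem_inf.2 ⟨hKn g hg k (Subgroup.mem_inf.1 hk).1,
          Subgroup.mul_mem _ (Subgroup.mul_mem _ hg (Subgroup.mem_inf.1 hk).2)
            (Subgroup.inv_mem _ hg)⟩)
        ?_ γ (Subgroup.mem_inf.2 ⟨hγ, hγA⟩)
      intro R hRD hRinv hsmall k hk
      have hR : cond R := by rw [hcond]; exact ⟨hRD, hRinv, hsmall⟩
      exact chain_fix_of_stab hS hPS R c hctop k (((hKmem k).1 (Subgroup.mem_inf.1 hk).1 R hR).1)
    · -- conjugation by elements of `N_S(P)` lies in `K`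
      have hconj : ∀ (g' : Ω) (hg'N : g' ∈ Subgroup.normalizer (P : Set Ω)), g' ∈ S →
          ∀ R : Subgroup P, cond R → StabChain (zchain S P R c) (P.normalizerMonoidHom ⟨g', hg'N⟩) := by
        intro g' hg'N hg'S R hR j x hx
        have hcg : P.normalizerMonoidHom ⟨g', hg'N⟩ ∈ F.autGroup P :=
          autInducedBy_le_autGroup F hPS (mem_autInducedBy_iff.2 ⟨g', hg'S, fun _ => rfl⟩)
        have hR' := hR
        rw [hcond] at hR'
        refine ⟨R.mul_mem (R.inv_mem hx.1) (hR'.2.1 _ hcg x hx.1), ?_⟩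
        exact zsub_comm_mem hg'S hx.2 rfl
      have hinvmem : g⁻¹ ∈ Subgroup.normalizer (P : Set Ω) := Subgroup.inv_mem _ hgN
      have e : (P.normalizerMonoidHom ⟨g, hgN⟩)⁻¹ = P.normalizerMonoidHom ⟨g⁻¹, hinvmem⟩ := by
        rw [← map_inv]; rfl
      rw [hKmem]
      intro R hR
      refine ⟨hconj g hgN hgS R hR, ?_⟩
      rw [e]
      exact hconj g⁻¹ hinvmem (S.inv_mem hgS) R hR
  apply normal_of_invariant p hS F hF
  intro P hP
  have hSP : S ≤ P := by
    rcases hP with h | hess
    · exact h.ge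
    · exact key P hess
  have hPS : P ≤ S := by
    rcases hP with h | hess
    · exact h.le
    · exact hess.1.1
  refine ⟨hSP, fun α _ => ?_⟩
  have htop : S.subgroupOf P = ⊤ := Subgroup.subgroupOf_eq_top.2 hPS
  rw [htop]
  exact Subgroup.map_top_of_surjective _ α.surjective

end Cfsg.Agent.S5297
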