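import Cfsg.Statements.S5298
import Cfsg.Agent.Helper27.SmallCyclic
import Cfsg.Agent.Helper26.FusionAlperin

set_option autoImplicit false
universe u
open Cfsg

namespace Cfsg.Agent.S5298

open Cfsg.Agent.Helper26 Cfsg.Agent.Helper27 Cfsg.FusionSystem in
/-- Let F be a saturated fusion system over a finite p-group S. If every map of F between cyclic subgroups of the hyperfocal subgroup of F of order p or 4 is conjugation by an element of S, then F is the inner fusion system of S. -/
theorem result {Ω : Type u} [Group Ω] {S : Subgroup Ω} [Finite S] (p : ℕ) [Fact p.Prime] (hS : IsPGroup p S)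
    (F : Cfsg.FusionSystem S) (hF : F.IsSaturated p)
    (h : ∀ A B : Subgroup Ω, A ≤ (F.hyperfocalSubgroup p) → B ≤ (F.hyperfocalSubgroup p) → IsCyclic ↥A → (Nat.card ↥A = p ∨ Nat.card ↥A = 4) → IsCyclic ↥B → (Nat.card ↥B = p ∨ Nat.card ↥B = 4) →
      F.homSet A B ⊆ (Cfsg.innerFusionSystem S).Hom A) :
    ∀ P : Subgroup Ω, F.Hom P = (Cfsg.innerFusionSystem S).Hom P := by
  have hhyp : F.StronglyClosed (F.hyperfocalSubgroup p) := hyperfocal_stronglyClosed p hS F hF
  haveI hnil : Group.IsNilpotent S := hS.isNilpotent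
  have key : ∀ P : Subgroup Ω, P ≤ S → IsPGroup p (F.autGroup P) := by
    intro P hPS
    have hPfin : Finite P := finite_of_le hPS
    have hPp : IsPGroup p P := hS.to_le hPS
    have hconjS : ∀ k ∈ F.autGroup P, ∀ x : P, (x : Ω) ∈ F.hyperfocalSubgroup p →
        (x ^ p = 1 ∨ (p = 2 ∧ x ^ 4 = 1)) → ∃ g ∈ S, ((k x : P) : Ω) = g * x * g⁻¹ := by
      intro k hk x hxh hxs
      by_cases hx1 : x = 1
      · exact ⟨1, S.one_mem, by rw [hx1, map_one]; simp⟩
      obtain ⟨φ, hφ, hφx⟩ := restrict_zpowers F hPS hk x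
      have hx1' : (x : Ω) ≠ 1 := fun h => hx1 (Subtype.ext h)
      have hxs' : (x : Ω) ^ p = 1 ∨ (p = 2 ∧ (x : Ω) ^ 4 = 1) := by
        rcases hxs with h | ⟨h2, h⟩
        · left
          have := congrArg Subtype.val h
          simpa using this
        · right
          refine ⟨h2, ?_⟩
          have := congrArg Subtype.val h
          simpa using this
      have hkx1 : ((k x : P) : Ω) ≠ 1 := fun h =>
        hx1 (k.injective (by rw [map_one]; exact Subtype.ext h))
      have hkxs : ((k x : P) : Ω) ^ p = 1 ∨ (p = 2 ∧ ((k x : P) : Ω) ^ 4 = 1) := by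
        rcases hxs with h | ⟨h2, h⟩
        · left
          have h' : (k x) ^ p = 1 := by rw [← map_pow, h, map_one]
          have := congrArg Subtype.val h'
          simpa using this
        · right
          refine ⟨h2, ?_⟩
          have h' : (k x) ^ 4 = 1 := by rw [← map_pow, h, map_one]
          have := congrArg Subtype.val h'
          simpa using this
      have hkxh : ((k x : P) : Ω) ∈ F.hyperfocalSubgroup p :=
        stronglyClosed_autGroup_maps F hhyp hPS hk x hxh
      have hin := h _ _ (Subgroup.zpowers_le.2 hxh) (Subgroup.zpowers_le.2 hkxh) inferInstance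
        (card_zpowers_small hx1' hxs') inferInstance (card_zpowers_small hkx1 hkxs) hφ
      obtain ⟨_, g, hg, hφg⟩ := hin
      exact ⟨g, hg, by rw [← hφx]; exact hφg _⟩
    have hmain := pGroup_of_small_chain hPp ((F.hyperfocalSubgroup p).subgroupOf P)
      (F.autGroup P) (F.autGroup P)
      (fun g hg x hx => Subgroup.mem_subgroupOf.2
        (stronglyClosed_autGroup_maps F hhyp hPS hg x (Subgroup.mem_subgroupOf.1 hx)))
      (fun g hg m hm hcop u => Subgroup.mem_subgroupOf.2 (comm_mem_hyp F p hPS hg hm hcop u))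
      le_rfl
      (fun g hg k hk => Subgroup.mul_mem _ (Subgroup.mul_mem _ hg hk) (Subgroup.inv_mem _ hg))
      (by
        intro R hRD hRinv hsmall k hk
        refine chain_fix_of_stab hS hPS R (Group.nilpotencyClass S) (zsub_top hPS) k ?_
        intro j x hx
        obtain ⟨hxR, hxZ⟩ := hx
        obtain ⟨g, hg, hkx⟩ := hconjS k hk x (Subgroup.mem_subgroupOf.1 (hRD hxR)) (hsmall x hxR)
        refine ⟨R.mul_mem (R.inv_mem hxR) (hRinv k hk x hxR), ?_⟩
        refine zsub_comm_mem hg hxZ ?_
        rw [Subgroup.coe_mul, Subgroup.coe_inv, hkx])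
    rintro ⟨γ, hγ⟩
    obtain ⟨j, hj⟩ := hmain γ hγ
    exact ⟨j, Subtype.ext (by simpa using hj)⟩
  have hFi := eq_inner_of_pGroups p hS F hF key
  intro P
  rw [hFi]

end Cfsg.Agent.S5298
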