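import Cfsg.Statements.S5300
import Cfsg.Agent.Helper27.CoprimeAut
import Cfsg.Agent.Helper26.FusionNormal2

set_option autoImplicit false
universe u
open Cfsg

namespace Cfsg.Agent.S5300

/-- A `p`-element normalizing a cyclic group `⟨x⟩` with `x ^ p = 1` centralizes it. -/
theorem conj_eq_of_mem_zpowers {Ω : Type*} [Group Ω] {p : ℕ} [Fact p.Prime] {s x : Ω} {a : ℕ}
    (hs : s ^ p ^ a = 1) (hx : x ^ p = 1) (h : s * x * s⁻¹ ∈ Subgroup.zpowers x) :
    s * x * s⁻¹ = x := by
  have hp : p.Prime := Fact.out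
  obtain ⟨k, hk⟩ := Subgroup.mem_zpowers_iff.1 h
  by_cases hx1 : x = 1
  · subst hx1; simp
  have hord : orderOf x = p := orderOf_eq_prime hx hx1
  have hpow : ∀ j : ℕ, s ^ j * x * (s ^ j)⁻¹ = x ^ (k ^ j) := by
    intro j
    induction j with
    | zero => simp
    | succ j ih =>
      have e : s ^ (j + 1) * x * (s ^ (j + 1))⁻¹ = s * (s ^ j * x * (s ^ j)⁻¹) * s⁻¹ := by
        rw [pow_succ']; group
      rw [e, ih, ← conj_zpow, ← hk, ← zpow_mul, pow_succ']
  have h1 := hpow (p ^ a)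
  rw [hs] at h1
  simp only [one_mul, inv_one, mul_one] at h1
  have h2 : x ^ (k ^ p ^ a - 1) = 1 := by
    rw [zpow_sub, zpow_one, ← h1, mul_inv_cancel]
  have h3 : (orderOf x : ℤ) ∣ k ^ p ^ a - 1 := orderOf_dvd_iff_zpow_eq_one.2 h2
  rw [hord] at h3
  have h4 : ((k ^ p ^ a - 1 : ℤ) : ZMod p) = 0 := (ZMod.intCast_zmod_eq_zero_iff_dvd _ _).2 h3
  have h5 : (k : ZMod p) = 1 := by
    have h6 : (k : ZMod p) ^ p ^ a = 1 := by
      have : ((k ^ p ^ a - 1 : ℤ) : ZMod p) = (k : ZMod p) ^ p ^ a - 1 := by push_cast; ring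
      rw [this] at h4
      exact sub_eq_zero.1 h4
    rwa [ZMod.pow_card_pow] at h6
  have h7 : (p : ℤ) ∣ k - 1 := by
    apply (ZMod.intCast_zmod_eq_zero_iff_dvd _ _).1
    push_cast
    rw [h5, sub_self]
  have h8 : x ^ (k - 1) = 1 := by
    apply orderOf_dvd_iff_zpow_eq_one.1
    rw [hord]; exact h7
  rw [← hk]
  have e : k = (k - 1) + 1 := by ring
  rw [e, zpow_add, h8, zpow_one, one_mul]

/-- An element normalizing a cyclic group `⟨x⟩` with `x ^ 4 = 1` centralizes or inverts `x`. -/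
theorem conj_eq_or_inv {Ω : Type*} [Group Ω] {s x : Ω} (hx : x ^ 4 = 1)
    (h : s * x * s⁻¹ ∈ Subgroup.zpowers x) : s * x * s⁻¹ = x ∨ s * x * s⁻¹ = x⁻¹ := by
  obtain ⟨k, hk⟩ := Subgroup.mem_zpowers_iff.1 h
  have hmod : x ^ k = x ^ (k % 4) := by
    have e : k = k % 4 + 4 * (k / 4) := (Int.emod_add_mul_ediv k 4).symm
    have hx4 : x ^ (4 : ℤ) = 1 := by
      have : x ^ ((4 : ℕ) : ℤ) = 1 := by rw [zpow_natCast]; exact hx
      exact this
    conv_lhs => rw [e]
    rw [zpow_add, zpow_mul, hx4, one_zpow, mul_one]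
  rw [hmod] at hk
  have hone : s * x * s⁻¹ = 1 → x = 1 := by
    intro h1
    have : x = s⁻¹ * (s * x * s⁻¹) * s := by group
    rw [this, h1]; group
  have hr : k % 4 = 0 ∨ k % 4 = 1 ∨ k % 4 = 2 ∨ k % 4 = 3 := by omega
  rcases hr with h0 | h1 | h2 | h3
  · rw [h0, zpow_zero] at hk
    have hx1 := hone hk.symm
    left; rw [hx1]; group
  · rw [h1, zpow_one] at hk
    left; exact hk.symm
  · rw [h2] at hk
    have hk' : s * x * s⁻¹ = x ^ 2 := by
      rw [← hk]; exact zpow_natCast x 2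
    have hsq : (s * x * s⁻¹) ^ 2 = 1 := by
      rw [hk', ← pow_mul]; exact hx
    have hx2 : x ^ 2 = 1 := by
      rw [conj_pow] at hsq
      have : x ^ 2 = s⁻¹ * (s * x ^ 2 * s⁻¹) * s := by group
      rw [this, hsq]; group
    rw [hx2] at hk'
    have hx1 := hone hk'
    left; rw [hx1]; group
  · rw [h3] at hk
    right
    rw [← hk]
    have : x ^ (3 : ℤ) = x ^ 3 := zpow_natCast x 3
    rw [this]
    apply eq_inv_of_mul_eq_one_left
    rw [← pow_succ]; exact hx

open Cfsg.Agent.Helper26 Cfsg.Agent.Helper27 Cfsg.FusionSystem in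
/-- Let F be a saturated fusion system over a finite p-group S. If every cyclic subgroup of the focal subgroup of F of order p (of order 2 or 4 when p = 2) is normal in S, then S is normal in F. -/
theorem result {Ω : Type u} [Group Ω] {S : Subgroup Ω} [Finite S] (p : ℕ) [Fact p.Prime] (hS : IsPGroup p S)
    (F : Cfsg.FusionSystem S) (hF : F.IsSaturated p)
    (hnorm : ∀ x ∈ F.focalSubgroup, (x ^ p = 1 ∨ (p = 2 ∧ x ^ 4 = 1)) → ∀ s ∈ S, s * x * s⁻¹ ∈ Subgroup.zpowers x) :
    F.IsNormal S := by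
  have hp : p.Prime := Fact.out
  have hScl : F.StronglyClosed S := ⟨le_rfl, fun R _ φ hφ x => (F.le_of_mem hφ).2 x⟩
  have hfocS : F.focalSubgroup ≤ S := by
    unfold FusionSystem.focalSubgroup
    rw [Subgroup.closure_le]
    rintro _ ⟨P, φ, x, hφ, rfl⟩
    exact S.mul_mem (S.inv_mem ((F.le_of_mem hφ).1 x.2)) ((F.le_of_mem hφ).2 x)
  obtain ⟨e, he⟩ : ∃ e, ∀ s ∈ S, s ^ p ^ e = 1 := by
    obtain ⟨e, hcard⟩ := IsPGroup.iff_card.1 hS
    refine ⟨e, fun s hs => ?_⟩
    have h1 : (⟨s, hs⟩ : S) ^ p ^ e = 1 := by rw [← hcard]; exact pow_card_eq_one'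
    have h2 := congrArg Subtype.val h1
    simpa using h2
  have hA : ∀ x ∈ F.focalSubgroup, x ^ p = 1 → ∀ s ∈ S, s * x * s⁻¹ = x :=
    fun x hx hxp s hs => conj_eq_of_mem_zpowers (he s hs) hxp (hnorm x hx (Or.inl hxp) s hs)
  have hB : p = 2 → ∀ x ∈ F.focalSubgroup, x ^ 4 = 1 → ∀ s ∈ S,
      s * x * s⁻¹ = x ∨ s * x * s⁻¹ = x⁻¹ :=
    fun h2 x hx h4 s hs => conj_eq_or_inv h4 (hnorm x hx (Or.inr ⟨h2, h4⟩) s hs)
  have key : ∀ U : Subgroup Ω, F.IsEssential p U → S ≤ U := by
    intro U hess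
    have hcen : F.IsCentric U := hess.1
    have hrad := radical_of_essential p hS F hess
    have hUS : U ≤ S := hcen.1
    have hUfin : Finite U := finite_of_le hUS
    have hUp : IsPGroup p U := hS.to_le hUS
    apply le_of_normalizer_le hS F hScl hUS
    intro g hgS hgN
    obtain ⟨H, hH⟩ : ∃ H : Subgroup U, H = F.focalSubgroup.subgroupOf U := ⟨_, rfl⟩
    have hHmem : ∀ x : U, x ∈ H ↔ (x : Ω) ∈ F.focalSubgroup := fun x => by
      rw [hH, Subgroup.mem_subgroupOf]
    have hfocgen : ∀ α ∈ F.autGroup U, ∀ u : U, u⁻¹ * α u ∈ H := by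
      intro α hα u
      rw [hHmem]
      have hα' := (mem_autGroup_iff F hUS).1 hα
      unfold FusionSystem.focalSubgroup
      apply Subgroup.subset_closure
      exact ⟨U, _, u, hα', rfl⟩
    have hHinv : ∀ α ∈ F.autGroup U, ∀ x ∈ H, α x ∈ H := by
      intro α hα x hx
      have e : α x = x * (x⁻¹ * α x) := by group
      rw [e]; exact H.mul_mem hx (hfocgen α hα x)
    refine mem_of_mem_normal_pSubgroup p F hcen hrad (smallStab p H) ?_ ?_ hgS hgN ?_
    · intro α hα γ hγ _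
      have hαinv : α⁻¹ ∈ F.autGroup U := Subgroup.inv_mem _ hα
      rw [mem_smallStab] at hγ ⊢
      intro x hx
      have hy : α⁻¹ x ∈ H := hHinv _ hαinv x hx
      have e : ∀ y, (α * γ * α⁻¹) y = α (γ (α⁻¹ y)) := fun y => rfl
      refine ⟨fun h => ?_, fun h2 h4 => ?_⟩
      · have h' : (α⁻¹ x) ^ p = 1 := by rw [← map_pow, h, map_one]
        rw [e, (hγ _ hy).1 h', MulAut.apply_inv_self]
      · have h' : (α⁻¹ x) ^ 4 = 1 := by rw [← map_pow, h4, map_one]
        rw [e]
        rcases (hγ _ hy).2 h2 h' with h | h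
        · left; rw [h, MulAut.apply_inv_self]
        · right; rw [h, map_inv, MulAut.apply_inv_self]
    · intro γ hγ hγA
      have hpowK : ∀ j : ℕ, γ ^ j ∈ smallStab p H := fun j => Subgroup.pow_mem _ hγ j
      refine exists_pow_eq_one_of_fix_small hUp H γ (hfocgen γ hγA) ?_ ?_
      · intro j m _ _ x hx hxp
        exact ((hpowK j) x hx).1 hxp
      · intro h2 j m hm hcop x hx h4
        subst h2
        exact smallStab_fix4 (hpowK j) hm hcop hx h4
    · rw [mem_smallStab]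
      intro x hx
      have hxf : (x : Ω) ∈ F.focalSubgroup := (hHmem x).1 hx
      refine ⟨fun h => ?_, fun h2 h4 => ?_⟩
      · apply Subtype.ext
        show g * (x : Ω) * g⁻¹ = x
        have hxp : (x : Ω) ^ p = 1 := by
          have := congrArg Subtype.val h
          simpa using this
        exact hA _ hxf hxp g hgS
      · have h4' : (x : Ω) ^ 4 = 1 := by
          have := congrArg Subtype.val h4
          simpa using this
        rcases hB h2 _ hxf h4' g hgS with h | h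
        · left; exact Subtype.ext h
        · right; exact Subtype.ext h
  apply normal_of_invariant p hS F hF
  intro P hP
  have hSP : S ≤ P := by
    rcases hP with h | hess
    · exact h.ge
    · exact key P hess
  have hPS : P ≤ S := by
    rcases hP with h | hess
    · exact h.le
    · exact hess.1.1
  refine ⟨hSP, fun α _ => ?_⟩
  have htop : S.subgroupOf P = ⊤ := Subgroup.subgroupOf_eq_top.2 hPS
  rw [htop]
  exact Subgroup.map_top_of_surjective _ α.surjective

end Cfsg.Agent.S5300
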