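import Cfsg.Agent.Helper26.FusionNormal2

set_option autoImplicit false

universe u

namespace Cfsg.Agent.S5301

open Cfsg Cfsg.FusionSystem Cfsg.Agent.Helper26

/-- Let F be a saturated fusion system over a finite p-group S. If for every subgroup P of S that is fully normalized, centric and radical in F the automorphism group that F induces on P has a normal Sylow p-subgroup, then S is normal in F. -/
theorem result {Ω : Type u} [Group Ω] {S : Subgroup Ω} [Finite S] (p : ℕ) [Fact p.Prime] (hS : IsPGroup p S)
    (F : Cfsg.FusionSystem S) (hF : F.IsSaturated p)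
    (hcl : ∀ P : Subgroup Ω, F.IsFullyNormalized P → F.IsCentric P → F.IsRadical p P →
      ∃ R : Sylow p ↥(F.autGroup P), (R : Subgroup ↥(F.autGroup P)).Normal) :
    F.IsNormal S := by
  have hSsc : F.StronglyClosed S := ⟨le_rfl, fun R hR φ hφ x => (F.le_of_mem hφ).2 x⟩
  apply normal_of_invariant p hS F hF
  intro P hP
  have hPS : P ≤ S := by
    rcases hP with rfl | hess
    · exact le_rfl
    · exact hess.1.1
  have hSP : S ≤ P := by
    rcases hP with rfl | hess
    · exact le_rfl
    · have hrad := radical_of_essential p hS F hess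
      obtain ⟨hcen, hfn, -⟩ := hess
      obtain ⟨R, hRn⟩ := hcl P hfn hcen hrad
      apply le_of_normalizer_le hS F hSsc hPS
      intro g hgS hgN
      by_contra hgP
      apply normalizerMonoidHom_not_mem_inn hPS (hcen.2 P (isConj_refl F hPS)) hgS hgN hgP
      rw [← hrad.2]
      have hcgI : P.normalizerMonoidHom ⟨g, hgN⟩ ∈ autInducedBy S P :=
        mem_autInducedBy_iff.2 ⟨g, hgS, fun _ => rfl⟩
      have hcgA : P.normalizerMonoidHom ⟨g, hgN⟩ ∈ F.autGroup P :=
        autInducedBy_le_autGroup F hPS hcgI
      refine ⟨⟨_, hcgA⟩, ?_, rfl⟩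
      have hRle : (R : Subgroup (F.autGroup P)) ≤ pCore p (F.autGroup P) :=
        le_sSup ⟨hRn, R.isPGroup'⟩
      apply hRle
      have hH : IsPGroup p ((autInducedBy S P).subgroupOf (F.autGroup P)) :=
        (isPGroup_autInducedBy hS P).comap_subtype
      have hsup : IsPGroup p
          ((autInducedBy S P).subgroupOf (F.autGroup P) ⊔ (R : Subgroup (F.autGroup P)) :
            Subgroup (F.autGroup P)) :=
        hH.to_sup_of_normal_right R.isPGroup'
      have heq := R.is_maximal' hsup le_sup_right
      have hle : (autInducedBy S P).subgroupOf (F.autGroup P) ≤ (R : Subgroup (F.autGroup P)) := by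
        rw [← heq]; exact le_sup_left
      exact hle (Subgroup.mem_subgroupOf.2 hcgI)
  refine ⟨hSP, fun α _ => ?_⟩
  have htop : S.subgroupOf P = ⊤ := Subgroup.subgroupOf_eq_top.2 hPS
  rw [htop]
  exact Subgroup.map_top_of_surjective _ α.surjective

end Cfsg.Agent.S5301
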