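import Cfsg.Statements.S5329
import Cfsg.Agent.Helper27.Biset8

set_option autoImplicit false
open Cfsg

namespace Cfsg.Agent.S5329

/-- For a saturated fusion system F over a finite p-group S, the focal subgroup and the derived subgroup of S meet the centre Z(F) of the system in the same subgroup: foc(F) ∩ Z(F) = S′ ∩ Z(F). -/
theorem result {Ω : Type*} [Group Ω] {S : Subgroup Ω} [Finite S] (p : ℕ) [Fact p.Prime] (hS : IsPGroup p S) (F : Cfsg.FusionSystem S) (hF : F.IsSaturated p) : F.focalSubgroup ⊓ F.center = ⁅(S : Subgroup Ω), (S : Subgroup Ω)⁆ ⊓ F.center := by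
  apply le_antisymm
  · exact le_inf (Cfsg.Agent.Helper27.Biset.focal_center_le_commutator p hS F hF) inf_le_right
  · refine le_inf (inf_le_left.trans ?_) inf_le_right
    rw [Subgroup.commutator_le]
    intro a ha b hb
    unfold FusionSystem.focalSubgroup
    refine Subgroup.subset_closure ⟨S, conjHom S b, ⟨a⁻¹, S.inv_mem ha⟩, F.conj_mem le_rfl hb, ?_⟩
    rw [commutatorElement_def]
    show a * b * a⁻¹ * b⁻¹ = (a⁻¹)⁻¹ * (b * a⁻¹ * b⁻¹)
    group

end Cfsg.Agent.S5329
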