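import Cfsg.Statements.S5330
import Cfsg.Agent.Helper27.AbelFusion
import Cfsg.Agent.Helper27.Coprime

set_option autoImplicit false
open Cfsg

namespace Cfsg.Agent.S5330

/-- fixed points of a group of automorphisms. -/
def fixedSub {S : Type*} [Group S] (A : Subgroup (MulAut S)) : Subgroup S where
  carrier := {s | ∀ α ∈ A, α s = s}
  mul_mem' := by
    intro a b ha hb α hα
    rw [map_mul, ha α hα, hb α hα]
  one_mem' := by
    intro α _
    exact map_one α
  inv_mem' := by
    intro a ha α hα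
    rw [map_inv, ha α hα]

open Cfsg.FusionSystem Cfsg.Agent.Helper27 Cfsg.Agent.Helper26 in
/-- Let F be a saturated fusion system over a finite abelian p-group S. Then S is the internal direct product of the centre of the system and the focal subgroup: Z(F) ∩ foc(F) = 1 and Z(F)·foc(F) = S. -/
theorem result {Ω : Type*} [Group Ω] {S : Subgroup Ω} [Finite S] (p : ℕ) [Fact p.Prime] (hS : IsPGroup p S) (F : Cfsg.FusionSystem S) (hF : F.IsSaturated p) (hab : ∀ x ∈ S, ∀ y ∈ S, x * y = y * x) : F.center ⊓ F.focalSubgroup = ⊥ ∧ F.center ⊔ F.focalSubgroup = S := by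
  have hp := (Fact.out : p.Prime)
  have hco : (Nat.card (F.autGroup S)).Coprime (Nat.card S) := by
    obtain ⟨k, hk⟩ := hS.exists_card_eq
    rw [hk]
    exact ((Nat.Prime.coprime_iff_not_dvd hp).mpr (abelian_autGroup_card p hS F hF hab)).symm.pow_right k
  have hdec := coprime_abelian_decomp (fun x y : S => Subtype.ext (hab x x.2 y y.2)) (F.autGroup S) hco
    (fixedSub (F.autGroup S))
    (Subgroup.closure {y | ∃ α ∈ F.autGroup S, ∃ s : S, y = s⁻¹ * α s}) (fun s => Iff.rfl) rfl
  have hfoc : F.focalSubgroup =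
      (Subgroup.closure {y : S | ∃ α ∈ F.autGroup S, ∃ s : S, y = s⁻¹ * α s}).map S.subtype := by
    apply le_antisymm
    · unfold FusionSystem.focalSubgroup
      rw [Subgroup.closure_le]
      rintro y ⟨P, φ, x, hφ, rfl⟩
      obtain ⟨α, hα, h⟩ := abelian_extend p hS F hF hab hφ
      have hxS : (x : Ω) ∈ S := (F.le_of_mem hφ).1 x.2
      refine ⟨(⟨x, hxS⟩ : S)⁻¹ * α ⟨x, hxS⟩, Subgroup.subset_closure ⟨α, hα, ⟨x, hxS⟩, rfl⟩, ?_⟩
      show ((x : Ω))⁻¹ * ((α ⟨x, hxS⟩ : S) : Ω) = (x : Ω)⁻¹ * φ x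
      rw [h x x.2 hxS]
    · rw [Subgroup.map_le_iff_le_comap, Subgroup.closure_le]
      rintro y ⟨α, hα, s, rfl⟩
      apply Subgroup.subset_closure
      exact ⟨S, S.subtype.comp α.toMonoidHom, s, (mem_autGroup_iff F le_rfl).mp hα, rfl⟩
  have hcen : F.center = (fixedSub (F.autGroup S)).map S.subtype := by
    apply le_antisymm
    · unfold FusionSystem.center
      apply sSup_le
      rintro Q ⟨hQS, hext⟩ q hq
      refine ⟨⟨q, hQS hq⟩, ?_, rfl⟩
      intro α hα
      obtain ⟨ψ, -, hψS, hψQ⟩ := hext S (S.subtype.comp α.toMonoidHom)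
        ((mem_autGroup_iff F le_rfl).mp hα)
      have h1 := hψS ⟨q, hQS hq⟩
      have h2 := hψQ ⟨q, hq⟩
      have h12 : (Subgroup.inclusion (le_sup_left : S ≤ S ⊔ Q) ⟨q, hQS hq⟩) =
          Subgroup.inclusion (le_sup_right : Q ≤ S ⊔ Q) ⟨q, hq⟩ := Subtype.ext rfl
      rw [h12, h2] at h1
      exact Subtype.ext h1.symm
    · unfold FusionSystem.center
      apply le_sSup
      refine ⟨Subgroup.map_subtype_le _, fun P φ hφ => ?_⟩
      obtain ⟨α, hα, h⟩ := abelian_extend p hS F hF hab hφ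
      have hPS : P ≤ S := (F.le_of_mem hφ).1
      have hle : P ⊔ (fixedSub (F.autGroup S)).map S.subtype ≤ S :=
        sup_le hPS (Subgroup.map_subtype_le _)
      refine ⟨(S.subtype.comp α.toMonoidHom).comp (Subgroup.inclusion hle),
        restrict_mem F ((mem_autGroup_iff F le_rfl).mp hα) hle (fun _ => rfl), ?_, ?_⟩
      · intro x
        exact h x x.2 (hPS x.2)
      · rintro ⟨x, c, hc, rfl⟩
        show ((α c : S) : Ω) = (c : Ω)
        rw [hc α hα]
  rw [hcen, hfoc]
  constructor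
  · rw [← Subgroup.map_inf _ _ _ S.subtype_injective, hdec.1, Subgroup.map_bot]
  · rw [← Subgroup.map_sup, hdec.2, ← MonoidHom.range_eq_map, Subgroup.range_subtype]

end Cfsg.Agent.S5330
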