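import Cfsg.Statements.S5331
import Cfsg.Agent.Helper27.AbelTwo
import Cfsg.Agent.Helper27.AbelFusion

set_option autoImplicit false
open Cfsg

namespace Cfsg.Agent.S5331

open Cfsg.FusionSystem Cfsg.Agent.Helper27 Cfsg.Agent.Helper26 in
/-- Let S be a finite abelian 2-group that is a direct product of cyclic groups of pairwise distinct orders 2^{a_1} < 2^{a_2} < ⋯ < 2^{a_n} (all a_i ≥ 1). Then every saturated fusion system over S is the inner one: its maps are exactly the conjugations by elements of S. -/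
theorem result {Ω : Type*} [Group Ω] {S : Subgroup Ω} [Finite S] (n : ℕ) (a : Fin n → ℕ) (ha : StrictMono a) (ha1 : ∀ i, 1 ≤ a i) (e : ↥S ≃* Multiplicative ((i : Fin n) → ZMod (2 ^ a i))) (F : Cfsg.FusionSystem S) (hF : F.IsSaturated 2) (P : Subgroup Ω) : F.Hom P = (Cfsg.innerFusionSystem S).Hom P := by
  have hN : ∀ j, a j ≤ ∑ i, a i := fun j => Finset.single_le_sum (fun _ _ => Nat.zero_le _)
    (Finset.mem_univ j)
  have hab : ∀ x ∈ S, ∀ y ∈ S, x * y = y * x := by
    intro x hx y hy
    have h1 := mul_comm (e ⟨x, hx⟩) (e ⟨y, hy⟩)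
    rw [← map_mul, ← map_mul] at h1
    exact congrArg Subtype.val (e.injective h1)
  have hS : IsPGroup 2 S := by
    intro g
    refine ⟨∑ i, a i, ?_⟩
    apply e.injective
    rw [map_pow, map_one]
    have h1 : (e g) ^ (2 ^ ∑ i, a i) =
        Multiplicative.ofAdd ((2 ^ ∑ i, a i) • Multiplicative.toAdd (e g)) := rfl
    rw [h1, two_pow_smul_eq_zero a _ hN]
    rfl
  ext φ
  constructor
  · intro hφ
    obtain ⟨α, hα, hext⟩ := abelian_extend 2 hS F hF hab hφ
    have hodd : ¬ 2 ∣ Nat.card (F.autGroup S) := abelian_autGroup_card 2 hS F hF hab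
    have hm : Odd (orderOf (⟨α, hα⟩ : F.autGroup S)) := by
      rw [← Nat.not_even_iff_odd, even_iff_two_dvd]
      intro h2
      exact hodd (h2.trans (orderOf_dvd_natCard _))
    have hαm : α ^ (orderOf (⟨α, hα⟩ : F.autGroup S)) = 1 := by
      have h1 := pow_orderOf_eq_one (⟨α, hα⟩ : F.autGroup S)
      exact congrArg Subtype.val h1
    obtain ⟨f, hf⟩ : ∃ f : ((i : Fin n) → ZMod (2 ^ a i)) →+ ((i : Fin n) → ZMod (2 ^ a i)),
        ∀ x, f x = Multiplicative.toAdd (e (α (e.symm (Multiplicative.ofAdd x)))) := by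
      refine ⟨AddMonoidHom.mk' (fun x =>
        Multiplicative.toAdd (e (α (e.symm (Multiplicative.ofAdd x))))) ?_, fun x => rfl⟩
      intro x y
      simp only [ofAdd_add, map_mul, toAdd_mul]
    have hiter : ∀ k x, f^[k] x =
        Multiplicative.toAdd (e ((α ^ k) (e.symm (Multiplicative.ofAdd x)))) := by
      intro k
      induction k with
      | zero => intro x; simp
      | succ k ih =>
        intro x
        rw [Function.iterate_succ_apply', ih, hf, pow_succ', MulAut.mul_apply]
        simp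
    have hfx := aut_trivial_of_odd a ha ha1 f _ hm (fun x => by rw [hiter, hαm]; simp)
    have hα1 : ∀ s : S, α s = s := by
      intro s
      have h1 := hfx (Multiplicative.toAdd (e s))
      rw [hf] at h1
      simp only [ofAdd_toAdd, MulEquiv.symm_apply_apply] at h1
      exact e.injective (Multiplicative.toAdd.injective h1)
    have hPS := (F.le_of_mem hφ).1
    refine ⟨hPS, 1, S.one_mem, fun x => ?_⟩
    rw [← hext x x.2 (hPS x.2), hα1]
    simp
  · rintro ⟨hPS, g, hg, h⟩
    exact mem_of_eq F (F.conj_mem hPS hg) h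

end Cfsg.Agent.S5331
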