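import Cfsg.Statements.S5521
import Cfsg.Agent.Helper3.Golay.Six

set_option autoImplicit false
open Cfsg

namespace Cfsg.Agent.S5521

/-- The Mathieu group M₂₄ in its natural action on the 24 coordinate positions of the binary Golay code has minimal base size exactly 7: every set of at most 6 positions is fixed pointwise by some non-identity element of M₂₄, while some set of 7 positions is fixed pointwise only by the identity. -/
theorem result :
    (∀ B : Finset Cfsg.GolayPt, B.card ≤ 6 → ∃ g ∈ Cfsg.M24, g ≠ 1 ∧ ∀ b ∈ B, g b = b) ∧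
    (∃ B : Finset Cfsg.GolayPt, B.card = 7 ∧ ∀ g ∈ Cfsg.M24, (∀ b ∈ B, g b = b) → g = 1) := by
  constructor
  · intro B hB
    obtain ⟨E, hBE, hE⟩ := Finset.exists_superset_card_eq hB
      (by rw [Cfsg.Agent.Helper3.card_golayPt]; norm_num)
    have hcard : 1 < Nat.card {g : Equiv.Perm GolayPt // g ∈ M24 ∧ ∀ p ∈ E, g p = p} := by
      by_cases h : ∃ o ∈ octads, E ⊆ o
      · rw [Cfsg.Agent.Helper3.six_ptstab_in E hE h]; norm_num
      · rw [Cfsg.Agent.Helper3.six_ptstab_out E hE h]; norm_num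
    have := Finite.one_lt_card_iff_nontrivial.1 hcard
    obtain ⟨y, hy⟩ := exists_ne
      (⟨1, M24.one_mem, fun _ _ => rfl⟩ : {g : Equiv.Perm GolayPt // g ∈ M24 ∧ ∀ p ∈ E, g p = p})
    exact ⟨y.1, y.2.1, fun h => hy (Subtype.ext h), fun b hb => y.2.2 b (hBE hb)⟩
  · refine ⟨Cfsg.Agent.Helper3.gSupp 191, ?_, ?_⟩
    · rw [Cfsg.Agent.Helper3.gSupp_card]
      decide +kernel
    · intro g hg hfix
      have h1 : g ∈ Cfsg.Agent.Helper3.gSub [] 191 := by
        rw [Cfsg.Agent.Helper3.mem_gSub]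
        refine ⟨hg, by simp, ?_⟩
        intro p hp
        exact hfix p ((Cfsg.Agent.Helper3.mem_gSupp _ _).2 hp)
      rw [Cfsg.Agent.Helper3.gSub_191] at h1
      exact Subgroup.mem_bot.1 h1

end Cfsg.Agent.S5521
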