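import Cfsg.Statements.S5562
-- import your own Cfsg.Agent.* helpers here

set_option autoImplicit false
open Cfsg

namespace Cfsg.Agent.S5562

section
variable {G : Type*} [Group G]

theorem inv_pow_mul (e r : G) (he : e * e = 1) (her : e * r * e = r⁻¹) (n : ℕ) :
    e * r ^ n = (r⁻¹) ^ n * e := by
  have hinv : e⁻¹ = e := inv_eq_of_mul_eq_one_left he
  have h1 : e * r ^ n * e⁻¹ = (e * r * e⁻¹) ^ n := (conj_pow).symm
  rw [hinv, her] at h1
  calc e * r ^ n = e * r ^ n * e * e := by rw [mul_assoc (e * r ^ n), he, mul_one]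
    _ = (r⁻¹) ^ n * e := by rw [h1]

theorem dih_facts (e f : G) (he : e * e = 1) (hf : f * f = 1) (j : ℕ)
    (hr : (e * f) ^ (2 * j + 1) = 1) :
    ((e * f) ^ j * e) * ((e * f) ^ j * e) = 1 ∧
    ((e * f) ^ j * e) * e * ((e * f) ^ j * e) = f ∧
    (∃ g : G, (e * f) ^ j * e = g * e * g⁻¹) := by
  set r := e * f with hrdef
  have hrinv : r⁻¹ = f * e := by
    apply inv_eq_of_mul_eq_one_right
    rw [hrdef]
    calc e * f * (f * e) = e * (f * f) * e := by group
      _ = 1 := by rw [hf, mul_one, he]
  have her : e * r * e = r⁻¹ := by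
    rw [hrinv, hrdef]
    calc e * (e * f) * e = (e * e) * f * e := by group
      _ = f * e := by rw [he, one_mul]
  have hsw := inv_pow_mul e r he her
  have h2j : r ^ (2 * j) = r⁻¹ := by
    apply eq_inv_of_mul_eq_one_left
    rw [← pow_succ, hr]
  refine ⟨?_, ?_, ?_⟩
  · calc r ^ j * e * (r ^ j * e) = r ^ j * (e * r ^ j) * e := by group
      _ = r ^ j * ((r⁻¹) ^ j * e) * e := by rw [hsw]
      _ = (r ^ j * (r⁻¹) ^ j) * (e * e) := by group
      _ = 1 := by rw [he, inv_pow, mul_inv_cancel, mul_one]
  · calc r ^ j * e * e * (r ^ j * e) = r ^ j * (e * e) * r ^ j * e := by group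
      _ = r ^ (2 * j) * e := by rw [he, mul_one, ← pow_add, two_mul]
      _ = f := by rw [h2j, hrinv, mul_assoc, he, mul_one]
  · refine ⟨r ^ (j * (j + 1)), ?_⟩
    have hinv : e * (r ^ (j * (j + 1)))⁻¹ = r ^ (j * (j + 1)) * e := by
      have := hsw (j * (j + 1))
      rw [inv_pow] at this
      calc e * (r ^ (j * (j + 1)))⁻¹
          = r ^ (j * (j + 1)) * ((r ^ (j * (j + 1)))⁻¹ * e) * (r ^ (j * (j + 1)))⁻¹ := by group
        _ = r ^ (j * (j + 1)) * (e * r ^ (j * (j + 1))) * (r ^ (j * (j + 1)))⁻¹ := by rw [this]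
        _ = r ^ (j * (j + 1)) * e := by group
    calc r ^ j * e = (r ^ (2 * j + 1)) ^ j * r ^ j * e := by rw [hr, one_pow, one_mul]
      _ = r ^ (j * (j + 1)) * r ^ (j * (j + 1)) * e := by
          rw [← pow_mul, ← pow_add, ← pow_add]; congr 2; ring
      _ = r ^ (j * (j + 1)) * e * (r ^ (j * (j + 1)))⁻¹ := by
          rw [mul_assoc (r ^ (j * (j + 1))) e, hinv, ← mul_assoc]

theorem main (d : G) (hd : orderOf d = 2)
    (hodd : ∀ a ∈ conjugatesOf d, ∀ b ∈ conjugatesOf d, Odd (orderOf (a * b)))
    (x : G) (hx : orderOf x = 2) :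
    ∀ e ∈ conjugatesOf d,
      ∃! a : G, a ∈ conjugatesOf d ∧ Commute a x ∧ Commute e (a * x) := by
  have hsq : ∀ a ∈ conjugatesOf d, a * a = 1 := by
    intro a ha
    have ha' : IsConj d a := ha
    rw [isConj_iff] at ha'
    obtain ⟨c, rfl⟩ := ha'
    have hdd : d * d = 1 := by rw [← sq, ← hd, pow_orderOf_eq_one]
    calc c * d * c⁻¹ * (c * d * c⁻¹) = c * (d * d) * c⁻¹ := by group
      _ = 1 := by rw [hdd, mul_one, mul_inv_cancel]
  have hxx : x * x = 1 := by rw [← sq, ← hx, pow_orderOf_eq_one]
  have hxinv : x⁻¹ = x := inv_eq_of_mul_eq_one_left hxx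
  have hconj : ∀ a ∈ conjugatesOf d, ∀ g : G, g * a * g⁻¹ ∈ conjugatesOf d := by
    intro a ha g
    have ha' : IsConj d a := ha
    exact (ha'.trans (isConj_iff.2 ⟨g, rfl⟩) : IsConj d (g * a * g⁻¹))
  intro e he
  have hee := hsq e he
  set f := x * e * x with hfdef
  have hfmem : f ∈ conjugatesOf d := by
    have := hconj e he x
    rwa [hxinv] at this
  have hff := hsq f hfmem
  obtain ⟨j, hj⟩ := hodd e he f hfmem
  have hr : (e * f) ^ (2 * j + 1) = 1 := by rw [← hj, pow_orderOf_eq_one]
  obtain ⟨ha0sq, ha0e, g, hg⟩ := dih_facts e f hee hff j hr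
  set a₀ := (e * f) ^ j * e with ha0def
  have ha0mem : a₀ ∈ conjugatesOf d := by rw [hg]; exact hconj e he g
  have ha0inv : a₀⁻¹ = a₀ := inv_eq_of_mul_eq_one_left ha0sq
  have ha0f : a₀ * f * a₀ = e := by
    rw [← ha0e]
    calc a₀ * (a₀ * e * a₀) * a₀ = (a₀ * a₀) * e * (a₀ * a₀) := by group
      _ = e := by rw [ha0sq, one_mul, mul_one]
  have hxfx : x * f * x = e := by
    rw [hfdef]
    calc x * (x * e * x) * x = (x * x) * e * (x * x) := by group
      _ = e := by rw [hxx, one_mul, mul_one]
  -- x commutes with a₀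
  have hxa0 : x * a₀ * x = a₀ := by
    have h1 : x * (e * f) ^ j * x = (f * e) ^ j := by
      have : x * (e * f) ^ j * x⁻¹ = (x * (e * f) * x⁻¹) ^ j := (conj_pow).symm
      rw [hxinv] at this
      rw [this]
      congr 1
      calc x * (e * f) * x = (x * e * x) * (x⁻¹ * f * x) := by group
        _ = f * e := by rw [hxinv, hxfx]
    have hfe : f * e = (e * f)⁻¹ := by
      symm
      apply inv_eq_of_mul_eq_one_right
      calc e * f * (f * e) = e * (f * f) * e := by group
        _ = 1 := by rw [hff, mul_one, hee]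
    have h2j : (e * f) ^ (2 * j) = (e * f)⁻¹ := by
      apply eq_inv_of_mul_eq_one_left
      rw [← pow_succ, hr]
    calc x * a₀ * x = (x * (e * f) ^ j * x) * (x⁻¹ * e * x) := by rw [ha0def]; group
      _ = (f * e) ^ j * f := by rw [h1, hxinv]
      _ = ((e * f) ^ j)⁻¹ * ((e * f) ^ (2 * j) * e) := by
          rw [hfe, inv_pow, h2j, ← hfe, mul_assoc f e e, hee, mul_one]
      _ = a₀ := by rw [ha0def, two_mul, pow_add]; group
  have hcomm0 : Commute a₀ x := by
    show a₀ * x = x * a₀
    calc a₀ * x = (x * a₀ * x) * x := by rw [hxa0]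
      _ = x * a₀ * (x * x) := by group
      _ = x * a₀ := by rw [hxx, mul_one]
  refine ⟨a₀, ⟨ha0mem, hcomm0, ?_⟩, ?_⟩
  · show e * (a₀ * x) = a₀ * x * e
    have : a₀ * x * e = a₀ * f * x := by
      rw [hfdef]
      calc a₀ * x * e = a₀ * (x * e * (x * x)) := by rw [hxx]; group
        _ = a₀ * (x * e * x) * x := by group
    rw [this]
    calc e * (a₀ * x) = (a₀ * f * a₀) * (a₀ * x) := by rw [ha0f]
      _ = a₀ * f * (a₀ * a₀) * x := by group
      _ = a₀ * f * x := by rw [ha0sq, mul_one]
  · rintro a ⟨hamem, hax, hea⟩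
    have haa := hsq a hamem
    have hainv : a⁻¹ = a := inv_eq_of_mul_eq_one_left haa
    have haea : a * e * a = f := by
      have h1 : e * (a * x) = a * x * e := hea
      rw [hfdef]
      calc a * e * a = a * (e * (a * x)) * x⁻¹ := by group
        _ = a * (a * x * e) * x⁻¹ := by rw [h1]
        _ = (a * a) * x * e * x := by rw [hxinv]; group
        _ = x * e * x := by rw [haa, one_mul]
    have hafa : a * f * a = e := by
      rw [← haea]
      calc a * (a * e * a) * a = (a * a) * e * (a * a) := by group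
        _ = e := by rw [haa, one_mul, mul_one]
    set c := a * a₀ with hcdef
    have hce : c * e = e * c := by
      rw [hcdef]
      calc a * a₀ * e = a * (a₀ * e * a₀) * a₀⁻¹ := by group
        _ = a * f * a₀ := by rw [ha0e, ha0inv]
        _ = (a * f * a) * (a⁻¹ * a₀) := by group
        _ = e * (a * a₀) := by rw [hafa, hainv]
    have hcx : c * x = x * c := by
      rw [hcdef]
      calc a * a₀ * x = a * (a₀ * x) := by group
        _ = a * (x * a₀) := by rw [hcomm0.eq]
        _ = (a * x) * a₀ := by group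
        _ = (x * a) * a₀ := by rw [hax.eq]
        _ = x * (a * a₀) := by group
    have hcf : c * f = f * c := by
      rw [hfdef]
      calc c * (x * e * x) = (c * x) * e * x := by group
        _ = x * (c * e) * x := by rw [hcx]; group
        _ = x * e * (c * x) := by rw [hce]; group
        _ = x * e * x * c := by rw [hcx]; group
    have hca0 : c * a₀ = a₀ * c := by
      have h1 : Commute c (e * f) := (show Commute c e from hce).mul_right (show Commute c f from hcf)
      have h2 : Commute c a₀ := (h1.pow_right j).mul_right (show Commute c e from hce)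
      exact h2.eq
    have hcomm : a * a₀ = a₀ * a := by
      have h1 : c * a₀ = a := by rw [hcdef, mul_assoc, ha0sq, mul_one]
      have h2 : a₀ * c = a₀ * a * a₀ := by rw [hcdef]; group
      calc a * a₀ = (c * a₀) * a₀ := by rw [h1]
        _ = (a₀ * c) * a₀ := by rw [hca0]
        _ = a₀ * a * (a₀ * a₀) := by rw [h2]; group
        _ = a₀ * a := by rw [ha0sq, mul_one]
    have hc2 : c ^ 2 = 1 := by
      rw [sq, hcdef]
      calc a * a₀ * (a * a₀) = a * (a₀ * a) * a₀ := by group
        _ = a * (a * a₀) * a₀ := by rw [hcomm]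
        _ = (a * a) * (a₀ * a₀) := by group
        _ = 1 := by rw [haa, ha0sq, mul_one]
    have hodd' := hodd a hamem a₀ ha0mem
    have hdvd : orderOf c ∣ 2 := orderOf_dvd_of_pow_eq_one hc2
    have h1 : orderOf c = 1 := by
      rcases (Nat.dvd_prime Nat.prime_two).1 hdvd with h | h
      · exact h
      · rw [h] at hodd'
        exact absurd hodd' (by decide)
    have hc1 : a * a₀ = 1 := orderOf_eq_one_iff.1 h1
    calc a = a * (a₀ * a₀) := by rw [ha0sq, mul_one]
      _ = (a * a₀) * a₀ := by group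
      _ = a₀ := by rw [hc1, one_mul]

end

/-- Let G be a finite group, d an involution of G whose conjugates pairwise have products of odd order, and x any involution of G. Then the conjugacy class of d is the disjoint union, over the conjugates a of d commuting with x, of the sets of conjugates of d commuting with ax: every conjugate of d commutes with ax for exactly one conjugate a of d that commutes with x. -/
theorem result {G : Type*} [Group G] [Finite G] (d : G) (hd : orderOf d = 2)
    (hodd : ∀ a ∈ conjugatesOf d, ∀ b ∈ conjugatesOf d, Odd (orderOf (a * b)))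
    (x : G) (hx : orderOf x = 2) :
    ∀ e ∈ conjugatesOf d,
      ∃! a : G, a ∈ conjugatesOf d ∧ Commute a x ∧ Commute e (a * x) := by
  exact main d hd hodd x hx

end Cfsg.Agent.S5562
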