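import Cfsg.Statements.S5729
-- import your own Cfsg.Agent.* helpers here

set_option autoImplicit false
open Cfsg

namespace Cfsg.Agent.S5729

theorem burnside_one {G Ω : Type*} [Group G] [Fintype G] [MulAction G Ω] [Fintype Ω]
    (htr : MulAction.IsPretransitive G Ω) (hne : Nonempty Ω) :
    ∑ g : G, Nat.card (MulAction.fixedBy Ω g) = Nat.card G := by
  classical
  have h := MulAction.sum_card_fixedBy_eq_card_orbits_mul_card_group G Ω
  have h1 : Fintype.card (Quotient (MulAction.orbitRel G Ω)) = 1 := by
    rw [Fintype.card_eq_one_iff_nonempty_unique]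
    have hs : Subsingleton (MulAction.orbitRel.Quotient G Ω) :=
      (MulAction.pretransitive_iff_subsingleton_quotient G Ω).1 htr
    obtain ⟨ω⟩ := hne
    exact ⟨{ default := Quotient.mk _ ω, uniq := fun a => hs.elim _ _ }⟩
  rw [h1, one_mul] at h
  rw [Nat.card_eq_fintype_card, ← h]
  exact Finset.sum_congr rfl (fun g _ => Nat.card_eq_fintype_card)

theorem fixedBy_prod_card {G Ω : Type*} [Group G] [MulAction G Ω] [Finite Ω] (g : G) :
    Nat.card (MulAction.fixedBy (Ω × Ω) g) = Nat.card (MulAction.fixedBy Ω g) ^ 2 := by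
  rw [sq, ← Nat.card_prod]
  refine Nat.card_congr ?_
  refine
    { toFun := fun x => (⟨x.1.1, ?_⟩, ⟨x.1.2, ?_⟩)
      invFun := fun y => ⟨(y.1.1, y.2.1), ?_⟩
      left_inv := fun x => rfl
      right_inv := fun y => rfl }
  · have := x.2
    rw [MulAction.mem_fixedBy] at this ⊢
    exact congrArg Prod.fst this
  · have := x.2
    rw [MulAction.mem_fixedBy] at this ⊢
    exact congrArg Prod.snd this
  · rw [MulAction.mem_fixedBy]
    have h1 := y.1.2
    have h2 := y.2.2
    rw [MulAction.mem_fixedBy] at h1 h2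
    exact Prod.ext h1 h2

theorem burnside_two {G Ω : Type*} [Group G] [Fintype G] [MulAction G Ω] [Fintype Ω]
    (hn : 2 ≤ Fintype.card Ω) :
    2 * Nat.card G ≤ ∑ g : G, Nat.card (MulAction.fixedBy Ω g) ^ 2 := by
  classical
  have h := MulAction.sum_card_fixedBy_eq_card_orbits_mul_card_group G (Ω × Ω)
  have h2 : 1 < Fintype.card (Quotient (MulAction.orbitRel G (Ω × Ω))) := by
    obtain ⟨a, b, hab⟩ := Fintype.exists_pair_of_one_lt_card (by omega : 1 < Fintype.card Ω)
    rw [Fintype.one_lt_card_iff_nontrivial]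
    refine ⟨Quotient.mk _ (a, a), Quotient.mk _ (a, b), fun heq => ?_⟩
    have this : (a, a) ∈ MulAction.orbit G (a, b) := Quotient.exact heq
    obtain ⟨g, hg⟩ := this
    have h1 : g • a = a := congrArg Prod.fst hg
    have h2 : g • b = a := congrArg Prod.snd hg
    exact hab (MulAction.injective g (h1.trans h2.symm))
  have h3 : ∑ g : G, Nat.card (MulAction.fixedBy Ω g) ^ 2
      = Fintype.card (Quotient (MulAction.orbitRel G (Ω × Ω))) * Fintype.card G := by
    rw [← h]
    refine Finset.sum_congr rfl (fun g _ => ?_)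
    rw [← fixedBy_prod_card, Nat.card_eq_fintype_card]
  rw [h3, Nat.card_eq_fintype_card]
  exact Nat.mul_le_mul_right _ h2

theorem key {G Ω : Type*} [Group G] [Fintype G] [MulAction G Ω] [FaithfulSMul G Ω] [Fintype Ω]
    (htr : MulAction.IsPretransitive G Ω) (hn : 3 ≤ Fintype.card Ω) :
    ((MulAction.IsPretransitive G Ω ∧ (∃ g : G, g ≠ 1 ∧ ∃ ω : Ω, g • ω = ω) ∧ ∀ g : G, g ≠ 1 → Nat.card (MulAction.fixedBy Ω g) ≤ 1) ∧ Nat.card G = Fintype.card Ω * (Fintype.card Ω - 1) ∧ Fintype.card Ω * Nat.card {g : G // ∀ ω : Ω, g • ω ≠ ω} = Nat.card G) ∨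
    Nat.card G < Fintype.card Ω * Nat.card {g : G // ∀ ω : Ω, g • ω ≠ ω} := by
  classical
  have hne : Nonempty Ω := Fintype.card_pos_iff.1 (by omega)
  have b1 := burnside_one (G := G) htr hne
  have b2 := burnside_two (G := G) (Ω := Ω) (by omega)
  set n := Fintype.card Ω with hndef
  set f : G → ℕ := fun g => Nat.card (MulAction.fixedBy Ω g) with hf
  have hfle : ∀ g, f g ≤ n := by
    intro g
    simp only [hf]
    rw [hndef, ← Nat.card_eq_fintype_card]
    exact Nat.card_le_card_of_injective _ Subtype.val_injective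
  have hf0 : ∀ g, f g = 0 ↔ ∀ ω : Ω, g • ω ≠ ω := by
    intro g
    simp only [hf]
    rw [Nat.card_eq_zero, or_iff_left (fun h => h.false), isEmpty_subtype]
    exact Iff.rfl
  have hfn : ∀ g, f g = n → g = 1 := by
    intro g hg
    apply FaithfulSMul.eq_of_smul_eq_smul (α := Ω)
    intro ω
    rw [one_smul]
    have : (MulAction.fixedBy Ω g) = Set.univ := by
      apply Set.eq_of_subset_of_ncard_le (Set.subset_univ _)
      rw [Set.ncard_univ, Nat.card_eq_fintype_card, ← hndef, ← hg, ← Nat.card_coe_set_eq]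
    have h2 : ω ∈ MulAction.fixedBy Ω g := by rw [this]; trivial
    exact h2
  have hf1 : f 1 = n := by
    simp only [hf]
    rw [MulAction.fixedBy_one_eq_univ, Nat.card_coe_set_eq, Set.ncard_univ, Nat.card_eq_fintype_card]
  -- the set of derangements
  set D : Finset G := Finset.univ.filter (fun g => ∀ ω : Ω, g • ω ≠ ω) with hD
  have hDcard : Nat.card {g : G // ∀ ω : Ω, g • ω ≠ ω} = D.card := by
    rw [Nat.card_eq_fintype_card, Fintype.card_subtype]
  rw [hDcard, Nat.card_eq_fintype_card]
  rw [Nat.card_eq_fintype_card] at b1 b2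
  -- termwise inequality in ℤ
  have hterm : ∀ g : G, ((f g : ℤ) - 1) * ((f g : ℤ) - n) ≤ if g ∈ D then (n : ℤ) else 0 := by
    intro g
    by_cases hg : g ∈ D
    · rw [if_pos hg]
      have : f g = 0 := (hf0 g).2 (by simpa [hD] using hg)
      rw [this]; simp
    · rw [if_neg hg]
      have h0 : f g ≠ 0 := fun h => hg (by simpa [hD] using (hf0 g).1 h)
      have h1 : (1 : ℤ) ≤ f g := by exact_mod_cast Nat.one_le_iff_ne_zero.2 h0
      have h2 : (f g : ℤ) ≤ n := by exact_mod_cast hfle g
      nlinarith
  have hsum : ∑ g : G, (((f g : ℤ) - 1) * ((f g : ℤ) - n)) =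
      (∑ g : G, (f g : ℤ) ^ 2) - (n + 1) * (∑ g : G, (f g : ℤ)) + n * (Fintype.card G : ℤ) := by
    have : ∀ g : G, ((f g : ℤ) - 1) * ((f g : ℤ) - n) = (f g : ℤ) ^ 2 - (n + 1) * (f g : ℤ) + n := by
      intro g; ring
    simp only [this, Finset.sum_add_distrib, Finset.sum_sub_distrib, Finset.mul_sum, Finset.sum_const,
      Finset.card_univ, nsmul_eq_mul]
    ring
  have hD2 : ∑ g : G, (if g ∈ D then (n : ℤ) else 0) = n * D.card := by
    rw [Finset.sum_ite_mem, Finset.univ_inter, Finset.sum_const, nsmul_eq_mul, mul_comm]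
  have b1' : ∑ g : G, (f g : ℤ) = Fintype.card G := by exact_mod_cast b1
  have b2' : 2 * (Fintype.card G : ℤ) ≤ ∑ g : G, (f g : ℤ) ^ 2 := by exact_mod_cast b2
  have hmain : (Fintype.card G : ℤ) ≤ n * D.card := by
    have := Finset.sum_le_sum (fun g (_ : g ∈ Finset.univ) => hterm g)
    rw [hsum, hD2, b1'] at this
    nlinarith
  rcases lt_or_eq_of_le hmain with hlt | heq
  · right
    exact_mod_cast hlt
  · left
    -- equality case
    have hzero : ∀ g : G, (if g ∈ D then (n : ℤ) else 0) - ((f g : ℤ) - 1) * ((f g : ℤ) - n) = 0 := by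
      have hs : ∑ g : G, ((if g ∈ D then (n : ℤ) else 0) - ((f g : ℤ) - 1) * ((f g : ℤ) - n)) ≤ 0 := by
        rw [Finset.sum_sub_distrib, hsum, hD2, b1']
        nlinarith
      have hnn : ∀ g ∈ (Finset.univ : Finset G), 0 ≤ (if g ∈ D then (n : ℤ) else 0) - ((f g : ℤ) - 1) * ((f g : ℤ) - n) :=
        fun g _ => sub_nonneg.2 (hterm g)
      have hs0 := le_antisymm hs (Finset.sum_nonneg hnn)
      intro g
      exact (Finset.sum_eq_zero_iff_of_nonneg hnn).1 hs0 g (Finset.mem_univ g)
    have hle1 : ∀ g : G, g ≠ 1 → f g ≤ 1 := by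
      intro g hg1
      by_cases hg : g ∈ D
      · have : f g = 0 := (hf0 g).2 (by simpa [hD] using hg)
        omega
      · have hz := hzero g
        rw [if_neg hg] at hz
        have : ((f g : ℤ) - 1) * ((f g : ℤ) - n) = 0 := by linarith
        rcases mul_eq_zero.1 this with h | h
        · have : (f g : ℤ) = 1 := by linarith
          have : f g = 1 := by exact_mod_cast this
          omega
        · have : (f g : ℤ) = n := by linarith
          have : f g = n := by exact_mod_cast this
          exact absurd (hfn g this) hg1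
    have h1D : (1 : G) ∉ D := by
      intro h
      have : f 1 = 0 := (hf0 1).2 (by simpa [hD] using h)
      omega
    set S : Finset G := Finset.univ.filter (fun g => g ≠ 1 ∧ g ∉ D) with hS
    have hpt : ∀ g : G, f g = (if g = 1 then n else 0) + (if g ∈ S then 1 else 0) := by
      intro g
      by_cases hg1 : g = 1
      · subst hg1
        have : (1 : G) ∉ S := by simp [hS]
        rw [if_pos rfl, if_neg this, hf1, Nat.add_zero]
      · rw [if_neg hg1]
        by_cases hg : g ∈ D
        · have h0 : f g = 0 := (hf0 g).2 (by simpa [hD] using hg)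
          have : g ∉ S := by simp [hS, hg]
          rw [if_neg this, h0]
        · have h0 : f g ≠ 0 := fun h => hg (by simpa [hD] using (hf0 g).1 h)
          have : g ∈ S := by simp [hS, hg, hg1]
          rw [if_pos this]
          have := hle1 g hg1
          omega
    have hsumf : ∑ g : G, f g = n + S.card := by
      rw [Finset.sum_congr rfl (fun g _ => hpt g), Finset.sum_add_distrib, Finset.sum_ite_eq' Finset.univ (1 : G) (fun _ => n),
        if_pos (Finset.mem_univ _), Finset.sum_ite_mem, Finset.univ_inter, Finset.sum_const, smul_eq_mul, mul_one]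
    have hpart : Fintype.card G = 1 + D.card + S.card := by
      have hu : (Finset.univ : Finset G) = insert (1 : G) (D ∪ S) := by
        ext g
        simp only [Finset.mem_univ, Finset.mem_insert, Finset.mem_union, true_iff]
        by_cases hg1 : g = 1
        · exact Or.inl hg1
        · by_cases hg : g ∈ D
          · exact Or.inr (Or.inl hg)
          · exact Or.inr (Or.inr (by simp [hS, hg, hg1]))
      have hdisj : Disjoint D S := by
        rw [Finset.disjoint_left]
        intro g hg hgs
        simp only [hS, Finset.mem_filter, Finset.mem_univ, true_and] at hgs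
        exact hgs.2 hg
      have h1n : (1 : G) ∉ D ∪ S := by
        simp only [Finset.mem_union, not_or]
        exact ⟨h1D, by simp [hS]⟩
      rw [← Finset.card_univ, hu, Finset.card_insert_of_notMem h1n, Finset.card_union_of_disjoint hdisj]
      omega
    have heqN : Fintype.card G = n * D.card := by exact_mod_cast heq
    have hDn : D.card = n - 1 := by
      have : n + S.card = 1 + D.card + S.card := by rw [← hsumf, b1, hpart]
      omega
    have hGn : Fintype.card G = n * (n - 1) := by rw [heqN, hDn]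
    refine ⟨⟨htr, ?_, hle1⟩, hGn, heqN.symm⟩
    have hSpos : 0 < S.card := by
      have h3 : n * (n - 1) = 1 + (n - 1) + S.card := by rw [← hGn, hpart, hDn]
      have h4 : 3 * (n - 1) ≤ n * (n - 1) := Nat.mul_le_mul_right _ hn
      omega
    obtain ⟨g, hg⟩ := Finset.card_pos.1 hSpos
    simp only [hS, Finset.mem_filter, Finset.mem_univ, true_and] at hg
    refine ⟨g, hg.1, ?_⟩
    by_contra hcon
    refine hg.2 ?_
    rw [hD, Finset.mem_filter]
    exact ⟨Finset.mem_univ _, fun ω hω => hcon ⟨ω, hω⟩⟩

/-- Let a finite group G act faithfully and transitively on a set with n ≥ 3 points. Then either G is a Frobenius permutation group (Frobenius as a permutation group: transitive, some non-identity element fixes a point, and no non-identity element fixes two points) of order n(n − 1) and exactly |G|/n of its elements are derangements (fix no point), or the number of derangements is greater than |G|/n. -/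
theorem result {G Ω : Type*} [Group G] [Finite G] [MulAction G Ω] [FaithfulSMul G Ω] [Fintype Ω] (htr : MulAction.IsPretransitive G Ω) (hn : 3 ≤ Fintype.card Ω) :
    ((MulAction.IsPretransitive G Ω ∧ (∃ g : G, g ≠ 1 ∧ ∃ ω : Ω, g • ω = ω) ∧ ∀ g : G, g ≠ 1 → Nat.card (MulAction.fixedBy Ω g) ≤ 1) ∧ Nat.card G = Fintype.card Ω * (Fintype.card Ω - 1) ∧ Fintype.card Ω * Nat.card {g : G // ∀ ω : Ω, g • ω ≠ ω} = Nat.card G) ∨
    Nat.card G < Fintype.card Ω * Nat.card {g : G // ∀ ω : Ω, g • ω ≠ ω} := by
  haveI := Fintype.ofFinite G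
  exact key htr hn

end Cfsg.Agent.S5729
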