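import Cfsg.Statements.S5738
-- import your own Cfsg.Agent.* helpers here

set_option autoImplicit false
open Cfsg

namespace Cfsg.Agent.S5738

section
variable {F K : Type*} [Field F] [Field K] [Algebra F K]

/-- multiplication by a unit, as a unit of the endomorphism ring -/
noncomputable def mulU : Kˣ →* (Module.End F K)ˣ :=
  Units.map ((Algebra.lmul F K : K →ₐ[F] Module.End F K) : K →* Module.End F K)

theorem mulU_apply (a : Kˣ) (x : K) :
    ((mulU a : (Module.End F K)ˣ) : Module.End F K) x = (a : K) * x := rfl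

/-- an automorphism as a unit of the endomorphism ring -/
noncomputable def galU (σ : K ≃ₐ[F] K) : (Module.End F K)ˣ :=
  LinearMap.GeneralLinearGroup.ofLinearEquiv σ.toLinearEquiv

theorem galU_apply (σ : K ≃ₐ[F] K) (x : K) :
    ((galU σ : (Module.End F K)ˣ) : Module.End F K) x = σ x := rfl

theorem galU_inv_apply (σ : K ≃ₐ[F] K) (x : K) :
    (((galU σ)⁻¹ : (Module.End F K)ˣ) : Module.End F K) x = σ.symm x := rfl

theorem unit_mul_apply (u v : (Module.End F K)ˣ) (x : K) :
    ((u * v : (Module.End F K)ˣ) : Module.End F K) x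
      = (u : Module.End F K) ((v : Module.End F K) x) := rfl

theorem unit_inv_apply_apply (u : (Module.End F K)ˣ) (x : K) :
    ((u⁻¹ : (Module.End F K)ˣ) : Module.End F K) ((u : Module.End F K) x) = x := by
  rw [← Module.End.mul_apply, Units.inv_mul, Module.End.one_apply]

theorem unit_apply_inv_apply (u : (Module.End F K)ˣ) (x : K) :
    (u : Module.End F K) (((u⁻¹ : (Module.End F K)ˣ) : Module.End F K) x) = x := by
  rw [← Module.End.mul_apply, Units.mul_inv, Module.End.one_apply]

theorem unit_ext (u v : (Module.End F K)ˣ)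
    (h : ∀ x, (u : Module.End F K) x = (v : Module.End F K) x) : u = v := by
  apply Units.ext
  ext x
  exact h x

/-- the product map -/
noncomputable def prodU (p : Kˣ × (K ≃ₐ[F] K)) : (Module.End F K)ˣ := mulU p.1 * galU p.2

theorem prodU_apply (p : Kˣ × (K ≃ₐ[F] K)) (x : K) :
    ((prodU p : (Module.End F K)ˣ) : Module.End F K) x = (p.1 : K) * p.2 x := rfl

theorem prodU_injective : Function.Injective (prodU (F := F) (K := K)) := by
  rintro ⟨a, σ⟩ ⟨b, τ⟩ h
  have h1 : ∀ x, (a : K) * σ x = (b : K) * τ x := by
    intro x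
    have := congrArg (fun u : (Module.End F K)ˣ => (u : Module.End F K) x) h
    simpa [prodU_apply] using this
  have hab : a = b := by
    apply Units.ext
    have := h1 1
    simpa using this
  subst hab
  have hστ : σ = τ := by
    ext x
    have := h1 x
    exact mul_left_cancel₀ a.ne_zero this
  rw [hστ]

theorem galU_mem (σ : K ≃ₐ[F] K) :
    galU σ ∈ Subgroup.normalizer (((mulU (F := F) (K := K)).range : Subgroup (Module.End F K)ˣ) : Set (Module.End F K)ˣ) := by
  rw [Subgroup.mem_normalizer_iff]
  intro h
  constructor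
  · rintro ⟨b, rfl⟩
    refine ⟨Units.map (σ : K →* K) b, ?_⟩
    apply unit_ext
    intro x
    rw [unit_mul_apply, unit_mul_apply, galU_apply, mulU_apply, mulU_apply, galU_inv_apply]
    simp
  · rintro ⟨c, hc⟩
    refine ⟨Units.map (σ.symm : K →* K) c, ?_⟩
    apply unit_ext
    intro x
    have h2 := congrArg (fun u : (Module.End F K)ˣ => (u : Module.End F K) (σ x)) hc
    simp only [unit_mul_apply, galU_apply, mulU_apply, galU_inv_apply] at h2
    rw [mulU_apply]
    simp only [Units.coe_map, MonoidHom.coe_coe]
    rw [AlgEquiv.symm_apply_apply] at h2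
    apply σ.injective
    rw [← h2, map_mul, AlgEquiv.apply_symm_apply]

theorem range_eq :
    Set.range (prodU (F := F) (K := K)) =
    (Subgroup.normalizer (((mulU (F := F) (K := K)).range : Subgroup (Module.End F K)ˣ) : Set (Module.End F K)ˣ) : Set (Module.End F K)ˣ) := by
  ext φ
  constructor
  · rintro ⟨⟨a, σ⟩, rfl⟩
    exact mul_mem (Subgroup.le_normalizer ⟨a, rfl⟩) (galU_mem σ)
  · intro hφ
    rw [SetLike.mem_coe] at hφ
    have ha : (φ : Module.End F K) 1 ≠ 0 := by
      intro h0
      have := unit_inv_apply_apply φ (1 : K)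
      rw [h0, map_zero] at this
      exact zero_ne_one this
    set a : Kˣ := Units.mk0 _ ha with ha_def
    set ψ : (Module.End F K)ˣ := (mulU a)⁻¹ * φ with hψ_def
    have hψN : ψ ∈ Subgroup.normalizer (((mulU (F := F) (K := K)).range : Subgroup (Module.End F K)ˣ) : Set (Module.End F K)ˣ) :=
      mul_mem (inv_mem (Subgroup.le_normalizer ⟨a, rfl⟩)) hφ
    have hψ_apply : ∀ x, (ψ : Module.End F K) x = (a : K)⁻¹ * (φ : Module.End F K) x := by
      intro x
      rw [hψ_def, unit_mul_apply, ← map_inv, mulU_apply]
      simp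
    have hψ1 : (ψ : Module.End F K) 1 = 1 := by
      rw [hψ_apply, ha_def]
      simp only [Units.val_mk0]
      exact inv_mul_cancel₀ ha
    have hψi1 : ((ψ⁻¹ : (Module.End F K)ˣ) : Module.End F K) 1 = 1 := by
      have := unit_inv_apply_apply ψ (1 : K)
      rwa [hψ1] at this
    have hmul : ∀ b x : K, (ψ : Module.End F K) (b * x) = (ψ : Module.End F K) b * (ψ : Module.End F K) x := by
      intro b x
      by_cases hb : b = 0
      · rw [hb, zero_mul, map_zero, zero_mul]
      · rw [Subgroup.mem_normalizer_iff] at hψN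
        obtain ⟨c, hc⟩ := (hψN (mulU (Units.mk0 b hb))).1 ⟨_, rfl⟩
        have h1 := congrArg (fun u : (Module.End F K)ˣ => (u : Module.End F K) 1) hc
        simp only [unit_mul_apply, mulU_apply, hψi1, Units.val_mk0, mul_one] at h1
        have h2 := congrArg (fun u : (Module.End F K)ˣ => (u : Module.End F K) ((ψ : Module.End F K) x)) hc
        simp only [unit_mul_apply, mulU_apply, unit_inv_apply_apply, Units.val_mk0] at h2
        rw [← h2, h1]
    refine ⟨(a, AlgEquiv.ofLinearEquiv (LinearMap.GeneralLinearGroup.toLinearEquiv ψ) hψ1 hmul), ?_⟩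
    apply unit_ext
    intro x
    rw [prodU_apply]
    show (a : K) * (ψ : Module.End F K) x = _
    rw [hψ_apply, ← mul_assoc, ha_def]
    simp only [Units.val_mk0]
    rw [mul_inv_cancel₀ ha, one_mul]

end

theorem main {F K : Type*} [Field F] [Fintype F] [Field K] [Fintype K] [Algebra F K] (n : ℕ) (_hn : 2 ≤ n) (hdim : Module.finrank F K = n) :
    Nat.card (Subgroup.normalizer (((Units.map ((Algebra.lmul F K : K →ₐ[F] Module.End F K) : K →* Module.End F K)).range : Subgroup (Module.End F K)ˣ) : Set (Module.End F K)ˣ)) = n * (Fintype.card K - 1) := by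
  have h1 := range_eq (F := F) (K := K)
  have h2 : Nat.card (Set.range (prodU (F := F) (K := K))) = Nat.card (Kˣ × (K ≃ₐ[F] K)) :=
    Nat.card_range_of_injective prodU_injective
  rw [h1] at h2
  have h3 : Nat.card (Kˣ × (K ≃ₐ[F] K)) = (Fintype.card K - 1) * n := by
    rw [Nat.card_prod, Nat.card_units, Nat.card_eq_fintype_card, IsGalois.card_aut_eq_finrank, hdim]
  rw [h3, mul_comm] at h2
  exact h2


/-- Let F ⊆ K be finite fields with |F| = q and [K : F] = n ≥ 2, so |K| = q^n. Regard K as an n-dimensional F-vector space; the multiplications by non-zero elements of K form a cyclic subgroup of GL_F(K) of order q^n − 1 acting regularly on the non-zero vectors (a Singer group). Its normaliser in GL_F(K) has order n·(q^n − 1). -/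
theorem result {F K : Type*} [Field F] [Fintype F] [Field K] [Fintype K] [Algebra F K] (n : ℕ) (hn : 2 ≤ n) (hdim : Module.finrank F K = n) :
    Nat.card (Subgroup.normalizer (((Units.map ((Algebra.lmul F K : K →ₐ[F] Module.End F K) : K →* Module.End F K)).range : Subgroup (Module.End F K)ˣ) : Set (Module.End F K)ˣ)) = n * (Fintype.card K - 1) := by
  exact main n hn hdim

end Cfsg.Agent.S5738
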