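import Cfsg.Statements.S5739

set_option autoImplicit false
open Cfsg

namespace Cfsg.Agent.S5739

section aux

variable {F K : Type*} [Field F] [Field K] [Algebra F K]

theorem lmul_eq_zero {a : K} (h : Algebra.lmul F K a = 0) : a = 0 := by
  have h1 := LinearMap.congr_fun h (1 : K)
  simpa using h1

theorem lmul_injective : Function.Injective (Algebra.lmul F K) := by
  intro a b h
  have h1 := LinearMap.congr_fun h (1 : K)
  simpa using h1

theorem witness_ne_zero (g : (Module.End F K)ˣ) {a a' : K} (h0 : a ≠ 0)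
    (ha : (g : Module.End F K) * Algebra.lmul F K a' = Algebra.lmul F K a * (g : Module.End F K)) :
    a' ≠ 0 := by
  rintro rfl
  rw [map_zero, mul_zero] at ha
  apply h0
  apply lmul_eq_zero (F := F)
  have h2 : Algebra.lmul F K a = Algebra.lmul F K a * (g : Module.End F K) * ((g⁻¹ : (Module.End F K)ˣ) : Module.End F K) := by
    rw [mul_assoc, Units.mul_inv, mul_one]
  rw [h2, ← ha, zero_mul]

/-- The elements of `K` whose multiplication map is the `g`-conjugate of a multiplication map. -/
def interField (g : (Module.End F K)ˣ) : IntermediateField F K where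
  carrier := {k | ∃ k' : K, (g : Module.End F K) * Algebra.lmul F K k' = Algebra.lmul F K k * (g : Module.End F K)}
  mul_mem' := by
    rintro a b ⟨a', ha⟩ ⟨b', hb⟩
    refine ⟨a' * b', ?_⟩
    rw [map_mul, map_mul, ← mul_assoc, ha, mul_assoc, hb, mul_assoc]
  one_mem' := ⟨1, by rw [map_one, mul_one, one_mul]⟩
  add_mem' := by
    rintro a b ⟨a', ha⟩ ⟨b', hb⟩
    exact ⟨a' + b', by rw [map_add, map_add, mul_add, add_mul, ha, hb]⟩
  zero_mem' := ⟨0, by simp⟩
  algebraMap_mem' := by
    intro r
    refine ⟨algebraMap F K r, ?_⟩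
    rw [AlgHom.commutes]
    exact (Algebra.commutes r _).symm
  inv_mem' := by
    rintro a ⟨a', ha⟩
    by_cases h0 : a = 0
    · subst h0; exact ⟨0, by simp⟩
    · have ha'0 : a' ≠ 0 := witness_ne_zero g h0 ha
      refine ⟨a'⁻¹, ?_⟩
      have h1 : Algebra.lmul F K a⁻¹ * Algebra.lmul F K a = 1 := by
        rw [← map_mul, inv_mul_cancel₀ h0, map_one]
      have h2 : Algebra.lmul F K a' * Algebra.lmul F K a'⁻¹ = 1 := by
        rw [← map_mul, mul_inv_cancel₀ ha'0, map_one]
      calc (g : Module.End F K) * Algebra.lmul F K a'⁻¹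
          = (Algebra.lmul F K a⁻¹ * Algebra.lmul F K a) * (g : Module.End F K) * Algebra.lmul F K a'⁻¹ := by
            rw [h1, one_mul]
        _ = Algebra.lmul F K a⁻¹ * (Algebra.lmul F K a * (g : Module.End F K)) * Algebra.lmul F K a'⁻¹ := by
            simp only [mul_assoc]
        _ = Algebra.lmul F K a⁻¹ * ((g : Module.End F K) * Algebra.lmul F K a') * Algebra.lmul F K a'⁻¹ := by
            rw [ha]
        _ = Algebra.lmul F K a⁻¹ * (g : Module.End F K) * (Algebra.lmul F K a' * Algebra.lmul F K a'⁻¹) := by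
            simp only [mul_assoc]
        _ = Algebra.lmul F K a⁻¹ * (g : Module.End F K) := by rw [h2, mul_one]

theorem mem_interField (g : (Module.End F K)ˣ) (k : K) :
    k ∈ interField g ↔ ∃ k' : K, (g : Module.End F K) * Algebra.lmul F K k' = Algebra.lmul F K k * (g : Module.End F K) :=
  Iff.rfl

end aux

/-- Let F ⊆ K be finite fields with |F| = q and [K : F] = n ≥ 2, and let M ≤ GL_F(K) be the Singer group of multiplications by non-zero elements of K. If g ∈ GL_F(K) does not normalise M, then the order of M ∩ gMg⁻¹ divides q^r − 1 for some proper divisor r of n. In particular, when n is prime, that order divides q − 1. -/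
theorem result {F K : Type*} [Field F] [Fintype F] [Field K] [Fintype K] [Algebra F K] (n : ℕ) (hn : 2 ≤ n) (hdim : Module.finrank F K = n)
    (g : (Module.End F K)ˣ) (hg : ((Units.map ((Algebra.lmul F K : K →ₐ[F] Module.End F K) : K →* Module.End F K)).range).map (MulAut.conj g).toMonoidHom ≠ (Units.map ((Algebra.lmul F K : K →ₐ[F] Module.End F K) : K →* Module.End F K)).range) :
    ∃ r : ℕ, 1 ≤ r ∧ r ∣ n ∧ r < n ∧ Nat.card ↥(((Units.map ((Algebra.lmul F K : K →ₐ[F] Module.End F K) : K →* Module.End F K)).range).map (MulAut.conj g).toMonoidHom ⊓ (Units.map ((Algebra.lmul F K : K →ₐ[F] Module.End F K) : K →* Module.End F K)).range) ∣ Fintype.card F ^ r - 1 := by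
  have hfinEnd : Finite (Module.End F K) :=
    Finite.of_injective (fun f : Module.End F K => (f : K → K)) DFunLike.coe_injective
  set lm : K →* Module.End F K := ((Algebra.lmul F K : K →ₐ[F] Module.End F K) : K →* Module.End F K) with hlm
  have hlm_apply : ∀ k : K, lm k = Algebra.lmul F K k := fun k => rfl
  set M : Subgroup (Module.End F K)ˣ := (Units.map lm).range with hM
  set E := interField (F := F) (K := K) g with hE
  -- the group hom from the units of E
  let ψ : (↥E)ˣ →* (Module.End F K)ˣ := Units.map (lm.comp ((E.val : ↥E →ₐ[F] K) : ↥E →* K))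
  have hψ_val : ∀ e : (↥E)ˣ, ((ψ e : (Module.End F K)ˣ) : Module.End F K) = Algebra.lmul F K ((e : ↥E) : K) :=
    fun e => rfl
  have hψinj : Function.Injective ψ := by
    apply Units.map_injective
    intro a b hab
    apply Subtype.ext
    exact lmul_injective (F := F) hab
  -- conjugate membership
  have hconj : ∀ (k k' : K) (hk : k ≠ 0) (hk' : k' ≠ 0),
      (g : Module.End F K) * Algebra.lmul F K k' = Algebra.lmul F K k * (g : Module.End F K) →
      (MulAut.conj g).toMonoidHom (Units.map lm (Units.mk0 k' hk')) = Units.map lm (Units.mk0 k hk) := by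
    intro k k' hk hk' h
    apply Units.ext
    change (g : Module.End F K) * Algebra.lmul F K k' * ((g⁻¹ : (Module.End F K)ˣ) : Module.End F K) = Algebra.lmul F K k
    rw [h, mul_assoc, Units.mul_inv, mul_one]
  have hrange : ψ.range = M.map (MulAut.conj g).toMonoidHom ⊓ M := by
    ext u
    constructor
    · rintro ⟨e, rfl⟩
      have he0 : ((e : ↥E) : K) ≠ 0 := by
        intro h
        exact e.ne_zero (Subtype.ext h)
      obtain ⟨k', hk'⟩ := (mem_interField g _).mp (e : ↥E).2
      have hk'0 : k' ≠ 0 := witness_ne_zero g he0 hk'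
      have hval : ψ e = Units.map lm (Units.mk0 ((e : ↥E) : K) he0) := Units.ext rfl
      refine ⟨⟨Units.map lm (Units.mk0 k' hk'0), ⟨_, rfl⟩, ?_⟩, ⟨Units.mk0 ((e : ↥E) : K) he0, hval.symm⟩⟩
      rw [hval]
      exact hconj _ _ he0 hk'0 hk'
    · rintro ⟨⟨v, ⟨k', rfl⟩, hv⟩, ⟨k, rfl⟩⟩
      have h1 : (g : Module.End F K) * Algebra.lmul F K (k' : K) * ((g⁻¹ : (Module.End F K)ˣ) : Module.End F K) = Algebra.lmul F K (k : K) :=
        congrArg Units.val hv
      have h2 : (g : Module.End F K) * Algebra.lmul F K (k' : K) = Algebra.lmul F K (k : K) * (g : Module.End F K) := by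
        rw [← h1, mul_assoc, Units.inv_mul, mul_one]
      have hkE : (k : K) ∈ E := (mem_interField g _).mpr ⟨k', h2⟩
      have hne : (⟨(k : K), hkE⟩ : ↥E) ≠ 0 := by
        intro h
        exact k.ne_zero (congrArg Subtype.val h)
      exact ⟨Units.mk0 ⟨(k : K), hkE⟩ hne, Units.ext rfl⟩
  have hcard : Nat.card ↥(M.map (MulAut.conj g).toMonoidHom ⊓ M) = Fintype.card F ^ Module.finrank F ↥E - 1 := by
    rw [← hrange, ← Nat.card_congr (MonoidHom.ofInjective hψinj).toEquiv, Nat.card_units,
      Module.natCard_eq_pow_finrank (K := F) (V := ↥E), Nat.card_eq_fintype_card]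
  have hmul : Module.finrank F ↥E * Module.finrank ↥E K = n := by
    rw [Module.finrank_mul_finrank, hdim]
  have hpos : 0 < Module.finrank F ↥E := Module.finrank_pos
  refine ⟨Module.finrank F ↥E, hpos, ⟨_, hmul.symm⟩, ?_, ?_⟩
  · have hle : Module.finrank F ↥E ≤ n := Nat.le_of_dvd (by omega) ⟨_, hmul.symm⟩
    refine lt_of_le_of_ne hle ?_
    intro heq
    apply hg
    -- E = ⊤
    have htop : E.toSubalgebra.toSubmodule = ⊤ := by
      apply Submodule.eq_top_of_finrank_eq
      rw [hdim, ← heq]
      rfl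
    have hall : ∀ k : K, k ∈ E := by
      intro k
      have : k ∈ E.toSubalgebra.toSubmodule := by rw [htop]; trivial
      exact this
    have hle2 : M ≤ M.map (MulAut.conj g).toMonoidHom := by
      rintro _ ⟨k, rfl⟩
      obtain ⟨k', hk'⟩ := (mem_interField g _).mp (hall (k : K))
      have hk'0 : k' ≠ 0 := witness_ne_zero g k.ne_zero hk'
      refine ⟨Units.map lm (Units.mk0 k' hk'0), ⟨_, rfl⟩, ?_⟩
      rw [hconj _ _ k.ne_zero hk'0 hk']
      exact congrArg (Units.map lm) (Units.ext rfl)
    have hcm : Nat.card ↥(M.map (MulAut.conj g).toMonoidHom) = Nat.card ↥M :=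
      Subgroup.card_map_of_injective (MulAut.conj g).injective
    exact (Subgroup.eq_of_le_of_card_ge hle2 hcm.le).symm
  · rw [hcard]

end Cfsg.Agent.S5739
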