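import Cfsg.Statements.S5747

set_option autoImplicit false
open Cfsg

namespace Cfsg.Agent.S5747

section aux

open List

variable {G Ω : Type*} [Group G] [MulAction G Ω]

/-- pointwise stabilizer in `H` of the entries of a list -/
def stabH (H : Subgroup G) : List Ω → Subgroup G
  | [] => H
  | x :: l => stabH (H ⊓ MulAction.stabilizer G x) l

/-- irredundance of a list relative to the subgroup `H` -/
def IrrH (H : Subgroup G) : List Ω → Prop
  | [] => True
  | x :: l => ¬ H ≤ MulAction.stabilizer G x ∧ IrrH (H ⊓ MulAction.stabilizer G x) l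

open Classical in
/-- greedy removal of the redundant entries -/
noncomputable def prune (H : Subgroup G) : List Ω → List Ω
  | [] => []
  | x :: l => if H ≤ MulAction.stabilizer G x then prune H l
      else x :: prune (H ⊓ MulAction.stabilizer G x) l

theorem mem_stabH (H : Subgroup G) (l : List Ω) (g : G) :
    g ∈ stabH H l ↔ g ∈ H ∧ ∀ x ∈ l, g • x = x := by
  induction l generalizing H with
  | nil => simp [stabH]
  | cons x l ih =>
    simp only [stabH, ih, Subgroup.mem_inf, MulAction.mem_stabilizer_iff, List.mem_cons,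
      forall_eq_or_imp, and_assoc]

theorem stabH_le (H : Subgroup G) (l : List Ω) : stabH H l ≤ H :=
  fun g hg => ((mem_stabH H l g).mp hg).1

theorem stabH_perm (H : Subgroup G) {l l' : List Ω} (h : l ~ l') : stabH H l = stabH H l' := by
  ext g
  simp only [mem_stabH, h.mem_iff]

theorem stabH_mono {H H' : Subgroup G} (h : H ≤ H') (l : List Ω) : stabH H l ≤ stabH H' l := by
  intro g hg
  rw [mem_stabH] at hg ⊢
  exact ⟨h hg.1, hg.2⟩

theorem stabH_append (H : Subgroup G) (l₁ l₂ : List Ω) :
    stabH H (l₁ ++ l₂) = stabH (stabH H l₁) l₂ := by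
  induction l₁ generalizing H with
  | nil => rfl
  | cons x l ih => simp only [List.cons_append, stabH, ih]

theorem irrH_append (H : Subgroup G) (l₁ l₂ : List Ω) :
    IrrH H (l₁ ++ l₂) ↔ IrrH H l₁ ∧ IrrH (stabH H l₁) l₂ := by
  induction l₁ generalizing H with
  | nil => simp [IrrH, stabH]
  | cons x l ih => simp only [List.cons_append, IrrH, stabH, ih, and_assoc]

theorem prune_sublist (H : Subgroup G) (l : List Ω) : prune H l <+ l := by
  induction l generalizing H with
  | nil => simp [prune]
  | cons x l ih =>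
    simp only [prune]
    split_ifs with h
    · exact (ih H).cons x
    · exact (ih _).cons_cons x

theorem irrH_prune (H : Subgroup G) (l : List Ω) : IrrH H (prune H l) := by
  induction l generalizing H with
  | nil => simp [prune, IrrH]
  | cons x l ih =>
    simp only [prune]
    split_ifs with h
    · exact ih H
    · exact ⟨h, ih _⟩

theorem stabH_prune (H : Subgroup G) (l : List Ω) : stabH H (prune H l) = stabH H l := by
  induction l generalizing H with
  | nil => simp [prune]
  | cons x l ih =>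
    simp only [prune]
    split_ifs with h
    · rw [ih H]
      simp only [stabH]
      rw [inf_eq_left.mpr h]
    · simp only [stabH]
      exact ih _

theorem length_prune_lt (H : Subgroup G) (l : List Ω) (h : ¬ IrrH H l) :
    (prune H l).length < l.length := by
  induction l generalizing H with
  | nil => exact absurd trivial h
  | cons x l ih =>
    simp only [prune]
    split_ifs with hx
    · exact Nat.lt_succ_of_le (prune_sublist H l).length_le
    · have h' : ¬ IrrH (H ⊓ MulAction.stabilizer G x) l := fun h'' => h ⟨hx, h''⟩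
      simpa using ih _ h'

variable (Ω) in
/-- reordering closure of the `H`-irredundant lists -/
def PH (H : Subgroup G) : Prop := ∀ l l' : List Ω, l ~ l' → IrrH H l → IrrH H l'

theorem PH_stabH {H : Subgroup G} (hP : PH Ω H) {q : List Ω} (hq : IrrH H q) :
    PH Ω (stabH H q) := by
  intro l l' hl hirr
  have h1 : IrrH H (q ++ l) := (irrH_append H q l).mpr ⟨hq, hirr⟩
  exact ((irrH_append H q l').mp (hP _ _ (hl.append_left q) h1)).2

theorem length_le_one {H : Subgroup G} (hP : PH Ω H) (x : Ω) (Y : List Ω) (hx : IrrH H [x])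
    (hY : IrrH H Y) (heq : stabH H [x] = stabH H Y) : Y.length ≤ 1 := by
  match Y, hY, heq with
  | [], _, _ => simp
  | [y], _, _ => simp
  | y₁ :: y₂ :: Z, hY, heq =>
    exfalso
    obtain ⟨h1, h2, -⟩ := hY
    have hK1 : H ⊓ MulAction.stabilizer G x ≤ MulAction.stabilizer G y₁ := by
      intro g hg
      have hg' : g ∈ stabH H (y₁ :: y₂ :: Z) := by rw [← heq]; exact hg
      rw [mem_stabH] at hg'
      exact MulAction.mem_stabilizer_iff.mpr (hg'.2 y₁ (by simp))
    have hK2 : H ⊓ MulAction.stabilizer G x ≤ MulAction.stabilizer G y₂ := by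
      intro g hg
      have hg' : g ∈ stabH H (y₁ :: y₂ :: Z) := by rw [← heq]; exact hg
      rw [mem_stabH] at hg'
      exact MulAction.mem_stabilizer_iff.mpr (hg'.2 y₂ (by simp))
    have hc : H ⊓ MulAction.stabilizer G y₁ ≤ MulAction.stabilizer G x := by
      by_contra hc
      have h3 : IrrH H [y₁, x] := ⟨h1, hc, trivial⟩
      have h4 : IrrH H [x, y₁] := hP _ _ (List.Perm.swap x y₁ []) h3
      exact h4.2.1 hK1
    exact h2 (le_trans (le_inf inf_le_left hc) hK2)

theorem key (n : ℕ) : ∀ (H : Subgroup G), PH Ω H → ∀ X Y : List Ω, X.length = n → IrrH H X →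
    IrrH H Y → stabH H X ≤ stabH H Y → Y.length ≤ X.length := by
  induction n using Nat.strong_induction_on with
  | _ n ih =>
  intro H hP X Y hn hX hY hle
  obtain ⟨X'', hperm⟩ := List.Sublist.exists_perm_append (prune_sublist (stabH H Y) X)
  set X' := prune (stabH H Y) X with hX'def
  have h1 : IrrH H (Y ++ X') := (irrH_append H Y X').mpr ⟨hY, irrH_prune _ _⟩
  have h2 : IrrH H (X' ++ Y) := hP _ _ List.perm_append_comm h1
  have h3 : IrrH H (X' ++ X'') := hP _ _ hperm hX
  have hX' : IrrH H X' := ((irrH_append H X' Y).mp h2).1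
  have hYrel : IrrH (stabH H X') Y := ((irrH_append H X' Y).mp h2).2
  have hX''rel : IrrH (stabH H X') X'' := ((irrH_append H X' X'').mp h3).2
  have hs1 : stabH (stabH H X') X'' = stabH H X := by
    rw [← stabH_append, stabH_perm H hperm]
  have hs0 : stabH (stabH H Y) X = stabH H X := by
    ext g
    simp only [mem_stabH]
    constructor
    · rintro ⟨⟨hg, -⟩, hg2⟩
      exact ⟨hg, hg2⟩
    · rintro ⟨hg, hg2⟩
      have : g ∈ stabH H Y := hle ((mem_stabH H X g).mpr ⟨hg, hg2⟩)
      exact ⟨(mem_stabH H Y g).mp this, hg2⟩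
  have hs2 : stabH (stabH H X') Y = stabH H X := by
    rw [← stabH_append, stabH_perm H (List.perm_append_comm : X' ++ Y ~ Y ++ X'), stabH_append,
      hX'def, stabH_prune, hs0]
  have hlen : X.length = X'.length + X''.length := by
    rw [hperm.length_eq, List.length_append]
  by_cases hne : X' = []
  · -- equal stabilizers
    have heq : stabH H Y = stabH H X := by
      rw [hne] at hs2
      exact hs2
    match X, hn, hX, heq with
    | [], _, _, heq =>
      match Y, hY, heq with
      | [], _, _ => simp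
      | y :: Y₁, hY, heq =>
        exfalso
        apply hY.1
        intro g hg
        have : g ∈ stabH H (y :: Y₁) := by rw [heq]; exact hg
        rw [mem_stabH] at this
        exact MulAction.mem_stabilizer_iff.mpr (this.2 y (by simp))
    | x :: X₁, hn, hX, heq =>
      obtain ⟨hx, hX₁⟩ := hX
      obtain ⟨Y'', hpermY⟩ := List.Sublist.exists_perm_append
        (prune_sublist (H ⊓ MulAction.stabilizer G x) Y)
      set Y' := prune (H ⊓ MulAction.stabilizer G x) Y with hY'def
      have hKx : stabH H Y ≤ MulAction.stabilizer G x := by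
        intro g hg
        rw [heq, mem_stabH] at hg
        exact MulAction.mem_stabilizer_iff.mpr (hg.2 x (by simp))
      have g1 : IrrH H (x :: Y') := ⟨hx, irrH_prune _ _⟩
      have g2 : IrrH H (Y' ++ [x]) := hP _ _ (List.perm_append_singleton x Y').symm g1
      have gY' : IrrH H Y' := ((irrH_append H Y' [x]).mp g2).1
      have gx : IrrH (stabH H Y') [x] := ((irrH_append H Y' [x]).mp g2).2
      have g3 : IrrH H (Y' ++ Y'') := hP _ _ hpermY hY
      have gY'' : IrrH (stabH H Y') Y'' := ((irrH_append H Y' Y'').mp g3).2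
      have s0 : stabH (H ⊓ MulAction.stabilizer G x) Y' = stabH H Y := by
        rw [hY'def, stabH_prune]
        ext g
        simp only [mem_stabH, Subgroup.mem_inf]
        constructor
        · rintro ⟨⟨hg, -⟩, hg2⟩
          exact ⟨hg, hg2⟩
        · rintro ⟨hg, hg2⟩
          exact ⟨⟨hg, hKx ((mem_stabH H Y g).mpr ⟨hg, hg2⟩)⟩, hg2⟩
      have s1 : stabH (stabH H Y') [x] = stabH H Y := by
        rw [← stabH_append, stabH_perm H (List.perm_append_singleton x Y')]
        exact s0
      have s2 : stabH (stabH H Y') Y'' = stabH H Y := by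
        rw [← stabH_append, stabH_perm H hpermY]
      have hY''len : Y''.length ≤ 1 :=
        length_le_one (PH_stabH hP gY') x Y'' gx gY'' (s1.trans s2.symm)
      have hYlen : Y.length = Y'.length + Y''.length := by
        rw [hpermY.length_eq, List.length_append]
      have hPH₁ : PH Ω (H ⊓ MulAction.stabilizer G x) :=
        PH_stabH hP (q := [x]) ⟨hx, trivial⟩
      have hn' : X₁.length < n := by
        rw [← hn]; simp
      have hfin := ih X₁.length hn' (H ⊓ MulAction.stabilizer G x) hPH₁ X₁ Y' rfl hX₁ g1.2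
        (by
          rw [s0, heq]
          exact le_of_eq rfl)
      simp only [List.length_cons]
      omega
  · have hpos : 0 < X'.length := List.length_pos_iff.mpr hne
    have hlt : X''.length < n := by omega
    have := ih X''.length hlt (stabH H X') (PH_stabH hP hX') X'' Y rfl hX''rel hYrel
      (hs1.trans hs2.symm).le
    omega

/-- irredundant bases as lists -/
def IBL (G : Type*) [Group G] {Ω : Type*} [MulAction G Ω] (l : List Ω) : Prop :=
  IrrH (⊤ : Subgroup G) l ∧ stabH (⊤ : Subgroup G) l = ⊥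

theorem irrH_ofFn : ∀ (t : ℕ) (H : Subgroup G) (f : Fin t → Ω),
    IrrH H (List.ofFn f) ↔
      ∀ i : Fin t, ∃ g ∈ H, (∀ j : Fin t, j < i → g • f j = f j) ∧ g • f i ≠ f i := by
  intro t
  induction t with
  | zero =>
    intro H f
    simp [IrrH]
  | succ t ih =>
    intro H f
    rw [List.ofFn_succ]
    simp only [IrrH]
    rw [ih, Fin.forall_fin_succ]
    apply and_congr
    · rw [SetLike.not_le_iff_exists]
      constructor
      · rintro ⟨g, hg, hg2⟩
        exact ⟨g, hg, fun j hj => absurd hj (Fin.not_lt_zero j),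
          fun h => hg2 (MulAction.mem_stabilizer_iff.mpr h)⟩
      · rintro ⟨g, hg, -, hg2⟩
        exact ⟨g, hg, fun h => hg2 (MulAction.mem_stabilizer_iff.mp h)⟩
    · apply forall_congr'
      intro i
      constructor
      · rintro ⟨g, ⟨hg, hg0⟩, hg1, hg2⟩
        refine ⟨g, hg, ?_, hg2⟩
        intro j
        refine Fin.cases ?_ (fun j' => ?_) j
        · intro _
          exact MulAction.mem_stabilizer_iff.mp hg0
        · intro hj'
          exact hg1 j' (Fin.succ_lt_succ_iff.mp hj')
      · rintro ⟨g, hg, hg1, hg2⟩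
        refine ⟨g, ⟨hg, MulAction.mem_stabilizer_iff.mpr (hg1 0 (Fin.succ_pos i))⟩, ?_, hg2⟩
        intro j hj
        exact hg1 j.succ (Fin.succ_lt_succ_iff.mpr hj)

theorem stab_ofFn (t : ℕ) (f : Fin t → Ω) :
    stabH (⊤ : Subgroup G) (List.ofFn f) = ⊥ ↔ ∀ g : G, (∀ i : Fin t, g • f i = f i) → g = 1 := by
  rw [Subgroup.eq_bot_iff_forall]
  apply forall_congr'
  intro g
  rw [mem_stabH]
  simp only [Subgroup.mem_top, true_and, List.mem_ofFn, forall_exists_index,
    forall_apply_eq_imp_iff]

theorem ib_iff (t : ℕ) (f : Fin t → Ω) :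
    ((∀ g : G, (∀ i : Fin t, g • f i = f i) → g = 1) ∧
      ∀ i : Fin t, ∃ g : G, (∀ j : Fin t, j < i → g • f j = f j) ∧ g • f i ≠ f i) ↔
    IBL G (List.ofFn f) := by
  unfold IBL
  rw [irrH_ofFn, stab_ofFn, and_comm]
  simp only [Subgroup.mem_top, true_and]

theorem exists_perm_ofFn {l₁ l₂ : List Ω} (h : l₁ ~ l₂) :
    ∀ (t : ℕ) (f : Fin t → Ω), l₂ = List.ofFn f →
      ∃ σ : Equiv.Perm (Fin t), List.ofFn (f ∘ σ) = l₁ := by
  induction h with
  | nil =>
    intro t f hf
    exact ⟨1, by rw [hf]; rfl⟩
  | cons x _ ih =>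
    intro t f hf
    cases t with
    | zero => simp at hf
    | succ t =>
      rw [List.ofFn_succ] at hf
      obtain ⟨hx, hl⟩ := List.cons.inj hf
      obtain ⟨σ', hσ'⟩ := ih t (fun i => f i.succ) hl
      refine ⟨Equiv.Perm.decomposeFin.symm (0, σ'), ?_⟩
      rw [List.ofFn_succ]
      simp only [Function.comp_apply, Equiv.Perm.decomposeFin_symm_apply_zero,
        Equiv.Perm.decomposeFin_symm_apply_succ, Equiv.swap_self, Equiv.refl_apply]
      rw [← hx, ← hσ']
      rfl
  | swap x y l =>
    intro t f hf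
    cases t with
    | zero => simp at hf
    | succ t =>
      cases t with
      | zero => simp at hf
      | succ t =>
        rw [List.ofFn_succ, List.ofFn_succ] at hf
        obtain ⟨hx, hf'⟩ := List.cons.inj hf
        obtain ⟨hy, hl⟩ := List.cons.inj hf'
        refine ⟨Equiv.swap 0 1, ?_⟩
        rw [List.ofFn_succ, List.ofFn_succ]
        simp only [Function.comp_apply, Equiv.swap_apply_left]
        have h1 : (Equiv.swap (0 : Fin (t + 2)) 1) (Fin.succ 0) = 0 := by
          rw [Fin.succ_zero_eq_one, Equiv.swap_apply_right]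
        rw [h1, hl]
        have h2 : ∀ i : Fin t, (Equiv.swap (0 : Fin (t + 2)) 1) i.succ.succ = i.succ.succ := by
          intro i
          apply Equiv.swap_apply_of_ne_of_ne
          · exact Fin.succ_ne_zero _
          · rw [← Fin.succ_zero_eq_one]
            intro h
            exact Fin.succ_ne_zero _ (Fin.succ_injective _ h)
        simp only [h2]
        have hy' : y = f 1 := by rw [hy, Fin.succ_zero_eq_one]
        rw [hy']
        try rw [hx]
  | trans _ _ ih₁ ih₂ =>
    intro t f hf
    obtain ⟨σ₂, hσ₂⟩ := ih₂ t f hf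
    obtain ⟨σ₁, hσ₁⟩ := ih₁ t (f ∘ σ₂) hσ₂.symm
    exact ⟨σ₂ * σ₁, by rw [← hσ₁]; rfl⟩

end aux

/-- Let a finite group G act on a finite set Ω. An irredundant base is a sequence of points ω₁, …, ω_t whose pointwise stabiliser is trivial and in which each ω_i is moved by some element fixing ω₁, …, ω_{i−1}. Then all irredundant bases have the same length if and only if every reordering of an irredundant base is again an irredundant base. -/
theorem result {G Ω : Type*} [Group G] [Finite G] [MulAction G Ω] [Fintype Ω] :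
    (∀ (t t' : ℕ) (f : Fin t → Ω) (f' : Fin t' → Ω), ((∀ g : G, (∀ i : Fin t, g • f i = f i) → g = 1) ∧ ∀ i : Fin t, ∃ g : G, (∀ j : Fin t, j < i → g • f j = f j) ∧ g • f i ≠ f i) → ((∀ g : G, (∀ i : Fin t', g • f' i = f' i) → g = 1) ∧ ∀ i : Fin t', ∃ g : G, (∀ j : Fin t', j < i → g • f' j = f' j) ∧ g • f' i ≠ f' i) → t = t') ↔
    (∀ (t : ℕ) (f : Fin t → Ω) (σ : Equiv.Perm (Fin t)), ((∀ g : G, (∀ i : Fin t, g • f i = f i) → g = 1) ∧ ∀ i : Fin t, ∃ g : G, (∀ j : Fin t, j < i → g • f j = f j) ∧ g • f i ≠ f i) → ((∀ g : G, (∀ i : Fin t, g • (f ∘ σ) i = (f ∘ σ) i) → g = 1) ∧ ∀ i : Fin t, ∃ g : G, (∀ j : Fin t, j < i → g • (f ∘ σ) j = (f ∘ σ) j) ∧ g • (f ∘ σ) i ≠ (f ∘ σ) i)) := by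
  have hA : (∀ (t t' : ℕ) (f : Fin t → Ω) (f' : Fin t' → Ω), ((∀ g : G, (∀ i : Fin t, g • f i = f i) → g = 1) ∧ ∀ i : Fin t, ∃ g : G, (∀ j : Fin t, j < i → g • f j = f j) ∧ g • f i ≠ f i) → ((∀ g : G, (∀ i : Fin t', g • f' i = f' i) → g = 1) ∧ ∀ i : Fin t', ∃ g : G, (∀ j : Fin t', j < i → g • f' j = f' j) ∧ g • f' i ≠ f' i) → t = t') ↔
      (∀ l l' : List Ω, IBL G l → IBL G l' → l.length = l'.length) := by
    constructor
    · intro h l l' hl hl'
      refine h l.length l'.length l.get l'.get ?_ ?_
      · rw [ib_iff, List.ofFn_get]; exact hl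
      · rw [ib_iff, List.ofFn_get]; exact hl'
    · intro h t t' f f' hf hf'
      rw [ib_iff] at hf hf'
      have := h _ _ hf hf'
      simpa using this
  have hB : (∀ (t : ℕ) (f : Fin t → Ω) (σ : Equiv.Perm (Fin t)), ((∀ g : G, (∀ i : Fin t, g • f i = f i) → g = 1) ∧ ∀ i : Fin t, ∃ g : G, (∀ j : Fin t, j < i → g • f j = f j) ∧ g • f i ≠ f i) → ((∀ g : G, (∀ i : Fin t, g • (f ∘ σ) i = (f ∘ σ) i) → g = 1) ∧ ∀ i : Fin t, ∃ g : G, (∀ j : Fin t, j < i → g • (f ∘ σ) j = (f ∘ σ) j) ∧ g • (f ∘ σ) i ≠ (f ∘ σ) i)) ↔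
      (∀ l l' : List Ω, List.Perm l l' → IBL G l → IBL G l') := by
    constructor
    · intro h l l' hperm hl
      obtain ⟨σ, hσ⟩ := exists_perm_ofFn hperm.symm l.length l.get (List.ofFn_get l).symm
      have h1 := h l.length l.get σ (by rw [ib_iff, List.ofFn_get]; exact hl)
      rw [ib_iff, hσ] at h1
      exact h1
    · intro h t f σ hf
      rw [ib_iff] at hf ⊢
      exact h _ _ (Equiv.Perm.ofFn_comp_perm σ f).symm hf
  rw [hA, hB]
  constructor
  · intro h l l' hperm hl
    have hstab : stabH (⊤ : Subgroup G) l' = ⊥ := by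
      rw [← stabH_perm ⊤ hperm]; exact hl.2
    refine ⟨?_, hstab⟩
    by_contra hirr
    have hlt := length_prune_lt (⊤ : Subgroup G) l' hirr
    have hibl : IBL G (prune (⊤ : Subgroup G) l') :=
      ⟨irrH_prune _ _, by rw [stabH_prune]; exact hstab⟩
    have := h _ _ hibl hl
    rw [hperm.length_eq] at this
    omega
  · intro h l l' hl hl'
    have hP : PH Ω (⊤ : Subgroup G) := by
      intro m m' hm hirr
      have h1 : IBL G (m ++ prune (stabH (⊤ : Subgroup G) m) l) := by
        refine ⟨(irrH_append _ _ _).mpr ⟨hirr, irrH_prune _ _⟩, ?_⟩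
        rw [stabH_append, stabH_prune, eq_bot_iff, ← hl.2]
        exact stabH_mono le_top l
      have h2 := h _ _ (hm.append_right _) h1
      exact ((irrH_append _ _ _).mp h2.1).1
    have e1 := key l.length (⊤ : Subgroup G) hP l l' rfl hl.1 hl'.1 (by rw [hl.2]; exact bot_le)
    have e2 := key l'.length (⊤ : Subgroup G) hP l' l rfl hl'.1 hl.1 (by rw [hl'.2]; exact bot_le)
    omega

end Cfsg.Agent.S5747
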