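import Cfsg.Statements.S5754

set_option autoImplicit false
open Cfsg

namespace Cfsg.Agent.S5754

section aux

variable {F V : Type*} [Field F] [AddCommGroup V] [Module F V]

theorem polar_map (Q : QuadraticForm F V) (φ : Q.IsometryEquiv Q) (x y : V) :
    QuadraticMap.polar Q (φ x) (φ y) = QuadraticMap.polar Q x y := by
  unfold QuadraticMap.polar
  rw [← map_add, QuadraticMap.IsometryEquiv.map_app, QuadraticMap.IsometryEquiv.map_app,
    QuadraticMap.IsometryEquiv.map_app]

theorem exists_reflection (Q : QuadraticForm F V) (v : V) (hv : Q v ≠ 0) :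
    ∃ r : Q.IsometryEquiv Q, ∀ y : V, r y = y - ((Q v)⁻¹ * QuadraticMap.polar Q y v) • v := by
  let f : Module.Dual F V := (Q v)⁻¹ • (QuadraticMap.polarBilin Q).flip v
  have hf : ∀ y, f y = (Q v)⁻¹ * QuadraticMap.polar Q y v := by
    intro y
    simp [f]
  have hfv : f v = 2 := by
    rw [hf, QuadraticMap.polar_self]
    simp only [nsmul_eq_mul, Nat.cast_ofNat]
    field_simp
  have key : ∀ y : V, Q (y - ((Q v)⁻¹ * QuadraticMap.polar Q y v) • v) = Q y := by
    intro y
    set c := (Q v)⁻¹ * QuadraticMap.polar Q y v with hc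
    have h1 : y - c • v = y + (-c) • v := by rw [neg_smul, sub_eq_add_neg]
    rw [h1, QuadraticMap.map_add (⇑Q), QuadraticMap.map_smul, QuadraticMap.polar_smul_right]
    simp only [smul_eq_mul]
    have h2 : c * Q v = QuadraticMap.polar Q y v := by
      rw [hc]; field_simp
    linear_combination (c) * h2
  refine ⟨{ toLinearEquiv := Module.reflection hfv, map_app' := ?_ }, ?_⟩
  · intro y
    change Q (Module.reflection hfv y) = Q y
    rw [Module.reflection_apply, hf]
    exact key y
  · intro y
    change Module.reflection hfv y = _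
    rw [Module.reflection_apply, hf]

theorem witt (Q : QuadraticForm F V) (hQ : Q.Anisotropic) (w w' : ℕ → V) (n : ℕ)
    (hq : ∀ i < n, Q (w i) = Q (w' i))
    (hp : ∀ i < n, ∀ j < n, QuadraticMap.polar Q (w i) (w j) = QuadraticMap.polar Q (w' i) (w' j)) :
    ∃ φ : Q.IsometryEquiv Q, ∀ i < n, φ (w i) = w' i := by
  induction n with
  | zero => exact ⟨QuadraticMap.IsometryEquiv.refl Q, fun i hi => absurd hi (Nat.not_lt_zero i)⟩
  | succ n ih =>
    obtain ⟨φ₁, hφ₁⟩ := ih (fun i hi => hq i (Nat.lt_succ_of_lt hi))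
      (fun i hi j hj => hp i (Nat.lt_succ_of_lt hi) j (Nat.lt_succ_of_lt hj))
    set x := w n with hx
    set y := φ₁.symm (w' n) with hy
    have hφy : φ₁ y = w' n := by
      rw [hy]; exact φ₁.toLinearEquiv.apply_symm_apply (w' n)
    have hQy : Q y = Q x := by
      rw [← QuadraticMap.IsometryEquiv.map_app φ₁ y, hφy, hx, hq n (Nat.lt_succ_self n)]
    by_cases hxy : x = y
    · refine ⟨φ₁, fun i hi => ?_⟩
      rcases Nat.lt_succ_iff_lt_or_eq.mp hi with h | h
      · exact hφ₁ i h
      · subst h; rw [← hx, hxy, hφy]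
    · have hv : Q (x - y) ≠ 0 := by
        intro h0
        exact hxy (sub_eq_zero.mp (hQ _ h0))
      obtain ⟨r, hr⟩ := exists_reflection Q (x - y) hv
      have hQv : Q (x - y) = 2 * Q x - QuadraticMap.polar Q x y := by
        have h1 : x - y = x + (-1 : F) • y := by simp [sub_eq_add_neg]
        rw [h1, QuadraticMap.map_add (⇑Q), QuadraticMap.map_smul, QuadraticMap.polar_smul_right, hQy]
        simp only [smul_eq_mul]
        ring
      have hrx : r x = y := by
        rw [hr]
        have h1 : QuadraticMap.polar Q x (x - y) = Q (x - y) := by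
          rw [QuadraticMap.polar_sub_right, QuadraticMap.polar_self, hQv]
          simp only [nsmul_eq_mul, Nat.cast_ofNat]
        rw [h1, inv_mul_cancel₀ hv, one_smul]
        abel
      have hri : ∀ i < n, r (w i) = w i := by
        intro i hi
        rw [hr]
        have h1 : QuadraticMap.polar Q (w i) (x - y) = 0 := by
          rw [QuadraticMap.polar_sub_right]
          have h2 : QuadraticMap.polar Q (w i) y = QuadraticMap.polar Q (w' i) (w' n) := by
            rw [← polar_map Q φ₁ (w i) y, hφ₁ i hi, hφy]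
          rw [h2, hx, hp i (Nat.lt_succ_of_lt hi) n (Nat.lt_succ_self n), sub_self]
        rw [h1, mul_zero, zero_smul, sub_zero]
      refine ⟨r.trans φ₁, fun i hi => ?_⟩
      change φ₁ (r (w i)) = w' i
      rcases Nat.lt_succ_iff_lt_or_eq.mp hi with h | h
      · rw [hri i h, hφ₁ i h]
      · subst h; rw [← hx, hrx, hφy]

end aux

/-- Let V be a finite-dimensional vector space over a finite field F carrying an anisotropic quadratic form Q (Q(v) = 0 only for v = 0). Then the group of all maps v ↦ φ(v) + c, with φ an isometry of Q and c ∈ V, acts on V as a binary permutation group: given n ≥ 2 and two n-tuples u, u' of vectors such that every pair of corresponding entries of u is carried to that of u' by such a map, one such map carries u to u'. -/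
theorem result {F V : Type*} [Field F] [Finite F] [AddCommGroup V] [Module F V] [Module.Finite F V]
    (Q : QuadraticForm F V) (hQ : Q.Anisotropic) (n : ℕ) (hn : 2 ≤ n) (u u' : Fin n → V)
    (h2 : ∀ i j : Fin n, i ≠ j → ∃ (φ : Q.IsometryEquiv Q) (c : V), φ (u i) + c = u' i ∧ φ (u j) + c = u' j) :
    ∃ (φ : Q.IsometryEquiv Q) (c : V), ∀ i, φ (u i) + c = u' i := by
  have hn0 : 0 < n := by omega
  have hd : ∀ i j : Fin n, Q (u i - u j) = Q (u' i - u' j) := by
    intro i j
    by_cases hij : i = j
    · subst hij; simp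
    · obtain ⟨φ, c, h1, h2'⟩ := h2 i j hij
      rw [← h1, ← h2', add_sub_add_right_eq_sub, ← map_sub, QuadraticMap.IsometryEquiv.map_app]
  let i0 : Fin n := ⟨0, hn0⟩
  let w : ℕ → V := fun k => if h : k < n then u ⟨k, h⟩ - u i0 else 0
  let w' : ℕ → V := fun k => if h : k < n then u' ⟨k, h⟩ - u' i0 else 0
  have hw : ∀ k (h : k < n), w k = u ⟨k, h⟩ - u i0 := fun k h => by simp [w, h]
  have hw' : ∀ k (h : k < n), w' k = u' ⟨k, h⟩ - u' i0 := fun k h => by simp [w', h]
  have hq : ∀ k < n, Q (w k) = Q (w' k) := by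
    intro k hk
    rw [hw k hk, hw' k hk]
    exact hd _ _
  have hp : ∀ i < n, ∀ j < n, QuadraticMap.polar Q (w i) (w j) = QuadraticMap.polar Q (w' i) (w' j) := by
    intro i hi j hj
    have e1 : QuadraticMap.polar Q (w i) (w j) = Q (w i) + Q (w j) - Q (w i - w j) := by
      have h1 : w i - w j = w i + (-1 : F) • w j := by simp [sub_eq_add_neg]
      rw [h1, QuadraticMap.map_add (⇑Q), QuadraticMap.map_smul, QuadraticMap.polar_smul_right]
      simp only [smul_eq_mul]
      ring
    have e2 : QuadraticMap.polar Q (w' i) (w' j) = Q (w' i) + Q (w' j) - Q (w' i - w' j) := by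
      have h1 : w' i - w' j = w' i + (-1 : F) • w' j := by simp [sub_eq_add_neg]
      rw [h1, QuadraticMap.map_add (⇑Q), QuadraticMap.map_smul, QuadraticMap.polar_smul_right]
      simp only [smul_eq_mul]
      ring
    rw [e1, e2, hq i hi, hq j hj]
    congr 1
    rw [hw i hi, hw j hj, hw' i hi, hw' j hj, sub_sub_sub_cancel_right, sub_sub_sub_cancel_right]
    exact hd _ _
  obtain ⟨φ, hφ⟩ := witt Q hQ w w' n hq hp
  refine ⟨φ, u' i0 - φ (u i0), fun i => ?_⟩
  have h3 := hφ i.1 i.2
  rw [hw i.1 i.2, hw' i.1 i.2, map_sub] at h3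
  have h4 : φ (u i) - φ (u i0) = u' i - u' i0 := h3
  have h5 : φ (u i) + (u' i0 - φ (u i0)) = (φ (u i) - φ (u i0)) + u' i0 := by abel
  rw [h5, h4]
  abel

end Cfsg.Agent.S5754
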