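import Cfsg.Statements.S5763

set_option autoImplicit false
open Cfsg

namespace Cfsg.Agent.S5763

open Equiv Equiv.Perm

/-! ### The Klein four-group and the groups `K(f)` -/

lemma V4_mul : ∀ a b : Perm (Fin 4),
    ((∀ i, a i = i) ∨ ((∀ i, a i ≠ i) ∧ ∀ i, a (a i) = i)) →
    ((∀ i, b i = i) ∨ ((∀ i, b i ≠ i) ∧ ∀ i, b (b i) = i)) →
    ((∀ i, (a * b) i = i) ∨ ((∀ i, (a * b) i ≠ i) ∧ ∀ i, (a * b) ((a * b) i) = i)) := by
  set_option maxRecDepth 100000 in decide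

lemma V4_inv (a : Perm (Fin 4))
    (ha : (∀ i, a i = i) ∨ ((∀ i, a i ≠ i) ∧ ∀ i, a (a i) = i)) :
    (∀ i, a⁻¹ i = i) ∨ ((∀ i, a⁻¹ i ≠ i) ∧ ∀ i, a⁻¹ (a⁻¹ i) = i) := by
  have hinv : ∀ i, a (a i) = i → a⁻¹ i = a i := fun i h => Perm.inv_eq_iff_eq.mpr h.symm
  rcases ha with h | h
  · left
    intro i
    rw [hinv i (by rw [h, h]), h]
  · right
    refine ⟨fun i => ?_, fun i => ?_⟩
    · rw [hinv i (h.2 i)]
      exact h.1 i
    · rw [hinv i (h.2 i), hinv (a i) (h.2 (a i))]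
      exact h.2 i

/-- The Klein four-group in `S₄`: the identity and the fixed-point-free involutions. -/
def V4 : Subgroup (Perm (Fin 4)) where
  carrier := {a | (∀ i, a i = i) ∨ ((∀ i, a i ≠ i) ∧ ∀ i, a (a i) = i)}
  mul_mem' := fun {a b} ha hb => V4_mul a b ha hb
  one_mem' := Or.inl fun i => rfl
  inv_mem' := fun {a} ha => V4_inv a ha

lemma V4_sq {a : Perm (Fin 4)} (ha : a ∈ V4) (i : Fin 4) : a (a i) = i := by
  rcases ha with h | h
  · rw [h, h]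
  · exact h.2 i

/-- Permutations of 8 points permuting the fibres of `f` according to an element of `V₄`. -/
def Ksub (f : Fin 8 → Fin 4) : Subgroup (Perm (Fin 8)) where
  carrier := {g | ∃ π ∈ V4, ∀ v, f (g v) = π (f v)}
  mul_mem' := by
    rintro g h ⟨π, hπ, hg⟩ ⟨ρ, hρ, hh⟩
    exact ⟨π * ρ, V4.mul_mem hπ hρ, fun v => by rw [Perm.mul_apply, hg, hh, Perm.mul_apply]⟩
  one_mem' := ⟨1, V4.one_mem, fun v => rfl⟩
  inv_mem' := by
    rintro g ⟨π, hπ, hg⟩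
    refine ⟨π⁻¹, V4.inv_mem hπ, fun v => ?_⟩
    rw [Perm.eq_inv_iff_eq, ← hg, ← Perm.mul_apply, mul_inv_cancel, Perm.one_apply]

lemma mem_Ksub_of_fix {f : Fin 8 → Fin 4} {g : Perm (Fin 8)} (h : ∀ v, f (g v) = f v) :
    g ∈ Ksub f :=
  ⟨1, V4.one_mem, h⟩

lemma mem_Ksub_of_inv {f : Fin 8 → Fin 4} (hs : Function.Surjective f) {m : Perm (Fin 8)}
    (hm2 : ∀ v, f (m v) = f v) (hm3 : ∀ u v, f u = f v → u = v ∨ u = m v) {g : Perm (Fin 8)}
    (h1 : ∀ v, g (m v) = m (g v)) (h2 : ∀ v, f (g v) ≠ f v) (h3 : ∀ v, f (g (g v)) = f v) :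
    g ∈ Ksub f := by
  obtain ⟨s, hs'⟩ : ∃ s : Fin 4 → Fin 8, ∀ i, f (s i) = i :=
    ⟨Function.surjInv hs, Function.surjInv_eq hs⟩
  have key : ∀ v, f (g v) = f (g (s (f v))) := by
    intro v
    rcases hm3 v (s (f v)) (hs' (f v)).symm with h | h
    · rw [← h]
    · have h' : g v = m (g (s (f v))) := by rw [← h1, ← h]
      rw [h', hm2]
  have hinv : Function.Involutive (fun i => f (g (s i))) := by
    intro i
    show f (g (s (f (g (s i))))) = i
    rw [← key (g (s i)), h3, hs']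
  refine ⟨Function.Involutive.toPerm _ hinv, Or.inr ⟨fun i => ?_, fun i => hinv i⟩,
    fun v => key v⟩
  show f (g (s i)) ≠ i
  have h4 := h2 (s i)
  rwa [hs'] at h4

lemma inv_app {α : Type*} (a : Perm α) (v : α) : a⁻¹ (a v) = v := by
  rw [← Perm.mul_apply, inv_mul_cancel, Perm.one_apply]

lemma app_inv {α : Type*} (a : Perm α) (v : α) : a (a⁻¹ v) = v := by
  rw [← Perm.mul_apply, mul_inv_cancel, Perm.one_apply]

lemma conj_mem_Ksub (f : Fin 8 → Fin 4) (a g : Perm (Fin 8)) (h : g ∈ Ksub (f ∘ ⇑a⁻¹)) :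
    a⁻¹ * g * a ∈ Ksub f := by
  obtain ⟨π, hπ, hg⟩ := h
  refine ⟨π, hπ, fun v => ?_⟩
  have h1 := hg (a v)
  rw [Function.comp_apply, Function.comp_apply, inv_app] at h1
  rw [Perm.mul_apply, Perm.mul_apply]
  exact h1

lemma Ksub_pow_four {f : Fin 8 → Fin 4} {m : Perm (Fin 8)} (hm1 : ∀ v, m v ≠ v)
    (hmm : ∀ v, m (m v) = v) (hm2 : ∀ v, f (m v) = f v)
    (hm3 : ∀ u v, f u = f v → u = v ∨ u = m v) {g : Perm (Fin 8)} (hg : g ∈ Ksub f) :
    g ^ 4 = 1 := by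
  obtain ⟨π, hπ, hg⟩ := hg
  have h2 : ∀ v, f ((g * g) v) = f v := by
    intro v
    rw [Perm.mul_apply, hg, hg, V4_sq hπ]
  have h3 : ∀ v, (g * g) ((g * g) v) = v := by
    intro v
    rcases hm3 ((g * g) v) v (h2 v) with e | e
    · rw [e, e]
    · rcases hm3 ((g * g) (m v)) (m v) (h2 (m v)) with e' | e'
      · exact absurd ((g * g).injective (e'.trans e.symm)) (hm1 v)
      · rw [e, e', hmm]
  have h4 : g ^ 4 = (g * g) * (g * g) := by
    rw [show (4:ℕ) = 2 + 2 from rfl, pow_add, pow_two]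
  rw [h4]
  exact Equiv.ext fun v => h3 v

/-! ### Two fixed-point-free involutions on eight points -/

lemma sq_apply {α : Type*} (s : Perm α) (v : α) : (s ^ 2) v = s (s v) := by
  rw [pow_two]
  rfl

lemma pow_two_step {α : Type*} (s : Perm α) (k : ℕ) (v : α) :
    (s ^ (k + 2)) v = s ((s ^ k) (s v)) := by
  rw [pow_succ, pow_succ']
  rfl

lemma pow_add_apply {α : Type*} (s : Perm α) (i d : ℕ) (v : α) :
    (s ^ (i + d)) v = (s ^ d) ((s ^ i) v) := by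
  rw [add_comm, pow_add]
  rfl

lemma pow_add_apply' {α : Type*} (s : Perm α) (i d : ℕ) (v : α) :
    (s ^ (i + d)) v = (s ^ i) ((s ^ d) v) := by
  rw [pow_add]
  rfl

section Dyn

variable {m m' s : Perm (Fin 8)}

lemma dyn_c (hmm : ∀ v, m (m v) = v) (hm1 : ∀ v, m v ≠ v) (hmm' : ∀ v, m' (m' v) = v)
    (hm1' : ∀ v, m' v ≠ v) (hs : ∀ v, s v = m' (m v)) :
    ∀ (k : ℕ) (v : Fin 8), m ((s ^ k) v) ≠ v := by
  intro k
  induction k using Nat.twoStepInduction with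
  | zero =>
    intro v
    exact hm1 v
  | one =>
    intro v h
    rw [pow_one, hs] at h
    have h2 := congrArg m h
    rw [hmm] at h2
    exact hm1' _ h2
  | more k ih _ =>
    intro v h
    rw [pow_two_step, hs] at h
    have h2 := congrArg m h
    rw [hmm] at h2
    have h3 := congrArg m' h2
    rw [hmm'] at h3
    apply ih (s v)
    rw [h3, hs]

lemma dyn_X (hmm : ∀ v, m (m v) = v) (hm1 : ∀ v, m v ≠ v) (hmm' : ∀ v, m' (m' v) = v)
    (hm1' : ∀ v, m' v ≠ v) (hs : ∀ v, s v = m' (m v)) :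
    ∀ (i j : ℕ) (v : Fin 8), (s ^ i) v ≠ m ((s ^ j) v) := by
  intro i j v h
  rcases le_total i j with hij | hij
  · obtain ⟨d, rfl⟩ := Nat.exists_eq_add_of_le hij
    rw [pow_add_apply s i d v] at h
    exact dyn_c hmm hm1 hmm' hm1' hs d ((s ^ i) v) h.symm
  · obtain ⟨d, rfl⟩ := Nat.exists_eq_add_of_le hij
    rw [pow_add_apply s j d v] at h
    exact dyn_c hmm hm1 hmm' hm1' hs d ((s ^ j) v) (by rw [h, hmm])

lemma dyn_Z {v₀ : Fin 8} {n : ℕ} (hfree : ∀ d, 1 ≤ d → d < n → (s ^ d) v₀ ≠ v₀) :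
    ∀ i j, i < n → j < n → (s ^ i) v₀ = (s ^ j) v₀ → i = j := by
  have key : ∀ i j, i ≤ j → j < n → (s ^ i) v₀ = (s ^ j) v₀ → i = j := by
    intro i j hij hj h
    obtain ⟨d, rfl⟩ := Nat.exists_eq_add_of_le hij
    rw [pow_add_apply' s i d v₀] at h
    have h2 := (s ^ i).injective h
    by_contra hne
    exact hfree d (by omega) (by omega) h2.symm
  intro i j hi hj h
  rcases le_total i j with hij | hij
  · exact key i j hij hj h
  · exact (key j i hij hi h.symm).symm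

lemma dyn_inj (hmm : ∀ v, m (m v) = v) (hm1 : ∀ v, m v ≠ v) (hmm' : ∀ v, m' (m' v) = v)
    (hm1' : ∀ v, m' v ≠ v) (hs : ∀ v, s v = m' (m v)) {v₀ : Fin 8} {n : ℕ}
    (hfree : ∀ d, 1 ≤ d → d < n → (s ^ d) v₀ ≠ v₀) :
    Function.Injective (Sum.elim (fun i : Fin n => (s ^ (i : ℕ)) v₀)
      (fun i : Fin n => m ((s ^ (i : ℕ)) v₀))) := by
  apply Function.Injective.sumElim
  · intro i j h
    exact Fin.ext (dyn_Z hfree i j i.2 j.2 h)
  · intro i j h
    exact Fin.ext (dyn_Z hfree i j i.2 j.2 (m.injective h))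
  · intro i j
    exact dyn_X hmm hm1 hmm' hm1' hs i j v₀

/-- No orbit of length 6. -/
lemma dyn_no3 (hmm : ∀ v, m (m v) = v) (hm1 : ∀ v, m v ≠ v) (hmm' : ∀ v, m' (m' v) = v)
    (hm1' : ∀ v, m' v ≠ v) (hne : ∀ v, m v ≠ m' v) (hs : ∀ v, s v = m' (m v)) {v₀ : Fin 8}
    (hv₀ : (s ^ 2) v₀ ≠ v₀) : (s ^ 3) v₀ ≠ v₀ := by
  intro h3
  have hA : ∀ v, s v ≠ v := by
    intro v h
    rw [hs] at h
    have h2 := congrArg m' h
    rw [hmm'] at h2
    exact hne v h2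
  have hfree : ∀ d, 1 ≤ d → d < 3 → (s ^ d) v₀ ≠ v₀ := by
    intro d h1 h2
    interval_cases d
    · rw [pow_one]
      exact hA v₀
    · exact hv₀
  have hinj := dyn_inj hmm hm1 hmm' hm1' hs hfree
  have hmod : ∀ i : ℕ, (s ^ i) v₀ = (s ^ (i % 3)) v₀ := by
    intro i
    have hq : ∀ q : ℕ, (s ^ (3 * q)) v₀ = v₀ := by
      intro q
      induction q with
      | zero => rfl
      | succ q ih =>
        have e : 3 * (q + 1) = 3 * q + 3 := by ring
        rw [e, pow_add_apply, ih, h3]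
    conv_lhs => rw [← Nat.div_add_mod i 3]
    rw [pow_add_apply, hq]
  obtain ⟨O, hO⟩ : ∃ O : Finset (Fin 8), O = Finset.univ.image
      (Sum.elim (fun i : Fin 3 => (s ^ (i : ℕ)) v₀) (fun i : Fin 3 => m ((s ^ (i : ℕ)) v₀))) :=
    ⟨_, rfl⟩
  have hOcard : O.card = 6 := by
    rw [hO, Finset.card_image_of_injective _ hinj, Finset.card_univ, Fintype.card_sum,
      Fintype.card_fin]
  have hO1 : ∀ x, x ∈ O ↔ ∃ i : ℕ, x = (s ^ i) v₀ ∨ x = m ((s ^ i) v₀) := by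
    intro x
    rw [hO, Finset.mem_image]
    constructor
    · rintro ⟨a, -, rfl⟩
      rcases a with i | i
      · exact ⟨i, Or.inl rfl⟩
      · exact ⟨i, Or.inr rfl⟩
    · rintro ⟨i, h | h⟩
      · exact ⟨Sum.inl ⟨i % 3, Nat.mod_lt i (by norm_num)⟩, Finset.mem_univ _,
          by rw [h, hmod i]; rfl⟩
      · exact ⟨Sum.inr ⟨i % 3, Nat.mod_lt i (by norm_num)⟩, Finset.mem_univ _,
          by rw [h, hmod i]; rfl⟩
  have hOm : ∀ x, m x ∈ O → x ∈ O := by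
    intro x hx
    obtain ⟨i, h | h⟩ := (hO1 _).mp hx
    · exact (hO1 _).mpr ⟨i, Or.inr (by rw [← h, hmm])⟩
    · exact (hO1 _).mpr ⟨i, Or.inl (m.injective h)⟩
  have hOs : ∀ x, s x ∈ O → x ∈ O := by
    intro x hx
    obtain ⟨i, h | h⟩ := (hO1 _).mp hx
    · rcases Nat.eq_zero_or_pos i with hi | hi
      · subst hi
        have h' : s x = s ((s ^ 2) v₀) := by
          have e : (s ^ 3) v₀ = s ((s ^ 2) v₀) := by
            rw [pow_succ']
            rfl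
          rw [← e, h3, h]
          rfl
        exact (hO1 _).mpr ⟨2, Or.inl (s.injective h')⟩
      · obtain ⟨i', rfl⟩ : ∃ i', i = i' + 1 := ⟨i - 1, by omega⟩
        have h' : s x = s ((s ^ i') v₀) := by
          rw [h, pow_succ']
          rfl
        exact (hO1 _).mpr ⟨i', Or.inl (s.injective h')⟩
    · have h' : s x = s (m ((s ^ (i + 1)) v₀)) := by
        have e : (s ^ (i + 1)) v₀ = s ((s ^ i) v₀) := by
          rw [pow_succ']
          rfl
        rw [h, hs (m ((s ^ (i + 1)) v₀)), hmm, e, hs ((s ^ i) v₀), hmm']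
      exact (hO1 _).mpr ⟨i + 1, Or.inr (s.injective h')⟩
  obtain ⟨p, -, hp⟩ := Finset.exists_mem_notMem_of_card_lt_card (s := O)
    (t := (Finset.univ : Finset (Fin 8))) (by rw [hOcard, Finset.card_univ, Fintype.card_fin]; norm_num)
  have hp1 : m p ∉ O := fun h => hp (hOm p h)
  have hp2 : s p ∉ O := fun h => hp (hOs p h)
  have hsm : s p ≠ m p := by
    intro h
    rw [hs] at h
    exact hm1' _ h
  have hc1 : (insert (s p) O).card = 7 := by
    rw [Finset.card_insert_of_notMem hp2, hOcard]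
  have hc2 : (insert (m p) (insert (s p) O)).card = 8 := by
    rw [Finset.card_insert_of_notMem, hc1]
    rw [Finset.mem_insert]
    rintro (h | h)
    · exact hsm h.symm
    · exact hp1 h
  have hc3 : (insert p (insert (m p) (insert (s p) O))).card = 9 := by
    rw [Finset.card_insert_of_notMem, hc2]
    rw [Finset.mem_insert, Finset.mem_insert]
    rintro (h | h | h)
    · exact hm1 p h.symm
    · exact hA p h.symm
    · exact hp h
  have hle := Finset.card_le_univ (insert p (insert (m p) (insert (s p) O)))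
  rw [hc3, Fintype.card_fin] at hle
  omega

/-- The structure of `s = m' m` when it is not an involution at `v₀`. -/
lemma dyn_half (hmm : ∀ v, m (m v) = v) (hm1 : ∀ v, m v ≠ v) (hmm' : ∀ v, m' (m' v) = v)
    (hm1' : ∀ v, m' v ≠ v) (hne : ∀ v, m v ≠ m' v) (hs : ∀ v, s v = m' (m v)) {v₀ : Fin 8}
    (hv₀ : (s ^ 2) v₀ ≠ v₀) :
    (∀ v, (s ^ 2) ((s ^ 2) v) = v) ∧ (∀ v, (s ^ 2) v ≠ v) ∧
      (∀ v, (s ^ 2) (m v) = m ((s ^ 2) v)) ∧ (∀ v, (s ^ 2) v ≠ m v) := by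
  have hA : ∀ v, s v ≠ v := by
    intro v h
    rw [hs] at h
    have h2 := congrArg m' h
    rw [hmm'] at h2
    exact hne v h2
  have h3 := dyn_no3 hmm hm1 hmm' hm1' hne hs hv₀
  have hfree : ∀ d, 1 ≤ d → d < 4 → (s ^ d) v₀ ≠ v₀ := by
    intro d h1 h2
    interval_cases d
    · rw [pow_one]
      exact hA v₀
    · exact hv₀
    · exact h3
  have hinj := dyn_inj hmm hm1 hmm' hm1' hs hfree
  have hbij : Function.Bijective (Sum.elim (fun i : Fin 4 => (s ^ (i : ℕ)) v₀)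
      (fun i : Fin 4 => m ((s ^ (i : ℕ)) v₀))) := by
    rw [Fintype.bijective_iff_injective_and_card]
    exact ⟨hinj, by rw [Fintype.card_sum, Fintype.card_fin, Fintype.card_fin]⟩
  have hall : ∀ v, ∃ i, i < 4 ∧ (v = (s ^ i) v₀ ∨ v = m ((s ^ i) v₀)) := by
    intro v
    obtain ⟨a, ha⟩ := hbij.2 v
    rcases a with i | i
    · exact ⟨i, i.2, Or.inl ha.symm⟩
    · exact ⟨i, i.2, Or.inr ha.symm⟩
  have hX := dyn_X hmm hm1 hmm' hm1' hs
  -- `s⁴` fixes `v₀`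
  have h4 : (s ^ 4) v₀ = v₀ := by
    obtain ⟨i, hi, h | h⟩ := hall ((s ^ 4) v₀)
    · have hi0 : i = 0 := by
        by_contra hne0
        obtain ⟨d, hd⟩ : ∃ d, 4 = i + d := ⟨4 - i, by omega⟩
        rw [hd, pow_add_apply' s i d v₀] at h
        have h2 := (s ^ i).injective h
        exact hfree d (by omega) (by omega) h2
      rw [hi0] at h
      exact h
    · exact absurd h (hX 4 i v₀)
  -- conjugation relation
  have hsm : ∀ x, s (m x) = m (s⁻¹ x) := by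
    intro x
    have e : s⁻¹ x = m (m' x) := by
      rw [Perm.inv_eq_iff_eq, hs, hmm, hmm']
    rw [e, hs, hmm, hmm]
  have hpow : ∀ (k : ℕ) (x : Fin 8), (s ^ k) (m x) = m ((s ^ k)⁻¹ x) := by
    intro k
    induction k with
    | zero =>
      intro x
      rfl
    | succ k ih =>
      intro x
      have e1 : (s ^ (k + 1)) (m x) = s ((s ^ k) (m x)) := by
        rw [pow_succ']
        rfl
      have e2 : (s ^ (k + 1))⁻¹ x = s⁻¹ ((s ^ k)⁻¹ x) := by
        rw [pow_succ, mul_inv_rev]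
        rfl
      rw [e1, ih, hsm, e2]
  have hfix : ∀ (k : ℕ) (u : Fin 8), (s ^ k) u = u → (s ^ k) (m u) = m u := by
    intro k u hu
    rw [hpow, Perm.inv_eq_iff_eq.mpr hu.symm]
  have hcomm : ∀ (k i : ℕ) (x : Fin 8), (s ^ k) ((s ^ i) x) = (s ^ i) ((s ^ k) x) := by
    intro k i x
    rw [← pow_add_apply, ← pow_add_apply, add_comm]
  have h4all : ∀ v, (s ^ 4) v = v := by
    intro v
    obtain ⟨i, -, h | h⟩ := hall v
    · rw [h, hcomm, h4]
    · rw [h]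
      apply hfix
      rw [hcomm, h4]
  have hsq : ∀ v, (s ^ 2) ((s ^ 2) v) = v := by
    intro v
    rw [← pow_add_apply]
    exact h4all v
  have hne2 : ∀ v, (s ^ 2) v ≠ v := by
    intro v hv
    have hbase : ∀ i : ℕ, (s ^ 2) ((s ^ i) v₀) ≠ (s ^ i) v₀ := by
      intro i h
      rw [hcomm] at h
      exact hv₀ ((s ^ i).injective h)
    obtain ⟨i, -, h | h⟩ := hall v
    · rw [h] at hv
      exact hbase i hv
    · rw [h, hpow] at hv
      have h5 := m.injective hv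
      rw [Perm.inv_eq_iff_eq] at h5
      exact hbase i h5.symm
  refine ⟨hsq, hne2, ?_, ?_⟩
  · intro v
    rw [hpow, Perm.inv_eq_iff_eq.mpr (hsq v).symm]
  · intro v h
    exact hX 2 0 v h

end Dyn

/-! ### Two labelled matchings -/

lemma f_swap (f : Fin 8 → Fin 4) {x y : Fin 8} (h : f x = f y) (u : Fin 8) :
    f (swap x y u) = f u := by
  by_cases hx : u = x
  · rw [hx, swap_apply_left]
    exact h.symm
  · by_cases hy : u = y
    · rw [hy, swap_apply_right]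
      exact h
    · rw [swap_apply_of_ne_of_ne hx hy]

/-- Two labelled matchings of eight points have a common non-trivial element in their
`K`-groups. -/
lemma core (f f' : Fin 8 → Fin 4) (hsj : Function.Surjective f) (hsj' : Function.Surjective f')
    (m m' : Perm (Fin 8))
    (hm1 : ∀ v, m v ≠ v) (hmm : ∀ v, m (m v) = v) (hm2 : ∀ v, f (m v) = f v)
    (hm3 : ∀ u v, f u = f v → u = v ∨ u = m v)
    (hm1' : ∀ v, m' v ≠ v) (hmm' : ∀ v, m' (m' v) = v) (hm2' : ∀ v, f' (m' v) = f' v)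
    (hm3' : ∀ u v, f' u = f' v → u = v ∨ u = m' v) :
    ∃ g : Perm (Fin 8), g ≠ 1 ∧ g ∈ Ksub f ∧ g ∈ Ksub f' := by
  by_cases hc1 : ∃ v, f' (m v) = f' v
  · obtain ⟨v, hv⟩ := hc1
    refine ⟨swap v (m v), ?_, mem_Ksub_of_fix (f_swap f (hm2 v).symm),
      mem_Ksub_of_fix (f_swap f' hv.symm)⟩
    intro h
    exact hm1 v (swap_eq_one_iff.mp h).symm
  push Not at hc1
  have hne : ∀ v, m v ≠ m' v := by
    intro v h
    apply hc1 v
    rw [h, hm2']
  by_cases hc2 : ∀ v, m (m' v) = m' (m v)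
  · refine ⟨m, ?_, mem_Ksub_of_fix hm2, mem_Ksub_of_inv hsj' hm2' hm3' hc2 hc1 ?_⟩
    · intro h
      apply hm1 0
      rw [h]
      rfl
    · intro v
      rw [hmm]
  push Not at hc2
  obtain ⟨v₀, hv₀⟩ := hc2
  obtain ⟨s, hs⟩ : ∃ s : Perm (Fin 8), ∀ v, s v = m' (m v) := ⟨m' * m, fun v => rfl⟩
  obtain ⟨t, ht⟩ : ∃ t : Perm (Fin 8), ∀ v, t v = m (m' v) := ⟨m * m', fun v => rfl⟩
  have hts : ∀ v, t (s v) = v := by
    intro v
    rw [hs, ht, hmm', hmm]
  have hst : ∀ v, s (t v) = v := by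
    intro v
    rw [ht, hs, hmm, hmm']
  have hsv : (s ^ 2) v₀ ≠ v₀ := by
    intro h
    rw [sq_apply] at h
    apply hv₀
    have h2 := congrArg t h
    rw [hts] at h2
    rw [← ht, ← hs]
    exact h2.symm
  have htv : (t ^ 2) v₀ ≠ v₀ := by
    intro h
    rw [sq_apply] at h
    apply hv₀
    have h2 := congrArg s h
    rw [hst] at h2
    rw [← ht, ← hs]
    exact h2
  obtain ⟨H1, H2, H3, H4⟩ := dyn_half hmm hm1 hmm' hm1' hne hs hsv
  obtain ⟨H1', H2', H3', H4'⟩ := dyn_half hmm' hm1' hmm hm1 (fun v => (hne v).symm) ht htv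
  have hK : s ^ 2 ∈ Ksub f := by
    refine mem_Ksub_of_inv hsj hm2 hm3 H3 ?_ ?_
    · intro v h
      rcases hm3 _ _ h with h' | h'
      · exact H2 v h'
      · exact H4 v h'
    · intro v
      rw [H1]
  have hK' : t ^ 2 ∈ Ksub f' := by
    refine mem_Ksub_of_inv hsj' hm2' hm3' H3' ?_ ?_
    · intro v h
      rcases hm3' _ _ h with h' | h'
      · exact H2' v h'
      · exact H4' v h'
    · intro v
      rw [H1']
  have hg : s ^ 2 = (t ^ 2)⁻¹ := by
    refine Equiv.ext fun v => ?_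
    rw [Perm.eq_inv_iff_eq, sq_apply, sq_apply, hts, hts]
  refine ⟨s ^ 2, fun h => hsv (by rw [h]; rfl), hK, ?_⟩
  rw [hg]
  exact (Ksub f').inv_mem hK'

/-! ### The standard matching and the Sylow argument -/

/-- The standard labelling `v ↦ ⌊v/2⌋`. -/
def f₀ : Fin 8 → Fin 4 := fun v => ⟨v.val / 2, by have := v.isLt; omega⟩

/-- The standard matching `(0 1)(2 3)(4 5)(6 7)`. -/
def m₀ : Perm (Fin 8) := swap 0 1 * swap 2 3 * swap 4 5 * swap 6 7

lemma f₀_surj : ∀ i : Fin 4, ∃ v : Fin 8, f₀ v = i := by decide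
lemma m₀_1 : ∀ v : Fin 8, m₀ v ≠ v := by decide
lemma m₀_mm : ∀ v : Fin 8, m₀ (m₀ v) = v := by decide
lemma m₀_2 : ∀ v : Fin 8, f₀ (m₀ v) = f₀ v := by decide
lemma m₀_3 : ∀ u v : Fin 8, f₀ u = f₀ v → u = v ∨ u = m₀ v := by decide

lemma isPGroup_K₀ : IsPGroup 2 ↥(Ksub f₀) := by
  intro g
  refine ⟨2, Subtype.ext ?_⟩
  rw [Subgroup.coe_pow]
  exact Ksub_pow_four m₀_1 m₀_mm m₀_2 m₀_3 g.2

/-- The conjugated matching data. -/
lemma conj_data (a : Perm (Fin 8)) :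
    Function.Surjective (f₀ ∘ ⇑a⁻¹) ∧ (∀ v, (a * m₀ * a⁻¹) v ≠ v) ∧
      (∀ v, (a * m₀ * a⁻¹) ((a * m₀ * a⁻¹) v) = v) ∧
      (∀ v, (f₀ ∘ ⇑a⁻¹) ((a * m₀ * a⁻¹) v) = (f₀ ∘ ⇑a⁻¹) v) ∧
      (∀ u v, (f₀ ∘ ⇑a⁻¹) u = (f₀ ∘ ⇑a⁻¹) v → u = v ∨ u = (a * m₀ * a⁻¹) v) := by
  have e : ∀ v, (a * m₀ * a⁻¹) v = a (m₀ (a⁻¹ v)) := fun v => rfl
  refine ⟨?_, ?_, ?_, ?_, ?_⟩
  · intro i
    obtain ⟨v, hv⟩ := f₀_surj i
    exact ⟨a v, by rw [Function.comp_apply, inv_app]; exact hv⟩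
  · intro v h
    rw [e] at h
    apply m₀_1 (a⁻¹ v)
    have h2 := congrArg (⇑a⁻¹) h
    rw [inv_app] at h2
    exact h2
  · intro v
    rw [e, e, inv_app, m₀_mm, app_inv]
  · intro v
    rw [Function.comp_apply, Function.comp_apply, e, inv_app, m₀_2]
  · intro u v h
    rw [Function.comp_apply, Function.comp_apply] at h
    rcases m₀_3 _ _ h with h' | h'
    · left
      exact a⁻¹.injective h'
    · right
      rw [e, ← h', app_inv]

/-- In the symmetric group on 8 letters any two Sylow 2-subgroups have non-trivial intersection: for a Sylow 2-subgroup H and every element x, H ∩ xHx⁻¹ ≠ 1. -/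
theorem result (H : Sylow 2 (Equiv.Perm (Fin 8))) (x : Equiv.Perm (Fin 8)) :
    (H : Subgroup (Equiv.Perm (Fin 8))) ⊓ (H : Subgroup (Equiv.Perm (Fin 8))).map (MulAut.conj x).toMonoidHom ≠ ⊥ := by
  have : Fact (Nat.Prime 2) := ⟨Nat.prime_two⟩
  obtain ⟨P₁, hP₁⟩ := isPGroup_K₀.exists_le_sylow
  obtain ⟨y, hy⟩ := MulAction.exists_smul_eq (Equiv.Perm (Fin 8)) P₁ H
  have hH : ∀ k ∈ (P₁ : Subgroup (Equiv.Perm (Fin 8))),
      y * k * y⁻¹ ∈ (H : Subgroup (Equiv.Perm (Fin 8))) := by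
    intro k hk
    rw [← hy]
    exact Subgroup.smul_mem_pointwise_smul k (MulAut.conj y)
      (P₁ : Subgroup (Equiv.Perm (Fin 8))) hk
  obtain ⟨hs1, hm1, hmm, hm2, hm3⟩ := conj_data y
  obtain ⟨hs1', hm1', hmm', hm2', hm3'⟩ := conj_data (x * y)
  obtain ⟨g, hg1, hgK, hgK'⟩ := core _ _ hs1 hs1' _ _ hm1 hmm hm2 hm3 hm1' hmm' hm2' hm3'
  have h1 : y⁻¹ * g * y ∈ Ksub f₀ := conj_mem_Ksub f₀ y g hgK
  have h2 : (x * y)⁻¹ * g * (x * y) ∈ Ksub f₀ := conj_mem_Ksub f₀ (x * y) g hgK'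
  have hgH : g ∈ (H : Subgroup (Equiv.Perm (Fin 8))) := by
    have e : g = y * (y⁻¹ * g * y) * y⁻¹ := by group
    rw [e]
    exact hH _ (hP₁ h1)
  have hgH' : g ∈ (H : Subgroup (Equiv.Perm (Fin 8))).map (MulAut.conj x).toMonoidHom := by
    refine Subgroup.mem_map.mpr ⟨y * ((x * y)⁻¹ * g * (x * y)) * y⁻¹, hH _ (hP₁ h2), ?_⟩
    show x * (y * ((x * y)⁻¹ * g * (x * y)) * y⁻¹) * x⁻¹ = g
    group
  intro hbot
  have hmem : g ∈ (H : Subgroup (Equiv.Perm (Fin 8))) ⊓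
      (H : Subgroup (Equiv.Perm (Fin 8))).map (MulAut.conj x).toMonoidHom :=
    Subgroup.mem_inf.mpr ⟨hgH, hgH'⟩
  rw [hbot] at hmem
  exact hg1 (Subgroup.mem_bot.mp hmem)

end Cfsg.Agent.S5763
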