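import Cfsg.Statements.S5885

set_option autoImplicit false
open Cfsg

namespace Cfsg.Agent.S5885

theorem exists_induce {G : Type*} [Group G] [Finite G] (n : ℕ)
    (hA : ∀ P : Subgroup (Equiv.Perm (Fin n)), MulAction.IsPreprimitive P (Fin n) →
      alternatingGroup (Fin n) ≤ P)
    (M : Subgroup G) (hM : IsCoatom M) (hn : M.index = n) [Fintype (G ⧸ M)] [DecidableEq (G ⧸ M)]
    (π : Equiv.Perm (G ⧸ M)) (hπ : Equiv.Perm.sign π = 1) :
    ∃ g : G, ∀ ω : G ⧸ M, g • ω = π ω := by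
  have hcard : Fintype.card (G ⧸ M) = n := by
    rw [← hn, Subgroup.index, Nat.card_eq_fintype_card]
  let e : (G ⧸ M) ≃ Fin n := Fintype.equivFinOfCardEq hcard
  have hnt : Nontrivial (G ⧸ M) := by
    rw [← Fintype.one_lt_card_iff_nontrivial, hcard, ← hn]
    have h1 : M.index ≠ 1 := fun h => hM.1 (Subgroup.index_eq_one.mp h)
    have h0 : M.index ≠ 0 := Subgroup.index_ne_zero_of_finite
    omega
  have hprim : MulAction.IsPreprimitive G (G ⧸ M) := by
    rw [← MulAction.isCoatom_stabilizer_iff_preprimitive (G := G) ((1 : G) : G ⧸ M),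
      MulAction.stabilizer_quotient]
    exact hM
  let P : Subgroup (Equiv.Perm (Fin n)) :=
    ((MulAction.toPermHom G (G ⧸ M)).range).map e.permCongrHom
  let φ : G → P := fun g => ⟨e.permCongrHom (MulAction.toPermHom G (G ⧸ M) g),
    Subgroup.mem_map_of_mem _ ⟨g, rfl⟩⟩
  let f : (G ⧸ M) →ₑ[φ] Fin n :=
    { toFun := e
      map_smul' := by
        intro g ω
        change e (g • ω) = (e.permCongrHom (MulAction.toPermHom G (G ⧸ M) g)) (e ω)
        simp }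
  have hP : MulAction.IsPreprimitive P (Fin n) :=
    MulAction.IsPreprimitive.of_surjective (f := f) e.surjective
  have hmem : e.permCongrHom π ∈ P := by
    apply hA P hP
    rw [Equiv.Perm.mem_alternatingGroup]
    change Equiv.Perm.sign (e.permCongr π) = 1
    rw [Equiv.Perm.sign_permCongr, hπ]
  obtain ⟨τ, ⟨g, rfl⟩, hτ⟩ := hmem
  have h2 := e.permCongrHom.injective hτ
  refine ⟨g, fun ω => ?_⟩
  rw [← h2]; rfl

theorem cyc_props {Ω : Type*} [DecidableEq Ω] [Fintype Ω] (a b c : Ω) (hab : a ≠ b) (hbc : b ≠ c)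
    (hca : c ≠ a) :
    Equiv.Perm.sign (Equiv.swap a b * Equiv.swap b c) = 1 ∧
    (Equiv.swap a b * Equiv.swap b c) a = b ∧ (Equiv.swap a b * Equiv.swap b c) b = c ∧
    ∀ ω, ω ≠ a → ω ≠ b → ω ≠ c → (Equiv.swap a b * Equiv.swap b c) ω = ω := by
  refine ⟨?_, ?_, ?_, ?_⟩
  · rw [Equiv.Perm.sign_mul, Equiv.Perm.sign_swap hab, Equiv.Perm.sign_swap hbc]; rfl
  · rw [Equiv.Perm.mul_apply, Equiv.swap_apply_of_ne_of_ne hab hca.symm, Equiv.swap_apply_left]
  · rw [Equiv.Perm.mul_apply, Equiv.swap_apply_left, Equiv.swap_apply_of_ne_of_ne hca hbc.symm]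
  · intro ω h1 h2 h3
    rw [Equiv.Perm.mul_apply, Equiv.swap_apply_of_ne_of_ne h2 h3, Equiv.swap_apply_of_ne_of_ne h1 h2]

/-- Let n be an odd positive integer such that every primitive permutation group of degree n contains the alternating group (so the symmetric and alternating groups are the only primitive groups of degree n). Let G be a finite group, M a maximal subgroup of G of index n, and H a maximal subgroup of M. Then H is a second maximal subgroup of G: H is maximal in every maximal subgroup K of G containing H. -/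
theorem result {G : Type*} [Group G]
    [Finite G] (n : ℕ) (hodd : Odd n)
    (hA : ∀ P : Subgroup (Equiv.Perm (Fin n)), MulAction.IsPreprimitive P (Fin n) → alternatingGroup (Fin n) ≤ P)
    (M : Subgroup G) (hM : IsCoatom M) (hn : M.index = n) (H : Subgroup G) (hHM : H ≤ M)
    (hmax : IsCoatom (H.subgroupOf M)) (K : Subgroup G) (hK : IsCoatom K) (hHK : H ≤ K) :
    IsCoatom (H.subgroupOf K) := by
  classical
  have : Fintype (G ⧸ M) := Fintype.ofFinite _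
  have hcard : Fintype.card (G ⧸ M) = n := by
    rw [← hn, Subgroup.index, Nat.card_eq_fintype_card]
  have hstab : ∀ g : G, g • ((1 : G) : G ⧸ M) = ((1 : G) : G ⧸ M) ↔ g ∈ M := by
    intro g
    rw [← MulAction.mem_stabilizer_iff, MulAction.stabilizer_quotient]
  obtain ⟨α, hα⟩ : ∃ α : G ⧸ M, ∀ g : G, g • α = α ↔ g ∈ M := ⟨_, hstab⟩
  clear hstab
  by_cases hKM : K = M
  · subst hKM; exact hmax
  have hinter : ∀ g, g ∈ K → g ∈ M → g ∈ H := by
    intro g hgK hgM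
    by_contra hgH
    have h1 : H.subgroupOf M < (K ⊓ M).subgroupOf M := by
      refine lt_of_le_of_ne ?_ ?_
      · intro x hx
        exact ⟨hHK hx, x.2⟩
      · intro heq
        have : (⟨g, hgM⟩ : M) ∈ (K ⊓ M).subgroupOf M := ⟨hgK, hgM⟩
        rw [← heq] at this
        exact hgH this
    have h2 := hmax.2 _ h1
    have h3 : M ≤ K ⊓ M := Subgroup.subgroupOf_eq_top.mp h2
    have h4 : M ≤ K := h3.trans inf_le_left
    rcases eq_or_lt_of_le h4 with h5 | h5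
    · exact hKM h5.symm
    · exact hK.1 (hM.2 _ h5)
  constructor
  · intro htop
    have h1 : K ≤ H := Subgroup.subgroupOf_eq_top.mp htop
    have h2 : K ≤ M := h1.trans hHM
    rcases eq_or_lt_of_le h2 with h5 | h5
    · exact hKM h5
    · exact hM.1 (hK.2 _ h5)
  intro L' hL'
  rw [eq_top_iff]
  have hLK : ∀ l, l ∈ L'.map K.subtype → l ∈ K := by
    rintro _ ⟨x, -, rfl⟩; exact x.2
  have hHL : ∀ h, h ∈ H → h ∈ L'.map K.subtype := by
    intro h hh
    exact ⟨⟨h, hHK hh⟩, hL'.le (Subgroup.mem_subgroupOf.mpr hh), rfl⟩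
  obtain ⟨x₀, hx₀L, hx₀H⟩ := SetLike.exists_of_lt hL'
  obtain ⟨l₀, hl₀L, hl₀H⟩ : ∃ l₀ : G, l₀ ∈ L'.map K.subtype ∧ l₀ ∉ H :=
    ⟨x₀, ⟨x₀, hx₀L, rfl⟩, fun h => hx₀H (Subgroup.mem_subgroupOf.mpr h)⟩
  suffices hsuff : ∀ k, k ∈ K → k ∈ L'.map K.subtype by
    intro k _
    obtain ⟨y, hy, hyk⟩ := hsuff k k.2
    have : y = k := Subtype.ext hyk
    rw [← this]; exact hy
  obtain ⟨L, hLdef⟩ : ∃ L : Subgroup G, L = L'.map K.subtype := ⟨_, rfl⟩
  rw [← hLdef] at hLK hHL hl₀L ⊢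
  clear hLdef hx₀L hx₀H x₀ hL' L'
  let B : Set (G ⧸ M) := {ω | ∃ l ∈ L, l • α = ω}
  have hBL : ∀ k, k ∈ K → k • α ∈ B → k ∈ L := by
    rintro k hk ⟨l, hl, hlk⟩
    have h1 : (l⁻¹ * k) • α = α := by
      rw [mul_smul, ← hlk, inv_smul_smul]
    have h2 : l⁻¹ * k ∈ H := hinter _ (K.mul_mem (K.inv_mem (hLK l hl)) hk) ((hα _).mp h1)
    have h3 : l * (l⁻¹ * k) ∈ L := L.mul_mem hl (hHL _ h2)
    simpa using h3
  by_contra hcon
  push Not at hcon
  obtain ⟨k₁, hk₁K, hk₁L⟩ := hcon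
  have hyB : k₁ • α ∉ B := fun h => hk₁L (hBL k₁ hk₁K h)
  have hαB : α ∈ B := ⟨1, L.one_mem, one_smul _ _⟩
  have hxB : l₀ • α ∈ B := ⟨l₀, hl₀L, rfl⟩
  have hxα : l₀ • α ≠ α := fun h => hl₀H (hinter _ (hLK _ hl₀L) ((hα _).mp h))
  have hdisj : ∀ ω, ω ∈ B → k₁ • ω ∉ B := by
    rintro _ ⟨l, hl, rfl⟩ ⟨l', hl', h⟩
    have h1 : (l'⁻¹ * (k₁ * l)) • α = α := by
      rw [mul_smul, mul_smul, ← h, inv_smul_smul]
    have h2 : l'⁻¹ * (k₁ * l) ∈ H :=
      hinter _ (K.mul_mem (K.inv_mem (hLK _ hl')) (K.mul_mem hk₁K (hLK _ hl))) ((hα _).mp h1)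
    have h3 : l' * (l'⁻¹ * (k₁ * l)) * l⁻¹ ∈ L :=
      L.mul_mem (L.mul_mem hl' (hHL _ h2)) (L.inv_mem hl)
    have h4 : l' * (l'⁻¹ * (k₁ * l)) * l⁻¹ = k₁ := by group
    rw [h4] at h3
    exact hk₁L h3
  obtain ⟨z, hzB, hzB'⟩ : ∃ z : G ⧸ M, z ∉ B ∧ ∀ ω, ω ∈ B → k₁ • ω ≠ z := by
    by_contra hno
    push Not at hno
    let Bf : Finset (G ⧸ M) := Finset.univ.filter (· ∈ B)
    have hBf : ∀ ω, ω ∈ Bf ↔ ω ∈ B := by intro ω; simp [Bf]
    have h1 : (Finset.univ : Finset (G ⧸ M)) = Bf ∪ Bf.image (fun ω => k₁ • ω) := by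
      ext z
      simp only [Finset.mem_univ, Finset.mem_union, Finset.mem_image, true_iff]
      by_cases hz : z ∈ B
      · left; exact (hBf z).mpr hz
      · right
        obtain ⟨ω, hω, hωz⟩ := hno z hz
        exact ⟨ω, (hBf ω).mpr hω, hωz⟩
    have h2 : Disjoint Bf (Bf.image (fun ω => k₁ • ω)) := by
      rw [Finset.disjoint_left]
      intro z hz hz'
      obtain ⟨ω, hω, rfl⟩ := Finset.mem_image.mp hz'
      exact hdisj ω ((hBf ω).mp hω) ((hBf _).mp hz)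
    have h3 : (Bf.image (fun ω => k₁ • ω)).card = Bf.card :=
      Finset.card_image_of_injective _ (MulAction.injective k₁)
    have h4 : Fintype.card (G ⧸ M) = 2 * Bf.card := by
      rw [← Finset.card_univ, h1, Finset.card_union_of_disjoint h2, h3]; ring
    rw [hcard] at h4
    rcases hodd with ⟨m, hm⟩
    omega
  -- g₁ : y ↦ k₁•x ↦ z ↦ y
  have hy_kx : k₁ • α ≠ k₁ • l₀ • α := fun h => hxα (MulAction.injective k₁ h).symm
  have hkx_z : k₁ • l₀ • α ≠ z := hzB' _ hxB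
  have hz_y : z ≠ k₁ • α := fun h => hzB' α hαB h.symm
  obtain ⟨s1, s2, s3, s4⟩ := cyc_props (k₁ • α) (k₁ • l₀ • α) z hy_kx hkx_z hz_y
  obtain ⟨g₁, hg₁⟩ := exists_induce n hA M hM hn _ s1
  have hg₁B : ∀ ω, ω ∈ B → g₁ • ω = ω := by
    intro ω hω
    rw [hg₁]
    apply s4
    · rintro rfl; exact hyB hω
    · rintro rfl; exact hdisj _ hxB hω
    · rintro rfl; exact hzB hω
  have hg₁M : g₁ ∈ M := (hα g₁).mp (hg₁B α hαB)
  have hg₁H : g₁ ∉ H := by
    intro hg₁H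
    have h1 : (l₀⁻¹ * (k₁⁻¹ * (g₁ * k₁))) • α = α := by
      rw [mul_smul, mul_smul, mul_smul, hg₁, s2, inv_smul_smul, inv_smul_smul]
    have h2 : l₀⁻¹ * (k₁⁻¹ * (g₁ * k₁)) ∈ H :=
      hinter _ (K.mul_mem (K.inv_mem (hLK _ hl₀L))
        (K.mul_mem (K.inv_mem hk₁K) (K.mul_mem (hHK hg₁H) hk₁K))) ((hα _).mp h1)
    have h3 : k₁⁻¹ * (g₁ * k₁) ∈ L := by
      have := L.mul_mem hl₀L (hHL _ h2)
      simpa using this
    have h4 : k₁ • ((k₁⁻¹ * (g₁ * k₁) * l₀) • α) = z := by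
      rw [← mul_smul]
      have : k₁ * (k₁⁻¹ * (g₁ * k₁) * l₀) = g₁ * (k₁ * l₀) := by group
      rw [this, mul_smul, mul_smul, hg₁, s3]
    exact hzB' _ ⟨_, L.mul_mem h3 hl₀L, rfl⟩ h4
  let J : Subgroup G :=
    { carrier := {g | ∀ ω, g • ω ∈ B ↔ ω ∈ B}
      mul_mem' := by
        intro a b ha hb ω
        rw [mul_smul, ha, hb]
      one_mem' := by intro ω; rw [one_smul]
      inv_mem' := by
        intro a ha ω
        rw [← ha, smul_inv_smul] }
  have hHJ : ∀ h, h ∈ H → h ∈ J := by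
    intro h hh ω
    constructor
    · rintro ⟨l, hl, hlω⟩
      refine ⟨h⁻¹ * l, L.mul_mem (L.inv_mem (hHL _ hh)) hl, ?_⟩
      rw [mul_smul, hlω, inv_smul_smul]
    · rintro ⟨l, hl, rfl⟩
      exact ⟨h * l, L.mul_mem (hHL _ hh) hl, mul_smul _ _ _⟩
  have hg₁J : g₁ ∈ J := by
    intro ω
    constructor
    · intro h
      have h1 := hg₁B _ h
      have h2 := MulAction.injective g₁ h1
      rw [← h2]; exact h
    · intro h; rw [hg₁B _ h]; exact h
  have hMJ : M ≤ J := by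
    have h1 : H.subgroupOf M < (J ⊓ M).subgroupOf M := by
      refine lt_of_le_of_ne ?_ ?_
      · intro x hx
        exact ⟨hHJ _ hx, x.2⟩
      · intro heq
        have : (⟨g₁, hg₁M⟩ : M) ∈ (J ⊓ M).subgroupOf M := ⟨hg₁J, hg₁M⟩
        rw [← heq] at this
        exact hg₁H this
    have h2 := hmax.2 _ h1
    exact (Subgroup.subgroupOf_eq_top.mp h2).trans inf_le_left
  -- m : x ↦ y ↦ z ↦ x
  have hx_y : l₀ • α ≠ k₁ • α := fun h => hyB (h ▸ hxB)
  have hy_z : k₁ • α ≠ z := hzB' α hαB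
  have hz_x : z ≠ l₀ • α := fun h => hzB (h ▸ hxB)
  obtain ⟨t1, t2, t3, t4⟩ := cyc_props (l₀ • α) (k₁ • α) z hx_y hy_z hz_x
  obtain ⟨m, hm⟩ := exists_induce n hA M hM hn _ t1
  have hmM : m ∈ M := by
    rw [← hα, hm]
    apply t4
    · exact fun h => hxα h.symm
    · intro h; exact hyB (h ▸ hαB)
    · intro h; exact hzB (h ▸ hαB)
  have h5 := (hMJ hmM (l₀ • α)).mpr hxB
  rw [hm, t2] at h5
  exact hyB h5

end Cfsg.Agent.S5885
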