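import Cfsg.Statements.S5894
import Cfsg.Agent.Helper29.Wreath

set_option autoImplicit false
open Cfsg

namespace Cfsg.Agent.S5894

open Cfsg.Agent.Helper29 in
theorem isCoatom_map_range {A B : Type*} [Group A] [Group B] (φ : A →* B)
    (hφ : Function.Injective φ) (X : Subgroup A) (hX : IsCoatom X) :
    IsCoatom ((X.map φ).subgroupOf φ.range) := by
  have h1 : IsCoatom (X.map (MonoidHom.ofInjective hφ).toMonoidHom) :=
    (OrderIso.isCoatom_iff (MulEquiv.mapSubgroup (MonoidHom.ofInjective hφ)) X).mpr hX
  convert h1 using 1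
  ext ⟨y, hy⟩
  simp only [Subgroup.mem_subgroupOf, Subgroup.mem_map]
  constructor
  · rintro ⟨x, hx, hxy⟩
    exact ⟨x, hx, Subtype.ext hxy⟩
  · rintro ⟨x, hx, hxy⟩
    exact ⟨x, hx, congrArg Subtype.val hxy⟩

theorem fin2_eq_of_zero_iff : ∀ a b : Fin 2, (a = 0 ↔ b = 0) → a = b := by decide

open Cfsg.Agent.Helper29 in
open scoped Pointwise in
theorem aux {Ω : Type*} [Fintype Ω] [DecidableEq Ω] (m : ℕ) (hm : 2 ≤ m) (f : Ω → Fin 2)
    (hf : ∀ i, Nat.card {x // f x = i} = m) (hΩ : Nat.card Ω = 2 * m)
    (z0 z1 : Ω) (h01 : z0 ≠ z1) (hz0 : f z0 = 0) (hz1 : f z1 = 0) :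
    ∃ M H K : Subgroup (Equiv.Perm Ω), IsCoatom M ∧ M.index = Nat.card Ω ∧ H ≤ M ∧
      IsCoatom (H.subgroupOf M) ∧ IsCoatom K ∧ H ≤ K ∧ ¬ IsCoatom (H.subgroupOf K) := by
  have hnt : Nontrivial Ω := ⟨⟨z0, z1, h01⟩⟩
  let T : Subgroup (Equiv.Perm Ω) :=
    { carrier := {σ | ∀ x, f (σ x) = f x}
      mul_mem' := by
        intro a b ha hb x
        rw [Equiv.Perm.mul_apply, ha, hb]
      one_mem' := fun x => rfl
      inv_mem' := by
        intro a ha x
        have := ha (a⁻¹ x)
        rw [← this]
        simp }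
  have hT : ∀ σ : Equiv.Perm Ω, σ ∈ T ↔ ∀ x, f (σ x) = f x := fun σ => Iff.rfl
  have hMmem : ∀ σ : Equiv.Perm Ω, σ ∈ MulAction.stabilizer (Equiv.Perm Ω) z0 ↔ σ z0 = z0 :=
    fun σ => MulAction.mem_stabilizer_iff
  refine ⟨MulAction.stabilizer (Equiv.Perm Ω) z0, MulAction.stabilizer (Equiv.Perm Ω) z0 ⊓ T,
    partStab f, ?_, ?_, inf_le_left, ?_, isCoatom_partStab f m hm hf, ?_, ?_⟩
  · exact (MulAction.isCoatom_stabilizer_iff_preprimitive (G := Equiv.Perm Ω) z0).mpr inferInstance
  · exact MulAction.index_stabilizer_of_transitive (Equiv.Perm Ω) z0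
  · -- H maximal in M
    let p : Ω → Prop := fun x => ¬ (x = z0)
    let φ : Equiv.Perm {x // p x} →* Equiv.Perm Ω := Equiv.Perm.ofSubtype
    let S' : Set {x // p x} := {x | f x.1 = 0}
    obtain ⟨y, -, -, hy, -⟩ := exists_pair_fibre f m hm hf 1
    have hyp : p y := by
      intro h
      rw [h, hz0] at hy
      exact absurd hy (by decide)
    have hcard : Nat.card {x // p x} ≠ 2 * S'.ncard := by
      have h1 : Nat.card {x // p x} = Nat.card Ω - 1 := by
        rw [Nat.card_eq_fintype_card, Nat.card_eq_fintype_card, Fintype.card_subtype_compl,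
          Fintype.card_subtype_eq]
      rw [h1, hΩ]
      omega
    have hX : IsCoatom (MulAction.stabilizer (Equiv.Perm {x // p x}) S') :=
      Equiv.Perm.isCoatom_stabilizer ⟨⟨z1, fun h => h01 h.symm⟩, hz1⟩
        ⟨⟨y, hyp⟩, fun h => by
          have h' : f y = 0 := h
          rw [hy] at h'
          exact absurd h' (by decide)⟩ hcard
    have key := isCoatom_map_range φ Equiv.Perm.ofSubtype_injective _ hX
    have hσ1 : ∀ σ : Equiv.Perm Ω, σ z0 = z0 → ∀ x, p (σ x) ↔ p x := by
      intro σ hσ x
      change ¬ (σ x = z0) ↔ ¬ (x = z0)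
      rw [not_iff_not]
      constructor
      · intro h
        exact σ.injective (h.trans hσ.symm)
      · intro h
        rw [h, hσ]
    have hσ2 : ∀ σ : Equiv.Perm Ω, σ z0 = z0 → ∀ x, σ x ≠ x → p x := by
      intro σ hσ x hx h
      rw [h] at hx
      exact hx hσ
    have hrange : φ.range = MulAction.stabilizer (Equiv.Perm Ω) z0 := by
      ext σ
      rw [hMmem]
      constructor
      · rintro ⟨τ, rfl⟩
        exact Equiv.Perm.ofSubtype_apply_of_not_mem τ (fun h => h rfl)
      · intro hσ
        exact ⟨σ.subtypePerm (hσ1 σ hσ), Equiv.Perm.ofSubtype_subtypePerm (hσ1 σ hσ) (hσ2 σ hσ)⟩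
    have hmap : (MulAction.stabilizer (Equiv.Perm {x // p x}) S').map φ
        = MulAction.stabilizer (Equiv.Perm Ω) z0 ⊓ T := by
      ext σ
      rw [Subgroup.mem_inf, hMmem, hT]
      constructor
      · rintro ⟨τ, hτ, rfl⟩
        rw [SetLike.mem_coe, MulAction.mem_stabilizer_set] at hτ
        refine ⟨Equiv.Perm.ofSubtype_apply_of_not_mem τ (fun h => h rfl), fun x => ?_⟩
        by_cases hx : x = z0
        · have : φ τ x = x := by
            rw [hx]; exact Equiv.Perm.ofSubtype_apply_of_not_mem τ (fun h => h rfl)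
          rw [this]
        · have h1 : φ τ x = τ ⟨x, hx⟩ := Equiv.Perm.ofSubtype_apply_of_mem τ hx
          rw [h1]
          exact fin2_eq_of_zero_iff _ _ (hτ ⟨x, hx⟩)
      · rintro ⟨hσ, hσT⟩
        refine ⟨σ.subtypePerm (hσ1 σ hσ), ?_,
          Equiv.Perm.ofSubtype_subtypePerm (hσ1 σ hσ) (hσ2 σ hσ)⟩
        rw [SetLike.mem_coe, MulAction.mem_stabilizer_set]
        intro b
        change f (σ b.1) = 0 ↔ f b.1 = 0
        rw [hσT]
    rw [hrange, hmap] at key
    exact key
  · -- H ≤ K
    intro σ hσ
    have h2 := (hT σ).mp hσ.2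
    rw [mem_partStab]
    intro x y
    rw [h2, h2]
  · -- not maximal in K
    intro hc
    have hsw : ∀ x, f (Equiv.swap z0 z1 x) = f x := by
      intro x
      by_cases h0 : x = z0
      · rw [h0, Equiv.swap_apply_left, hz0, hz1]
      · by_cases h1 : x = z1
        · rw [h1, Equiv.swap_apply_right, hz0, hz1]
        · rw [Equiv.swap_apply_of_ne_of_ne h0 h1]
    have hswK : Equiv.swap z0 z1 ∈ partStab f := by
      rw [mem_partStab]
      intro x y
      rw [hsw, hsw]
    have h1 : (MulAction.stabilizer (Equiv.Perm Ω) z0 ⊓ T).subgroupOf (partStab f)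
        < T.subgroupOf (partStab f) := by
      refine lt_of_le_of_ne ?_ ?_
      · intro x hx
        exact hx.2
      · intro heq
        have h3 : (⟨Equiv.swap z0 z1, hswK⟩ : partStab f) ∈ T.subgroupOf (partStab f) := hsw
        rw [← heq] at h3
        have h4 : Equiv.swap z0 z1 z0 = z0 := (hMmem _).mp h3.1
        rw [Equiv.swap_apply_left] at h4
        exact h01 h4.symm
    have h2 : partStab f ≤ T := Subgroup.subgroupOf_eq_top.mp (hc.2 _ h1)
    obtain ⟨e⟩ := exists_fibre_equiv f m hf 0 1
    obtain ⟨σ, hσ, hσ1, -, -⟩ := exists_fibreSwap f (by decide : (0 : Fin 2) ≠ 1) e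
    have h5 := (hT σ).mp (h2 hσ) z0
    rw [hσ1 z0 hz0, (e ⟨z0, hz0⟩).2, hz0] at h5
    exact absurd h5 (by decide)

/-- For every m ≥ 2 the symmetric group on 2m letters has a maximal subgroup M of index 2m together with a maximal subgroup H of M that is not second maximal: some maximal subgroup K of the symmetric group contains H without H being maximal in K. (One may take M the stabiliser of a letter, H ≅ S_m × S_{m−1} inside it, and K ≅ S_m ≀ S₂ the stabiliser of a partition into two m-sets, with H < S_m × S_m < K.) So the prime-index hypothesis in the second-maximality criterion cannot be relaxed to any even index ≥ 4. -/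
theorem result (m : ℕ) (hm : 2 ≤ m) :
    ∃ M H K : Subgroup (Equiv.Perm (Fin (2 * m))), IsCoatom M ∧ M.index = 2 * m ∧ H ≤ M ∧ IsCoatom (H.subgroupOf M) ∧
      IsCoatom K ∧ H ≤ K ∧ ¬ IsCoatom (H.subgroupOf K) := by
  classical
  have hcard : Nat.card (Fin (2 * m)) = 2 * m := by simp
  let f : Fin (2 * m) → Fin 2 := fun i => if i.val < m then 0 else 1
  have hf : ∀ i, Nat.card {x // f x = i} = m := by
    intro i
    have hi : i = 0 ∨ i = 1 := by
      revert i; decide
    rcases hi with rfl | rfl
    · have e : {x : Fin (2 * m) // f x = 0} ≃ Fin m :=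
        { toFun := fun x => ⟨x.1.val, by
            have h := x.2
            by_contra hlt
            simp only [f, if_neg hlt] at h
            exact absurd h (by decide)⟩
          invFun := fun i => ⟨⟨i.val, by omega⟩, by simp [f]⟩
          left_inv := fun x => by simp
          right_inv := fun i => by simp }
      rw [Nat.card_congr e, Nat.card_fin]
    · have e : {x : Fin (2 * m) // f x = 1} ≃ Fin m :=
        { toFun := fun x => ⟨x.1.val - m, by
            have h := x.2
            have h2 := x.1.isLt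
            have hge : ¬ x.1.val < m := by
              intro hlt
              simp only [f, if_pos hlt] at h
              exact absurd h (by decide)
            omega⟩
          invFun := fun i => ⟨⟨i.val + m, by omega⟩, by simp [f]⟩
          left_inv := fun x => by
            have h := x.2
            have hge : ¬ x.1.val < m := by
              intro hlt
              simp only [f, if_pos hlt] at h
              exact absurd h (by decide)
            apply Subtype.ext
            apply Fin.ext
            simp only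
            omega
          right_inv := fun i => by simp }
      rw [Nat.card_congr e, Nat.card_fin]
  have h := aux m hm f hf hcard ⟨0, by omega⟩ ⟨1, by omega⟩ (by simp [Fin.ext_iff])
    (by simp [f]; omega) (by simp [f]; omega)
  rw [hcard] at h
  exact h

end Cfsg.Agent.S5894
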