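import Cfsg.Statements.S5895
import Cfsg.Agent.Helper29.Coatom

set_option autoImplicit false
open Cfsg

namespace Cfsg.Agent.S5895

open Cfsg.Agent.Helper29 in
theorem semidirect_example {V Q : Type} [Group V] [Group Q] [Finite V] [Finite Q]
    (φ : Q →* MulAut V)
    (hirr : ∀ A : Subgroup V, (∀ c : Q, ∀ v ∈ A, φ c v ∈ A) → A = ⊥ ∨ A = ⊤)
    (hV : Nontrivial V)
    (H₀ : Subgroup Q) (hH₀ : IsCoatom H₀)
    (W : Subgroup V) (hW : ∀ c ∈ H₀, ∀ v ∈ W, φ c v ∈ W) (hWb : W ≠ ⊥) (hWt : W ≠ ⊤) :
    ∃ (M H K : Subgroup (V ⋊[φ] Q)), IsCoatom M ∧ M.index = Nat.card V ∧ H ≤ M ∧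
      IsCoatom (H.subgroupOf M) ∧ IsCoatom K ∧ H ≤ K ∧ ¬ IsCoatom (H.subgroupOf K) := by
  classical
  refine ⟨SemidirectProduct.inr.range, H₀.map SemidirectProduct.inr,
    H₀.comap SemidirectProduct.rightHom, ?_, ?_, ?_, ?_, ?_, ?_, ?_⟩
  · constructor
    · intro htop
      obtain ⟨v, hv⟩ := exists_ne (1 : V)
      have h1 : (SemidirectProduct.inl v : V ⋊[φ] Q) ∈
          (SemidirectProduct.inr : Q →* V ⋊[φ] Q).range := by rw [htop]; trivial
      obtain ⟨c, hc⟩ := h1
      have h2 := congrArg SemidirectProduct.left hc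
      rw [SemidirectProduct.left_inr, SemidirectProduct.left_inl] at h2
      exact hv h2.symm
    · intro X hX
      have hinr : ∀ c : Q, (SemidirectProduct.inr c : V ⋊[φ] Q) ∈ X := fun c => hX.le ⟨c, rfl⟩
      let A : Subgroup V := X.comap SemidirectProduct.inl
      have hAinv : ∀ c : Q, ∀ v ∈ A, φ c v ∈ A := by
        intro c v hv
        change SemidirectProduct.inl (φ c v) ∈ X
        rw [SemidirectProduct.inl_aut]
        exact X.mul_mem (X.mul_mem (hinr c) hv) (hinr c⁻¹)
      obtain ⟨⟨v, c⟩, hgX, hg⟩ := SetLike.exists_of_lt hX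
      rw [SemidirectProduct.mk_eq_inl_mul_inr] at hgX hg
      have hv : (SemidirectProduct.inl v : V ⋊[φ] Q) ∈ X := by
        have := X.mul_mem hgX (X.inv_mem (hinr c))
        rwa [mul_inv_cancel_right] at this
      have hAne : A ≠ ⊥ := by
        intro hA
        have h4 : v ∈ A := hv
        rw [hA, Subgroup.mem_bot] at h4
        apply hg
        rw [h4, map_one, one_mul]
        exact ⟨c, rfl⟩
      have hAtop : A = ⊤ := (hirr A hAinv).resolve_left hAne
      rw [eq_top_iff]
      rintro ⟨v', c'⟩ -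
      rw [SemidirectProduct.mk_eq_inl_mul_inr]
      have : v' ∈ A := by rw [hAtop]; trivial
      exact X.mul_mem this (hinr c')
  · have h1 := Subgroup.card_mul_index (SemidirectProduct.inr : Q →* V ⋊[φ] Q).range
    rw [SemidirectProduct.card] at h1
    have h2 : Nat.card (SemidirectProduct.inr : Q →* V ⋊[φ] Q).range = Nat.card Q :=
      (Nat.card_congr (MonoidHom.ofInjective SemidirectProduct.inr_injective).toEquiv).symm
    rw [h2, mul_comm] at h1
    exact Nat.eq_of_mul_eq_mul_right Nat.card_pos h1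
  · exact Subgroup.map_le_range _ _
  · exact isCoatom_map_range SemidirectProduct.inr SemidirectProduct.inr_injective H₀ hH₀
  · exact Subgroup.isCoatom_comap_of_surjective SemidirectProduct.rightHom_surjective hH₀
  · rintro _ ⟨c, hc, rfl⟩
    rw [Subgroup.mem_comap, SemidirectProduct.rightHom_inr]
    exact hc
  · let L : Subgroup (V ⋊[φ] Q) :=
      { carrier := {g | g.left ∈ W ∧ g.right ∈ H₀}
        mul_mem' := by
          rintro a b ⟨ha1, ha2⟩ ⟨hb1, hb2⟩
          exact ⟨W.mul_mem ha1 (hW _ ha2 _ hb1), H₀.mul_mem ha2 hb2⟩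
        one_mem' := ⟨W.one_mem, H₀.one_mem⟩
        inv_mem' := by
          rintro a ⟨ha1, ha2⟩
          exact ⟨hW _ (H₀.inv_mem ha2) _ (W.inv_mem ha1), H₀.inv_mem ha2⟩ }
    have hLmem : ∀ g : V ⋊[φ] Q, g ∈ L ↔ g.left ∈ W ∧ g.right ∈ H₀ := fun g => Iff.rfl
    obtain ⟨w, hw, hw1⟩ : ∃ w ∈ W, w ≠ 1 := by
      by_contra hcon
      push Not at hcon
      exact hWb ((Subgroup.eq_bot_iff_forall W).mpr hcon)
    obtain ⟨u, hu⟩ : ∃ u, u ∉ W := by
      by_contra hcon
      push Not at hcon
      exact hWt (eq_top_iff.mpr (fun x _ => hcon x))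
    apply not_isCoatom_subgroupOf_of_lt_of_lt (L := L)
    · refine lt_of_le_of_ne ?_ ?_
      · rintro _ ⟨c, hc, rfl⟩
        rw [hLmem, SemidirectProduct.left_inr, SemidirectProduct.right_inr]
        exact ⟨W.one_mem, hc⟩
      · intro heq
        have h1 : (SemidirectProduct.inl w : V ⋊[φ] Q) ∈ L := by
          rw [hLmem, SemidirectProduct.left_inl, SemidirectProduct.right_inl]
          exact ⟨hw, H₀.one_mem⟩
        rw [← heq] at h1
        obtain ⟨c, -, hc⟩ := h1
        have h2 := congrArg SemidirectProduct.left hc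
        rw [SemidirectProduct.left_inr, SemidirectProduct.left_inl] at h2
        exact hw1 h2.symm
    · refine lt_of_le_of_ne ?_ ?_
      · intro g hg
        exact hg.2
      · intro heq
        have h1 : (SemidirectProduct.inl u : V ⋊[φ] Q) ∈ H₀.comap SemidirectProduct.rightHom := by
          rw [Subgroup.mem_comap, SemidirectProduct.rightHom_inl]
          exact H₀.one_mem
        rw [← heq, hLmem, SemidirectProduct.left_inl] at h1
        exact hu h1.1

/-- multiplication action of the units on the additive group, multiplicatively written -/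
def actHom (F : Type*) [Field F] : Fˣ →* MulAut (Multiplicative F) where
  toFun c :=
    { toFun := fun x => Multiplicative.ofAdd ((c : F) * Multiplicative.toAdd x)
      invFun := fun x => Multiplicative.ofAdd (((c⁻¹ : Fˣ) : F) * Multiplicative.toAdd x)
      left_inv := fun x => by simp
      right_inv := fun x => by simp
      map_mul' := fun x y => by simp [mul_add] }
  map_one' := by ext x; simp
  map_mul' a b := by ext x; simp [mul_assoc]

theorem actHom_apply {F : Type*} [Field F] (c : Fˣ) (x : Multiplicative F) :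
    actHom F c x = Multiplicative.ofAdd ((c : F) * Multiplicative.toAdd x) := rfl

def Irr (F : Type*) [Field F] (R : Subgroup Fˣ) : Prop :=
  ∀ A : Subgroup (Multiplicative F), (∀ c ∈ R, ∀ v ∈ A, actHom F c v ∈ A) → A = ⊥ ∨ A = ⊤

theorem irr_top (F : Type*) [Field F] : Irr F ⊤ := by
  intro A hA
  by_cases hAb : A = ⊥
  · exact Or.inl hAb
  right
  obtain ⟨w, hw, hw1⟩ : ∃ w ∈ A, w ≠ 1 := by
    by_contra hcon
    push Not at hcon
    exact hAb ((Subgroup.eq_bot_iff_forall A).mpr hcon)
  have hw0 : Multiplicative.toAdd w ≠ 0 := by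
    intro h
    apply hw1
    have : w = Multiplicative.ofAdd (Multiplicative.toAdd w) := rfl
    rw [this, h]
    rfl
  rw [eq_top_iff]
  intro v _
  by_cases hv : Multiplicative.toAdd v = 0
  · have h2 : v = Multiplicative.ofAdd (Multiplicative.toAdd v) := rfl
    have h3 : v = 1 := by
      rw [h2, hv]; rfl
    rw [h3]; exact A.one_mem
  · have h1 := hA (Units.mk0 (Multiplicative.toAdd v / Multiplicative.toAdd w)
      (div_ne_zero hv hw0)) (Subgroup.mem_top _) w hw
    rw [actHom_apply, Units.val_mk0, div_mul_cancel₀ _ hw0] at h1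
    exact h1

theorem not_irr_bot {F : Type} [Field F] [Finite F] (p d : ℕ) [Fact p.Prime] [CharP F p]
    (hd : 2 ≤ d) (hcard : Nat.card F = p ^ d) : ¬ Irr F ⊥ := by
  intro h
  have h1 := h (Subgroup.zpowers (Multiplicative.ofAdd (1 : F))) (by
    intro c hc v hv
    rw [Subgroup.mem_bot] at hc
    have h0 : actHom F c = 1 := by rw [hc]; exact map_one _
    rw [h0]
    exact hv)
  rcases h1 with h1 | h1
  · have h2 : Multiplicative.ofAdd (1 : F) ∈ Subgroup.zpowers (Multiplicative.ofAdd (1 : F)) :=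
      Subgroup.mem_zpowers _
    rw [h1, Subgroup.mem_bot] at h2
    have h3 : (1 : F) = 0 := congrArg Multiplicative.toAdd h2
    exact one_ne_zero h3
  · have h2 : Nat.card (Subgroup.zpowers (Multiplicative.ofAdd (1 : F))) = p := by
      rw [Nat.card_zpowers, orderOf_ofAdd_eq_addOrderOf]
      exact CharP.eq F (CharP.addOrderOf_one F) inferInstance
    rw [h1, Subgroup.card_top, Nat.card_congr Multiplicative.toAdd, hcard] at h2
    have hp : 1 < p := (Fact.out : p.Prime).one_lt
    have h3 : p ^ 1 < p ^ d := Nat.pow_lt_pow_right hp (by omega)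
    rw [pow_one] at h3
    omega

open Cfsg.Agent.Helper29 in
theorem main_aux {F : Type} [Field F] [Finite F] (p d : ℕ) [Fact p.Prime] [CharP F p]
    (hd : 2 ≤ d) (hcard : Nat.card F = p ^ d) :
    ∃ (G : Type) (_ : Group G) (_ : Finite G) (M H K : Subgroup G), IsCoatom M ∧
      M.index = p ^ d ∧ H ≤ M ∧ IsCoatom (H.subgroupOf M) ∧ IsCoatom K ∧ H ≤ K ∧
      ¬ IsCoatom (H.subgroupOf K) := by
  classical
  have hex : ∃ c, ∃ R : Subgroup Fˣ, Irr F R ∧ Nat.card R = c := ⟨_, ⊤, irr_top F, rfl⟩
  obtain ⟨Q₀, hQirr, hQc⟩ := Nat.find_spec hex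
  have hQmin : ∀ R : Subgroup Fˣ, Irr F R → Nat.card Q₀ ≤ Nat.card R := by
    intro R hR
    rw [hQc]
    exact Nat.find_min' hex ⟨R, hR, rfl⟩
  have hQb : Q₀ ≠ ⊥ := fun h => not_irr_bot p d hd hcard (h ▸ hQirr)
  have hQnt : Nontrivial Q₀ := (Subgroup.nontrivial_iff_ne_bot Q₀).mpr hQb
  obtain ⟨H₀, hH₀, -⟩ := (eq_top_or_exists_le_coatom (⊥ : Subgroup Q₀)).resolve_left bot_ne_top
  have hred : ¬ Irr F (H₀.map Q₀.subtype) := by
    intro h
    have h1 := hQmin _ h
    rw [Subgroup.card_map_of_injective Q₀.subtype_injective] at h1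
    exact hH₀.1 (Subgroup.eq_top_of_le_card H₀ h1)
  unfold Irr at hred
  push Not at hred
  obtain ⟨W, hWinv, hWb, hWt⟩ := hred
  have key := semidirect_example ((actHom F).comp Q₀.subtype)
    (fun A hA => hQirr A (fun c hc v hv => hA ⟨c, hc⟩ v hv)) inferInstance H₀ hH₀ W
    (fun c hc v hv => hWinv (c : Fˣ) (Subgroup.mem_map_of_mem _ hc) v hv) hWb hWt
  obtain ⟨M, H, K, h1, h2, h3, h4, h5, h6, h7⟩ := key
  refine ⟨Multiplicative F ⋊[(actHom F).comp Q₀.subtype] Q₀, inferInstance, ?_, M, H, K, h1, ?_,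
    h3, h4, h5, h6, h7⟩
  · exact Finite.of_equiv _ SemidirectProduct.equivProd.symm
  · rw [h2, Nat.card_congr Multiplicative.toAdd, hcard]

/-- For every prime p and every d ≥ 2 there is a finite group G with a maximal subgroup M of index p^d and a maximal subgroup H of M that is not second maximal in G: some maximal subgroup K of G contains H without H being maximal in K. (One may take G the affine group V ⋊ GL(V) of V = 𝔽_p^d, M = GL(V), H the stabiliser in M of a line W of V, and K = V ⋊ H, with H < W ⋊ H < K.) So the prime-index hypothesis in the second-maximality criterion cannot be relaxed to prime-power index. -/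
theorem result (p d : ℕ) (hp : p.Prime)
    (hd : 2 ≤ d) :
    ∃ (G : Type) (_ : Group G) (_ : Finite G) (M H K : Subgroup G), IsCoatom M ∧ M.index = p ^ d ∧ H ≤ M ∧
      IsCoatom (H.subgroupOf M) ∧ IsCoatom K ∧ H ≤ K ∧ ¬ IsCoatom (H.subgroupOf K) := by
  have : Fact p.Prime := ⟨hp⟩
  exact main_aux (F := GaloisField p d) p d hd (GaloisField.card p d (by omega))

end Cfsg.Agent.S5895
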