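import Cfsg.Statements.S5902
import Cfsg.Agent.Helper29.Compl

set_option autoImplicit false
open Cfsg

namespace Cfsg.Agent.S5902

/-- Let G be a finite group, X a subgroup whose own subgroup lattice is complemented, and suppose X lies in exactly one maximal subgroup M of G. Then every subgroup H of G not contained in the normal core of M has a complement in the subgroup lattice of G (some C with H ⊔ C = G and H ⊓ C = 1); in particular the subgroup lattice of G modulo the normal core of M is complemented. -/
theorem result {G : Type*} [Group G] [Finite G] (X M : Subgroup G)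
    (hK : ComplementedLattice (Subgroup X))
    (hM : IsCoatom M) (hXM : X ≤ M) (huniq : ∀ M' : Subgroup G, IsCoatom M' → X ≤ M' → M' = M) :
    (∀ H : Subgroup G, ¬ H ≤ M.normalCore → ∃ C : Subgroup G, H ⊔ C = ⊤ ∧ H ⊓ C = ⊥) ∧
    ComplementedLattice (Subgroup (G ⧸ M.normalCore)) := by
  have key : ∀ H : Subgroup G, ¬ H ≤ M.normalCore → ∃ C : Subgroup G, H ⊔ C = ⊤ ∧ H ⊓ C = ⊥ := by
    intro H hH
    obtain ⟨h, hhH, hh⟩ := SetLike.not_le_iff_exists.mp hH
    have : ∃ b : G, b * h * b⁻¹ ∉ M := by
      by_contra hcon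
      push Not at hcon
      exact hh hcon
    obtain ⟨b, hb⟩ := this
    apply Cfsg.Agent.Helper29.exists_compl_of_map (MulAut.conj b) H
    apply Cfsg.Agent.Helper29.exists_compl_of_interval ⊥ X M bot_le
      (fun Y _ hY => Cfsg.Agent.Helper29.interval_of_complemented X hK Y hY) huniq
    · intro hle
      apply hb
      apply hle
      refine ⟨h, hhH, ?_⟩
      simp [MulAut.conj_apply]
    · exact inf_bot_eq _
  refine ⟨key, ⟨fun Hbar => ?_⟩⟩
  set N := M.normalCore with hN
  set π := QuotientGroup.mk' N with hπ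
  have hsurj : Function.Surjective π := QuotientGroup.mk'_surjective N
  by_cases hle : Hbar.comap π ≤ N
  · refine ⟨⊤, ?_⟩
    have : Hbar = ⊥ := by
      rw [eq_bot_iff]
      intro x hx
      obtain ⟨g, rfl⟩ := hsurj x
      have hg : g ∈ N := hle hx
      rw [Subgroup.mem_bot]
      exact (QuotientGroup.eq_one_iff g).mpr hg
    rw [this]
    exact isCompl_bot_top
  · obtain ⟨C, h1, h2⟩ := key _ hle
    refine ⟨C.map π, IsCompl.of_eq ?_ ?_⟩
    · rw [eq_bot_iff]
      rintro x ⟨hx1, c, hc, rfl⟩
      have hcH : c ∈ Hbar.comap π := hx1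
      have : c ∈ Hbar.comap π ⊓ C := ⟨hcH, hc⟩
      rw [h2, Subgroup.mem_bot] at this
      rw [this, map_one]
      exact Subgroup.one_mem _
    · have h3 : (Hbar.comap π ⊔ C).map π = ⊤ := by
        rw [h1]; exact Subgroup.map_top_of_surjective π hsurj
      rw [Subgroup.map_sup, Subgroup.map_comap_eq_self_of_surjective hsurj] at h3
      exact h3

end Cfsg.Agent.S5902
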