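import Cfsg.Statements.S5903
import Cfsg.Agent.Helper29.Compl

set_option autoImplicit false
open Cfsg

namespace Cfsg.Agent.S5903

theorem interval_of_quotient {G : Type*} [Group G] (X N : Subgroup G) (hNX : N ≤ X)
    [(N.subgroupOf X).Normal] (hK : ComplementedLattice (Subgroup (X ⧸ N.subgroupOf X)))
    (Y : Subgroup G) (hNY : N ≤ Y) (hY : Y ≤ X) :
    ∃ C : Subgroup G, N ≤ C ∧ C ≤ X ∧ Y ⊔ C = X ∧ Y ⊓ C = N := by
  set N' := N.subgroupOf X with hN'
  set π := QuotientGroup.mk' N' with hπ
  have hsurj : Function.Surjective π := QuotientGroup.mk'_surjective N'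
  have hker : π.ker = N' := QuotientGroup.ker_mk' N'
  obtain ⟨Cbar, hC⟩ := hK.exists_isCompl ((Y.subgroupOf X).map π)
  have hN'Y : N' ≤ Y.subgroupOf X := by
    intro x hx
    exact hNY hx
  have hcm : ((Y.subgroupOf X).map π).comap π = Y.subgroupOf X := by
    rw [Subgroup.comap_map_eq, hker]
    exact sup_eq_left.mpr hN'Y
  have hN'map : N'.map X.subtype = N := Subgroup.map_subgroupOf_eq_of_le hNX
  have hN'C : N' ≤ Cbar.comap π :=
    le_trans (le_of_eq hker.symm) (Subgroup.ker_le_comap π Cbar)
  refine ⟨(Cbar.comap π).map X.subtype, ?_, Subgroup.map_subtype_le _, ?_, ?_⟩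
  · rw [← hN'map]
    exact Subgroup.map_mono hN'C
  · have h1 : (Y.subgroupOf X ⊔ Cbar.comap π).map X.subtype = X := by
      rw [← hcm, Subgroup.comap_sup_eq _ _ _ hsurj, hC.sup_eq_top, Subgroup.comap_top,
        ← MonoidHom.range_eq_map, Subgroup.range_subtype]
    rw [Subgroup.map_sup, Subgroup.map_subgroupOf_eq_of_le hY] at h1
    exact h1
  · have h1 : (Y.subgroupOf X ⊓ Cbar.comap π).map X.subtype = N := by
      rw [← hcm, ← Subgroup.comap_inf, hC.inf_eq_bot, MonoidHom.comap_bot, hker, hN'map]
    rw [Subgroup.map_inf_eq _ _ _ X.subtype_injective, Subgroup.map_subgroupOf_eq_of_le hY] at h1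
    exact h1

/-- Let G be a finite simple group, X a subgroup lying in exactly one maximal subgroup M of G, and N a subgroup of prime order with N ≤ X that is central in M. If the subgroup lattice of X/N is complemented, then the subgroup lattice of G is complemented. -/
theorem result {G : Type*} [Group G] [Finite G] [IsSimpleGroup G] (X M N : Subgroup G)
    (hM : IsCoatom M) (hXM : X ≤ M) (huniq : ∀ M' : Subgroup G, IsCoatom M' → X ≤ M' → M' = M)
    (hNX : N ≤ X) (hN : (Nat.card N).Prime) (hcen : ∀ n ∈ N, ∀ m ∈ M, m * n = n * m)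
    [(N.subgroupOf X).Normal] (hK : ComplementedLattice (Subgroup (X ⧸ N.subgroupOf X))) :
    ComplementedLattice (Subgroup G) := by
  refine ⟨fun H => ?_⟩
  by_cases hHbot : H = ⊥
  · exact ⟨⊤, hHbot ▸ isCompl_bot_top⟩
  by_cases hHtop : H = ⊤
  · exact ⟨⊥, hHtop ▸ isCompl_top_bot⟩
  have hNbot : N ≠ ⊥ := by
    intro h
    rw [h, Subgroup.card_bot] at hN
    exact Nat.not_prime_one hN
  -- a nontrivial intersection with N contains N
  have hNsub : ∀ L : Subgroup G, L ⊓ N ≠ ⊥ → N ≤ L := by
    intro L hL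
    have h1 : Nat.card (L ⊓ N : Subgroup G) ∣ Nat.card N :=
      Subgroup.card_dvd_of_le inf_le_right
    have h2 : Nat.card (L ⊓ N : Subgroup G) ≠ 1 := by
      intro h; exact hL (Subgroup.card_eq_one.mp h)
    have h3 : Nat.card (L ⊓ N : Subgroup G) = Nat.card N :=
      ((Nat.dvd_prime hN).mp h1).resolve_left h2
    have h4 : L ⊓ N = N := Subgroup.eq_of_le_of_card_ge inf_le_right h3.ge
    exact inf_eq_right.mp h4
  -- key existence of a good conjugate
  have hex : ∃ g : G, ¬ (H.map (MulAut.conj g).toMonoidHom ≤ M) ∧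
      H.map (MulAut.conj g).toMonoidHom ⊓ N = ⊥ := by
    by_contra hcon
    push Not at hcon
    -- for every g : either H ≤ g⁻¹ M g or g⁻¹ N g ≤ H
    have hall : ∀ g : G, (∀ h ∈ H, g * h * g⁻¹ ∈ M) ∨ (∀ n ∈ N, g⁻¹ * n * g ∈ H) := by
      intro g
      by_cases h1 : H.map (MulAut.conj g).toMonoidHom ≤ M
      · left
        intro h hh
        apply h1
        exact ⟨h, hh, by simp [MulAut.conj_apply]⟩
      · right
        have h2 := hNsub _ (hcon g h1)
        intro n hn
        obtain ⟨h, hh, hhn⟩ := h2 hn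
        have : g * h * g⁻¹ = n := by simpa [MulAut.conj_apply] using hhn
        rw [← this]
        have : g⁻¹ * (g * h * g⁻¹) * g = h := by group
        rw [this]
        exact hh
    set K : Subgroup G := Subgroup.closure {x | x ∈ H ∧ ∃ g : G, (∀ n ∈ N, g⁻¹ * n * g ∈ H) ∧ ∃ n ∈ N, x = g⁻¹ * n * g} with hKdef
    have hKH : K ≤ H := by
      rw [hKdef, Subgroup.closure_le]
      intro x hx
      exact hx.1
    have hnorm : ∀ g : G, ∀ n ∈ N, g⁻¹ * n * g ∈ Subgroup.normalizer (K : Set G) := by
      intro g n hn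
      rcases hall g with h1 | h1
      · apply Subgroup.centralizer_le_normalizer
        rw [Subgroup.mem_centralizer_iff]
        intro k hk
        have hkH : k ∈ H := hKH hk
        have h2 := hcen n hn _ (h1 k hkH)
        -- (g k g⁻¹) n = n (g k g⁻¹)
        calc k * (g⁻¹ * n * g) = g⁻¹ * ((g * k * g⁻¹) * n) * g := by group
          _ = g⁻¹ * (n * (g * k * g⁻¹)) * g := by rw [h2]
          _ = g⁻¹ * n * g * k := by group
      · apply Subgroup.le_normalizer
        apply Subgroup.subset_closure
        exact ⟨h1 n hn, g, h1, n, hn, rfl⟩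
    have hncl : Subgroup.normalClosure (N : Set G) = ⊤ := by
      rcases (Subgroup.normalClosure_normal (s := (N : Set G))).eq_bot_or_eq_top with h | h
      · exfalso
        apply hNbot
        rw [eq_bot_iff, ← h]
        exact Subgroup.subset_normalClosure
      · exact h
    have hKnorm : Subgroup.normalizer (K : Set G) = ⊤ := by
      rw [eq_top_iff, ← hncl, Subgroup.normalClosure, Subgroup.closure_le]
      intro x hx
      rw [Group.mem_conjugatesOfSet_iff] at hx
      obtain ⟨n, hn, hconj⟩ := hx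
      rw [isConj_iff] at hconj
      obtain ⟨c, hc⟩ := hconj
      have := hnorm c⁻¹ n hn
      rw [inv_inv] at this
      rw [← hc]
      exact this
    have hKn : K.Normal := Subgroup.normalizer_eq_top_iff.mp hKnorm
    have hKbot : K = ⊥ := by
      rcases hKn.eq_bot_or_eq_top with h | h
      · exact h
      · exfalso
        apply hHtop
        rw [eq_top_iff, ← h]
        exact hKH
    -- hence no conjugate of N lies in H
    have hno : ∀ g : G, ¬ (∀ n ∈ N, g⁻¹ * n * g ∈ H) := by
      intro g hg
      obtain ⟨n, hn, hn1⟩ : ∃ n ∈ N, n ≠ 1 := by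
        by_contra hc
        push Not at hc
        exact hNbot ((Subgroup.eq_bot_iff_forall N).mpr hc)
      have hmem : g⁻¹ * n * g ∈ K := Subgroup.subset_closure ⟨hg n hn, g, hg, n, hn, rfl⟩
      rw [hKbot, Subgroup.mem_bot] at hmem
      apply hn1
      have : n = g * (g⁻¹ * n * g) * g⁻¹ := by group
      rw [this, hmem]
      group
    -- so H ≤ normalCore M = ⊥
    have hHcore : H ≤ M.normalCore := by
      intro h hh b
      exact ((hall b).resolve_right (hno b)) h hh
    have hcore : M.normalCore = ⊥ := by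
      rcases (M.normalCore_normal).eq_bot_or_eq_top with h | h
      · exact h
      · exfalso
        apply hM.1
        rw [eq_top_iff, ← h]
        exact M.normalCore_le
    apply hHbot
    rw [eq_bot_iff, ← hcore]
    exact hHcore
  obtain ⟨g, hg1, hg2⟩ := hex
  have hcompl : ∃ C : Subgroup G, H ⊔ C = ⊤ ∧ H ⊓ C = ⊥ := by
    apply Cfsg.Agent.Helper29.exists_compl_of_map (MulAut.conj g) H
    exact Cfsg.Agent.Helper29.exists_compl_of_interval N X M hNX
      (fun Y hNY hY => interval_of_quotient X N hNX hK Y hNY hY) huniq _ hg1 hg2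
  obtain ⟨C, h1, h2⟩ := hcompl
  exact ⟨C, IsCompl.of_eq h2 h1⟩

end Cfsg.Agent.S5903
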