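import Cfsg.Statements.S5904
import Cfsg.Agent.Helper29.Wreath

set_option autoImplicit false
open scoped Pointwise
open Cfsg

namespace Cfsg.Agent.S5904

/-- Let Ω be a finite set with more than two elements and O ⊆ Ω a subset with exactly as many elements as its complement. Then the setwise stabilizer of O in the symmetric group on Ω is not a maximal subgroup (it is properly contained in the stabilizer of the partition {O, Ω ∖ O}, which is proper). -/
theorem result {Ω : Type*} [Fintype Ω] [DecidableEq Ω] (hΩ : 2 < Fintype.card Ω)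
    (O : Set Ω) (hO : Nat.card O = Nat.card ↥Oᶜ) :
    ¬ IsCoatom (MulAction.stabilizer (Equiv.Perm Ω) O) := by
  classical
  intro hco
  let f : Ω → Bool := fun x => decide (x ∈ O)
  have hsum : Nat.card O + Nat.card ↥Oᶜ = Fintype.card Ω := by
    rw [Nat.card_coe_set_eq, Nat.card_coe_set_eq, Set.ncard_add_ncard_compl, Nat.card_eq_fintype_card]
  have ha : 2 ≤ Nat.card O := by omega
  have hT : Nat.card {x : Ω // f x = true} = Nat.card O :=
    Nat.card_congr (Equiv.subtypeEquivRight (fun x => by simp [f]))
  have hF : Nat.card {x : Ω // f x = false} = Nat.card ↥Oᶜ :=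
    Nat.card_congr (Equiv.subtypeEquivRight (fun x => by simp [f]))
  have hf : ∀ i : Bool, Nat.card {x : Ω // f x = i} = Nat.card O := by
    intro i
    cases i
    · rw [hF, hO]
    · exact hT
  have hle : MulAction.stabilizer (Equiv.Perm Ω) O ≤ Cfsg.Agent.Helper29.partStab f := by
    intro g hg
    rw [MulAction.mem_stabilizer_set] at hg
    have key : ∀ x, f (g x) = f x := by
      intro x
      have := hg x
      simp only [f, Equiv.Perm.smul_def] at this ⊢
      exact decide_eq_decide.mpr this
    intro x y
    rw [key x, key y]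
  have hne : MulAction.stabilizer (Equiv.Perm Ω) O ≠ Cfsg.Agent.Helper29.partStab f := by
    intro heq
    obtain ⟨e⟩ := Cfsg.Agent.Helper29.exists_fibre_equiv f (Nat.card O) hf true false
    obtain ⟨σ, hσ, hσ1, -, -⟩ := Cfsg.Agent.Helper29.exists_fibreSwap f (by decide) e
    rw [← heq, MulAction.mem_stabilizer_set] at hσ
    obtain ⟨x, -, -, hx, -⟩ := Cfsg.Agent.Helper29.exists_pair_fibre f (Nat.card O) ha hf true
    have hxO : x ∈ O := by simpa [f] using hx
    have h1 : σ x ∈ O := (hσ x).mpr hxO
    have h2 : f (σ x) = false := by rw [hσ1 x hx]; exact (e ⟨x, hx⟩).2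
    simp [f] at h2
    exact h2 h1
  have htop := hco.2 _ (lt_of_le_of_ne hle hne)
  exact Cfsg.Agent.Helper29.partStab_ne_top f (Nat.card O) ha hf htop

end Cfsg.Agent.S5904
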