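import Cfsg.Agent.Helper2.SU3Two
import Cfsg.Statements.S5908
-- import your own Cfsg.Agent.* helpers here

set_option autoImplicit false
open Cfsg

namespace Cfsg.Agent.S5908

/-- The subgroup lattice of PSU₃(2) (the solvable group of order 72, realised over the field with 4 elements) is not complemented: some subgroup H has no subgroup X with H ⊔ X = ⊤ and H ⊓ X = ⊥. -/
theorem result {F : Type*} [Field F] [Fintype F] (hF : Fintype.card F = 4) :
    ¬ ComplementedLattice (Subgroup (Cfsg.PSU 3 F 2)) := by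
  obtain ⟨N, hN, hcard, hexp, ⟨φ⟩⟩ := Cfsg.Agent.Helper2.psu32_structure hF
  intro hc
  obtain ⟨f, hfdef⟩ : ∃ f : Cfsg.PSU 3 F 2 →* QuaternionGroup 2,
      f = φ.toMonoidHom.comp (QuotientGroup.mk' N) := ⟨_, rfl⟩
  have hf : Function.Surjective f := by
    rw [hfdef]
    exact φ.surjective.comp (QuotientGroup.mk'_surjective N)
  have hq : ∀ y : QuaternionGroup 2, y ≠ 1 →
      y = QuaternionGroup.a 2 ∨ y * y = QuaternionGroup.a 2 := by decide
  have ha2 : (QuaternionGroup.a 2 : QuaternionGroup 2) ∈ Subgroup.center (QuaternionGroup 2) := by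
    rw [Subgroup.mem_center_iff]
    decide
  have ha2ne : (QuaternionGroup.a 2 : QuaternionGroup 2) ≠ 1 := by decide
  have ha1 : (QuaternionGroup.a 1 : QuaternionGroup 2) ∉ Subgroup.center (QuaternionGroup 2) := by
    intro h
    have h1 := Subgroup.mem_center_iff.1 h (QuaternionGroup.xa 0)
    revert h1
    decide
  obtain ⟨X, hX⟩ := hc.exists_isCompl ((Subgroup.center (QuaternionGroup 2)).comap f)
  have hmem : ∀ g ∈ X, f g ∈ Subgroup.center (QuaternionGroup 2) → g = 1 := by
    intro g hg hfg
    have h1 : g ∈ (Subgroup.center (QuaternionGroup 2)).comap f ⊓ X := ⟨hfg, hg⟩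
    rw [hX.inf_eq_bot] at h1
    exact h1
  have hXbot : X = ⊥ := by
    rw [eq_bot_iff]
    intro x hx
    rw [Subgroup.mem_bot]
    by_contra hx1
    by_cases hfx : f x = 1
    · exact hx1 (hmem x hx (by rw [hfx]; exact one_mem _))
    · rcases hq (f x) hfx with h | h
      · exact hx1 (hmem x hx (by rw [h]; exact ha2))
      · have h2 : x * x = 1 := hmem (x * x) (X.mul_mem hx hx) (by rw [map_mul, h]; exact ha2)
        have h3 : f x * f x = 1 := by rw [← map_mul, h2, map_one]
        rw [h] at h3
        exact ha2ne h3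
  have htop : (Subgroup.center (QuaternionGroup 2)).comap f = ⊤ := by
    have h1 := hX.sup_eq_top
    rw [hXbot, sup_bot_eq] at h1
    exact h1
  obtain ⟨g, hg⟩ := hf (QuaternionGroup.a 1)
  have hgH : g ∈ (Subgroup.center (QuaternionGroup 2)).comap f := by
    rw [htop]
    exact Subgroup.mem_top g
  apply ha1
  rw [← hg]
  exact hgH

end Cfsg.Agent.S5908
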