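import Cfsg.Statements.S5909
import Cfsg.Agent.Helper29.AltWreath2

set_option autoImplicit false
open Cfsg

namespace Cfsg.Agent.S5909

open Cfsg.Agent.Helper29 Equiv MulAction in
theorem main_aux {Ω : Type*} [Fintype Ω] [DecidableEq Ω] (h8 : Fintype.card Ω ≠ 8) (a b : ℕ)
    (ha : 2 ≤ a) (hb : 2 ≤ b) (f : Ω → Fin b)
    (hf : ∀ i : Fin b, Nat.card {x : Ω // f x = i} = a) :
    IsCoatom ((partStab f ⊓ alternatingGroup Ω).subgroupOf (alternatingGroup Ω)) := by
  classical
  have hnt : Nontrivial (Fin b) := Fin.nontrivial_iff_two_le.mpr hb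
  have hcardΩ : Fintype.card Ω = b * a := by
    have := card_eq_mul f a hf
    rwa [Fintype.card_fin] at this
  have hnotle : ¬ (alternatingGroup Ω ≤ partStab f ⊓ alternatingGroup Ω) := by
    intro hle
    obtain ⟨x, y, hxy, hx, hy⟩ := exists_pair_fibre f a ha hf ⟨0, by omega⟩
    obtain ⟨z, -, -, hz, -⟩ := exists_pair_fibre f a ha hf ⟨1, by omega⟩
    have h01 : (⟨0, by omega⟩ : Fin b) ≠ ⟨1, by omega⟩ := by simp [Fin.ext_iff]
    have hyz : y ≠ z := fun e => h01 (by rw [← hy, e, hz])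
    have hzx : z ≠ x := fun e => h01 (by rw [← hx, ← e, hz])
    have hmem : swap x y * swap y z ∈ alternatingGroup Ω := by
      rw [Perm.mem_alternatingGroup, Perm.sign_mul, Perm.sign_swap hxy, Perm.sign_swap hyz]
      rfl
    have h1 : swap x y * swap y z ∈ partStab f := (hle hmem).1
    rw [mem_partStab] at h1
    have h2 := (h1 x y).mp (hx.trans hy.symm)
    rw [Perm.mul_apply, Perm.mul_apply, swap_apply_of_ne_of_ne hxy (Ne.symm hzx), swap_apply_left,
      swap_apply_left, swap_apply_of_ne_of_ne hzx (Ne.symm hyz)] at h2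
    exact h01 (by rw [← hy, h2, hz])
  constructor
  · intro htop
    exact hnotle (Subgroup.subgroupOf_eq_top.mp htop)
  intro L' hL'
  suffices hsuff : alternatingGroup Ω ≤ L'.map (alternatingGroup Ω).subtype by
    rw [eq_top_iff]
    intro k _
    obtain ⟨y, hy, hyk⟩ := hsuff k.2
    have : y = k := Subtype.ext hyk
    rw [← this]; exact hy
  obtain ⟨G, hGdef⟩ : ∃ G : Subgroup (Perm Ω), G = L'.map (alternatingGroup Ω).subtype := ⟨_, rfl⟩
  rw [← hGdef]
  have hGA : G ≤ alternatingGroup Ω := by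
    rw [hGdef]; rintro _ ⟨x, -, rfl⟩; exact x.2
  have hEG : evenPart f ≤ G := by
    intro g hg
    rw [hGdef]
    exact ⟨⟨g, hg.2⟩, hL'.le (Subgroup.mem_subgroupOf.mpr hg), rfl⟩
  obtain ⟨x₀, hx₀L, hx₀⟩ := SetLike.exists_of_lt hL'
  have hg₀G : (x₀ : Perm Ω) ∈ G := by rw [hGdef]; exact ⟨x₀, hx₀L, rfl⟩
  have hg₀W : (x₀ : Perm Ω) ∉ partStab f :=
    fun h => hx₀ (Subgroup.mem_subgroupOf.mpr ⟨h, x₀.2⟩)
  have hex : ∃ h ∈ G, ∃ x y : Ω, f x = f y ∧ f (h x) ≠ f (h y) := by
    have hg₀W' := hg₀W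
    rw [mem_partStab] at hg₀W'
    push Not at hg₀W'
    obtain ⟨x, y, hxy⟩ := hg₀W'
    rcases hxy with ⟨h1, h2⟩ | ⟨h1, h2⟩
    · exact ⟨x₀, hg₀G, x, y, h1, h2⟩
    · refine ⟨(x₀ : Perm Ω)⁻¹, G.inv_mem hg₀G, (x₀ : Perm Ω) x, (x₀ : Perm Ω) y, h2, ?_⟩
      simpa using h1
  by_cases ha3 : 3 ≤ a
  · have hprim := even_isPreprimitive f a ha hf (Or.inl ha3) hEG hex
    obtain ⟨p, -⟩ := exists_pair_fibre f a ha hf ⟨0, by omega⟩
    obtain ⟨z, z₂, hzu, hz₂u, hzz₂, hfz, hfz₂⟩ := exists_two_others f a ha3 hf p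
    have h3c : Perm.IsThreeCycle (swap p z * swap p z₂) :=
      Perm.isThreeCycle_swap_mul_swap_same (Ne.symm hzu) (Ne.symm hz₂u) hzz₂
    have hmem : swap p z * swap p z₂ ∈ G :=
      hEG (dswap_mem f hfz.symm hfz₂.symm (Ne.symm hzu) (Ne.symm hz₂u))
    exact Equiv.Perm.alternatingGroup_le_of_isPreprimitive_of_isThreeCycle_mem hprim h3c hmem
  have ha2 : a = 2 := by omega
  subst ha2
  by_cases hb3 : 3 ≤ b
  · have hprim := even_isPreprimitive f 2 ha hf (Or.inr (exists_third hb3)) hEG hex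
    have hb4 : b ≠ 4 := by
      intro h4
      apply h8
      rw [hcardΩ, h4]
    obtain ⟨g, hgG, hg3⟩ := exists_threeCycle_two f hf hb3 hb4 hEG hex
    exact Equiv.Perm.alternatingGroup_le_of_isPreprimitive_of_isThreeCycle_mem hprim hg3 hgG
  have hb2 : b = 2 := by omega
  subst hb2
  have hcard4 : Nat.card Ω = 4 := by rw [Nat.card_eq_fintype_card, hcardΩ]
  have hntΩ : Nontrivial Ω := by
    rw [← Fintype.one_lt_card_iff_nontrivial, hcardΩ]; norm_num
  have hA12 : Nat.card (alternatingGroup Ω) = 12 := by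
    have h1 := two_mul_nat_card_alternatingGroup (α := Ω)
    rw [Nat.card_perm, hcard4] at h1
    have : Nat.factorial 4 = 24 := rfl
    omega
  have htrE : IsPretransitive (evenPart f) Ω := evenPart_isPretransitive f 2 ha hf le_rfl
  obtain ⟨p⟩ : Nonempty Ω := inferInstance
  have h4E : 4 ∣ Nat.card (evenPart f) := by
    have h1 : (stabilizer (evenPart f) p).index = Nat.card Ω :=
      MulAction.index_stabilizer_of_transitive (evenPart f) p
    rw [hcard4] at h1
    rw [← h1]
    exact Subgroup.index_dvd_card _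
  have hE12 : Nat.card (evenPart f) ∣ 12 := by
    rw [← hA12]; exact Subgroup.card_dvd_of_le inf_le_right
  have hE4 : Nat.card (evenPart f) = 4 := by
    obtain ⟨k, hk⟩ := h4E
    rw [hk] at hE12
    have hk3 : k ∣ 3 := (Nat.mul_dvd_mul_iff_left (by norm_num)).mp (show 4 * k ∣ 4 * 3 from hE12)
    rcases (Nat.dvd_prime Nat.prime_three).mp hk3 with h | h
    · rw [hk, h]
    · exfalso
      have : evenPart f = alternatingGroup Ω :=
        Subgroup.eq_of_le_of_card_ge inf_le_right (by rw [hA12, hk, h])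
      exact hnotle this.ge
  have h4G : Nat.card (evenPart f) ∣ Nat.card G := Subgroup.card_dvd_of_le hEG
  have hG12 : Nat.card G ∣ 12 := by rw [← hA12]; exact Subgroup.card_dvd_of_le hGA
  have hGne : Nat.card G ≠ 4 := by
    intro h
    have : evenPart f = G := Subgroup.eq_of_le_of_card_ge hEG (by rw [h, hE4])
    rw [← this] at hg₀G
    exact hg₀W hg₀G.1
  have hG : Nat.card G = 12 := by
    rw [hE4] at h4G
    obtain ⟨k, hk⟩ := h4G
    rw [hk] at hG12 hGne ⊢
    have hk3 : k ∣ 3 := (Nat.mul_dvd_mul_iff_left (by norm_num)).mp (show 4 * k ∣ 4 * 3 from hG12)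
    rcases (Nat.dvd_prime Nat.prime_three).mp hk3 with h | h
    · rw [h] at hGne
      exact absurd rfl hGne
    · rw [h]
  exact (Subgroup.eq_of_le_of_card_ge hGA (by rw [hA12, hG])).ge

/-- Let Ω be a finite set whose size is not 8, and f : Ω → Fin b a labelling with b ≥ 2 whose fibres all have the same size a ≥ 2 (a partition into b blocks of size a). Then the even permutations preserving the partition — the intersection of the imprimitive wreath product S_a ≀ S_b with the alternating group — form a maximal subgroup of the alternating group on Ω. -/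
theorem result {Ω : Type*} [Fintype Ω] [DecidableEq Ω] (h8 : Fintype.card Ω ≠ 8) (a b : ℕ) (ha : 2 ≤ a) (hb : 2 ≤ b)
    (f : Ω → Fin b) (hf : ∀ i : Fin b, Nat.card {x : Ω // f x = i} = a) :
    IsCoatom ((Subgroup.closure {g : Equiv.Perm Ω | ∀ x y : Ω, f x = f y ↔ f (g x) = f (g y)} ⊓ alternatingGroup Ω).subgroupOf (alternatingGroup Ω)) := by
  rw [Cfsg.Agent.Helper29.closure_eq_partStab]
  exact main_aux h8 a b ha hb f hf

end Cfsg.Agent.S5909
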