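import Cfsg.Statements.S5910
import Cfsg.Agent.Helper29.Wreath
import Cfsg.Agent.Helper29.Coatom

set_option autoImplicit false
open Cfsg

namespace Cfsg.Agent.S5910

open Equiv Equiv.Perm Cfsg.Agent.Helper29

/-- The ternary operation `x + y + z` on the model `Fin 4 × Fin 2` of the affine space over the
field with two elements. -/
def tau (x y z : Fin 4 × Fin 2) : Fin 4 × Fin 2 := (x.1 ^^^ y.1 ^^^ z.1, x.2 + y.2 + z.2)

/-- Even permutations preserving `tau` (the even affine maps). -/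
def affEven : Subgroup (Perm (Fin 4 × Fin 2)) where
  carrier := {g | sign g = 1 ∧ ∀ x y z, g (tau x y z) = tau (g x) (g y) (g z)}
  mul_mem' := by
    rintro g h ⟨hg1, hg2⟩ ⟨hh1, hh2⟩
    refine ⟨by rw [map_mul, hg1, hh1, one_mul], fun x y z => ?_⟩
    rw [Perm.mul_apply, hh2, hg2]
    rfl
  one_mem' := ⟨map_one _, fun x y z => rfl⟩
  inv_mem' := by
    rintro g ⟨hg1, hg2⟩
    refine ⟨by rw [map_inv, hg1, inv_one], fun x y z => ?_⟩
    apply g.injective
    have hgi : ∀ w, g (g⁻¹ w) = w := fun w => by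
      rw [← Perm.mul_apply, mul_inv_cancel, Perm.one_apply]
    rw [hg2, hgi, hgi, hgi, hgi]

lemma key_perm : ∀ π : Perm (Fin 4), ∀ u v w : Fin 4,
    π (u ^^^ v ^^^ w) = π u ^^^ π v ^^^ π w := by
  set_option maxRecDepth 100000 in decide

lemma key_sign : ∀ e0 e1 e2 e3 : Fin 2,
    (if e0 = 0 then (1 : ℤˣ) else -1) * (if e1 = 0 then (1 : ℤˣ) else -1) *
      (if e2 = 0 then (1 : ℤˣ) else -1) * (if e3 = 0 then (1 : ℤˣ) else -1) = 1 →
    e0 + e1 + e2 + e3 = 0 := by decide

lemma key_add : ∀ e0 e1 e2 e3 : Fin 2, e0 + e1 + e2 + e3 = 0 → ∀ u v w : Fin 4,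
    ![e0, e1, e2, e3] (u ^^^ v ^^^ w) =
      ![e0, e1, e2, e3] u + ![e0, e1, e2, e3] v + ![e0, e1, e2, e3] w := by decide

lemma key_theta : ∀ (e c : Fin 2),
    (if e = 0 then (1 : Perm (Fin 2)) else swap 0 1) c = c + e := by decide

lemma key_arith : ∀ a b c d e f : Fin 2,
    (a + b + c) + (d + e + f) = (a + d) + (b + e) + (c + f) := by decide

/-- Every even permutation of the model preserving the fibres of the first projection is
affine. -/
lemma mem_affEven_of_even {g : Perm (Fin 4 × Fin 2)}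
    (hg : ∀ x y : Fin 4 × Fin 2, x.1 = y.1 ↔ (g x).1 = (g y).1) (hs : sign g = 1) :
    g ∈ affEven := by
  refine ⟨hs, ?_⟩
  have hinj : Function.Injective (fun i : Fin 4 => (g (i, 0)).1) := by
    intro i j hij
    exact (hg (i, 0) (j, 0)).mpr hij
  obtain ⟨π, hπ⟩ : ∃ π : Perm (Fin 4), ∀ i, π i = (g (i, 0)).1 :=
    ⟨Equiv.ofBijective _ (Finite.injective_iff_bijective.mp hinj), fun i => rfl⟩
  have h1 : ∀ x : Fin 4 × Fin 2, (g x).1 = π x.1 := by
    intro x
    rw [hπ]
    exact (hg x (x.1, 0)).mp rfl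
  obtain ⟨ε, hε⟩ : ∃ ε : Fin 4 → Fin 2, ∀ i, ε i = (g (i, 0)).2 := ⟨_, fun _ => rfl⟩
  have h2 : ∀ (i : Fin 4) (c : Fin 2), (g (i, c)).2 = c + ε i := by
    intro i c
    have hc : c = 0 ∨ c = 1 := by revert c; decide
    rcases hc with rfl | rfl
    · rw [zero_add, hε]
    · have hne : g (i, 1) ≠ g (i, 0) := fun h => by
        have h' := g.injective h
        have h'' : (1 : Fin 2) = 0 := congrArg Prod.snd h'
        exact absurd h'' (by decide)
      have h1' : (g (i, 1)).1 = (g (i, 0)).1 := by rw [h1, h1]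
      have hne2 : (g (i, 1)).2 ≠ ε i := fun h => hne (Prod.ext h1' (h.trans (hε i)))
      have key : ∀ a b : Fin 2, a ≠ b → a = 1 + b := by decide
      exact key _ _ hne2
  obtain ⟨θ, hθ⟩ : ∃ θ : Fin 4 → Perm (Fin 2),
      ∀ i, θ i = if ε i = 0 then (1 : Perm (Fin 2)) else swap 0 1 := ⟨_, fun _ => rfl⟩
  have hg' : g = prodCongrLeft (fun _ : Fin 2 => π) * prodCongrRight θ := by
    refine Equiv.ext fun x => ?_
    obtain ⟨i, c⟩ := x
    refine Prod.ext ?_ ?_
    · show (g (i, c)).1 = π i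
      exact h1 (i, c)
    · show (g (i, c)).2 = θ i c
      rw [h2, hθ, key_theta]
  have hsθ : ∀ i, sign (θ i) = if ε i = 0 then (1 : ℤˣ) else -1 := by
    intro i
    rw [hθ]
    split_ifs
    · exact map_one _
    · exact sign_swap (by decide)
  have hsum : ε 0 + ε 1 + ε 2 + ε 3 = 0 := by
    apply key_sign
    rw [← hsθ, ← hsθ, ← hsθ, ← hsθ]
    have h3 := hs
    rw [hg', map_mul, sign_prodCongrLeft, sign_prodCongrRight, Fin.prod_univ_two,
      Fin.prod_univ_four, Int.units_mul_self, one_mul] at h3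
    exact h3
  have hadd : ∀ u v w : Fin 4, ε (u ^^^ v ^^^ w) = ε u + ε v + ε w := by
    have hε' : ε = ![ε 0, ε 1, ε 2, ε 3] := by
      funext i
      fin_cases i <;> rfl
    intro u v w
    have h := key_add (ε 0) (ε 1) (ε 2) (ε 3) hsum u v w
    rw [← hε'] at h
    exact h
  intro x y z
  refine Prod.ext ?_ ?_
  · show (g (tau x y z)).1 = (g x).1 ^^^ (g y).1 ^^^ (g z).1
    rw [h1, h1, h1, h1]
    exact key_perm π x.1 y.1 z.1
  · show (g (tau x y z)).2 = (g x).2 + (g y).2 + (g z).2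
    have e1 : (g (tau x y z)).2 = (x.2 + y.2 + z.2) + ε (x.1 ^^^ y.1 ^^^ z.1) :=
      h2 (x.1 ^^^ y.1 ^^^ z.1) (x.2 + y.2 + z.2)
    have e2 : ∀ p : Fin 4 × Fin 2, (g p).2 = p.2 + ε p.1 := fun p => h2 p.1 p.2
    rw [e1, e2 x, e2 y, e2 z, hadd]
    exact key_arith _ _ _ _ _ _

/-- An even affine map not preserving the fibres. -/
def tEl : Perm (Fin 4 × Fin 2) := swap ((1 : Fin 4), (0 : Fin 2)) (0, 1) * swap (3, 0) (2, 1)

/-- A `3`-cycle, which is not affine. -/
def cEl : Perm (Fin 4 × Fin 2) := swap ((0 : Fin 4), (0 : Fin 2)) (1, 0) * swap (1, 0) (2, 0)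

lemma tEl_tau : ∀ x y z : Fin 4 × Fin 2, tEl (tau x y z) = tau (tEl x) (tEl y) (tEl z) := by
  set_option maxRecDepth 100000 in decide

lemma tEl_mem : tEl ∈ affEven := by
  refine ⟨?_, tEl_tau⟩
  unfold tEl
  rw [map_mul, sign_swap (by decide), sign_swap (by decide)]
  rfl

lemma tEl_not_part : ¬ (∀ x y : Fin 4 × Fin 2, x.1 = y.1 ↔ (tEl x).1 = (tEl y).1) := by
  intro h
  have h1 := (h (1, 0) (1, 1)).mp rfl
  revert h1
  decide

lemma cEl_sign : sign cEl = 1 := by
  unfold cEl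
  rw [map_mul, sign_swap (by decide), sign_swap (by decide)]
  rfl

lemma cEl_not_mem : cEl ∉ affEven := by
  intro h
  have h1 := h.2 (0, 0) (1, 0) (0, 1)
  revert h1
  decide

lemma exists_coords {Ω : Type*} [Fintype Ω] (f : Ω → Fin 4)
    (hf : ∀ i : Fin 4, Nat.card {x : Ω // f x = i} = 2) :
    ∃ e : Ω ≃ Fin 4 × Fin 2, ∀ x, (e x).1 = f x := by
  have he : ∀ i : Fin 4, Nonempty ({x : Ω // f x = i} ≃ Fin 2) := fun i =>
    ⟨Finite.equivFinOfCardEq (hf i)⟩
  exact ⟨(Equiv.sigmaFiberEquiv f).symm.trans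
    ((Equiv.sigmaCongrRight fun i => (he i).some).trans (Equiv.sigmaEquivProd (Fin 4) (Fin 2))),
    fun x => rfl⟩

/-- Let Ω be a set with 8 elements and f : Ω → Fin 4 a labelling whose four fibres all have size 2 (a partition of the 8 points into 4 pairs). Then the group of even permutations preserving this partition, (S₂ ≀ S₄) ∩ A₈, is not a maximal subgroup of the alternating group A₈ (it lies in a subgroup isomorphic to the affine group AGL₃(2)). -/
theorem result {Ω : Type*} [Fintype Ω] [DecidableEq Ω] (h8 : Fintype.card Ω = 8)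
    (f : Ω → Fin 4) (hf : ∀ i : Fin 4, Nat.card {x : Ω // f x = i} = 2) :
    ¬ IsCoatom ((Subgroup.closure {g : Equiv.Perm Ω | ∀ x y : Ω, f x = f y ↔ f (g x) = f (g y)} ⊓ alternatingGroup Ω).subgroupOf (alternatingGroup Ω)) := by
  rw [closure_eq_partStab]
  obtain ⟨e, he⟩ := exists_coords f hf
  obtain ⟨φ, hφ⟩ : ∃ φ : Perm Ω ≃* Perm (Fin 4 × Fin 2),
      ∀ (g : Perm Ω) (y : Fin 4 × Fin 2), φ g y = e (g (e.symm y)) :=
    ⟨e.permCongrHom, fun g y => rfl⟩
  have hsign : ∀ g : Perm Ω, sign (φ g) = sign g := by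
    intro g
    have h1 : φ g = e.permCongr g := Equiv.ext fun y => by rw [hφ]; rfl
    rw [h1]
    exact sign_permCongr e g
  have hfx : ∀ y : Fin 4 × Fin 2, f (e.symm y) = y.1 := fun y => by
    rw [← he, e.apply_symm_apply]
  have hpart : ∀ g : Perm Ω, g ∈ partStab f ↔
      (∀ x y : Fin 4 × Fin 2, x.1 = y.1 ↔ (φ g x).1 = (φ g y).1) := by
    intro g
    rw [mem_partStab]
    constructor
    · intro h x y
      rw [hφ, hφ, he, he, ← hfx x, ← hfx y]
      exact h _ _
    · intro h x y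
      have h1 := h (e x) (e y)
      rw [hφ, hφ, e.symm_apply_apply, e.symm_apply_apply, he, he, he, he] at h1
      exact h1
  apply not_isCoatom_subgroupOf_of_lt_of_lt (L := affEven.comap φ.toMonoidHom)
  · refine lt_of_le_of_ne ?_ ?_
    · intro g hg
      obtain ⟨hg1, hg2⟩ := Subgroup.mem_inf.mp hg
      exact mem_affEven_of_even ((hpart g).mp hg1)
        ((hsign g).trans (mem_alternatingGroup.mp hg2))
    · intro heq
      have ht : φ.symm tEl ∈ affEven.comap φ.toMonoidHom := by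
        show φ (φ.symm tEl) ∈ affEven
        rw [φ.apply_symm_apply]
        exact tEl_mem
      rw [← heq] at ht
      have h1 := (hpart _).mp (Subgroup.mem_inf.mp ht).1
      rw [φ.apply_symm_apply] at h1
      exact tEl_not_part h1
  · refine lt_of_le_of_ne ?_ ?_
    · intro g hg
      exact mem_alternatingGroup.mpr ((hsign g).symm.trans hg.1)
    · intro heq
      have hc : φ.symm cEl ∈ alternatingGroup Ω := by
        rw [mem_alternatingGroup, ← hsign, φ.apply_symm_apply]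
        exact cEl_sign
      rw [← heq] at hc
      have h1 : φ (φ.symm cEl) ∈ affEven := hc
      rw [φ.apply_symm_apply] at h1
      exact cEl_not_mem h1

end Cfsg.Agent.S5910
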