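import Cfsg.Statements.S5911

set_option autoImplicit false
open Cfsg

namespace Cfsg.Agent.S5911

open Equiv Equiv.Perm

/-! ### Numeric core -/

lemma numStep {a b x y : ℕ} (hab : a ≤ b) (hb : 0 < b) (hxy : x < y) : a * x < b * y :=
  lt_of_le_of_lt (Nat.mul_le_mul_right _ hab) ((Nat.mul_lt_mul_left hb).mpr hxy)

lemma numA : ∀ k : ℕ, Nat.factorial 1 * 2 ^ (k + 2) * Nat.factorial (k + 2)
    < Nat.factorial (2 * k + 2 + 1) * 2 := by
  intro k
  induction k with
  | zero => decide
  | succ k ih =>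
    have f3 : Nat.factorial (k + 1 + 2) = (k + 3) * Nat.factorial (k + 2) :=
      Nat.factorial_succ (k + 2)
    have f1 : Nat.factorial (2 * (k + 1) + 2 + 1) = (2 * k + 2 + 1 + 1 + 1) *
        ((2 * k + 2 + 1 + 1) * Nat.factorial (2 * k + 2 + 1)) := by
      have e : 2 * (k + 1) + 2 + 1 = (2 * k + 2 + 1) + 1 + 1 := by ring
      rw [e, Nat.factorial_succ (2 * k + 2 + 1 + 1), Nat.factorial_succ (2 * k + 2 + 1)]
    have e3 : (2 : ℕ) ^ (k + 1 + 2) = 2 ^ (k + 2) * 2 := by ring
    rw [f1, f3, e3]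
    have h3 : 2 * (k + 3) ≤ (2 * k + 2 + 1 + 1 + 1) * (2 * k + 2 + 1 + 1) := by nlinarith
    have hL : Nat.factorial 1 * (2 ^ (k + 2) * 2) * ((k + 3) * Nat.factorial (k + 2))
        = (2 * (k + 3)) * (Nat.factorial 1 * 2 ^ (k + 2) * Nat.factorial (k + 2)) := by ring
    have hR : (2 * k + 2 + 1 + 1 + 1) * ((2 * k + 2 + 1 + 1) * Nat.factorial (2 * k + 2 + 1)) * 2
        = ((2 * k + 2 + 1 + 1 + 1) * (2 * k + 2 + 1 + 1)) * (Nat.factorial (2 * k + 2 + 1) * 2) := by
      ring
    rw [hL, hR]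
    exact numStep h3 (by positivity) ih

lemma numB : ∀ k : ℕ, Nat.factorial 0 * 2 ^ (k + 2 + 2) * Nat.factorial (k + 2 + 2)
    < Nat.factorial (2 * (k + 2) + 2 + 0) * 2 := by
  intro k
  induction k with
  | zero => decide
  | succ k ih =>
    have f3 : Nat.factorial (k + 1 + 2 + 2) = (k + 5) * Nat.factorial (k + 2 + 2) :=
      Nat.factorial_succ (k + 2 + 2)
    have f1 : Nat.factorial (2 * (k + 1 + 2) + 2 + 0) = (2 * (k + 2) + 2 + 0 + 1 + 1) *
        ((2 * (k + 2) + 2 + 0 + 1) * Nat.factorial (2 * (k + 2) + 2 + 0)) := by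
      have e : 2 * (k + 1 + 2) + 2 + 0 = (2 * (k + 2) + 2 + 0) + 1 + 1 := by ring
      rw [e, Nat.factorial_succ (2 * (k + 2) + 2 + 0 + 1), Nat.factorial_succ (2 * (k + 2) + 2 + 0)]
    have e3 : (2 : ℕ) ^ (k + 1 + 2 + 2) = 2 ^ (k + 2 + 2) * 2 := by ring
    rw [f1, f3, e3]
    have h3 : 2 * (k + 5) ≤ (2 * (k + 2) + 2 + 0 + 1 + 1) * (2 * (k + 2) + 2 + 0 + 1) := by
      nlinarith
    have hL : Nat.factorial 0 * (2 ^ (k + 2 + 2) * 2) * ((k + 5) * Nat.factorial (k + 2 + 2))
        = (2 * (k + 5)) * (Nat.factorial 0 * 2 ^ (k + 2 + 2) * Nat.factorial (k + 2 + 2)) := by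
      ring
    have hR : (2 * (k + 2) + 2 + 0 + 1 + 1) *
          ((2 * (k + 2) + 2 + 0 + 1) * Nat.factorial (2 * (k + 2) + 2 + 0)) * 2
        = ((2 * (k + 2) + 2 + 0 + 1 + 1) * (2 * (k + 2) + 2 + 0 + 1)) *
          (Nat.factorial (2 * (k + 2) + 2 + 0) * 2) := by
      ring
    rw [hL, hR]
    exact numStep h3 (by positivity) ih

lemma numC (k j : ℕ)
    (h : Nat.factorial j * 2 ^ (k + 2) * Nat.factorial (k + 2) < Nat.factorial (2 * k + 2 + j) * 2) :
    Nat.factorial (j + 1) * 2 ^ (k + 2) * Nat.factorial (k + 2)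
      < Nat.factorial (2 * k + 2 + (j + 1)) * 2 := by
  have f1 : Nat.factorial (2 * k + 2 + (j + 1)) = (2 * k + 2 + j + 1) * Nat.factorial (2 * k + 2 + j) :=
    Nat.factorial_succ (2 * k + 2 + j)
  have f2 : Nat.factorial (j + 1) = (j + 1) * Nat.factorial j := Nat.factorial_succ j
  rw [f1, f2]
  have h3 : j + 1 ≤ 2 * k + 2 + j + 1 := by omega
  have hL : (j + 1) * Nat.factorial j * 2 ^ (k + 2) * Nat.factorial (k + 2)
      = (j + 1) * (Nat.factorial j * 2 ^ (k + 2) * Nat.factorial (k + 2)) := by ring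
  have hR : (2 * k + 2 + j + 1) * Nat.factorial (2 * k + 2 + j) * 2
      = (2 * k + 2 + j + 1) * (Nat.factorial (2 * k + 2 + j) * 2) := by ring
  rw [hL, hR]
  exact numStep h3 (by positivity) h

lemma numD (k j : ℕ) (h : 1 ≤ j ∨ 2 ≤ k) :
    Nat.factorial j * 2 ^ (k + 2) * Nat.factorial (k + 2) < Nat.factorial (2 * k + 2 + j) * 2 := by
  induction j with
  | zero =>
    rcases h with h | h
    · omega
    · obtain ⟨k', rfl⟩ : ∃ k', k = k' + 2 := ⟨k - 2, by omega⟩
      exact numB k'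
  | succ j ih =>
    rcases Nat.eq_zero_or_pos j with hj | hj
    · subst hj
      exact numA k
    · exact numC k j (ih (Or.inl hj))

lemma numE (n m : ℕ) (hm : 1 ≤ m) (hmn : 2 * m ≤ n) (hn : n ≠ 6)
    (h : Nat.factorial (n - 2 * m) * 2 ^ m * Nat.factorial m = Nat.factorial (n - 2) * 2) :
    m = 1 := by
  by_contra hm1
  obtain ⟨k, rfl⟩ : ∃ k, m = k + 2 := ⟨m - 2, by omega⟩
  obtain ⟨j, rfl⟩ : ∃ j, n = 2 * (k + 2) + j := ⟨n - 2 * (k + 2), by omega⟩
  have e1 : 2 * (k + 2) + j - 2 * (k + 2) = j := by omega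
  have e2 : 2 * (k + 2) + j - 2 = 2 * k + 2 + j := by omega
  rw [e1, e2] at h
  by_cases hc : 1 ≤ j ∨ 2 ≤ k
  · exact absurd h (numD k j hc).ne
  · have hj : j = 0 := by omega
    subst hj
    have hk : k = 0 ∨ k = 1 := by omega
    rcases hk with rfl | rfl
    · revert h; decide
    · exact hn (by norm_num)

/-! ### Swaps -/

lemma swap_comm_disj {A : Type*} [DecidableEq A] {a b c d : A}
    (hac : a ≠ c) (had : a ≠ d) (hbc : b ≠ c) (hbd : b ≠ d) :
    swap a b * swap c d = swap c d * swap a b := by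
  have hd : Perm.Disjoint (swap a b) (swap c d) := by
    intro z
    by_cases hza : z = a
    · right; rw [hza]; exact swap_apply_of_ne_of_ne hac had
    by_cases hzb : z = b
    · right; rw [hzb]; exact swap_apply_of_ne_of_ne hbc hbd
    · left; exact swap_apply_of_ne_of_ne hza hzb
  exact hd.commute.eq

lemma swap_nc {B : Type*} [DecidableEq B] {p q r : B} (hpq : p ≠ q) (hpr : p ≠ r) (hqr : q ≠ r) :
    swap p q * swap p r ≠ swap p r * swap p q := by
  intro h
  have h1 := DFunLike.congr_fun h p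
  rw [Perm.mul_apply, Perm.mul_apply, swap_apply_left, swap_apply_left,
    swap_apply_of_ne_of_ne hpr.symm hqr.symm, swap_apply_of_ne_of_ne hpq.symm hqr] at h1
  exact hqr h1.symm

lemma two_swaps {A : Type*} [DecidableEq A] {t t' : Perm A} (ht : t.IsSwap) (ht' : t'.IsSwap)
    (hne : t * t' ≠ t' * t) :
    ∃ x y z, x ≠ y ∧ x ≠ z ∧ y ≠ z ∧ t = swap x y ∧ t' = swap x z := by
  obtain ⟨a, b, hab, rfl⟩ := ht
  obtain ⟨c, d, hcd, rfl⟩ := ht'
  by_cases hac : a = c
  · subst hac
    refine ⟨a, b, d, hab, hcd, ?_, rfl, rfl⟩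
    rintro rfl
    exact hne rfl
  by_cases had : a = d
  · subst had
    refine ⟨a, b, c, hab, hac, ?_, rfl, swap_comm c a⟩
    rintro rfl
    exact hne (by rw [swap_comm b a])
  by_cases hbc : b = c
  · subst hbc
    exact ⟨b, a, d, hab.symm, hcd, had, swap_comm a b, rfl⟩
  by_cases hbd : b = d
  · subst hbd
    exact ⟨b, a, c, hab.symm, fun h => hbc h, hac, swap_comm a b, swap_comm c b⟩
  · exact absurd (swap_comm_disj hac had hbc hbd) hne

lemma moves_swap {B : Type*} [DecidableEq B] {s : Perm B} (hs : s.IsSwap) {p : B}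
    (hp : s p ≠ p) : ∃ q, q ≠ p ∧ s = swap p q := by
  obtain ⟨e, f, hef, rfl⟩ := hs
  by_cases hpe : p = e
  · subst hpe
    exact ⟨f, hef.symm, rfl⟩
  by_cases hpf : p = f
  · subst hpf
    exact ⟨e, hef, swap_comm e p⟩
  · exact absurd (swap_apply_of_ne_of_ne hpe hpf) hp

/-- An isomorphism between symmetric groups of the same degree `≠ 6` maps swaps to swaps. -/
lemma swap_map {A B : Type*} [Fintype A] [DecidableEq A] [Fintype B] [DecidableEq B]
    (hAB : Fintype.card A = Fintype.card B) (h6 : Fintype.card A ≠ 6)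
    (ψ : Perm A ≃* Perm B) {a b : A} (hab : a ≠ b) : (ψ (swap a b)).IsSwap := by
  have ho : orderOf (ψ (swap a b)) = 2 := by
    rw [MulEquiv.orderOf_eq]
    exact Equiv.Perm.IsSwap.orderOf ⟨a, b, hab, rfl⟩
  obtain ⟨k, hk⟩ := cycleType_prime_order (σ := ψ (swap a b)) (by rw [ho]; exact Nat.prime_two)
  rw [ho] at hk
  have hc : Nat.card (Subgroup.centralizer {ψ (swap a b)})
      = Nat.card (Subgroup.centralizer {swap a b}) := by
    apply Nat.card_congr
    refine (Equiv.subtypeEquiv ψ.toEquiv ?_).symm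
    intro g
    rw [Subgroup.mem_centralizer_singleton_iff, Subgroup.mem_centralizer_singleton_iff]
    show g * swap a b = swap a b * g ↔ ψ g * ψ (swap a b) = ψ (swap a b) * ψ g
    rw [← map_mul, ← map_mul, ψ.injective.eq_iff]
  rw [nat_card_centralizer, nat_card_centralizer] at hc
  have hsw : (swap a b).cycleType = {2} := by
    rw [(isCycle_swap hab).cycleType, card_support_swap hab]
  have hsum : (ψ (swap a b)).cycleType.sum ≤ Fintype.card B := sum_cycleType_le _
  rw [hk] at hsum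
  rw [hk, hsw] at hc
  simp only [Multiset.sum_replicate, Multiset.prod_replicate, smul_eq_mul, Multiset.sum_singleton,
    Multiset.prod_singleton] at hc hsum
  have htf : (Multiset.replicate (k + 1) 2).toFinset = ({2} : Finset ℕ) := by
    ext x
    rw [Multiset.mem_toFinset, Multiset.mem_replicate, Finset.mem_singleton]
    exact ⟨fun h => h.2, fun h => ⟨Nat.succ_ne_zero k, h⟩⟩
  rw [htf, Multiset.toFinset_singleton, Finset.prod_singleton, Finset.prod_singleton,
    Multiset.count_replicate_self, Multiset.count_singleton_self, Nat.factorial_one, mul_one,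
    hAB, mul_comm (k + 1) 2] at hc
  rw [mul_comm (k + 1) 2] at hsum
  have hk1 : k + 1 = 1 :=
    numE (Fintype.card B) (k + 1) (by omega) hsum (by rw [← hAB]; exact h6) hc
  rw [← card_support_eq_two, ← sum_cycleType, hk, hk1]
  simp

/-- The general case: degree at least 5 and not 6. -/
lemma general {Ω : Type*} [Fintype Ω] [DecidableEq Ω] (h5 : 5 ≤ Fintype.card Ω)
    (h6 : Fintype.card Ω ≠ 6) (H : Subgroup (Perm Ω)) (hH : H.index = Fintype.card Ω) :
    ∃ x : Ω, H ≤ MulAction.stabilizer (Perm Ω) x := by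
  classical
  have : Fintype (Perm Ω ⧸ H) := Fintype.ofFinite _
  have hX : Fintype.card (Perm Ω ⧸ H) = Fintype.card Ω := by
    rw [← Nat.card_eq_fintype_card, ← Subgroup.index_eq_card, hH]
  have hinj : Function.Injective (MulAction.toPermHom (Perm Ω) (Perm Ω ⧸ H)) := by
    rw [← MonoidHom.ker_eq_bot_iff, ← Subgroup.normalCore_eq_ker]
    by_contra hne
    have hnt : Nontrivial ↥H.normalCore := (Subgroup.nontrivial_iff_ne_bot _).mpr hne
    have hle : alternatingGroup Ω ≤ H :=
      (alternatingGroup_le_of_normal (by rw [Nat.card_eq_fintype_card]; exact h5) hnt).trans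
        (Subgroup.normalCore_le H)
    have : Nontrivial Ω := Fintype.one_lt_card_iff_nontrivial.mp (by omega)
    have hd := Subgroup.index_dvd_of_le hle
    rw [alternatingGroup.index_eq_two, hH] at hd
    have := Nat.le_of_dvd (by norm_num) hd
    omega
  have hbij : Function.Bijective (MulAction.toPermHom (Perm Ω) (Perm Ω ⧸ H)) := by
    apply hinj.bijective_of_nat_card_le
    rw [Nat.card_perm, Nat.card_perm, Nat.card_eq_fintype_card, Nat.card_eq_fintype_card, hX]
  obtain ⟨Φ, hΦ⟩ : ∃ Φ : Perm Ω ≃* Perm (Perm Ω ⧸ H), ∀ g q, Φ g q = g • q :=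
    ⟨MulEquiv.ofBijective _ hbij, fun g q => rfl⟩
  obtain ⟨p₀, hp₀⟩ : ∃ p : Perm Ω ⧸ H, p = ((1 : Perm Ω) : Perm Ω ⧸ H) := ⟨_, rfl⟩
  have F1 : ∀ g : Perm Ω, g ∈ H ↔ Φ g p₀ = p₀ := by
    intro g
    rw [hΦ, hp₀, MulAction.Quotient.smul_mk, QuotientGroup.eq]
    simp
  have F2 : ∀ a b : Ω, a ≠ b → (Φ (swap a b)).IsSwap :=
    fun a b hab => swap_map hX.symm h6 Φ hab
  have F3 : ∀ q r : Perm Ω ⧸ H, q ≠ r → (Φ.symm (swap q r)).IsSwap :=
    fun q r hqr => swap_map hX (by rw [hX]; exact h6) Φ.symm hqr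
  obtain ⟨q₁, hq₁⟩ : ∃ q₁, q₁ ≠ p₀ := by
    have : Nontrivial (Perm Ω ⧸ H) := Fintype.one_lt_card_iff_nontrivial.mp (by omega)
    exact exists_ne p₀
  obtain ⟨q₂, -, hq₂⟩ := Finset.exists_mem_notMem_of_card_lt_card (s := {p₀, q₁})
    (t := (Finset.univ : Finset (Perm Ω ⧸ H)))
    (by rw [Finset.card_univ, hX]; exact lt_of_le_of_lt Finset.card_le_two (by omega))
  have hq₂0 : q₂ ≠ p₀ := fun h => hq₂ (by simp [h])
  have hq₂1 : q₂ ≠ q₁ := fun h => hq₂ (by simp [h])
  have hnc : Φ.symm (swap p₀ q₁) * Φ.symm (swap p₀ q₂) ≠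
      Φ.symm (swap p₀ q₂) * Φ.symm (swap p₀ q₁) := by
    intro h
    apply swap_nc hq₁.symm hq₂0.symm hq₂1.symm
    have h' := congrArg Φ h
    simpa using h'
  obtain ⟨x, y, z, hxy, hxz, hyz, ht, ht'⟩ :=
    two_swaps (F3 p₀ q₁ hq₁.symm) (F3 p₀ q₂ hq₂0.symm) hnc
  have e1 : Φ (swap x y) = swap p₀ q₁ := by rw [← ht, MulEquiv.apply_symm_apply]
  have e2 : Φ (swap x z) = swap p₀ q₂ := by rw [← ht', MulEquiv.apply_symm_apply]
  have tnH : swap x y ∉ H := by
    intro hm
    rw [F1, e1, swap_apply_left] at hm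
    exact hq₁ hm
  have tnH' : swap x z ∉ H := by
    intro hm
    rw [F1, e2, swap_apply_left] at hm
    exact hq₂0 hm
  have key : swap y z = swap x z * swap x y * swap x z := by
    have h1 := swap_apply_apply (swap x z) x y
    rw [swap_apply_left, swap_apply_of_ne_of_ne hxy.symm hyz, swap_inv] at h1
    rw [swap_comm y z]
    exact h1
  have keyH : swap y z ∈ H := by
    have c1 : swap p₀ q₂ p₀ = q₂ := swap_apply_left _ _
    have c2 : swap p₀ q₁ q₂ = q₂ := swap_apply_of_ne_of_ne hq₂0 hq₂1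
    have c3 : swap p₀ q₂ q₂ = p₀ := swap_apply_right _ _
    rw [F1, key, map_mul, map_mul, e1, e2, Perm.mul_apply, Perm.mul_apply, c1, c2, c3]
  have C : ∀ e f : Ω, e ≠ f → swap e f ∉ H → x = e ∨ x = f := by
    intro e f hef hnH
    by_contra hx
    push Not at hx
    obtain ⟨hxe, hxf⟩ := hx
    obtain ⟨q₃, hq₃, e3⟩ := moves_swap (F2 e f hef) (fun h => hnH ((F1 _).mpr h))
    have hne1 : swap e f ≠ swap x y := by
      intro h
      have h1 := DFunLike.congr_fun h x
      rw [swap_apply_of_ne_of_ne hxe hxf, swap_apply_left] at h1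
      exact hxy h1
    have hne2 : swap e f ≠ swap x z := by
      intro h
      have h1 := DFunLike.congr_fun h x
      rw [swap_apply_of_ne_of_ne hxe hxf, swap_apply_left] at h1
      exact hxz h1
    have hq31 : q₃ ≠ q₁ := by
      rintro rfl
      exact hne1 (Φ.injective (e3.trans e1.symm))
    have hq32 : q₃ ≠ q₂ := by
      rintro rfl
      exact hne2 (Φ.injective (e3.trans e2.symm))
    have n1 : swap e f * swap x y ≠ swap x y * swap e f := by
      intro h
      have h' := congrArg Φ h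
      rw [map_mul, map_mul, e1, e3] at h'
      exact swap_nc hq₃.symm hq₁.symm hq31 h'
    have n2 : swap e f * swap x z ≠ swap x z * swap e f := by
      intro h
      have h' := congrArg Φ h
      rw [map_mul, map_mul, e2, e3] at h'
      exact swap_nc hq₃.symm hq₂0.symm hq32 h'
    have m1 : e = y ∨ f = y := by
      by_contra hh
      push Not at hh
      exact n1 (swap_comm_disj hxe.symm hh.1 hxf.symm hh.2)
    have m2 : e = z ∨ f = z := by
      by_contra hh
      push Not at hh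
      exact n2 (swap_comm_disj hxe.symm hh.1 hxf.symm hh.2)
    have hef' : swap e f = swap y z := by
      rcases m1 with h1 | h1
      · rcases m2 with h2 | h2
        · exact absurd (h1.symm.trans h2) hyz
        · rw [h1, h2]
      · rcases m2 with h2 | h2
        · rw [h1, h2, swap_comm]
        · exact absurd (h1.symm.trans h2) hyz
    exact hnH (by rw [hef']; exact keyH)
  refine ⟨x, fun h hh => ?_⟩
  rw [MulAction.mem_stabilizer_iff, Perm.smul_def]
  by_contra hx'
  have u1 : swap (h x) (h y) ∉ H := by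
    rw [swap_apply_apply]
    intro hmem
    apply tnH
    have e : swap x y = h⁻¹ * (h * swap x y * h⁻¹) * h := by group
    rw [e]
    exact H.mul_mem (H.mul_mem (H.inv_mem hh) hmem) hh
  have u2 : swap (h x) (h z) ∉ H := by
    rw [swap_apply_apply]
    intro hmem
    apply tnH'
    have e : swap x z = h⁻¹ * (h * swap x z * h⁻¹) * h := by group
    rw [e]
    exact H.mul_mem (H.mul_mem (H.inv_mem hh) hmem) hh
  have c1 := C (h x) (h y) (fun e => hxy (h.injective e)) u1
  have c2 := C (h x) (h z) (fun e => hxz (h.injective e)) u2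
  rcases c1 with c1 | c1
  · exact hx' c1.symm
  rcases c2 with c2 | c2
  · exact hx' c2.symm
  · exact hyz (h.injective (c1.symm.trans c2))

/-- The small cases `n = 3` and `n = 4`: a prime `p = n - 1`. -/
lemma small {Ω : Type*} [Fintype Ω] [DecidableEq Ω] (p : ℕ) [hp : Fact p.Prime]
    (hcard : Fintype.card Ω = p + 1) (H : Subgroup (Perm Ω)) (d : ℕ) (hd : d = 1 ∨ d = 2)
    (hHc : Nat.card H = p * d) :
    ∃ x : Ω, H ≤ MulAction.stabilizer (Perm Ω) x := by
  obtain ⟨c, hc⟩ := exists_prime_orderOf_dvd_card' (G := H) p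
    (by rw [hHc]; exact dvd_mul_right p d)
  have hKcard : Nat.card (Subgroup.zpowers c) = p := by rw [Nat.card_zpowers, hc]
  have hKidx : (Subgroup.zpowers c).index = d := by
    have h1 := (Subgroup.zpowers c).index_mul_card
    rw [hKcard, hHc, mul_comm p d] at h1
    exact Nat.eq_of_mul_eq_mul_right hp.out.pos h1
  have hconj : ∀ h : H, ∃ i : ℤ, h * c * h⁻¹ = c ^ i := by
    intro h
    have hm : h * c * h⁻¹ ∈ Subgroup.zpowers c := by
      rcases hd with rfl | rfl
      · rw [Subgroup.index_eq_one.mp hKidx]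
        exact Subgroup.mem_top _
      · exact (Subgroup.normal_of_index_eq_two hKidx).conj_mem c (Subgroup.mem_zpowers c) h
    obtain ⟨i, hi⟩ := Subgroup.mem_zpowers_iff.mp hm
    exact ⟨i, hi.symm⟩
  have hc' : orderOf (c : Perm Ω) = p := by rw [Subgroup.orderOf_coe]; exact hc
  obtain ⟨k, hk⟩ := cycleType_prime_order (σ := (c : Perm Ω)) (by rw [hc']; exact hp.out)
  rw [hc'] at hk
  have hsum := sum_cycleType (c : Perm Ω)
  rw [hk, Multiset.sum_replicate, smul_eq_mul] at hsum
  have hle : ((c : Perm Ω).support).card ≤ Fintype.card Ω := Finset.card_le_univ _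
  have hp2 := hp.out.two_le
  have hk0 : k = 0 := by
    rw [← hsum, hcard] at hle
    by_contra hk
    have : 1 ≤ k := Nat.one_le_iff_ne_zero.mpr hk
    nlinarith
  subst hk0
  have hsupp : ((c : Perm Ω).support).card = p := by rw [← hsum]; simp
  have hcompl : ((c : Perm Ω).support)ᶜ.card = 1 := by
    rw [Finset.card_compl, hsupp, hcard]; omega
  obtain ⟨x, hx⟩ := Finset.card_eq_one.mp hcompl
  have hfix : ∀ w : Ω, (c : Perm Ω) w = w ↔ w = x := by
    intro w
    rw [← Perm.notMem_support, ← Finset.mem_compl, hx, Finset.mem_singleton]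
  refine ⟨x, fun h hh => ?_⟩
  rw [MulAction.mem_stabilizer_iff, Perm.smul_def]
  obtain ⟨i, hi⟩ := hconj ⟨h, hh⟩
  have hi' : h * (c : Perm Ω) * h⁻¹ = (c : Perm Ω) ^ i := by
    have h1 := congrArg (Subtype.val) hi
    simpa using h1
  have h1 : ((c : Perm Ω) ^ i) x = x :=
    Perm.zpow_apply_eq_self_of_apply_eq_self ((hfix x).mpr rfl) i
  rw [← hi'] at h1
  have h2 : (c : Perm Ω) (h⁻¹ x) = h⁻¹ x := by
    have h3 := congrArg (⇑(h⁻¹ : Perm Ω)) h1
    simpa [Perm.mul_apply] using h3
  have h3 := (hfix _).mp h2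
  have h4 := congrArg (⇑h) h3
  simpa using h4.symm

/-- Let Ω be a finite set whose size n is not 6. Then every subgroup of the symmetric group on Ω of index n is the stabilizer of a point. -/
theorem result {Ω : Type*} [Fintype Ω] [DecidableEq Ω] (h6 : Fintype.card Ω ≠ 6)
    (H : Subgroup (Equiv.Perm Ω)) (hH : H.index = Fintype.card Ω) :
    ∃ x : Ω, H = MulAction.stabilizer (Equiv.Perm Ω) x := by
  have hpos : 0 < Fintype.card Ω := by
    rw [← hH]; exact Nat.pos_of_ne_zero Subgroup.index_ne_zero_of_finite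
  have hex : ∃ x : Ω, H ≤ MulAction.stabilizer (Equiv.Perm Ω) x := by
    have hcard : Nat.card H * Fintype.card Ω = Nat.factorial (Fintype.card Ω) := by
      have h1 := H.card_mul_index
      rw [hH, Nat.card_perm, Nat.card_eq_fintype_card (α := Ω)] at h1
      exact h1
    rcases Nat.lt_or_ge (Fintype.card Ω) 5 with hlt | hge
    · have : Nonempty Ω := Fintype.card_pos_iff.mp hpos
      have hn : Fintype.card Ω = 1 ∨ Fintype.card Ω = 2 ∨ Fintype.card Ω = 3 ∨
          Fintype.card Ω = 4 := by omega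
      rcases hn with hn | hn | hn | hn
      · have e : Nat.factorial 1 = 1 := rfl
        rw [hn, e] at hcard
        have hb : H = ⊥ := Subgroup.card_eq_one.mp (by omega)
        exact ⟨Classical.arbitrary Ω, by rw [hb]; exact bot_le⟩
      · have e : Nat.factorial 2 = 2 := rfl
        rw [hn, e] at hcard
        have hb : H = ⊥ := Subgroup.card_eq_one.mp (by omega)
        exact ⟨Classical.arbitrary Ω, by rw [hb]; exact bot_le⟩
      · have e : Nat.factorial 3 = 6 := rfl
        rw [hn, e] at hcard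
        have : Fact (Nat.Prime 2) := ⟨Nat.prime_two⟩
        exact small 2 (by omega) H 1 (Or.inl rfl) (by omega)
      · have e : Nat.factorial 4 = 24 := rfl
        rw [hn, e] at hcard
        have : Fact (Nat.Prime 3) := ⟨Nat.prime_three⟩
        exact small 3 (by omega) H 2 (Or.inr rfl) (by omega)
    · exact general hge h6 H hH
  obtain ⟨x, hx⟩ := hex
  refine ⟨x, le_antisymm hx ?_⟩
  rw [← Subgroup.relIndex_eq_one]
  have h1 := Subgroup.relIndex_mul_index hx
  have h2 : (MulAction.stabilizer (Equiv.Perm Ω) x).index = Fintype.card Ω := by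
    rw [MulAction.index_stabilizer_of_transitive (Equiv.Perm Ω) x, Nat.card_eq_fintype_card]
  rw [h2, hH] at h1
  exact Nat.eq_of_mul_eq_mul_right hpos (by rw [h1, one_mul])

end Cfsg.Agent.S5911
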