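import Cfsg.Statements.S5912
import Cfsg.Agent.Helper29.SymSix

set_option autoImplicit false
open Cfsg

namespace Cfsg.Agent.S5912

open Equiv Equiv.Perm Cfsg.Agent.Helper29

/-- The symmetric group on a 6-element set Ω has exactly two conjugacy classes of subgroups of index 6: there are two non-conjugate subgroups of index 6 (a point stabilizer and a transitive subgroup isomorphic to S₅), and every subgroup of index 6 is conjugate to one of them. -/
theorem result {Ω : Type*} [Fintype Ω] [DecidableEq Ω] (h6 : Fintype.card Ω = 6) :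
    ∃ H₁ H₂ : Subgroup (Equiv.Perm Ω), H₁.index = 6 ∧ H₂.index = 6 ∧
      (¬ ∃ g : Equiv.Perm Ω, Subgroup.map (MulAut.conj g).toMonoidHom H₁ = H₂) ∧
      ∀ H : Subgroup (Equiv.Perm Ω), H.index = 6 →
        ∃ g : Equiv.Perm Ω, Subgroup.map (MulAut.conj g).toMonoidHom H₁ = H ∨ Subgroup.map (MulAut.conj g).toMonoidHom H₂ = H := by
  obtain ⟨H₂, hH₂, hno⟩ := exists_exotic6 h6
  have hne : Nonempty Ω := Fintype.card_pos_iff.mp (by omega)
  obtain ⟨x₀⟩ := hne
  have hidx : ∀ x : Ω, (MulAction.stabilizer (Perm Ω) x).index = 6 := fun x => by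
    rw [MulAction.index_stabilizer_of_transitive (Perm Ω) x, Nat.card_eq_fintype_card, h6]
  refine ⟨MulAction.stabilizer (Perm Ω) x₀, H₂, hidx x₀, hH₂, ?_, ?_⟩
  · rintro ⟨g, hg⟩
    rw [← MulAction.stabilizer_smul_eq_stabilizer_map_conj] at hg
    exact hno (g • x₀) hg.ge
  · intro H hH
    rcases classify6 h6 H₂ hH₂ hno H hH with ⟨x, rfl⟩ | ⟨q, rfl⟩
    · refine ⟨swap x₀ x, Or.inl ?_⟩
      rw [← MulAction.stabilizer_smul_eq_stabilizer_map_conj]
      have h1 : swap x₀ x • x₀ = x := swap_apply_left x₀ x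
      rw [h1]
    · obtain ⟨g, rfl⟩ := QuotientGroup.mk_surjective q
      refine ⟨g, Or.inr ?_⟩
      have h1 : ((g : Perm Ω) : Perm Ω ⧸ H₂) = g • ((1 : Perm Ω) : Perm Ω ⧸ H₂) := by
        rw [MulAction.Quotient.smul_mk, smul_eq_mul, mul_one]
      rw [h1, MulAction.stabilizer_smul_eq_stabilizer_map_conj, MulAction.stabilizer_quotient]

end Cfsg.Agent.S5912
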