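import Cfsg.Statements.S5914

set_option autoImplicit false
open Cfsg

namespace Cfsg.Agent.S5914

/-- coordinate swap automorphism of a power -/
def swapAut {ι : Type*} [DecidableEq ι] (S : Type*) [Group S] (j k : ι) : (ι → S) ≃* (ι → S) where
  toFun x := x ∘ Equiv.swap j k
  invFun x := x ∘ Equiv.swap j k
  left_inv x := by funext l; simp
  right_inv x := by funext l; simp
  map_mul' x y := rfl

theorem swapAut_mulSingle {ι : Type*} [DecidableEq ι] (S : Type*) [Group S] (j k : ι) (s : S) :
    swapAut S j k (Pi.mulSingle j s) = Pi.mulSingle k s := by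
  funext l
  change (Pi.mulSingle j s : ι → S) (Equiv.swap j k l) = (Pi.mulSingle k s : ι → S) l
  by_cases hl : l = k
  · subst hl; simp
  · rw [Pi.mulSingle_eq_of_ne hl]
    apply Pi.mulSingle_eq_of_ne
    intro h
    apply hl
    have := congrArg (Equiv.swap j k) h
    simpa using this

/-- shear automorphism of a power of a commutative group -/
def shearAut {ι : Type*} [DecidableEq ι] (S : Type*) [Group S] (hcomm : ∀ a b : S, a * b = b * a)
    (i j : ι) (hij : j ≠ i) : (ι → S) ≃* (ι → S) where
  toFun x := x * Pi.mulSingle j (x i)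
  invFun x := x * Pi.mulSingle j (x i)⁻¹
  left_inv x := by
    funext l
    by_cases hl : l = j
    · subst hl
      simp [Pi.mulSingle_eq_of_ne (Ne.symm hij)]
    · simp [Pi.mulSingle_eq_of_ne hl]
  right_inv x := by
    funext l
    by_cases hl : l = j
    · subst hl
      simp [Pi.mulSingle_eq_of_ne (Ne.symm hij)]
    · simp [Pi.mulSingle_eq_of_ne hl]
  map_mul' x y := by
    funext l
    by_cases hl : l = j
    · subst hl
      simp only [Pi.mul_apply, Pi.mulSingle_eq_same]
      rw [mul_assoc, mul_assoc, ← mul_assoc (y l), hcomm (y l) (x i)]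
      simp only [mul_assoc]
    · simp [Pi.mulSingle_eq_of_ne hl]

/-- characteristic subgroups of a power of a simple group are trivial -/
theorem char_pi {n : ℕ} {S : Type*} [Group S] [IsSimpleGroup S] (H : Subgroup (Fin n → S))
    (hH : ∀ ψ : (Fin n → S) ≃* (Fin n → S), ∀ x ∈ H, ψ x ∈ H) : H = ⊥ ∨ H = ⊤ := by
  classical
  by_cases hbot : H = ⊥
  · exact Or.inl hbot
  right
  have hnorm : ∀ g x, x ∈ H → g * x * g⁻¹ ∈ H := fun g x hx => hH (MulAut.conj g) x hx
  obtain ⟨v, hv, hv1⟩ : ∃ v ∈ H, v ≠ 1 := by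
    by_contra hcon
    push Not at hcon
    exact hbot ((Subgroup.eq_bot_iff_forall H).mpr hcon)
  obtain ⟨i, hi⟩ : ∃ i, v i ≠ 1 := by
    by_contra hcon
    push Not at hcon
    exact hv1 (funext hcon)
  -- step 2
  have step2 : ∃ j, ∃ s : S, s ≠ 1 ∧ Pi.mulSingle j s ∈ H := by
    by_cases hc : ∃ t : S, t * v i ≠ v i * t
    · obtain ⟨t, ht⟩ := hc
      refine ⟨i, t * v i * t⁻¹ * (v i)⁻¹, ?_, ?_⟩
      · intro h
        apply ht
        have h3 : t * v i = (t * v i * t⁻¹ * (v i)⁻¹) * (v i * t) := by group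
        rw [h3, h, one_mul]
      · have h1 : (Pi.mulSingle i (t * v i * t⁻¹ * (v i)⁻¹) : Fin n → S) =
            Pi.mulSingle i t * v * (Pi.mulSingle i t)⁻¹ * v⁻¹ := by
          ext j
          by_cases hj : j = i
          · subst hj
            simp
          · simp [Pi.mulSingle_eq_of_ne hj]
        rw [h1]
        exact H.mul_mem (hnorm _ _ hv) (H.inv_mem hv)
    · push Not at hc
      have hcomm : ∀ a b : S, a * b = b * a := by
        have hmem : v i ∈ Subgroup.center S := by
          rw [Subgroup.mem_center_iff]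
          exact hc
        rcases (Subgroup.Normal.eq_bot_or_eq_top (H := Subgroup.center S) inferInstance) with h | h
        · rw [h, Subgroup.mem_bot] at hmem
          exact absurd hmem hi
        · intro a b
          have ha : a ∈ Subgroup.center S := by rw [h]; trivial
          exact ((Subgroup.mem_center_iff.mp ha) b).symm
      by_cases hj : ∃ j, j ≠ i
      · obtain ⟨j, hj⟩ := hj
        refine ⟨j, v i, hi, ?_⟩
        have h1 := hH (shearAut S hcomm i j hj) v hv
        have h2 : v⁻¹ * (v * Pi.mulSingle j (v i)) ∈ H := H.mul_mem (H.inv_mem hv) h1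
        rw [inv_mul_cancel_left] at h2
        exact h2
      · push Not at hj
        refine ⟨i, v i, hi, ?_⟩
        have : (Pi.mulSingle i (v i) : Fin n → S) = v := by
          funext l
          rw [hj l]
          simp
        rw [this]
        exact hv
  obtain ⟨j, s₀, hs₀, hs₀H⟩ := step2
  -- step 3
  have step3 : ∀ s : S, Pi.mulSingle j s ∈ H := by
    let Nj : Subgroup S := H.comap (MonoidHom.mulSingle (fun _ : Fin n => S) j)
    have hNj : Nj.Normal := by
      refine ⟨fun a ha t => ?_⟩
      change Pi.mulSingle j (t * a * t⁻¹) ∈ H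
      have h1 : (Pi.mulSingle j (t * a * t⁻¹) : Fin n → S) =
          Pi.mulSingle j t * Pi.mulSingle j a * (Pi.mulSingle j t)⁻¹ := by
        rw [← Pi.mulSingle_inv, ← Pi.mulSingle_mul, ← Pi.mulSingle_mul]
      rw [h1]
      exact hnorm _ _ ha
    have hne : Nj ≠ ⊥ := by
      intro h
      have h2 : s₀ ∈ Nj := hs₀H
      rw [h, Subgroup.mem_bot] at h2
      exact hs₀ h2
    have htop : Nj = ⊤ := (hNj.eq_bot_or_eq_top).resolve_left hne
    intro s
    have : s ∈ Nj := by rw [htop]; trivial
    exact this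
  -- step 4
  have step4 : ∀ (k : Fin n) (s : S), Pi.mulSingle k s ∈ H := by
    intro k s
    have h1 := hH (swapAut S j k) _ (step3 s)
    rw [swapAut_mulSingle] at h1
    exact h1
  rw [eq_top_iff]
  intro x _
  rw [← Finset.noncommProd_mulSingle x]
  apply Subgroup.noncommProd_mem
  intro k _
  exact step4 k (x k)

/-- extension step -/
theorem extend_step {G : Type*} [Group G] [Finite G]
    (hchar : ∀ H : Subgroup G, H.Characteristic → H = ⊥ ∨ H = ⊤)
    (N : Subgroup G) (hNn : N.Normal) (hNb : N ≠ ⊥)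
    (hmin : ∀ N' : Subgroup G, N'.Normal → N' ≠ ⊥ → Nat.card N ≤ Nat.card N')
    (k : ℕ) (ψ : (Fin k → N) →* G) (hinj : Function.Injective ψ) (hnorm : ψ.range.Normal)
    (hne : ψ.range ≠ ⊤) :
    ∃ ψ' : (Fin (k + 1) → N) →* G, Function.Injective ψ' ∧ ψ'.range.Normal := by
  -- an automorphic image of N outside the range
  have hex : ∃ φ : G ≃* G, ¬ (N.map φ.toMonoidHom ≤ ψ.range) := by
    by_contra hcon
    push Not at hcon
    have hC : (⨆ φ : G ≃* G, N.map φ.toMonoidHom).Characteristic := by
      rw [Subgroup.characteristic_iff_map_le]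
      intro θ
      rw [Subgroup.map_iSup]
      apply iSup_le
      intro φ
      rw [Subgroup.map_map]
      exact le_iSup (fun φ : G ≃* G => N.map φ.toMonoidHom) (φ.trans θ)
    have hle : (⨆ φ : G ≃* G, N.map φ.toMonoidHom) ≤ ψ.range := iSup_le hcon
    have hN : N ≤ ⨆ φ : G ≃* G, N.map φ.toMonoidHom := by
      have := le_iSup (fun φ : G ≃* G => N.map φ.toMonoidHom) (MulEquiv.refl G)
      simpa using this
    rcases hchar _ hC with h | h
    · rw [h] at hN
      exact hNb (le_bot_iff.mp hN)
    · rw [h] at hle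
      exact hne (top_le_iff.mp hle)
  obtain ⟨φ, hφ⟩ := hex
  have hXn : (N.map φ.toMonoidHom).Normal := hNn.map φ.toMonoidHom φ.surjective
  have hXc : Nat.card (N.map φ.toMonoidHom) = Nat.card N :=
    Subgroup.card_map_of_injective φ.injective
  have hdisj : N.map φ.toMonoidHom ⊓ ψ.range = ⊥ := by
    by_contra hcon
    have h1 := hmin _ (Subgroup.normal_inf_normal _ _) hcon
    have h2 : N.map φ.toMonoidHom ⊓ ψ.range = N.map φ.toMonoidHom :=
      Subgroup.eq_of_le_of_card_ge inf_le_left (by rw [hXc]; exact h1)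
    exact hφ (h2 ▸ inf_le_right)
  have hcomm : ∀ x ∈ N.map φ.toMonoidHom, ∀ y ∈ ψ.range, x * y = y * x := by
    intro x hx y hy
    exact Subgroup.commute_of_normal_of_disjoint _ _ hXn hnorm (disjoint_iff.mpr hdisj) x y hx hy
  have hφmem : ∀ a : N, φ (a : G) ∈ N.map φ.toMonoidHom := fun a => ⟨a, a.2, rfl⟩
  let ψ' : (Fin (k + 1) → N) →* G :=
    { toFun := fun x => ψ (Fin.init x) * φ (x (Fin.last k) : G)
      map_one' := by
        have h1 : Fin.init (1 : Fin (k + 1) → N) = (1 : Fin k → N) := rfl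
        rw [h1, map_one]
        simp
      map_mul' := fun x y => by
        have h1 : Fin.init (x * y) = Fin.init x * Fin.init y := rfl
        rw [h1, map_mul, Pi.mul_apply, Subgroup.coe_mul, map_mul]
        have hc := hcomm _ (hφmem (x (Fin.last k))) _ ⟨Fin.init y, rfl⟩
        calc ψ (Fin.init x) * ψ (Fin.init y) * (φ ↑(x (Fin.last k)) * φ ↑(y (Fin.last k)))
            = ψ (Fin.init x) * (ψ (Fin.init y) * φ ↑(x (Fin.last k))) * φ ↑(y (Fin.last k)) := by
              group
          _ = ψ (Fin.init x) * (φ ↑(x (Fin.last k)) * ψ (Fin.init y)) * φ ↑(y (Fin.last k)) := by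
              rw [hc]
          _ = ψ (Fin.init x) * φ ↑(x (Fin.last k)) * (ψ (Fin.init y) * φ ↑(y (Fin.last k))) := by
              group }
  have hψ' : ∀ x, ψ' x = ψ (Fin.init x) * φ (x (Fin.last k) : G) := fun x => rfl
  refine ⟨ψ', ?_, ?_⟩
  · rw [injective_iff_map_eq_one]
    intro x hx
    rw [hψ'] at hx
    have h1 : ψ (Fin.init x) = (φ (x (Fin.last k) : G))⁻¹ := eq_inv_of_mul_eq_one_left hx
    have h2 : ψ (Fin.init x) ∈ N.map φ.toMonoidHom ⊓ ψ.range :=
      ⟨by rw [h1]; exact Subgroup.inv_mem _ (hφmem _), ⟨_, rfl⟩⟩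
    rw [hdisj, Subgroup.mem_bot] at h2
    have h3 : Fin.init x = 1 := by
      apply hinj
      rw [h2, map_one]
    have h4 : x (Fin.last k) = 1 := by
      rw [h2, one_mul] at hx
      have := φ.injective (hx.trans (map_one φ).symm)
      exact Subtype.ext this
    funext i
    refine Fin.lastCases ?_ (fun j => ?_) i
    · exact h4
    · exact congrFun h3 j
  · refine ⟨fun y hy g => ?_⟩
    obtain ⟨x, rfl⟩ := hy
    rw [hψ']
    obtain ⟨u, hu⟩ := hnorm.conj_mem _ ⟨Fin.init x, rfl⟩ g
    obtain ⟨n', hn', hn'eq⟩ := hXn.conj_mem _ (hφmem (x (Fin.last k))) g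
    refine ⟨Fin.snoc u ⟨n', hn'⟩, ?_⟩
    rw [hψ', Fin.init_snoc, Fin.snoc_last, hu]
    change g * ψ (Fin.init x) * g⁻¹ * φ n' = _
    have : φ n' = g * φ ↑(x (Fin.last k)) * g⁻¹ := hn'eq
    rw [this]
    group

/-- A non-trivial finite group G is characteristically simple (its only characteristic subgroups are 1 and G) if and only if G is isomorphic to a direct power S^n (n ≥ 1) of some simple group S (possibly cyclic of prime order). -/
theorem result {G : Type*} [Group G] [Finite G] [Nontrivial G] :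
    (∀ H : Subgroup G, H.Characteristic → H = ⊥ ∨ H = ⊤) ↔
    ∃ (S : Type) (_ : Group S) (_ : IsSimpleGroup S) (n : ℕ), 1 ≤ n ∧ Nonempty (G ≃* (Fin n → S)) := by
  classical
  constructor
  · intro hchar
    have hex : ∃ c, ∃ N : Subgroup G, N.Normal ∧ N ≠ ⊥ ∧ Nat.card N = c :=
      ⟨_, ⊤, inferInstance, top_ne_bot, rfl⟩
    obtain ⟨N, hNn, hNb, hNc⟩ := Nat.find_spec hex
    have hmin : ∀ N' : Subgroup G, N'.Normal → N' ≠ ⊥ → Nat.card N ≤ Nat.card N' := by
      intro N' h1 h2
      rw [hNc]
      exact Nat.find_min' hex ⟨N', h1, h2, rfl⟩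
    have hQ : ∃ (k : ℕ) (ψ : (Fin k → N) →* G), Function.Injective ψ ∧ ψ.range = ⊤ := by
      by_contra hno
      push Not at hno
      have hall : ∀ k, ∃ ψ : (Fin k → N) →* G, Function.Injective ψ ∧ ψ.range.Normal := by
        intro k
        induction k with
        | zero =>
          refine ⟨1, Function.injective_of_subsingleton _, ?_⟩
          rw [MonoidHom.range_one]
          infer_instance
        | succ k ih =>
          obtain ⟨ψ, h1, h2⟩ := ih
          exact extend_step hchar N hNn hNb hmin k ψ h1 h2 (hno k ψ h1)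
      obtain ⟨ψ, h1, -⟩ := hall (Nat.card G)
      have h3 : Nat.card (Fin (Nat.card G) → N) ≤ Nat.card G :=
        Nat.card_le_card_of_injective ψ h1
      rw [Nat.card_fun, Nat.card_fin] at h3
      have h4 : 1 < Nat.card N := (Subgroup.one_lt_card_iff_ne_bot N).mpr hNb
      have h5 : Nat.card G < 2 ^ Nat.card G := Nat.lt_two_pow_self
      have h6 : 2 ^ Nat.card G ≤ Nat.card N ^ Nat.card G := Nat.pow_le_pow_left h4 _
      omega
    obtain ⟨k, ψ, hinj, hrange⟩ := hQ
    have hsurj : Function.Surjective ψ := MonoidHom.range_eq_top.mp hrange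
    have hk : 1 ≤ k := by
      by_contra h0
      have hk0 : k = 0 := by omega
      subst hk0
      obtain ⟨a, b, hab⟩ := exists_pair_ne G
      obtain ⟨x, rfl⟩ := hsurj a
      obtain ⟨y, rfl⟩ := hsurj b
      exact hab (congrArg ψ (Subsingleton.elim x y))
    have hNnt : Nontrivial N := (Subgroup.nontrivial_iff_ne_bot N).mpr hNb
    have hsimple : IsSimpleGroup N := by
      refine ⟨fun A hA => ?_⟩
      by_cases hAb : A = ⊥
      · exact Or.inl hAb
      right
      let i₀ : Fin k := ⟨0, hk⟩
      let A1 : Subgroup (Fin k → N) := A.map (MonoidHom.mulSingle (fun _ : Fin k => ↥N) i₀)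
      have hA1n : A1.Normal := by
        refine ⟨fun y hy g => ?_⟩
        obtain ⟨a, ha, rfl⟩ := hy
        refine ⟨g i₀ * a * (g i₀)⁻¹, hA.conj_mem a ha (g i₀), ?_⟩
        funext j
        by_cases hj : j = i₀
        · subst hj; simp
        · simp [Pi.mulSingle_eq_of_ne hj]
      have hA2n : (A1.map ψ).Normal := hA1n.map ψ hsurj
      have hcard : Nat.card (A1.map ψ) = Nat.card A := by
        rw [Subgroup.card_map_of_injective hinj]
        exact Subgroup.card_map_of_injective (Pi.mulSingle_injective (M := fun _ : Fin k => ↥N) i₀)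
      have hA2b : A1.map ψ ≠ ⊥ := by
        rw [← Subgroup.one_lt_card_iff_ne_bot, hcard, Subgroup.one_lt_card_iff_ne_bot]
        exact hAb
      have h1 := hmin _ hA2n hA2b
      rw [hcard] at h1
      exact Subgroup.eq_top_of_le_card A h1
    have e0 : Shrink.{0} N ≃* N := Shrink.mulEquiv
    have hsimple' : IsSimpleGroup (Shrink.{0} N) := e0.isSimpleGroup
    refine ⟨Shrink.{0} N, inferInstance, hsimple', k, hk, ⟨?_⟩⟩
    exact (MulEquiv.ofBijective ψ ⟨hinj, hsurj⟩).symm.trans
      (MulEquiv.piCongrRight (fun _ => e0.symm))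
  · rintro ⟨S, hSg, hSs, n, hn, ⟨e⟩⟩ H hH
    have key := char_pi (H.map e.toMonoidHom) (by
      intro ψ x hx
      obtain ⟨h, hh, rfl⟩ := hx
      have h1 := (Subgroup.characteristic_iff_map_le.mp hH) (e.trans (ψ.trans e.symm))
      have h2 : e.symm (ψ (e h)) ∈ H := h1 ⟨h, hh, rfl⟩
      exact ⟨_, h2, by simp⟩)
    rcases key with h | h
    · left
      exact (Subgroup.map_eq_bot_iff_of_injective H e.injective).mp h
    · right
      rw [eq_top_iff]
      intro g _
      have hg : e g ∈ H.map e.toMonoidHom := by rw [h]; trivial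
      obtain ⟨g', hg', hgg'⟩ := hg
      have := e.injective hgg'
      rw [← this]; exact hg'

end Cfsg.Agent.S5914
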