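import Mathlib
import Cfsg.Statements.S5939
import Cfsg.Agent.Helper14.SubF
import Cfsg.Agent.S0804

set_option autoImplicit false
open Cfsg

namespace Cfsg.Agent.S5939

theorem mem_a : c[(0 : Fin 5), 1, 2] ∈ alternatingGroup (Fin 5) := by
  rw [Equiv.Perm.mem_alternatingGroup]
  decide

theorem mem_b : c[(0 : Fin 5), 1, 3] ∈ alternatingGroup (Fin 5) := by
  rw [Equiv.Perm.mem_alternatingGroup]
  decide

theorem mem_z : c[(0 : Fin 5), 1, 2, 3, 4] ∈ alternatingGroup (Fin 5) := by
  rw [Equiv.Perm.mem_alternatingGroup]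
  decide

theorem card_a5 : Nat.card (alternatingGroup (Fin 5)) = 60 := by
  rw [nat_card_alternatingGroup, Nat.card_eq_fintype_card, Fintype.card_fin]
  rfl

theorem ab_ne : (⟨c[(0 : Fin 5), 1, 2], mem_a⟩ : alternatingGroup (Fin 5)) * ⟨c[(0 : Fin 5), 1, 2], mem_a⟩
    * (⟨c[(0 : Fin 5), 1, 3], mem_b⟩ * ⟨c[(0 : Fin 5), 1, 3], mem_b⟩) ≠
    (⟨c[(0 : Fin 5), 1, 3], mem_b⟩ : alternatingGroup (Fin 5)) * ⟨c[(0 : Fin 5), 1, 3], mem_b⟩
    * (⟨c[(0 : Fin 5), 1, 2], mem_a⟩ * ⟨c[(0 : Fin 5), 1, 2], mem_a⟩) := by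
  decide

set_option maxRecDepth 100000 in
theorem z_pow : (⟨c[(0 : Fin 5), 1, 2, 3, 4], mem_z⟩ : alternatingGroup (Fin 5)) ^ 5 = 1 := by
  decide

theorem z_ne : (⟨c[(0 : Fin 5), 1, 2, 3, 4], mem_z⟩ : alternatingGroup (Fin 5)) ≠ 1 := by
  decide

theorem simple_index_bound {G : Type*} [Group G] [Finite G] [IsSimpleGroup G] (M : Subgroup G)
    (hM : M ≠ ⊤) : Nat.card G ≤ (M.index).factorial := by
  have hcore : M.normalCore = ⊥ := by
    rcases Subgroup.Normal.eq_bot_or_eq_top (inferInstance : M.normalCore.Normal) with h | h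
    · exact h
    · exfalso
      apply hM
      rw [eq_top_iff, ← h]
      exact Subgroup.normalCore_le M
  rw [Subgroup.normalCore_eq_ker] at hcore
  have hinj : Function.Injective (MulAction.toPermHom G (G ⧸ M)) :=
    (MonoidHom.ker_eq_bot_iff _).mp hcore
  have h1 := Nat.card_le_card_of_injective _ hinj
  rw [Nat.card_perm] at h1
  exact h1

theorem ns2 : ¬ IsSquare ((2 : ℕ) : ZMod 5) := by decide

theorem ns3 : ¬ IsSquare ((3 : ℕ) : ZMod 5) := by decide

theorem not_sq_five (p : ℕ) [Fact p.Prime] (hp : p % 10 = 3 ∨ p % 10 = 7) :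
    ¬ IsSquare ((5 : ℕ) : ZMod p) := by
  have : Fact (Nat.Prime 5) := ⟨by norm_num⟩
  have hp2 : p ≠ 2 := by omega
  rw [← ZMod.exists_sq_eq_prime_iff_of_mod_four_eq_one (p := 5) (q := p) (by norm_num) hp2]
  rw [← ZMod.natCast_mod p 5]
  have h5 : p % 5 = 2 ∨ p % 5 = 3 := by omega
  rcases h5 with h | h
  · rw [h]
    exact ns2
  · rw [h]
    exact ns3

/-- Let p be a prime and F a finite field of characteristic p such that either F has p elements and p ≡ ±1 (mod 10), or F has p² elements and p ≡ ±3 (mod 10). Then PSL_2(F) has a maximal subgroup isomorphic to the alternating group A_5. -/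
theorem result {F : Type*} [Field F] [Fintype F] (p : ℕ) [Fact p.Prime] [CharP F p] (h : (Fintype.card F = p ∧ (p % 10 = 1 ∨ p % 10 = 9)) ∨ (Fintype.card F = p ^ 2 ∧ (p % 10 = 3 ∨ p % 10 = 7))) : ∃ H : Subgroup (Matrix.ProjectiveSpecialLinearGroup (Fin 2) F), IsCoatom H ∧ Nonempty (H ≃* alternatingGroup (Fin 5)) := by
  classical
  have hpp : p.Prime := Fact.out
  have hex : ∃ H : Subgroup (Matrix.ProjectiveSpecialLinearGroup (Fin 2) F),
      Nonempty (H ≃* alternatingGroup (Fin 5)) := by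
    rcases h with ⟨hF, hp⟩ | ⟨hF, hp⟩
    · apply (Cfsg.Agent.S0804.result hF).mpr
      have h1 : p ^ 2 % 5 = 1 := by
        rw [Nat.pow_mod]
        have : p % 5 = 1 ∨ p % 5 = 4 := by omega
        rcases this with h | h <;> rw [h]
      have h2 : 5 ∣ p ^ 2 - 1 := by
        apply Nat.dvd_of_mod_eq_zero
        have : 1 ≤ p ^ 2 := Nat.one_le_pow _ _ hpp.pos
        omega
      exact Dvd.dvd.mul_left h2 p
    · apply (Cfsg.Agent.S0804.result hF).mpr
      have h1 : (p ^ 2) ^ 2 % 5 = 1 := by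
        rw [← pow_mul, Nat.pow_mod]
        have : p % 5 = 2 ∨ p % 5 = 3 := by omega
        rcases this with h | h <;> rw [h]
      have h2 : 5 ∣ (p ^ 2) ^ 2 - 1 := by
        apply Nat.dvd_of_mod_eq_zero
        have : 1 ≤ (p ^ 2) ^ 2 := Nat.one_le_pow _ _ (pow_pos hpp.pos 2)
        omega
      exact Dvd.dvd.mul_left h2 (p ^ 2)
  obtain ⟨H, ⟨e⟩⟩ := hex
  refine ⟨H, ?_, ⟨e⟩⟩
  have hcardH : Nat.card H = 60 := by
    rw [Nat.card_congr e.toEquiv, card_a5]
  obtain ⟨a, ha⟩ : ∃ a : alternatingGroup (Fin 5), a = ⟨c[(0 : Fin 5), 1, 2], mem_a⟩ := ⟨_, rfl⟩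
  obtain ⟨b, hb⟩ : ∃ b : alternatingGroup (Fin 5), b = ⟨c[(0 : Fin 5), 1, 3], mem_b⟩ := ⟨_, rfl⟩
  obtain ⟨z, hz⟩ : ∃ z : alternatingGroup (Fin 5), z = ⟨c[(0 : Fin 5), 1, 2, 3, 4], mem_z⟩ :=
    ⟨_, rfl⟩
  have hab : a * a * (b * b) ≠ b * b * (a * a) := by
    rw [ha, hb]
    exact ab_ne
  have hxy : ((e.symm a : H) : Matrix.ProjectiveSpecialLinearGroup (Fin 2) F)
      * (e.symm a : H) * (((e.symm b : H) : Matrix.ProjectiveSpecialLinearGroup (Fin 2) F) * (e.symm b : H))
      ≠ ((e.symm b : H) : Matrix.ProjectiveSpecialLinearGroup (Fin 2) F)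
      * (e.symm b : H) * (((e.symm a : H) : Matrix.ProjectiveSpecialLinearGroup (Fin 2) F) * (e.symm a : H)) := by
    intro h
    apply hab
    apply e.symm.injective
    apply Subtype.ext
    simp only [map_mul, Subgroup.coe_mul]
    exact h
  have hz5 : ((e.symm z : H) : Matrix.ProjectiveSpecialLinearGroup (Fin 2) F) ^ 5 = 1 := by
    rw [← Subgroup.coe_pow, ← map_pow, hz, z_pow, map_one]
    rfl
  have hz1 : ((e.symm z : H) : Matrix.ProjectiveSpecialLinearGroup (Fin 2) F) ≠ 1 := by
    intro h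
    have h1 : e.symm z = 1 := Subtype.ext h
    rw [hz] at h1
    exact z_ne (e.symm.injective (by rw [h1, map_one]))
  have hcop7 : 7 ≤ p → ¬ p ∣ Nat.card H := by
    intro hp7
    rw [hcardH]
    intro hd
    have h60 : (60 : ℕ) = 2 ^ 2 * 3 * 5 := by norm_num
    rw [h60] at hd
    rcases (Nat.Prime.dvd_mul hpp).mp hd with h | h
    · rcases (Nat.Prime.dvd_mul hpp).mp h with h | h
      · have := (Nat.prime_dvd_prime_iff_eq hpp Nat.prime_two).mp (hpp.dvd_of_dvd_pow h)
        omega
      · have := (Nat.prime_dvd_prime_iff_eq hpp Nat.prime_three).mp h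
        omega
    · have := (Nat.prime_dvd_prime_iff_eq hpp Nat.prime_five).mp h
      omega
  have hfin : ∀ M : Subgroup (Matrix.ProjectiveSpecialLinearGroup (Fin 2) F), H < M →
      (M = ⊤ ∨ (Nat.card M = 12 ∨ Nat.card M = 24 ∨ Nat.card M = 60)) → M = ⊤ := by
    intro M hHM hM
    rcases hM with h | h | h | h
    · exact h
    · exfalso
      have := Subgroup.card_dvd_of_le hHM.le
      rw [hcardH, h] at this
      omega
    · exfalso
      have := Subgroup.card_dvd_of_le hHM.le
      rw [hcardH, h] at this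
      omega
    · exfalso
      have := Subgroup.eq_of_le_of_card_ge hHM.le (by rw [hcardH, h])
      exact hHM.ne this
  rcases h with ⟨hF, hp⟩ | ⟨hF, hp⟩
  · have hp11 : 11 ≤ p := by
      have h2 := hpp.two_le
      have h9 : p ≠ 9 := by
        rintro rfl
        exact absurd hpp (by norm_num)
      omega
    have hodd : Odd (Fintype.card F) := by
      rw [hF, Nat.odd_iff]
      omega
    have hPSL := Cfsg.Agent.Helper13.card_PSL2_mul_two hodd
    rw [hF] at hPSL
    have hbig : 120 < p * (p ^ 2 - 1) := by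
      have h1 : 120 ≤ p ^ 2 - 1 := by
        have : 11 * 11 ≤ p * p := Nat.mul_le_mul hp11 hp11
        have : p ^ 2 = p * p := by ring
        omega
      calc 120 < 11 * 120 := by norm_num
        _ ≤ p * (p ^ 2 - 1) := Nat.mul_le_mul hp11 h1
    refine ⟨?_, ?_⟩
    · intro htop
      have : Nat.card H = Nat.card (Matrix.ProjectiveSpecialLinearGroup (Fin 2) F) := by
        rw [htop, Subgroup.card_top]
      omega
    · intro M hHM
      exact hfin M hHM (Cfsg.Agent.Helper14.PSLMax.max_of p hF hodd H _ _ (e.symm a).2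
        (e.symm b).2 hxy (hcop7 (by omega)) M hHM.le)
  · have hodd : Odd (Fintype.card F) := by
      rw [hF]
      apply Odd.pow
      rw [Nat.odd_iff]
      omega
    have hPSL := Cfsg.Agent.Helper13.card_PSL2_mul_two hodd
    rw [hF] at hPSL
    have hp3 : 3 ≤ p := by
      have := hpp.two_le
      omega
    have hq9 : 9 ≤ p ^ 2 := by
      have : 3 * 3 ≤ p * p := Nat.mul_le_mul hp3 hp3
      have : p ^ 2 = p * p := by ring
      omega
    have hbig : 120 < p ^ 2 * ((p ^ 2) ^ 2 - 1) := by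
      have h1 : 80 ≤ (p ^ 2) ^ 2 - 1 := by
        have : 9 * 9 ≤ p ^ 2 * p ^ 2 := Nat.mul_le_mul hq9 hq9
        have : (p ^ 2) ^ 2 = p ^ 2 * p ^ 2 := by ring
        omega
      calc 120 < 9 * 80 := by norm_num
        _ ≤ p ^ 2 * ((p ^ 2) ^ 2 - 1) := Nat.mul_le_mul hq9 h1
    refine ⟨?_, ?_⟩
    · intro htop
      have : Nat.card H = Nat.card (Matrix.ProjectiveSpecialLinearGroup (Fin 2) F) := by
        rw [htop, Subgroup.card_top]
      omega
    · intro M hHM
      by_cases hp3' : p = 3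
      · by_contra hMtop
        have hsimple : IsSimpleGroup (Matrix.ProjectiveSpecialLinearGroup (Fin 2) F) :=
          Matrix.ProjectiveSpecialLinearGroup.rank_two_simple
            (by rw [Nat.card_eq_fintype_card, hF, hp3']; norm_num)
        have hb := simple_index_bound M hMtop
        rw [hp3'] at hPSL
        have hG : Nat.card (Matrix.ProjectiveSpecialLinearGroup (Fin 2) F) = 360 := by
          have e9 : (3 : ℕ) ^ 2 * ((3 ^ 2) ^ 2 - 1) = 720 := by norm_num
          rw [e9] at hPSL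
          omega
        have hmi := Subgroup.card_mul_index M
        rw [hG] at hmi hb
        obtain ⟨k, hk⟩ := Subgroup.card_dvd_of_le hHM.le
        rw [hcardH] at hk
        have hk1 : k ≠ 1 := by
          intro hk1
          rw [hk1, mul_one] at hk
          have := Subgroup.eq_of_le_of_card_ge hHM.le (by rw [hcardH, hk])
          exact hHM.ne this
        have hk0 : k ≠ 0 := by
          intro hk0
          rw [hk0, mul_zero] at hk
          rw [hk] at hmi
          omega
        rw [hk] at hmi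
        have hki : k * M.index = 6 := by
          have : 60 * (k * M.index) = 60 * 6 := by
            rw [← mul_assoc]
            exact hmi
          omega
        have hi3 : M.index ≤ 3 := by
          by_contra hgt
          have h4 : 4 ≤ M.index := by omega
          have h2 : 2 ≤ k := by omega
          have : 2 * 4 ≤ k * M.index := Nat.mul_le_mul h2 h4
          omega
        have hf : (M.index).factorial ≤ 6 := by
          have : (M.index).factorial ≤ (3 : ℕ).factorial := Nat.factorial_le hi3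
          exact this
        omega
      · have hp7 : 7 ≤ p := by omega
        exact hfin M hHM (Cfsg.Agent.Helper14.SubF.max_sq p hF (by omega) (not_sq_five p hp) H _ _
          (e.symm a).2 (e.symm b).2 hxy (hcop7 hp7) _ (e.symm z).2 hz5 hz1 M hHM.le)

end Cfsg.Agent.S5939
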